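import Mathlib
import Cfsg.Agent.Ch.Rep

/-!
# Self-duality of irreducible modules of real groups over finite fields

Two finite simple modules over an algebra over a finite field with the same trace function are
isomorphic.  Hence an irreducible representation over a finite field of a group all of whose
elements are real carries a non-degenerate invariant bilinear form.
-/

set_option autoImplicit false
set_option linter.unusedSectionVars false
set_option linter.style.haveILetI false

namespace Cfsg.Agent.FG.AH

section trace

variable {F R M M' : Type*} [Field F] [Finite F] [Ring R] [Algebra F R]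
  [AddCommGroup M] [Module R M] [Module F M] [IsScalarTower F R M] [IsSimpleModule R M] [Finite M]
  [AddCommGroup M'] [Module R M'] [Module F M'] [IsScalarTower F R M'] [IsSimpleModule R M']
  [Finite M']

/-- A finite simple module has a linear map with non-zero trace commuting with all module
endomorphisms. -/
theorem exists_trace_ne_zero_comm :
    ∃ f : M →ₗ[F] M, LinearMap.trace F M f ≠ 0 ∧
      ∀ (φ : Module.End R M) (m : M), f (φ m) = φ (f m) := by
  classical
  haveI : Nontrivial M := IsSimpleModule.nontrivial R M
  haveI : Finite (Module.End R M) :=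
    Finite.of_injective (fun φ : Module.End R M => (φ : M → M)) DFunLike.coe_injective
  have hcomm : ∀ a b : Module.End R M, a * b = b * a := fun a b =>
    (littleWedderburn (Module.End R M)).mul_comm a b
  letI : Field (Module.End R M) :=
    { (inferInstance : DivisionRing (Module.End R M)) with mul_comm := hcomm }
  haveI : FiniteDimensional F (Module.End R M) := Module.Finite.of_finite
  haveI : FiniteDimensional F M := Module.Finite.of_finite
  haveI : Algebra.IsAlgebraic F (Module.End R M) := Algebra.IsAlgebraic.of_finite _ _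
  obtain ⟨s, hs⟩ : ∃ s : Module.End R M, Algebra.trace F (Module.End R M) s ≠ 0 := by
    by_contra h
    push Not at h
    exact Algebra.trace_ne_zero F (Module.End R M) (LinearMap.ext h)
  obtain ⟨m₀, hm₀⟩ := exists_ne (0 : M)
  obtain ⟨l, hl⟩ := Module.Projective.exists_dual_eq_one (Module.End R M) hm₀
  let α : M →ₗ[F] Module.End R M := l.restrictScalars F
  let β : Module.End R M →ₗ[F] M :=
    { toFun := fun e => (s * e) m₀
      map_add' := fun a b => by simp [mul_add]
      map_smul' := fun c a => by simp }
  refine ⟨β ∘ₗ α, ?_, fun φ m => ?_⟩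
  · rw [LinearMap.trace_comp_comm']
    have : α ∘ₗ β = Algebra.lmul F (Module.End R M) s := by
      ext1 e
      have h1 : l ((s * e) • m₀) = (s * e) • l m₀ := map_smul l _ _
      rw [hl, smul_eq_mul, mul_one] at h1
      exact h1
    rw [this]
    exact hs
  · have h1 : l (φ • m) = φ • l m := map_smul l _ _
    change (s * l (φ • m)) m₀ = φ ((s * l m) m₀)
    rw [h1, smul_eq_mul, ← mul_assoc, hcomm s φ, mul_assoc]
    rfl

/-- Finite simple modules with the same trace function are isomorphic. -/
theorem nonempty_equiv_of_trace_eq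
    (h : ∀ r : R, LinearMap.trace F M (Algebra.lsmul F F M r) =
      LinearMap.trace F M' (Algebra.lsmul F F M' r)) : Nonempty (M ≃ₗ[R] M') := by
  classical
  by_contra hne
  obtain ⟨f, hf, hfc⟩ := exists_trace_ne_zero_comm (F := F) (R := R) (M := M)
  have h12 : ∀ ψ : M →ₗ[R] M', ψ = 0 := fun ψ =>
    (LinearMap.bijective_or_eq_zero ψ).resolve_left fun hb =>
      hne ⟨LinearEquiv.ofBijective ψ hb⟩
  have h21 : ∀ ψ : M' →ₗ[R] M, ψ = 0 := fun ψ =>
    (LinearMap.bijective_or_eq_zero ψ).resolve_left fun hb =>
      hne ⟨(LinearEquiv.ofBijective ψ hb).symm⟩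
  let Φ : Module.End (Module.End R (M × M')) (M × M') :=
    { toFun := fun x => (f x.1, 0)
      map_add' := fun x y => by simp
      map_smul' := fun g x => by
        have e1 : (g x).1 = (LinearMap.fst R M M' ∘ₗ g ∘ₗ LinearMap.inl R M M') x.1 := by
          have h0 := LinearMap.congr_fun
            (h21 (LinearMap.fst R M M' ∘ₗ g ∘ₗ LinearMap.inr R M M')) x.2
          have hx : x = (x.1, 0) + (0, x.2) := by simp
          conv_lhs => rw [hx, map_add]
          simp only [LinearMap.comp_apply, LinearMap.inr_apply, LinearMap.fst_apply,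
            LinearMap.zero_apply] at h0
          simp [h0]
        have e2 : (g (f x.1, 0)).2 = 0 :=
          LinearMap.congr_fun (h12 (LinearMap.snd R M M' ∘ₗ g ∘ₗ LinearMap.inl R M M')) (f x.1)
        simp only [Module.End.smul_def, RingHom.id_apply]
        refine Prod.ext ?_ e2.symm
        rw [e1, hfc]
        rfl }
  haveI := Fintype.ofFinite (M × M')
  haveI : IsSemisimpleModule R (M × M') := by
    have h1 := IsSemisimpleModule.sup (IsSemisimpleModule.range (LinearMap.inl R M M'))
      (IsSemisimpleModule.range (LinearMap.inr R M M'))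
    rw [LinearMap.sup_range_inl_inr] at h1
    exact IsSemisimpleModule.congr Submodule.topEquiv.symm
  obtain ⟨r, hr⟩ := jacobson_density Φ Finset.univ
  have e1 : Algebra.lsmul F F M r = f := LinearMap.ext fun m =>
    (congrArg Prod.fst (hr (m, 0) (Finset.mem_univ _))).symm
  have e2 : Algebra.lsmul F F M' r = 0 := LinearMap.ext fun m =>
    (congrArg Prod.snd (hr (0, m) (Finset.mem_univ _))).symm
  have := h r
  rw [e1, e2, map_zero] at this
  exact hf this

end trace

section form

variable {F Γ N : Type*} [Field F] [Finite F] [Group Γ] [AddCommGroup N] [Module F N] [Finite N]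

theorem dual_isIrreducible (ρ : Representation F Γ N) [h : ρ.IsIrreducible] :
    ρ.dual.IsIrreducible := by
  haveI : FiniteDimensional F N := Module.Finite.of_finite
  obtain ⟨hN, hU⟩ := (Ch.isIrreducible_iff ρ).1 h
  refine (Ch.isIrreducible_iff _).2 ⟨inferInstance, fun U hinv => ?_⟩
  have hco : ∀ g, ∀ v ∈ U.dualCoannihilator, ρ g v ∈ U.dualCoannihilator := by
    intro g v hv
    rw [Submodule.mem_dualCoannihilator] at hv ⊢
    intro φ hφ
    have := hv _ (hinv g⁻¹ φ hφ)
    rw [Representation.dual_apply, inv_inv] at this
    exact this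
  rcases hU U.dualCoannihilator hco with h0 | h0
  · right
    rw [← Subspace.dualCoannihilator_dualAnnihilator_eq (W := U), h0, Submodule.dualAnnihilator_bot]
  · left
    rw [← Subspace.dualCoannihilator_dualAnnihilator_eq (W := U), h0, Submodule.dualAnnihilator_top]

theorem trace_asModule (ρ : Representation F Γ N) (r : MonoidAlgebra F Γ) :
    LinearMap.trace F ρ.asModule (Algebra.lsmul F F ρ.asModule r) =
      LinearMap.trace F N (ρ.asAlgebraHom r) := rfl

/-- An irreducible representation over a finite field of a group whose elements are real has a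
non-zero invariant bilinear form. -/
theorem exists_form_aux (ρ : Representation F Γ N) [ρ.IsIrreducible]
    (hreal : ∀ g : Γ, IsConj g g⁻¹) :
    ∃ B : N →ₗ[F] N →ₗ[F] F, B ≠ 0 ∧ ∀ g a b, B (ρ g a) (ρ g b) = B a b := by
  haveI : FiniteDimensional F N := Module.Finite.of_finite
  haveI := dual_isIrreducible ρ
  haveI : Finite (Module.Dual F N) := Module.finite_of_finite F
  haveI : Finite ρ.asModule := inferInstanceAs (Finite N)
  haveI : Finite ρ.dual.asModule := inferInstanceAs (Finite (Module.Dual F N))
  haveI : Nontrivial N := Ch.nontrivial_of_isIrreducible ρ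
  have htr : ∀ g, LinearMap.trace F N (ρ g) =
      LinearMap.trace F (Module.Dual F N) (ρ.dual g) := by
    intro g
    obtain ⟨c, hc⟩ := isConj_iff.1 (hreal g)
    rw [Representation.dual_apply, LinearMap.trace_transpose', ← hc, map_mul ρ, map_mul ρ,
      LinearMap.trace_mul_comm, ← mul_assoc, ← map_mul ρ, inv_mul_cancel, map_one, one_mul]
  obtain ⟨e⟩ := nonempty_equiv_of_trace_eq (F := F) (R := MonoidAlgebra F Γ) (M := ρ.asModule)
    (M' := ρ.dual.asModule) (fun r => by
      rw [trace_asModule, trace_asModule]
      induction r using MonoidAlgebra.induction_linear with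
      | zero => simp
      | add a b ha hb => rw [map_add, map_add, map_add, map_add, ha, hb]
      | single g c =>
        rw [Representation.asAlgebraHom_single, Representation.asAlgebraHom_single, map_smul,
          map_smul, htr])
  let B : N →ₗ[F] N →ₗ[F] F :=
    ρ.dual.asModuleEquiv.toLinearMap ∘ₗ (e.toLinearMap.restrictScalars F) ∘ₗ
      ρ.asModuleEquiv.symm.toLinearMap
  have hB : ∀ g a, B (ρ g a) = ρ.dual g (B a) := by
    intro g a
    have h1 := e.map_smul (MonoidAlgebra.single g (1 : F)) (ρ.asModuleEquiv.symm a)
    have h2 : ρ.asModuleEquiv.symm (ρ g a) =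
        MonoidAlgebra.single g (1 : F) • ρ.asModuleEquiv.symm a :=
      Representation.asModuleEquiv_symm_map_rho ρ g a
    change ρ.dual.asModuleEquiv (e (ρ.asModuleEquiv.symm (ρ g a))) =
      ρ.dual g (ρ.dual.asModuleEquiv (e (ρ.asModuleEquiv.symm a)))
    rw [h2, h1, Representation.asModuleEquiv_map_smul]
    simp
  refine ⟨B, fun h0 => ?_, fun g a b => ?_⟩
  · obtain ⟨a, ha⟩ := exists_ne (0 : N)
    have h1 : B a = 0 := by rw [h0]; rfl
    have h2 : ρ.dual.asModuleEquiv (e (ρ.asModuleEquiv.symm a)) = 0 := h1
    simp [ha] at h2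
  · rw [hB, Representation.dual_apply]
    change B a (ρ g⁻¹ (ρ g b)) = B a b
    rw [← Module.End.mul_apply, ← map_mul, inv_mul_cancel, map_one, Module.End.one_apply]

/-- An irreducible representation over a finite field of a group whose elements are real has a
non-degenerate invariant bilinear form which is symmetric or skew. -/
theorem exists_form (ρ : Representation F Γ N) [hρ : ρ.IsIrreducible]
    (hreal : ∀ g : Γ, IsConj g g⁻¹) :
    ∃ (B : N →ₗ[F] N →ₗ[F] F) (ε : F), ε * ε = 1 ∧ (∀ a, (∀ b, B a b = 0) → a = 0) ∧
      (∀ g a b, B (ρ g a) (ρ g b) = B a b) ∧ ∀ a b, B b a = ε * B a b := by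
  have key : ∀ B : N →ₗ[F] N →ₗ[F] F, B ≠ 0 → (∀ g a b, B (ρ g a) (ρ g b) = B a b) →
      ∀ a, (∀ b, B a b = 0) → a = 0 := by
    intro B hB hinv a ha
    have hk : ∀ g, ∀ v ∈ LinearMap.ker B, ρ g v ∈ LinearMap.ker B := by
      intro g v hv
      rw [LinearMap.mem_ker] at hv ⊢
      ext b
      have := hinv g v (ρ g⁻¹ b)
      rw [← Module.End.mul_apply, ← map_mul, mul_inv_cancel, map_one, Module.End.one_apply,
        hv] at this
      exact this
    rcases ((Ch.isIrreducible_iff ρ).1 hρ).2 (LinearMap.ker B) hk with h0 | h0
    · have : a ∈ LinearMap.ker B := LinearMap.ext ha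
      rwa [h0, Submodule.mem_bot] at this
    · exact absurd (LinearMap.ker_eq_top.1 h0) hB
  obtain ⟨B, hB, hinv⟩ := exists_form_aux ρ hreal
  by_cases h : B + B.flip = 0
  · refine ⟨B, -1, by simp, key B hB hinv, hinv, fun a b => ?_⟩
    have := LinearMap.congr_fun₂ h a b
    simp only [LinearMap.add_apply, LinearMap.flip_apply, LinearMap.zero_apply] at this
    linear_combination this
  · have hinv' : ∀ g a b, (B + B.flip) (ρ g a) (ρ g b) = (B + B.flip) a b := by
      intro g a b
      simp [hinv]
    refine ⟨B + B.flip, 1, by simp, key _ h hinv', hinv', fun a b => ?_⟩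
    simp [add_comm]

end form

end Cfsg.Agent.FG.AH
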