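import Mathlib
import Cfsg.Agent.GT.PGroupMaxClass
import Cfsg.Agent.GT.CNGroup

/-!
# Groups in which every element is conjugate to all generators of the cyclic group it generates
-/

set_option autoImplicit false
set_option linter.unusedSectionVars false
set_option linter.style.haveILetI false

namespace Cfsg.Agent.FG.AH

open Cfsg.Agent.GT Subgroup

variable {G : Type*} [Group G]

/-- Every element is conjugate to its powers with exponent prime to its order. -/
def Rtl (G : Type*) [Group G] : Prop :=
  ∀ (x : G) (k : ℕ), k.Coprime (orderOf x) → IsConj x (x ^ k)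

theorem Rtl.of_surjective [Finite G] (h : Rtl G) {H : Type*} [Group H] (f : G →* H)
    (hf : Function.Surjective f) : Rtl H := by
  intro y k hk
  obtain ⟨x, rfl⟩ := hf y
  haveI : Finite H := Finite.of_surjective f hf
  obtain ⟨q, hq1, hq2, hq3⟩ := Nat.forall_exists_prime_gt_and_modEq (orderOf x)
    (orderOf_pos (f x)).ne' hk
  have h1 := h x q ((Nat.Prime.coprime_iff_not_dvd hq2).2 fun hd =>
    absurd (Nat.le_of_dvd (orderOf_pos x) hd) (by omega))
  have h2 := f.map_isConj h1
  rwa [map_pow, pow_eq_pow_iff_modEq.2 hq3] at h2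

theorem Rtl.quotient [Finite G] (h : Rtl G) (N : Subgroup G) [N.Normal] : Rtl (G ⧸ N) :=
  h.of_surjective _ (QuotientGroup.mk'_surjective N)

theorem Rtl.real [Finite G] (h : Rtl G) (g : G) : IsConj g g⁻¹ := by
  have h0 := orderOf_pos g
  have h1 := h g (orderOf g - 1) (by
    obtain ⟨n, hn⟩ : ∃ n, orderOf g = n + 1 := ⟨orderOf g - 1, by omega⟩
    rw [hn]
    simp)
  have h2 : g ^ (orderOf g - 1) = g⁻¹ := by
    rw [eq_inv_iff_mul_eq_one, ← pow_succ, Nat.sub_add_cancel h0, pow_orderOf_eq_one]
  rwa [h2] at h1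

theorem Rtl.split [Finite G] (h : Rtl G) {x y : G} (hc : Commute x y)
    (hxy : (orderOf x).Coprime (orderOf y)) {k : ℕ} (hk : k.Coprime (orderOf y)) :
    ∃ g, g * x * g⁻¹ = x ∧ g * y * g⁻¹ = y ^ k := by
  obtain ⟨m, hm1, hm2⟩ := Nat.chineseRemainder hxy 1 k
  obtain ⟨a, ha1, ha2⟩ := Nat.chineseRemainder hxy 1 0
  have hm : m.Coprime (orderOf (x * y)) := by
    rw [hc.orderOf_mul_eq_mul_orderOf_of_coprime hxy]
    refine Nat.Coprime.mul_right ?_ ?_
    · rw [Nat.Coprime, hm1.gcd_eq]; simp
    · rw [Nat.Coprime, hm2.gcd_eq]; exact hk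
  obtain ⟨g, hg⟩ := isConj_iff.1 (h _ m hm)
  rw [hc.mul_pow, pow_eq_pow_iff_modEq.2 hm1, pow_eq_pow_iff_modEq.2 hm2, pow_one] at hg
  have hxa : x ^ a = x := by rw [pow_eq_pow_iff_modEq.2 ha1, pow_one]
  have hya : y ^ a = 1 := by rw [pow_eq_pow_iff_modEq.2 ha2, pow_zero]
  have h1 : g * x * g⁻¹ = x := by
    have := congrArg (· ^ a) hg
    simp only [conj_pow] at this
    rwa [hc.mul_pow, (hc.pow_right k).mul_pow, ← pow_mul, mul_comm k a, pow_mul, hxa, hya, one_pow,
      mul_one] at this
  refine ⟨g, h1, ?_⟩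
  have : g * (x * y) * g⁻¹ = (g * x * g⁻¹) * (g * y * g⁻¹) := by group
  rw [this, h1] at hg
  exact mul_left_cancel hg

/-- The number of conjugates of `y` under a subgroup containing its centralizer divides the size
of the class. -/
theorem ncard_orbit_dvd (y : G) (H : Subgroup G) (hH : centralizer {y} ≤ H) :
    {w | ∃ h ∈ H, h * y * h⁻¹ = w}.ncard ∣ (centralizer {y}).index := by
  letI : MulAction H G := MulAction.compHom G ((MulAut.conj (G := G)).comp H.subtype)
  have h1 := MulAction.index_stabilizer H y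
  have h2 : MulAction.stabilizer H y = (centralizer {y}).subgroupOf H := by
    ext h
    rw [MulAction.mem_stabilizer_iff, mem_subgroupOf, mem_centralizer_singleton_iff]
    exact mul_inv_eq_iff_eq_mul
  have h3 : MulAction.orbit H y = {w | ∃ h ∈ H, h * y * h⁻¹ = w} := by
    ext w
    exact ⟨fun ⟨h, e⟩ => ⟨h, h.2, e⟩, fun ⟨h, hh, e⟩ => ⟨⟨h, hh⟩, e⟩⟩
  rw [← h3, ← h1, h2]
  exact relIndex_dvd_index_of_le hH

theorem Rtl.totient_dvd [Finite G] (h : Rtl G) (a : G) :
    (orderOf a).totient ∣ (centralizer {a}).index := by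
  classical
  have key : ∀ g w, w ∈ zpowers a → g * a * g⁻¹ = w → g ∈ normalizer (zpowers a : Set G) := by
    intro g w hw e
    refine PG.le_normalizer_of_forall_map_le (H := zpowers g) (fun x hx => ?_) (mem_zpowers g)
    have : ∀ n : ℕ, g ^ n * a * (g ^ n)⁻¹ ∈ zpowers a := by
      intro n
      induction n with
      | zero => simp
      | succ n ih =>
        obtain ⟨k, hk⟩ := ih
        have : g ^ (n + 1) * a * (g ^ (n + 1))⁻¹ = g * (g ^ n * a * (g ^ n)⁻¹) * g⁻¹ := by
          rw [pow_succ']; group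
        rw [this, ← hk, ← conj_zpow, e]
        exact zpow_mem hw k
    obtain ⟨n, rfl⟩ := (mem_powers_iff_mem_zpowers.2 hx)
    rw [MonoidHom.map_zpowers, zpowers_le]
    exact this n
  have h1 := ncard_orbit_dvd a (normalizer (zpowers a : Set G)) fun g hg =>
    key g a (mem_zpowers a) (mul_inv_eq_iff_eq_mul.2 (mem_centralizer_singleton_iff.1 hg))
  haveI := Fintype.ofFinite (zpowers a)
  have h2 := IsCyclic.card_orderOf_eq_totient (α := zpowers a) (d := orderOf a)
    (by rw [← Nat.card_eq_fintype_card, Nat.card_zpowers])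
  have h3 : {w | ∃ g ∈ normalizer (zpowers a : Set G), g * a * g⁻¹ = w} =
      Subtype.val '' ((Finset.univ.filter fun x : zpowers a => orderOf x = orderOf a :
        Finset (zpowers a)) : Set (zpowers a)) := by
    ext w
    constructor
    · rintro ⟨g, hg, rfl⟩
      refine ⟨⟨_, (mem_normalizer_iff.1 hg a).1 (mem_zpowers a)⟩, ?_, rfl⟩
      simp only [Finset.coe_filter, Finset.mem_univ, true_and, Set.mem_ofPred_eq, orderOf_mk]
      exact (MulAut.conj g).orderOf_eq a
    · rintro ⟨⟨w, hw⟩, h4, rfl⟩
      simp only [Finset.coe_filter, Finset.mem_univ, true_and, Set.mem_ofPred_eq, orderOf_mk] at h4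
      obtain ⟨k, rfl⟩ := mem_powers_iff_mem_zpowers.2 hw
      have hk : k.Coprime (orderOf a) := by
        simp only at h4
        rw [orderOf_pow] at h4
        have := (Nat.div_eq_self.1 h4).resolve_left (orderOf_pos a).ne'
        exact Nat.Coprime.symm this
      obtain ⟨g, hg⟩ := isConj_iff.1 (h a k hk)
      exact ⟨g, key g _ hw hg, hg⟩
  rwa [h3, Set.ncard_image_of_injective _ Subtype.val_injective, Set.ncard_coe_finset, h2] at h1

theorem Rtl.mul_totient_dvd [Finite G] (h : Rtl G) (a : G) :
    orderOf a * (orderOf a).totient ∣ Nat.card G := by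
  rw [← (centralizer {a}).card_mul_index]
  refine mul_dvd_mul ?_ (h.totient_dvd a)
  rw [← Nat.card_zpowers]
  exact card_dvd_of_le (zpowers_le.2 (mem_centralizer_singleton_iff.2 rfl))

theorem card_centralizer_map_le [Finite G] {H : Type*} [Group H] (f : G →* H)
    (hf : Function.Surjective f) (x : G) :
    Nat.card (centralizer {f x}) ≤ Nat.card (centralizer {x}) := by
  refine le_trans (le_of_eq ?_) (PG.card_centralizer_mk_le f.ker x)
  let e := QuotientGroup.quotientKerEquivOfSurjective f hf
  refine (Nat.card_congr (e.toEquiv.subtypeEquiv fun a => ?_)).symm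
  rw [mem_centralizer_singleton_iff, mem_centralizer_singleton_iff, ← e.injective.eq_iff,
    map_mul, map_mul]
  rfl

/-- If a central element `z` of order prime to that of `y` is killed by a surjection `f` and the
centralizer of `y` is generated by `y` and `z`, the centralizer of `f y` has order at most the
order of `y`. -/
theorem card_centralizer_map_le_orderOf [Finite G] {H : Type*} [Group H] (f : G →* H)
    (hf : Function.Surjective f) {y z : G} (hz : z ∈ center G) (hfz : f z = 1)
    (hyz : (orderOf y).Coprime (orderOf z))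
    (hC : ∀ g, Commute g y → ∃ a ∈ zpowers y, ∃ b ∈ zpowers z, g = a * b) :
    Nat.card (centralizer {f y}) ≤ orderOf y := by
  haveI : (zpowers z).Normal := ⟨fun n hn g => by
    have := mem_center_iff.1 (zpowers_le.2 hz hn) g
    rwa [this, mul_inv_cancel_right]⟩
  let f' : G ⧸ zpowers z →* H := QuotientGroup.lift _ f (zpowers_le.2 hfz)
  have hf' : Function.Surjective f' := QuotientGroup.lift_surjective_of_surjective _ f hf _
  refine (card_centralizer_map_le f' hf' (y : G ⧸ zpowers z)).trans ?_
  have hle : centralizer {(y : G ⧸ zpowers z)} ≤ (zpowers y).map (QuotientGroup.mk' _) := by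
    intro q hq
    obtain ⟨g, rfl⟩ := QuotientGroup.mk_surjective q
    obtain ⟨g', h1, h2⟩ := CN.exists_lift_commute (zpowers z) (y := y) (g := g)
      (by rwa [Nat.card_zpowers]) (mem_centralizer_singleton_iff.1 hq)
    obtain ⟨a, ha, b, hb, rfl⟩ := hC g' h1
    refine ⟨a, ha, ?_⟩
    rw [← h2, QuotientGroup.mk_mul, (QuotientGroup.eq_one_iff b).2 hb, mul_one]
    rfl
  refine (card_le_of_le hle).trans ?_
  rw [MonoidHom.map_zpowers, Nat.card_zpowers]
  exact Nat.le_of_dvd (orderOf_pos y) (orderOf_map_dvd _ y)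

/-- A centralizer which is not larger than the cyclic group generated by the element. -/
theorem mem_zpowers_of_card_le [Finite G] {y g : G} (h : Nat.card (centralizer {y}) ≤ orderOf y)
    (hg : Commute g y) : g ∈ zpowers y := by
  have := eq_of_le_of_card_ge (zpowers_le.2 (mem_centralizer_singleton_iff.2 rfl) :
    zpowers y ≤ centralizer {y}) (by rwa [Nat.card_zpowers])
  rw [this]
  exact mem_centralizer_singleton_iff.2 hg

end Cfsg.Agent.FG.AH
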