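import Mathlib
import Cfsg.Agent.FG.AHRat
import Cfsg.Agent.FG.SylowNormal
import Cfsg.Agent.GT.MinNormal
import Cfsg.Agent.GT.Cores

/-!
# Linear `{2,3}`-groups with a fixed point free element of order three and small centralizer
-/

set_option autoImplicit false
set_option linter.unusedSectionVars false
set_option linter.style.haveILetI false

namespace Cfsg.Agent.FG.AH

open Cfsg.Agent.GT Subgroup

section grp

variable {L : Type*} [Group L] [Finite L]

/-- If the `3`-elements of the centralizer of an element `c` of order three are powers of `c`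
and `c` is real, all non-trivial `3`-elements are conjugate to `c`. -/
theorem conj_of_three {c s : L} (hc : orderOf c = 3) (hs : s * c * s⁻¹ = c⁻¹)
    (hC : ∀ g, Commute g c → (∃ k, g ^ 3 ^ k = 1) → g ∈ zpowers c) {d : L} (hd1 : d ≠ 1)
    (hd : ∃ k, orderOf d = 3 ^ k) : ∃ g, g * d * g⁻¹ = c := by
  haveI : Fact (Nat.Prime 3) := ⟨Nat.prime_three⟩
  have hc1 : c ≠ 1 := fun h => by rw [h, orderOf_one] at hc; omega
  obtain ⟨P, hP⟩ := (IsPGroup.of_card (p := 3) (G := zpowers c) (n := 1)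
    (by rw [Nat.card_zpowers, hc, pow_one])).exists_le_sylow
  have hcP : c ∈ P := hP (mem_zpowers c)
  have hP3 : ∀ g ∈ (P : Subgroup L), ∃ k, g ^ 3 ^ k = 1 := fun g hg => by
    obtain ⟨k, hk⟩ := P.isPGroup' ⟨g, hg⟩
    exact ⟨k, congrArg Subtype.val hk⟩
  haveI : Nontrivial (P : Subgroup L) := ⟨⟨c, hcP⟩, 1, fun h0 => hc1 (congrArg Subtype.val h0)⟩
  haveI := P.isPGroup'.center_nontrivial
  obtain ⟨⟨⟨w, hwP⟩, hw⟩, hw1⟩ := exists_ne (1 : center (P : Subgroup L))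
  have hwc : ∀ g ∈ (P : Subgroup L), Commute g w := fun g hg =>
    congrArg Subtype.val (mem_center_iff.1 hw ⟨g, hg⟩)
  have hw1' : w ≠ 1 := fun h0 => hw1 (Subtype.ext (Subtype.ext h0))
  obtain ⟨j, hj⟩ := mem_zpowers_of_prime_card (G := zpowers c) (p := 3)
    (by rw [Nat.card_zpowers, hc]) (g := ⟨w, hC w (hwc c hcP).symm (hP3 w hwP)⟩)
    (g' := ⟨c, mem_zpowers c⟩) fun h0 => hw1' (congrArg Subtype.val h0)
  have hj' : w ^ j = c := congrArg Subtype.val hj
  have hPc : ∀ g ∈ (P : Subgroup L), g ∈ zpowers c := fun g hg =>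
    hC g (hj' ▸ (hwc g hg).zpow_right j) (hP3 g hg)
  obtain ⟨k, hk⟩ := hd
  obtain ⟨P', hP'⟩ := (IsPGroup.of_card (p := 3) (G := zpowers d) (n := k)
    (by rw [Nat.card_zpowers, hk])).exists_le_sylow
  obtain ⟨g, hg⟩ := MulAction.exists_smul_eq L P' P
  have h1 : g * d * g⁻¹ ∈ (P : Subgroup L) := by
    rw [← hg]
    exact ⟨d, hP' (mem_zpowers d), rfl⟩
  obtain ⟨n, hn⟩ := mem_powers_iff_mem_zpowers.2 (hPc _ h1)
  simp only at hn
  rw [← pow_mod_orderOf, hc] at hn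
  have h3 : n % 3 = 0 ∨ n % 3 = 1 ∨ n % 3 = 2 := by omega
  rcases h3 with h3 | h3 | h3 <;> rw [h3] at hn
  · exact absurd (conj_eq_one_iff.1 (hn.symm.trans (pow_zero c))) hd1
  · exact ⟨g, by rw [← hn, pow_one]⟩
  · refine ⟨s * g, ?_⟩
    have h4 : c ^ 3 = 1 := hc ▸ pow_orderOf_eq_one c
    calc s * g * d * (s * g)⁻¹ = s * (g * d * g⁻¹) * s⁻¹ := by group
      _ = (s * c * s⁻¹) ^ 2 := by rw [← hn, conj_pow]
      _ = c * (c ^ 3)⁻¹ := by rw [hs]; group
      _ = c := by rw [h4, inv_one, mul_one]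

end grp

section lin

variable {F U : Type*} [Field F] [AddCommGroup U] [Module F U]

theorem eq_one_of_unipotent (h2 : (2 : F) ≠ 0) {T : Module.End F U} (h : (T - 1) * (T - 1) = 0)
    {k : ℕ} (hk : T ^ 2 ^ k = 1) : T = 1 := by
  have key : ∀ n : ℕ, T ^ n = 1 + (n : F) • (T - 1) := by
    intro n
    induction n with
    | zero => simp
    | succ n ih =>
      have h1 : (T - 1) * T = T - 1 := by
        calc (T - 1) * T = (T - 1) * (T - 1) + (T - 1) := by noncomm_ring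
          _ = T - 1 := by rw [h, zero_add]
      rw [pow_succ, ih, add_mul, one_mul, smul_mul_assoc, h1, Nat.cast_succ, add_smul, one_smul]
      abel
  rw [key, add_eq_left, smul_eq_zero, Nat.cast_pow] at hk
  exact sub_eq_zero.1 (hk.resolve_left (pow_ne_zero _ h2))

end lin

/-- The configuration studied in this file. -/
structure QD {L F U : Type*} [Group L] [Field F] [AddCommGroup U] [Module F U]
    (ρ : L →* Module.End F U) (c s z : L) : Prop where
  inj : Function.Injective ρ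
  two : (2 : F) ≠ 0
  three : (3 : F) ≠ 0
  nt : Nontrivial U
  quad : ρ c * ρ c + ρ c + 1 = 0
  inv : s * c * s⁻¹ = c⁻¹
  sgn : ρ z = -1 ∨ z = 1
  cent : ∀ g, Commute g c → ∃ j : ℕ, g = c ^ j ∨ g = z * c ^ j

namespace QD

variable {L F U : Type*} [Group L] [Finite L] [Field F] [AddCommGroup U] [Module F U]
  {ρ : L →* Module.End F U} {c s z : L} (H : QD ρ c s z)

include H

theorem comm_z (g : L) : Commute z g := by
  rcases H.sgn with h | h
  · refine H.inj ?_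
    rw [map_mul, map_mul, h, neg_one_mul, mul_neg_one]
  · rw [h]; exact Commute.one_left g

theorem z_sq : z * z = 1 := by
  rcases H.sgn with h | h
  · refine H.inj ?_
    rw [map_mul, h, map_one, neg_mul_neg, one_mul]
  · rw [h, one_mul]

theorem z_inv : z⁻¹ = z := inv_eq_of_mul_eq_one_right H.z_sq

theorem c_cube : c ^ 3 = 1 := by
  refine H.inj ?_
  rw [map_pow, map_one, ← sub_eq_zero]
  calc ρ c ^ 3 - 1 = (ρ c - 1) * (ρ c * ρ c + ρ c + 1) := by noncomm_ring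
    _ = 0 := by rw [H.quad, mul_zero]

theorem c_ne : c ≠ 1 := by
  intro h
  haveI := H.nt
  obtain ⟨v, hv⟩ := exists_ne (0 : U)
  have := LinearMap.congr_fun H.quad v
  rw [h, map_one] at this
  simp only [mul_one, LinearMap.add_apply, Module.End.one_apply, LinearMap.zero_apply] at this
  have h3 : (3 : F) • v = 0 := by
    rw [← this, show (3 : F) = 1 + 1 + 1 by norm_num, add_smul, add_smul, one_smul]
  exact hv ((smul_eq_zero.1 h3).resolve_left H.three)

theorem c_order : orderOf c = 3 :=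
  haveI : Fact (Nat.Prime 3) := ⟨Nat.prime_three⟩
  orderOf_eq_prime H.c_cube H.c_ne

theorem pow_cube (j : ℕ) : (c ^ j) ^ 3 = 1 := by
  rw [← pow_mul, mul_comm, pow_mul, H.c_cube, one_pow]

theorem pow_eq_one_of_sq {j : ℕ} (h : c ^ j * c ^ j = 1) : c ^ j = 1 := by
  have := H.pow_cube j
  rwa [pow_succ, pow_two, h, one_mul] at this

theorem conj_pow_c (j : ℕ) : s * c ^ j * s⁻¹ = (c ^ j)⁻¹ := by
  rw [← conj_pow, H.inv, inv_pow]

theorem neg_one_ne : (-1 : Module.End F U) ≠ 1 := by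
  intro h
  haveI := H.nt
  obtain ⟨v, hv⟩ := exists_ne (0 : U)
  have := LinearMap.congr_fun h v
  simp only [LinearMap.neg_apply, Module.End.one_apply] at this
  have h2 : (2 : F) • v = 0 := by rw [two_smul]; nth_rw 1 [← this]; exact neg_add_cancel v
  exact hv ((smul_eq_zero.1 h2).resolve_left H.two)

theorem eq_z {q : L} (hq : ρ q = -1) : q = z ∧ z ≠ 1 := by
  have h1 : q ≠ 1 := fun h => H.neg_one_ne (by rw [← hq, h, map_one])
  have h2 : q * q = 1 := H.inj (by rw [map_mul, hq, map_one, neg_mul_neg, one_mul])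
  obtain ⟨j, hj | hj⟩ := H.cent q (H.inj (by rw [map_mul, map_mul, hq, neg_one_mul, mul_neg_one]))
  · exact absurd (hj.trans (H.pow_eq_one_of_sq (hj ▸ h2))) h1
  · have h3 : c ^ j * c ^ j = 1 := by
      rw [← h2, hj, mul_assoc, ← mul_assoc (c ^ j) z, ← (H.comm_z _).eq, mul_assoc, ← mul_assoc,
        H.z_sq, one_mul]
    rw [H.pow_eq_one_of_sq h3, mul_one] at hj
    exact ⟨hj, hj ▸ h1⟩

theorem conj_c {d : L} (hd1 : d ≠ 1) (hd : ∃ k, orderOf d = 3 ^ k) : ∃ g, g * d * g⁻¹ = c := by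
  refine conj_of_three H.c_order H.inv (fun g hg ⟨k, hk⟩ => ?_) hd1 hd
  obtain ⟨j, rfl | rfl⟩ := H.cent g hg
  · exact npow_mem_zpowers c j
  · have h1 : (z * c ^ j) ^ 3 ^ (k + 1) = 1 := by rw [pow_succ, pow_mul, hk, one_pow]
    have h2 : z ^ 3 ^ (k + 1) = z := by
      obtain ⟨m, hm⟩ : Odd (3 ^ (k + 1)) := Odd.pow (by decide)
      rw [hm, pow_succ, pow_mul, pow_two, H.z_sq, one_pow, one_mul]
    rw [(H.comm_z _).mul_pow, h2, pow_succ', pow_mul, H.pow_cube, one_pow, mul_one] at h1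
    rw [h1, one_mul]
    exact npow_mem_zpowers c j

theorem z_mem : z ∈ pCore 2 L := by
  haveI : (zpowers z).Normal := ⟨fun n hn g => by
    obtain ⟨k, rfl⟩ := hn
    simp only
    rw [← ((H.comm_z g).zpow_left k).eq, mul_inv_cancel_right]
    exact zpow_mem_zpowers z k⟩
  refine le_pCore (N := zpowers z) ?_ (mem_zpowers z)
  rintro ⟨_, k, rfl⟩
  refine ⟨1, Subtype.ext ?_⟩
  change (z ^ k) ^ 2 ^ 1 = 1
  rw [pow_one, pow_two, ← (Commute.refl z).mul_zpow, H.z_sq, one_zpow]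

theorem pow_eq_one_of_mem {j : ℕ} (h : c ^ j ∈ pCore 2 L) : c ^ j = 1 := by
  obtain ⟨k, hk⟩ := isPGroup_pCore 2 ⟨_, h⟩
  have h1 : orderOf (c ^ j) ∣ 2 ^ k := orderOf_dvd_of_pow_eq_one (congrArg Subtype.val hk)
  have h2 : orderOf (c ^ j) ∣ 3 := orderOf_dvd_of_pow_eq_one (H.pow_cube j)
  exact orderOf_eq_one_iff.1 (Nat.eq_one_of_dvd_coprimes
    ((show Nat.Coprime 2 3 by norm_num).pow_left k) h1 h2)

theorem lift {g : L} (hg : Commute (g : L ⧸ pCore 2 L) c) :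
    ∃ q ∈ pCore 2 L, ∃ j : ℕ, g = q * c ^ j := by
  haveI : Fact (Nat.Prime 2) := ⟨Nat.prime_two⟩
  obtain ⟨k, hk⟩ := IsPGroup.iff_card.1 (isPGroup_pCore (G := L) 2)
  obtain ⟨g', h1, h2⟩ := CN.exists_lift_commute (pCore 2 L) (y := c) (g := g)
    (by rw [H.c_order, hk]; exact (show Nat.Coprime 3 2 by norm_num).pow_right k) hg
  have h3 : g * g'⁻¹ ∈ pCore 2 L := by
    rw [← QuotientGroup.eq_one_iff, QuotientGroup.mk_mul, QuotientGroup.mk_inv, h2, mul_inv_cancel]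
  obtain ⟨j, hj | hj⟩ := H.cent g' h1
  · exact ⟨_, h3, j, by rw [← hj, inv_mul_cancel_right]⟩
  · exact ⟨_, mul_mem h3 H.z_mem, j, by rw [mul_assoc, ← hj, inv_mul_cancel_right]⟩

theorem decomp (hL : Group.IsSolvable L) (hprime : ∀ r, r.Prime → r ∣ Nat.card L → r = 2 ∨ r = 3)
    (g : L) : ∃ q ∈ pCore 2 L, ∃ j : ℕ, g = q * c ^ j ∨ g = q * c ^ j * s := by
  haveI : Fact (Nat.Prime 3) := ⟨Nat.prime_three⟩
  have hc1 : (c : L ⧸ pCore 2 L) ≠ 1 := fun h => H.c_ne (by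
    have := H.pow_eq_one_of_mem (j := 1) (by rw [pow_one]; exact (QuotientGroup.eq_one_iff c).1 h)
    rwa [pow_one] at this)
  haveI : Nontrivial (L ⧸ pCore 2 L) := ⟨_, _, hc1⟩
  obtain ⟨V, r, hV, -, hr, hE⟩ := exists_isMinNormal_elementary_le
    (H := (⊤ : Subgroup (L ⧸ pCore 2 L))) top_ne_bot
  haveI := hV.normal
  haveI := (nontrivial_iff_ne_bot V).2 hV.ne_bot
  obtain ⟨⟨v, hv⟩, hv1⟩ := exists_ne (1 : V)
  have hv1' : v ≠ 1 := fun h => hv1 (Subtype.ext h)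
  haveI := Fact.mk hr
  have hvo : orderOf v = r := orderOf_eq_prime (hE.2 v hv) hv1'
  rcases hprime r hr ((hvo ▸ orderOf_dvd_natCard v).trans (card_quotient_dvd_card _)) with
    rfl | rfl
  · exact absurd (eq_bot_iff.2 ((le_pCore hE.isPGroup).trans pCore_quotient_pCore.le)) hV.ne_bot
  obtain ⟨d, rfl, hd⟩ := H96.exists_pElement_lift (p := 3)
    (QuotientGroup.mk'_surjective (pCore 2 L)) (y := v) ⟨1, by rw [hvo, pow_one]⟩
  obtain ⟨a, ha⟩ := H.conj_c (d := d) (fun h => hv1' (by rw [h, map_one])) hd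
  have hcV : (c : L ⧸ pCore 2 L) ∈ V := by
    rw [← ha]
    exact hV.normal.conj_mem _ hv (a : L ⧸ pCore 2 L)
  obtain ⟨q, hq, j, hj⟩ := H.lift (g := g * c * g⁻¹)
    (hE.comm (hV.normal.conj_mem _ hcV (g : L ⧸ pCore 2 L)) hcV)
  have h1 : (g : L ⧸ pCore 2 L) * c * (g : L ⧸ pCore 2 L)⁻¹ = (c : L ⧸ pCore 2 L) ^ (j % 3) := by
    have := congrArg (QuotientGroup.mk (s := pCore 2 L)) hj
    rw [QuotientGroup.mk_mul _ q, (QuotientGroup.eq_one_iff q).2 hq, one_mul, ← pow_mod_orderOf,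
      H.c_order] at this
    exact this
  have h3 : j % 3 = 0 ∨ j % 3 = 1 ∨ j % 3 = 2 := by omega
  rcases h3 with h3 | h3 | h3 <;> rw [h3] at h1
  · exact absurd (conj_eq_one_iff.1 (h1.trans (pow_zero _))) hc1
  · obtain ⟨q, hq, j, hj⟩ := H.lift (g := g) (mul_inv_eq_iff_eq_mul.1 (h1.trans (pow_one _)))
    exact ⟨q, hq, j, Or.inl hj⟩
  · have h4 : s⁻¹ * c * s = c ^ 2 := by
      have h5 := H.conj_pow_c 2
      have h6 : (c ^ 2)⁻¹ = c := inv_eq_of_mul_eq_one_right (by rw [← pow_succ, H.c_cube])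
      rw [h6] at h5
      calc s⁻¹ * c * s = s⁻¹ * (s * c ^ 2 * s⁻¹) * s := by rw [h5]
        _ = c ^ 2 := by group
    have h5 : ((g * s⁻¹ : L) : L ⧸ pCore 2 L) * c * ((g * s⁻¹ : L) : L ⧸ pCore 2 L)⁻¹ = c := by
      have h6 : g * s⁻¹ * c * (g * s⁻¹)⁻¹ = (g * c * g⁻¹) ^ 2 := by
        rw [conj_pow, ← h4]; group
      have h7 := congrArg (QuotientGroup.mk (s := pCore 2 L)) h6
      have h8 : c ^ 4 = c := by rw [pow_succ, H.c_cube, one_mul]
      refine h7.trans ?_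
      rw [QuotientGroup.mk_pow]
      change ((g : L ⧸ pCore 2 L) * c * (g : L ⧸ pCore 2 L)⁻¹) ^ 2 = _
      rw [h1, ← pow_mul, ← QuotientGroup.mk_pow, h8]
    obtain ⟨q, hq, j, hj⟩ := H.lift (g := g * s⁻¹) (mul_inv_eq_iff_eq_mul.1 h5)
    exact ⟨q, hq, j, Or.inr (by rw [← hj, inv_mul_cancel_right])⟩

theorem s_sq : s * s = 1 ∨ s * s = z := by
  have h1 : Commute (s * s) c := by
    have h2 : s * c⁻¹ * s⁻¹ = c := by rw [← conj_inv, H.inv, inv_inv]
    refine mul_inv_eq_iff_eq_mul.1 ?_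
    calc s * s * c * (s * s)⁻¹ = s * (s * c * s⁻¹) * s⁻¹ := by group
      _ = c := by rw [H.inv, h2]
  have key : ∀ (e : L) (j : ℕ), Commute e s → s * s = e * c ^ j → c ^ j = 1 := by
    intro e j he hj
    refine H.pow_eq_one_of_sq ?_
    have h2 : e * (c ^ j)⁻¹ = e * c ^ j := by
      rw [← H.conj_pow_c, ← mul_assoc, ← mul_assoc, he.eq, mul_assoc s e, ← hj]
      group
    nth_rw 1 [← mul_left_cancel h2]
    exact inv_mul_cancel _
  obtain ⟨j, hj | hj⟩ := H.cent _ h1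
  · exact Or.inl (hj.trans (key 1 j (Commute.one_left s) (by rw [one_mul, hj])))
  · exact Or.inr (by rw [hj, key z j (H.comm_z s) hj, mul_one])

theorem add_inv_c : ρ c + ρ c⁻¹ = -1 := by
  have h : c⁻¹ = c * c := inv_eq_of_mul_eq_one_right (by rw [← H.c_cube, pow_three])
  rw [h, map_mul, eq_neg_iff_add_eq_zero, ← H.quad]
  abel

theorem trace_three {x : L} (hx : 3 ∣ orderOf x) : ρ x + ρ x⁻¹ = -1 ∨ ρ x + ρ x⁻¹ = 1 := by
  have h0 := orderOf_pos x
  have hd : orderOf (x ^ (orderOf x / 3)) = 3 := orderOf_pow_orderOf_div h0.ne' hx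
  obtain ⟨g, hg⟩ := H.conj_c (d := x ^ (orderOf x / 3))
    (fun h => by rw [h, orderOf_one] at hd; omega) ⟨1, by rw [hd, pow_one]⟩
  have hc : Commute (g * x * g⁻¹) c := by
    rw [← hg, ← conj_pow]
    exact Commute.self_pow _ _
  have hback : ∀ ε : Module.End F U, (∀ a, ε * a = a * ε) →
      ρ (g * x * g⁻¹) + ρ (g * x * g⁻¹)⁻¹ = ε → ρ x + ρ x⁻¹ = ε := by
    intro ε hε h
    have h1 : ρ x + ρ x⁻¹ = ρ g⁻¹ * (ρ (g * x * g⁻¹) + ρ (g * x * g⁻¹)⁻¹) * ρ g := by
      rw [mul_add, add_mul, ← map_mul, ← map_mul, ← map_mul, ← map_mul]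
      congr 2 <;> group
    rw [h1, h, ← hε, mul_assoc, ← map_mul, inv_mul_cancel, map_one, mul_one]
  have hpow : ∀ j : ℕ, c ^ j ≠ 1 → ρ (c ^ j) + ρ (c ^ j)⁻¹ = -1 := by
    intro j hj
    rw [← pow_mod_orderOf, H.c_order] at hj ⊢
    have h3 : j % 3 = 0 ∨ j % 3 = 1 ∨ j % 3 = 2 := by omega
    rcases h3 with h3 | h3 | h3 <;> rw [h3] at hj ⊢
    · exact absurd (pow_zero c) hj
    · rw [pow_one, H.add_inv_c]
    · have h6 : c ^ 2 = c⁻¹ := eq_inv_of_mul_eq_one_left (by rw [← pow_succ, H.c_cube])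
      rw [h6, inv_inv, add_comm, H.add_inv_c]
  have hne : ∀ e : L, e * e = 1 → g * x * g⁻¹ ≠ e := by
    intro e he h
    have h1 : orderOf x ∣ 2 := by
      rw [← (MulAut.conj g).orderOf_eq x]
      exact orderOf_dvd_of_pow_eq_one (by rw [MulAut.conj_apply, h, pow_two, he])
    have := hx.trans h1
    omega
  obtain ⟨j, hj | hj⟩ := H.cent _ hc
  · refine Or.inl (hback _ (fun a => by simp) ?_)
    rw [hj]
    exact hpow j fun h => hne 1 (one_mul 1) (hj.trans h)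
  · have h1 := hpow j fun h => hne z H.z_sq (by rw [hj, h, mul_one])
    have h2 : ρ (g * x * g⁻¹) + ρ (g * x * g⁻¹)⁻¹ = -ρ z := by
      rw [hj, mul_inv_rev, H.z_inv, ← (H.comm_z _).eq, map_mul, map_mul, ← mul_add, h1,
        mul_neg_one]
    rcases H.sgn with h | h
    · exact Or.inr (hback _ (fun a => by simp) (by rw [h2, h, neg_neg]))
    · exact Or.inl (hback _ (fun a => by simp) (by rw [h2, h, map_one]))

theorem mem_cases {q : L} (hq : q ∈ pCore 2 L) : q = 1 ∨ q = z ∨ (q * q = z ∧ z ≠ 1) := by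
  haveI : Fact (Nat.Prime 3) := ⟨Nat.prime_three⟩
  have h3 : ∀ j : ℕ, c ^ j ≠ 1 → 3 ∣ orderOf (q * c ^ j) := by
    intro j hj
    refine dvd_trans (dvd_of_eq ?_) (orderOf_map_dvd (QuotientGroup.mk' (pCore 2 L)) _)
    rw [QuotientGroup.mk'_apply, QuotientGroup.mk_mul, (QuotientGroup.eq_one_iff q).2 hq, one_mul]
    refine (orderOf_eq_prime ?_ fun h => hj (H.pow_eq_one_of_mem
      ((QuotientGroup.eq_one_iff _).1 h))).symm
    rw [← QuotientGroup.mk_pow, H.pow_cube, QuotientGroup.mk_one]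
  have h6 : c ^ 2 = c⁻¹ := eq_inv_of_mul_eq_one_left (by rw [← pow_succ, H.c_cube])
  have e1 := H.trace_three (h3 1 (by rw [pow_one]; exact H.c_ne))
  have e2 := H.trace_three (h3 2 (by rw [h6]; exact inv_ne_one.2 H.c_ne))
  rw [pow_one, mul_inv_rev, map_mul, map_mul] at e1
  rw [h6, mul_inv_rev, inv_inv, map_mul, map_mul] at e2
  have e3 : ρ q + ρ q⁻¹ =
      -((ρ q * ρ c + ρ c⁻¹ * ρ q⁻¹) + (ρ q * ρ c⁻¹ + ρ c * ρ q⁻¹)) := by
    calc ρ q + ρ q⁻¹ = -(ρ q * (ρ c + ρ c⁻¹) + (ρ c + ρ c⁻¹) * ρ q⁻¹) := by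
          rw [H.add_inv_c]; noncomm_ring
      _ = _ := by noncomm_ring
  have e4 : ρ q * ρ q⁻¹ = 1 := by rw [← map_mul, mul_inv_cancel, map_one]
  obtain ⟨k, hk⟩ := isPGroup_pCore 2 ⟨q, hq⟩
  have e5 : ρ q ^ 2 ^ k = 1 := by
    rw [← map_pow, show q ^ 2 ^ k = 1 from congrArg Subtype.val hk, map_one]
  have e0 : ρ q + ρ q⁻¹ = 0 → q * q = z ∧ z ≠ 1 := fun h => H.eq_z (by
    rw [map_mul, ← e4, ← mul_neg, eq_neg_iff_add_eq_zero.2 h])
  rcases e1 with e1 | e1 <;> rcases e2 with e2 | e2 <;> rw [e1, e2] at e3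
  · refine Or.inl (H.inj ?_)
    rw [map_one]
    refine eq_one_of_unipotent H.two ?_ e5
    calc (ρ q - 1) * (ρ q - 1) = ρ q * (ρ q + ρ q⁻¹ - -(-1 + -1)) + (1 - ρ q * ρ q⁻¹) := by
          noncomm_ring
      _ = 0 := by rw [e3, e4]; simp
  · exact Or.inr (Or.inr (e0 (by rw [e3]; simp)))
  · exact Or.inr (Or.inr (e0 (by rw [e3]; simp)))
  · refine Or.inr (Or.inl (H.eq_z (neg_eq_iff_eq_neg.1 ?_)).1)
    refine eq_one_of_unipotent H.two ?_ (k := k + 1) ?_
    · calc (-ρ q - 1) * (-ρ q - 1) = ρ q * (ρ q + ρ q⁻¹ - -(1 + 1)) + (1 - ρ q * ρ q⁻¹) := by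
            noncomm_ring
        _ = 0 := by rw [e3, e4]; simp
    · rw [pow_succ', pow_mul, neg_sq, ← pow_mul, mul_comm, pow_mul, e5, one_pow]

theorem caseA (hA : ∀ q ∈ pCore 2 L, s * q * s⁻¹ = q ∨ s * q * s⁻¹ = z * q) {q : L}
    (hq : q ∈ pCore 2 L) : q = 1 ∨ q = z := by
  have hA' : ∀ q ∈ pCore 2 L, ∃ e, (∀ g, Commute e g) ∧ e * e = 1 ∧ s * q * s⁻¹ = e * q := by
    intro q hq
    rcases hA q hq with h | h
    · exact ⟨1, Commute.one_left, one_mul 1, by rw [h, one_mul]⟩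
    · exact ⟨z, H.comm_z, H.z_sq, h⟩
  have hN : (pCore 2 L).Normal := inferInstance
  obtain ⟨e, he1, he2, he3⟩ := hA' q hq
  obtain ⟨f, hf1, hf2, hf3⟩ := hA' _ (hN.conj_mem' _ (hN.conj_mem' q hq c) s)
  have h1 : s⁻¹ * (c⁻¹ * q * c) * s = f * (c⁻¹ * q * c) := by
    calc s⁻¹ * (c⁻¹ * q * c) * s = f * (f * (s⁻¹ * (c⁻¹ * q * c) * s)) := by
          rw [← mul_assoc f f, hf2, one_mul]
      _ = f * (c⁻¹ * q * c) := by rw [← hf3]; group
  have h2 : s * c * s⁻¹ * c⁻¹ = c := by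
    rw [H.inv]
    calc c⁻¹ * c⁻¹ = c * (c ^ 3)⁻¹ := by group
      _ = c := by rw [H.c_cube, inv_one, mul_one]
  have h3 : c * q * c⁻¹ = f * e * q := by
    calc c * q * c⁻¹ = (s * c * s⁻¹ * c⁻¹) * q * (s * c * s⁻¹ * c⁻¹)⁻¹ := by rw [h2]
      _ = s * c * (s⁻¹ * (c⁻¹ * q * c) * s) * c⁻¹ * s⁻¹ := by group
      _ = (s * c * f) * (c⁻¹ * q * s⁻¹) := by rw [h1]; group
      _ = f * (s * q * s⁻¹) := by rw [← (hf1 _).eq]; group
      _ = f * e * q := by rw [he3, mul_assoc]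
  have h4 : ∀ g, Commute (f * e) g := fun g => (hf1 g).mul_left (he1 g)
  have h5 : f * e * (f * e) = 1 := by
    rw [mul_assoc, ← mul_assoc e, (he1 f).eq, mul_assoc, he2, mul_one, hf2]
  have h6 : c * (f * e * q) * c⁻¹ = q := by
    rw [← mul_assoc, ← (h4 c).eq, mul_assoc, mul_assoc, ← mul_assoc c, h3, ← mul_assoc, h5,
      one_mul]
  have h7 : c * q * c⁻¹ = q := by
    calc c * q * c⁻¹ = c * (c * (c * q * c⁻¹) * c⁻¹) * c⁻¹ := by rw [h3, h6, h3]
      _ = c ^ 3 * q * (c ^ 3)⁻¹ := by rw [pow_three]; group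
      _ = q := by rw [H.c_cube]; group
  obtain ⟨j, hj | hj⟩ := H.cent q (mul_inv_eq_iff_eq_mul.1 h7).symm
  · exact Or.inl (hj.trans (H.pow_eq_one_of_mem (hj ▸ hq)))
  · refine Or.inr ?_
    rw [hj, H.pow_eq_one_of_mem ((mul_mem_cancel_left H.z_mem).1 (hj ▸ hq)), mul_one]

theorem false_of_double {g : L} {v : U} (hv : v ≠ 0) (h1 : ρ g v = (2 : F) • v)
    (h2 : ρ g⁻¹ v = (2 : F) • v) : False := by
  have h3 : ρ g (ρ g⁻¹ v) = v := by
    rw [← Module.End.mul_apply, ← map_mul, mul_inv_cancel, map_one, Module.End.one_apply]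
  rw [h2, map_smul, h1, smul_smul] at h3
  have h4 : (3 : F) • v = 0 := by
    rw [show (3 : F) = 2 * 2 - 1 by norm_num, sub_smul, h3, one_smul, sub_self]
  exact hv ((smul_eq_zero.1 h4).resolve_left H.three)

/-- The configuration is impossible. -/
theorem false (hL : Group.IsSolvable L) (hprime : ∀ r, r.Prime → r ∣ Nat.card L → r = 2 ∨ r = 3)
    (hdbl : ∀ v, ∃ g, ρ g v = (2 : F) • v)
    (hr : z ≠ 1 → ∀ y, (y ^ 4 = z ∨ y ^ 2 = z) → ∃ g, g * y * g⁻¹ = z * y) : False := by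
  have hN : (pCore 2 L).Normal := inferInstance
  by_cases hA : ∀ q ∈ pCore 2 L, s * q * s⁻¹ = q ∨ s * q * s⁻¹ = z * q
  · have hd : ∀ g, ∃ e, (∀ g, Commute e g) ∧ e * e = 1 ∧
        ∃ j : ℕ, g = e * c ^ j ∨ g = e * c ^ j * s := by
      intro g
      obtain ⟨q, hq, h⟩ := H.decomp hL hprime g
      rcases H.caseA hA hq with rfl | rfl
      · exact ⟨1, Commute.one_left, one_mul 1, h⟩
      · exact ⟨q, H.comm_z, H.z_sq, h⟩
    by_cases hs : s * s = 1
    · obtain ⟨v, η, hv, hη, hsv⟩ : ∃ (v : U) (η : F), v ≠ 0 ∧ η * η = 1 ∧ ρ s v = η • v := by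
        haveI := H.nt
        obtain ⟨v, hv⟩ := exists_ne (0 : U)
        by_cases h0 : ρ s v + v = 0
        · exact ⟨v, -1, hv, by simp, by rw [neg_one_smul, eq_neg_iff_add_eq_zero, h0]⟩
        · refine ⟨_, 1, h0, by simp, ?_⟩
          rw [map_add, ← Module.End.mul_apply, ← map_mul, hs, map_one, Module.End.one_apply,
            one_smul, add_comm]
      obtain ⟨g, hg⟩ := hdbl v
      refine H.false_of_double hv hg ?_
      have hsi : s⁻¹ = s := inv_eq_of_mul_eq_one_right hs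
      obtain ⟨e, he1, he2, j, hj | hj⟩ := hd g
      · have h1 : g⁻¹ = s * g * s := by
          rw [hj, mul_inv_rev, inv_eq_of_mul_eq_one_right he2, ← H.conj_pow_c, hsi,
            ← (he1 _).eq, ← mul_assoc s e, ← (he1 s).eq]
          group
        rw [h1, map_mul, map_mul, Module.End.mul_apply, Module.End.mul_apply, hsv, map_smul, hg,
          map_smul, map_smul, hsv, smul_comm η, smul_smul η, hη, one_smul]
      · have h1 : g⁻¹ = g := by
          refine inv_eq_of_mul_eq_one_right ?_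
          calc g * g = e * (c ^ j * s * e) * c ^ j * s := by rw [hj]; group
            _ = e * e * c ^ j * (s * c ^ j * s⁻¹) * (s * s) := by rw [← (he1 _).eq]; group
            _ = 1 := by rw [he2, H.conj_pow_c, hs]; group
        rw [h1, hg]
    · have hs' := H.s_sq.resolve_left hs
      have hz : z ≠ 1 := hs' ▸ hs
      obtain ⟨g, hg⟩ := hr hz s (Or.inr (by rw [pow_two, hs']))
      obtain ⟨e, he1, he2, j, hj⟩ := hd g
      have h1 : c ^ j * s * (c ^ j)⁻¹ = z * s := by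
        rw [← hg]
        rcases hj with rfl | rfl
        · calc c ^ j * s * (c ^ j)⁻¹ = e * (c ^ j * s * (c ^ j)⁻¹) * e⁻¹ := by
                rw [(he1 _).eq, mul_inv_cancel_right]
            _ = _ := by group
        · calc c ^ j * s * (c ^ j)⁻¹ = e * (c ^ j * s * (c ^ j)⁻¹) * e⁻¹ := by
                rw [(he1 _).eq, mul_inv_cancel_right]
            _ = _ := by group
      have h2 : c ^ j * c ^ j = z := by
        calc c ^ j * c ^ j = c ^ j * (s * c ^ j * s⁻¹)⁻¹ := by rw [H.conj_pow_c, inv_inv]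
          _ = (c ^ j * s * (c ^ j)⁻¹) * s⁻¹ := by group
          _ = z := by rw [h1, mul_inv_cancel_right]
      rw [← pow_add] at h2
      exact hz (h2 ▸ H.pow_eq_one_of_mem (h2 ▸ H.z_mem))
  · push Not at hA
    obtain ⟨q, hq, hq1, hq2⟩ := hA
    obtain ⟨hqq, hz⟩ : q * q = z ∧ z ≠ 1 := by
      rcases H.mem_cases hq with h | h | h
      · exact absurd (by rw [h]; group) hq1
      · exact absurd (by rw [h, ← (H.comm_z s).eq, mul_inv_cancel_right]) hq1
      · exact h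
    have hqi : q⁻¹ = z * q := by
      rw [inv_eq_iff_mul_eq_one, ← mul_assoc, ← (H.comm_z q).eq, mul_assoc, hqq, H.z_sq]
    have hss : s * s ∈ pCore 2 L := by
      rcases H.s_sq with h | h <;> rw [h]
      exacts [one_mem _, H.z_mem]
    have hy2 : (q * s) ^ 2 = q * (s * q * s⁻¹) * (s * s) := by rw [pow_two]; group
    have hw : (q * s) ^ 2 ∈ pCore 2 L := hy2 ▸ mul_mem (mul_mem hq (hN.conj_mem q hq s)) hss
    have hne : ∀ e, (e = 1 ∨ e = z) → q * (s * q * s⁻¹) ≠ e := by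
      rintro e (rfl | rfl) h
      · exact hq2 (by rw [← hqi, eq_inv_of_mul_eq_one_right h])
      · exact hq1 (mul_left_cancel (h.trans hqq.symm))
    have hww : (q * s) ^ 2 * (q * s) ^ 2 = z := by
      rcases H.mem_cases hw with h | h | h
      · rw [hy2] at h
        rcases H.s_sq with h1 | h1 <;> rw [h1] at h
        · exact absurd (by rw [← h, mul_one]) (hne 1 (Or.inl rfl))
        · exact absurd (by rw [eq_inv_of_mul_eq_one_left h, H.z_inv]) (hne z (Or.inr rfl))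
      · rw [hy2] at h
        rcases H.s_sq with h1 | h1 <;> rw [h1] at h
        · exact absurd (by rw [← h, mul_one]) (hne z (Or.inr rfl))
        · exact absurd (mul_eq_right.1 h) (hne 1 (Or.inl rfl))
      · exact h.1
    obtain ⟨g, hg⟩ := hr hz (q * s) (Or.inl (by rw [← hww, ← pow_add]))
    obtain ⟨g₁, hg₁, hg₂⟩ : ∃ g₁ ∈ pCore 2 L, g₁ * (q * s) * g₁⁻¹ = z * (q * s) := by
      obtain ⟨q₁, hq₁, j, hj⟩ := H.decomp hL hprime g
      have h1 := congrArg (QuotientGroup.mk (s := pCore 2 L)) hg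
      simp only [QuotientGroup.mk_mul, QuotientGroup.mk_inv, (QuotientGroup.eq_one_iff q).2 hq,
        (QuotientGroup.eq_one_iff z).2 H.z_mem, one_mul] at h1
      have h2 : ((c ^ j : L) : L ⧸ pCore 2 L) * s * ((c ^ j : L) : L ⧸ pCore 2 L)⁻¹ = s := by
        rcases hj with rfl | rfl
        · simpa only [QuotientGroup.mk_mul, (QuotientGroup.eq_one_iff q₁).2 hq₁, one_mul] using h1
        · simp only [QuotientGroup.mk_mul, (QuotientGroup.eq_one_iff q₁).2 hq₁, one_mul] at h1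
          refine Eq.trans ?_ h1
          group
      have h3 : c ^ (j + j) ∈ pCore 2 L := by
        have h4 : c ^ (j + j) = (c ^ j * s * (c ^ j)⁻¹) * s⁻¹ := by
          calc c ^ (j + j) = c ^ j * (s * c ^ j * s⁻¹)⁻¹ := by
                rw [H.conj_pow_c, inv_inv, pow_add]
            _ = _ := by group
        rw [h4, ← QuotientGroup.eq_one_iff]
        simp only [QuotientGroup.mk_mul, QuotientGroup.mk_inv]
        rw [h2, mul_inv_cancel]
      have h4 : c ^ j = 1 := H.pow_eq_one_of_sq (by rw [← pow_add]; exact H.pow_eq_one_of_mem h3)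
      rw [h4, mul_one] at hj
      rcases hj with rfl | rfl
      · exact ⟨g, hq₁, hg⟩
      · refine ⟨q₁ * q⁻¹, mul_mem hq₁ (inv_mem hq), ?_⟩
        rw [← hg]
        group
    have hnc : ¬Commute g₁ (q * s) := fun h => hz (by
      rw [h.eq, mul_inv_cancel_right] at hg₂
      exact (mul_eq_right.1 hg₂.symm))
    have hc2 : Commute g₁ ((q * s) ^ 2) := by
      refine mul_inv_eq_iff_eq_mul.1 ?_
      rw [← conj_pow, hg₂, (H.comm_z _).mul_pow, pow_two z, H.z_sq, one_mul]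
    have hgg : g₁ * g₁ = z := by
      rcases H.mem_cases hg₁ with h | h | h
      · exact absurd (h ▸ Commute.one_left _) hnc
      · exact absurd (h ▸ H.comm_z _) hnc
      · exact h.1
    rcases H.mem_cases (mul_mem hg₁ hw) with h | h | h
    · exact hnc (by rw [eq_inv_of_mul_eq_one_left h]; exact (Commute.pow_self _ 2).inv_left)
    · refine hnc ?_
      rw [eq_mul_inv_of_mul_eq h]
      exact (H.comm_z _).mul_left (Commute.pow_self _ 2).inv_left
    · refine hz (h.1.symm.trans ?_)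
      rw [mul_assoc, ← mul_assoc _ g₁, ← hc2.eq, mul_assoc, ← mul_assoc, hgg, hww, H.z_sq]

end QD

end Cfsg.Agent.FG.AH
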