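import Mathlib
import Cfsg.Agent.FG.AHDual
import Cfsg.Agent.GT.HallHigmanA
import Cfsg.Agent.GT.MinNormal

/-!
# Invariant forms and normal `p`-subgroups of linear groups with many rational elements
-/

set_option autoImplicit false
set_option linter.unusedSectionVars false
set_option linter.style.haveILetI false

namespace Cfsg.Agent.FG.AH

open Cfsg.Agent.GT Subgroup

section lin

variable {F Γ N : Type*} [Field F] [Group Γ] [AddCommGroup N] [Module F N]

theorem rep_inv_apply (ρ : Representation F Γ N) (g : Γ) (v : N) : ρ g⁻¹ (ρ g v) = v := by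
  rw [← Module.End.mul_apply, ← map_mul, inv_mul_cancel, map_one, Module.End.one_apply]

theorem rep_apply_inv (ρ : Representation F Γ N) (g : Γ) (v : N) : ρ g (ρ g⁻¹ v) = v := by
  rw [← Module.End.mul_apply, ← map_mul, mul_inv_cancel, map_one, Module.End.one_apply]

theorem rep_mul_apply (ρ : Representation F Γ N) (g h : Γ) (v : N) :
    ρ (g * h) v = ρ g (ρ h v) := by
  rw [map_mul, Module.End.mul_apply]

/-- An invariant form is alternating if every vector is conjugate to its double. -/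
theorem alt_of_double (ρ : Representation F Γ N) (B : N →ₗ[F] N →ₗ[F] F)
    (hinv : ∀ g a b, B (ρ g a) (ρ g b) = B a b) (h3 : (3 : F) ≠ 0) {v : N}
    (h : ∃ g, ρ g v = (2 : F) • v) : B v v = 0 := by
  obtain ⟨g, hg⟩ := h
  have := hinv g v v
  rw [hg] at this
  simp only [map_smul, LinearMap.smul_apply, smul_eq_mul] at this
  exact (mul_eq_zero.1 (by linear_combination this : 3 * B v v = 0)).resolve_left h3

/-- The restriction of an invariant non-degenerate form to the fixed points of a subgroup of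
invertible order is non-degenerate. -/
theorem fix_nondeg (ρ : Representation F Γ N) (B : N →ₗ[F] N →ₗ[F] F)
    (hinv : ∀ g a b, B (ρ g a) (ρ g b) = B a b) (hnd : ∀ a, (∀ b, B a b = 0) → a = 0)
    (H : Subgroup Γ) [Finite H] (hH : (Nat.card H : F) ≠ 0) {w : N} (hw : ∀ h ∈ H, ρ h w = w)
    (h0 : ∀ a, (∀ h ∈ H, ρ h a = a) → B w a = 0) : w = 0 := by
  haveI := Fintype.ofFinite H
  refine hnd w fun b => ?_
  have h1 := h0 (∑ h : H, ρ h b) (fun k hk => by
    rw [map_sum]
    refine Fintype.sum_equiv (Equiv.mulLeft (⟨k, hk⟩ : H)) _ _ fun h => ?_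
    rw [← rep_mul_apply]
    rfl)
  rw [map_sum] at h1
  have h2 : ∀ h : H, B w (ρ h b) = B w b := fun h => by
    conv_lhs => rw [← hw h h.2]
    exact hinv _ _ _
  simp only [h2, Finset.sum_const, Finset.card_univ, nsmul_eq_mul] at h1
  rw [Nat.card_eq_fintype_card] at hH
  exact (mul_eq_zero.1 h1).resolve_left hH

end lin

section ea

variable {G : Type*} [Group G] {p : ℕ} [hp : Fact p.Prime] {V : Subgroup G} [V.Normal]

theorem eaRepN_isIrreducible (hV : IsMinNormal V) (hE : IsElementaryAbelian p V) :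
    (eaRepN hE).IsIrreducible := by
  refine (Ch.isIrreducible_iff _).2 ⟨?_, fun U hU => ?_⟩
  · haveI := (Subgroup.nontrivial_iff_ne_bot V).2 hV.ne_bot
    obtain ⟨⟨v, hv⟩, h1⟩ := exists_ne (1 : V)
    exact ⟨EAV.mk hE v hv, 0, fun h => h1 (Subtype.ext (congrArg EAV.val h))⟩
  · haveI : (EAV.grp U).Normal := ⟨by
      rintro _ ⟨x, hx, rfl⟩ g
      exact ⟨_, hU g x hx, rfl⟩⟩
    rcases hV.eq_bot_or_eq (EAV.grp_le U) with h | h
    · exact Or.inl (EAV.grp_injective (h.trans EAV.grp_bot.symm))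
    · exact Or.inr (EAV.grp_injective (h.trans EAV.grp_top.symm))

theorem val_two_smul {hE : IsElementaryAbelian p V} (x : EAV hE) :
    ((2 : ZMod p) • x).val = x.val ^ 2 := by
  rw [← EAV.val_natCast_smul]
  rfl

/-- The faithful representation of `G ⧸ C_G(V)` on `V`. -/
def repC (hE : IsElementaryAbelian p V) :
    Representation (ZMod p) (G ⧸ centralizer (V : Set G)) (EAV hE) :=
  QuotientGroup.lift _ (eaRepN hE) fun _ hg => eaRepN_eq_one_iff.2 hg

theorem repC_mk (hE : IsElementaryAbelian p V) (g : G) :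
    repC hE (g : G ⧸ centralizer (V : Set G)) = eaRepN hE g := rfl

theorem repC_injective (hE : IsElementaryAbelian p V) : Function.Injective (repC hE) := by
  rw [injective_iff_map_eq_one]
  intro x hx
  obtain ⟨g, rfl⟩ := QuotientGroup.mk_surjective x
  exact (QuotientGroup.eq_one_iff g).2 (eaRepN_eq_one_iff.1 hx)

theorem repC_isIrreducible (hV : IsMinNormal V) (hE : IsElementaryAbelian p V) :
    (repC hE).IsIrreducible :=
  Ch.isIrreducible_of_comp _ (QuotientGroup.mk' _) (eaRepN_isIrreducible hV hE)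

theorem three_ne_zero_zmod (h5 : 5 ≤ p) : (3 : ZMod p) ≠ 0 := fun h => by
  have := (ZMod.natCast_eq_zero_iff 3 p).1 (by exact_mod_cast h)
  have := Nat.le_of_dvd (by norm_num) this
  omega

theorem two_ne_zero_zmod (h5 : 5 ≤ p) : (2 : ZMod p) ≠ 0 := fun h => by
  have := (ZMod.natCast_eq_zero_iff 2 p).1 (by exact_mod_cast h)
  have := Nat.le_of_dvd (by norm_num) this
  omega

end ea

section np

variable {F Γ N : Type*} [Field F] [Group Γ] [AddCommGroup N] [Module F N]
  {p : ℕ} [hp : Fact p.Prime] {V : Subgroup Γ}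

/-- The stabilizer in `V` of a vector. -/
def stab (ρ : Representation F Γ N) (hE : IsElementaryAbelian p V) (w : N) :
    Submodule (ZMod p) (EAV hE) :=
  AddSubgroup.toZModSubmodule p
    { carrier := {v | ρ v.val w = w}
      add_mem' := fun {a b} ha hb => by
        change ρ (a.val * b.val) w = w
        rw [rep_mul_apply, show ρ b.val w = w from hb]
        exact ha
      zero_mem' := by
        change ρ 1 w = w
        rw [map_one, Module.End.one_apply]
      neg_mem' := fun {a} ha => by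
        change ρ a.val⁻¹ w = w
        conv_lhs => rw [← show ρ a.val w = w from ha]
        exact rep_inv_apply _ _ _ }

theorem mem_stab {ρ : Representation F Γ N} {hE : IsElementaryAbelian p V} {w : N}
    {v : EAV hE} : v ∈ stab ρ hE w ↔ ρ v.val w = w := Iff.rfl

theorem val_comm_apply (ρ : Representation F Γ N) {hE : IsElementaryAbelian p V} (a b : EAV hE)
    (w : N) : ρ a.val (ρ b.val w) = ρ b.val (ρ a.val w) := by
  rw [← rep_mul_apply, ← rep_mul_apply, ← EAV.val_add, ← EAV.val_add, add_comm]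

/-- A stabilizer which is maximal among the stabilizers of non-zero vectors is a hyperplane. -/
theorem ker_le_stab (ρ : Representation F Γ N) (hE : IsElementaryAbelian p V)
    (hpF : (p : F) ≠ 0) {w₀ : N} (hw₀ : w₀ ≠ 0)
    (hmax : ∀ w, w ≠ 0 → stab ρ hE w₀ ≤ stab ρ hE w → stab ρ hE w ≤ stab ρ hE w₀)
    (φ : EAV hE →ₗ[ZMod p] ZMod p) (hφ : stab ρ hE w₀ ≤ LinearMap.ker φ) {z : EAV hE}
    (hz : φ z ≠ 0) : LinearMap.ker φ ≤ stab ρ hE w₀ := by
  intro a ha
  by_contra haW
  have hS : ∀ x : EAV hE, x ∉ stab ρ hE w₀ → ∑ i : ZMod p, ρ (i • x).val w₀ = 0 := by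
    intro x hx
    by_contra hne
    refine hx (hmax _ hne (fun v hv => ?_) ?_)
    · rw [mem_stab, map_sum]
      refine Finset.sum_congr rfl fun i _ => ?_
      rw [val_comm_apply, mem_stab.1 hv]
    · rw [mem_stab, map_sum]
      refine Fintype.sum_equiv (Equiv.addLeft 1) _ _ fun i => ?_
      rw [← rep_mul_apply, ← EAV.val_add, Equiv.coe_addLeft, add_smul, one_smul]
  have h1 : ∑ j : ZMod p, ∑ i : ZMod p, ρ (i • (z + j • a)).val w₀ = 0 := by
    refine Finset.sum_eq_zero fun j _ => hS _ fun h => hz ?_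
    have := hφ h
    rwa [LinearMap.mem_ker, map_add, map_smul, LinearMap.mem_ker.1 ha, smul_zero, add_zero] at this
  rw [Finset.sum_comm, Finset.sum_eq_single 0] at h1
  · simp only [zero_smul, EAV.val_zero, map_one, Module.End.one_apply, Finset.sum_const,
      Finset.card_univ, ZMod.card] at h1
    rw [← Nat.cast_smul_eq_nsmul F] at h1
    exact hw₀ ((smul_eq_zero.1 h1).resolve_left hpF)
  · intro i _ hi
    have h2 : ∑ j : ZMod p, ρ (i • (z + j • a)).val w₀ =
        ρ (i • z).val (∑ j : ZMod p, ρ (j • a).val w₀) := by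
      rw [map_sum]
      refine Fintype.sum_equiv (Equiv.mulLeft₀ i hi) _ _ fun j => ?_
      rw [← rep_mul_apply, ← EAV.val_add, smul_add, smul_smul]
      rfl
    rw [h2, hS a haW, map_zero]
  · simp

/-- A finite irreducible linear group in which all elements are real and `p`-elements fixing a
vector are conjugate to their squares in the stabilizer has no normal `p`-subgroup for `p ≥ 5`. -/
theorem np [Finite F] [Finite Γ] [Finite N] (ρ : Representation F Γ N) [hρ : ρ.IsIrreducible]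
    (hinj : Function.Injective ρ) (h5 : 5 ≤ p) (hpF : (p : F) ≠ 0) (hV : IsMinNormal V)
    (hE : IsElementaryAbelian p V) (hreal : ∀ g : Γ, IsConj g g⁻¹)
    (h2 : ∀ y ∈ V, ∀ w, ρ y w = w → ∃ g, ρ g w = w ∧ g * y * g⁻¹ = y ^ 2) : False := by
  haveI := hV.normal
  haveI := eaRepN_isIrreducible hV hE
  haveI : FiniteDimensional (ZMod p) (EAV hE) := Module.Finite.of_finite
  obtain ⟨ω, -, -, hωnd, hωinv, -⟩ := exists_form (eaRepN hE) hreal
  obtain ⟨B, ε, hε, hBnd, hBinv, hBε⟩ := exists_form ρ hreal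
  have halt : ∀ v, ω v v = 0 := fun v => by
    refine alt_of_double _ ω hωinv (three_ne_zero_zmod h5) ?_
    obtain ⟨g, -, hg⟩ := h2 v.val v.val_mem 0 (map_zero _)
    exact ⟨g, EAV.ext (by rw [val_eaRepN, val_two_smul, hg])⟩
  obtain ⟨hN, hirr⟩ := (Ch.isIrreducible_iff ρ).1 hρ
  obtain ⟨w₀, hw₀, hmax⟩ : ∃ w₀ : N, w₀ ≠ 0 ∧
      ∀ w, w ≠ 0 → stab ρ hE w₀ ≤ stab ρ hE w → stab ρ hE w ≤ stab ρ hE w₀ := by
    obtain ⟨w₀, h0, h1⟩ := Set.Finite.exists_maximalFor (stab ρ hE) {w : N | w ≠ 0}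
      (Set.toFinite _) (exists_ne 0)
    exact ⟨w₀, h0, fun w hw => h1 hw⟩
  have hW : stab ρ hE w₀ ≠ ⊤ := by
    intro hW
    let U : Submodule F N :=
      { carrier := {w | ∀ v ∈ V, ρ v w = w}
        add_mem' := fun ha hb v hv => by rw [map_add, ha v hv, hb v hv]
        zero_mem' := fun v _ => map_zero _
        smul_mem' := fun c w hw v hv => by rw [map_smul, hw v hv] }
    have hU : ∀ g, ∀ w ∈ U, ρ g w ∈ U := by
      intro g w hw v hv
      have := hw _ (hV.normal.conj_mem' v hv g)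
      conv_rhs => rw [← this]
      rw [← rep_mul_apply, ← rep_mul_apply]
      congr 2
      group
    rcases hirr U hU with h | h
    · have : w₀ ∈ U := fun v hv => (hW ▸ Submodule.mem_top : EAV.mk hE v hv ∈ stab ρ hE w₀)
      rw [h] at this
      exact hw₀ this
    · refine hV.ne_bot (eq_bot_iff.2 fun v hv => hinj ?_)
      rw [map_one]
      exact LinearMap.ext fun w => (h ▸ Submodule.mem_top : w ∈ U) v hv
  obtain ⟨φ, hφ0, hφ⟩ := Submodule.exists_le_ker_of_lt_top _ hW.lt_top
  obtain ⟨v₁, rfl⟩ : ∃ v₁, ω v₁ = φ := by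
    have hi : Function.Injective ω :=
      (injective_iff_map_eq_zero _).2 fun a ha => hωnd a fun b => by rw [ha]; rfl
    exact (LinearMap.injective_iff_surjective_of_finrank_eq_finrank
      (Subspace.dual_finrank_eq).symm).1 hi φ
  obtain ⟨z, hz⟩ : ∃ z, ω v₁ z ≠ 0 := by
    by_contra h
    push Not at h
    exact hφ0 (LinearMap.ext h)
  have hker := ker_le_stab ρ hE hpF hw₀ hmax _ hφ hz
  have hv₁ : v₁ ∈ stab ρ hE w₀ := hker (halt v₁)
  set Z := ρ z.val with hZ
  let N₁ : Submodule F N :=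
    { carrier := {w | ∀ v ∈ stab ρ hE w₀, ρ v.val w = w}
      add_mem' := fun ha hb v hv => by rw [map_add, ha v hv, hb v hv]
      zero_mem' := fun v _ => map_zero _
      smul_mem' := fun c w hw v hv => by rw [map_smul, hw v hv] }
  have hZN : ∀ w ∈ N₁, Z w ∈ N₁ := fun w hw v hv => by
    rw [hZ, val_comm_apply, hw v hv]
  have hq : ∀ w ∈ N₁, B w (Z w) = B w (Z (Z w)) := by
    intro w hw
    obtain ⟨g, hg1, hg2⟩ := h2 v₁.val v₁.val_mem w (hw v₁ hv₁)
    have hg3 : eaRepN hE g v₁ = (2 : ZMod p) • v₁ := EAV.ext (by rw [val_eaRepN, val_two_smul, hg2])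
    have h3 : eaRepN hE g⁻¹ z - (z + z) ∈ stab ρ hE w₀ := by
      refine hker ?_
      rw [LinearMap.mem_ker, map_sub, ← hωinv g, rep_apply_inv, hg3, map_smul, map_add,
        LinearMap.smul_apply, two_smul, sub_self]
    have h4 : ρ (eaRepN hE g⁻¹ z).val w = Z (Z w) := by
      conv_lhs => rw [← add_sub_cancel (z + z) (eaRepN hE g⁻¹ z), EAV.val_add, rep_mul_apply,
        hw _ h3, EAV.val_add, rep_mul_apply]
    rw [← h4, val_eaRepN, inv_inv, rep_mul_apply, rep_mul_apply, hg1, ← hBinv g w (ρ g⁻¹ _),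
      rep_apply_inv, hg1]
  have hfix : ∀ w ∈ N₁, ∀ x : EAV hE, ω v₁ x ≠ 0 → ρ x.val w = w → w = 0 := by
    intro w hw x hx hxw
    by_contra h0
    exact hx (hφ (hmax w h0 hw hxw))
  have hw₀N : w₀ ∈ N₁ := fun v hv => hv
  have hd : Z (Z (Z w₀)) - ε • w₀ ∈ N₁ :=
    N₁.sub_mem (hZN _ (hZN _ (hZN _ hw₀N))) (N₁.smul_mem _ hw₀N)
  have hc : (Z (Z (Z w₀)) - ε • w₀) - Z (Z (Z (Z w₀)) - ε • w₀) = 0 := by
    refine fix_nondeg ρ B hBinv hBnd (EAV.grp (stab ρ hE w₀)) ?_ ?_ ?_
    · obtain ⟨k, hk⟩ := IsPGroup.iff_card.1 (hE.isPGroup.to_le (EAV.grp_le (stab ρ hE w₀)))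
      rw [hk, Nat.cast_pow]
      exact pow_ne_zero _ hpF
    · rintro _ ⟨v, hv, rfl⟩
      exact N₁.sub_mem hd (hZN _ hd) v hv
    · intro a ha
      have haN : a ∈ N₁ := fun v hv => ha _ ⟨v, hv, rfl⟩
      have hb := hZN _ (hZN _ hw₀N)
      have e1 := hq _ (N₁.add_mem haN hb)
      have e2 := hq _ haN
      have e3 := hq _ hb
      have e4 : B (Z (Z w₀)) (Z a) = B (Z w₀) a := hBinv _ _ _
      have e5 : B (Z (Z w₀)) (Z (Z a)) = B w₀ a := (hBinv _ _ _).trans (hBinv _ _ _)
      have e6 := hBε a (Z (Z (Z w₀)))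
      have e7 := hBε a (Z (Z (Z (Z w₀))))
      simp only [map_add, map_sub, map_smul, LinearMap.add_apply, LinearMap.sub_apply,
        LinearMap.smul_apply, smul_eq_mul] at e1 ⊢
      rw [e6, e7]
      linear_combination ε * (e1 - e2 - e3 - e4 + e5)
  have hd0 : Z (Z (Z w₀)) = ε • w₀ :=
    sub_eq_zero.1 (hfix _ hd z hz (sub_eq_zero.1 hc).symm)
  refine hw₀ (hfix w₀ hw₀N (z + z + z + z + z + z) ?_ ?_)
  · simp only [map_add]
    intro h
    have : (2 * 3 : ZMod p) * ω v₁ z = 0 := by linear_combination h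
    exact hz ((mul_eq_zero.1 this).resolve_left
      (mul_ne_zero (two_ne_zero_zmod h5) (three_ne_zero_zmod h5)))
  · simp only [EAV.val_add, rep_mul_apply, ← hZ]
    rw [hd0, map_smul, map_smul, map_smul, hd0, smul_smul, hε, one_smul]

end np

end Cfsg.Agent.FG.AH
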