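import Mathlib
import Cfsg.Agent.FG.AHForm
import Cfsg.Agent.FG.AHRat
import Cfsg.Agent.FG.SylowNormal
import Cfsg.Agent.GT.Fitting
import Cfsg.Agent.Cl.SpForm

/-!
# Sylow subgroups of solvable rational groups for primes `p ≥ 5`
-/

set_option autoImplicit false
set_option linter.unusedSectionVars false
set_option linter.style.haveILetI false

namespace Cfsg.Agent.FG.AH

open Cfsg.Agent.GT Subgroup

universe u

variable {p : ℕ} [hp : Fact p.Prime]

theorem orderOf_val_dvd {G : Type*} [Group G] {V : Subgroup G} {r : ℕ}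
    {hE : IsElementaryAbelian r V} (w : EAV hE) : orderOf w.val ∣ r :=
  orderOf_dvd_of_pow_eq_one (hE.2 _ w.val_mem)

theorem coprime_two_pow (h5 : 5 ≤ p) (k : ℕ) : Nat.Coprime 2 (p ^ k) :=
  ((Nat.coprime_primes Nat.prime_two hp.out).2 (by omega)).pow_right k

theorem Rtl.mem_pCore_aux (h5 : 5 ≤ p) (n : ℕ) : ∀ (G : Type u) [Group G] [Finite G],
    Nat.card G = n → Group.IsSolvable G → Rtl G → ∀ x : G, (∃ k, orderOf x = p ^ k) →
      x ∈ pCore p G := by
  induction n using Nat.strong_induction_on with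
  | _ n ih =>
  intro G _ _ hn hG h x hx
  rcases subsingleton_or_nontrivial G with h1 | h1
  · rw [Subsingleton.elim x 1]
    exact one_mem _
  obtain ⟨N, r, hN, -, hr, hE⟩ := exists_isMinNormal_elementary_le (H := (⊤ : Subgroup G))
    top_ne_bot
  haveI := hN.normal
  haveI := Fact.mk hr
  have hlt : Nat.card (G ⧸ N) < n := by
    rw [← hn, ← N.card_mul_index]
    have := (one_lt_card_iff_ne_bot N).2 hN.ne_bot
    have h2 : 0 < Nat.card (G ⧸ N) := Nat.card_pos
    change Nat.card (G ⧸ N) < Nat.card N * Nat.card (G ⧸ N)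
    nlinarith
  have hq := ih _ hlt (G ⧸ N) rfl inferInstance (h.quotient N) (x : G ⧸ N) (by
    obtain ⟨k, hk⟩ := hx
    obtain ⟨j, -, hj⟩ := (Nat.dvd_prime_pow hp.out).1
      (hk ▸ orderOf_map_dvd (QuotientGroup.mk' N) x)
    exact ⟨j, hj⟩)
  set M := (pCore p (G ⧸ N)).comap (QuotientGroup.mk' N) with hM
  have hxM : x ∈ M := hq
  by_cases hrp : r = p
  · subst hrp
    refine comap_pCore_le (QuotientGroup.mk' N) ?_ hxM
    rw [QuotientGroup.ker_mk']
    exact hE.isPGroup
  have hNC : N ≤ centralizer (N : Set G) := hE.le_centralizer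
  have hMC : M ≤ centralizer (N : Set G) := by
    by_contra hne
    let f := QuotientGroup.mk' (centralizer (N : Set G))
    have hf : Function.Surjective f := QuotientGroup.mk'_surjective _
    haveI : (M.map f).Normal := Normal.map inferInstance f hf
    have hMp : IsPGroup p (M.map f) := by
      rintro ⟨_, g, hg, rfl⟩
      obtain ⟨k, hk⟩ := isPGroup_pCore p ⟨_, hg⟩
      refine ⟨k, Subtype.ext ?_⟩
      have h2 : g ^ p ^ k ∈ N := (QuotientGroup.eq_one_iff _).1 (congrArg Subtype.val hk)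
      change f g ^ p ^ k = 1
      rw [← map_pow]
      exact (QuotientGroup.eq_one_iff _).2 (hNC h2)
    have hb : M.map f ≠ ⊥ := fun hb => hne fun g hg =>
      (QuotientGroup.eq_one_iff g).1 (mem_bot.1 (hb ▸ mem_map_of_mem f hg))
    obtain ⟨V, hV, hVM⟩ := exists_isMinNormal_le hb
    haveI := repC_isIrreducible hN hE
    refine np (repC hE) (repC_injective hE) h5 ?_ hV
      (hV.elementary_of_isPGroup hp.out (hMp.to_le hVM)) (h.quotient _).real ?_
    · intro h0
      exact hrp ((Nat.prime_dvd_prime_iff_eq hr hp.out).1 ((ZMod.natCast_eq_zero_iff p r).1 h0))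
    · intro y hy w hw
      obtain ⟨y, rfl, k, hk⟩ := H96.exists_pElement_lift (p := p) hf (y := y) (by
        obtain ⟨k, hk⟩ := (hMp.to_le hVM).exists_orderOf_eq_pow ⟨y, hy⟩
        exact ⟨k, by rw [← hk, orderOf_mk]⟩)
      have hc : Commute w.val y := (mul_inv_eq_iff_eq_mul.1 (congrArg EAV.val hw)).symm
      obtain ⟨g, hg1, hg2⟩ := h.split hc (k := 2) (by
        rw [hk]
        exact Nat.Coprime.coprime_dvd_left (orderOf_val_dvd w)
          (((Nat.coprime_primes hr hp.out).2 hrp).pow_right k)) (hk ▸ coprime_two_pow h5 k)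
      refine ⟨f g, EAV.ext hg1, ?_⟩
      rw [← map_inv, ← map_mul, ← map_mul, hg2, map_pow]
  haveI : Group.IsNilpotent (pCore p (G ⧸ N)) := (isPGroup_pCore p).isNilpotent
  haveI : Group.IsNilpotent M := by
    refine Subgroup.isNilpotent_of_ker_le_center
      ((QuotientGroup.mk' N).subgroupComap (pCore p (G ⧸ N))) ?_
    intro a ha
    have h2 : (a : G) ∈ N := (QuotientGroup.eq_one_iff _).1 (congrArg Subtype.val ha)
    rw [mem_center_iff]
    intro b
    exact Subtype.ext (hMC b.2 a h2).symm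
  obtain ⟨k, hk⟩ := hx
  exact le_pCore_of_le_fitting (K := zpowers x) (IsPGroup.of_card (by rw [Nat.card_zpowers, hk]))
    ((zpowers_le.2 hxM).trans (le_fitting M)) (mem_zpowers x)

variable {G : Type u} [Group G] [Finite G]

/-- For `p ≥ 5` a solvable rational group has a normal Sylow `p`-subgroup. -/
theorem Rtl.mem_pCore (h : Rtl G) (hG : Group.IsSolvable G) (h5 : 5 ≤ p) {x : G}
    (hx : ∃ k, orderOf x = p ^ k) : x ∈ pCore p G :=
  Rtl.mem_pCore_aux h5 _ G rfl hG h x hx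

theorem Rtl.mem_centralizer (h : Rtl G) (hG : Group.IsSolvable G) (h5 : 5 ≤ p) {x : G}
    (hx : ∃ k, orderOf x = p ^ k) {V : Subgroup G} (hV : IsMinNormal V) :
    x ∈ centralizer (V : Set G) :=
  hV.fitting_le_centralizer (pCore_le_fitting hp.out (h.mem_pCore hG h5 hx))

/-- The group induced on a minimal normal subgroup is a `{2,3}`-group. -/
theorem Rtl.prime_dvd_quot (h : Rtl G) (hG : Group.IsSolvable G) {V : Subgroup G} [V.Normal]
    (hV : IsMinNormal V) {r : ℕ} (hr : r.Prime)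
    (hd : r ∣ Nat.card (G ⧸ centralizer (V : Set G))) : r = 2 ∨ r = 3 := by
  by_contra hne
  haveI := Fact.mk hr
  have h5 : 5 ≤ r := hr.five_le_of_ne_two_of_ne_three (fun h => hne (Or.inl h))
    (fun h => hne (Or.inr h))
  obtain ⟨y, hy⟩ := exists_prime_orderOf_dvd_card' r hd
  obtain ⟨x, rfl, hx⟩ := H96.exists_pElement_lift (p := r)
    (QuotientGroup.mk'_surjective (centralizer (V : Set G))) (y := y) ⟨1, by rw [hy, pow_one]⟩
  have : (QuotientGroup.mk' (centralizer (V : Set G))) x = 1 :=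
    (QuotientGroup.eq_one_iff _).2 (h.mem_centralizer hG h5 hx hV)
  rw [this, orderOf_one] at hy
  omega

theorem Rtl.exists_double (h : Rtl G) (h5 : 5 ≤ p) {V : Subgroup G} [V.Normal]
    {hE : IsElementaryAbelian p V} {u : G} (hu : (orderOf u).Coprime p) (v : EAV hE)
    (hc : Commute u v.val) : ∃ g, Commute g u ∧ eaRepN hE g v = (2 : ZMod p) • v := by
  obtain ⟨g, h1, h2⟩ := h.split hc (hu.coprime_dvd_right (orderOf_val_dvd v)) (k := 2)
    (((Nat.coprime_primes Nat.prime_two hp.out).2 (by omega)).coprime_dvd_right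
      (orderOf_val_dvd v))
  exact ⟨g, mul_inv_eq_iff_eq_mul.1 h1, EAV.ext (by rw [val_eaRepN, val_two_smul, h2])⟩

/-- A minimal normal `p`-subgroup of a rational group has an invariant symplectic form. -/
theorem Rtl.exists_sp (h : Rtl G) (h5 : 5 ≤ p) {V : Subgroup G} [V.Normal] (hV : IsMinNormal V)
    (hE : IsElementaryAbelian p V) :
    ∃ B : EAV hE →ₗ[ZMod p] EAV hE →ₗ[ZMod p] ZMod p, (∀ a, (∀ b, B a b = 0) → a = 0) ∧
      (∀ g a b, B (eaRepN hE g a) (eaRepN hE g b) = B a b) ∧ ∀ a, B a a = 0 := by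
  haveI := eaRepN_isIrreducible hV hE
  obtain ⟨B, -, -, h1, h2, -⟩ := exists_form (eaRepN hE) h.real
  refine ⟨B, h1, h2, fun a => alt_of_double _ B h2 (three_ne_zero_zmod h5) ?_⟩
  obtain ⟨g, -, hg⟩ := h.exists_double h5 (u := 1) (by simp) a (Commute.one_left _)
  exact ⟨g, hg⟩

theorem Rtl.exists_notMem_aux (h5 : 5 ≤ p) (n : ℕ) : ∀ (G : Type u) [Group G] [Finite G],
    Nat.card G = n → Group.IsSolvable G → Rtl G → ∀ u a : G, (orderOf u).Coprime p → a ≠ 1 →
      a ^ p = 1 → Commute a u → ∃ b ∈ pCore p G, Commute b u ∧ b ∉ zpowers a := by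
  induction n using Nat.strong_induction_on with
  | _ n ih =>
  intro G _ _ hn hG h u a hu ha1 hap hau
  have haP : a ∈ pCore p G := h.mem_pCore hG h5 ⟨1, by rw [orderOf_eq_prime hap ha1, pow_one]⟩
  obtain ⟨N, hN, hNP⟩ := exists_isMinNormal_le (H := pCore p G)
    fun hb => ha1 (mem_bot.1 (hb ▸ haP))
  haveI := hN.normal
  have hNp := (isPGroup_pCore p).to_le hNP
  have hE := hN.elementary_of_isPGroup hp.out hNp
  by_cases haN : a ∈ N
  · obtain ⟨B, h1, h2, h3⟩ := h.exists_sp h5 hN hE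
    by_contra hcon
    push Not at hcon
    have h0 : EAV.mk hE a haN = 0 := by
      refine fix_nondeg (eaRepN hE) B h2 h1 (zpowers u) ?_ ?_ ?_
      · rw [Nat.card_zpowers]
        exact fun h0 => (Nat.Prime.coprime_iff_not_dvd hp.out).1 hu.symm
          ((ZMod.natCast_eq_zero_iff _ _).1 h0)
      · rintro _ ⟨k, rfl⟩
        exact EAV.ext (mul_inv_eq_iff_eq_mul.2 (hau.zpow_right k).symm)
      · intro b hb
        have h4 : Commute b.val u :=
          (mul_inv_eq_iff_eq_mul.1 (congrArg EAV.val (hb u (mem_zpowers u)))).symm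
        obtain ⟨k, hk⟩ := mem_powers_iff_mem_zpowers.2 (hcon _ (hNP b.val_mem) h4)
        have h5 : b = (k : ZMod p) • EAV.mk hE a haN :=
          EAV.ext (by rw [EAV.val_natCast_smul, ← hk]; rfl)
        rw [h5, map_smul, h3, smul_zero]
    exact ha1 (congrArg EAV.val h0)
  · have hlt : Nat.card (G ⧸ N) < n := by
      rw [← hn, ← N.card_mul_index]
      have := (one_lt_card_iff_ne_bot N).2 hN.ne_bot
      have h2 : 0 < Nat.card (G ⧸ N) := Nat.card_pos
      change Nat.card (G ⧸ N) < Nat.card N * Nat.card (G ⧸ N)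
      nlinarith
    obtain ⟨b, hb1, hb2, hb3⟩ := ih _ hlt (G ⧸ N) rfl inferInstance (h.quotient N) (u : G ⧸ N)
      (a : G ⧸ N) (hu.coprime_dvd_left (orderOf_map_dvd (QuotientGroup.mk' N) u))
      (fun h0 => haN ((QuotientGroup.eq_one_iff a).1 h0))
      (by rw [← QuotientGroup.mk_pow, hap, QuotientGroup.mk_one])
      (hau.map (QuotientGroup.mk' N))
    obtain ⟨b, rfl⟩ := QuotientGroup.mk_surjective b
    obtain ⟨k, hk⟩ := IsPGroup.iff_card.1 hNp
    obtain ⟨b', h1, h2⟩ := CN.exists_lift_commute N (y := u) (g := b)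
      (hk ▸ hu.pow_right k) hb2
    refine ⟨b', comap_pCore_le (QuotientGroup.mk' N) ?_ (show (b' : G ⧸ N) ∈ _ from h2 ▸ hb1), h1,
      fun hm => hb3 ?_⟩
    · rw [QuotientGroup.ker_mk']
      exact hNp
    · obtain ⟨j, rfl⟩ := hm
      exact ⟨j, by rw [← h2]; exact (QuotientGroup.mk_zpow _ _ _).symm⟩

/-- In a solvable rational group no centralizer has order exactly divisible by `p ≥ 5`. -/
theorem Rtl.sq_dvd (h : Rtl G) (hG : Group.IsSolvable G) (h5 : 5 ≤ p) {x : G}
    (hx : p ∣ Nat.card (centralizer {x})) : p ^ 2 ∣ Nat.card (centralizer {x}) := by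
  obtain ⟨⟨a, ha⟩, hao⟩ := exists_prime_orderOf_dvd_card' p hx
  rw [orderOf_mk] at hao
  have hax : Commute a x := mem_centralizer_singleton_iff.1 ha
  obtain ⟨e, m, hm, ho⟩ := Nat.exists_eq_pow_mul_and_not_dvd (orderOf_pos x).ne' p hp.out.ne_one
  have hpm : m.Coprime p := ((Nat.Prime.coprime_iff_not_dvd hp.out).2 hm).symm
  have ha1 : a ≠ 1 := fun h0 => hp.out.ne_one (by rw [← hao, h0, orderOf_one])
  have hu : (orderOf (x ^ p ^ e)).Coprime p := hpm.coprime_dvd_left
    (orderOf_dvd_of_pow_eq_one (by rw [← pow_mul, ← ho, pow_orderOf_eq_one]))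
  obtain ⟨b, hb1, hb2, hb3⟩ := Rtl.exists_notMem_aux h5 _ G rfl hG h (x ^ p ^ e) a hu ha1
    (hao ▸ pow_orderOf_eq_one a) (hax.pow_right _)
  have hv : x ^ m ∈ pCore p G := by
    obtain ⟨j, -, hj⟩ := (Nat.dvd_prime_pow hp.out).1 (orderOf_dvd_of_pow_eq_one
      (show (x ^ m) ^ p ^ e = 1 by rw [← pow_mul, mul_comm, ← ho, pow_orderOf_eq_one]))
    exact h.mem_pCore hG h5 ⟨j, hj⟩
  have haP : a ∈ pCore p G := h.mem_pCore hG h5 ⟨1, by rw [hao, pow_one]⟩
  set R := pCore p G ⊓ centralizer {x ^ p ^ e} with hR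
  set T := pCore p G ⊓ centralizer {x} with hT
  have hRT : ∀ g ∈ R, Commute g (x ^ m) → g ∈ T := by
    intro g hg hc
    refine ⟨hg.1, mem_centralizer_singleton_iff.2 ?_⟩
    have h1 : Commute g (x ^ p ^ e) := mem_centralizer_singleton_iff.1 hg.2
    have h2 : x = (x ^ m) ^ Nat.gcdA m (p ^ e) * (x ^ p ^ e) ^ Nat.gcdB m (p ^ e) := by
      rw [← zpow_natCast, ← zpow_natCast, ← zpow_mul, ← zpow_mul, ← zpow_add,
        ← Nat.gcd_eq_gcd_ab, hpm.pow_right e, Nat.cast_one, zpow_one]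
    rw [h2]
    exact ((hc.zpow_right _).mul_right (h1.zpow_right _))
  have hTp : IsPGroup p T := (isPGroup_pCore p).to_le inf_le_left
  obtain ⟨k, hk⟩ := IsPGroup.iff_card.1 hTp
  refine dvd_trans ?_ (card_dvd_of_le (inf_le_right : T ≤ _))
  rw [hk]
  refine pow_dvd_pow _ (not_lt.1 fun hlt => hb3 ?_)
  have haT : zpowers a = T := eq_of_le_of_card_ge (zpowers_le.2 ⟨haP, ha⟩) (by
    rw [hk, Nat.card_zpowers, hao]
    calc p ^ k ≤ p ^ 1 := Nat.pow_le_pow_right hp.out.pos (by omega)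
      _ = p := pow_one p)
  have hxm : x ^ m ∈ R := ⟨hv, mem_centralizer_singleton_iff.2 (Commute.pow_pow_self x _ _)⟩
  have haR : a ∈ R := ⟨haP, mem_centralizer_singleton_iff.2 (hax.pow_right _)⟩
  have hbR : b ∈ R := ⟨hb1, mem_centralizer_singleton_iff.2 hb2⟩
  haveI : Nontrivial R := ⟨⟨a, haR⟩, 1, fun h0 => ha1 (congrArg Subtype.val h0)⟩
  haveI := ((isPGroup_pCore p).to_le (inf_le_left : R ≤ _)).center_nontrivial
  obtain ⟨⟨⟨z, hzR⟩, hz⟩, hz1⟩ := exists_ne (1 : center R)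
  have hzc : ∀ g ∈ R, Commute g z := fun g hg =>
    congrArg Subtype.val (mem_center_iff.1 hz ⟨g, hg⟩)
  have hzT : z ∈ zpowers a := haT ▸ hRT z hzR (hzc _ hxm).symm
  have hz1' : z ≠ 1 := fun h0 => hz1 (Subtype.ext (Subtype.ext h0))
  have haz : ∀ g ∈ zpowers a, g ∈ zpowers z := by
    intro g hg
    obtain ⟨j, hj⟩ := mem_zpowers_of_prime_card (G := zpowers a)
      (by rw [Nat.card_zpowers, hao]) (g := ⟨z, hzT⟩) (g' := ⟨g, hg⟩)
      fun h0 => hz1' (congrArg Subtype.val h0)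
    exact ⟨j, congrArg Subtype.val hj⟩
  obtain ⟨j, hj⟩ := haz (x ^ m) (haT ▸ ⟨hv, mem_centralizer_singleton_iff.2
    (Commute.pow_self x m)⟩)
  rw [haT]
  exact hRT b hbR (hj ▸ (hzc b hbR).zpow_right j)

/-- Elements with centralizers of the same order are conjugate. -/
def AHG (G : Type*) [Group G] : Prop :=
  ∀ x y : G, Nat.card (centralizer {x}) = Nat.card (centralizer {y}) → IsConj x y

theorem AHG.rtl (h : AHG G) : Rtl G := by
  intro x k hk
  refine h _ _ ?_
  obtain ⟨j, hj⟩ := mem_zpowers_pow_iff.2 hk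
  congr 2
  ext g
  rw [mem_centralizer_singleton_iff, mem_centralizer_singleton_iff]
  refine ⟨fun hc => Commute.pow_right hc k, fun hc => ?_⟩
  have := Commute.zpow_right hc j
  simp only at hj
  rwa [hj] at this

/-- The order of the group induced on a minimal normal `p`-subgroup is divisible by `p² - 1`. -/
theorem AHG.sq_sub_one_dvd (h : AHG G) (hG : Group.IsSolvable G) (h5 : 5 ≤ p) {V : Subgroup G}
    [V.Normal] (hV : IsMinNormal V) (hE : IsElementaryAbelian p V) :
    p ^ 2 - 1 ∣ Nat.card (G ⧸ centralizer (V : Set G)) := by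
  classical
  obtain ⟨y, ⟨hyV, hy1⟩, hmax⟩ := Set.exists_max_image {y : G | y ∈ V ∧ y ≠ 1}
    (fun y => Nat.card (centralizer {y})) (Set.toFinite _) (by
      haveI := (nontrivial_iff_ne_bot V).2 hV.ne_bot
      obtain ⟨⟨v, hv⟩, h1⟩ := exists_ne (1 : V)
      exact ⟨v, hv, fun h0 => h1 (Subtype.ext h0)⟩)
  let W : Submodule (ZMod p) (EAV hE) :=
    { carrier := {w | ∀ g ∈ centralizer {y}, eaRepN hE g w = w}
      add_mem' := fun ha hb v hv => by rw [map_add, ha v hv, hb v hv]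
      zero_mem' := fun v _ => map_zero _
      smul_mem' := fun c w hw v hv => by rw [map_smul, hw v hv] }
  have hW : ∀ w, w ∈ W ↔ centralizer {y} ≤ centralizer {w.val} := fun w =>
    ⟨fun hw g hg => mem_centralizer_singleton_iff.2
      (mul_inv_eq_iff_eq_mul.1 (congrArg EAV.val (hw g hg))),
    fun hw g hg => EAV.ext (mul_inv_eq_iff_eq_mul.2 (mem_centralizer_singleton_iff.1 (hw hg)))⟩
  have h1 := ncard_orbit_dvd y (normalizer (centralizer {y} : Subgroup G)) le_normalizer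
  have h2 : {w | ∃ g ∈ normalizer ((centralizer {y} : Subgroup G) : Set G), g * y * g⁻¹ = w} =
      EAV.val '' ((W : Set (EAV hE)) \ {0}) := by
    ext w
    constructor
    · rintro ⟨g, hg, rfl⟩
      refine ⟨EAV.mk hE _ (hV.normal.conj_mem y hyV g), ⟨(hW _).2 fun c hc => ?_, fun h0 => ?_⟩,
        rfl⟩
      · have h3 := mem_centralizer_singleton_iff.1 ((mem_normalizer_iff''.1 hg c).1 hc)
        rw [mem_centralizer_singleton_iff, EAV.val_mk]
        calc c * (g * y * g⁻¹) = g * (g⁻¹ * c * g * y) * g⁻¹ := by group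
          _ = g * y * g⁻¹ * c := by rw [h3]; group
      · exact hy1 (conj_eq_one_iff.1 (congrArg EAV.val h0))
    · rintro ⟨w, ⟨hw, hw0⟩, rfl⟩
      have h3 : centralizer {y} = centralizer {w.val} := eq_of_le_of_card_ge ((hW w).1 hw)
        (hmax _ ⟨w.val_mem, fun h0 => hw0 (EAV.val_eq_one_iff.1 h0)⟩)
      obtain ⟨g, hg⟩ := isConj_iff.1 (h y w.val (by rw [h3]))
      refine ⟨g, mem_normalizer_fintype fun c hc => ?_, hg⟩
      have h4 := mem_centralizer_singleton_iff.1 hc
      rw [SetLike.mem_coe, h3, mem_centralizer_singleton_iff, ← hg]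
      calc g * c * g⁻¹ * (g * y * g⁻¹) = g * (c * y) * g⁻¹ := by group
        _ = g * y * g⁻¹ * (g * c * g⁻¹) := by rw [h4]; group
  rw [h2, Set.ncard_image_of_injective _ EAV.val_injective,
    Set.ncard_sdiff_singleton_of_mem W.zero_mem] at h1
  obtain ⟨B, hB1, hB2, hB3⟩ := h.rtl.exists_sp h5 hV hE
  have hnd : ∀ a : W, (∀ b : W, B a b = 0) → a = 0 := by
    intro a ha
    refine Subtype.ext (fix_nondeg (repC hE) B ?_ hB1
      ((centralizer {y}).map (QuotientGroup.mk' _)) ?_ ?_ ?_)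
    · intro g
      obtain ⟨g, rfl⟩ := QuotientGroup.mk_surjective g
      exact hB2 g
    · intro h0
      rcases h.rtl.prime_dvd_quot hG hV hp.out (((ZMod.natCast_eq_zero_iff _ _).1 h0).trans
        (card_subgroup_dvd_card _)) with h3 | h3 <;> omega
    · rintro _ ⟨g, hg, rfl⟩
      exact a.2 g hg
    · intro b hb
      exact ha ⟨b, fun g hg => hb _ (mem_map_of_mem _ hg)⟩
  haveI : FiniteDimensional (ZMod p) W := Module.Finite.of_finite
  have halt : LinearMap.IsAlt (LinearMap.BilinForm.restrict B W) := fun a => hB3 a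
  obtain ⟨m, hm⟩ := Cl.sp_even_finrank (B := LinearMap.BilinForm.restrict B W)
    ⟨hnd, fun a ha => hnd a fun b => halt.isRefl _ _ (ha b)⟩ halt
  have h3 : (W : Set (EAV hE)).ncard = (p ^ 2) ^ m := by
    rw [← Nat.card_coe_set_eq]
    change Nat.card W = _
    rw [Module.natCard_eq_pow_finrank (K := ZMod p), Nat.card_zmod, hm, ← two_mul, pow_mul]
  rw [h3] at h1
  refine ((Nat.sub_one_dvd_pow_sub_one _ _).trans h1).trans (index_dvd_of_le ?_)
  exact centralizer_le (Set.singleton_subset_iff.2 hyV)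

end Cfsg.Agent.FG.AH
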