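import Mathlib
import Cfsg.Agent.FG.AHSyl
import Cfsg.Agent.FG.AHQuad

/-!
# No centralizers of order three or six
-/

set_option autoImplicit false
set_option linter.unusedSectionVars false
set_option linter.style.haveILetI false

namespace Cfsg.Agent.FG.AH

open Cfsg.Agent.GT Subgroup

universe u

theorem exists_faithful {H : Type u} [Group H] {M : Type*} [Monoid M] (σ : H →* M) :
    ∃ (L : Type u) (_ : Group L) (f : H →* L) (ρ : L →* M), Function.Surjective f ∧
      Function.Injective ρ ∧ ∀ h, ρ (f h) = σ h := by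
  refine ⟨H ⧸ σ.ker, inferInstance, QuotientGroup.mk' _, QuotientGroup.lift _ σ fun _ h => h,
    QuotientGroup.mk'_surjective _, ?_, fun _ => rfl⟩
  rw [injective_iff_map_eq_one]
  intro x hx
  obtain ⟨g, rfl⟩ := QuotientGroup.mk_surjective x
  exact (QuotientGroup.eq_one_iff g).2 hx

variable {p : ℕ} [hp : Fact p.Prime] {G : Type u} [Group G] [Finite G] {V : Subgroup G} [V.Normal]
  {hE : IsElementaryAbelian p V}

theorem fix_zero {x : G} (hx : ¬p ∣ Nat.card (centralizer {x})) {v : EAV hE}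
    (hv : eaRepN hE x v = v) : v = 0 := by
  by_contra h0
  have h1 : v.val ∈ centralizer {x} :=
    mem_centralizer_singleton_iff.2 (mul_inv_eq_iff_eq_mul.1 (congrArg EAV.val hv)).symm
  have h2 : orderOf v.val = p :=
    orderOf_eq_prime (hE.2 _ v.val_mem) fun h => h0 (EAV.val_eq_one_iff.1 h)
  exact hx (h2 ▸ Subgroup.orderOf_dvd_natCard _ h1)

/-- The fixed points of an element. -/
def fixS (hE : IsElementaryAbelian p V) (a : G) : Submodule (ZMod p) (EAV hE) :=
  LinearMap.eqLocus (eaRepN hE a) LinearMap.id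

theorem mem_fixS {a : G} {v : EAV hE} : v ∈ fixS hE a ↔ eaRepN hE a v = v := Iff.rfl

/-- The centralizer of an element acts on its fixed points. -/
def fixRep (hE : IsElementaryAbelian p V) (a : G) :
    Representation (ZMod p) (centralizer {a} : Subgroup G) (fixS hE a) :=
  Representation.subrepresentation ((eaRepN hE).comp (centralizer {a}).subtype) (fixS hE a)
    fun g v hv => by
      change eaRepN hE a (eaRepN hE g v) = eaRepN hE g v
      rw [← rep_mul_apply, ← mem_centralizer_singleton_iff.1 g.2, rep_mul_apply, mem_fixS.1 hv]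

theorem fixRep_apply {a : G} (g : centralizer {a}) (v : fixS hE a) :
    (fixRep hE a g v : EAV hE) = eaRepN hE g v := rfl

theorem Rtl.fix_double (h : Rtl G) (h5 : 5 ≤ p) {a : G} (ha : (orderOf a).Coprime p)
    (v : fixS hE a) : ∃ g, fixRep hE a g v = (2 : ZMod p) • v := by
  obtain ⟨g, h1, h2⟩ := h.exists_double h5 ha v.1
    (mul_inv_eq_iff_eq_mul.1 (congrArg EAV.val v.2))
  exact ⟨⟨g, mem_centralizer_singleton_iff.2 h1⟩, Subtype.ext h2⟩

theorem not_dvd_six (h5 : 5 ≤ p) : ¬p ∣ 6 := fun h => by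
  have h1 := Nat.le_of_dvd (by norm_num) h
  have h2 := hp.out
  interval_cases p
  · omega
  · exact absurd h2 (by norm_num)

section six

variable {x : G} (ho : orderOf x = 6) (hx : Nat.card (centralizer {x}) = 6)

include ho in
theorem order_sq : orderOf (x ^ 2) = 3 := by rw [orderOf_pow, ho]; rfl

include ho in
theorem order_cube : orderOf (x ^ 3) = 2 := by rw [orderOf_pow, ho]; rfl

include ho in
theorem pow_six : x ^ 6 = 1 := by rw [← ho, pow_orderOf_eq_one]

include ho in
theorem eq_cube_mul : x = x ^ 3 * (x ^ 2) ^ 2 := by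
  rw [← pow_mul, ← pow_add, pow_succ, pow_six ho, one_mul]

include ho hx in
theorem fix_both (h5 : 5 ≤ p) {v : EAV hE} (h2 : eaRepN hE (x ^ 2) v = v)
    (h3 : eaRepN hE (x ^ 3) v = v) : v = 0 := by
  refine fix_zero (x := x) (hx ▸ not_dvd_six h5) ?_
  rw [eq_cube_mul ho, pow_two (x ^ 2), rep_mul_apply, rep_mul_apply, h2, h2, h3]

include ho hx in
theorem exists_pow_of_commute {g : G} (h2 : Commute g (x ^ 2)) (h3 : Commute g (x ^ 3)) :
    ∃ i j : ℕ, g = (x ^ 3) ^ i * (x ^ 2) ^ j := by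
  have h1 : Commute g x := by
    rw [eq_cube_mul ho]
    exact h3.mul_right (h2.pow_right 2)
  obtain ⟨k, rfl⟩ := mem_powers_iff_mem_zpowers.2 (mem_zpowers_of_card_le (by rw [ho, hx]) h1)
  refine ⟨k, 2 * k, ?_⟩
  simp only
  conv_lhs => rw [eq_cube_mul ho]
  rw [(Commute.pow_right (Commute.pow_pow_self x 3 2) 2).mul_pow, pow_mul (x ^ 2)]

include ho hx in
theorem Rtl.fix_sq (h : Rtl G) (h5 : 5 ≤ p) {v : EAV hE} (hv : eaRepN hE (x ^ 2) v = v) :
    v = 0 := by
  by_contra h0
  obtain ⟨L, _, f, ρ, hf, hρ, hfρ⟩ := exists_faithful (fixRep hE (x ^ 2))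
  haveI : Finite L := Finite.of_surjective f hf
  let t : centralizer {x ^ 2} := ⟨x ^ 3, mem_centralizer_singleton_iff.2 (Commute.pow_pow_self x 3 2)⟩
  let c : centralizer {x ^ 2} := ⟨x ^ 2, mem_centralizer_singleton_iff.2 rfl⟩
  have ht : ρ (f t) = -1 := by
    rw [hfρ]
    ext1 u
    have e1 : eaRepN hE (x ^ 2) (eaRepN hE (x ^ 3) u + u) = eaRepN hE (x ^ 3) u + u :=
      mem_fixS.1 (fixRep hE (x ^ 2) t u + u).2
    have e2 : eaRepN hE (x ^ 3) (eaRepN hE (x ^ 3) u + u) = eaRepN hE (x ^ 3) u + u := by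
      rw [map_add, ← rep_mul_apply, ← pow_add, pow_six ho, map_one, Module.End.one_apply, add_comm]
    exact Subtype.ext (eq_neg_of_add_eq_zero_left (fix_both ho hx h5 e1 e2))
  have hto : orderOf t = 2 := by rw [← orderOf_coe]; exact order_cube ho
  have hco : orderOf c = 3 := by rw [← orderOf_coe]; exact order_sq ho
  have h1 := card_centralizer_map_le_orderOf f hf (y := t) (z := c)
    (mem_center_iff.2 fun g => Subtype.ext (mem_centralizer_singleton_iff.1 g.2))
    (hρ (by rw [hfρ, map_one]; exact LinearMap.ext fun u => Subtype.ext u.2))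
    (by rw [hto, hco]; norm_num) (fun g hg => by
      obtain ⟨i, j, hij⟩ := exists_pow_of_commute ho hx (mem_centralizer_singleton_iff.1 g.2)
        (congrArg Subtype.val hg)
      exact ⟨t ^ i, npow_mem_zpowers _ _, c ^ j, npow_mem_zpowers _ _, Subtype.ext hij⟩)
  have h2 : orderOf (f t) = 2 := by
    haveI : Fact (Nat.Prime 2) := ⟨Nat.prime_two⟩
    refine orderOf_eq_prime (by rw [← map_pow, orderOf_dvd_iff_pow_eq_one.1 hto.dvd, map_one]) fun h3 => ?_
    rw [h3, map_one] at ht
    have h4 := LinearMap.congr_fun ht ⟨v, hv⟩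
    have h5' : (2 : ZMod p) • v = 0 := by
      rw [two_smul]
      exact eq_neg_iff_add_eq_zero.1 (congrArg Subtype.val h4)
    exact h0 ((smul_eq_zero.1 h5').resolve_left (two_ne_zero_zmod h5))
  obtain ⟨g, hg⟩ := h.fix_double h5 (a := x ^ 2) (by
    rw [order_sq ho]
    exact (Nat.coprime_primes Nat.prime_three hp.out).2 (by omega)) (⟨v, hv⟩ : fixS hE (x ^ 2))
  obtain ⟨k, hk⟩ := mem_powers_iff_mem_zpowers.2 (mem_zpowers_of_card_le (g := f g)
    (h1.trans (by rw [hto, h2])) (hρ (by rw [map_mul, map_mul, ht, neg_one_mul, mul_neg_one])))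
  simp only at hk
  rw [← hfρ, ← hk, map_pow, ht] at hg
  rcases neg_one_pow_eq_or (Module.End (ZMod p) (fixS hE (x ^ 2))) k with h3 | h3 <;>
    rw [h3] at hg
  · have h4 : v = (2 : ZMod p) • v := congrArg Subtype.val hg
    rw [two_smul] at h4
    exact h0 (left_eq_add.1 h4)
  · have h4 : -v = (2 : ZMod p) • v := congrArg Subtype.val hg
    have h5' : (3 : ZMod p) • v = 0 := by
      rw [show (3 : ZMod p) = 2 + 1 by norm_num, add_smul, ← h4, one_smul, neg_add_cancel]
    exact h0 ((smul_eq_zero.1 h5').resolve_left (three_ne_zero_zmod h5))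

include ho hx in
theorem Rtl.fix_cube (h : Rtl G) (hG : Group.IsSolvable G) (h5 : 5 ≤ p) (hV : IsMinNormal V)
    {v : EAV hE} (hv : eaRepN hE (x ^ 3) v = v) : v = 0 := by
  by_contra h0
  obtain ⟨L, _, f, ρ, hf, hρ, hfρ⟩ := exists_faithful (fixRep hE (x ^ 3))
  haveI : Finite L := Finite.of_surjective f hf
  let t : centralizer {x ^ 3} := ⟨x ^ 3, mem_centralizer_singleton_iff.2 rfl⟩
  let c : centralizer {x ^ 3} := ⟨x ^ 2, mem_centralizer_singleton_iff.2 (Commute.pow_pow_self x 2 3)⟩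
  have hto : orderOf t = 2 := by rw [← orderOf_coe]; exact order_cube ho
  have hco : orderOf c = 3 := by rw [← orderOf_coe]; exact order_sq ho
  have hc3 : c ^ 3 = 1 := orderOf_dvd_iff_pow_eq_one.1 hco.dvd
  haveI : Nontrivial (fixS hE (x ^ 3)) := ⟨⟨v, hv⟩, 0, fun h1 => h0 (congrArg Subtype.val h1)⟩
  have hc : ρ (f c) * ρ (f c) + ρ (f c) + 1 = 0 := by
    rw [hfρ]
    ext1 u
    have e1 : eaRepN hE (x ^ 3) (eaRepN hE (x ^ 2) (eaRepN hE (x ^ 2) u) + eaRepN hE (x ^ 2) u + u) =
        eaRepN hE (x ^ 2) (eaRepN hE (x ^ 2) u) + eaRepN hE (x ^ 2) u + u :=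
      mem_fixS.1 (fixRep hE (x ^ 3) c (fixRep hE (x ^ 3) c u) + fixRep hE (x ^ 3) c u + u).2
    have e2 : eaRepN hE (x ^ 2) (eaRepN hE (x ^ 2) (eaRepN hE (x ^ 2) u) + eaRepN hE (x ^ 2) u + u) =
        eaRepN hE (x ^ 2) (eaRepN hE (x ^ 2) u) + eaRepN hE (x ^ 2) u + u := by
      rw [map_add, map_add, ← rep_mul_apply _ _ _ (eaRepN hE (x ^ 2) u),
        ← rep_mul_apply _ (x ^ 2 * x ^ 2), ← pow_add, ← pow_add, pow_six ho, map_one,
        Module.End.one_apply]
      abel
    exact Subtype.ext (fix_both ho hx h5 e2 e1)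
  have h1 := card_centralizer_map_le_orderOf f hf (y := c) (z := t)
    (mem_center_iff.2 fun g => Subtype.ext (mem_centralizer_singleton_iff.1 g.2))
    (hρ (by rw [hfρ, map_one]; exact LinearMap.ext fun u => Subtype.ext u.2))
    (by rw [hto, hco]; norm_num) (fun g hg => by
      obtain ⟨i, j, hij⟩ := exists_pow_of_commute ho hx (congrArg Subtype.val hg)
        (mem_centralizer_singleton_iff.1 g.2)
      refine ⟨c ^ j, npow_mem_zpowers _ _, t ^ i, npow_mem_zpowers _ _, Subtype.ext ?_⟩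
      rw [hij]
      exact (Commute.pow_pow (Commute.pow_pow_self x 3 2) i j).eq)
  obtain ⟨s, hs1, hs2⟩ := h.split (Commute.pow_pow_self x 3 2)
    (by rw [order_cube ho, order_sq ho]; norm_num) (k := 2) (by rw [order_sq ho]; norm_num)
  let s' : centralizer {x ^ 3} := ⟨s, mem_centralizer_singleton_iff.2 (mul_inv_eq_iff_eq_mul.1 hs1)⟩
  have hs3 : s' * c * s'⁻¹ = c⁻¹ := by
    rw [show s' * c * s'⁻¹ = c ^ 2 from Subtype.ext hs2]
    exact eq_inv_of_mul_eq_one_left (by rw [← pow_succ, hc3])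
  have hc1 : f c ≠ 1 := fun h2 => by
    rw [h2, map_one] at hc
    have h3 := congrArg Subtype.val (LinearMap.congr_fun hc ⟨v, hv⟩)
    have h4 : (3 : ZMod p) • v = 0 := by
      rw [show (3 : ZMod p) = 1 + 1 + 1 by norm_num, add_smul, add_smul, one_smul]
      exact h3
    exact h0 ((smul_eq_zero.1 h4).resolve_left (three_ne_zero_zmod h5))
  have h2 : orderOf (f c) = 3 :=
    haveI : Fact (Nat.Prime 3) := ⟨Nat.prime_three⟩
    orderOf_eq_prime (by rw [← map_pow, hc3, map_one]) hc1
  have H : QD ρ (f c) (f s') 1 :=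
    { inj := hρ
      two := two_ne_zero_zmod h5
      three := three_ne_zero_zmod h5
      nt := inferInstance
      quad := hc
      inv := by rw [← map_inv, ← map_mul, ← map_mul, hs3, map_inv]
      sgn := Or.inr rfl
      cent := fun g hg => by
        obtain ⟨k, hk⟩ := mem_powers_iff_mem_zpowers.2 (mem_zpowers_of_card_le
          (h1.trans (by rw [hco, h2])) hg)
        exact ⟨k, Or.inl hk.symm⟩ }
  refine H.false (solvable_of_surjective hf) (fun r hr hd => ?_) (fun u => ?_)
    (fun h3 => absurd rfl h3)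
  · by_contra hne
    haveI := Fact.mk hr
    have h5' : 5 ≤ r := hr.five_le_of_ne_two_of_ne_three (fun h => hne (Or.inl h))
      (fun h => hne (Or.inr h))
    obtain ⟨y, hy⟩ := exists_prime_orderOf_dvd_card' r hd
    obtain ⟨a, rfl, ha⟩ := H96.exists_pElement_lift (p := r) hf (y := y) ⟨1, by rw [hy, pow_one]⟩
    have h3 := eaRepN_eq_one_iff (hV := hE).2
      (h.mem_centralizer hG h5' (x := (a : G)) (by rwa [orderOf_coe]) hV)
    have h4 : f a = 1 := hρ (by
      rw [hfρ, map_one]
      exact LinearMap.ext fun u => Subtype.ext (LinearMap.congr_fun h3 u))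
    rw [h4, orderOf_one] at hy
    omega
  · obtain ⟨g, hg⟩ := h.fix_double h5 (a := x ^ 3) (by
      rw [order_cube ho]
      exact (Nat.coprime_primes Nat.prime_two hp.out).2 (by omega)) u
    exact ⟨f g, by rw [hfρ, hg]⟩

end six

theorem quad_of_fix {c : G} (hc : c ^ 3 = 1) (h0 : ∀ v : EAV hE, eaRepN hE c v = v → v = 0) :
    eaRepN hE c * eaRepN hE c + eaRepN hE c + 1 = 0 := by
  ext1 u
  refine h0 _ ?_
  change eaRepN hE c (eaRepN hE c (eaRepN hE c u) + eaRepN hE c u + u) =
    eaRepN hE c (eaRepN hE c u) + eaRepN hE c u + u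
  rw [map_add, map_add, ← rep_mul_apply _ _ _ (eaRepN hE c u), ← rep_mul_apply _ (c * c),
    ← pow_three', hc, map_one, Module.End.one_apply]
  abel

theorem Rtl.false_of_qd (h : Rtl G) (hG : Group.IsSolvable G) (h5 : 5 ≤ p) (hV : IsMinNormal V)
    {c s z : G ⧸ centralizer (V : Set G)} (H : QD (repC hE) c s z) : False := by
  refine H.false inferInstance (fun r hr hd => h.prime_dvd_quot hG hV hr hd) (fun v => ?_)
    fun _ y hy => ?_
  · obtain ⟨g, -, hg⟩ := h.exists_double h5 (u := 1) (by simp) v (Commute.one_left _)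
    exact ⟨g, hg⟩
  · rcases hy with hy | hy
    · obtain ⟨g, hg⟩ := isConj_iff.1 (h.quotient _ y 5 (Nat.Coprime.coprime_dvd_right
        (orderOf_dvd_of_pow_eq_one (show y ^ (4 + 4) = 1 by rw [pow_add, hy, H.z_sq]))
        (by norm_num)))
      exact ⟨g, by rw [hg, pow_succ, hy]⟩
    · obtain ⟨g, hg⟩ := isConj_iff.1 (h.quotient _ y 3 (Nat.Coprime.coprime_dvd_right
        (orderOf_dvd_of_pow_eq_one (show y ^ (2 + 2) = 1 by rw [pow_add, hy, H.z_sq]))
        (by norm_num)))
      exact ⟨g, by rw [hg, pow_succ, hy]⟩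

theorem nontrivial_eav (hV : IsMinNormal V) : Nontrivial (EAV hE) :=
  ((Ch.isIrreducible_iff _).1 (eaRepN_isIrreducible hV hE)).1

theorem mk_ne_one_of_fix (hV : IsMinNormal V) {c : G}
    (h0 : ∀ v : EAV hE, eaRepN hE c v = v → v = 0) :
    (c : G ⧸ centralizer (V : Set G)) ≠ 1 := fun h => by
  haveI := nontrivial_eav (hE := hE) hV
  obtain ⟨v, hv⟩ := exists_ne (0 : EAV hE)
  refine hv (h0 v ?_)
  rw [← repC_mk, h, map_one, Module.End.one_apply]

theorem Rtl.not_order_six (h : Rtl G) (hG : Group.IsSolvable G) (h5 : 5 ≤ p)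
    (hV : IsMinNormal V) (hE : IsElementaryAbelian p V) {x : G} (ho : orderOf x = 6)
    (hx : Nat.card (centralizer {x}) = 6) : False := by
  have h2 : ∀ v : EAV hE, eaRepN hE (x ^ 2) v = v → v = 0 := fun v => h.fix_sq ho hx h5
  have h3 : ∀ v : EAV hE, eaRepN hE (x ^ 3) v = v → v = 0 := fun v => h.fix_cube ho hx hG h5 hV
  have h6 : x ^ 6 = 1 := ho ▸ pow_orderOf_eq_one x
  have ht : eaRepN hE (x ^ 3) = -1 := by
    ext1 u
    refine eq_neg_of_add_eq_zero_left (h3 _ ?_)
    change eaRepN hE (x ^ 3) (eaRepN hE (x ^ 3) u + u) = eaRepN hE (x ^ 3) u + u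
    rw [map_add, ← rep_mul_apply, ← pow_add, h6, map_one, Module.End.one_apply, add_comm]
  obtain ⟨s, hs⟩ := isConj_iff.1 (h.real (x ^ 2))
  have hxo : orderOf (x : G ⧸ centralizer (V : Set G)) = 6 := by
    refine orderOf_eq_of_pow_and_pow_div_prime (by norm_num)
      (by rw [← QuotientGroup.mk_pow, h6, QuotientGroup.mk_one]) fun q hq hd => ?_
    have h1 := Nat.le_of_dvd (by norm_num) hd
    rw [← QuotientGroup.mk_pow]
    interval_cases q
    · exact absurd hq (by norm_num)
    · exact absurd hq (by norm_num)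
    · exact mk_ne_one_of_fix hV h3
    · exact mk_ne_one_of_fix hV h2
    · omega
    · omega
    · exact absurd hq (by norm_num)
  have hle := PG.card_centralizer_mk_le (centralizer (V : Set G)) x
  have hxc : Nat.card (centralizer {(x : G ⧸ centralizer (V : Set G))}) = 6 :=
    le_antisymm (hx ▸ hle) (by
      rw [← hxo, ← Nat.card_zpowers]
      exact card_le_of_le (zpowers_le.2 (mem_centralizer_singleton_iff.2 rfl)))
  refine h.false_of_qd (hE := hE) hG h5 hV (c := (x ^ 2 : G)) (s := (s : G)) (z := (x ^ 3 : G))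
    { inj := repC_injective hE
      two := two_ne_zero_zmod h5
      three := three_ne_zero_zmod h5
      nt := nontrivial_eav hV
      quad := quad_of_fix (by rw [← pow_mul, h6]) h2
      inv := congrArg (QuotientGroup.mk (s := centralizer (V : Set G))) hs
      sgn := Or.inl ht
      cent := fun g hg => ?_ }
  obtain ⟨i, j, hij⟩ := exists_pow_of_commute hxo hxc (g := g) hg (repC_injective hE (by
    rw [map_mul, map_mul, ← QuotientGroup.mk_pow, repC_mk, ht, neg_one_mul, mul_neg_one]))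
  refine ⟨j, ?_⟩
  rw [← pow_mod_orderOf _ i, order_cube hxo] at hij
  rcases Nat.mod_two_eq_zero_or_one i with h4 | h4 <;> rw [h4] at hij
  · exact Or.inl (by rw [hij, pow_zero, one_mul]; rfl)
  · exact Or.inr (by rw [hij, pow_one]; rfl)

theorem Rtl.ne_three (h : Rtl G) (hG : Group.IsSolvable G) (h5 : 5 ≤ p)
    (hV : IsMinNormal V) (hE : IsElementaryAbelian p V) (c : G) :
    Nat.card (centralizer {c}) ≠ 3 := by
  intro hc
  haveI : Fact (Nat.Prime 3) := ⟨Nat.prime_three⟩
  have h0 : ∀ v : EAV hE, eaRepN hE c v = v → v = 0 := fun v => fix_zero (by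
    rw [hc]
    intro hd
    have := Nat.le_of_dvd (by norm_num) hd
    omega)
  have h3 : c ^ 3 = 1 := orderOf_dvd_iff_pow_eq_one.1
    (hc ▸ Subgroup.orderOf_dvd_natCard _ (mem_centralizer_singleton_iff.2 rfl))
  obtain ⟨s, hs⟩ := isConj_iff.1 (h.real c)
  have hco : orderOf (c : G ⧸ centralizer (V : Set G)) = 3 :=
    orderOf_eq_prime (by rw [← QuotientGroup.mk_pow, h3, QuotientGroup.mk_one])
      (mk_ne_one_of_fix hV h0)
  refine h.false_of_qd (hE := hE) hG h5 hV (c := (c : G)) (s := (s : G)) (z := 1)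
    { inj := repC_injective hE
      two := two_ne_zero_zmod h5
      three := three_ne_zero_zmod h5
      nt := nontrivial_eav hV
      quad := quad_of_fix h3 h0
      inv := congrArg (QuotientGroup.mk (s := centralizer (V : Set G))) hs
      sgn := Or.inr rfl
      cent := fun g hg => ?_ }
  obtain ⟨k, hk⟩ := mem_powers_iff_mem_zpowers.2 (mem_zpowers_of_card_le
    ((PG.card_centralizer_mk_le (centralizer (V : Set G)) c).trans (by rw [hc, hco])) hg)
  exact ⟨k, Or.inl hk.symm⟩

theorem AHG.ne_six (h : AHG G) (hG : Group.IsSolvable G) (h5 : 5 ≤ p)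
    (hV : IsMinNormal V) (hE : IsElementaryAbelian p V) (x : G) :
    Nat.card (centralizer {x}) ≠ 6 := by
  intro hx
  haveI : Fact (Nat.Prime 2) := ⟨Nat.prime_two⟩
  haveI : Fact (Nat.Prime 3) := ⟨Nat.prime_three⟩
  have hxx : x ∈ centralizer {x} := mem_centralizer_singleton_iff.2 rfl
  have hd : orderOf x ∣ 6 := hx ▸ Subgroup.orderOf_dvd_natCard _ hxx
  have key : ∀ q, q.Prime → q ∣ 6 → (orderOf x).Coprime q → orderOf x * q = 6 → False := by
    intro q hq hq6 hc he
    haveI := Fact.mk hq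
    obtain ⟨⟨a, ha⟩, hao⟩ := exists_prime_orderOf_dvd_card' (G := centralizer {x}) q (hx ▸ hq6)
    rw [orderOf_mk] at hao
    have hax : Commute x a := (mem_centralizer_singleton_iff.1 ha).symm
    have h1 : orderOf (x * a) = 6 := by
      rw [hax.orderOf_mul_eq_mul_orderOf_of_coprime (hao ▸ hc), hao, he]
    obtain ⟨k, hk⟩ : x ∈ zpowers (x * a) := by
      rw [eq_of_le_of_card_ge (zpowers_le.2 (mul_mem hxx ha)) (by rw [hx, Nat.card_zpowers, h1])]
      exact hxx
    refine h.rtl.not_order_six hG h5 hV hE h1 (le_antisymm ?_ ?_)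
    · rw [← hx]
      refine card_le_of_le fun g hg => mem_centralizer_singleton_iff.2 ?_
      have := Commute.zpow_right (mem_centralizer_singleton_iff.1 hg) k
      simp only at hk
      rwa [hk] at this
    · rw [← h1, ← Nat.card_zpowers]
      exact card_le_of_le (zpowers_le.2 (mem_centralizer_singleton_iff.2 rfl))
  have h1 := Nat.le_of_dvd (by norm_num) hd
  have h0 := orderOf_pos x
  interval_cases ho : orderOf x
  · rw [orderOf_eq_one_iff.1 ho] at hx
    haveI := nontrivial_eav (hE := hE) hV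
    obtain ⟨v, hv⟩ := exists_ne (0 : EAV hE)
    exact hv (fix_zero (x := 1) (hx ▸ not_dvd_six h5) (by rw [map_one, Module.End.one_apply]))
  · exact key 3 Nat.prime_three (by norm_num) (by norm_num) rfl
  · exact key 2 Nat.prime_two (by norm_num) (by norm_num) rfl
  · omega
  · omega
  · exact h.rtl.not_order_six hG h5 hV hE ho hx

end Cfsg.Agent.FG.AH
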