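import Mathlib
import Cfsg.Agent.FG.H93Spec

/-!
# Bounds for sums of reciprocals of distinct smooth numbers
-/

set_option autoImplicit false
set_option linter.unusedSectionVars false
set_option linter.style.haveILetI false

namespace Cfsg.Agent.FG.AH

/-- All finite sums of reciprocals of distinct numbers with property `P` are at most `r`. -/
def Bd (P : ℕ → Prop) (r : ℚ) : Prop :=
  ∀ S : Finset ℕ, (∀ n ∈ S, P n) → ∑ n ∈ S, (1 / n : ℚ) ≤ r

theorem Bd.mono {P Q : ℕ → Prop} {r : ℚ} (h : Bd Q r) (hPQ : ∀ n, P n → Q n) : Bd P r :=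
  fun S hS => h S fun n hn => hPQ n (hS n hn)

theorem Bd.nonneg {P : ℕ → Prop} {r : ℚ} (h : Bd P r) : 0 ≤ r := by
  simpa using h ∅ (by simp)

theorem Bd.mul {P Q : ℕ → Prop} {r s : ℚ} (hP : Bd P r) (hQ : Bd Q s) :
    Bd (fun n => ∃ a b, P a ∧ Q b ∧ n = a * b) (r * s) := by
  classical
  intro S hS
  choose! a b ha hb hab using hS
  have h1 : ∑ n ∈ S, (1 / n : ℚ) =
      ∑ x ∈ S.image (fun n => (a n, b n)), (1 / x.1 : ℚ) * (1 / x.2 : ℚ) := by
    rw [Finset.sum_image]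
    · refine Finset.sum_congr rfl fun n hn => ?_
      conv_lhs => rw [hab n hn]
      rw [Nat.cast_mul, one_div_mul_one_div]
    · intro n hn m hm h
      obtain ⟨e1, e2⟩ := Prod.mk.inj h
      rw [hab n hn, hab m hm, e1, e2]
  have h2 : S.image (fun n => (a n, b n)) ⊆ S.image a ×ˢ S.image b := by
    intro x hx
    obtain ⟨n, hn, rfl⟩ := Finset.mem_image.1 hx
    exact Finset.mem_product.2 ⟨Finset.mem_image_of_mem _ hn, Finset.mem_image_of_mem _ hn⟩
  rw [h1]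
  refine (Finset.sum_le_sum_of_subset_of_nonneg h2 fun _ _ _ => by positivity).trans ?_
  rw [Finset.sum_product]
  simp only
  rw [← Finset.sum_mul_sum]
  refine mul_le_mul (hP _ fun x hx => ?_) (hQ _ fun x hx => ?_)
    (Finset.sum_nonneg fun _ _ => by positivity) hP.nonneg
  · obtain ⟨n, hn, rfl⟩ := Finset.mem_image.1 hx
    exact ha n hn
  · obtain ⟨n, hn, rfl⟩ := Finset.mem_image.1 hx
    exact hb n hn

theorem Bd.erase {P : ℕ → Prop} {r : ℚ} (h : Bd P r) {m : ℕ} (hm : P m) :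
    Bd (fun n => P n ∧ n ≠ m) (r - 1 / m) := by
  intro S hS
  have h1 : m ∉ S := fun h0 => (hS m h0).2 rfl
  have := h (insert m S) fun n hn => by
    rcases Finset.mem_insert.1 hn with rfl | hn
    exacts [hm, (hS n hn).1]
  rw [Finset.sum_insert h1] at this
  linarith

theorem Bd.insert {P : ℕ → Prop} {r : ℚ} (h : Bd P r) (m : ℕ) :
    Bd (fun n => P n ∨ n = m) (r + 1 / m) := by
  intro S hS
  have h1 := h (S.erase m) fun n hn =>
    (hS n (Finset.mem_of_mem_erase hn)).resolve_right (Finset.ne_of_mem_erase hn)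
  by_cases hm : m ∈ S
  · rw [← Finset.add_sum_erase _ _ hm]
    linarith
  · rw [Finset.erase_eq_of_notMem hm] at h1
    have : (0 : ℚ) ≤ 1 / m := by positivity
    linarith

theorem bd_finset (T : Finset ℕ) : Bd (fun n => n ∈ T) (∑ n ∈ T, (1 / n : ℚ)) :=
  fun _ hS => Finset.sum_le_sum_of_subset_of_nonneg hS fun _ _ _ => by positivity

theorem bd_pow {q : ℕ} (hq : 2 ≤ q) : Bd (fun n => ∃ e, n = q ^ e) (q / (q - 1)) := by
  intro S hS
  have hq' : (2 : ℚ) ≤ q := by exact_mod_cast hq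
  have key : ∀ N : ℕ, ∑ e ∈ Finset.range N, (1 / (q ^ e : ℕ) : ℚ) + q / (q - 1) / q ^ N =
      q / (q - 1) := by
    intro N
    induction N with
    | zero => simp
    | succ N ih =>
      have h1 : (q : ℚ) - 1 ≠ 0 := by linarith
      have h2 : (q : ℚ) ≠ 0 := by linarith
      rw [Finset.sum_range_succ, add_assoc]
      refine Eq.trans ?_ ih
      push_cast
      congr 1
      field_simp
      ring
  choose! e he using hS
  have h1 : S ⊆ (Finset.range (S.sup e + 1)).image (q ^ ·) := fun n hn =>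
    Finset.mem_image.2 ⟨e n, Finset.mem_range.2 (Nat.lt_succ_of_le (Finset.le_sup hn)),
      (he n hn).symm⟩
  refine (Finset.sum_le_sum_of_subset_of_nonneg h1 fun _ _ _ => by positivity).trans ?_
  rw [Finset.sum_image fun a _ b _ h => Nat.pow_right_injective hq h, ← key (S.sup e + 1)]
  have : (0 : ℚ) ≤ q / (q - 1) / q ^ (S.sup e + 1) := by
    have : (0 : ℚ) < q - 1 := by linarith
    positivity
  linarith

theorem bd_pow_ne_one {q : ℕ} (hq : 2 ≤ q) :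
    Bd (fun n => ∃ e, e ≠ 1 ∧ n = q ^ e) (q / (q - 1) - 1 / q) :=
  ((bd_pow hq).erase ⟨1, (pow_one q).symm⟩).mono fun n ⟨e, he, hn⟩ =>
    ⟨⟨e, hn⟩, fun h => he (Nat.pow_right_injective hq (by simp only [← hn, h, pow_one]))⟩

theorem bd_pow_le_three : Bd (fun n => ∃ e, e ≤ 3 ∧ n = 2 ^ e) (15 / 8) := by
  have h := bd_finset {1, 2, 4, 8}
  norm_num at h
  refine h.mono ?_
  rintro n ⟨e, he, rfl⟩
  interval_cases e <;> simp

theorem eq_prod_pow {n : ℕ} (hn : n ≠ 0) (T : Finset ℕ) (h : ∀ r, r.Prime → r ∣ n → r ∈ T) :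
    n = ∏ r ∈ T, r ^ n.factorization r := by
  conv_lhs => rw [← Nat.factorization_prod_pow_eq_self hn]
  refine Finsupp.prod_of_support_subset _ (fun r hr => ?_) _ (fun _ _ => pow_zero _)
  rw [Nat.support_factorization, Nat.mem_primeFactors] at hr
  exact h r hr.1 hr.2.1

theorem factorization_ne_one {n r : ℕ} (hn : n ≠ 0) (hr : r.Prime) (h : r ∣ n → r ^ 2 ∣ n) :
    n.factorization r ≠ 1 := fun h1 => by
  have h2 := (hr.pow_dvd_iff_le_factorization hn).1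
    (h ((hr.dvd_iff_one_le_factorization hn).2 h1.ge))
  omega

theorem factorization_le_three {n : ℕ} (hn : n ≠ 0) (h : ¬16 ∣ n) : n.factorization 2 ≤ 3 := by
  by_contra h1
  exact h ((Nat.prime_two.pow_dvd_iff_le_factorization (k := 4) hn).2 (by omega))

theorem eq_two_three {n : ℕ} (hn : n ≠ 0) (h : ∀ r, r.Prime → r ∣ n → r = 2 ∨ r = 3) :
    n = 2 ^ n.factorization 2 * 3 ^ n.factorization 3 := by
  have := eq_prod_pow hn {2, 3} (by simpa using h)
  rwa [Finset.prod_insert (by decide), Finset.prod_singleton] at this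

theorem bd_smooth :
    Bd (fun n => n ≠ 0 ∧ ∀ r, r.Prime → r ∣ n → r = 2 ∨ r = 3) 3 := by
  have h := (bd_pow (q := 2) le_rfl).mul (bd_pow (q := 3) (by norm_num))
  rw [show (((2 : ℕ) : ℚ) / ((2 : ℕ) - 1) * (((3 : ℕ) : ℚ) / ((3 : ℕ) - 1)) : ℚ) = 3 by
    norm_num] at h
  refine h.mono fun n ⟨hn, h1⟩ => ?_
  exact ⟨_, _, ⟨_, rfl⟩, ⟨_, rfl⟩, eq_two_three hn h1⟩

theorem bd_smooth16 :
    Bd (fun n => n ≠ 0 ∧ (∀ r, r.Prime → r ∣ n → r = 2 ∨ r = 3) ∧ ¬16 ∣ n) (45 / 16) := by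
  have h := bd_pow_le_three.mul (bd_pow (q := 3) (by norm_num))
  rw [show (15 / 8 * (((3 : ℕ) : ℚ) / ((3 : ℕ) - 1)) : ℚ) = 45 / 16 by norm_num] at h
  refine h.mono fun n ⟨hn, h1, h2⟩ => ?_
  exact ⟨_, _, ⟨_, factorization_le_three hn h2, rfl⟩, ⟨_, rfl⟩, eq_two_three hn h1⟩

theorem bd_five : Bd (fun n => n ≠ 0 ∧ (∀ r, r.Prime → r ∣ n → r = 2 ∨ r = 3 ∨ r = 5) ∧
    ¬16 ∣ n ∧ (5 ∣ n → 5 ^ 2 ∣ n)) (189 / 64) := by
  have h := (bd_pow_le_three.mul (bd_pow (q := 3) (by norm_num))).mul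
    (bd_pow_ne_one (q := 5) (by norm_num))
  rw [show (15 / 8 * (((3 : ℕ) : ℚ) / ((3 : ℕ) - 1)) *
    (((5 : ℕ) : ℚ) / ((5 : ℕ) - 1) - 1 / (5 : ℕ)) : ℚ) = 189 / 64 by norm_num] at h
  refine h.mono fun n ⟨hn, h1, h2, h3⟩ => ?_
  have h4 := eq_prod_pow hn {2, 3, 5} (by simpa using h1)
  rw [Finset.prod_insert (by decide), Finset.prod_insert (by decide), Finset.prod_singleton,
    ← mul_assoc] at h4
  exact ⟨_, _, ⟨_, _, ⟨_, factorization_le_three hn h2, rfl⟩, ⟨_, rfl⟩, rfl⟩,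
    ⟨_, factorization_ne_one hn Nat.prime_five h3, rfl⟩, h4⟩

theorem bd_all : Bd (fun n => n ≠ 0 ∧
    (∀ r, r.Prime → r ∣ n → r = 2 ∨ r = 3 ∨ r = 5 ∨ r = 7 ∨ r = 17) ∧
    (5 ∣ n → 5 ^ 2 ∣ n) ∧ (7 ∣ n → 7 ^ 2 ∣ n) ∧ (17 ∣ n → 17 ^ 2 ∣ n)) (35217 / 10880) := by
  have h := ((((bd_pow (q := 2) le_rfl).mul (bd_pow (q := 3) (by norm_num))).mul
    (bd_pow_ne_one (q := 5) (by norm_num))).mul (bd_pow_ne_one (q := 7) (by norm_num))).mul
    (bd_pow_ne_one (q := 17) (by norm_num))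
  rw [show (((2 : ℕ) : ℚ) / ((2 : ℕ) - 1) * (((3 : ℕ) : ℚ) / ((3 : ℕ) - 1)) *
    (((5 : ℕ) : ℚ) / ((5 : ℕ) - 1) - 1 / (5 : ℕ)) * (((7 : ℕ) : ℚ) / ((7 : ℕ) - 1) - 1 / (7 : ℕ)) *
    (((17 : ℕ) : ℚ) / ((17 : ℕ) - 1) - 1 / (17 : ℕ)) : ℚ) = 35217 / 10880 by norm_num] at h
  refine h.mono fun n ⟨hn, h1, h2, h3, h4⟩ => ?_
  have h5 := eq_prod_pow hn {2, 3, 5, 7, 17} (by simpa using h1)
  rw [Finset.prod_insert (by decide), Finset.prod_insert (by decide),
    Finset.prod_insert (by decide), Finset.prod_insert (by decide), Finset.prod_singleton,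
    ← mul_assoc, ← mul_assoc, ← mul_assoc] at h5
  exact ⟨_, _, ⟨_, _, ⟨_, _, ⟨_, _, ⟨_, rfl⟩, ⟨_, rfl⟩, rfl⟩,
    ⟨_, factorization_ne_one hn Nat.prime_five h2, rfl⟩, rfl⟩,
    ⟨_, factorization_ne_one hn (by norm_num) h3, rfl⟩, rfl⟩,
    ⟨_, factorization_ne_one hn (by norm_num) h4, rfl⟩, h5⟩

/-- The primes `p ≥ 5` for which `p² - 1` has no prime divisor other than `2` and `3`. -/
theorem prime_cases {p : ℕ} (hp : p.Prime) (h5 : 5 ≤ p)
    (h : ∀ r, r.Prime → r ∣ p ^ 2 - 1 → r = 2 ∨ r = 3) : p = 5 ∨ p = 7 ∨ p = 17 := by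
  obtain ⟨m, rfl⟩ := hp.odd_of_ne_two (by omega)
  have h0 : (2 * m + 1) ^ 2 - 1 = 4 * (m * (m + 1)) := by
    rw [Nat.sub_eq_iff_eq_add (Nat.one_le_pow _ _ (by omega))]
    ring
  rw [h0] at h
  have h1 := eq_two_three (n := m) (by omega) fun r hr hd =>
    h r hr ((hd.mul_right _).mul_left _)
  have h2 := eq_two_three (n := m + 1) (by omega) fun r hr hd =>
    h r hr ((hd.mul_left _).mul_left _)
  generalize m.factorization 2 = i at h1
  generalize m.factorization 3 = j at h1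
  generalize (m + 1).factorization 2 = k at h2
  generalize (m + 1).factorization 3 = l at h2
  have h3 : i = 0 ∨ k = 0 := by
    by_contra hc
    push Not at hc
    have e1 : 2 ∣ m := h1 ▸ (dvd_pow_self 2 hc.1).mul_right _
    have e2 : 2 ∣ m + 1 := h2 ▸ (dvd_pow_self 2 hc.2).mul_right _
    omega
  have h4 : j = 0 ∨ l = 0 := by
    by_contra hc
    push Not at hc
    have e1 : 3 ∣ m := h1 ▸ (dvd_pow_self 3 hc.1).mul_left _
    have e2 : 3 ∣ m + 1 := h2 ▸ (dvd_pow_self 3 hc.2).mul_left _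
    omega
  rcases h3 with rfl | rfl <;> rcases h4 with rfl | rfl
  · omega
  · simp only [pow_zero, one_mul, mul_one] at h1 h2
    rcases H93.two_pow_eq_three_pow_add_one (n := k) (k := j) (by omega) with rfl | rfl <;> omega
  · simp only [pow_zero, one_mul, mul_one] at h1 h2
    rcases H93.two_pow_add_one_eq_three_pow (n := i) (k := l) (by omega) with rfl | rfl <;> omega
  · omega

end Cfsg.Agent.FG.AH
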