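import Mathlib
import Cfsg.Agent.FG.AHExcl
import Cfsg.Agent.FG.AHNum
import Cfsg.Agent.FG.ClassCount
import Cfsg.Agent.GT.Transvect

/-!
# Solvable groups with conjugacy classes of distinct sizes
-/

set_option autoImplicit false
set_option linter.unusedSectionVars false
set_option linter.style.haveILetI false

namespace Cfsg.Agent.FG.AH

open Cfsg.Agent.GT Subgroup

universe u

variable {G : Type u} [Group G] [Finite G]

theorem card_centralizer_conj (g x : G) :
    Nat.card (centralizer {g * x * g⁻¹}) = Nat.card (centralizer {x}) := by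
  refine (Nat.card_congr ((MulAut.conj g).toEquiv.subtypeEquiv fun a => ?_)).symm
  rw [mem_centralizer_singleton_iff, mem_centralizer_singleton_iff,
    ← (MulAut.conj g).injective.eq_iff, map_mul, map_mul]
  rfl

theorem ncard_isConj (y : G) : {x | IsConj y x}.ncard = (centralizer {y}).index := by
  rw [← natCard_carrier_mk, Nat.card_coe_set_eq]
  refine congrArg _ (Set.ext fun x => ?_)
  rw [ConjClasses.mem_carrier_iff_mk_eq, ConjClasses.mk_eq_mk_iff_isConj, isConj_comm]
  rfl

/-- The class equation. -/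
theorem AHG.one_le (h : AHG G) {P : ℕ → Prop} {r : ℚ} (hP : Bd P r)
    (hG : ∀ x : G, P (Nat.card (centralizer {x}))) : 1 ≤ r := by
  classical
  haveI := Fintype.ofFinite G
  refine le_trans (le_of_eq ?_) (hP (Finset.univ.image fun x : G => Nat.card (centralizer {x}))
    fun n hn => ?_)
  · have h0 : (Nat.card G : ℚ) ≠ 0 := Nat.cast_ne_zero.2 Nat.card_pos.ne'
    have h1 := Finset.card_eq_sum_card_image (fun x : G => Nat.card (centralizer {x})) Finset.univ
    rw [Finset.card_univ, ← Nat.card_eq_fintype_card] at h1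
    refine (div_self h0).symm.trans ?_
    nth_rw 1 [h1]
    rw [Nat.cast_sum, Finset.sum_div]
    refine Finset.sum_congr rfl fun n hn => ?_
    obtain ⟨y, -, rfl⟩ := Finset.mem_image.1 hn
    have h2 : (Finset.univ.filter fun x : G =>
        Nat.card (centralizer {x}) = Nat.card (centralizer {y})).card = (centralizer {y}).index := by
      rw [← ncard_isConj, ← Set.ncard_coe_finset]
      congr 1
      ext x
      simp only [Finset.coe_filter, Finset.mem_univ, true_and, Set.mem_ofPred_eq]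
      refine ⟨fun e => h _ _ e.symm, fun e => ?_⟩
      obtain ⟨g, rfl⟩ := isConj_iff.1 e
      exact card_centralizer_conj g y
    have h3 : (Nat.card (centralizer {y}) : ℚ) ≠ 0 := Nat.cast_ne_zero.2 Nat.card_pos.ne'
    rw [h2, div_eq_div_iff h0 h3, one_mul, ← Nat.cast_mul, mul_comm, card_mul_index]
  · obtain ⟨y, -, rfl⟩ := Finset.mem_image.1 hn
    exact hG y

theorem AHG.eq_one (h : AHG G) {b : G} (hb : ∀ g, Commute g b) : b = 1 := by
  refine isConj_one_left.1 (h _ _ ?_)
  congr 2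
  ext g
  simp only [mem_centralizer_singleton_iff]
  exact ⟨fun _ => (Commute.one_right g), fun _ => hb g⟩

theorem AHG.ne_one_of_prime [Nontrivial G] (h : AHG G) {a : G}
    (ha : (Nat.card (centralizer {a})).Prime) : a ≠ 1 := by
  rintro rfl
  obtain ⟨b, hb⟩ := exists_ne (1 : G)
  haveI := Fact.mk ha
  refine hb (h.eq_one fun g => ?_)
  obtain ⟨k, hk⟩ := mem_zpowers_of_prime_card (G := centralizer {(1 : G)}) rfl
    (g := ⟨b, mem_centralizer_singleton_iff.2 (Commute.one_right b)⟩)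
    (g' := ⟨g, mem_centralizer_singleton_iff.2 (Commute.one_right g)⟩)
    fun h0 => hb (congrArg Subtype.val h0)
  rw [← show b ^ k = g from congrArg Subtype.val hk]
  exact Commute.zpow_self b k

theorem orderOf_eq_of_prime {a : G} (h1 : a ≠ 1) (ha : (Nat.card (centralizer {a})).Prime) :
    orderOf a = Nat.card (centralizer {a}) :=
  ((Nat.dvd_prime ha).1 (Subgroup.orderOf_dvd_natCard _
    (mem_centralizer_singleton_iff.2 rfl))).resolve_left fun h => h1 (orderOf_eq_one_iff.1 h)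

theorem card_centralizer_ne_one [Nontrivial G] (x : G) : Nat.card (centralizer {x}) ≠ 1 := by
  intro h
  rw [card_eq_one] at h
  obtain ⟨b, hb⟩ := exists_ne (1 : G)
  have h1 : x = 1 := mem_bot.1 (h ▸ mem_centralizer_singleton_iff.2 rfl)
  exact hb (mem_bot.1 (h ▸ mem_centralizer_singleton_iff.2 (by rw [h1, one_mul, mul_one])))

theorem AHG.perm_three [Nontrivial G] (h : AHG G) {a : G} (ha : Nat.card (centralizer {a}) = 2) :
    Nonempty (G ≃* Equiv.Perm (Fin 3)) := by
  have hX : ∀ y, IsConj a y → Nat.card (centralizer {y}) = 2 := fun y hy => by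
    obtain ⟨g, rfl⟩ := isConj_iff.1 hy
    rw [card_centralizer_conj, ha]
  have hX1 : ∀ y, IsConj a y → y ≠ 1 := fun y hy =>
    h.ne_one_of_prime (by rw [hX y hy]; exact Nat.prime_two)
  have hXo : ∀ y, IsConj a y → orderOf y = 2 := fun y hy => by
    rw [orderOf_eq_of_prime (hX1 y hy) (by rw [hX y hy]; exact Nat.prime_two), hX y hy]
  have hX2 : ∀ y, IsConj a y → y * y = 1 := fun y hy => by
    rw [← pow_two, ← hXo y hy, pow_orderOf_eq_one]
  have hXi : ∀ y, IsConj a y → y⁻¹ = y := fun y hy => inv_eq_of_mul_eq_one_right (hX2 y hy)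
  have hdis : ∀ y z, IsConj a y → IsConj a z → ¬IsConj a (y * z) := by
    intro y z hy hz hyz
    have h1 : Commute z y := by
      have := hXi _ hyz
      rwa [mul_inv_rev, hXi y hy, hXi z hz] at this
    obtain ⟨k, hk⟩ := mem_powers_iff_mem_zpowers.2
      (mem_zpowers_of_card_le (by rw [hX y hy, hXo y hy]) h1)
    simp only at hk
    rw [← pow_mod_orderOf, hXo y hy] at hk
    rcases Nat.mod_two_eq_zero_or_one k with h2 | h2 <;> rw [h2] at hk
    · exact hX1 z hz (hk.symm.trans (pow_zero y))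
    · exact hX1 _ hyz (by rw [← hk, pow_one, hX2 y hy])
  have hcov : ∀ y g, IsConj a y → ¬IsConj a g → ∃ z, IsConj a z ∧ g = y * z := by
    intro y g hy hg
    have h1 : {x | IsConj a x} ∪ (y * ·) '' {x | IsConj a x} = Set.univ := by
      refine Set.eq_of_subset_of_ncard_le (Set.subset_univ _) (le_of_eq ?_)
      rw [Set.ncard_union_eq, Set.ncard_image_of_injective _ (mul_right_injective y),
        ncard_isConj, Set.ncard_univ, ← (centralizer {a}).card_mul_index, ha, two_mul]
      rw [Set.disjoint_left]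
      rintro _ h2 ⟨z, hz, rfl⟩
      exact hdis y z hy hz h2
    rcases (h1 ▸ Set.mem_univ g : g ∈ {x | IsConj a x} ∪ (y * ·) '' {x | IsConj a x}) with
      h2 | ⟨z, hz, h2⟩
    · exact absurd h2 hg
    · exact ⟨z, hz, h2.symm⟩
  have hinv : ∀ y b, IsConj a y → ¬IsConj a b → y * b * y⁻¹ = b⁻¹ := by
    intro y b hy hb
    obtain ⟨z, hz, rfl⟩ := hcov y b hy hb
    rw [← mul_assoc, hX2 y hy, one_mul, mul_inv_rev, hXi z hz]
  have haa : IsConj a a := IsConj.refl a
  have hcom : ∀ g b, ¬IsConj a g → ¬IsConj a b → Commute g b := by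
    intro g b hg hb
    obtain ⟨z, hz, rfl⟩ := hcov a g haa hg
    refine mul_inv_eq_iff_eq_mul.1 ?_
    calc a * z * b * (a * z)⁻¹ = a * (z * b * z⁻¹) * a⁻¹ := by group
      _ = b := by rw [hinv z b hz hb, ← conj_inv, hinv a b haa hb, inv_inv]
  have hbi : ∀ b, ¬IsConj a b → b ≠ 1 → b⁻¹ ≠ b := by
    intro b hb hb1 h1
    refine hb1 (h.eq_one fun g => ?_)
    by_cases hg : IsConj a g
    · exact mul_inv_eq_iff_eq_mul.1 ((hinv g b hg hb).trans h1)
    · exact hcom g b hg hb
  have hC : ∀ b, ¬IsConj a b → b ≠ 1 → ∀ g, g ∈ centralizer {b} ↔ ¬IsConj a g := by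
    intro b hb hb1 g
    rw [mem_centralizer_singleton_iff]
    exact ⟨fun h1 hg => hbi b hb hb1 ((hinv g b hg hb).symm.trans (mul_inv_eq_iff_eq_mul.2 h1)),
      fun hg => hcom g b hg hb⟩
  obtain ⟨b, hb, hb1⟩ : ∃ b, ¬IsConj a b ∧ b ≠ 1 := by
    by_contra hcon
    push Not at hcon
    refine hX1 a haa (h.eq_one fun g => ?_)
    by_cases hg : IsConj a g
    · rw [eq_inv_of_mul_eq_one_right (hcon _ (hdis a g haa hg))]
      exact (Commute.refl a).inv_left
    · rw [hcon g hg]
      exact Commute.one_left a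
  have hcl : ∀ c, ¬IsConj a c → c = 1 ∨ c = b ∨ c = b⁻¹ := by
    intro c hc
    refine or_iff_not_imp_left.2 fun hc1 => ?_
    obtain ⟨g, hg⟩ := isConj_iff.1 (h b c (by
      congr 2
      ext g
      rw [hC b hb hb1, hC c hc hc1]))
    by_cases h1 : IsConj a g
    · exact Or.inr (hg.symm.trans (hinv g b h1 hb))
    · exact Or.inl (hg.symm.trans (mul_inv_eq_iff_eq_mul.2 (hcom g b h1 hb)))
  have hb3 : orderOf b = 3 := by
    haveI : Fact (Nat.Prime 3) := ⟨Nat.prime_three⟩
    refine orderOf_eq_prime ?_ hb1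
    rcases hcl (b * b) ((hC b hb hb1 _).1 (mem_centralizer_singleton_iff.2 (mul_assoc _ _ _))) with
      h1 | h1 | h1
    · exact absurd (inv_eq_of_mul_eq_one_right h1) (hbi b hb hb1)
    · exact absurd (mul_eq_left.1 h1) hb1
    · rw [pow_three', h1, inv_mul_cancel]
  obtain ⟨e⟩ := nonempty_equiv_perm_three (hX2 a haa) hb3 (hinv a b haa hb)
  have hA : ∀ c, ¬IsConj a c → c ∈ zpowers b := fun c hc => by
    rcases hcl c hc with rfl | rfl | rfl
    exacts [one_mem _, mem_zpowers _, inv_mem (mem_zpowers _)]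
  have h5 : zpowers b ⊔ zpowers a = ⊤ := by
    refine eq_top_iff.2 fun g _ => ?_
    by_cases hg : IsConj a g
    · rw [← inv_mul_cancel_left a g]
      exact mul_mem (mem_sup_right (inv_mem (mem_zpowers a)))
        (mem_sup_left (hA _ (hdis a g haa hg)))
    · exact mem_sup_left (hA g hg)
  exact ⟨(topEquiv.symm.trans (MulEquiv.subgroupCongr h5.symm)).trans e⟩

theorem Rtl.not_sixteen_dvd (h : Rtl G) {x : G} (hx : Nat.card (centralizer {x}) = 4) :
    ¬16 ∣ Nat.card G := by
  intro h16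
  haveI : Fact (Nat.Prime 2) := ⟨Nat.prime_two⟩
  obtain ⟨P, hP⟩ := (IsPGroup.of_card (p := 2) (G := (centralizer {x} : Subgroup G)) (n := 2)
    hx).exists_le_sylow
  have hxP : x ∈ P := hP (mem_centralizer_singleton_iff.2 rfl)
  have h1 : 2 ^ 4 ∣ Nat.card P := P.pow_dvd_card_of_pow_dvd_card h16
  have h2 := Nat.le_of_dvd Nat.card_pos h1
  obtain ⟨m, a, b, hm⟩ := PG.exists_maxTwo_of_card_centralizer_le P.isPGroup' (by omega)
    (x := ⟨x, hxP⟩) (by
      rw [← hx]
      refine Nat.card_le_card_of_injective (fun g => ⟨g.1.1, mem_centralizer_singleton_iff.2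
        (congrArg Subtype.val (mem_centralizer_singleton_iff.1 g.2))⟩) fun g g' e => ?_
      exact Subtype.ext (Subtype.ext (Subtype.mk.inj e)))
  have h3 := h.mul_totient_dvd (a : G)
  rw [orderOf_coe, hm.orderOf_eq, Nat.totient_prime_pow_succ Nat.prime_two,
    show 2 - 1 = 1 from rfl, mul_one, ← pow_add] at h3
  have h4 := P.pow_dvd_card_of_pow_dvd_card h3
  rw [hm.card_eq] at h1 h4
  have h5 := (Nat.pow_dvd_pow_iff_le_right (by norm_num)).1 h1
  have h6 := (Nat.pow_dvd_pow_iff_le_right (by norm_num)).1 h4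
  omega

theorem AHG.false_of_smooth [Nontrivial G] (h : AHG G)
    (hs : ∀ r, r.Prime → r ∣ Nat.card G → r = 2 ∨ r = 3)
    (h2 : ∀ x : G, Nat.card (centralizer {x}) ≠ 2) : False := by
  have h1 := card_centralizer_ne_one (G := G)
  have h0 : ∀ x : G, Nat.card (centralizer {x}) ≠ 0 := fun x => Nat.card_pos.ne'
  have hs' : ∀ x : G, ∀ r, r.Prime → r ∣ Nat.card (centralizer {x}) → r = 2 ∨ r = 3 :=
    fun x r hr hd => hs r hr (hd.trans (card_subgroup_dvd_card _))
  by_cases h3 : ∃ c : G, Nat.card (centralizer {c}) = 3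
  · obtain ⟨c, hc⟩ := h3
    haveI : Fact (Nat.Prime 3) := ⟨Nat.prime_three⟩
    have hc1 : c ≠ 1 := h.ne_one_of_prime (by rw [hc]; exact Nat.prime_three)
    have hco : orderOf c = 3 := by
      rw [orderOf_eq_of_prime hc1 (by rw [hc]; exact Nat.prime_three), hc]
    obtain ⟨s, hs⟩ := isConj_iff.1 (h.rtl.real c)
    have h6 := h.rtl.mul_totient_dvd c
    rw [hco, Nat.totient_prime Nat.prime_three] at h6
    by_cases h7 : Nat.card G = 6
    · have := h.one_le (bd_finset {3, 6}) fun x => by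
        have e1 := h1 x
        have e2 := h2 x
        have e3 : Nat.card (centralizer {x}) ∣ 6 := h7 ▸ card_subgroup_dvd_card _
        have e4 := Nat.le_of_dvd (by norm_num) e3
        generalize Nat.card (centralizer {x}) = n at e1 e2 e3 e4
        interval_cases n <;> simp_all
      norm_num at this
    have h8 : 12 ≤ Nat.card G := by
      have := Nat.card_pos (α := G)
      omega
    have := h.one_le (((((bd_pow (q := 2) le_rfl).erase (m := 1) ⟨0, rfl⟩).erase (m := 2)
      ⟨⟨1, rfl⟩, by norm_num⟩).insert 3).insert (Nat.card G)) fun x => by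
        by_cases hx : x = 1
        · right
          rw [hx, centralizer_eq_top_iff_subset.2 (by simp), card_top]
        left
        by_cases hd : 3 ∣ Nat.card (centralizer {x})
        · right
          obtain ⟨⟨d, hd1⟩, hd2⟩ := exists_prime_orderOf_dvd_card' 3 hd
          rw [orderOf_mk] at hd2
          obtain ⟨g, hg⟩ := conj_of_three hco hs
            (fun g hg _ => mem_zpowers_of_card_le (by rw [hc, hco]) hg) (d := d)
            (fun e => by rw [e, orderOf_one] at hd2; omega) ⟨1, by rw [hd2, pow_one]⟩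
          have e1 : g * x * g⁻¹ ∈ zpowers c := mem_zpowers_of_card_le (by rw [hc, hco]) (by
            rw [← hg]
            exact (Commute.map (mem_centralizer_singleton_iff.1 hd1) (MulAut.conj g)).symm)
          obtain ⟨k, hk⟩ := mem_zpowers_of_prime_card (G := zpowers c) (p := 3)
            (by rw [Nat.card_zpowers, hco]) (g := ⟨_, e1⟩) (g' := ⟨c, mem_zpowers c⟩)
            fun e => hx (conj_eq_one_iff.1 (congrArg Subtype.val e))
          have e2 : (g * x * g⁻¹) ^ k = c := congrArg Subtype.val hk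
          refine le_antisymm ?_ (Nat.le_of_dvd Nat.card_pos hd)
          rw [← card_centralizer_conj g x, ← hc]
          refine card_le_of_le fun y hy => mem_centralizer_singleton_iff.2 ?_
          rw [← e2]
          exact Commute.zpow_right (mem_centralizer_singleton_iff.1 hy) k
        · refine Or.inl ⟨⟨⟨_, Nat.eq_prime_pow_of_unique_prime_dvd (h0 x) fun {r} hr hrd =>
            (hs' x r hr hrd).resolve_right fun e => hd (e ▸ hrd)⟩, h1 x⟩, h2 x⟩
    have h9 : (1 / Nat.card G : ℚ) ≤ 1 / 12 :=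
      one_div_le_one_div_of_le (by norm_num) (by exact_mod_cast h8)
    norm_num at this h9
    linarith
  push Not at h3
  have hp2 : ∀ r, r.Prime → r ∣ 2 → r = 2 ∨ r = 3 := fun r hr hd =>
    Or.inl ((Nat.prime_dvd_prime_iff_eq hr Nat.prime_two).1 hd)
  have hp3 : ∀ r, r.Prime → r ∣ 3 → r = 2 ∨ r = 3 := fun r hr hd =>
    Or.inr ((Nat.prime_dvd_prime_iff_eq hr Nat.prime_three).1 hd)
  have hp1 : ∀ r, r.Prime → r ∣ 1 → r = 2 ∨ r = 3 := fun r hr hd =>
    absurd (Nat.dvd_one.1 hd) hr.ne_one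
  by_cases h4 : ∃ c : G, Nat.card (centralizer {c}) = 4
  · obtain ⟨c, hc⟩ := h4
    have h16 := h.rtl.not_sixteen_dvd hc
    have := h.one_le (((bd_smooth16.erase (m := 1) ⟨one_ne_zero, hp1, by norm_num⟩).erase (m := 2)
      ⟨⟨two_ne_zero, hp2, by norm_num⟩, by norm_num⟩).erase (m := 3)
      ⟨⟨⟨three_ne_zero, hp3, by norm_num⟩, by norm_num⟩, by norm_num⟩) fun x =>
      ⟨⟨⟨⟨h0 x, hs' x, fun e => h16 (e.trans (card_subgroup_dvd_card _))⟩, h1 x⟩, h2 x⟩, h3 x⟩
    norm_num at this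
  · push Not at h4
    have := h.one_le ((((bd_smooth.erase (m := 1) ⟨one_ne_zero, hp1⟩).erase (m := 2)
      ⟨⟨two_ne_zero, hp2⟩, by norm_num⟩).erase (m := 3)
      ⟨⟨⟨three_ne_zero, hp3⟩, by norm_num⟩, by norm_num⟩).erase (m := 4)
      ⟨⟨⟨⟨four_ne_zero, fun r hr hd => hp2 r hr (hr.dvd_of_dvd_pow (n := 2) hd)⟩, by norm_num⟩,
        by norm_num⟩, by norm_num⟩) fun x => ⟨⟨⟨⟨⟨h0 x, hs' x⟩, h1 x⟩, h2 x⟩, h3 x⟩, h4 x⟩
    norm_num at this

theorem Rtl.exists_min (h : Rtl G) (hG : Group.IsSolvable G) {p : ℕ} [hp : Fact p.Prime]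
    (h5 : 5 ≤ p) (hd : p ∣ Nat.card G) :
    ∃ V : Subgroup G, IsMinNormal V ∧ IsElementaryAbelian p V := by
  obtain ⟨a, ha⟩ := exists_prime_orderOf_dvd_card' p hd
  obtain ⟨V, hV, hVP⟩ := exists_isMinNormal_le (H := pCore p G) fun hb => by
    have := mem_bot.1 (hb ▸ h.mem_pCore hG h5 (x := a) ⟨1, by rw [ha, pow_one]⟩)
    rw [this, orderOf_one] at ha
    omega
  exact ⟨V, hV, hV.elementary_of_isPGroup hp.out ((isPGroup_pCore p).to_le hVP)⟩

theorem AHG.prime_cases (h : AHG G) (hG : Group.IsSolvable G) {r : ℕ} (hr : r.Prime)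
    (hd : r ∣ Nat.card G) :
    r = 2 ∨ r = 3 ∨ r = 5 ∨ ((r = 7 ∨ r = 17) ∧ 16 ∣ Nat.card G) := by
  refine or_iff_not_imp_left.2 fun h2 => or_iff_not_imp_left.2 fun h3 => ?_
  haveI := Fact.mk hr
  have h5 := hr.five_le_of_ne_two_of_ne_three h2 h3
  obtain ⟨V, hV, hE⟩ := h.rtl.exists_min hG h5 hd
  haveI := hV.normal
  have h1 := h.sq_sub_one_dvd hG h5 hV hE
  have h4 := h1.trans (card_quotient_dvd_card _)
  rcases AH.prime_cases hr h5 fun q hq hqd => h.rtl.prime_dvd_quot hG hV hq (hqd.trans h1) with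
    rfl | rfl | rfl
  · exact Or.inl rfl
  · exact Or.inr ⟨Or.inl rfl, dvd_trans (by norm_num) h4⟩
  · exact Or.inr ⟨Or.inr rfl, dvd_trans (by norm_num) h4⟩

theorem AHG.false_of_big [Nontrivial G] (h : AHG G) (hG : Group.IsSolvable G) {p : ℕ}
    (hp : p.Prime) (h5 : 5 ≤ p) (hd : p ∣ Nat.card G)
    (h2 : ∀ x : G, Nat.card (centralizer {x}) ≠ 2) : False := by
  haveI := Fact.mk hp
  haveI : Fact (Nat.Prime 5) := ⟨Nat.prime_five⟩
  haveI : Fact (Nat.Prime 7) := ⟨by norm_num⟩
  haveI : Fact (Nat.Prime 17) := ⟨by norm_num⟩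
  obtain ⟨V, hV, hE⟩ := h.rtl.exists_min hG h5 hd
  haveI := hV.normal
  have h1 := card_centralizer_ne_one (G := G)
  have h0 : ∀ x : G, Nat.card (centralizer {x}) ≠ 0 := fun x => Nat.card_pos.ne'
  have h3 := h.rtl.ne_three hG h5 hV hE
  have h6 := h.ne_six hG h5 hV hE
  have hs : ∀ {n : ℕ}, n ∣ 12 → ∀ r, r.Prime → r ∣ n → r = 2 ∨ r = 3 := by
    intro n hn r hr hrd
    rcases (hr.dvd_mul (m := 2 ^ 2) (n := 3)).1 (hrd.trans hn) with e | e
    · exact Or.inl ((Nat.prime_dvd_prime_iff_eq hr Nat.prime_two).1 (hr.dvd_of_dvd_pow e))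
    · exact Or.inr ((Nat.prime_dvd_prime_iff_eq hr Nat.prime_three).1 e)
  by_cases h4 : ∃ c : G, Nat.card (centralizer {c}) = 4
  · obtain ⟨c, hc⟩ := h4
    have h16 := h.rtl.not_sixteen_dvd hc
    have hs' : ∀ {n : ℕ}, n ∣ 12 → ∀ r, r.Prime → r ∣ n → r = 2 ∨ r = 3 ∨ r = 5 :=
      fun hn r hr hrd => (hs hn r hr hrd).imp_right Or.inl
    have := h.one_le ((((bd_five.erase (m := 1)
      ⟨by norm_num, hs' (by norm_num), by norm_num, by norm_num⟩).erase (m := 2)
      ⟨⟨by norm_num, hs' (by norm_num), by norm_num, by norm_num⟩, by norm_num⟩).erase (m := 3)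
      ⟨⟨⟨by norm_num, hs' (by norm_num), by norm_num, by norm_num⟩, by norm_num⟩,
        by norm_num⟩).erase (m := 6)
      ⟨⟨⟨⟨by norm_num, hs' (by norm_num), by norm_num, by norm_num⟩, by norm_num⟩,
        by norm_num⟩, by norm_num⟩) fun x =>
      ⟨⟨⟨⟨⟨h0 x, fun r hr hrd => (h.prime_cases hG hr (hrd.trans (card_subgroup_dvd_card _))).imp_right
        (Or.imp_right fun e => e.resolve_right fun e' => h16 e'.2),
        fun e => h16 (e.trans (card_subgroup_dvd_card _)), h.rtl.sq_dvd hG le_rfl⟩, h1 x⟩, h2 x⟩,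
        h3 x⟩, h6 x⟩
    norm_num at this
  · push Not at h4
    have hs' : ∀ {n : ℕ}, n ∣ 12 → ∀ r, r.Prime → r ∣ n →
        r = 2 ∨ r = 3 ∨ r = 5 ∨ r = 7 ∨ r = 17 :=
      fun hn r hr hrd => (hs hn r hr hrd).imp_right Or.inl
    have := h.one_le (((((bd_all.erase (m := 1)
      ⟨by norm_num, hs' (by norm_num), by norm_num, by norm_num, by norm_num⟩).erase (m := 2)
      ⟨⟨by norm_num, hs' (by norm_num), by norm_num, by norm_num, by norm_num⟩,
        by norm_num⟩).erase (m := 3)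
      ⟨⟨⟨by norm_num, hs' (by norm_num), by norm_num, by norm_num, by norm_num⟩, by norm_num⟩,
        by norm_num⟩).erase (m := 4)
      ⟨⟨⟨⟨by norm_num, hs' (by norm_num), by norm_num, by norm_num, by norm_num⟩, by norm_num⟩,
        by norm_num⟩, by norm_num⟩).erase (m := 6)
      ⟨⟨⟨⟨⟨by norm_num, hs' (by norm_num), by norm_num, by norm_num, by norm_num⟩, by norm_num⟩,
        by norm_num⟩, by norm_num⟩, by norm_num⟩) fun x =>
      ⟨⟨⟨⟨⟨⟨h0 x, fun r hr hrd => (h.prime_cases hG hr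
        (hrd.trans (card_subgroup_dvd_card _))).imp_right (Or.imp_right (Or.imp_right And.left)),
        h.rtl.sq_dvd hG le_rfl, h.rtl.sq_dvd hG (by norm_num), h.rtl.sq_dvd hG (by norm_num)⟩,
        h1 x⟩, h2 x⟩, h3 x⟩, h4 x⟩, h6 x⟩
    norm_num at this

theorem AHG.main [Nontrivial G] (h : AHG G) (hG : Group.IsSolvable G) :
    Nonempty (G ≃* Equiv.Perm (Fin 3)) := by
  by_cases h2 : ∃ a : G, Nat.card (centralizer {a}) = 2
  · obtain ⟨a, ha⟩ := h2
    exact h.perm_three ha
  · push Not at h2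
    refine (h.false_of_smooth (fun r hr hd => ?_) h2).elim
    by_contra hne
    exact h.false_of_big hG hr (hr.five_le_of_ne_two_of_ne_three (fun e => hne (Or.inl e))
      (fun e => hne (Or.inr e))) hd h2

theorem ahg_of_injective (h : Function.Injective fun C : ConjClasses G => Nat.card C.carrier) :
    AHG G := by
  intro x y hxy
  refine ConjClasses.mk_eq_mk_iff_isConj.1 (h ?_)
  simp only [natCard_carrier_mk]
  refine Nat.eq_of_mul_eq_mul_left (Nat.card_pos (α := centralizer {x})) ?_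
  rw [card_mul_index, hxy, card_mul_index]

end Cfsg.Agent.FG.AH
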