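import Mathlib
import Cfsg.Agent.Rec.Loc

/-!
Linear relations between the translates of a vector fixed by a subgroup: a checker for certificates.
-/

set_option autoImplicit false

namespace Cfsg.Agent.FG.AltS

open Cfsg.Agent.Spor Cfsg.Agent.Spor.NM Cfsg.Agent.Rec Finset

/-- Trees of translates. -/
inductive Tr : Type
  | nil : Tr
  | node (a : ℕ) (ch sib : Tr) : Tr

/-- A packed list of points with a tree of translates. -/
structure Fe where
  (z len id : ℕ)
  t : Tr

/-- Coset tables. -/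
structure Sy where
  A : Ar
  (gs Ts : List ℕ)
  (R n ng p : ℕ)

/-- Relations given by words, each with its certificate. -/
abbrev Pr : Type := List (List (List ℕ) × ℕ)

/-- Entry `j` of a packed list of points. -/
def g12 (z j : ℕ) : ℕ := getP 12 4095 z j

theorem getP_fld (w A i : ℕ) : getP w (2 ^ w - 1) A i = fld w A i := by
  show (A >>> (w * i)) &&& (2 ^ w - 1) = _
  rw [Nat.and_two_pow_sub_one_eq_mod, Nat.shiftRight_eq_div_pow, fld]

namespace Sy

variable (S : Sy)

/-- The representative of a coset. -/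
def rep (i : ℕ) : ℕ := getP 80 1208925819614629174706175 S.R i

/-- The image of a list of points under a generator. -/
noncomputable def mapT (k z len : ℕ) : ℕ := ifLt k S.ng (force (nth 0 S.Ts k) fun T =>
  sumF len fun j => Nat.shiftLeft (g12 T (g12 z j)) (Nat.mul 12 j)) z

/-- The image under a word. -/
noncomputable def actW (w : List ℕ) (z len : ℕ) : ℕ :=
  List.rec z (fun k _ ih => force ih fun z' => S.mapT k z' len) w

/-- The multiplicities. -/
noncomputable def pack (z len : ℕ) : ℕ := sumF len fun j =>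
  Nat.add (Nat.shiftLeft 1 (Nat.mul 24 (g12 z j))) (Nat.shiftLeft 1 (Nat.mul 24 S.n))

/-- A multiple. -/
noncomputable def term (c i z len : ℕ) : ℕ :=
  force (getP 3 7 c i) fun d => Nat.rec 0 (fun _ _ => Nat.mul (S.pack z len) d) d

/-- A combination of translates. -/
noncomputable def ev (len c : ℕ) (t : Tr) : ℕ → ℕ :=
  Tr.rec (motive := fun _ => ℕ → ℕ) (fun _ => 0) (fun a _ _ ihc ihs z =>
    force (S.mapT (Nat.land a 7) z len) fun z' => force (ihc z') fun x => force (ihs z) fun y =>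
      Nat.add (Nat.add x y) (S.term c (Nat.shiftRight a 3) z' len)) t

/-- A combination of all known relations. -/
noncomputable def fsum (F : List Fe) (c : ℕ) : ℕ :=
  List.rec 0 (fun e _ ih => force ih fun r => force (S.ev e.len c e.t e.z) fun x =>
    Nat.add (Nat.add r x) (S.term c e.id e.z e.len)) F

/-- The sum of the images under words. -/
noncomputable def relSum (ws : List (List ℕ)) (z len : ℕ) : ℕ :=
  List.rec 0 (fun w _ ih => force ih fun r => force (S.actW w z len) fun z' => Nat.add r (S.pack z' len)) ws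

/-- All multiplicities vanish modulo `p`. -/
noncomputable def chk (N : ℕ) : Bool := force N fun M =>
  band (blt M (Nat.shiftLeft 1 (Nat.mul 24 (Nat.succ S.n))))
    (allRange 0 S.n fun i => Nat.beq (Nat.mod (getP 24 16777215 M i) S.p) 0)

/-- The entries are points. -/
noncomputable def okE (e : Fe) : Bool := allLt e.len fun j => blt (g12 e.z j) S.n

/-- The certificates are valid. -/
noncomputable def okP (F : List Fe) (z len : ℕ) (q : Pr) : Bool :=
  allL q fun r => S.chk (Nat.add (S.relSum r.1 z len) (S.fsum F r.2))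

/-- The codes of the words. -/
noncomputable def cods (q : Pr) : List (List ℕ) := q.map fun r => r.1.map (evC S.A S.gs)

/-- The given relations. -/
noncomputable def okH (rels : List (List ℕ)) (hs : List (Fe × List (List ℕ))) : Bool :=
  allL hs fun h => band (S.okE h.1) (band (memW rels (h.2.map (evC S.A S.gs)))
    (S.chk (Nat.add (S.pack h.1.z h.1.len) (Nat.mul (S.relSum h.2 0 1) (Nat.pred S.p)))))

/-- The derived relations. -/
noncomputable def run (Ks : List (List (List ℕ))) (ks : List (Fe × ℕ × Pr)) (ts : Pr) : List Fe → Bool :=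
  List.rec (motive := fun _ => List Fe → Bool) (fun F => S.okP F 0 1 ts) (fun s _ ih F => band (S.okE s.1)
    (band (allL (nth [[S.A.one]] Ks s.2.1) (memW (S.cods s.2.2))) (band (S.okP F s.1.z s.1.len s.2.2) (ih (s.1 :: F))))) ks

/-- The tables are correct. -/
noncomputable def ok (has : ℕ → Bool) : Bool :=
  band (Nat.ble S.n 4096) (band (Nat.beq (S.rep 0) S.A.one) (band (blt 0 S.n) (band (Nat.beq S.ng S.gs.length)
    (allLt S.ng fun k => force (nth 0 S.Ts k) fun T => force (nth S.A.one S.gs k) fun g => allRange 0 S.n fun i =>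
      force (g12 T i) fun j => band (blt j S.n) (force (S.rep j) fun a => force (S.A.inv a) fun x =>
        force (S.rep i) fun b => force (S.A.mul g b) fun y => force (S.A.mul x y) has)))))

end Sy

variable {p : ℕ} {G W : Type*} [Group G] [AddCommGroup W] [Module (ZMod p) W] (ρ : Representation (ZMod p) G W)

theorem p_smul (y : W) : p • y = 0 := by rw [← Nat.cast_smul_eq_nsmul (ZMod p), ZMod.natCast_self, zero_smul]

/-- A relation. -/
def Rel {A : Ar} (C : Cod A G) (y : W) (r : List ℕ) : Prop := (r.map fun a => ρ (C.elt a) y).sum = 0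

/-- Relations that force a vector to vanish. -/
def Kill {A : Ar} (C : Cod A G) (K : List (List ℕ)) : Prop := ∀ y, (∀ r ∈ K, Rel ρ C y r) → y = 0

/-- The relation saying that `a` fixes a vector. -/
def fixR (o p a : ℕ) : List ℕ := a :: List.replicate (p - 1) o

theorem rel_fixR {A : Ar} {C : Cod A G} (hp : 0 < p) {y : W} {a : ℕ} :
    Rel ρ C y (fixR A.one p a) ↔ ρ (C.elt a) y = y := by
  obtain ⟨q, rfl⟩ : ∃ q, p = q + 1 := ⟨p - 1, by omega⟩
  have h := p_smul (p := q + 1) y
  rw [succ_nsmul'] at h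
  simp only [Rel, fixR, List.map_cons, List.sum_cons, List.map_replicate, List.sum_replicate, C.elt_one, map_one,
    Module.End.one_apply, Nat.add_sub_cancel, ← h, add_left_inj]

/-- The value of a list of points. -/
def Sem (n : ℕ) (v : ℕ → W) (z len : ℕ) (y : W) : Prop := (∀ j < len, g12 z j < n) ∧ ∑ j ∈ range len, v (g12 z j) = y

/-- The value of packed multiplicities. -/
def Den (n : ℕ) (v : ℕ → W) (N : ℕ) (y : W) : Prop :=
  ∃ f, N = pk 24 f (n + 1) ∧ (∀ i < n, f i ≤ f n) ∧ ∑ i ∈ range n, f i • v i = y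

section
variable {n : ℕ} {v : ℕ → W} {M N : ℕ} {x y : W}

theorem den_zero : Den n v 0 0 := ⟨fun _ => 0, by simp [pk], by simp, by simp⟩

theorem Den.add (h : Den n v M x) (h' : Den n v N y) : Den n v (Nat.add M N) (x + y) := by
  obtain ⟨f, rfl, a, rfl⟩ := h
  obtain ⟨g, rfl, b, rfl⟩ := h'
  exact ⟨_, pk_add .., fun i hi => add_le_add (a i hi) (b i hi), by simp [add_smul, sum_add_distrib]⟩

theorem Den.mul (h : Den n v M x) (c : ℕ) : Den n v (Nat.mul M c) (c • x) := by
  obtain ⟨f, rfl, a, rfl⟩ := h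
  exact ⟨_, pk_mul_const .., fun i hi => Nat.mul_le_mul_right c (a i hi), by
    simp [smul_sum, mul_comm _ c, mul_smul]⟩

theorem den_pt {i : ℕ} (hi : i < n) :
    Den n v (Nat.add (Nat.shiftLeft 1 (Nat.mul 24 i)) (Nat.shiftLeft 1 (Nat.mul 24 n))) (v i) := by
  refine ⟨fun t => if t = i ∨ t = n then 1 else 0, ?_, fun t _ => by simp; split_ifs <;> simp, ?_⟩
  · rw [pk_succ, pk, sum_eq_single_of_mem i (mem_range.2 hi) fun t ht h => by simp [h, (mem_range.1 ht).ne]]
    simp [Nat.shiftLeft_eq]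
  · rw [sum_eq_single_of_mem i (mem_range.2 hi) fun t ht h => by simp [h, (mem_range.1 ht).ne]]
    simp

end

/-- The points are permuted according to the tables. -/
structure Act (S : Sy) (g : ℕ → G) (v : ℕ → W) : Prop where
  hp : S.p = p
  pos : 0 < S.n
  le : S.n ≤ 4096
  tab : ∀ k < S.ng, ∀ i < S.n, g12 (nth 0 S.Ts k) i < S.n ∧ ρ (g k) (v i) = v (g12 (nth 0 S.Ts k) i)
  out : ∀ k, ¬ k < S.ng → g k = 1

namespace Act

variable {ρ} {S : Sy} {g : ℕ → G} {v : ℕ → W} (h : Act ρ S g v) {z len N : ℕ} {y : W}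
include h

theorem mapT (a : Sem S.n v z len y) (k : ℕ) : Sem S.n v (S.mapT k z len) len (ρ (g k) y) := by
  by_cases hk : k < S.ng
  · have e : ∀ j < len, g12 (S.mapT k z len) j = g12 (nth 0 S.Ts k) (g12 z j) := fun j hj => by
      have b : S.mapT k z len = pk 12 (fun j => g12 (nth 0 S.Ts k) (g12 z j)) len := by
        rw [Sy.mapT, ifLt_pos _ _ hk, force_eq, sumF_eq]
        exact sum_congr rfl fun j _ => Nat.shiftLeft_eq _ _
      rw [b]
      exact (getP_fld 12 _ j).trans (fld_pk (fun t ht => (h.tab k hk _ (a.1 t ht)).1.trans_le h.le) hj)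
    refine ⟨fun j hj => e j hj ▸ (h.tab k hk _ (a.1 j hj)).1, ?_⟩
    rw [← a.2, map_sum]
    exact sum_congr rfl fun j hj => by rw [e j (mem_range.1 hj), (h.tab k hk _ (a.1 j (mem_range.1 hj))).2]
  · rw [Sy.mapT, ifLt_neg _ _ hk, h.out k hk, map_one]
    exact a

theorem actW (a : Sem S.n v z len y) (w : List ℕ) : Sem S.n v (S.actW w z len) len (ρ (evalW g w) y) := by
  induction w with
  | nil => rw [evalW_nil, map_one]; exact a
  | cons k w ih => rw [evalW_cons, map_mul]; exact h.mapT ih k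

omit h in
theorem pack (a : Sem S.n v z len y) : Den S.n v (S.pack z len) y := by
  obtain ⟨a, rfl⟩ := a
  induction len with
  | zero => exact den_zero
  | succ m ih =>
    rw [sum_range_succ]
    exact (ih fun j hj => a j (by omega)).add (den_pt (a m (by omega)))

omit h in
theorem term (a : Sem S.n v z len 0) (c i : ℕ) : Den S.n v (S.term c i z len) 0 := by
  rw [Sy.term, force_eq]
  generalize getP 3 7 c i = d
  cases d with
  | zero => exact den_zero
  | succ d => simpa using (pack a).mul (d + 1)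

theorem ev (c : ℕ) (t : Tr) (a : Sem S.n v z len 0) : Den S.n v (S.ev len c t z) 0 := by
  induction t generalizing z with
  | nil => exact den_zero
  | node k ch sib ihc ihs =>
    have b := h.mapT a (Nat.land k 7)
    rw [map_zero] at b
    have d := ((ihc b).add (ihs a)).add (term b c (Nat.shiftRight k 3))
    rw [add_zero, add_zero] at d
    exact d

theorem fsum {F : List Fe} (a : ∀ e ∈ F, Sem S.n v e.z e.len 0) (c : ℕ) : Den S.n v (S.fsum F c) 0 := by
  induction F with
  | nil => exact den_zero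
  | cons e F ih =>
    have b := a e List.mem_cons_self
    have d := ((ih fun e he => a e (List.mem_cons_of_mem _ he)).add (h.ev c e.t b)).add (term b c e.id)
    rw [add_zero, add_zero] at d
    exact d

theorem relSum (a : Sem S.n v z len y) (ws : List (List ℕ)) :
    Den S.n v (S.relSum ws z len) (ws.map fun w => ρ (evalW g w) y).sum := by
  induction ws with
  | nil => exact den_zero
  | cons w ws ih =>
    rw [List.map_cons, List.sum_cons, add_comm]
    exact ih.add (pack (h.actW a w))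

theorem chk (a : Den S.n v N y) (hc : S.chk N = true) : y = 0 := by
  obtain ⟨f, rfl, a, rfl⟩ := a
  rw [Sy.chk, force_eq, band_iff, blt_iff] at hc
  have b : f S.n < 2 ^ 24 := by
    have e : pk 24 f (S.n + 1) < 1 <<< (24 * (S.n + 1)) := hc.1
    rw [pk_succ, Nat.shiftLeft_eq, one_mul, mul_add, pow_add, mul_comm (2 ^ (24 * S.n))] at e
    exact Nat.lt_of_mul_lt_mul_right ((Nat.le_add_left _ _).trans_lt e)
  refine sum_eq_zero fun i hi => ?_
  have e := (nbeq_iff _ _).1 (allRange_zero hc.2 i (mem_range.1 hi))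
  rw [show getP 24 16777215 _ i = _ from (getP_fld 24 _ i).trans (fld_pk (fun t ht =>
    (Nat.lt_succ_iff_lt_or_eq.1 ht).elim (fun u => (a t u).trans_lt b) fun u => u ▸ b) (Nat.lt_succ_of_lt (mem_range.1 hi))),
    h.hp] at e
  obtain ⟨c, hc⟩ := Nat.dvd_of_mod_eq_zero e
  rw [hc, mul_smul, p_smul]

omit h in
theorem okE {e : Fe} (hc : S.okE e = true) : ∃ y, Sem S.n v e.z e.len y :=
  ⟨_, fun j hj => (blt_iff _ _).1 ((allLt_iff _ _).1 hc j hj), rfl⟩

theorem sem0 : Sem S.n v 0 1 (v 0) := ⟨fun j _ => by simpa [g12, getP] using h.pos, by simp [g12, getP]⟩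

end Act

section
variable {ρ} {S : Sy} {C : Cod S.A G} {xs : List G} {v : ℕ → W} (h : Act ρ S (nth 1 xs) v) (hg : C.RepL S.gs xs)
include hg

theorem rel_iff {y : W} {ws : List (List ℕ)} :
    Rel ρ C y (ws.map (evC S.A S.gs)) ↔ (ws.map fun w => ρ (evalW (nth 1 xs) w) y).sum = 0 := by
  simp only [Rel, List.map_map, Function.comp_def, fun w => (hg.word w).2]

include h

theorem Act.okP {F : List Fe} (a : ∀ e ∈ F, Sem S.n v e.z e.len 0) {z len : ℕ} {y : W} (b : Sem S.n v z len y) {q : Pr}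
    (hc : S.okP F z len q = true) : ∀ r ∈ S.cods q, Rel ρ C y r := fun r hr => by
  obtain ⟨s, hs, rfl⟩ := List.mem_map.1 hr
  exact (rel_iff hg).2 ((add_zero _).symm.trans (h.chk ((h.relSum b s.1).add (h.fsum a s.2)) ((allL_iff _ _).1 hc s hs)))

theorem Act.okH {rels : List (List ℕ)} (a : ∀ r ∈ rels, Rel ρ C (v 0) r) {hs : List (Fe × List (List ℕ))}
    (hc : S.okH rels hs = true) : ∀ e ∈ hs.map (·.1), Sem S.n v e.z e.len 0 := fun e he => by
  obtain ⟨s, hs, rfl⟩ := List.mem_map.1 he
  have b := (allL_iff _ _).1 hc s hs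
  rw [band_iff, band_iff] at b
  obtain ⟨y, hy⟩ := Act.okE (v := v) b.1
  have c := h.chk ((Act.pack hy).add ((h.relSum h.sem0 s.2).mul _)) b.2.2
  rw [(rel_iff hg).1 (a _ (mem_of_memW b.2.1)), smul_zero, add_zero] at c
  exact c ▸ hy

theorem Act.run {Ks : List (List (List ℕ))} (hK : ∀ K ∈ Ks, Kill ρ C K) {ks : List (Fe × ℕ × Pr)} {ts : Pr} {F : List Fe}
    (a : ∀ e ∈ F, Sem S.n v e.z e.len 0) (hc : S.run Ks ks ts F = true) : ∀ r ∈ S.cods ts, Rel ρ C (v 0) r := by
  have hK' : ∀ i, Kill ρ C (nth [[S.A.one]] Ks i) := fun i => by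
    by_cases hi : i < Ks.length
    · exact nth_of_lt _ hi ▸ hK _ (List.getElem_mem hi)
    · rw [nth_of_ge _ _ (not_lt.1 hi)]
      exact fun y hy => by simpa [Rel, C.elt_one] using hy _ List.mem_cons_self
  induction ks generalizing F with
  | nil => exact h.okP hg a h.sem0 hc
  | cons s ks ih =>
    have b : band _ (band _ (band _ (S.run Ks ks ts (s.1 :: F)))) = true := hc
    rw [band_iff, band_iff, band_iff] at b
    obtain ⟨y, hy⟩ := Act.okE (v := v) b.1
    have c := hK' s.2.1 y fun r hr => h.okP hg a hy b.2.2.1 r (mem_of_memW ((allL_iff _ _).1 b.2.1 r hr))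
    exact ih (List.forall_mem_cons.2 ⟨c ▸ hy, a⟩) b.2.2.2

end

theorem act_of_ok {S : Sy} {C : Cod S.A G} {xs : List G} (hg : C.RepL S.gs xs) (hp : S.p = p) {D : Dom} {P : Subgroup G}
    (hP : C.Lists D P) (hV : ∀ i < S.n, C.V (S.rep i)) (hc : S.ok D.has = true) {w : W} (hw : ∀ x ∈ P, ρ x w = w) :
    ∃ v, Act ρ S (nth 1 xs) v ∧ v 0 = w := by
  simp only [Sy.ok, band_iff, blt_iff, nbeq_iff, Nat.ble_eq, allLt_iff, force_eq] at hc
  obtain ⟨h1, h2, h3, h4, h5⟩ := hc
  refine ⟨fun i => ρ (C.elt (S.rep i)) w, ⟨hp, h3, h1, fun k hk i hi => ?_, fun k hk => nth_of_ge _ _ ?_⟩, by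
    simp [h2, C.elt_one]⟩
  · have a := allRange_zero (h5 k hk) i hi
    rw [band_iff, blt_iff] at a
    have b := (Cod.Rep.inv ⟨hV _ a.1, rfl⟩).mul ((hg.nth k).mul ⟨hV _ hi, rfl⟩)
    have c := congrArg (ρ (C.elt (S.rep (g12 (nth 0 S.Ts k) i)))) (hw _ (b.2 ▸ (hP.has _ b.1).1 a.2))
    rw [← Module.End.mul_apply, ← map_mul, mul_inv_cancel_left, map_mul] at c
    exact ⟨a.1, c⟩
  · rw [← hg.length_eq, ← h4]; exact not_lt.1 hk

theorem fix_clos {xs : List G} {w : W} (h : ∀ x ∈ xs, ρ x w = w) : ∀ x ∈ clos xs, ρ x w = w := fun x hx => by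
  induction hx using Subgroup.closure_induction with
  | mem x hx => exact h x hx
  | one => simp
  | mul a b _ _ ha hb => simp [ha, hb]
  | inv a _ ha => nth_rw 1 [← ha]; rw [← Module.End.mul_apply, ← map_mul]; simp

theorem repL_elt {A : Ar} {C : Cod A G} {c : List ℕ} {e : List G} (h : C.RepL c e) : e = c.map C.elt := by
  induction h with
  | nil => rfl
  | cons a _ ih => rw [List.map_cons, ← ih, a.2]

theorem repL_perm {m o : ℕ} [NeZero m] (h : oneOK m o = true) {c : List ℕ} (hc : allL c (permOK m) = true) :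
    (permCod h).RepL c (c.map (permCod h).elt) := repL_elt (repL_permOf h hc) ▸ repL_permOf h hc

/-- The tables describe the cosets of the subgroup generated by `Pg`. -/
noncomputable def sysOK (m : ℕ) (S : Sy) (Pg : List ℕ) (t : ST) (N : ℕ) : Bool :=
  band (allL S.gs (permOK m)) (band (allL Pg (permOK m)) (band (genOK S.A Pg t N)
    (band (allRange 0 S.n fun i => force (S.rep i) (permOK m)) (S.ok t.has))))

/-- A complete certificate. -/
noncomputable def allOK (S : Sy) (rels : List (List ℕ)) (Ks : List (List (List ℕ))) (tg : List (List ℕ))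
    (hs : List (Fe × List (List ℕ))) (ks : List (Fe × ℕ × Pr)) (ts : Pr) : Bool :=
  band (S.okH rels hs) (band (S.run Ks ks ts (hs.map (·.1))) (allL tg (memW (S.cods ts))))

variable {m o : ℕ} [NeZero m] (h : oneOK m o = true) {σ : Representation (ZMod p) (Equiv.Perm (Fin m)) W}
  {gs Ts Pg : List ℕ} {R n ng N : ℕ} {t : ST} {rels tg : List (List ℕ)} {Ks : List (List (List ℕ))}
  {hs : List (Fe × List (List ℕ))} {ks : List (Fe × ℕ × Pr)} {ts : Pr}

theorem rel_of (hp : 0 < p) (hS : sysOK m ⟨permAr m o, gs, Ts, R, n, ng, p⟩ Pg t N = true)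
    (hK : ∀ K ∈ Ks, Kill σ (permCod h) K) (hc : allOK ⟨permAr m o, gs, Ts, R, n, ng, p⟩ rels Ks tg hs ks ts = true) {w : W}
    (hw : ∀ r ∈ Pg.map (fixR o p) ++ rels, Rel σ (permCod h) w r) : ∀ r ∈ tg, Rel σ (permCod h) w r := by
  simp only [sysOK, allOK, band_iff] at hS hc
  have hg := repL_perm h hS.1
  obtain ⟨v, hv, rfl⟩ := act_of_ok σ (S := ⟨permAr m o, gs, Ts, R, n, ng, p⟩) hg rfl ((repL_perm h hS.2.1).gen hS.2.2.1).1
    (fun i hi => (rep_permOf h (allRange_zero hS.2.2.2.1 i hi)).1) hS.2.2.2.2 (fix_clos σ fun x hx => by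
      obtain ⟨a, ha, rfl⟩ := List.mem_map.1 hx
      exact (rel_fixR σ hp).1 (hw _ (List.mem_append_left _ (List.mem_map_of_mem ha))))
  exact fun r hr => hv.run hg hK (hv.okH hg (fun r hr => hw r (List.mem_append_right _ hr)) hc.1) hc.2.1 r
    (mem_of_memW ((allL_iff _ _).1 hc.2.2 r hr))

theorem kill_of (hp : 0 < p) (hS : sysOK m ⟨permAr m o, gs, Ts, R, n, ng, p⟩ Pg t N = true)
    (hK : ∀ K ∈ Ks, Kill σ (permCod h) K) (hc : allOK ⟨permAr m o, gs, Ts, R, n, ng, p⟩ rels Ks [[o]] hs ks ts = true) :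
    Kill σ (permCod h) (Pg.map (fixR o p) ++ rels) := fun w hw => by
  simpa [Rel, show (permCod h).elt o = 1 from (permCod h).elt_one] using rel_of h hp hS hK hc hw _ List.mem_cons_self

/-- No non-solvable subgroup fixes a non-zero vector. -/
def NS : Prop := ∀ H : Subgroup G, ¬ Group.IsSolvable H → ∀ y, (∀ x ∈ H, ρ x y = y) → y = 0

theorem not_solv {H : Subgroup G} {x y z : G} (hx : x ∈ H) (hy : y ∈ H) (hz : z ∈ H) (h1 : x ≠ 1)
    (e : z * (x * (y * x * y⁻¹) * x⁻¹ * (y * x * y⁻¹)⁻¹) * z⁻¹ = x) : ¬ Group.IsSolvable H := by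
  refine not_isSolvable_of_mem_derivedSeries (g := ⟨x, hx⟩) (fun a => h1 (congrArg Subtype.val a)) fun n => ?_
  induction n with
  | zero => exact Subgroup.mem_top _
  | succ n ih =>
    have a := (derivedSeries_normal H (n + 1)).conj_mem _ (Subgroup.commutator_mem_commutator ih
      ((derivedSeries_normal H n).conj_mem _ ih ⟨y, hy⟩)) ⟨z, hz⟩
    convert a using 1
    exact Subtype.ext e.symm

/-- A certificate of non-solvability. -/
noncomputable def nsOK (m o : ℕ) (c x y z : List ℕ) : Bool :=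
  band (allL c (permOK m)) (Fm.ev (permAr m o) [] (.and (.not (.eq (.v 0) .one)) (.eq (.mul (.mul (.v 2) (.mul (.mul (.mul (.v 0)
    (.mul (.mul (.v 1) (.v 0)) (.inv (.v 1)))) (.inv (.v 0))) (.inv (.mul (.mul (.v 1) (.v 0)) (.inv (.v 1)))))) (.inv (.v 2)))
    (.v 0))) ([x, y, z].map (evC (permAr m o) c)))

theorem ns_of {c : List ℕ} (x y z : List ℕ) (hc : nsOK m o c x y z = true) :
    ¬ Group.IsSolvable (clos (c.map (permCod h).elt)) := by
  rw [nsOK, band_iff] at hc
  have a := repL_perm h hc.1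
  have b := (Cod.listsL_nil.fm _ ((a.word x).cons ((a.word y).cons ((a.word z).cons Cod.repL_nil)))).1 hc.2
  have k : ∀ w, evalW (nth 1 (c.map (permCod h).elt)) w ∈ clos (c.map (permCod h).elt) := fun w =>
    evalW_mem fun i _ => nth_mem_clos _ i
  exact not_solv (k x) (k y) (k z) b.1 b.2

theorem NS.kill (hN : NS σ) (hp : 0 < p) {c : List ℕ} (x y z : List ℕ) (hc : nsOK m o c x y z = true) :
    Kill σ (permCod h) (c.map (fixR o p)) := fun w hw => hN _ (ns_of h x y z hc) w (fix_clos σ fun x hx => by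
  obtain ⟨a, ha, rfl⟩ := List.mem_map.1 hx
  exact (rel_fixR σ hp).1 (hw _ (List.mem_map_of_mem ha)))

end Cfsg.Agent.FG.AltS
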