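import Mathlib
import Cfsg.Agent.FG.AltSMach
import Cfsg.Agent.FT.LiftRep

/-!
Dimensions of fixed spaces of subgroups of exponent dividing 12 and order prime to the characteristic.
-/

set_option autoImplicit false

namespace Cfsg.Agent.FG.AltS

open Cfsg.Agent.Spor Cfsg.Agent.Rec Cfsg.Agent.FT Finset Subgroup Module

section
variable {k G W : Type*} [Field k] [Group G] [AddCommGroup W] [Module k W] [FiniteDimensional k W]
  (ρ : Representation k G W)

theorem sum_pow12 [CharZero k] {g : G} (h : g ^ 12 = 1) :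
    ∑ i ∈ range 12, ρ.character (g ^ i) = 12 * fixDim ρ (zpowers g) := by
  classical
  let f : Multiplicative (ZMod 12) →* G := MonoidHom.mk' (fun i => g ^ i.toAdd.val) fun a b => by
    rw [toAdd_mul, ZMod.val_add, ← pow_add, ← pow_eq_pow_mod _ h]
  have h1 := sum_character_eq_card_mul_fixDim (ρ.comp f) ⊤
  have h2 : (⊤ : Subgroup _).map f = zpowers g := le_antisymm (fun _ ⟨i, _, e⟩ => e ▸ pow_mem (mem_zpowers g) _)
    (zpowers_le.2 ⟨Multiplicative.ofAdd 1, trivial, pow_one g⟩)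
  rw [fixDim_comp, h2, card_top, Nat.card_congr Multiplicative.toAdd, Nat.card_zmod, Nat.cast_ofNat] at h1
  rw [← Fin.sum_univ_eq_sum_range (fun i => ρ.character (g ^ i)), ← h1]
  exact (Fintype.sum_equiv (Subgroup.topEquiv.toEquiv.trans Multiplicative.toAdd) _ _ fun _ => rfl).symm

/-- Twice the rational part of the character. -/
noncomputable def phi (g : G) : ℤ := 6 * fixDim ρ (zpowers g) - 3 * fixDim ρ (zpowers (g ^ 2)) -
  2 * fixDim ρ (zpowers (g ^ 3)) + fixDim ρ (zpowers (g ^ 6))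

theorem phi_eq [CharZero k] {g : G} (h : g ^ 12 = 1) : 2 * (phi ρ g : k) =
    ρ.character (g ^ 1) + ρ.character (g ^ 5) + ρ.character (g ^ 7) + ρ.character (g ^ 11) := by
  have a : ∀ j, (g ^ j) ^ 12 = 1 := fun j => by rw [← pow_mul, mul_comm, pow_mul, h, one_pow]
  have h1 := sum_pow12 ρ h
  have h2 := sum_pow12 ρ (a 2)
  have h3 := sum_pow12 ρ (a 3)
  have h6 := sum_pow12 ρ (a 6)
  simp only [← pow_mul, pow_eq_pow_mod (_ * _) h, sum_range_succ, sum_range_zero, Nat.reduceMul, Nat.reduceMod] at h1 h2 h3 h6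
  simp only [phi]
  push_cast
  linear_combination -h1 + h2 / 2 + h3 / 3 - h6 / 6

theorem sum_phi' [CharZero k] [Fintype G] (h : ∀ g : G, g ^ 12 = 1) :
    ∑ g, phi ρ g = 2 * Nat.card G * fixDim ρ ⊤ := by
  classical
  have a : ∀ i, i * i % 12 = 1 → ∑ g : G, ρ.character (g ^ i) = Nat.card G * fixDim ρ ⊤ := fun i hi => by
    have b : Function.Involutive fun g : G => g ^ i := fun g => by
      simp only [← pow_mul]; rw [pow_eq_pow_mod _ (h g), hi, pow_one]
    rw [← card_top, ← sum_character_eq_card_mul_fixDim]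
    exact (b.bijective.sum_comp _).trans (Fintype.sum_equiv Subgroup.topEquiv.toEquiv _ _ fun _ => rfl).symm
  have b := sum_congr (rfl : (univ : Finset G) = univ) fun g _ => phi_eq ρ (h g)
  simp only [sum_add_distrib, ← mul_sum, a 1 rfl, a 5 rfl, a 7 rfl, a 11 rfl] at b
  refine Int.cast_injective (α := k) ?_
  push_cast
  linear_combination b / 2

theorem fixDim_le_of {A B : Subgroup G} (T : W →ₗ[k] W) (h : ∀ w ∈ fixSub ρ A, T w ∈ fixSub ρ B)
    (h0 : ∀ w ∈ fixSub ρ A, T w = 0 → w = 0) : fixDim ρ A ≤ fixDim ρ B :=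
  LinearMap.finrank_le_finrank_of_injective (f := T.restrict h) ((injective_iff_map_eq_zero _).2 fun w hw =>
    Subtype.ext (h0 w w.2 (congrArg Subtype.val hw)))

theorem fixDim_conj_le (c g : G) : fixDim ρ (zpowers g) ≤ fixDim ρ (zpowers (c * g * c⁻¹)) :=
  fixDim_le_of ρ (ρ c) (fun w hw => mem_fixSub.2 fun _ ⟨i, e⟩ => by
    rw [← e]
    beta_reduce
    rw [conj_zpow, ← Module.End.mul_apply, ← map_mul, inv_mul_cancel_right, map_mul, Module.End.mul_apply,
      mem_fixSub.1 hw _ ⟨i, rfl⟩]) fun w _ h => by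
    simpa [← Module.End.mul_apply, ← map_mul] using congrArg (ρ c⁻¹) h

theorem phi_conj {c g r : G} (h : c * g = r * c) : phi ρ g = phi ρ r := by
  have a : ∀ g, fixDim ρ (zpowers (c * g * c⁻¹)) = fixDim ρ (zpowers g) := fun g =>
    le_antisymm (by simpa [mul_assoc] using fixDim_conj_le ρ c⁻¹ (c * g * c⁻¹)) (fixDim_conj_le ρ c g)
  simp only [phi, ← mul_inv_eq_iff_eq_mul.2 h, conj_pow, a]

omit [FiniteDimensional k W] in
theorem phi_one : phi ρ 1 = 2 * finrank k W := by
  simp only [phi, one_pow, zpowers_one_eq_bot, fixDim_bot]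
  ring

end

variable {p : ℕ} [Fact p.Prime] {G W : Type*} [Group G] [AddCommGroup W] [Module (ZMod p) W] [FiniteDimensional (ZMod p) W]
  (ρ : Representation (ZMod p) G W)

theorem sum_phi {L : Subgroup G} [Fintype L] (hp : ¬ p ∣ Nat.card L) (h : ∀ g ∈ L, g ^ 12 = 1) :
    ∑ g : L, phi ρ g = 2 * Nat.card L * fixDim ρ L := by
  obtain ⟨σ, hσ⟩ := exists_complex_lift hp (ρ.comp L.subtype)
  have a := sum_phi' σ fun g => Subtype.ext (h g g.2)
  simpa only [phi, hσ, fixDim_comp, MonoidHom.map_zpowers, ← MonoidHom.range_eq_map, range_subtype, coe_subtype,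
    SubmonoidClass.coe_pow] using a

/-- The class recorded at a leaf. -/
def cls (c : ℕ) : ℕ := getP 8 255 c 1

/-- The conjugating element recorded at a leaf. -/
def cjc (c : ℕ) : ℕ := Nat.land (Nat.shiftRight c 16) 1208925819614629174706175

/-- The number of leaves of a class. -/
noncomputable def cntC (t : ST) (i : ℕ) : ℕ :=
  ST.rec (motive := fun _ => ℕ) (fun _ c => Bool.rec 0 1 (Nat.beq (cls c) i)) (fun _ _ _ l r => Nat.add l r) t

theorem sum_cntC (f F : ℕ → ℤ) (t : ST) (h : ∀ a c, t.Leaf a c → cls c < 7 ∧ f a = F (cls c)) :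
    (t.toL.map f).sum = ∑ i ∈ range 7, cntC t i * F i := by
  induction t with
  | leaf a c =>
    have b := h a c ⟨rfl, rfl⟩
    have e : ∀ i, cntC (.leaf a c) i = if cls c = i then 1 else 0 := fun i => by
      show (Bool.rec 0 1 (Nat.beq (cls c) i) : ℕ) = _
      split_ifs with u
      · rw [(nbeq_iff _ _).2 u]
      · rw [Bool.eq_false_iff.2 (mt (nbeq_iff _ _).1 u)]
    simp [e, ST.toL, b]
  | node k l r ihl ihr =>
    rw [ST.toL, List.map_append, List.sum_append, ihl fun a c u => h a c (.inl u), ihr fun a c u => h a c (.inr u),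
      ← sum_add_distrib]
    exact sum_congr rfl fun i _ => by rw [← add_mul, ← Nat.cast_add]; rfl

/-- The tree lists the group generated by `gs` together with the classes of its elements. -/
noncomputable def clsOK (m o : ℕ) (rs gs : List ℕ) (t : ST) (N : ℕ) (ns : List ℕ) : Bool :=
  band (allL gs (permOK m)) (band (allL rs fun r => band (permOK m r) (Nat.beq ((permAr m o).pow r 12) o))
    (band (genOK (permAr m o) gs t N) (band (allLt 7 fun i => Nat.beq (cntC t i) (nth 0 ns i))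
    (t.all2 fun a c => force (cjc c) fun x => band (blt (cls c) 7) (band (permOK m x)
      (Nat.beq ((permAr m o).mul x a) ((permAr m o).mul (nth o rs (cls c)) x)))))))

section
variable {A : Ar} (C : Cod A G)

/-- The vectors fixed by a list of codes. -/
noncomputable def fx (l : List ℕ) : Submodule (ZMod p) W := fixSub ρ (clos (l.map C.elt))

/-- Their dimension. -/
noncomputable def dd (l : List ℕ) : ℕ := fixDim ρ (clos (l.map C.elt))

/-- A sum of translations. -/
noncomputable def trc (r : List ℕ) : W →ₗ[ZMod p] W := (r.map fun a => ρ (C.elt a)).sum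

/-- The relation saying that `a` fixes the sum of translates. -/
noncomputable def trR (A : Ar) (p : ℕ) (r : List ℕ) (a : ℕ) : List ℕ := r.map (A.mul a) ++ (List.replicate (p - 1) r).flatten

variable {C ρ} {l r : List ℕ} {w : W}
omit [FiniteDimensional (ZMod p) W]

theorem mem_fx : w ∈ fx ρ C l ↔ ∀ a ∈ l, ρ (C.elt a) w = w := mem_fixSub.trans
  ⟨fun h _ ha => h _ (mem_clos (List.mem_map_of_mem ha)), fun h => fix_clos ρ (List.forall_mem_map.2 h)⟩

theorem rel_fx (h : w ∈ fx ρ C l) : ∀ s ∈ l.map (fixR A.one p), Rel ρ C w s :=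
  List.forall_mem_map.2 fun a ha => (rel_fixR ρ (a := a) (Fact.out : p.Prime).pos).2 (mem_fx.1 h a ha)

theorem trc_apply : trc ρ C r w = (r.map fun a => ρ (C.elt a) w).sum := by
  induction r with
  | nil => rfl
  | cons a r ih => rw [List.map_cons, List.sum_cons, ← ih]; rfl

theorem trc_mem (hr : ∀ a ∈ r, C.V a) (hl : ∀ a ∈ l, C.V a) (h : ∀ s ∈ l.map (trR A p r), Rel ρ C w s) :
    trc ρ C r w ∈ fx ρ C l := mem_fx.2 fun a ha => by
  have b := h _ (List.mem_map_of_mem ha)
  have c : ((r.map (A.mul a)).map fun a => ρ (C.elt a) w).sum = ρ (C.elt a) (trc ρ C r w) := by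
    rw [trc_apply, map_list_sum, List.map_map, List.map_map]
    exact congrArg _ (List.map_congr_left fun x hx => by simp [C.elt_mul (hl a ha) (hr x hx)])
  have d : trc ρ C r w + (p - 1) • trc ρ C r w = 0 := by
    rw [← succ_nsmul', Nat.sub_add_cancel (Fact.out : p.Prime).pos, p_smul]
  simp only [Rel, trR, List.map_append, List.sum_append, c, List.map_flatten, List.sum_flatten, List.map_replicate,
    List.sum_replicate, ← trc_apply] at b
  exact add_right_cancel (b.trans d.symm)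

end

section
variable {A : Ar} {C : Cod A G} {ρ} {l l' r : List ℕ} {x y : ℕ}

theorem dd_zero (h : Kill ρ C (l.map (fixR A.one p) ++ [])) : dd ρ C l = 0 :=
  fixDim_eq_zero_iff.2 fun v hv => h v (by simpa using rel_fx (mem_fixSub.2 hv))

theorem dd_le (hr : ∀ a ∈ r, C.V a) (hl : ∀ a ∈ l', C.V a) (h : Kill ρ C (l.map (fixR A.one p) ++ [r]))
    (h' : ∀ {w}, (∀ s ∈ l.map (fixR A.one p) ++ [], Rel ρ C w s) → ∀ s ∈ l'.map (trR A p r), Rel ρ C w s) :
    dd ρ C l ≤ dd ρ C l' :=
  fixDim_le_of ρ (trc ρ C r) (fun w hw => trc_mem hr hl (h' (by simpa using rel_fx hw))) fun w hw e =>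
    h w (List.forall_mem_append.2 ⟨rel_fx hw, List.forall_mem_singleton.2 (trc_apply.symm.trans e)⟩)

theorem dd_inf : finrank (ZMod p) ↥(fx ρ C (x :: l) ⊔ fx ρ C (y :: l)) + dd ρ C (x :: y :: l) =
    dd ρ C (x :: l) + dd ρ C (y :: l) := by
  have a : fx ρ C (x :: l) ⊓ fx ρ C (y :: l) = fx ρ C (x :: y :: l) := by
    ext w; simp only [Submodule.mem_inf, mem_fx, List.forall_mem_cons]; tauto
  have b := Submodule.finrank_sup_add_finrank_inf_eq (fx ρ C (x :: l)) (fx ρ C (y :: l))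
  rwa [a] at b

theorem dd_sub : dd ρ C (x :: l) + dd ρ C (y :: l) ≤ dd ρ C l + dd ρ C (x :: y :: l) := by
  rw [← dd_inf, add_le_add_iff_right]
  exact Submodule.finrank_mono (sup_le (fun w hw => mem_fx.2 fun a ha => mem_fx.1 hw a (List.mem_cons_of_mem _ ha))
    fun w hw => mem_fx.2 fun a ha => mem_fx.1 hw a (List.mem_cons_of_mem _ ha))

theorem dd_sup {r' : List ℕ} (hr : ∀ a ∈ r ++ r' ++ x :: y :: l, C.V a)
    (h : ∀ {w}, (∀ s ∈ l.map (fixR A.one p) ++ [], Rel ρ C w s) → ∀ s ∈ (r ++ r' ++ List.replicate (p - 1) A.one) ::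
      ((x :: l).map (trR A p r) ++ (y :: l).map (trR A p r')), Rel ρ C w s) :
    dd ρ C l + dd ρ C (x :: y :: l) ≤ dd ρ C (x :: l) + dd ρ C (y :: l) := by
  rw [← dd_inf, add_le_add_iff_right]
  refine Submodule.finrank_mono fun w hw => ?_
  have a := h (w := w) (by simpa using rel_fx hw)
  simp only [List.forall_mem_cons, List.forall_mem_append] at a hr
  have b := (rel_fixR ρ (C := C) (Fact.out : p.Prime).pos (y := w) (a := A.one)).2 (by simp [C.elt_one])
  have c := a.1
  simp only [Rel, fixR, List.map_append, List.sum_append, List.map_cons, List.sum_cons, ← trc_apply, C.elt_one, map_one,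
    Module.End.one_apply] at b c
  exact add_right_cancel (c.trans b.symm) ▸ Submodule.add_mem_sup
    (trc_mem hr.1.1 (List.forall_mem_cons.2 ⟨hr.2.1, hr.2.2.2⟩) a.2.1)
    (trc_mem hr.1.2 (List.forall_mem_cons.2 ⟨hr.2.2.1, hr.2.2.2⟩) a.2.2)

end

theorem cls_sum {m o : ℕ} [NeZero m] (h : oneOK m o = true) (σ : Representation (ZMod p) (Equiv.Perm (Fin m)) W)
    {rs gs : List ℕ} {t : ST} {N : ℕ} {ns : List ℕ} (hN : ¬ p ∣ N) (hc : clsOK m o rs gs t N ns = true) :
    2 * (N : ℤ) * dd σ (permCod h) gs = ∑ i ∈ range 7, nth 0 ns i * phi σ ((permCod h).elt (nth o rs i)) := by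
  classical
  simp only [clsOK, band_iff, ST.all2_iff, allLt_iff, allL_iff, nbeq_iff, blt_iff, force_eq] at hc
  obtain ⟨h1, h2, h3, h4, h5⟩ := hc
  obtain ⟨hL, hN'⟩ := (repL_perm h ((allL_iff _ _).2 h1)).gen h3
  have hV : ∀ a c, t.Leaf a c → (permCod h).V a ∧ (permCod h).elt a ∈ clos (gs.map (permCod h).elt) := fun a c u => by
    simpa using (ST.all2_iff _ _).1 ((hL.all fun a => decide ((permCod h).V a ∧ (permCod h).elt a ∈
      clos (gs.map (permCod h).elt))).2 fun a x y => decide_eq_true ⟨x, y⟩) a c u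
  have hr := repL_perm h ((allL_iff _ _).2 fun r hr => (h2 r hr).1)
  have hr' : ∀ i, (permCod h).V (nth o rs i) ∧ (permCod h).elt (nth o rs i) ^ 12 = 1 := fun i => by
    have a : (permCod h).Rep (nth o rs i) _ := ⟨(hr.nth i).1, rfl⟩
    refine ⟨a.1, ((a.pow 12).eq_iff Cod.rep_one).1 ?_⟩
    by_cases hi : i < rs.length
    · exact nth_of_lt _ hi ▸ (h2 _ (List.getElem_mem hi)).2
    · rw [nth_of_ge _ _ (not_lt.1 hi)] at a ⊢
      exact ((a.pow 12).eq_iff Cod.rep_one).2 (by rw [show (permCod h).elt o = 1 from (permCod h).elt_one, one_pow])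
  have hc : ∀ a c, t.Leaf a c → ∃ x, x * (permCod h).elt a = (permCod h).elt (nth o rs (cls c)) * x := fun a c u => by
    have b := rep_permOf h (h5 a c u).2.1
    exact ⟨_, ((b.mul ⟨(hV a c u).1, rfl⟩).eq_iff (Cod.Rep.mul ⟨(hr' _).1, rfl⟩ b)).1 (h5 a c u).2.2⟩
  have hl : ∀ x ∈ clos (gs.map (permCod h).elt), ∃ a c, t.Leaf a c ∧ (permCod h).elt a = x := fun x hx => by
    obtain ⟨a, ha, rfl⟩ := hL.cov x hx
    obtain ⟨c, u⟩ := ST.leaf_of_has ((hL.has a ha).2 hx)
    exact ⟨a, c, u, rfl⟩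
  have hn : t.toL.Nodup := by
    simp only [genOK, band_iff, blt_iff] at h3
    exact (ST.chain_sound h3.2.2.1.ne').2.2.1.imp ne_of_lt
  refine Eq.trans ?_ ((sum_cntC (fun a => phi σ ((permCod h).elt a)) _ t fun a c u => ⟨(h5 a c u).1,
    (hc a c u).elim fun _ => phi_conj σ⟩).trans (sum_congr rfl fun i hi => by rw [h4 i (mem_range.1 hi)]))
  rw [← hN', dd, ← sum_phi σ (hN' ▸ hN) fun g hg => ?_, ← List.sum_toFinset _ hn]
  · refine (sum_bij (fun a ha => ⟨(permCod h).elt a, (ST.mem_toL.1 (List.mem_toFinset.1 ha)).elim fun c u => (hV a c u).2⟩)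
      (fun _ _ => mem_univ _) (fun a ha b hb e => ?_) (fun x _ => ?_) fun _ _ => rfl).symm
    · obtain ⟨c, u⟩ := ST.mem_toL.1 (List.mem_toFinset.1 ha)
      obtain ⟨d, v⟩ := ST.mem_toL.1 (List.mem_toFinset.1 hb)
      exact (permCod h).inj (hV a c u).1 (hV b d v).1 (congrArg Subtype.val e)
    · obtain ⟨a, c, u, e⟩ := hl x x.2
      exact ⟨a, List.mem_toFinset.2 (ST.mem_toL.2 ⟨c, u⟩), Subtype.ext e⟩
  · obtain ⟨a, c, u, rfl⟩ := hl g hg
    obtain ⟨x, e⟩ := hc a c u
    rw [eq_inv_mul_iff_mul_eq.2 e, ← mul_assoc, ← inv_inv x, inv_inv x⁻¹, conj_pow, (hr' _).2, mul_one, mul_inv_cancel]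

/-- Conjugating a list of relations. -/
noncomputable def cjK (A : Ar) (a : ℕ) (K : List (List ℕ)) : List (List ℕ) :=
  K.map fun r => r.map fun b => A.mul (A.mul a b) (A.inv a)

omit [FiniteDimensional (ZMod p) W] in
theorem Kill.conj {A : Ar} {C : Cod A G} {K : List (List ℕ)} (h : Kill ρ C K) {a : ℕ} (ha : C.V a)
    (hK : ∀ r ∈ K, ∀ b ∈ r, C.V b) : Kill ρ C (cjK A a K) := fun y hy => by
  have b := h (ρ (C.elt a)⁻¹ y) fun r hr => by
    have c := congrArg (ρ (C.elt a)⁻¹) (hy _ (List.mem_map_of_mem hr))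
    rw [map_list_sum, map_zero, List.map_map, List.map_map] at c
    refine (congrArg _ (List.map_congr_left fun x hx => ?_)).trans c
    simp [C.elt_mul (C.V_mul ha (hK r hr x hx)) (C.V_inv ha), C.elt_mul ha (hK r hr x hx), C.elt_inv ha,
      ← Module.End.mul_apply, ← map_mul, mul_assoc]
  simpa [← Module.End.mul_apply, ← map_mul] using congrArg (ρ (C.elt a)) b

end Cfsg.Agent.FG.AltS
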