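import Mathlib
import Cfsg.Agent.FG.AltS2
import Cfsg.Agent.FG.AltS5
import Cfsg.Agent.FG.SylowNormal
import Cfsg.Agent.GT.CoprimeFixed
import Cfsg.Agent.GT.ElemAbRep
import Cfsg.Agent.GT.MinNormal
import Cfsg.Agent.Sym.Orbits

/-!
Groups whose non-central `p`-elements have solvable centralizers have no large alternating quotients.
-/

set_option autoImplicit false

namespace Cfsg.Agent.FG.AltS

open Subgroup Function

universe u

/-- The hypothesis. -/
def Hy (p : ℕ) (G : Type*) [Group G] : Prop :=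
  ∀ x : G, x ∉ center G → (∃ k : ℕ, orderOf x = p ^ k) → Group.IsSolvable (centralizer ({x} : Set G))

/-- On every non-zero module some non-solvable subgroup has a fixed vector. -/
def MN (p : ℕ) (Q : Type*) [Group Q] : Prop := ∀ (W : Type u) [AddCommGroup W] [Module (ZMod p) W] [Finite W] [Nontrivial W]
  (σ : Representation (ZMod p) Q W), ¬ NS σ

section
variable {G Q : Type*} [Group G] [Group Q] {p : ℕ}

theorem ns_cmt {K : Subgroup G} (h : ¬ Group.IsSolvable K) : ¬ Group.IsSolvable (⁅K, K⁆ : Subgroup G) := fun _ => h <| by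
  refine Group.isSolvable_of_ker_le_range (inclusion (commutator_le_self K)) (Abelianization.of (G := K)) fun y hy => ?_
  rw [Abelianization.ker_of] at hy
  have := mem_map_of_mem K.subtype hy
  rw [commutator_def, map_commutator, ← MonoidHom.range_eq_map, range_subtype] at this
  exact ⟨⟨y, this⟩, rfl⟩

theorem ns_le {K L : Subgroup G} (h : ¬ Group.IsSolvable K) (hL : K ≤ L) : ¬ Group.IsSolvable L := fun _ =>
  h (Group.isSolvable_of_isSolvable_injective (inclusion_injective hL))

theorem ns_of_map (f : G →* Q) {K : Subgroup G} {Y : Subgroup Q} (h : ¬ Group.IsSolvable Y) (hY : Y ≤ K.map f) :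
    ¬ Group.IsSolvable K := fun _ => ns_le h hY (Group.isSolvable_of_surjective (f.subgroupMap_surjective K))

theorem ns_map {f : G →* Q} (hf : Injective f) {K : Subgroup G} (h : ¬ Group.IsSolvable K) :
    ¬ Group.IsSolvable (K.map f) := fun _ => h (Group.isSolvable_of_isSolvable_injective
  (f := (K.equivMapOfInjective f hf).toMonoidHom) (K.equivMapOfInjective f hf).injective)

theorem MN.of_inj {f : G →* Q} (hf : Injective f) (h : MN.{u} p G) : MN.{u} p Q := fun W _ _ _ _ σ hN =>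
  h W (σ.comp f) fun _ hH y hy => hN _ (ns_map hf hH) y fun _ ⟨x, hx, e⟩ => e ▸ hy x hx

theorem MN.of_normal {G : Type} [Group G] [Finite G] {A : Subgroup G} [hA : A.Normal] (hc : commutator G ≤ A)
    (h : MN.{u} p G) : MN.{u} p A := fun W _ _ _ _ ρ hN => by
  classical
  obtain ⟨w, hw⟩ := exists_ne (0 : W)
  have : Nontrivial (ρ.coindV A.subtype) := ⟨⟨fun g => if h : g ∈ A then ρ ⟨g, h⟩ w else 0, fun a g => by
    beta_reduce
    by_cases hg : g ∈ A
    · rw [dif_pos hg, dif_pos (show A.subtype a * g ∈ A from mul_mem a.2 hg), ← Module.End.mul_apply, ← map_mul]; rfl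
    · rw [dif_neg hg, dif_neg (show A.subtype a * g ∉ A from mt (mul_mem_cancel_left a.2).1 hg), map_zero]⟩, 0, fun e => hw (by
      exact (show ρ 1 w = w by simp).symm.trans ((dif_pos A.one_mem).symm.trans (congrFun (congrArg Subtype.val e) 1)))⟩
  refine h _ (ρ.coind A.subtype) fun H hH φ hφ => Subtype.ext (funext fun s => ?_)
  let f := (MulAut.conj s⁻¹).toMonoidHom.comp A.subtype
  refine hN (⁅H, H⁆.comap f) (ns_of_map f (ns_cmt hH) fun y hy => ?_) _ fun a ha => ?_
  · have e : f ⟨s * y * s⁻¹, hA.conj_mem _ (hc (commutator_mono le_top le_top hy)) s⟩ = y := by simp [f, mul_assoc]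
    exact ⟨_, by rwa [SetLike.mem_coe, mem_comap, e], e⟩
  · have b := congrFun (congrArg Subtype.val (hφ _ (commutator_le_self H ha))) s
    rw [← φ.2 a s, ← b]
    show φ.1 (a * s) = φ.1 (s * f a)
    simp [f, mul_assoc]

theorem Hy.sub (h : Hy p G) (K : Subgroup G) : Hy p K := fun x hx ho => by
  have a := h x (fun c => hx (mem_center_iff.2 fun g => Subtype.ext (mem_center_iff.1 c g))) (by simpa using ho)
  by_contra c
  exact ns_le (ns_map K.subtype_injective c) (fun _ ⟨y, hy, e⟩ => e ▸ mem_centralizer_singleton_iff.2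
    (congrArg Subtype.val (mem_centralizer_singleton_iff.1 hy))) a

theorem Hy.cen (h : Hy p G) {x : G} (hx : x ∉ center G) (ho : ∃ k : ℕ, orderOf x = p ^ k) {Y : Subgroup G}
    (hY : ¬ Group.IsSolvable Y) (hc : ∀ y ∈ Y, y * x * y⁻¹ * x⁻¹ ∈ center G) : False := by
  refine ns_le (ns_cmt hY) (commutator_le.2 fun a ha b hb => mem_centralizer_singleton_iff.2 ?_) (h x hx ho)
  have k : ∀ a, ∀ b ∈ Y, a * b * x * (a * b)⁻¹ = (b * x * b⁻¹ * x⁻¹) * (a * x * a⁻¹ * x⁻¹) * x := fun a b hb =>
    calc _ = a * (b * x * b⁻¹ * x⁻¹) * x * a⁻¹ := by group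
      _ = _ := by rw [mem_center_iff.1 (hc b hb) a]; group
  have e := k a⁻¹ _ (inv_mem hb)
  rw [mem_center_iff.1 (hc _ (inv_mem ha)), ← k _ _ (inv_mem ha)] at e
  calc _ = (b⁻¹ * a⁻¹)⁻¹ * (a⁻¹ * b⁻¹ * x * (a⁻¹ * b⁻¹)⁻¹) * (a⁻¹ * b⁻¹) := by rw [commutatorElement_def]; group
    _ = _ := by rw [e, commutatorElement_def]; group

theorem not_center {f : G →* Q} (hf : Surjective f) {x : G} (hx : f x ∉ center Q) : x ∉ center G := fun c =>
  hx (mem_center_iff.2 fun g => by obtain ⟨y, rfl⟩ := hf g; rw [← map_mul, mem_center_iff.1 c y, map_mul])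

variable [Fact p.Prime] [Finite G]

theorem Hy.quot (h : Hy p G) {f : G →* Q} (hf : Surjective f) (hc : (Nat.card f.ker).Coprime p) : Hy p Q := fun y hy ho => by
  obtain ⟨x, rfl, k, hk⟩ := H96.exists_pElement_lift hf ho
  have := h x (not_center hf hy) ⟨k, hk⟩
  have a := GT.CopAct.map_centralizer_of_surjective f hf (A := zpowers x) (by
    rw [Nat.card_zpowers, hk]; exact hc.symm.pow_left k) (.inl inferInstance)
  rw [MonoidHom.map_zpowers, zpowers_eq_closure, zpowers_eq_closure, centralizer_closure, centralizer_closure] at a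
  exact a ▸ Group.isSolvable_of_surjective (f.subgroupMap_surjective _)

theorem exists_lift {f : G →* Q} (hf : Surjective f) (hN : IsPGroup p f.ker) {Y : Subgroup Q} (hY : ¬ p ∣ Nat.card Y) :
    ∃ B : Subgroup G, B.map f = Y ∧ Nat.card B = Nat.card Y := by
  have hg := f.subgroupComap_surjective_of_surjective Y hf
  have hi : (f.subgroupComap Y).ker.index = Nat.card Y := by
    rw [index_ker, MonoidHom.range_eq_top.2 hg, card_top]
  obtain ⟨k, hk⟩ := (IsPGroup.iff_card (p := p) (G := (f.subgroupComap Y).ker)).1 fun x => by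
    obtain ⟨k, hk⟩ := hN ⟨x.1.1, congrArg Subtype.val x.2⟩
    exact ⟨k, Subtype.ext (Subtype.ext (by simpa using congrArg Subtype.val hk))⟩
  obtain ⟨H, hH⟩ := exists_right_complement'_of_coprime (N := (f.subgroupComap Y).ker) (by
    rw [hk, hi]; exact ((Fact.out : p.Prime).coprime_iff_not_dvd.2 hY).pow_left k)
  refine ⟨H.map (Subgroup.subtype _), le_antisymm (fun _ ⟨_, ⟨x, _, e⟩, e'⟩ => e' ▸ e ▸ x.2) fun y hy => ?_, ?_⟩
  · obtain ⟨x, e⟩ := hg ⟨y, hy⟩
    obtain ⟨⟨n, c⟩, rfl⟩ := hH.2 x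
    rw [map_mul, n.2, one_mul] at e
    exact ⟨_, ⟨_, c.2, rfl⟩, congrArg Subtype.val e⟩
  · rw [card_map_of_injective (subtype_injective _), ← hH.symm.index_eq_card, hi]

omit [Finite G] in
theorem pelt {f : G →* Q} (hN : IsPGroup p f.ker) {x : G} (ho : ∃ k : ℕ, orderOf (f x) = p ^ k) :
    ∃ k : ℕ, orderOf x = p ^ k := by
  obtain ⟨k, hk⟩ := ho
  obtain ⟨j, hj⟩ := hN ⟨x ^ p ^ k, by rw [MonoidHom.mem_ker, map_pow, ← hk, pow_orderOf_eq_one]⟩
  obtain ⟨i, -, hi⟩ := (Nat.dvd_prime_pow Fact.out).1 (orderOf_dvd_of_pow_eq_one (x := x) (n := p ^ (k + j))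
    (by rw [pow_add, pow_mul]; exact congrArg Subtype.val hj))
  exact ⟨i, hi⟩

end

theorem red {p : ℕ} [hp : Fact p.Prime] {Q : Type*} [Group Q] {x : Q} {Y : Subgroup Q} (hx : x ∉ center Q)
    (ho : ∃ k : ℕ, orderOf x = p ^ k) (hY : ¬ Group.IsSolvable Y) (hc : Y ≤ centralizer {x})
    (hm : ¬ p ∣ Nat.card Y ∨ MN.{u} p Q) (G : Type u) [Group G] [Finite G] :
    Hy p G → ∀ f : G →* Q, ¬ Surjective f := by
  refine GT.subgroup_quotient_induction (P := fun G _ _ => Hy p G → ∀ f : G →* Q, ¬ Surjective f) ?_ G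
  intro G _ _ h1 h2 h f hf
  have hN : IsPGroup p f.ker := by
    refine IsPGroup.of_card (Nat.eq_prime_pow_of_unique_prime_dvd Nat.card_pos.ne' fun {q} hq hd => by_contra fun hqp => ?_)
    have := Fact.mk hq
    obtain ⟨S⟩ : Nonempty (Sylow q f.ker) := inferInstance
    have a := S.normalizer_sup_eq_top
    set T := (S : Subgroup f.ker).map f.ker.subtype with hT
    by_cases b : normalizer (T : Set G) = ⊤
    · have := normalizer_eq_top_iff.1 b
      have c : T ≤ f.ker := map_subtype_le _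
      obtain ⟨k, hk⟩ := (S.isPGroup'.map f.ker.subtype).exists_card_eq
      refine h2 T (fun e => S.ne_bot_of_dvd_card hd ((map_eq_bot_iff_of_injective _ (subtype_injective _)).1 e))
        (h.quot (QuotientGroup.mk'_surjective T) ?_) (QuotientGroup.lift T f c) (QuotientGroup.lift_surjective_of_surjective _ _ hf c)
      rw [QuotientGroup.ker_mk', hk]
      exact ((Nat.coprime_primes hq hp.out).2 hqp).pow_left k
    · refine h1 _ b (h.sub _) (f.comp (Subgroup.subtype _)) fun y => ?_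
      obtain ⟨g, rfl⟩ := hf y
      obtain ⟨a, ha, n, hn, rfl⟩ := mem_sup_of_normal_right.1 (a ▸ mem_top g)
      exact ⟨⟨a, ha⟩, by rw [map_mul, hn, mul_one]; rfl⟩
  have hs : ∀ {H : Subgroup Q}, ¬ Group.IsSolvable H → ¬ Group.IsSolvable (H.comap f) := fun hH =>
    ns_of_map f hH (map_comap_eq_self_of_surjective hf _).ge
  rcases hm with hm | hm
  · obtain ⟨B, rfl, hB⟩ := exists_lift hf hN hm
    obtain ⟨k, hk⟩ := hN.exists_card_eq
    have := hN.isNilpotent
    have a := GT.CopAct.map_centralizer_of_surjective f hf (A := B) (by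
      rw [hB, hk]; exact (hp.out.coprime_iff_not_dvd.2 hm).symm.pow_right k) (.inr inferInstance)
    obtain ⟨y, hy, rfl⟩ := a.ge (mem_centralizer_iff.2 fun b hb => mem_centralizer_singleton_iff.1 (hc hb))
    exact ns_le (ns_of_map f hY le_rfl) (fun b hb => mem_centralizer_singleton_iff.2 (mem_centralizer_iff.1 hy b hb))
      (h y (not_center hf hx) (pelt hN ho))
  by_cases hz : f.ker ≤ center G
  · obtain ⟨y, rfl⟩ := hf x
    exact h.cen (not_center hf hx) (pelt hN ho) (hs hY) fun g hg => hz (by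
      simp [MonoidHom.mem_ker, mem_centralizer_singleton_iff.1 (hc hg)])
  let π := QuotientGroup.mk' (center G)
  have hπ : Surjective π := QuotientGroup.mk'_surjective _
  have := (inferInstance : f.ker.Normal).map π hπ
  obtain ⟨V, hV, hVN⟩ := GT.exists_isMinNormal_le (H := f.ker.map π) fun e => hz (by
    rwa [Subgroup.map_eq_bot_iff, QuotientGroup.ker_mk'] at e)
  have hP := hN.map π
  have hE := hV.elementary_of_isPGroup hp.out (hP.to_le hVN)
  have := hP.isNilpotent
  have hC := hV.le_centralizer_of_isNilpotent (f.ker.map π)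
  have := hV.normal
  let ρ := (GT.eaRep hE (H := ⊤) le_normalizer_of_normal).asGroupHom.comp ((π.codRestrict ⊤ fun _ => mem_top _))
  have hρ : f.ker ≤ ρ.ker := fun n hn => Units.ext (GT.eaRep_eq_one_iff.2 (hC (mem_map_of_mem π hn)))
  let σ : Representation (ZMod p) Q (GT.EAV hE) := (Units.coeHom _).comp (f.liftOfSurjective hf ⟨ρ, hρ⟩)
  have hσ : ∀ g v, (σ (f g) v).val = π g * v.val * (π g)⁻¹ := fun g v => by
    simp only [σ, MonoidHom.comp_apply, MonoidHom.liftOfRightInverse_comp_apply]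
    rfl
  have : Nontrivial (GT.EAV hE) := Finite.one_lt_card_iff_nontrivial.1 ((one_lt_card_iff_ne_bot V).2 hV.ne_bot)
  refine hm _ σ fun H hH v hv => by_contra fun h0 => ?_
  obtain ⟨y, hy, e⟩ := hVN v.val_mem
  refine h.cen (x := y) (fun c => h0 (GT.EAV.val_eq_one_iff.1 (e ▸ (QuotientGroup.eq_one_iff y).2 c)))
    (pelt hN ⟨0, by rw [hy, orderOf_one, pow_zero]⟩) (hs hH) fun g hg => (QuotientGroup.eq_one_iff _).1 ?_
  have a := hσ g v
  rw [hv _ hg, ← e] at a
  show π _ = 1
  rw [map_mul, map_mul, map_mul, map_inv, map_inv, ← a, mul_inv_cancel]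

theorem alt_bound {p : ℕ} [Fact p.Prime] {a d : ℕ} (hd : a + 5 ≤ d) {x : alternatingGroup (Fin a)} (h1 : x ≠ 1)
    (ho : ∃ k : ℕ, orderOf x = p ^ k) (hm : ¬ p ∣ 60 ∨ MN.{u} p (Equiv.Perm (Fin (a + 5)))) (G : Type u) [Group G] [Finite G]
    (h : Hy p G) (f : G →* alternatingGroup (Fin d)) : ¬ Surjective f := by
  let i : Fin a ↪ Fin d := Fin.castLEEmb (by omega)
  let j : Fin 5 ↪ Fin d := (Fin.natAddEmb a).trans (Fin.castLEEmb hd)
  refine red (x := Sym.altEmb i x) (Y := (⊤ : Subgroup _).map (Sym.altEmb j)) ?_ ?_ (ns_map (Sym.altEmb_injective j) ?_) ?_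
    (hm.imp ?_ fun b => (b.of_normal alternatingGroup.commutator_perm_le).of_inj (Sym.altEmb_injective (Fin.castLEEmb hd))) G h f
  · rw [alternatingGroup.center_eq_bot (by simp; omega), mem_bot]
    exact fun e => h1 ((map_eq_one_iff _ (Sym.altEmb_injective i)).1 e)
  · rwa [orderOf_injective _ (Sym.altEmb_injective i)]
  · exact ns_of_map (alternatingGroup (Fin 5)).subtype (ns_cmt (K := ⊤) fun _ => Equiv.Perm.not_isSolvable_fin_5
      (Group.isSolvable_of_surjective (f := (⊤ : Subgroup _).subtype) fun x => ⟨⟨x, trivial⟩, rfl⟩))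
      (by rw [← MonoidHom.range_eq_map, range_subtype]; exact alternatingGroup.commutator_perm_le)
  · rintro _ ⟨y, -, rfl⟩
    refine mem_centralizer_singleton_iff.2 (Subtype.ext (Equiv.Perm.Disjoint.commute fun t => ?_).eq)
    rw [Sym.coe_altEmb, Sym.coe_altEmb]
    by_cases ht : t ∈ Set.range i
    · refine .inl (Equiv.Perm.viaEmbedding_apply_of_notMem _ _ _ ?_)
      obtain ⟨s, rfl⟩ := ht
      rintro ⟨r, e⟩
      have : a + (r : ℕ) = s := congrArg Fin.val e
      omega
    · exact .inr (Equiv.Perm.viaEmbedding_apply_of_notMem _ _ _ ht)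
  · rw [card_map_of_injective (Sym.altEmb_injective j), card_top, nat_card_alternatingGroup, Nat.card_fin]
    exact id

end Cfsg.Agent.FG.AltS
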