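import Mathlib

/-!
# Number theory for Amitsur's theorem: Gauss' identity and the form `a² + 5 d²`
-/

set_option autoImplicit false

namespace Cfsg.Agent.FG.Amit

open Polynomial

section Gauss

variable {r : ℕ} [Fact r.Prime] {M : Type*} [Field M]

/-- The product of the linear factors over the residues with quadratic character `ε`. -/
noncomputable def half (ψ : AddChar (ZMod r) M) (ε : ℤ) : M[X] :=
  ∏ a ∈ Finset.univ.filter (fun a : ZMod r => quadraticChar (ZMod r) a = ε), (X - C (ψ a))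

theorem half_mul {ζ : M} (hζ : IsPrimitiveRoot ζ r) :
    (X - 1) * (half (AddChar.zmodChar r hζ.pow_eq_one) 1 *
      half (AddChar.zmodChar r hζ.pow_eq_one) (-1)) = X ^ r - 1 := by
  have hr : 0 < r := (Fact.out : r.Prime).pos
  have e := X_pow_sub_C_eq_prod hζ (α := 1) (a := 1) hr (one_pow r)
  rw [C_1] at e
  have e2 : ∏ i ∈ Finset.range r, (X - C (ζ ^ i * 1)) =
      ∏ a : ZMod r, (X - C (AddChar.zmodChar r hζ.pow_eq_one a)) := by
    refine Finset.prod_bij' (fun i _ => (i : ZMod r)) (fun a _ => a.val) (fun _ _ => by simp)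
      (fun a _ => Finset.mem_range.2 (ZMod.val_lt a))
      (fun i hi => ZMod.val_cast_of_lt (Finset.mem_range.1 hi))
      (fun a _ => ZMod.natCast_zmod_val a) fun i _ => ?_
    rw [AddChar.zmodChar_apply', mul_one]
  rw [e, e2, ← Finset.mul_prod_erase _ _ (Finset.mem_univ (0 : ZMod r)), AddChar.map_zero_eq_one,
    C_1, half, half, ← Finset.prod_union]
  · congr 2
    ext a
    simp only [Finset.mem_union, Finset.mem_filter, Finset.mem_univ, true_and, Finset.mem_erase,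
      and_true]
    refine ⟨fun h e => ?_, quadraticChar_dichotomy⟩
    rw [e, MulChar.map_zero] at h
    omega
  · rw [Finset.disjoint_filter]
    intro a _ h1 h2
    omega

theorem map_half {ψ : AddChar (ZMod r) M} (σ : M →+* M) {b : ZMod r} (hb : b ≠ 0)
    (h : ∀ a, σ (ψ a) = ψ (b * a)) (ε : ℤ) :
    (half ψ ε).map σ = half ψ (quadraticChar (ZMod r) b * ε) := by
  have h2 : quadraticChar (ZMod r) b * quadraticChar (ZMod r) b = 1 := by
    rw [← sq, quadraticChar_sq_one hb]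
  rw [half, half, Polynomial.map_prod]
  refine Finset.prod_bij' (fun a _ => b * a) (fun a _ => b⁻¹ * a) (fun a ha => ?_)
    (fun a ha => ?_) (fun a _ => inv_mul_cancel_left₀ hb a) (fun a _ => mul_inv_cancel_left₀ hb a)
    fun a _ => by simp [h]
  · simp only [Finset.mem_filter, Finset.mem_univ, true_and] at ha ⊢
    rw [map_mul, ha]
  · simp only [Finset.mem_filter, Finset.mem_univ, true_and] at ha ⊢
    have : quadraticChar (ZMod r) b * quadraticChar (ZMod r) (b⁻¹ * a) =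
        quadraticChar (ZMod r) b * ε := by rw [← map_mul, mul_inv_cancel_left₀ hb, ha]
    linear_combination quadraticChar (ZMod r) b * this - (quadraticChar (ZMod r) (b⁻¹ * a) - ε) * h2

end Gauss

theorem gauss_aux {r : ℕ} [Fact r.Prime] (h4 : r % 4 = 3) (M : Type*) [Field M] [Algebra ℚ M]
    [IsCyclotomicExtension {r} ℚ M] :
    ∃ A B : ℚ[X], (X - 1) * ((r : ℚ[X]) * A ^ 2 + B ^ 2) = 4 * (r : ℚ[X]) * (X ^ r - 1) := by
  have : CharZero M := algebraRat.charZero M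
  have : IsGalois ℚ M := IsCyclotomicExtension.isGalois {r} ℚ M
  have : FiniteDimensional ℚ M := IsCyclotomicExtension.finiteDimensional {r} ℚ M
  have hζ := IsCyclotomicExtension.zeta_spec r ℚ M
  generalize IsCyclotomicExtension.zeta r ℚ M = ζ at hζ
  let ψ : AddChar (ZMod r) M := AddChar.zmodChar r hζ.pow_eq_one
  let χ : MulChar (ZMod r) M := (quadraticChar (ZMod r)).ringHomComp (Int.castRingHom M)
  have hχ : ∀ a, χ a = (quadraticChar (ZMod r) a : M) := fun a => rfl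
  have hr2 : ringChar (ZMod r) ≠ 2 := by rw [ZMod.ringChar_zmod_n]; omega
  have hq : χ.IsQuadratic := (quadraticChar_isQuadratic _).comp _
  have hg : gaussSum χ ψ ^ 2 = -(r : M) := by
    rw [gaussSum_sq ((MulChar.ringHomComp_ne_one_iff Int.cast_injective).2
      (quadraticChar_ne_one hr2)) hq (AddChar.zmodChar_primitive_of_primitive_root r hζ), hχ,
      quadraticChar_neg_one hr2, ZMod.card, ZMod.χ₄_nat_three_mod_four h4]
    simp
  have key : ∀ σ : M ≃ₐ[ℚ] M, (half ψ 1 + half ψ (-1)).map (σ : M →+* M) = half ψ 1 + half ψ (-1) ∧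
      (C (gaussSum χ ψ) * (half ψ 1 - half ψ (-1))).map (σ : M →+* M) =
        C (gaussSum χ ψ) * (half ψ 1 - half ψ (-1)) := fun σ => by
    set b := hζ.autToPow ℚ σ
    have h1 : ∀ a, (σ : M →+* M) (ψ a) = ψ (b * a) := fun a => by
      show σ (ζ ^ a.val) = ζ ^ (b * a : ZMod r).val
      rw [map_pow, ← hζ.autToPow_spec ℚ σ, ← pow_mul, ZMod.val_mul, ← pow_eq_pow_mod _ hζ.pow_eq_one]
    have h2 : (σ : M →+* M) (gaussSum χ ψ) = χ b * gaussSum χ ψ := by
      have := gaussSum_mulShift_eq χ ψ b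
      rw [hq.inv] at this
      rw [← this, gaussSum, gaussSum, map_sum]
      refine Finset.sum_congr rfl fun a _ => ?_
      rw [map_mul, h1, AddChar.mulShift_apply, hχ, map_intCast]
    rw [Polynomial.map_add, Polynomial.map_mul, Polynomial.map_sub, map_C, h2,
      map_half _ b.ne_zero h1, map_half _ b.ne_zero h1, hχ]
    rcases quadraticChar_dichotomy b.ne_zero with e | e <;> rw [e]
    · simp
    · simp only [mul_one, mul_neg, neg_neg, Int.cast_neg, Int.cast_one, neg_mul, one_mul, map_neg]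
      exact ⟨add_comm _ _, by ring⟩
  have lift : ∀ P : M[X], (∀ σ : M ≃ₐ[ℚ] M, P.map (σ : M →+* M) = P) →
      ∃ Q : ℚ[X], Q.map (algebraMap ℚ M) = P := fun P hP =>
    (mem_lifts P).1 ((lifts_iff_coeff_lifts P).2 fun n =>
      (IsGalois.mem_range_algebraMap_iff_fixed _).2 fun σ => by
        conv_rhs => rw [← hP σ, coeff_map]
        rfl)
  obtain ⟨A, hA⟩ := lift _ fun σ => (key σ).1
  obtain ⟨B, hB⟩ := lift _ fun σ => (key σ).2
  refine ⟨A, B, map_injective _ (algebraMap ℚ M).injective ?_⟩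
  have hg' : C (gaussSum χ ψ) ^ 2 = -(r : M[X]) := by rw [← map_pow, hg]; simp
  simp only [Polynomial.map_mul, Polynomial.map_add, Polynomial.map_sub, Polynomial.map_pow, hA, hB,
    map_X, Polynomial.map_one, Polynomial.map_natCast, Polynomial.map_ofNat]
  linear_combination (4 * r : M[X]) * half_mul hζ +
    (X - 1) * (half ψ 1 - half ψ (-1)) ^ 2 * hg'

/-- Gauss' identity for a prime `r ≡ 3 mod 4`. -/
theorem gauss_identity {r : ℕ} (hp : r.Prime) (h4 : r % 4 = 3) :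
    ∃ A B : ℚ[X], (X - 1) * ((r : ℚ[X]) * A ^ 2 + B ^ 2) = 4 * (r : ℚ[X]) * (X ^ r - 1) :=
  have : Fact r.Prime := ⟨hp⟩
  @gauss_aux r _ h4 (CyclotomicField r ℚ) _ _ (CyclotomicField.isCyclotomicExtension r ℚ)

/-- Thue's lemma. -/
theorem thue {r : ℕ} (hp : r.Prime) (s : ZMod r) :
    ∃ a d : ℤ, (a : ZMod r) = s * d ∧ a ^ 2 < r ∧ d ^ 2 < r ∧ (a ≠ 0 ∨ d ≠ 0) := by
  have : NeZero r := ⟨hp.ne_zero⟩
  obtain ⟨⟨x, y⟩, ⟨x', y'⟩, hne, e⟩ := Fintype.exists_ne_map_eq_of_card_lt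
    (fun q : Fin (r.sqrt + 1) × Fin (r.sqrt + 1) => ((q.1 : ℕ) : ZMod r) - s * (q.2 : ℕ))
    (by simpa [ZMod.card] using Nat.lt_succ_sqrt r)
  have hs : (r.sqrt : ℤ) ^ 2 < r := by
    have h1 := Nat.sqrt_le' r
    have h2 : r.sqrt ^ 2 ≠ r := fun k => hp.prime.not_isSquare ⟨r.sqrt, by rw [← sq, k]⟩
    exact_mod_cast lt_of_le_of_ne h1 h2
  have bd : ∀ u v : Fin (r.sqrt + 1), (((u : ℕ) : ℤ) - (v : ℕ)) ^ 2 < r := fun u v => by
    have h1 := u.2
    have h2 := v.2
    refine lt_of_le_of_lt (sq_le_sq' ?_ ?_) hs <;> omega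
  refine ⟨(x : ℕ) - (x' : ℕ), (y : ℕ) - (y' : ℕ), ?_, bd _ _, bd _ _, ?_⟩
  · push_cast
    linear_combination e
  · by_contra k
    push Not at k
    obtain rfl : x = x' := Fin.ext (by omega)
    obtain rfl : y = y' := Fin.ext (by omega)
    exact hne rfl

theorem two_mul_eq_form {r : ℕ} (hp : r.Prime) (h : r % 20 = 3) :
    ∃ m a d : ℤ, m ≠ 0 ∧ 2 * r * m ^ 2 = a ^ 2 + 5 * d ^ 2 := by
  have : Fact r.Prime := ⟨hp⟩
  have : Fact (Nat.Prime 5) := ⟨by norm_num⟩
  have h5 : legendreSym r 5 = -1 := by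
    have := legendreSym.quadratic_reciprocity_one_mod_four (p := 5) (q := r) (by norm_num)
      (by omega)
    rw [show ((5 : ℕ) : ℤ) = 5 from rfl] at this
    rw [this, legendreSym.mod, show (r : ℤ) % (5 : ℕ) = 3 by omega]
    norm_num
  have h1 : legendreSym r (-1) = -1 := by
    rw [legendreSym.at_neg_one (by omega), ZMod.χ₄_nat_three_mod_four (by omega)]
  have h2 : legendreSym r (-5) = 1 := by
    rw [show (-5 : ℤ) = -1 * 5 by norm_num, legendreSym.mul, h1, h5]; norm_num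
  obtain ⟨s, hs⟩ := (legendreSym.eq_one_iff r fun e => by
    rw [(legendreSym.eq_zero_iff r _).2 e] at h2; omega).1 h2
  obtain ⟨a, d, e, ha, hd, h0⟩ := thue hp s
  obtain ⟨m, hm⟩ : (r : ℤ) ∣ a ^ 2 + 5 * d ^ 2 := by
    rw [← ZMod.intCast_zmod_eq_zero_iff_dvd]
    push_cast at hs ⊢
    rw [e]
    linear_combination (-(d : ZMod r) ^ 2) * hs
  have hr : (0 : ℤ) < r := by exact_mod_cast hp.pos
  have pos : 0 < a ^ 2 + 5 * d ^ 2 := by
    rcases h0 with k | k <;> positivity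
  have m0 : 0 < m := by by_contra k; nlinarith
  have m6 : m < 6 := by by_contra k; nlinarith
  have sq5 : a ^ 2 % 5 = 0 ∨ a ^ 2 % 5 = 1 ∨ a ^ 2 % 5 = 4 := by
    have : a % 5 = 0 ∨ a % 5 = 1 ∨ a % 5 = 2 ∨ a % 5 = 3 ∨ a % 5 = 4 := by omega
    rcases this with k | k | k | k | k <;> simp [sq, Int.mul_emod, k]
  interval_cases m
  · omega
  · exact ⟨1, a, d, one_ne_zero, by linarith⟩
  · exact ⟨3, a - 5 * d, a + d, by norm_num, by linear_combination (-6) * hm⟩
  · omega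
  · obtain ⟨c, rfl⟩ : 5 ∣ a := Int.Prime.dvd_pow' (p := 5) (k := 2) (by norm_num) (by omega)
    have sq5 : d ^ 2 % 5 = 0 ∨ d ^ 2 % 5 = 1 ∨ d ^ 2 % 5 = 4 := by
      have : d % 5 = 0 ∨ d % 5 = 1 ∨ d % 5 = 2 ∨ d % 5 = 3 ∨ d % 5 = 4 := by omega
      rcases this with k | k | k | k | k <;> simp [sq, Int.mul_emod, k]
    have : (5 * c) ^ 2 = 25 * c ^ 2 := by ring
    omega

theorem exists_prime {l : ℕ} (hl : l.Coprime 20) (h0 : l ≠ 0) :
    ∃ r : ℕ, r.Prime ∧ r % 20 = 3 ∧ l ∣ r + 1 := by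
  obtain ⟨a, h1, h2⟩ := Nat.chineseRemainder hl (l - 1) 3
  have c1 : a.Coprime l := by
    rw [Nat.Coprime, h1.gcd_eq]
    obtain ⟨k, rfl⟩ := Nat.exists_eq_succ_of_ne_zero h0
    simp
  have c2 : a.Coprime 20 := by rw [Nat.Coprime, h2.gcd_eq]; norm_num
  obtain ⟨r, -, hr, e⟩ := Nat.forall_exists_prime_gt_and_modEq 0 (q := l * 20) (by positivity)
    (c1.mul_right c2)
  refine ⟨r, hr, (e.of_mul_left l).trans h2, ?_⟩
  have := ((e.of_mul_right 20).trans h1).add_right 1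
  rw [Nat.sub_add_cancel (Nat.pos_of_ne_zero h0)] at this
  exact (Nat.modEq_zero_iff_dvd.1 (this.trans (Nat.modEq_zero_iff_dvd.2 dvd_rfl)))

/-- In a commutative `ℚ`-algebra containing `√5` and an element of order `l`, a nontrivial sum
of four squares vanishes. -/
theorem four_squares {C : Type*} [CommRing C] [Algebra ℚ C] [NoZeroDivisors C] {l : ℕ}
    (hl : l.Coprime 20) {η θ : C} (h1 : η ^ l = 1) (hη : η ≠ 1) (hθ : θ ^ 2 = 5) :
    ∃ (n : ℤ) (a b c : C), n ≠ 0 ∧ (n : C) ^ 2 + a ^ 2 + b ^ 2 + c ^ 2 = 0 := by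
  have h0 : l ≠ 0 := by rintro rfl; norm_num at hl
  obtain ⟨r, hr, h20, k, hk⟩ := exists_prime hl h0
  obtain ⟨A, B, hAB⟩ := gauss_identity hr (by omega)
  obtain ⟨m, a, d, m0, hm⟩ := two_mul_eq_form hr h20
  have e := congrArg (aeval η) hAB
  simp only [map_mul, map_sub, map_add, map_pow, aeval_X, map_one, map_natCast, map_ofNat] at e
  have e1 : η ^ r * η = 1 := by rw [← pow_succ, hk, pow_mul, h1, one_pow]
  have e2 : η * (r * aeval η A ^ 2 + aeval η B ^ 2) + 4 * r = 0 :=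
    (mul_eq_zero.1 (show (η - 1) * _ = 0 by linear_combination η * e + 4 * r * e1)).resolve_left
      (sub_ne_zero.2 hη)
  obtain ⟨j, hj⟩ : Odd l := Nat.coprime_two_right.1 (hl.coprime_dvd_right (by norm_num))
  have e3 : (η ^ (j + 1)) ^ 2 = η := by
    rw [← pow_mul, show (j + 1) * 2 = l + 1 by omega, pow_succ, h1, one_mul]
  have hm' : 2 * (r : C) * m ^ 2 = a ^ 2 + 5 * d ^ 2 := by exact_mod_cast congrArg (Int.cast : ℤ → C) hm
  refine ⟨4 * m * r, 2 * m * r * (η ^ (j + 1) * aeval η A), (a + θ * d) * (η ^ (j + 1) * aeval η B),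
    (a - θ * d) * (η ^ (j + 1) * aeval η B),
    mul_ne_zero (mul_ne_zero four_ne_zero m0) (by exact_mod_cast hr.ne_zero), ?_⟩
  simp only [mul_pow, e3]
  push_cast
  linear_combination (4 * m ^ 2 * r : C) * e2 + 2 * (η * aeval η B ^ 2) * (d : C) ^ 2 * hθ -
    2 * (η * aeval η B ^ 2) * hm'

end Cfsg.Agent.FG.Amit
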