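import Mathlib
import Cfsg.Agent.FG.AmitA

/-!
# Amitsur's theorem: computations in a division ring
-/

set_option autoImplicit false

namespace Cfsg.Agent.FG.Amit

variable {D : Type*} [DivisionRing D]

theorem eq_zero_of_eq_neg (h2 : (2 : D) ≠ 0) {x : D} (h : x = -x) : x = 0 :=
  (mul_eq_zero.1 (show 2 * x = 0 by rw [two_mul]; nth_rw 1 [h]; exact neg_add_cancel x)).resolve_left h2

/-- A quaternion pair in a division ring makes the sum of four squares anisotropic on its
centralizer. -/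
theorem quat (h2 : (2 : D) ≠ 0) {i j n a b c : D} (hi : i * i = -1) (hj : j * j = -1)
    (hij : j * i = -(i * j)) (ni : Commute i n) (nj : Commute j n) (ai : Commute i a)
    (aj : Commute j a) (bi : Commute i b) (bj : Commute j b) (ci : Commute i c)
    (cj : Commute j c) (na : Commute n a) (nb : Commute n b) (nc : Commute n c)
    (ab : Commute b a) (ac : Commute c a) (bc : Commute c b)
    (e : n ^ 2 + a ^ 2 + b ^ 2 + c ^ 2 = 0) : n = 0 := by
  have hi' : ∀ x, i * (i * x) = -x := fun x => by rw [← mul_assoc, hi, neg_one_mul]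
  have hij' : ∀ x, j * (i * x) = -(i * (j * x)) := fun x => by
    rw [← mul_assoc, hij, neg_mul, mul_assoc]
  have i0 : i ≠ 0 := fun k => by simp [k] at hi
  have j0 : j ≠ 0 := fun k => by simp [k] at hj
  set p := a * i + b * j + c * (i * j) with hp
  have pp : p * p = n * n := by
    have : n * n = -(a * a + b * b + c * c) := by
      rw [eq_neg_iff_add_eq_zero, ← e]; noncomm_ring
    rw [this]
    simp only [hp, mul_add, add_mul, mul_assoc, ai.left_comm, aj.left_comm, bi.left_comm,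
      bj.left_comm, ci.left_comm, cj.left_comm, ab.left_comm, ac.left_comm, bc.left_comm, hi, hj,
      hij, hi', hij', mul_neg, neg_neg, mul_one, bi.eq]
    abel
  have cp : Commute p n := ((na.symm.mul_left ni).add_left (nb.symm.mul_left nj)).add_left
    (nc.symm.mul_left (ni.mul_left nj))
  have ⟨pi, pj⟩ : Commute i p ∧ Commute j p := by
    rcases cp.mul_self_eq_mul_self_iff.1 pp with k | k <;> rw [k]
    exacts [⟨ni, nj⟩, ⟨ni.neg_right, nj.neg_right⟩]
  have e1 : i * (p - a * i) = -(i * (p - a * i)) := by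
    have k1 : i * (p - a * i) = (p - a * i) * i := (pi.sub_right (ai.mul_right (Commute.refl i))).eq
    have k2 : p - a * i = b * j + c * (i * j) := by rw [hp]; abel
    nth_rw 1 [k1]
    simp only [k2, mul_add, add_mul, mul_assoc, bi.left_comm, ci.left_comm, hij, hi', mul_neg,
      neg_neg]
    abel
  have e2 : p = a * i := sub_eq_zero.1 ((mul_eq_zero.1 (eq_zero_of_eq_neg h2 e1)).resolve_left i0)
  have e3 : p * j = -(p * j) := by
    nth_rw 1 [← pj.eq]
    rw [e2, aj.left_comm, hij, mul_neg, mul_assoc]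
  have e4 : p = 0 := (mul_eq_zero.1 (eq_zero_of_eq_neg h2 e3)).resolve_right j0
  rw [e4, zero_mul] at pp
  exact mul_self_eq_zero.1 pp.symm

theorem charZero_of_quat (h2 : (2 : D) ≠ 0) {i j : D} (hi : i * i = -1) (hj : j * j = -1)
    (hij : j * i = -(i * j)) : CharZero D := by
  obtain ⟨p, hp⟩ := CharP.exists D
  rcases CharP.char_is_prime_or_zero D p with k | rfl
  · have : NeZero p := ⟨k.ne_zero⟩
    obtain ⟨a, b, e⟩ := CharP.sq_add_sq D p (-1)
    have c : ∀ (x : D) (m : ℕ), Commute x m := fun x m => (Nat.cast_commute m x).symm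
    exact absurd (quat h2 hi hj hij (n := 1) (a := a) (b := b) (c := 0) (Commute.one_right _)
      (Commute.one_right _) (c _ _) (c _ _) (c _ _) (c _ _) (Commute.zero_right _)
      (Commute.zero_right _) (c _ _) (c _ _) (Commute.zero_right _) (c _ _) (Commute.zero_left _)
      (Commute.zero_left _) (by rw [add_assoc (1 ^ 2), e]; simp)) one_ne_zero
  · exact CharP.charP_to_charZero D

theorem cyc5 {g : D} (h5 : g ^ 5 = 1) (h1 : g ≠ 1) : 1 + g + g ^ 2 + g ^ 3 + g ^ 4 = 0 :=
  (mul_eq_zero.1 (show (g - 1) * _ = 0 by rw [← sub_eq_zero.2 h5]; noncomm_ring)).resolve_left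
    (sub_ne_zero.2 h1)

open scoped IsMulCommutative in
/-- An element of order `l` prime to 20 cannot centralize a quaternion pair and `√5`. -/
theorem eq_one_of_cent [CharZero D] {i j θ η : D} (hi : i * i = -1) (hj : j * j = -1)
    (hij : j * i = -(i * j)) (hθ : θ ^ 2 = 5) (ti : Commute i θ) (tj : Commute j θ)
    (ei : Commute i η) (ej : Commute j η) (te : Commute η θ) {l : ℕ} (hl : l.Coprime 20)
    (h1 : η ^ l = 1) : η = 1 := by
  by_contra hη
  have : IsMulCommutative (Algebra.adjoin ℚ {η, θ}) := Algebra.isMulCommutative_adjoin ℚ (by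
    rintro _ (rfl | rfl) _ (rfl | rfl)
    exacts [rfl, te.eq, te.symm.eq, rfl])
  obtain ⟨n, a, b, c, n0, e⟩ := four_squares (C := Algebra.adjoin ℚ {η, θ}) hl
    (η := ⟨η, Algebra.subset_adjoin (by simp)⟩) (θ := ⟨θ, Algebra.subset_adjoin (by simp)⟩)
    (Subtype.ext h1) (fun k => hη (congrArg Subtype.val k)) (Subtype.ext hθ)
  have cm : ∀ {k : D}, Commute k η → Commute k θ → ∀ x : Algebra.adjoin ℚ {η, θ},
      Commute k (x : D) := fun {k} k1 k2 x =>
    (Algebra.adjoin_le (S := Subalgebra.centralizer ℚ {k}) (by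
      rintro _ (rfl | rfl) _ rfl
      exacts [k1.eq, k2.eq]) x.2) k rfl
  have cc : ∀ x y : Algebra.adjoin ℚ {η, θ}, Commute (x : D) (y : D) := fun x y =>
    congrArg Subtype.val (mul_comm x y)
  have := quat two_ne_zero hi hj hij (cm ei ti n) (cm ej tj n) (cm ei ti a) (cm ej tj a)
    (cm ei ti b) (cm ej tj b) (cm ei ti c) (cm ej tj c) (cc _ _) (cc _ _) (cc _ _) (cc _ _)
    (cc _ _) (cc _ _) (congrArg Subtype.val e)
  exact n0 (Int.cast_eq_zero.1 this)

/-- The cyclic algebra of degree four attached to the normalizer of an element of order five has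
zero divisors. -/
theorem no_outer [CharZero D] {g x : D} (h5 : g ^ 5 = 1) (h1 : g ≠ 1) (hx : x * g = g ^ 2 * x)
    (h4 : x * x * (x * x) = -1) : False := by
  have Φ := cyc5 h5 h1
  have xp : ∀ n, x * g ^ n = g ^ (2 * n % 5) * x := fun n => by
    rw [← pow_eq_pow_mod _ h5, pow_mul]
    exact (SemiconjBy.pow_right hx n).eq
  have x2 : x * g ^ 2 = g ^ 4 * x := xp 2
  have x3 : x * g ^ 3 = g * x := by simpa using xp 3
  have x4 : x * g ^ 4 = g ^ 3 * x := xp 4
  obtain ⟨θ, hθ⟩ : ∃ θ, θ = g + g ^ 4 - g ^ 2 - g ^ 3 := ⟨_, rfl⟩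
  obtain ⟨δ, hδ⟩ : ∃ δ, δ = g - g ^ 4 := ⟨_, rfl⟩
  obtain ⟨ε, hε⟩ : ∃ ε, ε = g ^ 2 - g ^ 3 := ⟨_, rfl⟩
  have t2 : θ * θ = 5 := by
    rw [← sub_eq_zero, ← mul_zero (g ^ 4 - 3 * g ^ 3 + g ^ 2 + 5 * g - 5), ← Φ, hθ]
    noncomm_ring
  have d2 : δ * δ + ε * ε = -5 := by
    rw [← sub_eq_zero, ← mul_zero (g ^ 4 - g ^ 3 + g ^ 2 - 5 * g + 5), ← Φ, hδ, hε]
    noncomm_ring
  have de : ε * δ = δ * ε := by rw [hδ, hε]; noncomm_ring
  have td : δ * θ = θ * δ := by rw [hδ, hθ]; noncomm_ring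
  have te : ε * θ = θ * ε := by rw [hε, hθ]; noncomm_ring
  have xt : x * θ = -(θ * x) := by
    simp only [hθ, mul_add, mul_sub, add_mul, sub_mul, hx, x2, x3, x4]; abel
  have xd : x * δ = ε * x := by simp only [hδ, hε, mul_sub, sub_mul, hx, x4]
  have xe : x * ε = -(δ * x) := by
    simp only [hδ, hε, mul_sub, sub_mul, x2, x3]; abel
  have xt' : ∀ z, x * (θ * z) = -(θ * (x * z)) := fun z => by
    rw [← mul_assoc, xt, neg_mul, mul_assoc]
  have xd' : ∀ z, x * (δ * z) = ε * (x * z) := fun z => by rw [← mul_assoc, xd, mul_assoc]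
  have xe' : ∀ z, x * (ε * z) = -(δ * (x * z)) := fun z => by
    rw [← mul_assoc, xe, neg_mul, mul_assoc]
  have de' : ∀ z, ε * (δ * z) = δ * (ε * z) := fun z => by rw [← mul_assoc, de, mul_assoc]
  have h4'' : x * (x * (x * x)) = -1 := by rw [← h4]; noncomm_ring
  obtain ⟨y, hy⟩ : ∃ y, y = x * (δ + ε * (x * x)) := ⟨_, rfl⟩
  have y2 : y * y = -5 := by
    rw [← d2]
    simp only [hy, mul_add, add_mul, mul_assoc, xd, xe, xd', xe', de', h4'', mul_neg,
      neg_neg, mul_one, neg_mul]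
    abel
  have yt : y * θ = -(θ * y) := by
    have te' : ∀ z, ε * (θ * z) = θ * (ε * z) := fun z => by rw [← mul_assoc, te, mul_assoc]
    simp only [hy, mul_add, add_mul, mul_assoc, td, te', xt, xt', mul_neg, neg_neg]
    abel
  have w2 : y * θ * (y * θ) = 5 * 5 := by
    rw [mul_assoc, ← mul_assoc θ, ← neg_neg (θ * y), ← yt, neg_mul, mul_neg, mul_assoc, t2,
      ← mul_assoc, y2, neg_mul, neg_neg]
  have c5 : ∀ z : D, Commute z 5 := fun z => (Nat.cast_commute 5 z).symm
  have ct : Commute θ (y * θ) := by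
    rcases (c5 _).mul_self_eq_mul_self_iff.1 w2 with k | k <;> rw [k]
    exacts [c5 _, (c5 _).neg_right]
  have e : y * θ * θ = -(y * θ * θ) := by
    nth_rw 1 [← ct.eq]
    rw [← mul_assoc, ← neg_neg (θ * y), ← yt, neg_mul]
  have := eq_zero_of_eq_neg two_ne_zero e
  rw [mul_assoc, t2, mul_eq_zero] at this
  rcases this with k | k
  · rw [k, zero_mul] at y2
    norm_num at y2
  · norm_num at k

/-- The trace of the element of order five is central. -/
theorem tau_comm {u g : D} (hu : u * u = -1) (h5 : g ^ 5 = 1) (hs : (u * g) ^ 3 = -1)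
    (h1 : u * g ≠ -1) : Commute u (g + g ^ 4) := by
  obtain ⟨s, rfl⟩ : ∃ s, g = -(u * s) :=
    ⟨u * g, by rw [← mul_assoc, hu, neg_one_mul, neg_neg]⟩
  rw [mul_neg, ← mul_assoc, hu, neg_one_mul, neg_neg] at hs h1
  have s2 : s * s = s - 1 := sub_eq_zero.1 ((mul_eq_zero.1 (show (s - -1) * _ = 0 by
    rw [← sub_eq_zero.2 hs]; noncomm_ring)).resolve_left (sub_ne_zero.2 h1))
  have hu' : ∀ x, u * (u * x) = -x := fun x => by rw [← mul_assoc, hu, neg_one_mul]
  have e : (-(u * s)) ^ 4 = u - s * u := by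
    have k : -(u * s) * (u - s * u) = 1 := by
      rw [neg_mul, mul_assoc, mul_sub s, ← mul_assoc s s, s2, sub_mul, one_mul, sub_sub_cancel, hu,
        neg_neg]
    rw [← mul_one (_ ^ 4), ← k, ← mul_assoc, ← pow_succ, h5, one_mul]
  rw [e]
  simp only [Commute, SemiconjBy, mul_add, add_mul, mul_sub, sub_mul, mul_neg, neg_mul, mul_assoc,
    hu, hu', neg_neg, mul_one]
  abel

end Cfsg.Agent.FG.Amit
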