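import Mathlib
import Cfsg.Agent.FG.AmitB

/-!
# Amitsur's theorem: overgroups of `SL(2,5)` in a division ring
-/

set_option autoImplicit false

namespace Cfsg.Agent.FG.Amit

abbrev S5 := Matrix.SpecialLinearGroup (Fin 2) (ZMod 5)

def gg : S5 := ⟨!![1, 1; 0, 1], by decide⟩
def uu : S5 := ⟨!![0, -1; 1, 0], by decide⟩
def ii : S5 := uu * gg ^ 2 * uu * gg ^ 3 * uu * gg ^ 2
def zz : S5 := uu * uu

theorem c1 : ∀ w : S5, w * gg = gg ^ 4 * w → w * w = zz := by decide +kernel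
theorem c2 : ∀ w : S5, w * gg = gg * w → w * uu = uu * w → w = 1 ∨ w = zz := by decide +kernel
theorem c3 : ∀ w : S5, w * w = zz → (w * gg) ^ 3 = zz →
    ∃ m : Fin 5, gg ^ m.1 * w = uu * gg ^ m.1 := by decide +kernel
theorem c4 : ∀ y : S5, y ^ 5 = 1 → y ≠ 1 → ∃ n : S5, n * y = gg * n ∨ n * y = gg ^ 2 * n := by
  decide +kernel
theorem c5 : ii * ii = zz ∧ uu * ii = zz * (ii * uu) ∧ (uu * gg) ^ 3 = zz ∧ gg ^ 5 = 1 ∧ gg ≠ 1 ∧
    zz * zz = 1 ∧ zz ≠ 1 ∧ uu * gg ≠ zz := by decide +kernel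

variable {D : Type*} [DivisionRing D] {f : S5 →* D} (hf : Function.Injective f)
include hf

theorem f_zz : f zz = -1 :=
  (mul_self_eq_one_iff.1 (by rw [← map_mul, c5.2.2.2.2.2.1, map_one])).resolve_left
    fun e => c5.2.2.2.2.2.2.1 (hf (e.trans (map_one f).symm))

theorem f_two : (2 : D) ≠ 0 := fun e => c5.2.2.2.2.2.2.1 (hf (by
  rw [f_zz hf, map_one, neg_eq_iff_add_eq_zero, one_add_one_eq_two, e]))

theorem f_uu : f uu * f uu = -1 := by rw [← map_mul, ← f_zz hf]; rfl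

theorem f_ii : f ii * f ii = -1 := by rw [← map_mul, c5.1, f_zz hf]

theorem f_ui : f uu * f ii = -(f ii * f uu) := by
  rw [← map_mul, c5.2.1, map_mul, f_zz hf, neg_one_mul, map_mul]

theorem f_charZero : CharZero D := charZero_of_quat (f_two hf) (f_ii hf) (f_uu hf) (f_ui hf)

omit hf in
theorem f_g5 : f gg ^ 5 = 1 := by rw [← map_pow, c5.2.2.2.1, map_one]

theorem f_g1 : f gg ≠ 1 := fun e => c5.2.2.2.2.1 (hf (e.trans (map_one f).symm))

omit hf in
theorem commute_ii {x : D} (hu : Commute x (f uu)) (hg : Commute x (f gg)) : Commute x (f ii) := by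
  simp only [ii, map_mul, map_pow]
  exact ((((hu.mul_right (hg.pow_right _)).mul_right hu).mul_right (hg.pow_right _)).mul_right
    hu).mul_right (hg.pow_right _)

theorem cent_eq_one {η : D} (hu : Commute η (f uu)) (hg : Commute η (f gg)) {l : ℕ}
    (hl : l.Coprime 20) (h1 : η ^ l = 1) : η = 1 := by
  have := f_charZero hf
  have t := tau_comm (f_uu hf) f_g5 (by rw [← map_mul, ← map_pow, c5.2.2.1, f_zz hf])
    (fun e => c5.2.2.2.2.2.2.2 (hf (by rw [map_mul, e, f_zz hf])))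
  have c : ∀ {x : D}, Commute x (f gg + f gg ^ 4) → Commute x (2 * (f gg + f gg ^ 4) + 1) :=
    fun {x} h => (((Nat.cast_commute 2 x).symm.mul_right h).add_right (Commute.one_right x))
  have cg : Commute (f gg) (f gg + f gg ^ 4) :=
    (Commute.refl _).add_right ((Commute.refl _).pow_right _)
  refine eq_one_of_cent (f_ii hf) (f_uu hf) (f_ui hf) (θ := 2 * (f gg + f gg ^ 4) + 1) ?_
    (commute_ii (c t).symm (c cg).symm).symm (c t) (commute_ii hu hg).symm hu.symm
    (c (hg.add_right (hg.pow_right _))) hl h1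
  rw [← sub_eq_zero, ← mul_zero (4 * (f gg ^ 4 - f gg ^ 3 + 2 * f gg - 1) : D),
    ← cyc5 f_g5 (f_g1 hf), show (5 : D) = 4 * 1 + 1 by norm_num]
  noncomm_ring

/-- An element normalizing the image of `SL(2,5)` with square in the image lies in the image. -/
theorem mem_range {Γ : Type*} [Group Γ] {ι : Γ →* D} (hι : Function.Injective ι) {φ : S5 →* Γ}
    (e : ι.comp φ = f) {x : Γ} (hx : ∀ y, ∃ y', x * φ y * x⁻¹ = φ y') (h2 : x * x ∈ φ.range) :
    x ∈ φ.range := by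
  have := f_charZero hf
  have ef : ∀ y, ι (φ y) = f y := fun y => DFunLike.congr_fun e y
  have hφ : Function.Injective φ := fun a b k => hf (by rw [← ef, ← ef, k])
  have step : ∀ (n : S5) {x : Γ}, (∀ y, ∃ y', x * φ y * x⁻¹ = φ y') → x * x ∈ φ.range →
      (∀ y, ∃ y', φ n * x * φ y * (φ n * x)⁻¹ = φ y') ∧ φ n * x * (φ n * x) ∈ φ.range :=
    fun n {x} hx h2 => by
      refine ⟨fun y => ?_, ?_⟩
      · obtain ⟨y', k⟩ := hx y
        exact ⟨n * y' * n⁻¹, by rw [map_mul, map_mul, map_inv, ← k]; group⟩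
      · obtain ⟨n', k⟩ := hx n
        rw [show φ n * x * (φ n * x) = φ n * (x * φ n * x⁻¹) * (x * x) by group, k]
        exact mul_mem (mul_mem ⟨n, rfl⟩ ⟨n', rfl⟩) h2
  have back : ∀ (n : S5) {x : Γ}, φ n * x ∈ φ.range → x ∈ φ.range := fun n {x} k =>
    (mul_mem_cancel_left (show φ n ∈ φ.range from ⟨n, rfl⟩)).1 k
  have cz : ∀ x : Γ, x * φ zz * x⁻¹ = φ zz := fun x => hι (by
    rw [map_mul, map_mul, ef, f_zz hf, mul_neg, mul_one, neg_mul, ← map_mul, mul_inv_cancel,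
      map_one])
  have s0 : ∀ {x : Γ}, x * x ∈ φ.range → x * φ gg = φ gg * x → x * φ uu = φ uu * x →
      x ∈ φ.range := fun {x} ⟨w, hw⟩ k1 k2 => by
    have cu : Commute (ι x) (f uu) := by rw [← ef]; exact (show Commute x _ from k2).map ι
    rcases c2 w (hφ (by rw [map_mul, map_mul, hw]; exact (Commute.mul_left k1 k1).eq))
      (hφ (by rw [map_mul, map_mul, hw]; exact (Commute.mul_left k2 k2).eq)) with rfl | rfl
    · rcases mul_self_eq_one_iff.1 (show ι x * ι x = 1 by rw [← map_mul, ← hw, map_one, map_one])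
        with k | k
      · exact ⟨1, hι (by rw [k, map_one, map_one])⟩
      · exact ⟨zz, hι (by rw [k, ef, f_zz hf])⟩
    · rcases cu.mul_self_eq_mul_self_iff.1 (by rw [← map_mul, ← hw, ef, f_zz hf, f_uu hf])
        with k | k
      · exact ⟨uu, hι (by rw [k, ef])⟩
      · exact ⟨zz * uu, hι (by rw [k, ef, map_mul, f_zz hf, neg_one_mul])⟩
  have s1 : ∀ {x : Γ}, (∀ y, ∃ y', x * φ y * x⁻¹ = φ y') → x * x ∈ φ.range →
      x * φ gg = φ gg * x → x ∈ φ.range := fun {x} hx h2 k1 => by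
    obtain ⟨w, hw⟩ := hx uu
    have k1' : x * φ gg * x⁻¹ = φ gg := by rw [k1, mul_inv_cancel_right]
    obtain ⟨m, hm⟩ := c3 w (hφ (by rw [map_mul, ← hw, ← cz x, zz, map_mul]; group))
      (hφ (by rw [map_pow, map_mul, ← hw, ← k1', ← cz x, ← c5.2.2.1, map_pow, map_mul, conj_mul,
        conj_pow]))
    refine back (gg ^ m.1) (s0 (step _ hx h2).2 ?_ ?_)
    · rw [map_pow, mul_assoc, k1, ← mul_assoc, ← mul_assoc, ← pow_succ, pow_succ']
    · rw [← mul_assoc, ← map_mul, ← hm, map_mul, ← hw]; group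
  obtain ⟨y, hy⟩ := hx gg
  obtain ⟨n, k | k⟩ := c4 y (hφ (by rw [map_pow, ← hy, conj_pow, ← map_pow, c5.2.2.2.1]; simp))
    (fun k => c5.2.2.2.2.1 (hφ (by rw [k, map_one] at hy; simpa using hy)))
  · refine back n (s1 (step n hx h2).1 (step n hx h2).2 ?_)
    rw [← mul_assoc, ← map_mul, ← k, map_mul, ← hy]; group
  · obtain ⟨w, hw⟩ := (step n hx h2).2
    have k1 : φ n * x * φ gg = φ gg ^ 2 * (φ n * x) := by
      rw [← mul_assoc, ← map_pow, ← map_mul, ← k, map_mul, ← hy]; group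
    generalize φ n * x = t at hw k1
    have k2 : t * φ gg ^ 2 = φ gg ^ 4 * t := by
      have := (SemiconjBy.pow_right k1 2).eq
      rwa [← pow_mul] at this
    have := c1 w (hφ (by rw [map_mul, map_mul, map_pow, hw, mul_assoc, k1, ← mul_assoc, k2,
      mul_assoc]))
    exact (no_outer f_g5 (f_g1 hf) (x := ι t) (by rw [← ef, ← map_pow, ← map_mul, k1, map_mul])
      (by rw [← map_mul, ← hw, ef, ← map_mul, this, f_zz hf])).elim

end Cfsg.Agent.FG.Amit
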