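import Mathlib
import Cfsg.Agent.FG.BaseMain
import Cfsg.Agent.GT.MinNormal

/-! The average dimension of the fixed-point spaces of the elements of a solvable group on a
non-trivial irreducible module is at most half the dimension (Isaacs, Keller, Meierfrankenfeld,
Moretó), and the version for chief factors. -/

set_option autoImplicit false

namespace Cfsg.Agent.FG.BS

universe u

open scoped commutatorElement

section
variable {G : Type*} {V : Type*} [Group G] [AddCommGroup V] [DistribMulAction G V]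

/-- the fixed points of an element -/
def fixE (V : Type*) [AddCommGroup V] [DistribMulAction G V] (g : G) : AddSubgroup V where
  carrier := {v | g • v = v}
  zero_mem' := smul_zero g
  add_mem' := fun {a b} (ha : g • a = a) (hb : g • b = b) => by
    show g • (a + b) = a + b
    rw [smul_add, ha, hb]
  neg_mem' := fun {a} (ha : g • a = a) => by
    show g • (-a) = -a
    rw [smul_neg, ha]

theorem mem_fixE {g : G} {v : V} : v ∈ fixE V g ↔ g • v = v := Iff.rfl

theorem fact_le {a b : ℕ} (p : ℕ) (hb : b ≠ 0) (h : a ∣ b) : a.factorization p ≤ b.factorization p :=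
  (Nat.factorization_le_iff_dvd (ne_zero_of_dvd_ne_zero hb h) hb).mpr h p

theorem fact_pi {Ω : Type*} [Fintype Ω] (T : Ω → Type*) [∀ ω, Finite (T ω)] [∀ ω, Nonempty (T ω)]
    (p : ℕ) : (Nat.card (∀ ω, T ω)).factorization p = ∑ ω, (Nat.card (T ω)).factorization p := by
  rw [Nat.card_pi, Nat.factorization_prod fun _ _ => Nat.card_pos.ne', Finsupp.finsetSum_apply]

variable {Ω : Type*} [Fintype Ω] [MulAction G Ω] {W : Ω → AddSubgroup V}

/-- the sum map from the product of the blocks -/
def sumHom (W : Ω → AddSubgroup V) : (∀ ω, W ω) →+ V where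
  toFun w := ∑ ω, (w ω : V)
  map_zero' := by simp
  map_add' a b := by simp [Finset.sum_add_distrib]

theorem Imprim.sumHom_bij (h : Imprim G W) : Function.Bijective (sumHom W) :=
  ⟨fun a b e => funext fun ω => Subtype.ext (h.indep.eq (fun i => (a i).2) (fun i => (b i).2) e ω),
    fun v => let ⟨w, hw, e⟩ := h.span v; ⟨fun ω => ⟨w ω, hw ω⟩, e⟩⟩

theorem Imprim.fix_le [DecidableEq Ω] [Finite V] (h : Imprim G W) (g : G) (r : Ω → ℤ) (hr : Function.Injective r)
    (p : ℕ) : (Nat.card (fixE V g)).factorization p ≤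
      ∑ ω, if g • ω = ω then (Nat.card (fixE V g ⊓ W ω : AddSubgroup V)).factorization p
        else if r ω < r (g • ω) then (Nat.card (W ω)).factorization p else 0 := by
  let ψ := (AddEquiv.ofBijective _ h.sumHom_bij).symm
  have hψ : ∀ v, ∑ ω, (ψ v ω : V) = v := fun v =>
    (AddEquiv.ofBijective _ h.sumHom_bij).apply_symm_apply v
  have hc : ∀ v ∈ fixE V g, ∀ ω, g • (ψ v ω : V) = ψ v (g • ω) := fun v hv =>
    h.comp g (fun ω => (ψ v ω).2) (fun ω => (ψ v ω).2) (by rw [hψ]; exact hv)
  let T : Ω → AddSubgroup V := fun ω =>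
    if g • ω = ω then fixE V g ⊓ W ω else if r ω < r (g • ω) then W ω else ⊥
  let φ : fixE V g →+ ∀ ω, T ω :=
    { toFun := fun v ω => ⟨if g • ω = ω ∨ r ω < r (g • ω) then ψ v ω else 0, by
        simp only [T]
        by_cases h1 : g • ω = ω
        · rw [if_pos h1, if_pos (Or.inl h1)]
          exact ⟨by have := hc v v.2 ω; rwa [h1] at this, (ψ v ω).2⟩
        · by_cases h2 : r ω < r (g • ω)
          · rw [if_neg h1, if_pos h2, if_pos (Or.inr h2)]; exact (ψ v ω).2
          · rw [if_neg h1, if_neg h2, if_neg (by tauto)]; exact AddSubgroup.zero_mem _⟩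
      map_zero' := by ext ω; simp
      map_add' := fun a b => by
        ext ω
        simp only [AddSubgroup.coe_add, map_add, Pi.add_apply]
        split_ifs <;> simp }
  have hφ : Function.Injective φ := by
    rw [injective_iff_map_eq_zero]
    intro v hv
    have h0 : ∀ ω, (g • ω = ω ∨ r ω < r (g • ω)) → (ψ v ω : V) = 0 := fun ω hω => by
      have := congrArg Subtype.val (congrFun hv ω)
      simpa [φ, hω] using this
    by_contra hne
    obtain ⟨ω, hω, hmin⟩ := Set.exists_min_image {ω | (ψ v ω : V) ≠ 0} r (Set.toFinite _) (by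
      by_contra hc'
      rw [Set.not_nonempty_iff_eq_empty, Set.eq_empty_iff_forall_notMem] at hc'
      exact hne (Subtype.ext (by
        rw [← hψ v]; exact Finset.sum_eq_zero fun ω _ => not_not.mp (hc' ω))))
    have h1 := hmin (g • ω) (fun e => hω ((smul_eq_zero_iff_eq g).mp ((hc v v.2 ω).trans e)))
    exact hω (h0 ω (h1.eq_or_lt.imp_left fun e => (hr e).symm))
  refine (fact_le p Nat.card_pos.ne' (AddSubgroup.card_dvd_of_injective φ hφ)).trans ?_
  rw [fact_pi]
  refine Finset.sum_le_sum fun ω _ => ?_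
  simp only [T]
  split_ifs <;> simp

theorem Imprim.two_fix_le [DecidableEq Ω] [Finite V] (h : Imprim G W) (g : G) (p : ℕ) :
    2 * (Nat.card (fixE V g)).factorization p ≤
      ∑ ω, if g • ω = ω then 2 * (Nat.card (fixE V g ⊓ W ω : AddSubgroup V)).factorization p
        else (Nat.card (W ω)).factorization p := by
  let r : Ω → ℤ := fun ω => ((Fintype.equivFin Ω ω : ℕ) : ℤ)
  have hr : Function.Injective r := fun a b e =>
    (Fintype.equivFin Ω).injective (Fin.ext (Nat.cast_injective (R := ℤ) e))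
  have h1 := h.fix_le g r hr p
  have h2 := h.fix_le g (fun ω => -r ω) (neg_injective.comp hr) p
  rw [two_mul]
  refine (add_le_add h1 h2).trans ?_
  rw [← Finset.sum_add_distrib]
  refine Finset.sum_le_sum fun ω _ => ?_
  split_ifs <;> omega

end

theorem avg_of_surj {G H V : Type*} [Group G] [Group H] [AddCommGroup V] [DistribMulAction G V]
    [DistribMulAction H V] [Fintype G] [Fintype H] (π : G →* H) (hπ : Function.Surjective π)
    (hs : ∀ g (v : V), π g • v = g • v) (p m : ℕ)
    (h : 2 * ∑ g : H, (Nat.card (fixE V g)).factorization p ≤ Nat.card H * m) :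
    2 * ∑ g : G, (Nat.card (fixE V g)).factorization p ≤ Nat.card G * m := by
  classical
  have e1 : ∑ g : G, (Nat.card (fixE V g)).factorization p =
      Nat.card π.ker * ∑ g : H, (Nat.card (fixE V g)).factorization p := by
    rw [← Finset.sum_fiberwise (g := π), Finset.mul_sum]
    refine Finset.sum_congr rfl fun x _ => ?_
    rw [Finset.sum_congr rfl (g := fun _ => (Nat.card (fixE V x)).factorization p) fun g hg => by
      rw [← (Finset.mem_filter.mp hg).2,
        show fixE V (π g) = fixE V g from AddSubgroup.ext fun v => by rw [mem_fixE, hs]; rfl],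
      Finset.sum_const, smul_eq_mul, MonoidHom.card_fiber_eq_of_mem_range π (hπ x) (hπ 1),
      Nat.card_eq_fintype_card (α := π.ker), Fintype.card_subtype]
    congr!
  have e2 : Nat.card G = Nat.card π.ker * Nat.card H := by
    rw [← π.ker.card_mul_index, Subgroup.index_ker, MonoidHom.range_eq_top.mpr hπ,
      Subgroup.card_top]
  rw [e1, e2, mul_left_comm, mul_assoc]
  exact Nat.mul_le_mul_left _ h

theorem avg_step {G V : Type*} [Group G] [AddCommGroup V] [DistribMulAction G V]
    [Fintype G] [Finite V] [Group.IsSolvable G] [FaithfulSMul G V] (p : ℕ) (hirr : Irr G V)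
    (hnt : ∃ (g : G) (v : V), g • v ≠ v)
    (ih : ∀ (H : Subgroup G) [Fintype H] (W : AddSubgroup V) (hW : ∀ h ∈ H, ∀ v ∈ W, h • v ∈ W),
      Nat.card W < Nat.card V → @Irr H W _ _ (subAct H W hW) → (∃ h ∈ H, ∃ v ∈ W, h • v ≠ v) →
      2 * ∑ g : H, (Nat.card (@fixE H _ W _ (subAct H W hW) g)).factorization p ≤
        Nat.card H * (Nat.card W).factorization p) :
    2 * ∑ g : G, (Nat.card (fixE V g)).factorization p ≤
      Nat.card G * (Nat.card V).factorization p := by
  classical
  obtain ⟨g0, v0, hg0⟩ := hnt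
  have hV : Nontrivial V := ⟨_, _, hg0⟩
  obtain ⟨U, hUn, hUc, hmax⟩ := exists_max_abelian (G := G)
  rcases fpf_or_imprim hirr U hUc with hf | ⟨M, _, W, hM, hW, hW0⟩
  · obtain ⟨u, hu, hu1⟩ : ∃ u ∈ U, u ≠ 1 := by
      by_contra hc
      push Not at hc
      obtain ⟨X, hX, ⟨hXn, hXb⟩, hmin⟩ := GT.exists_minimal_le
        (P := fun K : Subgroup G => K.Normal ∧ K ≠ ⊥) (H := ⊤) ⟨inferInstance, fun h => hg0 (by
          rw [Subgroup.mem_bot.mp (h ▸ Subgroup.mem_top g0 : g0 ∈ (⊥ : Subgroup G)), one_smul])⟩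
      have h1 : ⁅X, X⁆ = ⊥ := by
        by_contra h1
        exact (GT.commutator_lt_of_isSolvable hXb).ne
          (hmin _ ⟨inferInstance, h1⟩ X.commutator_le_self)
      refine hXb (eq_bot_iff.mpr fun x hx => hc x (hmax X hXn (fun a ha b hb => ?_)
        (fun y hy => hc y hy ▸ X.one_mem) hx))
      exact commutatorElement_eq_one_iff_mul_comm.mp
        (Subgroup.mem_bot.mp (h1 ▸ Subgroup.commutator_mem_commutator ha hb))
    have h1 : ∀ g : G, (Nat.card (fixE V g)).factorization p +
        (Nat.card (fixE V (g * u))).factorization p ≤ (Nat.card V).factorization p := fun g => by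
      rw [← Finsupp.add_apply, ← Nat.factorization_mul Nat.card_pos.ne' Nat.card_pos.ne',
        ← Nat.card_prod]
      refine fact_le p Nat.card_pos.ne' (AddSubgroup.card_dvd_of_injective
        ((fixE V g).subtype.coprod (fixE V (g * u)).subtype) ?_)
      rw [injective_iff_map_eq_zero]
      rintro ⟨a, b⟩ hab
      have e : (a : V) = -b := eq_neg_of_add_eq_zero_left hab
      have hb : (b : V) = 0 := hf u hu hu1 b (MulAction.injective g (by
        have h2 : g • (-b : V) = -b := e ▸ a.2
        show g • u • (b : V) = g • (b : V)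
        rw [← mul_smul, b.2, ← neg_inj, ← smul_neg, h2]))
      exact Prod.ext (Subtype.ext (by rw [e, hb, neg_zero]; rfl)) (Subtype.ext hb)
    have h2 := Finset.sum_le_sum fun g (_ : g ∈ Finset.univ) => h1 g
    rw [Finset.sum_add_distrib, Finset.sum_const, Finset.card_univ,
      ← Nat.card_eq_fintype_card, smul_eq_mul] at h2
    have h3 := Equiv.sum_comp (Equiv.mulRight u) (fun g => (Nat.card (fixE V g)).factorization p)
    simp only [Equiv.coe_mulRight] at h3
    omega
  · have : Nontrivial (G ⧸ M) := QuotientGroup.nontrivial_iff.mpr hM.1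
    have hne : ∀ ω, W ω ≠ ⊥ := fun ω h => hW0 (eq_bot_iff.mpr fun x hx => by
      obtain ⟨g, hg⟩ := hW.trans ((1 : G) : G ⧸ M) ω
      have := hW.equiv g _ x hx
      rw [hg, h, AddSubgroup.mem_bot, smul_eq_zero_iff_eq] at this
      exact this)
    have hmove : ∀ ω, ∃ h ∈ MulAction.stabilizer G ω, ∃ v ∈ W ω, h • v ≠ v := by
      intro ω0
      by_contra hc
      push Not at hc
      obtain ⟨x, hx, hx0⟩ := (AddSubgroup.bot_or_exists_ne_zero _).resolve_left (hne ω0)
      choose s hs using hW.trans ω0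
      have hmem : ∀ ω, s ω • x ∈ W ω := fun ω => by
        have := hW.equiv (s ω) ω0 _ hx; rwa [hs] at this
      have hfix : ∀ g : G, g • ∑ ω, s ω • x = ∑ ω, s ω • x := fun g => by
        rw [Finset.smul_sum]
        refine Fintype.sum_equiv (MulAction.toPerm g) _ _ fun ω => ?_
        have := hc ((s (g • ω))⁻¹ * g * s ω) (by
          rw [MulAction.mem_stabilizer_iff, mul_smul, mul_smul, hs, inv_smul_eq_iff, hs]) x hx
        rw [mul_smul, mul_smul, inv_smul_eq_iff] at this
        exact this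
      rcases hirr (fixS V (⊤ : Subgroup G)) (fun g v hv => by rw [hv g trivial]; exact hv) with h | h
      · have h0 : ∑ ω, s ω • x = 0 := AddSubgroup.mem_bot.mp (h ▸ fun g _ => hfix g)
        exact hx0 ((smul_eq_zero_iff_eq _).mp (hW.indep _ hmem h0 ω0))
      · exact hg0 ((h ▸ AddSubgroup.mem_top v0 : v0 ∈ fixS V (⊤ : Subgroup G)) g0 trivial)
    have h1 := Finset.sum_le_sum fun g (_ : g ∈ Finset.univ) => hW.two_fix_le g p
    rw [← Finset.mul_sum, Finset.sum_comm] at h1
    refine h1.trans ?_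
    rw [← Nat.card_congr (Equiv.ofBijective _ hW.sumHom_bij), fact_pi, Finset.mul_sum]
    refine Finset.sum_le_sum fun ω _ => ?_
    have h2 := ih _ (W ω) (hW.stab_inv ω) (hW.card_block_lt ω (hne ω)) (hW.irr_block hirr ω) (hmove ω)
    rw [Finset.sum_ite, Finset.sum_const, smul_eq_mul, ← Finset.mul_sum,
      Finset.sum_subtype (p := fun g => g ∈ MulAction.stabilizer G ω) _ (by simp)]
    have h3 : ∀ g : MulAction.stabilizer G ω, Nat.card (fixE V (g : G) ⊓ W ω : AddSubgroup V) =
        Nat.card (@fixE _ _ (W ω) _ (subAct _ (W ω) (hW.stab_inv ω)) g) := fun g => Nat.card_congr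
      { toFun := fun v => ⟨⟨v, v.2.2⟩, Subtype.ext v.2.1⟩
        invFun := fun v => ⟨v.1, congrArg Subtype.val v.2, v.1.2⟩
        left_inv := fun _ => rfl
        right_inv := fun _ => rfl }
    simp only [h3]
    have h4 : Nat.card (MulAction.stabilizer G ω) +
        (Finset.univ.filter fun g : G => ¬ g • ω = ω).card = Nat.card G := by
      rw [Nat.card_eq_fintype_card, Fintype.card_subtype, Nat.card_eq_fintype_card]
      exact Finset.card_filter_add_card_filter_not _
    rw [← h4, add_mul]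
    exact Nat.add_le_add_right h2 _

theorem avg_fix_aux (p n : ℕ) : ∀ (G V : Type u) [Group G] [AddCommGroup V] [DistribMulAction G V]
    [Fintype G] [Finite V] [Group.IsSolvable G], Nat.card V = n → Irr G V →
    (∃ (g : G) (v : V), g • v ≠ v) →
    2 * ∑ g : G, (Nat.card (fixE V g)).factorization p ≤
      Nat.card G * (Nat.card V).factorization p := by
  induction n using Nat.strong_induction_on with
  | _ n ih =>
  intro G V _ _ _ _ _ _ hn hirr ⟨g0, v0, hg0⟩
  have := solvable_im (G := G) (V := V)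
  let _ := Fintype.ofFinite (Im G V)
  refine avg_of_surj (toIm G V) toIm_surj toIm_smul p _ (avg_step p hirr.im
    ⟨toIm G V g0, v0, hg0⟩ fun H _ W hW hlt hI ⟨h, hh, v, hv, hne⟩ => ?_)
  exact @ih _ (hn ▸ hlt) H W _ _ (subAct H W hW) _ _ _ rfl hI
    ⟨⟨h, hh⟩, ⟨v, hv⟩, fun e => hne (congrArg Subtype.val e)⟩

/-- the average dimension of the fixed-point space is at most one half -/
theorem avg_fix {G V : Type*} [Group G] [AddCommGroup V] [DistribMulAction G V]
    [Fintype G] [Finite V] [Group.IsSolvable G] (p : ℕ) (hirr : Irr G V)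
    (hnt : ∃ (g : G) (v : V), g • v ≠ v) :
    2 * ∑ g : G, (Nat.card (fixE V g)).factorization p ≤
      Nat.card G * (Nat.card V).factorization p := by
  obtain ⟨g0, v0, hg0⟩ := hnt
  have := solvable_im (G := G) (V := V)
  let _ := Fintype.ofFinite (Im G V)
  exact avg_of_surj (toIm G V) toIm_surj toIm_smul p _
    (avg_fix_aux p _ _ _ rfl hirr.im ⟨toIm G V g0, v0, hg0⟩)

section chief
variable {G : Type*} [Group G]

theorem rel_ne [Finite G] (H K : Subgroup G) : H.relIndex K ≠ 0 := Subgroup.index_ne_zero_of_finite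

/-- the elements of `K` centralised by `g` modulo `L` -/
def cmod (K L : Subgroup G) [L.Normal] (g : G) : Subgroup G :=
  K ⊓ (Subgroup.centralizer {(g : G ⧸ L)}).comap (QuotientGroup.mk' L)

theorem mem_cmod {K L : Subgroup G} [L.Normal] {g k : G} :
    k ∈ cmod K L g ↔ k ∈ K ∧ ((g * k * g⁻¹ : G) : G ⧸ L) = k := by
  simp [cmod, Subgroup.mem_centralizer_iff, mul_inv_eq_iff_eq_mul]

theorem chief_avg [Fintype G] [Group.IsSolvable G] {K L : Subgroup G} [K.Normal] [L.Normal]
    (hLK : L ≤ K) (hchief : ∀ M : Subgroup G, M.Normal → L ≤ M → M ≤ K → M = L ∨ M = K)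
    (hab : ⁅K, K⁆ ≤ L) (hnc : ∃ g : G, cmod K L g ≠ K) (p : ℕ) :
    Nat.card G * (L.relIndex K).factorization p ≤
      2 * ∑ g : G, ((cmod K L g).relIndex K).factorization p := by
  let π := QuotientGroup.mk' L
  let B : Subgroup (G ⧸ L) := K.map π
  have hB : B.Normal := Subgroup.Normal.map inferInstance π (QuotientGroup.mk'_surjective L)
  let _ : CommGroup B := { (inferInstance : Group B) with
    mul_comm := by
      rintro ⟨_, a, ha, rfl⟩ ⟨_, b, hb, rfl⟩
      refine Subtype.ext (commutatorElement_eq_one_iff_mul_comm.mp ?_)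
      exact (QuotientGroup.eq_one_iff ⁅a, b⁆).mpr (hab (Subgroup.commutator_mem_commutator ha hb)) }
  let _ : DistribMulAction G (Additive B) :=
    { smul := fun g x => Additive.ofMul (MulAut.conjNormal (π g) x.toMul)
      one_smul := fun x => congrArg Additive.ofMul (by simp; rfl)
      mul_smul := fun a b x => congrArg Additive.ofMul (by simp; rfl)
      smul_zero := fun a => map_one (MulAut.conjNormal (π a))
      smul_add := fun a x y => map_mul (MulAut.conjNormal (π a)) _ _ }
  have hs : ∀ (g k : G) (hk : k ∈ K), g • Additive.ofMul (⟨π k, k, hk, rfl⟩ : B) =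
      Additive.ofMul (⟨π (g * k * g⁻¹), _, Subgroup.Normal.conj_mem inferInstance k hk g, rfl⟩ : B) :=
    fun g k hk => congrArg Additive.ofMul (Subtype.ext (by simp))
  have hker : ∀ X : Subgroup G, L.relIndex X = Nat.card (X.map π) := fun X => by
    rw [← Subgroup.relIndex_ker, QuotientGroup.ker_mk']
  have h1 := avg_fix (G := G) (V := Additive B) p (fun U hU => by
    let M : Subgroup G := ((AddSubgroup.toSubgroup' U).map B.subtype).comap π
    have hM : ∀ k, k ∈ M ↔ ∃ hk : k ∈ K, Additive.ofMul (⟨π k, k, hk, rfl⟩ : B) ∈ U := fun k => by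
      constructor
      · rintro ⟨⟨_, a, ha, rfl⟩, hx, e⟩
        have hk : k ∈ K := by
          have := hLK (QuotientGroup.eq.mp e)
          simpa using K.mul_mem ha this
        have e' : (⟨π k, k, hk, rfl⟩ : B) = ⟨π a, a, ha, rfl⟩ := Subtype.ext e.symm
        exact ⟨hk, e' ▸ hx⟩
      · rintro ⟨hk, h⟩
        exact ⟨_, h, rfl⟩
    rcases hchief M ⟨fun k hk g => by
        obtain ⟨h1, h2⟩ := (hM k).mp hk
        have h3 := hU g _ h2
        rw [hs g k h1] at h3
        exact (hM _).mpr ⟨Subgroup.Normal.conj_mem inferInstance k h1 g, h3⟩⟩ (fun k hk => (hM k).mpr ⟨hLK hk, by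
          convert U.zero_mem
          exact Subtype.ext ((QuotientGroup.eq_one_iff k).mpr hk)⟩)
      (fun k hk => ((hM k).mp hk).1) with h | h
    · left
      rw [eq_bot_iff]
      rintro ⟨_, k, hk, rfl⟩ hx
      exact Subtype.ext ((QuotientGroup.eq_one_iff k).mpr (h ▸ (hM k).mpr ⟨hk, hx⟩))
    · right
      rw [eq_top_iff]
      rintro ⟨_, k, hk, rfl⟩ -
      exact ((hM k).mp (h ▸ hk)).2) (by
    obtain ⟨g, hg⟩ := hnc
    obtain ⟨k, hk, hk'⟩ := SetLike.exists_of_lt (lt_of_le_of_ne (inf_le_left : cmod K L g ≤ K) hg)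
    exact ⟨g, Additive.ofMul ⟨π k, k, hk, rfl⟩, fun e => hk' (mem_cmod.mpr
      ⟨hk, congrArg Subtype.val ((hs g k hk).symm.trans e)⟩)⟩)
  have h2 : Nat.card (Additive B) = L.relIndex K := (hker K).symm
  have hLc : ∀ g, L ≤ cmod K L g := fun g k hk => mem_cmod.mpr ⟨hLK hk, by
    rw [(QuotientGroup.eq_one_iff k).mpr hk, QuotientGroup.eq_one_iff]
    exact Subgroup.Normal.conj_mem inferInstance k hk g⟩
  have h3 : ∀ g : G, Nat.card (fixE (Additive B) g) = L.relIndex (cmod K L g) := fun g => by
    rw [hker]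
    refine Nat.card_congr (Equiv.ofBijective (fun v => ⟨v.1.toMul.1, ?_⟩) ⟨?_, ?_⟩)
    · obtain ⟨⟨_, k, hk, rfl⟩, hv⟩ := v
      exact ⟨k, mem_cmod.mpr ⟨hk, congrArg Subtype.val ((hs g k hk).symm.trans hv)⟩, rfl⟩
    · intro a b e
      have e0 := congrArg Subtype.val e
      have e' : a.1.toMul = b.1.toMul := Subtype.ext e0
      exact Subtype.ext e'
    · rintro ⟨_, k, hk, rfl⟩
      have hk' := mem_cmod.mp hk
      exact ⟨⟨Additive.ofMul ⟨π k, k, hk'.1, rfl⟩, (hs g k hk'.1).trans (Subtype.ext hk'.2)⟩, rfl⟩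
  have h4 : ∀ g : G, (L.relIndex (cmod K L g)).factorization p +
      ((cmod K L g).relIndex K).factorization p = (L.relIndex K).factorization p := fun g => by
    rw [← Finsupp.add_apply, ← Nat.factorization_mul (rel_ne _ _) (rel_ne _ _)]
    exact congrArg (fun n : ℕ => n.factorization p)
      (Subgroup.relIndex_mul_relIndex _ _ _ (hLc g) inf_le_left)
  have h5 := Finset.sum_congr rfl fun g (_ : g ∈ Finset.univ) => h4 g
  rw [Finset.sum_add_distrib, Finset.sum_const, Finset.card_univ, ← Nat.card_eq_fintype_card,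
    smul_eq_mul] at h5
  simp only [h2, h3] at h1
  omega

theorem cent_step [Finite G] {K L : Subgroup G} [L.Normal] (hLK : L ≤ K) (g : G) (p : ℕ) :
    ((Subgroup.centralizer {g}).relIndex L).factorization p +
      ((cmod K L g).relIndex K).factorization p ≤
      ((Subgroup.centralizer {g}).relIndex K).factorization p := by
  set C := Subgroup.centralizer {g}
  have hLc : L ≤ cmod K L g := fun k hk => mem_cmod.mpr ⟨hLK hk, by
    rw [(QuotientGroup.eq_one_iff k).mpr hk, QuotientGroup.eq_one_iff]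
    exact Subgroup.Normal.conj_mem inferInstance k hk g⟩
  have hC : C ⊓ K ≤ cmod K L g := fun k hk => mem_cmod.mpr ⟨hk.2, by
    rw [Subgroup.mem_centralizer_singleton_iff.mp hk.1 |>.symm, mul_inv_cancel_right]⟩
  have e1 := Subgroup.relIndex_inf_mul_relIndex C L K
  have e2 := Subgroup.relIndex_inf_mul_relIndex L C K
  have e3 := Subgroup.relIndex_mul_relIndex _ _ _ hLc (inf_le_left : cmod K L g ≤ K)
  have e4 := Subgroup.relIndex_mul_relIndex L (C ⊓ K ⊔ L) _ le_sup_right (sup_le hC hLc)
  rw [Subgroup.relIndex_sup_right] at e4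
  rw [inf_eq_left.mpr hLK, inf_comm, ← e2, ← e3, ← e4] at e1
  have h0 : L.relIndex (C ⊓ K) ≠ 0 := Subgroup.index_ne_zero_of_finite
  rw [← Finsupp.add_apply, ← Nat.factorization_mul (rel_ne _ _) (rel_ne _ _)]
  refine fact_le p (rel_ne _ _) ⟨(C ⊓ K ⊔ L).relIndex (cmod K L g), ?_⟩
  refine mul_left_cancel₀ h0 ?_
  rw [← e1]
  ring

theorem exists_noncentral [Finite G] {K L : Subgroup G} [L.Normal] (hLK : L ≤ K)
    (hchief : ∀ M : Subgroup G, M.Normal → L ≤ M → M ≤ K → M = L ∨ M = K) {p : ℕ} (hp : p.Prime)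
    (h : p ^ 2 ∣ L.relIndex K) : ∃ g : G, cmod K L g ≠ K := by
  by_contra hc
  push Not at hc
  let π := QuotientGroup.mk' L
  have hker : ∀ X : Subgroup G, L.relIndex X = Nat.card (X.map π) := fun X => by
    rw [← Subgroup.relIndex_ker, QuotientGroup.ker_mk']
  have := Fact.mk hp
  rw [hker] at h
  obtain ⟨⟨_, k, hk, rfl⟩, hx⟩ := exists_prime_orderOf_dvd_card' p ((dvd_pow_self p two_ne_zero).trans h)
  replace hx : orderOf (π k) = p := (Subgroup.orderOf_coe _).trans hx
  have hle : Subgroup.zpowers (π k) ≤ K.map π := Subgroup.zpowers_le.mpr ⟨k, hk, rfl⟩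
  have hK : (K.map π).comap π = K := by
    rw [Subgroup.comap_map_eq, QuotientGroup.ker_mk', sup_eq_left.mpr hLK]
  have hMK : (Subgroup.zpowers (π k)).comap π ≤ K := hK ▸ Subgroup.comap_mono hle
  rcases hchief ((Subgroup.zpowers (π k)).comap π) ⟨fun x hx g => by
      have := (mem_cmod.mp ((hc g).symm ▸ hMK hx : x ∈ cmod K L g)).2
      show ((g * x * g⁻¹ : G) : G ⧸ L) ∈ Subgroup.zpowers (π k)
      rw [this]; exact hx⟩ (fun x hx => by
      show π x ∈ Subgroup.zpowers (π k)
      rw [show π x = 1 from (QuotientGroup.eq_one_iff x).mpr hx]; exact Subgroup.one_mem _) hMK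
    with h1 | h1
  · have : k ∈ L := h1 ▸ Subgroup.mem_zpowers (π k)
    rw [show π k = 1 from (QuotientGroup.eq_one_iff k).mpr this, orderOf_one] at hx
    exact hp.one_lt.ne hx
  · rw [← h1, Subgroup.map_comap_eq_self_of_surjective (QuotientGroup.mk'_surjective L),
      Nat.card_zpowers, hx] at h
    exact absurd (Nat.le_of_dvd hp.pos h) (by nlinarith [hp.one_lt])

theorem cmod_mul {K L : Subgroup G} [L.Normal] (g : G) {c : G} (hc : cmod K L c = K) :
    cmod K L (g * c) = cmod K L g := by
  ext k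
  rw [mem_cmod, mem_cmod]
  refine and_congr_right fun hk => ?_
  have := (mem_cmod.mp (hc.symm ▸ hk : k ∈ cmod K L c)).2
  simp only [QuotientGroup.mk_mul, QuotientGroup.mk_inv, mul_inv_rev] at this ⊢
  rw [show (g : G ⧸ L) * c * k * ((c : G ⧸ L)⁻¹ * (g : G ⧸ L)⁻¹) =
    g * (c * k * (c : G ⧸ L)⁻¹) * (g : G ⧸ L)⁻¹ by group, this]

end chief

end Cfsg.Agent.FG.BS
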