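import Mathlib
import Cfsg.Agent.GT.CoprimeActThms
import Cfsg.Agent.GT.PGroupSymplectic
import Cfsg.Agent.GT.Conj
import Cfsg.Agent.GT.MinNormal

/-!
# Fixed point spaces of a class in a normal `p`-subgroup do not cover a module (`p` odd)

`exists_not_fixed`: if `G` acts on the abelian `p'`-group `V`, `p` odd, and `a ∈ P ⊴ G` with `P` a
`p`-group acts nontrivially, then some vector is fixed by no conjugate of `a`.
-/

set_option autoImplicit false
set_option linter.unusedSectionVars false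

namespace Cfsg.Agent.FG.CF

open Subgroup Cfsg.Agent.GT Cfsg.Agent.GT.CopAct
open scoped commutatorElement

local notation:75 H " ^ᶜ " g:76 => Subgroup.map (MulEquiv.toMonoidHom (MulAut.conj g)) H

universe u

section Om

variable {G V : Type*} [Group G] [CommGroup V]

/-- `v` is fixed by `H`. -/
def Fx (φ : G →* MulAut V) (H : Subgroup G) (v : V) : Prop := ∀ h ∈ H, φ h v = v

theorem Fx.conj {φ : G →* MulAut V} {H : Subgroup G} {v : V} (h : Fx φ H v) (g : G) :
    Fx φ (H ^ᶜ g) (φ g v) := by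
  rintro _ ⟨x, hx, rfl⟩
  change φ (g * x * g⁻¹) (φ g v) = _
  rw [← MulAut.mul_apply, ← map_mul, inv_mul_cancel_right, map_mul, MulAut.mul_apply, h x hx]

theorem Fx.sup {φ : G →* MulAut V} {H K : Subgroup G} {v : V} (h : Fx φ H v) (k : Fx φ K v) :
    Fx φ (H ⊔ K) v :=
  (sup_le h k : H ⊔ K ≤ (MulAction.stabilizer (MulAut V) v).comap φ)

theorem Fx.of_apply {φ : G →* MulAut V} {x : G} {v : V} (h : φ x v = v) : Fx φ (zpowers x) v :=
  (zpowers_le.2 h : zpowers x ≤ (MulAction.stabilizer (MulAut V) v).comap φ)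

/-- The hyperplanes of `B` with nontrivial fixed points. -/
def Om (φ : G →* MulAut V) (p : ℕ) (B : Subgroup G) : Type _ :=
  {H : Subgroup G // H ≤ B ∧ H.relIndex B = p ∧ ∃ v ≠ 1, Fx φ H v}

instance omFinite [Finite G] (φ : G →* MulAut V) (p : ℕ) (B : Subgroup G) : Finite (Om φ p B) :=
  Subtype.finite

instance omAct (φ : G →* MulAut V) (p : ℕ) (B : Subgroup G) [B.Normal] :
    MulAction G (Om φ p B) where
  smul g H := ⟨H.1 ^ᶜ g, map_conj_le_of_normal H.2.1 g, by
    have := relIndex_map_conj H.1 B g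
    rwa [map_conj_eq_of_normal B g, H.2.2.1] at this, by
    obtain ⟨v, h1, h2⟩ := H.2.2.2
    exact ⟨_, (map_ne_one_iff _ (φ g).injective).2 h1, h2.conj g⟩⟩
  one_smul H := Subtype.ext (map_conj_one _)
  mul_smul g h H := Subtype.ext (map_conj_mul _ g h)

/-- The standing hypotheses. -/
structure Set (φ : G →* MulAut V) (p : ℕ) (B : Subgroup G) : Prop where
  prime : p.Prime
  elem : IsElementaryAbelian p B
  cop : ¬ p ∣ Nat.card V
  fix : ∀ v, Fx φ B v → v = 1

variable {φ : G →* MulAut V} {p : ℕ} {B : Subgroup G} [Finite G]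

theorem Set.sup_eq (h : Set φ p B) (H : Om φ p B) {K : Subgroup G} (hK : K ≤ B) (hn : ¬ K ≤ H.1) :
    H.1 ⊔ K = B := by
  have h1 := relIndex_mul_relIndex H.1 (H.1 ⊔ K) B le_sup_left (sup_le H.2.1 hK)
  rw [H.2.2.1] at h1
  rcases (Nat.dvd_prime h.prime).1 (Dvd.intro _ h1) with h2 | h2
  · exact absurd (le_sup_right.trans (relIndex_eq_one.1 h2)) hn
  · rw [h2] at h1
    exact le_antisymm (sup_le H.2.1 hK)
      (relIndex_eq_one.1 (Nat.eq_of_mul_eq_mul_left h.prime.pos (h1.trans (mul_one p).symm)))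

theorem Set.eq_one (h : Set φ p B) {H K : Om φ p B} (hne : H ≠ K) {v : V} (h1 : Fx φ H.1 v)
    (h2 : Fx φ K.1 v) : v = 1 := by
  refine h.fix v (h.sup_eq H K.2.1 (fun hle => hne (Subtype.ext ?_)) ▸ h1.sup h2)
  have h3 := relIndex_mul_relIndex K.1 H.1 B hle H.2.1
  rw [H.2.2.1, K.2.2.1] at h3
  exact le_antisymm (relIndex_eq_one.1 (Nat.eq_of_mul_eq_mul_right h.prime.pos
    (h3.trans (one_mul p).symm))) hle

theorem Set.mem (h : Set φ p B) (H : Om φ p B) {x : G} (hx : x ∈ B) {v : V} (hv : v ≠ 1)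
    (h1 : Fx φ H.1 v) (h2 : φ x v = v) : x ∈ H.1 := by
  by_contra hn
  exact hv (h.fix v (h.sup_eq H (zpowers_le.2 hx) (fun e => hn (zpowers_le.1 e)) ▸
    h1.sup (Fx.of_apply h2)))

theorem Set.smul_eq [B.Normal] (h : Set φ p B) (H : Om φ p B) {x : G} (hx : x ∈ B) : x • H = H :=
  Subtype.ext (map_conj_eq_of_mem_norm (GT.le_normalizer_of_le_centralizer
    (h.elem.le_centralizer.trans (GT.centralizer_anti H.2.1)) hx))

variable [Finite V]

theorem Set.cop' (h : Set φ p B) {H : Subgroup G} (hH : H ≤ B) :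
    (Nat.card H).Coprime (Nat.card V) := by
  have := Fact.mk h.prime
  obtain ⟨k, hk⟩ := (h.elem.mono hH).card_eq_pow
  exact hk ▸ (h.prime.coprime_iff_not_dvd.2 h.cop).pow_left k

theorem Set.indep (h : Set φ p B) [Fintype (Om φ p B)] {w w' : Om φ p B → V}
    (h1 : ∀ H, Fx φ H.1 (w H)) (h2 : ∀ H, Fx φ H.1 (w' H)) (e : ∏ H, w H = ∏ H, w' H) : w = w' := by
  classical
  funext K
  have := Fintype.ofFinite K.1
  have key : ∀ u : Om φ p B → V, (∀ H, Fx φ H.1 (u H)) →
      ∏ k : K.1, φ k (∏ H, u H) = u K ^ Nat.card K.1 := fun u hu => by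
    simp only [map_prod]
    rw [Finset.prod_comm, Finset.prod_eq_single K (fun H _ hne => ?_) (by simp)]
    · simp [fun k : K.1 => hu K k k.2]
    refine h.eq_one hne (fun x hx => ?_) fun x hx => ?_
    · rw [map_prod]
      refine Finset.prod_congr rfl fun k _ => ?_
      rw [← MulAut.mul_apply, ← map_mul, h.elem.comm (H.2.1 hx) (K.2.1 k.2), map_mul,
        MulAut.mul_apply, hu H x hx]
    · rw [map_prod, ← Equiv.prod_comp (Equiv.mulLeft (⟨x, hx⟩ : K.1))
        fun k : K.1 => φ k (u H)]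
      exact Finset.prod_congr rfl fun k _ => by simp
  have h3 := (key w h1).symm.trans (e ▸ key w' h2)
  exact (h.cop' K.2.1).symm.pow_left_bijective.1 h3

theorem Set.apply_eq [B.Normal] (h : Set φ p B) [Fintype (Om φ p B)] {w : Om φ p B → V}
    (h1 : ∀ H, Fx φ H.1 (w H)) {x : G} (e : φ x (∏ H, w H) = ∏ H, w H) (H : Om φ p B) :
    φ x (w H) = w (x • H) := by
  refine congrFun (h.indep (w := fun H => φ x (w (x⁻¹ • H))) (fun H => ?_) h1 ?_) (x • H) ▸ by simp
  · have := (h1 (x⁻¹ • H)).conj x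
    rwa [show (x⁻¹ • H).1 ^ᶜ x = H.1 from map_conj_map_conj_inv _ x] at this
  · rw [← e, map_prod]
    exact Equiv.prod_comp (MulAction.toPerm x⁻¹) fun H => φ x (w H)

theorem Set.eq_one_of_forall (h : Set φ p B) {x : G}
    (hx : ∀ H : Om φ p B, ∀ v, Fx φ H.1 v → φ x v = v) : φ x = 1 := by
  have := Fact.mk h.prime
  have h1 := act_le_of_cocyclic (φ := φ.comp B.subtype) h.elem.1 (actInv_top _)
    (H := (φ x).toMonoidHom.eqLocus (MonoidHom.id V)) (by simpa using h.cop' le_rfl)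
    fun C ⟨a, ha⟩ u _ hu => by
      have h2 : Fx φ (C.map B.subtype) u := by
        rintro _ ⟨b, hb, rfl⟩
        exact hu b hb
      by_cases h0 : u = 1
      · exact h0 ▸ one_mem _
      rcases eq_or_relIndex_eq_of_cocyclic h.elem (map_subtype_le C) ⟨a, a.2, by
        rw [← coe_subtype, ← MonoidHom.map_zpowers, ← Subgroup.map_sup, ha, ← MonoidHom.range_eq_map,
          range_subtype]⟩ with h3 | h3
      · exact absurd (h.fix u (h3 ▸ h2)) h0
      · exact hx ⟨_, map_subtype_le C, h3, u, h0, h2⟩ u h2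
  exact MulEquiv.ext fun v => h1 (mem_top v)

/-- A vector with prescribed support. -/
theorem Set.exists_supp [B.Normal] (h : Set φ p B) (S : Om φ p B → Prop) :
    ∃ v : V, ∀ x : G, φ x v = v → ∀ H, (S H ↔ S (x • H)) ∧ (x ∈ B → S H → x ∈ H.1) := by
  classical
  have := Fintype.ofFinite (Om φ p B)
  choose w h1 h2 using fun H : Om φ p B => H.2.2.2
  have h3 : ∀ H, Fx φ H.1 (if S H then w H else 1) := fun H => by
    split_ifs
    exacts [h2 H, fun _ _ => map_one _]
  refine ⟨∏ H, if S H then w H else 1, fun x hx H => ?_⟩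
  have h4 := h.apply_eq h3 hx H
  refine ⟨?_, fun hB hS => h.mem H hB (h1 H) (h2 H) (by simpa [h.smul_eq H hB, hS] using h4)⟩
  split_ifs at h4 with a b b
  · exact iff_of_true a b
  · exact absurd ((map_eq_one_iff _ (φ x).injective).1 h4) (h1 H)
  · exact absurd (h4.symm.trans (map_one _)) (h1 _)
  · exact iff_of_false a b

theorem Set.card_lt [B.Normal] (h : Set φ p B) (H : Om φ p B) :
    Nat.card (Om φ p B → Multiplicative (ZMod 2)) < Nat.card V := by
  classical
  have := Fintype.ofFinite (Om φ p B)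
  have := Fintype.ofFinite V
  choose w h1 h2 using fun H : Om φ p B => H.2.2.2
  have h3 : ∀ (f : Om φ p B → Multiplicative (ZMod 2)) H, Fx φ H.1 (if f H = 1 then 1 else w H) :=
    fun f H => by
      split_ifs
      exacts [fun _ _ => map_one _, h2 H]
  obtain ⟨b, hb, hbH⟩ : ∃ b ∈ B, b ∉ H.1 := by
    by_contra hc
    push Not at hc
    exact h.prime.one_lt.ne' (H.2.2.1.symm.trans (relIndex_eq_one.2 hc))
  rw [Nat.card_eq_fintype_card, Nat.card_eq_fintype_card]
  refine Fintype.card_lt_of_injective_of_notMem (fun f => ∏ K, if f K = 1 then 1 else w K)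
    (fun f g e => funext fun K => ?_) (b := φ b (w H)) fun ⟨f, e⟩ => ?_
  · have h4 := congrFun (h.indep (h3 f) (h3 g) e) K
    have h5 : ∀ a b : Multiplicative (ZMod 2), a ≠ 1 → b ≠ 1 → a = b := by decide
    split_ifs at h4 with a b b
    exacts [a.trans b.symm, absurd h4.symm (h1 K), absurd h4 (h1 K), h5 _ _ a b]
  · have h4 := congrFun (h.indep (h3 f) (w' := Pi.mulSingle H (φ b (w H))) (fun K => ?_)
      (e.trans (by simp))) H
    · rw [Pi.mulSingle_eq_same] at h4
      split_ifs at h4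
      · exact h1 H ((map_eq_one_iff _ (φ b).injective).1 h4.symm)
      · exact hbH (h.mem H hb (h1 H) (h2 H) h4.symm)
    · by_cases e : K = H
      · subst e
        have := (h2 K).conj b
        rwa [Pi.mulSingle_eq_same, ← show (b • K).1 = K.1 from congrArg _ (h.smul_eq K hb)]
      · rw [Pi.mulSingle_eq_of_ne e]
        exact fun _ _ => map_one _

end Om

/-- A regular orbit for the elements of order `p` of a group with `X' ≤ ⟨z⟩ = Ω₁(Z(X))`. -/
theorem regular {X V : Type*} [Group X] [Finite X] [CommGroup V] [Finite V] {φ : X →* MulAut V}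
    (hφ : Function.Injective φ) {p : ℕ} (hp : p.Prime) (hp2 : p ≠ 2) (hV : ¬ p ∣ Nat.card V) {z : X}
    (hz : orderOf z = p) (hc : z ∈ center X) (h1 : ∀ x y : X, ⁅x, y⁆ ∈ zpowers z)
    (h2 : ∀ x ∈ center X, x ^ p = 1 → x ∈ zpowers z) (h3 : ∀ v, φ z v = v → v = 1) :
    ∃ v, ∀ x, x ^ p = 1 → φ x v = v → x = 1 := by
  classical
  have := Fact.mk hp
  obtain ⟨B, hzB, hB, hmax⟩ := exists_maximal_ge (P := fun B : Subgroup X => IsElementaryAbelian p B)
    (IsElementaryAbelian.zpowers (hz ▸ pow_orderOf_eq_one z))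
  have : B.Normal := ⟨fun n hn g => by
    simpa [commutatorElement_def] using mul_mem (hzB (h1 g n)) hn⟩
  have h : Set φ p B := ⟨hp, hB, hV, fun v hv => h3 v (hv z (hzB (mem_zpowers z)))⟩
  have h4 : ∀ H : Om φ p B, ∀ x ∈ H.1, x ∈ zpowers z → x = 1 := fun H x hx hxz => by
    by_contra hne
    obtain ⟨v, a, b⟩ := H.2.2.2
    refine a (h3 v (b z ?_))
    have := zpowers_eq_top_of_prime_card (G := zpowers z) (by rw [Nat.card_zpowers, hz])
      (g := ⟨x, hxz⟩) fun e => hne (congrArg Subtype.val e)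
    obtain ⟨k, hk⟩ := mem_zpowers_iff.1 (this.ge (mem_top ⟨z, mem_zpowers z⟩))
    have hk' : x ^ k = z := congrArg Subtype.val hk
    exact hk' ▸ zpow_mem hx k
  have h5 : ∀ (H : Om φ p B) x, x ^ p = 1 → x • H = H → x ∈ B := fun H x hx e => by
    refine (hmax _ (hB.sup_zpowers hx ?_) le_sup_left).le (mem_sup_right (mem_zpowers x))
    rw [← h.sup_eq H hzB fun hle => hp.one_lt.ne' (hz.symm.trans (orderOf_eq_one_iff.2
      (h4 H z (hle (mem_zpowers z)) (mem_zpowers z)))), centralizer_sup, centralizer_zpowers]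
    refine ⟨fun y hy => (commutatorElement_eq_one_iff_mul_comm.1 (h4 H _ ?_ (h1 x y))).symm,
      mem_centralizer_singleton_iff.2 (mem_center_iff.1 hc x)⟩
    exact mul_mem ((congrArg Subtype.val e).le (conj_mem_map_conj.2 hy)) (inv_mem hy)
  by_cases hd : p ∣ Nat.card (Om φ p B)
  · have : Nonempty (Om φ p B) := by
      by_contra hn
      refine hp.one_lt.ne' (hz.symm.trans (orderOf_eq_one_iff.2 (hφ ?_)))
      rw [map_one]
      exact h.eq_one_of_forall fun H => absurd ⟨H⟩ hn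
    have h6 : 2 < Nat.card (Om φ p B) :=
      lt_of_lt_of_le (lt_of_le_of_ne hp.two_le hp2.symm) (Nat.le_of_dvd Nat.card_pos hd)
    have h7 : ∀ a b : Om φ p B, ∃ c, c ≠ a ∧ c ≠ b := fun a b => by
      by_contra hc
      push Not at hc
      have := Nat.card_le_card_of_surjective (![a, b]) fun c => by
        by_cases e : c = a
        exacts [⟨0, e.symm⟩, ⟨1, (hc c e).symm⟩]
      simp at this
      omega
    obtain ⟨H₀⟩ := this
    obtain ⟨v, hv⟩ := h.exists_supp (· ≠ H₀)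
    refine ⟨v, fun x hx e => ?_⟩
    have hxB := h5 H₀ x hx (by simpa using (hv x e H₀).1)
    obtain ⟨K, hK, -⟩ := h7 H₀ H₀
    refine h4 K x ((hv x e K).2 hxB hK) (h2 x (mem_center_iff.2 fun y => ?_) hx)
    obtain ⟨H, a, b⟩ := h7 H₀ (y • H₀)
    refine commutatorElement_eq_one_iff_mul_comm.1 (h4 H _ ?_ (h1 y x))
    exact mul_mem (mem_map_conj_inv.1 ((hv x e (y⁻¹ • H)).2 hxB fun e => b (by simp [← e])))
      (inv_mem ((hv x e H).2 hxB a))
  · obtain ⟨v, hv⟩ := h.exists_supp fun _ => True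
    refine ⟨v, fun x hx e => hφ ?_⟩
    obtain ⟨H, hH⟩ := (IsElementaryAbelian.zpowers hx).isPGroup.nonempty_fixed_point_of_prime_not_dvd_card
      _ hd
    rw [map_one]
    exact h.eq_one_of_forall fun K u hu =>
      hu x ((hv x e K).2 (h5 H x hx (hH ⟨x, mem_zpowers x⟩)) trivial)

/-- The claim for modules of order `n`. -/
def St (p n : ℕ) : Prop :=
  ∀ (G V : Type u) [Group G] [Finite G] [CommGroup V] [Finite V] (φ : G →* MulAut V)
    (P : Subgroup G) [P.Normal] (a : G), Nat.card V = n → ¬ p ∣ n → IsPGroup p P → a ∈ P →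
    φ a ≠ 1 → ∃ v, ∀ g, φ (g * a * g⁻¹) v ≠ v

section Step

variable {G V : Type u} [Group G] [Finite G] [CommGroup V] [Finite V] {φ : G →* MulAut V} {p : ℕ}
  {P : Subgroup G} [P.Normal] {a : G}

theorem imprimitive (hp2 : p ≠ 2) (ih : ∀ m < Nat.card V, St.{u} p m) (hφ : Function.Injective φ)
    (hP : IsPGroup p P) (ha : a ∈ P) (h1 : φ a ≠ 1) {B : Subgroup G} [B.Normal] (h : Set φ p B)
    (hB : ¬ IsCyclic B) : ∃ v, ∀ g, φ (g * a * g⁻¹) v ≠ v := by
  classical
  have := Fact.mk h.prime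
  by_cases hA : ∀ H : Om φ p B, a • H = H
  · obtain ⟨H₀, hH₀⟩ := not_forall.1 fun e => h1 (h.eq_one_of_forall e)
    have hW : ActInv (φ.comp (MulAction.stabilizer G H₀).subtype) (actFixed (φ.comp H₀.1.subtype)) :=
      fun g u hu k => Fx.conj (fun k hk => hu ⟨k, hk⟩) (g : G) k
        ((congrArg Subtype.val g.2).ge k.2)
    have hlt : actFixed (φ.comp H₀.1.subtype) ≠ ⊤ := fun e => hB (by
      have h0 : H₀.1 = ⊥ := eq_bot_iff.2 fun k hk => hφ (MulEquiv.ext fun v =>
        (map_one φ).symm ▸ e.ge (mem_top v) ⟨k, hk⟩)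
      have h2 := H₀.2.2.1
      rw [h0, relIndex_bot_left] at h2
      exact isCyclic_of_prime_card h2)
    obtain ⟨w, hw⟩ := ih _ (by simpa using card_lt_of_lt (lt_top_iff_ne_top.2 hlt)) _ _
      (subHom _ _ hW) (P.subgroupOf _) ⟨a, hA H₀⟩ rfl
      (fun e => h.cop (e.trans (card_subgroup_dvd_card _))) hP.comap_subtype ha fun e =>
        hH₀ fun v hv => by
          have := DFunLike.congr_fun e ⟨v, fun k => hv k k.2⟩
          exact congrArg Subtype.val this
    have := Fintype.ofFinite (Om φ p B)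
    have h2 : ∀ H : Om φ p B, ∃ u, Fx φ H.1 u ∧ ∀ g : G, g • H₀ = H → ∃ k : G, k • H₀ = H ∧
        u = φ k w := fun H => by
      by_cases e : ∃ k : G, k • H₀ = H
      · obtain ⟨k, rfl⟩ := e
        exact ⟨_, Fx.conj (fun k hk => w.2 ⟨k, hk⟩) k, fun _ _ => ⟨k, rfl, rfl⟩⟩
      · exact ⟨1, fun _ _ => map_one _, fun g hg => absurd ⟨g, hg⟩ e⟩
    choose u h3 h4 using h2
    refine ⟨∏ H, u H, fun g e => ?_⟩
    have h5 := h.apply_eq h3 e (g • H₀)
    rw [show (g * a * g⁻¹) • g • H₀ = g • H₀ by rw [mul_smul, inv_smul_smul, mul_smul, hA]] at h5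
    obtain ⟨k, hk, h6⟩ := h4 _ g rfl
    refine hw ⟨k⁻¹ * g, by rw [MulAction.mem_stabilizer_iff, mul_smul, ← hk, inv_smul_smul]⟩
      (Subtype.ext ((φ k).injective ?_))
    rw [← h6, ← h5, h6]
    change (φ k * φ (k⁻¹ * g * a * (k⁻¹ * g)⁻¹)) w = (φ (g * a * g⁻¹) * φ k) w
    rw [← map_mul, ← map_mul]
    congr 2
    group
  · obtain ⟨H, hH⟩ := not_forall.1 hA
    let _ : MulDistribMulAction G (Om φ p B → Multiplicative (ZMod 2)) :=
      arrowMulDistribMulAction
    obtain ⟨f, hf⟩ := ih _ (h.card_lt H) G _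
      (MulDistribMulAction.toMulAut G (Om φ p B → Multiplicative (ZMod 2))) P a rfl
      (fun e => by
        rw [Nat.card_fun, Nat.card_eq_fintype_card, Fintype.card_multiplicative, ZMod.card] at e
        exact hp2 ((Nat.prime_dvd_prime_iff_eq h.prime Nat.prime_two).1 (h.prime.dvd_of_dvd_pow e)))
      hP ha fun e => by
        have h2 := congrFun (DFunLike.congr_fun e (Pi.mulSingle H (Multiplicative.ofAdd 1))) (a • H)
        change Pi.mulSingle (M := fun _ => Multiplicative (ZMod 2)) H _ (a⁻¹ • a • H) =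
          Pi.mulSingle (M := fun _ => Multiplicative (ZMod 2)) H _ (a • H) at h2
        rw [inv_smul_smul, Pi.mulSingle_eq_same, Pi.mulSingle_eq_of_ne hH] at h2
        exact absurd h2 (by decide)
    obtain ⟨v, hv⟩ := h.exists_supp fun K => f K = 1
    refine ⟨v, fun g e => hf g (funext fun K => ?_)⟩
    have h2 := (hv _ e ((g * a * g⁻¹)⁻¹ • K)).1
    rw [smul_inv_smul] at h2
    have h5 : ∀ a b : Multiplicative (ZMod 2), (a = 1 ↔ b = 1) → a = b := by decide
    exact h5 _ _ h2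

theorem primitive (hp : p.Prime) (hp2 : p ≠ 2) (hφ : Function.Injective φ) (hV : ¬ p ∣ Nat.card V)
    (hP : IsPGroup p P) (ha : a ∈ P) (h1 : φ a ≠ 1)
    (hfix : ∀ B : Subgroup G, B.Normal → B ≠ ⊥ → ∀ v, Fx φ B v → v = 1)
    (hc : ∀ B : Subgroup G, B.Normal → IsElementaryAbelian p B → IsCyclic B) :
    ∃ v, ∀ g, φ (g * a * g⁻¹) v ≠ v := by
  have := Fact.mk hp
  have ha1 : a ≠ 1 := fun e => h1 (e ▸ map_one φ)
  have : Nontrivial P := (nontrivial_iff_ne_bot P).2 fun e => ha1 (e.le ha)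
  have hs : ∀ A : Subgroup P, A.Characteristic → IsMulCommutative A → IsCyclic A := fun A _ hA => by
    have h2 := (PG.isElementaryAbelian_omegaOne (p := p) hA).map P.subtype
    rw [PG.isCyclic_iff_card_omegaOne_le (hP.to_subgroup A) hA,
      ← card_map_of_injective P.subtype_injective]
    exact h2.isCyclic_iff.1 (hc _ inferInstance h2)
  obtain ⟨z, E, R, hE, hz, -, h2, -, h3, h4, h5⟩ := PG.exists_symplectic_decomposition hP hs
  have hR := h5.resolve_right fun e => hp2 e.1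
  have hRc : R ≤ center P := by
    rw [← centralizer_top, ← h4, centralizer_sup]
    exact le_inf h3 (le_centralizer R)
  have hcZ := hs (center P) inferInstance inferInstance
  have h6 : omegaOne p (center P) = zpowers z := (eq_of_le_of_card_ge
    (zpowers_le.2 (PG.mem_omegaOne hz (hE.orderOf_z ▸ pow_orderOf_eq_one z))) (by
      rw [Nat.card_zpowers, hE.orderOf_z]
      exact (PG.isCyclic_iff_card_omegaOne_le (hP.to_subgroup _) inferInstance).1 hcZ)).symm
  have h9 : (omegaOne p (center P)).Characteristic := inferInstance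
  rw [h6] at h9
  have h7 : ∀ x y : P, ⁅x, y⁆ ∈ zpowers z := fun x y => by
    refine (commutator_sup_le (N := zpowers z) (C := ⊤) le_normalizer_of_normal
      (commutator_comm ⊤ E ▸ h2) ?_) (commutator_mem_commutator (h4.ge (mem_top x)) (mem_top y))
    rw [commutator_eq_bot_iff_le_centralizer.2 (hRc.trans centralizer_top.ge)]
    exact bot_le
  have h8 : ∀ v, φ z v = v → v = 1 := fun v hv => by
    refine hfix ((zpowers z).map P.subtype) inferInstance (fun e => hp.one_lt.ne' ?_) v ?_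
    · rw [← hE.orderOf_z, ← Nat.card_zpowers, ← card_map_of_injective P.subtype_injective, e,
        card_bot]
    · rw [MonoidHom.map_zpowers]
      exact Fx.of_apply hv
  obtain ⟨v, hv⟩ := regular (φ := φ.comp P.subtype) (hφ.comp P.subtype_injective) hp hp2 hV
    hE.orderOf_z hz h7 (fun x hx e => h6 ▸ PG.mem_omegaOne hx e) h8
  obtain ⟨b, hb, hb2⟩ := exists_prime_orderOf_mem (H := zpowers a) (zpowers_ne_bot.2 ha1)
  have hbP := zpowers_le.2 ha hb
  obtain ⟨k, hk⟩ := IsPGroup.iff_orderOf.1 hP ⟨b, hbP⟩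
  rw [orderOf_mk] at hk
  have hb3 : orderOf b = p := (Nat.prime_dvd_prime_iff_eq hb2 hp).1 (hb2.dvd_of_dvd_pow hk.dvd)
  refine ⟨v, fun g e => hb2.one_lt.ne' (orderOf_eq_one_iff.2 (conj_eq_one_iff.1
    (congrArg Subtype.val (hv ⟨g * b * g⁻¹, ‹P.Normal›.conj_mem b hbP g⟩ (Subtype.ext ?_) ?_))))⟩
  · change (g * b * g⁻¹) ^ p = 1
    rw [conj_pow, ← hb3, pow_orderOf_eq_one]
    simp
  · exact Fx.of_apply e _ (map_conj_zpowers a g ▸ conj_mem_map_conj.2 hb)

theorem step (hp : p.Prime) (hp2 : p ≠ 2) (ih : ∀ m < Nat.card V, St.{u} p m)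
    (hφ : Function.Injective φ) (hV : ¬ p ∣ Nat.card V) (hP : IsPGroup p P) (ha : a ∈ P)
    (h1 : φ a ≠ 1) : ∃ v, ∀ g, φ (g * a * g⁻¹) v ≠ v := by
  have := Fact.mk hp
  by_cases hirr : ∃ W : Subgroup V, ActInv φ W ∧ W ≠ ⊥ ∧ W ≠ ⊤
  · obtain ⟨W, hW, h2, h3⟩ := hirr
    by_cases e1 : subHom φ W hW a = 1
    swap
    · obtain ⟨v, hv⟩ := ih _ (by simpa using card_lt_of_lt (lt_top_iff_ne_top.2 h3)) _ _ _ P a rfl
        (fun e => hV (e.trans (card_subgroup_dvd_card W))) hP ha e1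
      exact ⟨v, fun g e => hv g (Subtype.ext e)⟩
    by_cases e2 : quotHom φ W hW a = 1
    swap
    · obtain ⟨v, hv⟩ := ih _ (card_quotient_lt h2) _ _ _ P a rfl
        (fun e => hV (e.trans (card_quotient_dvd_card W))) hP ha e2
      obtain ⟨v, rfl⟩ := QuotientGroup.mk_surjective v
      exact ⟨v, fun g e => hv g (by rw [quotHom_mk, e])⟩
    refine absurd (MulEquiv.ext fun v => ?_) h1
    obtain ⟨k, hk⟩ := IsPGroup.iff_card.1 (hP.to_le (zpowers_le.2 ha))
    refine act_trivial_of_trivial_on_factors (φ := φ.comp (zpowers a).subtype) (U := ⊤) (N := W)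
      (hk ▸ (hp.coprime_iff_not_dvd.2 fun e => hV (e.trans (card_subgroup_dvd_card W))).pow_left k)
      (fun u _ x => mem_ker_quotHom.1 ((zpowers_le (H := MonoidHom.ker _)).2 e2 x.2) u)
      (fun u hu x => ?_) (mem_top v) ⟨a, mem_zpowers a⟩
    have := DFunLike.congr_fun (MonoidHom.mem_ker.1
      ((zpowers_le (H := (subHom φ W hW).ker)).2 e1 x.2)) ⟨u, hu⟩
    exact congrArg Subtype.val this
  have hfix : ∀ B : Subgroup G, B.Normal → B ≠ ⊥ → ∀ v, Fx φ B v → v = 1 := fun B _ hB v hv => by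
    by_contra hne
    refine hirr ⟨actFixed (φ.comp B.subtype), fun g u hu k => ?_,
      fun e => hne (e.le fun k => hv k k.2), fun e => hB (eq_bot_iff.2 fun k hk =>
        hφ (MulEquiv.ext fun v => (map_one φ).symm ▸ e.ge (mem_top v) ⟨k, hk⟩))⟩
    exact (map_conj_eq_of_normal B g ▸ Fx.conj (fun k hk => hu ⟨k, hk⟩) g) k k.2
  by_cases hc : ∀ B : Subgroup G, B.Normal → IsElementaryAbelian p B → IsCyclic B
  · exact primitive hp hp2 hφ hV hP ha h1 hfix hc
  · push Not at hc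
    obtain ⟨B, hn, h2, h3⟩ := hc
    exact imprimitive hp2 ih hφ hP ha h1 ⟨hp, h2, hV, hfix B hn fun e => h3 (e ▸ inferInstance)⟩ h3

end Step

theorem st {p : ℕ} (hp : p.Prime) (hp2 : p ≠ 2) (n : ℕ) : St.{u} p n := by
  induction n using Nat.strong_induction_on with
  | _ n ih =>
    intro G V _ _ _ _ φ P hn a e hV hP ha h1
    subst e
    have := hn.map _ φ.rangeRestrict_surjective
    obtain ⟨v, hv⟩ := step hp hp2 ih φ.range.subtype_injective hV (hP.map φ.rangeRestrict)
      ⟨a, ha, rfl⟩ h1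
    exact ⟨v, fun g e => hv (φ.rangeRestrict g) (by rw [← map_inv, ← map_mul, ← map_mul]; exact e)⟩

/-- The fixed point spaces of the conjugates of `a ∈ O_p(G)` do not cover the `p'`-module `V`. -/
theorem exists_not_fixed {G V : Type u} [Group G] [Finite G] [CommGroup V] [Finite V]
    (φ : G →* MulAut V) {p : ℕ} (hp : p.Prime) (hp2 : p ≠ 2) (hV : ¬ p ∣ Nat.card V)
    {P : Subgroup G} [P.Normal] (hP : IsPGroup p P) {a : G} (ha : a ∈ P) (h1 : φ a ≠ 1) :
    ∃ v, ∀ g, φ (g * a * g⁻¹) v ≠ v :=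
  st hp hp2 _ G V φ P a rfl hV hP ha h1

end Cfsg.Agent.FG.CF
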