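import Mathlib

/-!
# Groups with the class sizes of `PSL₂(q)`, arithmetic
-/

set_option autoImplicit false

namespace Cfsg.Agent.FG.CsL2

theorem split_three {A B C n : ℕ} (h : n ∣ A * B * C) :
    ∃ a a' b b' c c' : ℕ, A = a * a' ∧ B = b * b' ∧ C = c * c' ∧ n = a * b * c := by
  obtain ⟨m, c, hm, ⟨c', hc⟩, rfl⟩ := exists_dvd_and_dvd_of_dvd_mul h
  obtain ⟨a, b, ⟨a', ha⟩, ⟨b', hb⟩, rfl⟩ := exists_dvd_and_dvd_of_dvd_mul hm
  exact ⟨a, a', b, b', c, c', ha, hb, hc, rfl⟩

theorem lt_of_split {a b c b' c' α r : ℕ}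
    (e : a * b * c = 1 + α * (b * b' * (c * c')) + r) : α * (b' * c') < a := by
  by_contra hle
  push Not at hle
  have : a * b * c ≤ α * (b' * c') * b * c := by gcongr
  nlinarith

theorem dvd_of_split {a b c α X k r : ℕ} (e : a * b * c = 1 + α * X + r) (hr : a ∣ r)
    (hX : a ∣ k) (m : ℕ) (hk : X = m + k) : a ∣ 1 + α * m := by
  have h1 : a ∣ 1 + α * X + r := e ▸ (Dvd.intro (b * c) (by ring) : a ∣ a * b * c)
  have h2 : a ∣ α * k + r := dvd_add (hX.mul_left α) hr
  have h3 : 1 + α * X + r = (α * k + r) + (1 + α * m) := by rw [hk]; ring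
  exact (Nat.dvd_add_right h2).mp (h3 ▸ h1)

/-- If `a ∣ 1 + 2α` and `α k < a` then `a = 1` and `α = 0`, or `k ≤ 2`. -/
theorem small_of_dvd {a α k : ℕ} (hd : a ∣ 1 + α * 2) (hl : α * k < a) (ha : a ≠ 1) :
    k ≤ 2 ∧ 1 ≤ α := by
  have h0 : α ≠ 0 := by rintro rfl; simp at hd; exact ha hd
  have := Nat.le_of_dvd (by omega) hd
  refine ⟨?_, by omega⟩
  by_contra hk
  push Not at hk
  have : α * 3 ≤ α * k := by gcongr; omega
  omega

theorem arith_even {A B q n α β γ : ℕ} (hA : A + 1 = q) (hB : B = q + 1) (hq : 4 ≤ q)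
    (h2 : 2 ∣ q) (hd : n ∣ A * B * q) (e : n = 1 + α * (B * q) + β * (A * q) + γ * (A * B)) :
    n = 1 ∨ n = A * B * q := by
  obtain ⟨a, a', b, b', c, c', ha, hb, hc, hn⟩ := split_three hd
  have hA3 : 3 ≤ A := by omega
  have oa : Odd A := by rw [Nat.odd_iff]; omega
  have ob : Odd B := by rw [Nat.odd_iff]; omega
  have pa' : 0 < a' := Nat.pos_of_ne_zero (by rintro rfl; omega)
  have pb' : 0 < b' := Nat.pos_of_ne_zero (by rintro rfl; omega)
  have pc' : 0 < c' := Nat.pos_of_ne_zero (by rintro rfl; omega)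
  have oa' : Odd a' := (Nat.odd_mul.mp (ha ▸ oa)).2
  have ob' : Odd b' := (Nat.odd_mul.mp (hb ▸ ob)).2
  have la : α * (b' * c') < a := lt_of_split (a := a) (b := b) (c := c)
    (r := β * (A * q) + γ * (A * B)) (by rw [← hn, ← hb, ← hc, e]; ring)
  have lb : β * (a' * c') < b := lt_of_split (a := b) (b := a) (c := c)
    (r := α * (B * q) + γ * (A * B)) (by rw [← ha, ← hc, mul_comm b, ← hn, e]; ring)
  have lc : γ * (a' * b') < c := lt_of_split (a := c) (b := a) (c := b)
    (r := α * (B * q) + β * (A * q))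
    (by rw [← ha, ← hb, mul_assoc, mul_comm c, ← hn, e]; ring)
  have da : a ∣ 1 + α * 2 := dvd_of_split (b := b) (c := c) (X := B * q)
    (r := β * (A * q) + γ * (A * B)) (k := A * (A + 3)) (by rw [← hn, e]; ring)
    (ha ▸ Dvd.intro (β * a' * q + γ * a' * B) (by ring)) (ha ▸ Dvd.intro (a' * (A + 3)) (by rw [ha]; ring)) 2
    (by rw [hB, ← hA]; ring)
  have db : b ∣ 1 + β * 2 := by
    obtain ⟨A', rfl⟩ : ∃ A', A = A' + 1 := ⟨A - 1, by omega⟩
    exact dvd_of_split (b := a) (c := c) (X := (A' + 1) * q)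
      (r := α * (B * q) + γ * ((A' + 1) * B)) (k := B * A') (by rw [mul_comm b, ← hn, e]; ring)
      (hb ▸ Dvd.intro (α * b' * q + γ * b' * (A' + 1)) (by ring))
      (hb ▸ Dvd.intro (b' * A') (by ring)) 2 (by rw [hB, ← hA]; ring)
  have dc : c ∣ 1 + γ * A := dvd_of_split (b := a) (c := b) (X := A * B)
    (r := α * (B * q) + β * (A * q)) (k := A * q) (by rw [mul_assoc, mul_comm c, ← hn, e]; ring)
    (hc ▸ Dvd.intro (α * B * c' + β * A * c') (by ring)) (hc ▸ Dvd.intro (A * c') (by ring)) A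
    (by rw [hB]; ring)
  rcases Nat.eq_zero_or_pos γ with rfl | hγ
  · left
    have hc1 : c = 1 := by simpa using dc
    have hc' : 4 ≤ c' := by rw [hc1, one_mul] at hc; omega
    have ha1 : a = 1 := by
      by_contra h
      have := (small_of_dvd da la h).1
      nlinarith
    have hb1 : b = 1 := by
      by_contra h
      have := (small_of_dvd db lb h).1
      nlinarith
    rw [hn, ha1, hb1, hc1]
  right
  have hγ1 : γ = 1 := by
    have h1 : c ∣ (1 + γ * A) + (γ - 1) := by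
      have : (1 + γ * A) + (γ - 1) = c * (c' * γ) := by
        rw [← mul_assoc, ← hc, ← hA]; obtain ⟨g, rfl⟩ : ∃ g, γ = g + 1 := ⟨γ - 1, by omega⟩
        simp only [Nat.add_sub_cancel]; ring
      exact this ▸ Dvd.intro _ rfl
    have h2 : c ∣ γ - 1 := (Nat.dvd_add_right dc).mp h1
    have h3 : γ ≤ γ * (a' * b') := Nat.le_mul_of_pos_right _ (by positivity)
    have := Nat.eq_zero_of_dvd_of_lt h2 (by omega)
    omega
  subst hγ1
  have hcq : c ≤ q := hc ▸ Nat.le_mul_of_pos_right _ pc'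
  have hb1 : b ≠ 1 := by
    rintro rfl
    have : b' ≤ a' * b' := Nat.le_mul_of_pos_left _ pa'
    omega
  obtain ⟨sb, tb⟩ := small_of_dvd db lb hb1
  have ha'1 : a' = 1 := by
    have : a' ≤ a' * c' := Nat.le_mul_of_pos_right _ pc'
    obtain ⟨k, hk⟩ := oa'
    omega
  have ha1 : a ≠ 1 := by rintro rfl; omega
  obtain ⟨sa, ta⟩ := small_of_dvd da la ha1
  have hb'1 : b' = 1 := by
    have : b' ≤ b' * c' := Nat.le_mul_of_pos_right _ pc'
    obtain ⟨k, hk⟩ := ob'
    omega
  subst ha'1 hb'1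
  simp only [mul_one, one_mul] at ha hb sa la lb
  subst ha hb
  have hc' : c' = 1 ∨ c' = 2 := by omega
  rcases hc' with rfl | rfl
  · rw [hn, hc, mul_one]
  · exfalso
    have h1 := Nat.le_of_dvd (by omega) da
    have h2 := Nat.le_of_dvd (by omega) db
    have h3 : A = 2 * α + 1 := by omega
    have h4 : B = 2 * β + 1 := by omega
    have h5 : β = α + 1 := by omega
    have h6 : c = α + 1 := by omega
    have h7 : q = 2 * α + 2 := by omega
    rw [hn, h3, h4, h7, h6, h5] at e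
    nlinarith [Nat.zero_le (α * α * α), Nat.zero_le (α * α)]

theorem arith_odd {A B u n α β γ k₁ k₃ : ℕ} (hu : 4 ≤ u) (oa : Odd A) (ob : Odd B)
    (hA : 1 < A) (hB : 1 < B) (hAu : A ≤ 2 * u + 1)
    (f1 : A * (2 * u) = 2 + B * k₁) (f2 : 2 * (B * (2 * u)) + 1 = A * A)
    (f3 : A * B = 1 + u + 2 * u * k₃)
    (hd : n ∣ A * B * (2 * u))
    (e : n = 1 + α * (B * (2 * u)) + β * (A * (2 * u)) + γ * (A * B)) :
    n = 1 ∨ n = A * B * (2 * u) := by
  obtain ⟨a, a', b, b', c, c', ha, hb, hc, hn⟩ := split_three hd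
  have pa' : 0 < a' := Nat.pos_of_ne_zero (by rintro rfl; omega)
  have pb' : 0 < b' := Nat.pos_of_ne_zero (by rintro rfl; omega)
  have pc' : 0 < c' := Nat.pos_of_ne_zero (by rintro rfl; omega)
  have oa0 : Odd a := (Nat.odd_mul.mp (ha ▸ oa)).1
  have oa' : Odd a' := (Nat.odd_mul.mp (ha ▸ oa)).2
  have ob' : Odd b' := (Nat.odd_mul.mp (hb ▸ ob)).2
  have la : α * (b' * c') < a := lt_of_split (a := a) (b := b) (c := c)
    (r := β * (A * (2 * u)) + γ * (A * B)) (by rw [← hn, ← hb, ← hc, e]; ring)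
  have lb : β * (a' * c') < b := lt_of_split (a := b) (b := a) (c := c)
    (r := α * (B * (2 * u)) + γ * (A * B)) (by rw [← ha, ← hc, mul_comm b, ← hn, e]; ring)
  have lc : γ * (a' * b') < c := lt_of_split (a := c) (b := a) (c := b)
    (r := α * (B * (2 * u)) + β * (A * (2 * u)))
    (by rw [← ha, ← hb, mul_assoc, mul_comm c, ← hn, e]; ring)
  have db : b ∣ 1 + β * 2 := dvd_of_split (b := a) (c := c) (X := A * (2 * u))
    (r := α * (B * (2 * u)) + γ * (A * B)) (k := B * k₁) (by rw [mul_comm b, ← hn, e]; ring)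
    (hb ▸ Dvd.intro (α * b' * (2 * u) + γ * b' * A) (by ring))
    (hb ▸ Dvd.intro (b' * k₁) (by ring)) 2 f1
  have dc : c ∣ 1 + γ * (1 + u) := dvd_of_split (b := a) (c := b) (X := A * B)
    (r := α * (B * (2 * u)) + β * (A * (2 * u))) (k := 2 * u * k₃)
    (by rw [mul_assoc, mul_comm c, ← hn, e]; ring)
    (hc ▸ Dvd.intro (α * B * c' + β * A * c') (by ring)) (hc ▸ Dvd.intro (c' * k₃) (by ring))
    (1 + u) f3
  have dc2 : c ∣ 2 + 2 * γ := by
    have h1 : 2 * (1 + γ * (1 + u)) = c * (c' * γ) + (2 + 2 * γ) := by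
      rw [← mul_assoc, ← hc]; ring
    exact (Nat.dvd_add_right (Dvd.intro _ rfl)).mp (h1 ▸ dc.mul_left 2)
  -- `α` is `0` or `2`
  have hα : (a = 1 ∧ α = 0) ∨ α = 2 := by
    have h0 : α < a := lt_of_le_of_lt (Nat.le_mul_of_pos_right _ (by positivity)) la
    have h1 : (a : ℤ) ∣ 2 - α := by
      refine ⟨2 * b * c - α * a' * A - 2 * β * a' * (2 * u) - 2 * γ * a' * B, ?_⟩
      have e' : (a * b * c : ℤ) = 1 + α * (B * (2 * u)) + β * (A * (2 * u)) + γ * (A * B) := by
        exact_mod_cast hn.symm.trans e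
      have f2' : (2 * (B * (2 * u)) + 1 : ℤ) = A * A := by exact_mod_cast f2
      have ha' : (A : ℤ) = a * a' := by exact_mod_cast ha
      linear_combination (-2) * e' - α * f2' - (α * A + 2 * β * (2 * u) + 2 * γ * B) * ha'
    by_cases ha1 : a = 1
    · left; omega
    · right
      obtain ⟨k, hk⟩ := oa0
      have := Int.eq_zero_of_abs_lt_dvd h1 (by rw [abs_lt]; constructor <;> omega)
      omega
  rcases Nat.eq_zero_or_pos γ with rfl | hγ
  · left
    have hc1 : c = 1 := by simpa using dc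
    have hc' : 8 ≤ c' := by rw [hc1, one_mul] at hc; omega
    have hb1 : b = 1 := by
      by_contra h
      have := (small_of_dvd db lb h).1
      nlinarith
    rcases hα with ⟨ha1, -⟩ | rfl
    · rw [hn, ha1, hb1, hc1]
    · exfalso
      have h1 : a ≤ A := ha ▸ Nat.le_mul_of_pos_right _ pa'
      rw [hb1, one_mul] at hb
      rw [hc1, one_mul] at hc
      rw [← hb, ← hc] at la
      nlinarith
  right
  have h1 := Nat.le_of_dvd (by omega) dc2
  have oab : Odd (a' * b') := oa'.mul ob'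
  have hab : a' * b' = 1 ∨ (a' * b' = 3 ∧ γ = 1 ∧ c = 4) := by
    obtain ⟨k, hk⟩ := oab
    rw [hk] at lc ⊢
    rcases Nat.eq_zero_or_pos k with rfl | hk0
    · left; rfl
    · right
      have h2 : γ * 3 ≤ γ * (2 * k + 1) := by gcongr; omega
      have hγ1 : γ = 1 := by omega
      subst hγ1
      have : c = 4 := by
        have : 3 < c := by omega
        omega
      omega
  rcases hab with hab | ⟨hab, rfl, rfl⟩
  · obtain ⟨rfl, rfl⟩ := mul_eq_one.mp hab
    simp only [mul_one, one_mul] at ha hb la lb lc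
    subst ha hb
    obtain ⟨sb, tb⟩ := small_of_dvd db lb hB.ne'
    have hc' : c' = 1 ∨ c' = 2 := by omega
    rcases hc' with rfl | rfl
    · rw [hn, hc, mul_one]
    · exfalso
      have hcu : c = u := by omega
      subst hcu
      have h2 := Nat.le_of_dvd (by omega) db
      have h4 : B = 2 * β + 1 := by omega
      have h5 : c ∣ 1 + γ := by
        have : 1 + γ * (1 + c) = c * γ + (1 + γ) := by ring
        exact (Nat.dvd_add_right (Dvd.intro _ rfl)).mp (this ▸ dc)
      have h6 := Nat.le_of_dvd (by omega) h5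
      have h7 : c = γ + 1 := by omega
      rw [hn] at e
      have h8 : β * (A * (2 * c)) < A * B := by
        rw [h7] at e ⊢; nlinarith [Nat.zero_le (α * (B * (2 * (γ + 1))))]
      have h9 : β * (2 * c) < B := by
        by_contra hle
        push Not at hle
        have : A * B ≤ A * (β * (2 * c)) := by gcongr
        nlinarith
      nlinarith
  · exfalso
    have hu2 : 4 ∣ u + 2 := by
      have : 1 + 1 * (1 + u) = u + 2 := by ring
      exact this ▸ dc
    by_cases hb1 : b = 1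
    · subst hb1
      rw [one_mul] at hb
      have hb'3 : b' = 3 := by
        have : b' ∣ 3 := hab ▸ Dvd.intro_left _ rfl
        rcases (Nat.dvd_prime Nat.prime_three).mp this with h | h <;> omega
      have ha'1 : a' = 1 := by rw [hb'3] at hab; omega
      rw [ha'1, mul_one] at ha
      rcases hα with ⟨ha1, -⟩ | rfl
      · omega
      · rw [hb'3] at la; omega
    · obtain ⟨sb, tb⟩ := small_of_dvd db lb hb1
      have : c' ≤ a' * c' := Nat.le_mul_of_pos_left _ pa'
      omega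

/-- Equal orders of `PSL₂(q)`, `q` even, and `PSL₂(q')`, `q'` odd. -/
theorem mixed_parity {k x : ℕ} (hk : 2 ≤ k) (hx : Odd x)
    (e : 2 * (2 ^ k * (2 ^ k - 1) * (2 ^ k + 1)) = x * (x - 1) * (x + 1)) :
    2 ^ k = 4 ∧ x = 5 := by
  obtain ⟨m, rfl⟩ := hx
  obtain ⟨j, rfl⟩ : ∃ j, k = j + 1 := ⟨k - 1, by omega⟩
  have h2 : 2 ≤ 2 ^ j := by
    calc 2 = 2 ^ 1 := rfl
      _ ≤ 2 ^ j := Nat.pow_le_pow_right two_pos (by omega)
  obtain ⟨y, hy⟩ : ∃ y, 2 ^ j = y + 1 := ⟨2 ^ j - 1, by omega⟩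
  have e1 : 2 ^ (j + 1) = 2 * y + 2 := by rw [pow_succ, hy]; ring
  have e2 : (y + 1) * ((2 * y + 1) * (2 * y + 3)) = (2 * m + 1) * (m * (m + 1)) := by
    rw [e1, show 2 * y + 2 - 1 = 2 * y + 1 by omega, Nat.add_sub_cancel] at e
    nlinarith
  have hd : 2 ^ j ∣ m * (m + 1) := by
    have : 2 ^ j ∣ (2 * m + 1) * (m * (m + 1)) := hy ▸ e2 ▸ Dvd.intro _ rfl
    exact (Nat.Coprime.pow_left j (by simp)).dvd_of_dvd_mul_left this
  have hcase : 2 ^ j ∣ m ∨ 2 ^ j ∣ m + 1 := by
    rcases Nat.even_or_odd m with h | h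
    · left
      exact (Nat.Coprime.pow_left j (Nat.coprime_two_left.mpr h.add_one)).dvd_of_dvd_mul_right hd
    · right
      exact (Nat.Coprime.pow_left j (Nat.coprime_two_left.mpr h)).dvd_of_dvd_mul_left hd
  rw [e1]
  rw [hy] at hcase
  have hy1 : 1 ≤ y := by omega
  have hm : m < 2 * y + 1 := by
    by_contra h
    push Not at h
    have : (2 * (2 * y + 1) + 1) * ((2 * y + 1) * (2 * y + 1 + 1)) ≤
      (2 * m + 1) * (m * (m + 1)) := by gcongr
    nlinarith [Nat.zero_le (y * y * y), Nat.zero_le (y * y)]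
  have hm2 : y < m := by
    by_contra h
    push Not at h
    have : (2 * m + 1) * (m * (m + 1)) ≤ (2 * y + 1) * (y * (y + 1)) := by gcongr
    nlinarith [Nat.zero_le (y * y * y), Nat.zero_le (y * y)]
  rcases hcase with ⟨t, ht⟩ | ⟨t, ht⟩
  · have : t = 1 := by
      rcases t with _ | _ | t
      · omega
      · rfl
      · nlinarith
    subst this
    rw [mul_one] at ht
    subst ht
    have : y = 1 := by
      by_contra h
      obtain ⟨z, rfl⟩ : ∃ z, y = z + 2 := ⟨y - 2, by omega⟩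
      nlinarith [Nat.zero_le (z * z * z), Nat.zero_le (z * z)]
    subst this
    simp
  · exfalso
    rcases t with _ | _ | t
    · omega
    · omega
    · nlinarith

theorem cube_inj {x y : ℕ} (hx : 1 ≤ x) (hy : 1 ≤ y)
    (e : x * (x - 1) * (x + 1) = y * (y - 1) * (y + 1)) : x = y := by
  obtain ⟨a, rfl⟩ : ∃ a, x = a + 1 := ⟨x - 1, by omega⟩
  obtain ⟨b, rfl⟩ : ∃ b, y = b + 1 := ⟨y - 1, by omega⟩
  simp only [Nat.add_sub_cancel] at e
  rcases lt_trichotomy a b with h | h | h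
  · have : (a + 1) * a * (a + 1 + 1) < (b + 1) * b * (b + 1 + 1) := by
      have : (a + 1) * a < (b + 1) * b := by nlinarith
      exact Nat.mul_lt_mul_of_lt_of_le this (by omega) (by omega)
    omega
  · rw [h]
  · have : (b + 1) * b * (b + 1 + 1) < (a + 1) * a * (a + 1 + 1) := by
      have : (b + 1) * b < (a + 1) * a := by nlinarith
      exact Nat.mul_lt_mul_of_lt_of_le this (by omega) (by omega)
    omega

theorem cube_ne {x N m : ℕ} (h1 : (m + 1) * m * (m + 2) < N)
    (h2 : N < (m + 2) * (m + 1) * (m + 3)) : x * (x - 1) * (x + 1) ≠ N := by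
  intro e
  rcases x with _ | a
  · simp at e; omega
  simp only [Nat.add_sub_cancel] at e
  rcases le_or_gt a m with h | h
  · have : (a + 1) * a * (a + 1 + 1) ≤ (m + 1) * m * (m + 2) :=
      Nat.mul_le_mul (Nat.mul_le_mul (by omega) h) (by omega)
    omega
  · have : (m + 2) * (m + 1) * (m + 3) ≤ (a + 1) * a * (a + 1 + 1) :=
      Nat.mul_le_mul (Nat.mul_le_mul (by omega) h) (by omega)
    omega

theorem three_dvd_cube (x : ℕ) : 3 ∣ x * (x - 1) * (x + 1) := by
  have : x % 3 = 0 ∨ x % 3 = 1 ∨ x % 3 = 2 := by omega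
  rcases this with h | h | h
  · exact ((Nat.dvd_of_mod_eq_zero h).mul_right _).mul_right _
  · exact ((show 3 ∣ x - 1 by omega).mul_left _).mul_right _
  · exact (show 3 ∣ x + 1 by omega).mul_left _

end Cfsg.Agent.FG.CsL2
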