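import Mathlib
import Cfsg.Agent.FG.HallPetresco
import Cfsg.Agent.Loc.LieGr
import Cfsg.Agent.GT.PGroupMaxClass

/-! Groups of prime exponent `p` satisfy the `(p-1)`-st Engel congruence. -/

set_option autoImplicit false

namespace Cfsg.Agent.FG.Engel

open Subgroup Finset Cfsg.Agent.Loc.H78.Lie
open scoped commutatorElement

universe u

/-- the homomorphism from the free group on two letters sending them to `s` and `a` -/
def φ {G : Type u} [Group G] (s a : G) : FreeGroup Bool →* G := FreeGroup.lift fun b => cond b s a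

theorem φ_mem {G : Type u} [Group G] (s a : G) {j : ℕ} {w : FreeGroup Bool}
    (hw : w ∈ γ (FreeGroup Bool) j) : φ s a w ∈ γ G j :=
  lowerCentralSeries_mono j le_top
    ((map_lowerCentralSeries ⊤ (φ s a) j).le (Subgroup.mem_map_of_mem _ hw))

theorem ι_φ (g : FreeGroup Bool) : ∃ α β : ℤ, ∀ (G : Type u) [Group G] (s a : G),
    ι 0 (φ s a g) = α • ι 0 s + β • ι 0 a := by
  induction g using FreeGroup.induction_on with
  | C1 => exact ⟨0, 0, fun G _ s a => by simp [ι_one]⟩
  | of b =>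
    cases b
    · exact ⟨0, 1, fun G _ s a => by simp [φ]⟩
    · exact ⟨1, 0, fun G _ s a => by simp [φ]⟩
  | inv_of b h =>
    obtain ⟨α, β, h⟩ := h
    exact ⟨-α, -β, fun G _ s a => by rw [map_inv, ι_inv (mem_top _), h]; simp [add_comm]⟩
  | mul x y hx hy =>
    obtain ⟨α, β, hx⟩ := hx
    obtain ⟨α', β', hy⟩ := hy
    exact ⟨α + α', β + β', fun G _ s a => by
      rw [map_mul, ι_mul (mem_top _) (mem_top _), hx, hy, add_smul, add_smul]; abel⟩

/-- the image of `w` under `φ s (a ^ k)` is a polynomial in `k` with a universal linear term -/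
def Pol (j : ℕ) (w : FreeGroup Bool) : Prop := ∃ m : ℤ, ∀ (G : Type u) [Group G] (s a : G),
  ∃ v : ℕ → Gr G, v 0 = m • (fun x => ⁅ι 0 s, x⁆)^[j] (ι 0 a) ∧
    (∀ n : ℕ, n • ι 0 a = 0 → ∀ d, n • v d = 0) ∧
    ∀ k : ℕ, ι j (φ s (a ^ k) w) = ∑ d ∈ range j, k ^ (d + 1) • v d

theorem pol_of_comm {j : ℕ} (h : ∀ x ∈ γ (FreeGroup Bool) j, ∀ g, Pol.{u} (j + 1) ⁅x, g⁆)
    {w : FreeGroup Bool} (hw : w ∈ γ (FreeGroup Bool) (j + 1)) : Pol.{u} (j + 1) w := by
  have hw' : w ∈ Subgroup.closure {c | ∃ x ∈ γ (FreeGroup Bool) j, ∃ g ∈ (⊤ : Subgroup _), ⁅x, g⁆ = c} := hw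
  induction hw' using Subgroup.closure_induction with
  | mem c hc =>
    obtain ⟨x, hx, g, -, rfl⟩ := hc
    exact h x hx g
  | one => exact ⟨0, fun G _ s a => ⟨0, by simp, by simp, by simp [ι_one]⟩⟩
  | mul x y hx hy ihx ihy =>
    obtain ⟨m, hm⟩ := ihx hx
    obtain ⟨m', hm'⟩ := ihy hy
    refine ⟨m + m', fun G _ s a => ?_⟩
    obtain ⟨v, h1, h2, h3⟩ := hm G s a
    obtain ⟨v', h1', h2', h3'⟩ := hm' G s a
    refine ⟨v + v', by rw [Pi.add_apply, h1, h1', add_smul], fun n hn d => by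
      rw [Pi.add_apply, smul_add, h2 n hn, h2' n hn, add_zero], fun k => ?_⟩
    rw [map_mul, ι_mul (φ_mem _ _ hx) (φ_mem _ _ hy), h3, h3', ← sum_add_distrib]
    simp
  | inv x hx ih =>
    obtain ⟨m, hm⟩ := ih hx
    refine ⟨-m, fun G _ s a => ?_⟩
    obtain ⟨v, h1, h2, h3⟩ := hm G s a
    refine ⟨-v, by rw [Pi.neg_apply, h1, neg_smul], fun n hn d => by
      rw [Pi.neg_apply, smul_neg, h2 n hn, neg_zero], fun k => ?_⟩
    rw [map_inv, ι_inv (φ_mem _ _ hx), h3, ← sum_neg_distrib]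
    simp

theorem pol (j : ℕ) : ∀ w ∈ γ (FreeGroup Bool) (j + 1), Pol.{u} (j + 1) w := by
  induction j with
  | zero =>
    refine fun w => pol_of_comm fun x _ g => ?_
    obtain ⟨α, β, h⟩ := ι_φ.{u} x
    obtain ⟨α', β', h'⟩ := ι_φ.{u} g
    refine ⟨α * β' - β * α', fun G _ s a => ⟨fun _ => (α * β' - β * α') • ⁅ι 0 s, ι 0 a⁆, rfl,
      fun n hn _ => by rw [smul_comm, ← lie_nsmul, hn, lie_zero, smul_zero], fun k => ?_⟩⟩
    rw [map_commutatorElement, ← lie_ι (i := 0) (j := 0) (mem_top _) (mem_top _), h, h',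
      ι_pow (mem_top _)]
    simp only [lie_add, add_lie, lie_zsmul, zsmul_lie, lie_nsmul, nsmul_lie, lie_self, smul_zero,
      range_one, zero_add, sum_singleton, pow_one, add_zero]
    rw [← lie_skew (ι 0 a)]
    module
  | succ j ih =>
    refine fun w => pol_of_comm fun x hx g => ?_
    obtain ⟨m, hm⟩ := ih x hx
    obtain ⟨α, β, h⟩ := ι_φ.{u} g
    refine ⟨-(α * m), fun G _ s a => ?_⟩
    obtain ⟨v, h1, h2, h3⟩ := hm G s a
    refine ⟨fun d => (if d < j + 1 then α • ⁅v d, ι 0 s⁆ else 0) +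
      (if d = 0 then 0 else β • ⁅v (d - 1), ι 0 a⁆), ?_, fun n hn d => ?_, fun k => ?_⟩
    · dsimp only
      rw [Function.iterate_succ_apply', if_pos (by omega), if_pos rfl, h1, zsmul_lie,
        ← lie_skew (ι 0 s)]
      module
    · rw [smul_add]
      split_ifs <;> simp only [smul_comm n, ← nsmul_lie, h2 n hn, zero_lie, smul_zero, add_zero]
    · rw [map_commutatorElement, ← lie_ι (i := j + 1) (j := 0) (φ_mem _ _ hx) (mem_top _), h3, h,
        ι_pow (mem_top _)]
      simp only [smul_add, sum_add_distrib]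
      rw [sum_range_succ _ (j + 1), sum_range_succ' _ (j + 1), if_neg (lt_irrefl _), if_pos rfl,
        smul_zero, add_zero, smul_zero, add_zero, lie_add, sum_lie, sum_lie]
      congr 1
      · refine sum_congr rfl fun d hd => ?_
        rw [if_pos (mem_range.1 hd), nsmul_lie, lie_zsmul]
      · refine sum_congr rfl fun d _ => ?_
        rw [if_neg d.succ_ne_zero, nsmul_lie, lie_zsmul, lie_nsmul, Nat.add_sub_cancel, pow_succ _ (d + 1)]
        module

variable {p : ℕ} [hp : Fact p.Prime]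

theorem vand {M : Type*} [AddCommGroup M] (v : ℕ → M) (hv : ∀ d, p • v d = 0)
    (h : ∀ k : ℕ, ∑ d ∈ range (p - 1), k ^ (d + 1) • v d = 0) : v 0 = 0 := by
  have hp2 := hp.out.two_le
  let N : ℕ → ℕ := fun d => ∑ x : (ZMod p)ˣ, (x : ZMod p).val ^ (p - 1 + d)
  have hN : ∀ d, (N d : ZMod p) = if p - 1 ∣ p - 1 + d then -1 else 0 := fun d => by
    have := FiniteField.sum_pow_units (ZMod p) (p - 1 + d)
    rw [ZMod.card] at this
    simpa [N] using this
  have h1 : ∑ d ∈ range (p - 1), N d • v d = 0 := by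
    have : ∑ x : (ZMod p)ˣ, (x : ZMod p).val ^ (p - 2) •
        ∑ d ∈ range (p - 1), (x : ZMod p).val ^ (d + 1) • v d = 0 := by simp [h]
    rw [← this]
    simp only [smul_sum, N, sum_smul]
    rw [sum_comm]
    refine sum_congr rfl fun x _ => sum_congr rfl fun d _ => ?_
    rw [← mul_smul, ← pow_add]
    congr 2; omega
  have h2 : ∀ n d, p ∣ n → n • v d = 0 := fun n d ⟨c, hc⟩ => by rw [hc, mul_comm, mul_smul, hv, smul_zero]
  rw [sum_eq_single 0 (fun d hd hd0 => h2 _ _ ((ZMod.natCast_eq_zero_iff _ _).1 (by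
    rw [hN, if_neg]
    rw [Nat.dvd_add_right dvd_rfl]
    exact fun hh => (Nat.le_of_dvd (by omega) hh).not_gt (mem_range.1 hd))))
    (fun hh => (hh (mem_range.2 (by omega))).elim)] at h1
  have h3 := h2 (N 0 + 1) 0 ((ZMod.natCast_eq_zero_iff _ _).1 (by
    rw [Nat.cast_add, hN, if_pos (by simp)]; simp))
  rwa [add_smul, h1, zero_add, one_smul] at h3

/-- the last Hall-Petresco word -/
theorem exists_word : ∃ c ∈ γ (FreeGroup Bool) (p - 1), ∀ (G : Type u) [Group G] (s a : G),
    (∀ g ∈ γ G 1, g ^ p = 1) → (s * a) ^ p = s ^ p * a ^ p * φ s a c := by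
  obtain ⟨c, hc, h0, h1, h⟩ := hall_petresco (H := ⊤) (mem_top (FreeGroup.of true))
    (mem_top (FreeGroup.of false))
  refine ⟨c p, hc p, fun G _ s a hG => ?_⟩
  have h2 := congrArg (φ s a) (h (p + 1) p p.lt_succ_self)
  rw [List.range_succ, List.map_append, List.prod_append] at h2
  simp only [map_pow, map_mul, List.map_cons, List.map_nil, List.prod_cons, List.prod_nil,
    Nat.choose_self, pow_one, mul_one, map_list_prod, List.map_map] at h2
  rw [List.prod_eq_one, one_mul] at h2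
  · simpa [φ] using h2
  · intro x hx
    obtain ⟨k, hk, rfl⟩ := List.mem_map.1 hx
    rcases k with _ | _ | k
    · simp [h0]
    · simp [h1]
    · obtain ⟨e, he⟩ := hp.out.dvd_choose_self (k := k + 2) (by omega) (List.mem_range.1 hk)
      have := hG _ (Subgroup.lowerCentralSeries_antitone ⊤ (show 1 ≤ k + 1 by omega) (φ_mem s a (hc (k + 2))))
      simp [he, pow_mul, this]

theorem wr_pow {D Q : Type*} [CommGroup D] [Group Q] (x : D ≀ᵣ Q) (n : ℕ) (y : Q) :
    (x ^ n).left y = ∏ i ∈ range n, x.left ((x.right ^ i)⁻¹ * y) := by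
  induction n with
  | zero => rfl
  | succ n ih =>
    rw [pow_succ, RegularWreathProduct.mul_left, Pi.mul_apply, ih, prod_range_succ]
    exact congrArg (fun q => _ * x.left (q⁻¹ * y)) (map_pow RegularWreathProduct.rightHom x n)

theorem wr_pow' {D Q : Type*} [CommGroup D] [Group Q] [Fintype Q] (x : D ≀ᵣ Q) {n : ℕ}
    (hn : Fintype.card Q = n) (hx : orderOf x.right = n) (y : Q) :
    (x ^ n).left y = ∏ q, x.left q := by
  classical
  have hi : Set.InjOn (fun i => (x.right ^ i)⁻¹ * y) (range n) := fun i hi j hj e =>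
    pow_injOn_Iio_orderOf (x := x.right) (by simpa [hx] using hi) (by simpa [hx] using hj)
      (by simpa using e)
  rw [wr_pow, ← prod_image hi, eq_univ_of_card (image _ (range n))
    (by rw [card_image_of_injOn hi, card_range, hn])]

/-- the Engel congruence in groups of exponent `p` -/
theorem engel_mem {G : Type u} [Group G] (hG : ∀ g : G, g ^ p = 1) (s a : G) :
    (fun y => ⁅s, y⁆)^[p - 1] a ∈ γ G p := by
  classical
  have hp2 := hp.out.two_le
  obtain ⟨c, hc, h⟩ := exists_word.{u} (p := p)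
  obtain ⟨m, hm⟩ : Pol.{u} (p - 1) c := by
    have := pol.{u} (p - 2) c (by rwa [show p - 2 + 1 = p - 1 by omega])
    rwa [show p - 2 + 1 = p - 1 by omega] at this
  have hι : ∀ (G : Type u) [Group G] (s a : G) (j : ℕ), (fun y => ⁅s, y⁆)^[j] a ∈ γ G j ∧
      ι j ((fun y => ⁅s, y⁆)^[j] a) = (fun x => ⁅ι 0 s, x⁆)^[j] (ι 0 a) := fun G _ s a j => by
    induction j with
    | zero => exact ⟨mem_top _, rfl⟩
    | succ j ih =>
      rw [Function.iterate_succ_apply', Function.iterate_succ_apply', ← ih.2,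
        lie_ι (mem_top _) ih.1, zero_add]
      exact ⟨by simpa using comm_mem_γ (i := 0) (mem_top s) ih.1, rfl⟩
  have hpm : ¬ (p : ℤ) ∣ m := by
    rintro ⟨e, he⟩
    let D := ULift.{u} (Multiplicative (ZMod p))
    let Q := Multiplicative (ZMod p)
    let d0 : D := ULift.up (Multiplicative.ofAdd 1)
    let S : D ≀ᵣ Q := RegularWreathProduct.inl (Multiplicative.ofAdd 1)
    let A : D ≀ᵣ Q := ⟨Pi.mulSingle 1 d0, 1⟩
    let z : D ≀ᵣ Q := ⟨fun _ => d0, 1⟩
    have hQ : Fintype.card Q = p := by simp [Q]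
    have hD : ∀ d : D, d ^ p = 1 := fun d => by
      have := pow_card_eq_one' (x := d)
      rwa [Nat.card_ulift, Nat.card_eq_fintype_card, hQ] at this
    have hb : ∀ (x : D ≀ᵣ Q) (k : ℕ), x.right = 1 → x ^ k = ⟨x.left ^ k, 1⟩ := fun x k hx => by
      refine RegularWreathProduct.ext (funext fun y => by simp [wr_pow, hx]) ?_
      exact (map_pow RegularWreathProduct.rightHom x k).trans (by
        rw [RegularWreathProduct.rightHom_eq_right, hx, one_pow])
    have hb' : ∀ x : D ≀ᵣ Q, x.right = 1 → x ^ p = 1 := fun x hx => by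
      rw [hb x p hx]; exact RegularWreathProduct.ext (funext fun y => hD _) rfl
    have hγ : ∀ g ∈ γ (D ≀ᵣ Q) 1, g ^ p = 1 := fun g hg => hb' g
      (Abelianization.commutator_subset_ker RegularWreathProduct.rightHom hg)
    have hQp : ∀ q : Q, q ^ p = 1 := fun q => by simpa only [hQ] using pow_card_eq_one (x := q)
    have hS : S ^ p = 1 := by rw [← map_pow, hQp, map_one]
    have hz : ∀ k : ℕ, φ S (A ^ k) c = z ^ k := fun k => by
      have h1 := h _ S (A ^ k) hγ
      rw [hS, ← pow_mul, mul_comm k, pow_mul, hb' A rfl, one_pow, one_mul, one_mul] at h1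
      have hr : (S * A ^ k).right = Multiplicative.ofAdd 1 := by rw [hb A k rfl]; simp [S]
      rw [← h1, hb z k rfl]
      refine RegularWreathProduct.ext (funext fun y => ?_) ?_
      · rw [wr_pow' _ hQ (by rw [hr, orderOf_ofAdd_eq_addOrderOf, ZMod.addOrderOf_one]),
          hb A k rfl]
        simp only [S, RegularWreathProduct.mul_left, RegularWreathProduct.left_inl, one_mul,
          RegularWreathProduct.right_inl, Pi.pow_apply, prod_pow]
        erw [Equiv.prod_comp (Equiv.mulLeft (Multiplicative.ofAdd 1 : Q)⁻¹) A.left]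
        simp [A, z]
      · exact (map_pow RegularWreathProduct.rightHom _ p).trans (hQp _)
    obtain ⟨v, h1, h2, h3⟩ := hm _ S A
    have hA : p • ι 0 A = 0 := by rw [← ι_pow (mem_top _), hb' A rfl, ι_one]
    have hzm : z ∈ γ _ (p - 1) := by
      have := φ_mem S (A ^ 1) hc
      rwa [hz 1, pow_one] at this
    have h4 := vand (p := p) (Function.update v 0 (v 0 - ι (p - 1) z)) (fun d => by
      rcases eq_or_ne d 0 with rfl | hd
      · rw [Function.update_self, smul_sub, h2 p hA, ← ι_pow hzm, hb' z rfl, ι_one, sub_zero]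
      · rw [Function.update_of_ne hd, h2 p hA]) (fun k => by
      have h5 := h3 k
      rw [hz, ι_pow hzm, show p - 1 = p - 2 + 1 by omega, sum_range_succ'] at h5
      rw [show p - 1 = p - 2 + 1 by omega, sum_range_succ', Function.update_self, smul_sub,
        zero_add, pow_one, h5]
      simp)
    rw [Function.update_self, h1, ← (hι _ S A _).2, he, mul_comm, mul_smul, natCast_zsmul,
      ← ι_pow (hι _ S A _).1, hγ _ (Subgroup.lowerCentralSeries_antitone ⊤ (by omega) (hι _ S A _).1), ι_one,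
      smul_zero, zero_sub, neg_eq_zero, ι_eq_zero_iff hzm, Nat.sub_add_cancel hp.out.pos] at h4
    have hcard : Nat.card (D ≀ᵣ Q) = p ^ (p - 1 + 2) := by
      rw [RegularWreathProduct.card, Nat.card_ulift, Nat.card_eq_fintype_card, hQ, ← pow_succ]
      congr 1; omega
    have := (IsPGroup.of_card hcard).isNilpotent
    have h5 := Subgroup.lowerCentralSeries_eq_bot_iff_nilpotencyClass_le.2
      (GT.PG.nilpotencyClass_le_of_card hcard)
    rw [Nat.sub_add_cancel hp.out.pos] at h5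
    have h6 : z = 1 := mem_bot.1 (h5 ▸ h4)
    have h7 : (1 : ZMod p) = 0 := congrArg (fun x : D ≀ᵣ Q => Multiplicative.toAdd (x.left 1).down) h6
    exact one_ne_zero h7
  obtain ⟨v, h1, h2, h3⟩ := hm G s a
  have h4 := vand (p := p) v (h2 p (by rw [← ι_pow (mem_top _), hG, ι_one])) fun k => by
    have := h G s (a ^ k) fun g _ => hG g
    rw [hG, hG, hG, one_mul, one_mul] at this
    rw [← h3, ← this, ι_one]
  rw [h1, ← (hι G s a _).2] at h4
  have h5 : (p : ℤ) • ι (p - 1) ((fun y => ⁅s, y⁆)^[p - 1] a) = 0 := by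
    rw [natCast_zsmul, ← ι_pow (hι G s a _).1, hG, ι_one]
  obtain ⟨x, y, hxy⟩ := (Nat.prime_iff_prime_int.1 hp.out).irreducible.coprime_iff_not_dvd.2 hpm
  have h6 := (ι_eq_zero_iff (hι G s a (p - 1)).1).1 (by
    rw [← one_smul ℤ (ι _ _), ← hxy, add_smul, mul_smul, mul_smul, h4, h5, smul_zero, smul_zero,
      add_zero])
  rwa [Nat.sub_add_cancel hp.out.pos] at h6

end Cfsg.Agent.FG.Engel
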