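import Mathlib
import Cfsg.Agent.Inv.FzBasic
import Cfsg.Agent.FT.Pi
import Cfsg.Agent.FG.H93Cyc
import Cfsg.Agent.GT.Fitting
import Cfsg.Agent.GT.PGroupIso
import Cfsg.Agent.GT.PGroupCyclicNormal
import Cfsg.Agent.GT.Supersolvable2

/-!
Groups whose (abelian) subgroups of equal order are conjugate: reductions and the case of rank one.
-/

set_option autoImplicit false
set_option linter.unusedSectionVars false

namespace Cfsg.Agent.FG.EqO

open Subgroup Cfsg.Agent.Inv.Fz Cfsg.Agent.GT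

variable {G : Type*} [Group G] [Finite G] {H : Type*} [Group H]

/-- Abelian subgroups of equal order are conjugate. -/
def PA (G : Type*) [Group G] : Prop :=
  ∀ A B : Subgroup G, IsMulCommutative A → IsMulCommutative B → Nat.card A = Nat.card B → ∃ g, B = cj g A

/-- Subgroups of equal order are conjugate. -/
def PB (G : Type*) [Group G] : Prop := ∀ A B : Subgroup G, Nat.card A = Nat.card B → ∃ g, B = cj g A

/-- Cyclic subgroups of order four are conjugate. -/
def C4 (G : Type*) [Group G] : Prop := ∀ x y : G, orderOf x = 4 → orderOf y = 4 → ∃ g, zpowers y = cj g (zpowers x)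

/-- All ranks are at most one. -/
def R1 (G : Type*) [Group G] : Prop := ∀ p : ℕ, p.Prime → PRankLE p 1 G

omit [Finite G] in
theorem map_cj (f : G →* H) (g : G) (A : Subgroup G) : (cj g A).map f = cj (f g) (A.map f) := by
  simp only [cj, map_map]; congr 1; ext x; simp

theorem PA.zp (h : PA G) {x y : G} (e : orderOf x = orderOf y) : ∃ g, zpowers y = cj g (zpowers x) :=
  h _ _ inferInstance inferInstance (by rw [Nat.card_zpowers, Nat.card_zpowers, e])

theorem PA.c4 (h : PA G) : C4 G := fun _ _ a b => h.zp (a.trans b.symm)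

theorem mem_of_cj {N : Subgroup G} [N.Normal] {x y g : G} (e : zpowers y = cj g (zpowers x)) (hx : x ∈ N) : y ∈ N :=
  (e.le.trans ((cj_mono (zpowers_le.2 hx)).trans (cj_eq_of_normal g N).le)) (mem_zpowers y)

theorem PA.mem (h : PA G) {N : Subgroup G} [N.Normal] {x y : G} (hx : x ∈ N) (e : orderOf x = orderOf y) : y ∈ N :=
  (h.zp e).elim fun _ e => mem_of_cj e hx

theorem PA.of_lift (h : PA G) (f : G →* H) (c : ℕ → ℕ) (l : ∀ A : Subgroup H, IsMulCommutative A →
    ∃ A' : Subgroup G, IsMulCommutative A' ∧ A'.map f = A ∧ Nat.card A' = c (Nat.card A)) : PA H := fun A B a b e => by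
  obtain ⟨A', a1, rfl, a3⟩ := l A a
  obtain ⟨B', b1, rfl, b3⟩ := l B b
  obtain ⟨g, rfl⟩ := h A' B' a1 b1 (by rw [a3, b3, e])
  exact ⟨f g, map_cj f g A'⟩

theorem PA.of_sec (h : PA G) (f : G →* H) (σ : H →* G) (e : ∀ x, f (σ x) = x) : PA H :=
  h.of_lift f id fun A _ => ⟨A.map σ, inferInstance, by
    rw [map_map, show f.comp σ = MonoidHom.id H from MonoidHom.ext e, map_id],
    card_map_of_injective (Function.LeftInverse.injective e)⟩

theorem PB.of_surj (h : PB G) {f : G →* H} (hf : Function.Surjective f) : PB H := fun A B e => by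
  have k : ∀ A : Subgroup H, Nat.card (A.comap f) = Nat.card A * Nat.card f.ker := fun A => by
    rw [← card_map_mul_card_inf_ker (A.comap f) f, map_comap_eq_self_of_surjective hf, inf_eq_right.2 (ker_le_comap f A)]
  obtain ⟨g, hg⟩ := h (A.comap f) (B.comap f) (by rw [k, k, e])
  exact ⟨f g, by rw [← map_comap_eq_self_of_surjective hf B, hg, map_cj, map_comap_eq_self_of_surjective hf]⟩

omit [Finite G] in
theorem PB.sub {M A B : Subgroup G} (h : PB M) (a : A ≤ M) (b : B ≤ M) (e : Nat.card A = Nat.card B) :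
    ∃ g ∈ M, B = cj g A := by
  obtain ⟨g, hg⟩ := h (A.subgroupOf M) (B.subgroupOf M) (by
    rw [Nat.card_congr (subgroupOfEquivOfLe a).toEquiv, Nat.card_congr (subgroupOfEquivOfLe b).toEquiv, e])
  have := congrArg (map M.subtype) hg
  rw [map_cj, map_subgroupOf_eq_of_le a, map_subgroupOf_eq_of_le b] at this
  exact ⟨g, g.2, this⟩

theorem exists_sec (Y : Subgroup G) [Y.Normal] (c : (Nat.card Y).Coprime Y.index) :
    ∃ σ : G ⧸ Y →* G, ∀ x, QuotientGroup.mk' Y (σ x) = x := by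
  obtain ⟨L, hL⟩ := exists_right_complement'_of_coprime c
  let φ := MulEquiv.ofBijective ((QuotientGroup.mk' Y).comp L.subtype) ⟨(injective_iff_map_eq_one _).2 fun x hx =>
    Subtype.ext (disjoint_def.1 hL.disjoint ((QuotientGroup.eq_one_iff _).1 hx) x.2), fun x => by
      obtain ⟨g, rfl⟩ := QuotientGroup.mk_surjective x
      obtain ⟨⟨y, l⟩, rfl⟩ := hL.2 g
      exact ⟨l, by simp [(QuotientGroup.eq_one_iff (y : G)).2 y.2]⟩⟩
  exact ⟨L.subtype.comp φ.symm.toMonoidHom, φ.apply_symm_apply⟩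

theorem card_inf_eq {Y A B : Subgroup G} [Y.Normal] (c : (Nat.card Y).Coprime Y.index) (e : Nat.card A = Nat.card B) :
    Nat.card (A ⊓ Y : Subgroup G) = Nat.card (B ⊓ Y : Subgroup G) := by
  have k : ∀ A B : Subgroup G, Nat.card A = Nat.card B → Nat.card (A ⊓ Y : Subgroup G) ∣ Nat.card (B ⊓ Y : Subgroup G) :=
    fun A B e => by
      have := card_map_mul_card_inf_ker B (QuotientGroup.mk' Y)
      rw [QuotientGroup.ker_mk'] at this
      exact ((c.coprime_dvd_left (card_dvd_of_le inf_le_right)).coprime_dvd_right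
        (card_subgroup_dvd_card _)).dvd_of_dvd_mul_left (by rw [this, ← e]; exact card_dvd_of_le inf_le_left)
  exact Nat.dvd_antisymm (k A B e) (k B A e.symm)

theorem PB.of_hall (Y : Subgroup G) [Y.Normal] [Group.IsSolvable Y] (c : (Nat.card Y).Coprime Y.index)
    (h1 : ∀ U ≤ Y, ∀ V ≤ Y, Nat.card U = Nat.card V → ∃ g, V = cj g U) (h2 : ∀ U ≤ Y, Y ≤ normalizer (U : Set G))
    (h3 : ∀ U ≤ Y, PB ((normalizer (U : Set G)).map (QuotientGroup.mk' Y))) : PB G := by
  have cop : ∀ A : Subgroup G, (Nat.card Y).Coprime (Nat.card (A.map (QuotientGroup.mk' Y))) := fun A =>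
    c.coprime_dvd_right (card_subgroup_dvd_card _)
  have k0 : ∀ A : Subgroup G, Nat.card (A.map (QuotientGroup.mk' Y)) * Nat.card (A ⊓ Y : Subgroup G) = Nat.card A :=
    fun A => by simpa using card_map_mul_card_inf_ker A (QuotientGroup.mk' Y)
  have nm : ∀ A : Subgroup G, A ≤ normalizer ((A ⊓ Y : Subgroup G) : Set G) := fun A a ha =>
    cj_eq_iff.1 (by rw [cj_inf, cj_eq_of_mem ha, cj_eq_of_normal])
  have sp : ∀ A : Subgroup G, ∃ A', (A ⊓ Y) ⊔ A' = A ∧ (Nat.card Y).Coprime (Nat.card A') := fun A => by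
    obtain ⟨A', h⟩ := FT.SchurZassenhaus_split (N := A ⊓ Y) ⟨inf_le_left, nm A⟩ (by
      have := k0 A
      rw [← FT.card_mul_relIndex_of_le (inf_le_left : A ⊓ Y ≤ A), mul_comm, Nat.mul_right_inj Nat.card_pos.ne'] at this
      exact this ▸ (cop A).coprime_dvd_left (card_dvd_of_le inf_le_right))
    refine ⟨A', h.sup_eq, ?_⟩
    rw [← k0 A', show A' ⊓ Y = ⊥ from eq_bot_iff.2 fun x hx => h.inf_eq.le ⟨⟨(le_sup_right.trans h.sup_eq.le) hx.1, hx.2⟩, hx.1⟩,
      card_bot, mul_one]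
    exact cop A'
  have k2 : ∀ A B : Subgroup G, Nat.card A = Nat.card B → A ⊓ Y = B ⊓ Y → A ≤ Y ⊔ B → ∃ g, B = cj g A := fun A B e a b => by
    obtain ⟨A', a1, a2⟩ := sp A
    obtain ⟨B', b1, b2⟩ := sp B
    obtain ⟨y, hy, le⟩ := FT.SchurZassenhaus_Jsub (N := Y) (H := B') (K := A') le_normalizer_of_normal b2 a2
      ((le_sup_right.trans a1.le).trans (b.trans (sup_le le_sup_left (b1.ge.trans (sup_le_sup_right inf_le_right _)))))
      (Or.inl inferInstance)
    refine ⟨y, (eq_of_le_of_card_ge ?_ (by rw [card_cj, e])).symm⟩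
    rw [← a1, cj_sup, cj_eq_iff.2 (h2 _ inf_le_right hy), a]
    exact (sup_le_sup_left le _).trans b1.le
  have k1 : ∀ A B : Subgroup G, Nat.card A = Nat.card B → A ⊓ Y = B ⊓ Y → ∃ g, B = cj g A := fun A B e a => by
    obtain ⟨_, ⟨m, hm, rfl⟩, hg⟩ := (h3 _ inf_le_right).sub (map_mono (nm A)) (map_mono (a ▸ nm B))
      (Nat.eq_of_mul_eq_mul_right Nat.card_pos (by rw [k0 A, a, k0 B, e]))
    obtain ⟨g, hg⟩ := k2 (cj m A) B (by rw [card_cj, e]) (by rw [← a, ← cj_eq_iff.2 hm, cj_inf, cj_eq_of_normal m Y]) (by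
      rw [← map_cj] at hg
      simpa [sup_comm] using map_le_map_iff.1 hg.ge)
    exact ⟨g * m, by rw [hg, cj_cj]⟩
  intro A B e
  obtain ⟨g, hg⟩ := h1 _ inf_le_right _ inf_le_right (card_inf_eq c e)
  obtain ⟨k, hk⟩ := k1 (cj g A) B (by rw [card_cj, e]) (by rw [hg, cj_inf, cj_eq_of_normal g Y])
  exact ⟨k * g, by rw [hk, cj_cj]⟩

theorem pb_cyclic {A : Subgroup G} [IsCyclic A] {U V : Subgroup G} (a : U ≤ A) (b : V ≤ A) (e : Nat.card U = Nat.card V) :
    ∃ g, V = cj g U := ⟨1, by rw [cj_one, H93.eq_of_card_eq_of_isCyclic a b e]⟩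

theorem le_norm_of_comm {Y U : Subgroup G} [IsMulCommutative Y] (h : U ≤ Y) : Y ≤ normalizer (U : Set G) :=
  ((le_centralizer Y).trans (centralizer_le h)).trans (centralizer_le_normalizer _)

theorem pb_of_isZGroup [IsZGroup G] : PB G := by
  have := IsZGroup.isCyclic_commutator (G := G)
  have : IsCyclic (G ⧸ commutator G) := IsZGroup.isCyclic_abelianization (G := G)
  exact PB.of_hall (commutator G) (IsZGroup.coprime_commutator_index G) (fun U a V b => pb_cyclic a b)
    (fun U => le_norm_of_comm) fun U _ A B => pb_cyclic le_top le_top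

theorem R1.zgroup (h : R1 G) (h2 : ∀ T : Sylow 2 G, IsCyclic T) : IsZGroup G := ⟨fun p hp P => by
  have := Fact.mk hp
  by_cases e : p = 2
  · subst e; exact h2 P
  · exact PG.isCyclic_of_pRankLE_one_of_odd e P.isPGroup' ((h p hp).subgroup _)⟩

theorem R1.pb_odd (h : R1 G) (h2 : ¬ 2 ∣ Nat.card G) : PB G := by
  have := h.zgroup fun S => by
    have := (Nat.card_eq_one_iff_unique.1 (S.isPGroup'.card_eq_or_dvd.resolve_right fun e =>
      h2 (e.trans (card_subgroup_dvd_card _)))).1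
    infer_instance
  exact pb_of_isZGroup

/-- Generators of a generalised quaternion subgroup. -/
structure QG (T : Subgroup G) (a b : G) (k : ℕ) : Prop where
  ha : a ∈ T
  hb : b ∈ T
  ord : orderOf a = 4 * k
  nb : b ∉ zpowers a
  inv : b * a * b⁻¹ = a⁻¹
  sq : b ^ 2 = a ^ (2 * k)
  two : ∀ x ∈ T, ∀ y ∈ T, x * y ∈ zpowers a ↔ (x ∈ zpowers a ↔ y ∈ zpowers a)
  par : k = 1 ∨ Even k
  iso : Nonempty (T ≃* QuaternionGroup (2 * k))

theorem exists_qg {T : Subgroup G} (hT : IsPGroup 2 T) (r : PRankLE 2 1 T) (nc : ¬ IsCyclic T) : ∃ a b k, QG T a b k := by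
  obtain ⟨-, m, hm, ⟨e⟩⟩ := (PG.isCyclic_or_quaternion_of_pRankLE_one hT r).resolve_left nc
  obtain ⟨m, rfl⟩ := Nat.exists_eq_add_of_le' hm
  rw [pow_succ'] at e
  obtain ⟨a, b, h1, h2, h3, h4, h5⟩ := PG.exists_generators_of_quaternion e
  have k : ∀ x : T, (x : G) ∈ zpowers (a : G) ↔ x ∈ zpowers a := fun x => by
    rw [← coe_subtype, ← MonoidHom.map_zpowers, mem_map_iff_mem T.subtype_injective]
  refine ⟨a, b, 2 ^ m, a.2, b.2, by rw [orderOf_coe, h1]; ring, fun e => h3 ((k b).1 e), congrArg Subtype.val h4,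
    congrArg Subtype.val h5, fun x hx y hy => ?_, ?_, ⟨e⟩⟩
  · exact (k (⟨x, hx⟩ * ⟨y, hy⟩)).trans ((mul_mem_iff_of_index_two h2).trans (iff_congr (k ⟨x, hx⟩).symm (k ⟨y, hy⟩).symm))
  · rcases m with _ | m
    exacts [Or.inl rfl, Or.inr (by simp [Nat.even_pow])]

namespace QG

variable {T : Subgroup G} {a b : G} {k : ℕ} (q : QG T a b k)
include q

theorem pos : 0 < k := by have := orderOf_pos a; rw [q.ord] at this; omega

theorem card : Nat.card T = 8 * k := by
  obtain ⟨e⟩ := q.iso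
  have : NeZero (2 * k) := ⟨by have := q.pos; omega⟩
  rw [Nat.card_congr e.toEquiv, Nat.card_eq_fintype_card, QuaternionGroup.card]; ring

theorem sq_out {t : G} (ht : t ∈ T) (n : t ∉ zpowers a) : t ^ 2 = a ^ (2 * k) := by
  obtain ⟨i, hi⟩ := (q.two t ht b⁻¹ (inv_mem q.hb)).2 (iff_of_false n fun e => q.nb (inv_mem_iff.1 e))
  have : b * a ^ i * b⁻¹ = (a ^ i)⁻¹ := by rw [← conj_zpow, q.inv, inv_zpow]
  rw [← q.sq, show t = a ^ i * b from (mul_inv_eq_iff_eq_mul.1 hi.symm)]
  calc _ = a ^ i * (b * a ^ i * b⁻¹) * b ^ 2 := by rw [pow_two, pow_two]; group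
    _ = _ := by rw [this]; group

theorem ord_k : orderOf (a ^ k) = 4 := by
  rw [orderOf_pow_of_dvd q.pos.ne' (q.ord ▸ Dvd.intro_left 4 rfl), q.ord, Nat.mul_div_cancel _ q.pos]

theorem ord_out {t : G} (ht : t ∈ T) (n : t ∉ zpowers a) : orderOf t = 4 := by
  have := Fact.mk Nat.prime_two
  refine orderOf_eq_prime_pow (p := 2) (n := 1) (fun e => ?_) ?_
  · have := Nat.le_of_dvd (by have := q.pos; omega) (orderOf_dvd_of_pow_eq_one ((q.sq_out ht n).symm.trans e))
    have := q.pos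
    rw [q.ord] at *; omega
  · rw [pow_succ, pow_mul, pow_one, q.sq_out ht n, ← pow_mul, ← orderOf_dvd_iff_pow_eq_one, q.ord]
    exact ⟨1, by ring⟩

theorem nab : a * b ∉ zpowers a := fun e => q.nb ((mul_mem_cancel_left (mem_zpowers a)).1 e)

theorem le_of (c : C4 G) {N : Subgroup G} [N.Normal] {x : G} (hx : x ∈ N) (o : orderOf x = 4) : T ≤ N := by
  have k : ∀ t ∈ T, t ∉ zpowers a → t ∈ N := fun t ht n => (c x t o (q.ord_out ht n)).elim fun _ e => mem_of_cj e hx
  have : zpowers a ≤ N := zpowers_le.2 ((mul_mem_cancel_right (k b q.hb q.nb)).1 (k _ (mul_mem q.ha q.hb) q.nab))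
  exact fun t ht => (em _).elim (fun e => this e) (k t ht)

theorem le_commutator (c : C4 G) : T ≤ commutator G := by
  obtain ⟨g, hg⟩ := c b (a * b) (q.ord_out q.hb q.nb) (q.ord_out (mul_mem q.ha q.hb) q.nab)
  obtain ⟨_, ⟨n, rfl⟩, e⟩ := hg.le (mem_zpowers _)
  replace e : g * b ^ n * g⁻¹ = a * b := e
  let φ : G →* Abelianization G := Abelianization.of
  have h1 : φ a * φ a = 1 := by
    have := congrArg φ q.inv
    rwa [map_mul, map_mul, map_inv, map_inv, mul_inv_cancel_comm, eq_inv_iff_mul_eq_one] at this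
  have h2 : φ b ^ 2 = 1 := by rw [← map_pow, q.sq, map_pow, pow_mul, pow_two, h1, one_pow]
  refine q.le_of c (pow_mem (?_ : a ∈ commutator G) k) q.ord_k
  obtain ⟨m, rfl | rfl⟩ := Int.even_or_odd' n
  · have := Nat.le_of_dvd two_pos (orderOf_dvd_of_pow_eq_one (x := a * b) (n := 2) (by
      rw [← e, conj_pow, ← zpow_natCast, ← zpow_mul, show 2 * m * (2 : ℕ) = (4 : ℕ) * m by push_cast; ring, zpow_mul,
        zpow_natCast, ← q.ord_out q.hb q.nb, pow_orderOf_eq_one]; simp))
    rw [q.ord_out (mul_mem q.ha q.hb) q.nab] at this; omega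
  · have := congrArg φ e
    rw [map_mul, map_mul, map_mul, map_inv, mul_inv_cancel_comm, map_zpow, zpow_add_one, zpow_mul, zpow_ofNat, h2, one_zpow,
      mul_left_inj] at this
    rw [← Abelianization.ker_of]; exact this.symm

theorem eq_one (c : C4 G) [hT : T.Normal] : k = 1 := q.par.resolve_right fun ⟨m, hm⟩ => by
  obtain ⟨g, hg⟩ := c (a ^ k) b q.ord_k (q.ord_out q.hb q.nb)
  have m1 := hT.conj_mem _ (pow_mem q.ha m) g
  rw [cj_zpowers, hm, pow_add, ← conj_mul] at hg
  exact q.nb (zpowers_le.2 ((q.two _ m1 _ m1).2 Iff.rfl) (hg.le (mem_zpowers b)))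

omit q in
theorem eq_of_le (q : QG T a b 1) (r : PRankLE 2 1 T) (hT : IsPGroup 2 T) {U : Subgroup G} (le : U ≤ T) (nc : ¬ IsCyclic U) :
    U = T := by
  obtain ⟨_, _, k, q'⟩ := exists_qg (hT.to_le le) (r.of_le le) nc
  exact eq_of_le_of_card_ge le (by have := q'.pos; rw [q.card, q'.card]; omega)

omit q in
theorem norm (q : QG T a b 1) {U : Subgroup G} (le : U ≤ T) : T ≤ normalizer (U : Set G) := fun t ht => by
  obtain ⟨e⟩ := q.iso
  refine mem_normalizer_of_conj_mem fun u hu => ?_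
  have : ∀ t u : QuaternionGroup (2 * 1), t * u * t⁻¹ = u ∨ t * u * t⁻¹ = u⁻¹ := by decide
  rcases this (e ⟨t, ht⟩) (e ⟨u, le hu⟩) with h | h <;> simp only [← map_inv, ← map_mul, e.injective.eq_iff] at h <;>
    rw [show t * u * t⁻¹ = _ from congrArg Subtype.val h]
  exacts [hu, inv_mem hu]

end QG

theorem le_fitting [Group.IsSolvable G] {A : Subgroup G}
    (h : ∀ p : ℕ, p.Prime → A ≤ centralizer (pCore p G : Set G)) : A ≤ fittingSubgroup G :=
  (le_centralizer_iff.1 (fitting_le_iff.2 fun p hp => le_centralizer_iff.1 (h p hp))).trans centralizer_fitting_le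

theorem R1.normal [Group.IsSolvable G] (r : R1 G) (c : C4 G) (T : Sylow 2 G) (nc : ¬ IsCyclic T) :
    (T : Subgroup G).Normal ∧ ∃ a b, QG (T : Subgroup G) a b 1 := by
  obtain ⟨a, b, k, q⟩ := exists_qg T.isPGroup' ((r 2 Nat.prime_two).subgroup _) nc
  have le : (T : Subgroup G) ≤ pCore 2 G := by
    by_cases h : IsCyclic (pCore 2 G)
    · refine le_pCore_of_le_fitting T.isPGroup' ((q.le_commutator c).trans (le_fitting fun p hp => ?_))
      have := Fact.mk hp
      have : IsCyclic (pCore p G) := (em (p = 2)).elim (fun e => e ▸ h) fun e =>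
        PG.isCyclic_of_pRankLE_one_of_odd e (isPGroup_pCore p) ((r p hp).subgroup _)
      exact SS.commutator_le_centralizer_of_isCyclic _
    · obtain ⟨a', b', k', q'⟩ := exists_qg (isPGroup_pCore 2) ((r 2 Nat.prime_two).subgroup _) h
      exact q.le_of c q'.hb (q'.ord_out q'.hb q'.nb)
  have hn : (T : Subgroup G).Normal := T.is_maximal' (isPGroup_pCore 2) le ▸ inferInstance
  exact ⟨hn, a, b, q.eq_one c ▸ q⟩

theorem R1.of_sec (r : ∀ p : ℕ, p.Prime → p ∣ Nat.card H → PRankLE p 1 G) [Finite H] {σ : H →* G}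
    (hσ : Function.Injective σ) : R1 H := fun p hp => by
  by_cases e : p ∣ Nat.card H
  · exact (r p hp e).of_injective σ hσ
  · have := Fact.mk hp
    by_contra n
    obtain ⟨A, -, h⟩ := PG.not_pRankLE_iff.1 n
    exact e ((h ▸ dvd_pow_self p (by omega) : p ∣ Nat.card A).trans (card_subgroup_dvd_card A))

theorem R1.sub (r : R1 G) (M : Subgroup G) : R1 M := fun p hp => (r p hp).subgroup M

theorem R1.pb [Group.IsSolvable G] (r : R1 G) (c : C4 G) : PB G := by
  by_cases h : ∀ T : Sylow 2 G, IsCyclic T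
  · have := r.zgroup h
    exact pb_of_isZGroup
  obtain ⟨T, nc⟩ := not_forall.1 h
  obtain ⟨hn, a, b, q⟩ := r.normal c T nc
  have r2 := (r 2 Nat.prime_two).subgroup T
  obtain ⟨σ, hσ⟩ := exists_sec (T : Subgroup G) T.card_coprime_index
  refine PB.of_hall (T : Subgroup G) T.card_coprime_index (fun U hU V hV e => ?_) (fun U => q.norm) fun U _ => ?_
  · by_cases h1 : IsCyclic U
    · by_cases h2 : IsCyclic V
      · obtain ⟨x, rfl⟩ := U.isCyclic_iff_exists_zpowers_eq_top.1 h1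
        obtain ⟨y, rfl⟩ := V.isCyclic_iff_exists_zpowers_eq_top.1 h2
        rw [Nat.card_zpowers, Nat.card_zpowers] at e
        by_cases hx : x ∈ zpowers a
        · by_cases hy : y ∈ zpowers a
          · exact pb_cyclic (zpowers_le.2 hx) (zpowers_le.2 hy) (by rw [Nat.card_zpowers, Nat.card_zpowers, e])
          · exact c x y (e.trans (q.ord_out (zpowers_le.1 hV) hy)) (q.ord_out (zpowers_le.1 hV) hy)
        · exact c x y (q.ord_out (zpowers_le.1 hU) hx) (e.symm.trans (q.ord_out (zpowers_le.1 hU) hx))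
      · have := q.eq_of_le r2 T.isPGroup' hV h2
        exact absurd (eq_of_le_of_card_ge hU (by rw [e, this]) ▸ h1) nc
    · have := q.eq_of_le r2 T.isPGroup' hU h1
      exact ⟨1, by rw [cj_one, this, eq_of_le_of_card_ge hV (by rw [← e, this])]⟩
  · exact ((R1.of_sec (fun p hp _ => r p hp) (Function.LeftInverse.injective hσ)).sub _).pb_odd
      fun e => T.not_dvd_index (e.trans (card_subgroup_dvd_card _))

end Cfsg.Agent.FG.EqO
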