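import Mathlib
import Cfsg.Agent.FG.EqOA
import Cfsg.Agent.S3908
import Cfsg.Agent.GT.CoprimeGen
import Cfsg.Agent.GT.PGroupChain

/-!
Solvable groups whose abelian subgroups of equal order are conjugate.
-/

set_option autoImplicit false
set_option linter.unusedSectionVars false

namespace Cfsg.Agent.FG.EqO

open Subgroup Cfsg.Agent.Inv.Fz Cfsg.Agent.GT
open scoped IsMulCommutative

universe u

theorem pure {A : Type*} [CommGroup A] {α β γ : A →* A} (hα : ∀ u, α (u⁻¹ * α u) = u⁻¹ * α u → α u = u)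
    (b : ∀ u, α (β u) = β (α u)) (c : ∀ u, α (γ u) = γ (α u)) {u v : A} (hv : α v = v)
    (e : β (v * (u⁻¹ * α u)) = γ (v * (u⁻¹ * α u))) : β v = γ v := by
  have k : (γ u * (β u)⁻¹)⁻¹ * α (γ u * (β u)⁻¹) = β v * (γ v)⁻¹ := by
    simp only [map_mul, map_inv, b, c] at e ⊢
    rw [eq_mul_inv_iff_mul_eq, eq_mul_inv_of_mul_eq e]
    apply Additive.ofMul.injective
    simp only [ofMul_mul, ofMul_inv]; abel
  have := hα (γ u * (β u)⁻¹) (by rw [k, map_mul, map_inv, b, c, hv])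
  rwa [this, inv_mul_cancel, eq_comm, mul_inv_eq_one] at k

variable {G : Type u} [Group G] [Finite G] {p : ℕ}

theorem eq_one_of_cop {x u c : G} {m : ℕ} (e : x * u * x⁻¹ = u * c) (hc : x * c * x⁻¹ = c) (hm : c ^ m = 1)
    (cop : (orderOf x).Coprime m) : c = 1 := by
  have : ∀ n : ℕ, x ^ n * u * (x ^ n)⁻¹ = u * c ^ n := fun n => by
    induction n with
    | zero => simp
    | succ n ih =>
      calc _ = x * (x ^ n * u * (x ^ n)⁻¹) * x⁻¹ := by rw [pow_succ']; group
        _ = _ := by rw [ih, ← conj_mul, ← conj_pow, e, hc, pow_succ', mul_assoc]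
  have h := this (orderOf x)
  rw [pow_orderOf_eq_one, one_mul, inv_one, mul_one, left_eq_mul] at h
  exact orderOf_eq_one_iff.1 (Nat.eq_one_of_dvd_coprimes cop (orderOf_dvd_of_pow_eq_one h) (orderOf_dvd_of_pow_eq_one hm))

/-- Conjugation on a normal subgroup. -/
def al (Y : Subgroup G) [Y.Normal] (x : G) : Y →* Y := (MulAut.conjNormal x : MulAut Y).toMonoidHom

theorem al_fix {Y : Subgroup G} [Y.Normal] {x : G} (cop : (orderOf x).Coprime (Nat.card Y)) (u : Y)
    (h : al Y x (u⁻¹ * al Y x u) = u⁻¹ * al Y x u) : al Y x u = u :=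
  (inv_mul_eq_one.1 (Subtype.ext (eq_one_of_cop (x := x) (u := u) (c := (u⁻¹ * al Y x u : Y))
    (mul_inv_cancel_left _ _).symm (congrArg Subtype.val h) (congrArg Subtype.val (pow_card_eq_one' (G := Y))) cop))).symm

theorem mem_cen_of_al {Y : Subgroup G} [Y.Normal] {x : G} (h : ∀ u, al Y x u = u) : x ∈ centralizer (Y : Set G) :=
  mem_centralizer_iff.2 fun u hu => (mul_inv_eq_iff_eq_mul.1 (congrArg Subtype.val (h ⟨u, hu⟩))).symm

theorem cen_zp (v : G) : centralizer (zpowers v : Set G) = centralizer {v} := by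
  rw [zpowers_eq_closure, centralizer_closure]

theorem PA.no_ab [Fact p.Prime] (h : PA G) {Y O : Subgroup G} [Y.Normal] [O.Normal] (el : IsElementaryAbelian p Y)
    (hO : ⁅O, O⁆ ≤ Y) {x v : G} (hx : x ∈ O) (cop : (orderOf x).Coprime (Nat.card Y)) (hv : v ∈ Y) (v1 : v ≠ 1)
    (e : x * v = v * x) : x ∈ centralizer (Y : Set G) := by
  have := el.1
  have av : al Y x ⟨v, hv⟩ = ⟨v, hv⟩ := Subtype.ext (mul_inv_eq_iff_eq_mul.2 e)
  refine mem_cen_of_al fun u => al_fix cop u ?_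
  obtain ⟨s, hs⟩ : ∃ s, s = ⟨v, hv⟩ * (u⁻¹ * al Y x u) := ⟨_, rfl⟩
  suffices al Y x s = s by rwa [hs, map_mul, av, mul_right_inj] at this
  by_cases s1 : s = 1
  · rw [s1, map_one]
  obtain ⟨g, hg⟩ := h.zp ((el.orderOf_eq s.2 fun e => s1 (Subtype.ext e)).trans (el.orderOf_eq hv v1).symm)
  have le : O ⊓ centralizer {(s : G)} ≤ O ⊓ centralizer {v} := fun y hy => by
    have := pure (β := al Y y) (γ := MonoidHom.id Y) (al_fix cop) (fun t => Subtype.ext ?_) (fun _ => rfl) av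
      (hs ▸ (Subtype.ext (mul_inv_eq_iff_eq_mul.2 (mem_centralizer_singleton_iff.1 hy.2)) : al Y y s = MonoidHom.id Y s))
    · exact ⟨hy.1, mem_centralizer_singleton_iff.2 (mul_inv_eq_iff_eq_mul.1 (congrArg Subtype.val this))⟩
    · have := el.comm (hO (commutator_mem_commutator (inv_mem hx) (inv_mem hy.1))) t.2
      rw [commutatorElement_def] at this
      change x * (y * t * y⁻¹) * x⁻¹ = y * (x * t * x⁻¹) * y⁻¹
      calc _ = y * x * (x⁻¹ * y⁻¹ * x⁻¹⁻¹ * y⁻¹⁻¹ * t) * y⁻¹ * x⁻¹ := by group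
        _ = _ := by rw [this]; group
  have := eq_of_le_of_card_ge le (by rw [← cen_zp v, hg, ← cj_centralizer, ← cj_eq_of_normal g O, ← cj_inf, card_cj,
    cj_eq_of_normal g O, cen_zp])
  exact Subtype.ext (mul_inv_eq_iff_eq_mul.2 (mem_centralizer_singleton_iff.1
    (this.ge ⟨hx, mem_centralizer_singleton_iff.2 e⟩).2))

theorem scal [Fact p.Prime] {Y : Subgroup G} [Y.Normal] (el : IsElementaryAbelian p Y) {x v : G}
    (hx : ∀ s ∈ Y, x * s * x⁻¹ ∈ zpowers s) (cop : (orderOf x).Coprime (Nat.card Y)) (hv : v ∈ Y) (v1 : v ≠ 1)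
    (e : x * v = v * x) : x ∈ centralizer (Y : Set G) := by
  have := el.1
  have av : al Y x ⟨v, hv⟩ = ⟨v, hv⟩ := Subtype.ext (mul_inv_eq_iff_eq_mul.2 e)
  refine mem_cen_of_al fun u => al_fix cop u ?_
  obtain ⟨s, hs⟩ : ∃ s, s = ⟨v, hv⟩ * (u⁻¹ * al Y x u) := ⟨_, rfl⟩
  suffices al Y x s = s by rwa [hs, map_mul, av, mul_right_inj] at this
  obtain ⟨c, hc⟩ := hx s s.2
  have e1 : al Y x s = zpowGroupHom c s := Subtype.ext hc.symm
  have e2 := congrArg Subtype.val (av.symm.trans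
    (pure (γ := zpowGroupHom c) (al_fix cop) (fun _ => rfl) (fun t => map_zpow _ _ _) av (hs ▸ e1)))
  have e3 : v ^ (c - 1) = 1 := by rw [zpow_sub_one, mul_inv_eq_one]; exact e2.symm
  rw [← orderOf_dvd_iff_zpow_eq_one, el.orderOf_eq hv v1] at e3
  obtain ⟨d, hd⟩ := e3
  rw [e1, zpowGroupHom_apply, show c = p * d + 1 by omega, zpow_add_one, zpow_mul, zpow_natCast,
    show s ^ p = 1 from Subtype.ext (el.2 _ s.2), one_zpow, one_mul]

theorem norm_zp [hp : Fact p.Prime] {Y U : Subgroup G} [hY : Y.Normal] (el : IsElementaryAbelian p Y) (le : U ≤ Y)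
    (n1 : U ≠ ⊥) (n2 : ¬ Y ≤ U) {t : G} (ht : ∀ V ≤ Y, Nat.card V = Nat.card U → t ∈ normalizer (V : Set G)) :
    ∀ s ∈ Y, t * s * t⁻¹ ∈ zpowers s := fun s hs => by
  by_contra n
  obtain ⟨M, m1, m2, m3, m4, -⟩ := el.exists_hyperplane (zpowers_le.2 hs) (hY.conj_mem s hs t) n
  obtain ⟨j, hj⟩ := (el.mono le).card_eq_pow
  obtain ⟨m, hm⟩ := (el.mono m2).card_eq_pow
  have h1 := FT.card_mul_relIndex_of_le m2
  have h2 : Nat.card U < Nat.card Y := lt_of_not_ge fun e => n2 (eq_of_le_of_card_ge le e).ge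
  rw [← h1, hj, hm, m3, ← pow_succ, Nat.pow_lt_pow_iff_right hp.out.one_lt] at h2
  obtain ⟨K, k1, k2, k3⟩ := PG.exists_card_eq_pow_between (el.mono m2).isPGroup m1 (k := j) (by
    rw [Nat.card_zpowers, el.orderOf_eq hs (by rintro rfl; simp at n)]
    exact Nat.le_self_pow (by rintro rfl; exact n1 (card_eq_one.1 hj)) p) (hm ▸ Nat.pow_le_pow_right hp.out.pos (by omega))
  exact m4 (k2 ((mem_normalizer_iff.1 (ht K (k2.trans m2) (k3.trans hj.symm)) s).1 (k1 (mem_zpowers s))))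

/-- The Sylow `p`-subgroup is normal and elementary abelian. -/
structure Big (p : ℕ) (G : Type*) [Group G] : Prop where
  el : IsElementaryAbelian p (pCore p G)
  le : ∀ P : Subgroup G, IsPGroup p P → P ≤ pCore p G

theorem PA.big [Fact p.Prime] (h : PA G) (r : ¬ PRankLE p 1 G) (n : pCore p G ≠ ⊥) : Big p G := by
  obtain ⟨E, hE, hc⟩ := PG.not_pRankLE_iff.1 r
  have pw : ∀ {P : Subgroup G}, IsPGroup p P → ∀ x ∈ P, x ^ p = 1 := fun hP x hx =>
    S3908.pow_eq_one h hE hc (CI.orderOf_of_mem hP hx)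
  have := (nontrivial_iff_ne_bot _).2 n
  have := (isPGroup_pCore (G := G) p).center_nontrivial
  obtain ⟨⟨z, hz⟩, z1⟩ := exists_ne (1 : center (pCore p G))
  have le : ∀ P : Subgroup G, IsPGroup p P → P ≤ pCore p G ⊓ centralizer (pCore p G) := fun P hP x hx => by
    by_cases e : x = 1
    · rw [e]; exact one_mem _
    · exact h.mem (x := z) ⟨z.2, mem_centralizer_iff.2 fun y hy => congrArg Subtype.val (mem_center_iff.1 hz ⟨y, hy⟩)⟩
        ((orderOf_eq_prime (pw (isPGroup_pCore p) _ z.2) fun e => z1 (Subtype.ext (Subtype.ext e))).trans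
          (orderOf_eq_prime (pw hP x hx) e).symm)
  exact ⟨⟨H92.isMulCommutative_iff_le.2 ((le _ (isPGroup_pCore p)).trans inf_le_right), pw (isPGroup_pCore p)⟩,
    fun P hP => (le P hP).trans inf_le_left⟩

theorem Big.nd [Fact p.Prime] (h : Big p G) {D : Subgroup G} (le : pCore p G ≤ D) : ¬ p ∣ D.index := fun e =>
  (default : Sylow p G).not_dvd_index (e.trans (index_dvd_of_le ((h.le _ (Sylow.isPGroup' _)).trans le)))

theorem cop_ord {q : ℕ} [Fact p.Prime] [Fact q.Prime] (n : p ≠ q) {x : G} {Y : Subgroup G} (hx : IsPGroup p (zpowers x))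
    (hY : IsPGroup q Y) : (orderOf x).Coprime (Nat.card Y) :=
  Nat.card_zpowers x ▸ IsPGroup.coprime_card_of_ne p q n _ _ hx hY

theorem PA.core_ne (n : ℕ) : ∀ (G : Type u) [Group G] [Finite G] [Group.IsSolvable G], Nat.card G = n → PA G →
    ∀ (r : ℕ) [Fact r.Prime], ¬ PRankLE r 1 G → pCore r G ≠ ⊥ := by
  induction n using Nat.strong_induction_on with
  | _ n ih =>
  intro G _ _ _ hn h r hr rk e0
  obtain ⟨E, hE, hc⟩ := PG.not_pRankLE_iff.1 rk
  have nc := hE.not_isCyclic hc le_rfl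
  have E1 : E ≠ ⊥ := by rintro rfl; exact nc inferInstance
  obtain ⟨q, hq, nq⟩ : ∃ q : ℕ, q.Prime ∧ ¬ E ≤ centralizer (pCore q G : Set G) := by
    by_contra! a
    exact E1 (le_bot_iff.1 (e0 ▸ le_pCore_of_le_fitting hE.isPGroup (le_fitting a)))
  have := Fact.mk hq
  have Y1 : pCore q G ≠ ⊥ := fun e => nq (le_centralizer_iff.2 (e ▸ bot_le))
  have rq : r ≠ q := fun e => Y1 (e ▸ e0)
  have fa : ∀ x ∈ E, x ∈ centralizer (pCore q G : Set G) → x = 1 := fun x hx hx' => by_contra fun x1 => nq fun y hy =>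
    (em (y = 1)).elim (fun e => e ▸ one_mem _) fun y1 => h.mem hx' ((hE.orderOf_eq hx x1).trans (hE.orderOf_eq hy y1).symm)
  have co : ∀ x ∈ E, (orderOf x).Coprime (Nat.card (pCore q G)) := fun x hx =>
    cop_ord rq (hE.isPGroup.to_le (zpowers_le.2 hx)) (isPGroup_pCore q)
  by_cases rk' : PRankLE q 1 G
  · by_cases cy : IsCyclic (pCore q G)
    · obtain ⟨x, hx, x1⟩ := H92.exists_ne_one_of_ne_bot E1
      refine nc (E.isCyclic_iff_exists_zpowers_eq_top.2 ⟨x, le_antisymm (zpowers_le.2 hx) fun y hy => ?_⟩)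
      by_cases y1 : y = 1
      · rw [y1]; exact one_mem _
      obtain ⟨g, hg⟩ := h.zp ((hE.orderOf_eq hx x1).trans (hE.orderOf_eq hy y1).symm)
      obtain ⟨w, hw, e⟩ := hg.le (mem_zpowers y)
      rwa [mul_inv_eq_one.1 (fa (y * w⁻¹) (mul_mem hy (inv_mem (zpowers_le.2 hx hw)))
        (SS.commutator_le_centralizer_of_isCyclic _ (e ▸ commutator_mem_commutator (mem_top g) (mem_top w))))]
    · obtain rfl : q = 2 := by_contra fun e => cy (PG.isCyclic_of_pRankLE_one_of_odd e (isPGroup_pCore q) (rk'.subgroup _))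
      obtain ⟨a, b, k, s⟩ := exists_qg (isPGroup_pCore 2) (rk'.subgroup _) cy
      obtain rfl := s.eq_one h.c4
      obtain ⟨x, y, xy, e⟩ : ∃ x y : E, x ≠ y ∧ al (pCore 2 G) x ⟨a, s.ha⟩ = al (pCore 2 G) y ⟨a, s.ha⟩ := by
        by_contra! i
        have := Nat.card_le_card_of_injective _ fun x y => (i x y).mtr
        have h3 := hr.out.two_le
        rw [s.card, hc] at this
        have : 3 * 3 ≤ r ^ (1 + 1) := by rw [pow_two]; exact Nat.mul_self_le_mul_self (by omega)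
        omega
      have m := mul_mem (inv_mem y.2) x.2
      have ca : ((y : G)⁻¹ * x) * a * ((y : G)⁻¹ * x)⁻¹ = a := by
        have e' : (x : G) * a * (x : G)⁻¹ = y * a * (y : G)⁻¹ := congrArg Subtype.val e
        calc _ = (y : G)⁻¹ * (x * a * (x : G)⁻¹) * y := by group
          _ = _ := by rw [e']; group
      refine xy (Subtype.ext (inv_mul_eq_one.1 (fa _ m (mem_cen_of_al fun u => al_fix (co _ m) u ?_))).symm)
      generalize (y : G)⁻¹ * x = t at ca
      have k1 : ∀ w ∈ zpowers a, t * w * t⁻¹ = w := by rintro _ ⟨i, rfl⟩; rw [← conj_zpow, ca]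
      refine Subtype.ext (k1 _ ((s.two _ (inv_mem u.2) _ (al _ t u).2).2 ?_))
      rw [inv_mem_iff]
      exact ⟨fun e => by rw [show (al _ t u : G) = u from k1 _ e]; exact e, fun e => (conj_mem_cj (g := t)).1 (by rwa [cj_zpowers, ca])⟩
  · have b := h.big rk' Y1
    have cop : (Nat.card (pCore q G)).Coprime (pCore q G).index := by
      obtain ⟨m, hm⟩ := b.el.card_eq_pow
      exact hm ▸ Nat.Coprime.pow_left _ ((Nat.Prime.coprime_iff_not_dvd hq).2 (b.nd le_rfl))
    obtain ⟨σ, hσ⟩ := exists_sec _ cop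
    have h' := h.of_sec _ σ hσ
    have rk1 : ¬ PRankLE r 1 (G ⧸ pCore q G) := PG.not_pRankLE_iff.2 ⟨_, hE.map (QuotientGroup.mk' _), by
      have := card_map_mul_card_inf_ker E (QuotientGroup.mk' (pCore q G))
      rwa [QuotientGroup.ker_mk', show E ⊓ pCore q G = ⊥ from eq_bot_iff.2 fun x hx => fa x hx.1 (b.el.le_centralizer hx.2),
        card_bot, mul_one, hc] at this⟩
    have b' := h'.big rk1 (ih _ (hn ▸ card_quotient_lt Y1) _ rfl h' r rk1)
    obtain ⟨x, hx, x1, n⟩ := CopAct.exists_inf_centralizer_ne_bot hE.1 nc le_normalizer_of_normal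
      (IsPGroup.coprime_card_of_ne r q rq _ _ hE.isPGroup (isPGroup_pCore q)) Y1
    obtain ⟨v, hv, v1⟩ := H92.exists_ne_one_of_ne_bot n
    refine x1 (fa x hx (h.no_ab b.el (O := (pCore r _).comap (QuotientGroup.mk' (pCore q G))) ?_
      (b'.le _ (hE.map _).isPGroup (mem_map_of_mem _ hx)) (co x hx) hv.1 v1 (mem_centralizer_singleton_iff.1 hv.2).symm))
    refine commutator_le.2 fun x hx y hy => (QuotientGroup.eq_one_iff _).1 ?_
    exact (map_commutatorElement (QuotientGroup.mk' _) x y).trans (commutatorElement_eq_one_iff_mul_comm.2 (b'.el.comm hx hy))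

theorem PA.big' [Group.IsSolvable G] [Fact p.Prime] (h : PA G) (r : ¬ PRankLE p 1 G) : Big p G :=
  h.big r (PA.core_ne _ G rfl h p r)

theorem cen_four [hp : Fact p.Prime] (c : C4 G) {Y T : Subgroup G} [Y.Normal] (el : IsElementaryAbelian p Y) (p2 : p ≠ 2)
    (Y1 : Y ≠ ⊥) {a b : G} (q : QG T a b 1) (hT : ∀ t ∈ T, ∀ s ∈ Y, t * s * t⁻¹ ∈ zpowers s) {x : G} (hx : orderOf x = 4) :
    x ∈ centralizer (Y : Set G) := by
  obtain ⟨v, hv, v1⟩ := H92.exists_ne_one_of_ne_bot Y1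
  have oa : orderOf a = 4 := q.ord
  have mab := mul_mem q.ha q.hb
  have fin : ∀ t ∈ T, orderOf t = 4 → t * v * t⁻¹ = v → x ∈ centralizer (Y : Set G) := fun t ht o e => by
    obtain ⟨m, hm⟩ := el.card_eq_pow
    exact (c t x o hx).elim fun _ e' => mem_of_cj e' (scal el (hT t ht) (by
      rw [o, hm]; exact Nat.Coprime.pow 2 m ((Nat.coprime_primes Nat.prime_two hp.out).2 p2.symm)) hv v1
        (mul_inv_eq_iff_eq_mul.1 e))
  have z : a ^ 2 * v * (a ^ 2)⁻¹ = v := by
    obtain ⟨i, hi⟩ := hT a q.ha v hv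
    obtain ⟨j, hj⟩ := hT b q.hb v hv
    have e1 : a * (b * v * b⁻¹) * a⁻¹ = b * (a * v * a⁻¹) * b⁻¹ := by
      rw [← hi, ← hj]; simp only; rw [← conj_zpow, ← conj_zpow, ← hi, ← hj]; simp only; rw [← zpow_mul, ← zpow_mul, mul_comm]
    have e2 : b * a = a⁻¹ * b := mul_inv_eq_iff_eq_mul.1 q.inv
    calc _ = b⁻¹ * (b * a) * a * v * (b⁻¹ * (b * a) * a)⁻¹ := by rw [pow_two]; group
      _ = b⁻¹ * a⁻¹ * (b * (a * v * a⁻¹) * b⁻¹) * (b⁻¹ * a⁻¹)⁻¹ := by rw [e2]; group
      _ = _ := by rw [← e1]; group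
  have pm : ∀ t ∈ T, t ^ 2 = a ^ 2 → t * v * t⁻¹ = v ∨ t * v * t⁻¹ = v⁻¹ := fun t ht e => by
    have m := hT t ht v hv
    refine or_iff_not_imp_right.2 fun n => ?_
    have e1 : t * (v * (t * v * t⁻¹)) * t⁻¹ = v * (t * v * t⁻¹) := by
      calc _ = t * v * t⁻¹ * (t ^ 2 * v * (t ^ 2)⁻¹) := by rw [pow_two]; group
        _ = _ := by rw [e, z]; exact el.comm (zpowers_le.2 hv m) hv
    obtain ⟨i, hi⟩ : v ∈ zpowers (v * (t * v * t⁻¹)) := (eq_of_le_of_card_ge (zpowers_le.2 (mul_mem (mem_zpowers v) m)) (by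
      rw [Nat.card_zpowers, Nat.card_zpowers, el.orderOf_eq hv v1, el.orderOf_eq (mul_mem hv (zpowers_le.2 hv m))
        fun e => n (eq_inv_of_mul_eq_one_right e)])).ge (mem_zpowers v)
    replace hi : (v * (t * v * t⁻¹)) ^ i = v := hi
    calc _ = t * (v * (t * v * t⁻¹)) ^ i * t⁻¹ := by rw [hi]
      _ = _ := by rw [← conj_zpow, e1, hi]
  rcases pm a q.ha rfl with e | e
  · exact fin a q.ha oa e
  · rcases pm b q.hb q.sq with e' | e'
    · exact fin b q.hb (q.ord_out q.hb q.nb) e'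
    · refine fin _ mab (q.ord_out mab q.nab) ?_
      calc _ = a * (b * v * b⁻¹) * a⁻¹ := by group
        _ = _ := by rw [e', ← conj_inv, e, inv_inv]

theorem PA.pb [Group.IsSolvable G] (h : PA G) : PB G := by
  obtain ⟨D, hD⟩ : ∃ D, D = piCore {p : ℕ | ¬ PRankLE p 1 G} G := ⟨_, rfl⟩
  have : D.Normal := hD ▸ inferInstance
  have pi : IsPiNum {p : ℕ | ¬ PRankLE p 1 G} (Nat.card D) := hD ▸ isPiNum_piCore _
  have big : ∀ p : ℕ, p.Prime → p ∣ Nat.card D → Big p G := fun p hp e => by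
    have := Fact.mk hp; exact h.big' (pi p hp e)
  have nd : ∀ p : ℕ, p.Prime → ¬ PRankLE p 1 G → ¬ p ∣ D.index := fun p hp e => by
    have := Fact.mk hp; exact (h.big' e).nd (hD ▸ pCore_le_piCore hp e)
  have cop : (Nat.card D).Coprime D.index := pi.coprime' nd
  have ab : IsMulCommutative D := H92.isMulCommutative_iff_le.2 (le_of_forall_isPGroup_le fun p hp e P _ hP =>
    le_centralizer_iff.1 (le_of_forall_isPGroup_le fun q hq e' Q _ hQ x hx => mem_centralizer_iff.2 fun y hy => by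
      have := Fact.mk hp
      have := Fact.mk hq
      have m1 := (big q hq e').le Q hQ hx
      have m2 := (big p hp e).le P hP hy
      by_cases c : p = q
      · subst c; exact (big p hp e).el.comm m2 m1
      · exact commute_of_normal_of_disjoint _ _ inferInstance inferInstance
          (IsPGroup.disjoint_of_ne p q c _ _ (isPGroup_pCore p) (isPGroup_pCore q)) y x m2 m1))
  have ab' : ∀ U ≤ D, IsMulCommutative U := fun U hU =>
    H92.isMulCommutative_of_comm fun a ha b hb => H92.comm_of_isMulCommutative ab (hU ha) (hU hb)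
  obtain ⟨σ, hσ⟩ := exists_sec D cop
  have iσ := Function.LeftInverse.injective hσ
  have rk : ∀ p : ℕ, p.Prime → p ∣ Nat.card (G ⧸ D) → PRankLE p 1 G := fun p hp e => by_contra fun n => nd p hp n e
  have r : R1 (G ⧸ D) := R1.of_sec rk iσ
  refine PB.of_hall D cop (fun U a V b => h U V (ab' U a) (ab' V b)) (fun U => le_norm_of_comm) fun U hU => ?_
  by_cases cy : ∀ S : Sylow 2 ((normalizer (U : Set G)).map (QuotientGroup.mk' D)), IsCyclic S
  · have := (r.sub _).zgroup cy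
    exact pb_of_isZGroup
  obtain ⟨S, nc⟩ := not_forall.1 cy
  have hS := S.isPGroup'.map (Subgroup.subtype _)
  replace nc := mt (equivMapOfInjective _ _ (subtype_injective _)).isCyclic.2 nc
  obtain ⟨T, hT⟩ := hS.exists_le_sylow
  have ncT : ¬ IsCyclic T := fun c => nc (Subgroup.isCyclic_of_le hT)
  obtain ⟨hn, _, _, q0⟩ := r.normal (h.of_sec _ σ hσ).c4 T ncT
  have WM : (T : Subgroup (G ⧸ D)).comap (QuotientGroup.mk' D) ≤ normalizer (U : Set G) := by
    refine (comap_mono (q0.eq_of_le ((r 2 Nat.prime_two).subgroup _) T.isPGroup' hT nc ▸ map_subtype_le _)).trans ?_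
    rw [comap_map_eq, QuotientGroup.ker_mk']
    exact sup_le le_rfl (le_norm_of_comm hU)
  have d2 : 2 ∣ Nat.card (G ⧸ D) := (q0.card ▸ (by norm_num : 2 ∣ 8 * 1)).trans (card_subgroup_dvd_card _)
  obtain ⟨a, b, k, q⟩ := exists_qg (T.isPGroup'.map σ) ((rk 2 Nat.prime_two d2).subgroup _) fun c =>
    ncT ((equivMapOfInjective _ _ iσ).isCyclic.2 c)
  obtain rfl : k = 1 := by have := q.card; rw [card_map_of_injective iσ, q0.card] at this; omega
  obtain ⟨U', hU'⟩ : ∃ U', U' = U ⊓ centralizer {t : G | orderOf t = 4} := ⟨_, rfl⟩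
  have key : U' ⊔ U.normalCore = U := le_antisymm (sup_le (hU' ▸ inf_le_left) U.normalCore_le)
    (le_of_forall_isPGroup_le fun p hp e P le hP => by
      have := Fact.mk hp
      have e' := e.trans (card_dvd_of_le hU)
      have b := big p hp e'
      by_cases c : pCore p G ≤ U ⊓ pCore p G
      · exact (b.le P hP).trans ((normal_le_normalCore.2 (c.trans inf_le_left)).trans le_sup_right)
      by_cases c' : U ⊓ pCore p G = ⊥
      · exact ((le_inf le (b.le P hP)).trans c'.le).trans bot_le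
      refine le_trans ?_ le_sup_left
      rw [hU']
      refine le_inf le ((b.le P hP).trans fun y hy => mem_centralizer_iff.2 fun x hx => (mem_centralizer_iff.1
        (cen_four h.c4 b.el (by rintro rfl; exact nd 2 hp (pi 2 hp e') d2) (fun e => c (e.le.trans bot_le)) q
          (fun t ht => norm_zp b.el inf_le_right c' c fun V hV eV => ?_) hx) y hy).symm)
      obtain ⟨g, rfl⟩ := h _ V (b.el.mono inf_le_right).1 (b.el.mono hV).1 eV.symm
      obtain ⟨t, ht, rfl⟩ := ht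
      have m : g⁻¹ * σ t * g ∈ normalizer (U : Set G) :=
        WM ((hn.comap (QuotientGroup.mk' D)).conj_mem' _ (mem_comap.2 (by rwa [hσ])) g)
      rw [← cj_normalizer, mem_cj]
      exact cj_eq_iff.1 (by rw [cj_inf, cj_eq_iff.2 m, cj_eq_of_normal]))
  have loc : ∀ z : G ⧸ D, orderOf z = 4 → IsMulCommutative (zpowers (σ z) ⊔ U' : Subgroup G) ∧
      (zpowers (σ z) ⊔ U') ⊓ D = U' ∧ (zpowers (σ z) ⊔ U').map (QuotientGroup.mk' D) = zpowers z ∧
      Nat.card (zpowers (σ z) ⊔ U' : Subgroup G) = 4 * Nat.card U' := fun z hz => by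
    have le : U' ≤ D := (hU' ▸ inf_le_left).trans hU
    have c : zpowers (σ z) ≤ centralizer (U' : Set G) := zpowers_le.2 (mem_centralizer_iff.2 fun u hu =>
      (mem_centralizer_iff.1 (mem_inf.1 (hU'.le hu)).2 (σ z) ((orderOf_injective σ iσ z).trans hz)).symm)
    have := ab' U' le
    have e1 : (zpowers (σ z) ⊔ U') ⊓ D = U' := le_antisymm (fun x hx => by
      obtain ⟨_, ⟨n, rfl⟩, u, hu, rfl⟩ := (CopAct.mem_sup_iff_of_le_normalizer' (c.trans (centralizer_le_normalizer _))).1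
        ((sup_comm _ U').le (mem_inf.1 hx).1)
      have := (QuotientGroup.eq_one_iff _).2 ((mul_mem_cancel_right (le hu)).1 (mem_inf.1 hx).2)
      simp only [← map_zpow] at this ⊢
      rwa [show z ^ n = 1 from (hσ _).symm.trans this, map_one, one_mul]) (le_inf le_sup_right le)
    have e2 : (zpowers (σ z) ⊔ U').map (QuotientGroup.mk' D) = zpowers z := by
      rw [Subgroup.map_sup, MonoidHom.map_zpowers, hσ, (Subgroup.map_eq_bot_iff _).2 (by rwa [QuotientGroup.ker_mk']), sup_bot_eq]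
    refine ⟨PG.isMulCommutative_sup inferInstance this (le_centralizer_iff.1 c), e1, e2, ?_⟩
    rw [← card_map_mul_card_inf_ker _ (QuotientGroup.mk' D), QuotientGroup.ker_mk', e1, e2, Nat.card_zpowers, hz]
  refine (r.sub _).pb fun x y ox oy => ?_
  obtain ⟨x1, x2, x3, x4⟩ := loc x ((orderOf_coe x).trans ox)
  obtain ⟨y1, y2, y3, y4⟩ := loc y ((orderOf_coe y).trans oy)
  obtain ⟨g, hg⟩ := h _ _ x1 y1 (x4.trans y4.symm)
  have e : cj g U' = U' := by rw [← x2, cj_inf, ← hg, cj_eq_of_normal, y2, x2]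
  refine ⟨⟨_, g, cj_eq_iff.1 (by rw [← key, cj_sup, e, cj_eq_of_normal]), rfl⟩, map_injective (subtype_injective _) ?_⟩
  rw [map_cj, MonoidHom.map_zpowers, MonoidHom.map_zpowers, coe_subtype, ← y3, hg, map_cj, x3]

end Cfsg.Agent.FG.EqO
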