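import Mathlib

/-! Lower bounds for fixed spaces coming from small subgroups. -/

set_option autoImplicit false

namespace Cfsg.Agent.FG.Fix6

open Module

variable {K V : Type*} [Field K] [AddCommGroup V] [Module K V] [FiniteDimensional K V]

theorem ker_mul_le (f g : End K V) :
    finrank K (LinearMap.ker (f * g)) ≤ finrank K (LinearMap.ker f) + finrank K (LinearMap.ker g) := by
  let φ : LinearMap.ker (f * g) →ₗ[K] LinearMap.ker f :=
    LinearMap.codRestrict _ (g ∘ₗ (LinearMap.ker (f * g)).subtype) (fun x => x.2)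
  have h1 := φ.finrank_range_add_finrank_ker
  have h2 : finrank K (LinearMap.range φ) ≤ finrank K (LinearMap.ker f) := Submodule.finrank_le _
  have h3 : finrank K (LinearMap.ker φ) ≤ finrank K (LinearMap.ker g) := by
    let ψ : LinearMap.ker φ →ₗ[K] LinearMap.ker g :=
      LinearMap.codRestrict _ ((LinearMap.ker (f * g)).subtype ∘ₗ (LinearMap.ker φ).subtype)
        (fun x => congrArg Subtype.val x.2)
    refine LinearMap.finrank_le_finrank_of_injective (f := ψ) fun x y h => ?_
    have h' := congrArg Subtype.val h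
    exact Subtype.ext (Subtype.ext h')
  omega

theorem ker_pow_le (f : End K V) (n : ℕ) :
    finrank K (LinearMap.ker (f ^ n)) ≤ n * finrank K (LinearMap.ker f) := by
  induction n with
  | zero => simp [End.one_eq_id]
  | succ n ih =>
    have := ker_mul_le (f ^ n) f
    rw [← pow_succ] at this
    nlinarith

/-- The rank of an endomorphism. -/
noncomputable def rk (f : End K V) : ℕ := finrank K (LinearMap.range f)

theorem rk_add_ker (f : End K V) : rk f + finrank K (LinearMap.ker f) = finrank K V :=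
  f.finrank_range_add_finrank_ker

theorem rk_add_le (f g : End K V) : rk (f + g) ≤ rk f + rk g := by
  have h : LinearMap.range (f + g) ≤ LinearMap.range f ⊔ LinearMap.range g := by
    rintro _ ⟨x, rfl⟩
    exact Submodule.add_mem_sup ⟨x, rfl⟩ ⟨x, rfl⟩
  have := Submodule.finrank_sup_add_finrank_inf_eq (LinearMap.range f) (LinearMap.range g)
  have := Submodule.finrank_mono h
  unfold rk
  omega

omit [FiniteDimensional K V] in
theorem rk_neg (f : End K V) : rk (-f) = rk f := by
  unfold rk; rw [LinearMap.range_neg]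

theorem rk_sub_le (f g : End K V) : rk (f - g) ≤ rk f + rk g := by
  rw [sub_eq_add_neg, ← rk_neg g]; exact rk_add_le _ _

theorem rk_mul_le_left (f g : End K V) : rk (f * g) ≤ rk f :=
  Submodule.finrank_mono (by rintro _ ⟨x, rfl⟩; exact ⟨g x, rfl⟩)

theorem rk_mul_le_right (f g : End K V) : rk (f * g) ≤ rk g := by
  have h : LinearMap.ker g ≤ LinearMap.ker (f * g) := fun x hx => by
    simp only [LinearMap.mem_ker, End.mul_apply] at hx ⊢; rw [hx, map_zero]
  have := Submodule.finrank_mono h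
  have := rk_add_ker g
  have := rk_add_ker (f * g)
  omega

theorem rk_le_ker {f g : End K V} (h : f * g = 0) : rk g ≤ finrank K (LinearMap.ker f) :=
  Submodule.finrank_mono (by
    rintro _ ⟨x, rfl⟩
    exact LinearMap.congr_fun h x)

theorem rk_sum_le {ι : Type*} (s : Finset ι) (f : ι → End K V) {M : ℕ} (h : ∀ i ∈ s, rk (f i) ≤ M) :
    rk (∑ i ∈ s, f i) ≤ s.card * M := by
  classical
  induction s using Finset.induction_on with
  | empty => rw [Finset.sum_empty]; unfold rk; rw [LinearMap.range_zero, finrank_bot]; omega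
  | insert a s ha ih =>
    rw [Finset.sum_insert ha, Finset.card_insert_of_notMem ha]
    have h1 := rk_add_le (f a) (∑ i ∈ s, f i)
    have h2 := h a (Finset.mem_insert_self _ _)
    have h3 := ih fun i hi => h i (Finset.mem_insert_of_mem hi)
    nlinarith

omit [FiniteDimensional K V] in
theorem ker_unit_mul {u : End K V} (hu : IsUnit u) (f : End K V) :
    LinearMap.ker (u * f) = LinearMap.ker f := by
  ext x
  simp only [LinearMap.mem_ker, End.mul_apply]
  constructor
  · intro h
    exact ((End.isUnit_iff u).1 hu).1 (by rw [h, map_zero])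
  · intro h; rw [h, map_zero]

variable {H : Type*} [Group H] (ρ : Representation K H V)

/-- The dimension of the fixed space of `h`. -/
noncomputable def fx (h : H) : ℕ := finrank K (LinearMap.ker (ρ h - 1))

omit [FiniteDimensional K V] in
theorem isUnit_rho (h : H) : IsUnit (ρ h) := (Group.isUnit h).map ρ

theorem ker_sub (a b : H) : finrank K (LinearMap.ker (ρ b - ρ a)) = fx ρ (a⁻¹ * b) := by
  have : ρ b - ρ a = ρ a * (ρ (a⁻¹ * b) - 1) := by
    rw [mul_sub, ← map_mul, mul_inv_cancel_left, mul_one]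
  rw [this, ker_unit_mul (isUnit_rho ρ a)]; rfl

theorem le_of_char {s : ℕ} [Fact s.Prime] [CharP K s] {h : H} (hh : h ^ s = 1) :
    finrank K V ≤ s * fx ρ h := by
  rcases subsingleton_or_nontrivial V with hV | hV
  · simp [finrank_zero_of_subsingleton]
  have : CharP (End K V) s := charP_of_injective_algebraMap (algebraMap K (End K V)).injective s
  have h0 : (ρ h - 1) ^ s = 0 := by
    rw [sub_pow_char_of_commute s (Commute.one_right _), ← map_pow, hh, map_one, one_pow, sub_self]
  have := ker_pow_le (ρ h - 1) s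
  rwa [h0, LinearMap.ker_zero, finrank_top] at this

omit [FiniteDimensional K V] in
theorem sub_one_mul_geom {g : H} {s : ℕ} (hg : g ^ s = 1) :
    (ρ g - 1) * ∑ j ∈ Finset.range s, ρ g ^ j = 0 := by
  rw [mul_geom_sum, ← map_pow, hg, map_one, sub_self]

theorem le_of_elem {s : ℕ} (hs : s.Prime) (hK : (s : K) ≠ 0) {a b : H} (ha : orderOf a = s)
    (hb : b ^ s = 1) (hab : Commute a b) (hba : b ∉ Subgroup.zpowers a) {M : ℕ}
    (hM : ∀ h : H, h ≠ 1 → fx ρ h ≤ M) : finrank K V ≤ (s + 1) * M := by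
  have has : a ^ s = 1 := ha ▸ pow_orderOf_eq_one a
  have ha1 : a ≠ 1 := by
    rintro rfl
    exact hs.one_lt.ne (by simpa using ha)
  set T : End K V := ∑ j ∈ Finset.range (s - 1),
    ρ b ^ (j + 1) * ∑ i ∈ Finset.range s, ρ (a ^ (j + 1)) ^ i with hT
  have key : ∑ i ∈ Finset.range s, ∑ j ∈ Finset.range s, ρ (a ^ i * b) ^ j = (s : End K V) + T := by
    rw [Finset.sum_comm]
    obtain ⟨t, rfl⟩ : ∃ t, s = t + 1 := ⟨s - 1, by have := hs.one_lt; omega⟩
    rw [Finset.sum_range_succ' (fun j => ∑ i ∈ Finset.range (t + 1), ρ (a ^ i * b) ^ j), add_comm]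
    congr 1
    · simp
    · rw [hT, Nat.add_sub_cancel]
      refine Finset.sum_congr rfl fun j _ => ?_
      rw [Finset.mul_sum]
      refine Finset.sum_congr rfl fun i _ => ?_
      rw [← map_pow, ← map_pow, ← map_pow, ← map_mul, (hab.pow_left i).mul_pow, ← pow_mul, ← pow_mul,
        mul_comm i, (hab.pow_pow _ _).eq]
  have hTa : (ρ a - 1) * T = 0 := by
    rw [hT, Finset.mul_sum]
    refine Finset.sum_eq_zero fun j hj => ?_
    have hj' : j + 1 < s := by have := Finset.mem_range.1 hj; omega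
    have hc : Commute (ρ a - 1) (ρ b ^ (j + 1)) :=
      (((hab.map ρ).sub_left (Commute.one_left _))).pow_right _
    rw [← mul_assoc, hc.eq, mul_assoc]
    have hmem : a ∈ Subgroup.zpowers (a ^ (j + 1)) := by
      rw [mem_zpowers_pow_iff, ha]
      exact (Nat.coprime_of_lt_prime (Nat.succ_ne_zero j) hj' hs).symm
    have hfin : IsOfFinOrder (a ^ (j + 1)) :=
      (isOfFinOrder_iff_pow_eq_one.2 ⟨s, hs.pos, has⟩).pow
    obtain ⟨m, hm⟩ := hfin.mem_powers_iff_mem_zpowers.2 hmem
    have h0 := sub_one_mul_geom ρ (g := a ^ (j + 1)) (s := s) (by rw [← pow_mul, mul_comm, pow_mul, has, one_pow])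
    have h1 : ρ a - 1 = (∑ i ∈ Finset.range m, ρ (a ^ (j + 1)) ^ i) * (ρ (a ^ (j + 1)) - 1) := by
      rw [geom_sum_mul, ← map_pow]
      simp only at hm
      rw [hm]
    rw [h1, mul_assoc, h0, mul_zero, mul_zero]
  have h1 : rk T ≤ M := (rk_le_ker hTa).trans (hM a ha1)
  have h2 : rk (∑ i ∈ Finset.range s, ∑ j ∈ Finset.range s, ρ (a ^ i * b) ^ j) ≤ s * M := by
    have := rk_sum_le (Finset.range s) (fun i => ∑ j ∈ Finset.range s, ρ (a ^ i * b) ^ j) (M := M)
      (fun i _ => by
        refine (rk_le_ker (sub_one_mul_geom ρ ?_)).trans (hM _ ?_)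
        · rw [(hab.pow_left i).mul_pow, hb, ← pow_mul, mul_comm i, pow_mul, has, one_pow, one_mul]
        · intro h
          refine hba ?_
          rw [eq_inv_of_mul_eq_one_right h]
          exact inv_mem (pow_mem (Subgroup.mem_zpowers a) i))
    rwa [Finset.card_range] at this
  have h3 : rk (s : End K V) = finrank K V := by
    have hu : IsUnit (s : End K V) := by
      have := (IsUnit.mk0 _ hK).map (algebraMap K (End K V))
      rwa [map_natCast] at this
    unfold rk
    rw [LinearMap.range_eq_top.2 ((End.isUnit_iff _).1 hu).2, finrank_top]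
  have h4 := rk_sub_le (∑ i ∈ Finset.range s, ∑ j ∈ Finset.range s, ρ (a ^ i * b) ^ j) T
  rw [key, add_sub_cancel_right, h3, ← key] at h4
  nlinarith

theorem le_of_dih {z a : H} (hz : z ^ 2 = 1) (hza : z * a * z⁻¹ = a⁻¹) :
    finrank K V ≤ 2 * fx ρ z + fx ρ (a ^ 2) := by
  have h1 : ρ z * ρ a = ρ a⁻¹ * ρ z := by
    rw [← map_mul, ← map_mul, ← hza, inv_mul_cancel_right]
  have h2 : ρ a - ρ a⁻¹ = (1 + ρ z) * ρ a - ρ a⁻¹ * (1 + ρ z) := by
    rw [add_mul, mul_add, h1, one_mul, mul_one]; abel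
  have h3 : rk (1 + ρ z) ≤ fx ρ z := by
    refine rk_le_ker ?_
    have := sub_one_mul_geom ρ hz
    simpa [Finset.sum_range_succ] using this
  have h4 := rk_sub_le ((1 + ρ z) * ρ a) (ρ a⁻¹ * (1 + ρ z))
  have h5 := rk_mul_le_left (1 + ρ z) (ρ a)
  have h6 := rk_mul_le_right (ρ a⁻¹) (1 + ρ z)
  have h7 := rk_add_ker (ρ a - ρ a⁻¹)
  rw [ker_sub, inv_inv, ← pow_two] at h7
  rw [← h2] at h4
  omega

theorem ring_f3 {R : Type*} [Ring R] {A B C X : R} (h1 : X * A = B * X) (h2 : X * B = C * X)
    (h3 : X * C = A * X) (hab : A * B = B * A) (hbc : B * C = C * B) (hac : A * C = C * A) :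
    (A - B) * (A - C) = (1 + X + X ^ 2) * (B * C) - A * ((1 + X + X ^ 2) * (B + C))
      + A * A * (1 + X + X ^ 2) := by
  have e1 : X * (B * C) = A * C * X := by
    rw [← mul_assoc, h2, mul_assoc, h3, ← mul_assoc, hac]
  have e2 : X ^ 2 * (B * C) = A * B * X ^ 2 := by
    rw [pow_two, mul_assoc, e1, ← mul_assoc, ← mul_assoc, h1, mul_assoc B, h3, ← mul_assoc, ← hab,
      mul_assoc]
  have e3 : X ^ 2 * B = A * X ^ 2 := by
    rw [pow_two, mul_assoc, h2, ← mul_assoc, h3, mul_assoc]
  have e4 : X ^ 2 * C = B * X ^ 2 := by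
    rw [pow_two, mul_assoc, h3, ← mul_assoc, h1, mul_assoc]
  simp only [add_mul, mul_add, sub_mul, mul_sub, one_mul, mul_one, e1, e2, e3, e4, h2, h3]
  simp only [← mul_assoc, ← hab]
  abel

theorem le_of_f3 {x a : H} (hx : x ^ 3 = 1) (hab : Commute a (x * a * x⁻¹)) :
    finrank K V ≤ 3 * fx ρ x + fx ρ ((x * a * x⁻¹)⁻¹ * a) + fx ρ ((x * (x * a * x⁻¹) * x⁻¹)⁻¹ * a) := by
  set b := x * a * x⁻¹ with hb
  set c := x * b * x⁻¹ with hc
  have hca : x * c * x⁻¹ = a := by
    have : x * c * x⁻¹ = x ^ 3 * a * (x ^ 3)⁻¹ := by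
      rw [hc, hb, pow_three]; simp only [mul_inv_rev, mul_assoc]
    rw [this, hx]; group
  have hbc : Commute b c := by
    have := hab.map (MulAut.conj x)
    simp only [MulAut.conj_apply] at this
    exact this
  have hca' : Commute c a := by
    have := hbc.map (MulAut.conj x)
    simp only [MulAut.conj_apply] at this
    rwa [hca] at this
  have key := ring_f3 (A := ρ a) (B := ρ b) (C := ρ c) (X := ρ x)
    (by rw [← map_mul, ← map_mul, hb, inv_mul_cancel_right])
    (by rw [← map_mul, ← map_mul, hc, inv_mul_cancel_right])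
    (by rw [← map_mul, ← map_mul, ← hca, inv_mul_cancel_right])
    (hab.map ρ).eq (hbc.map ρ).eq (hca'.map ρ).eq.symm
  set N : End K V := 1 + ρ x + ρ x ^ 2 with hN
  have h3 : rk N ≤ fx ρ x := by
    refine rk_le_ker ?_
    have := sub_one_mul_geom ρ hx
    simpa [Finset.sum_range_succ] using this
  have h4 := rk_add_le (N * (ρ b * ρ c) - ρ a * (N * (ρ b + ρ c))) (ρ a * ρ a * N)
  have h5 := rk_sub_le (N * (ρ b * ρ c)) (ρ a * (N * (ρ b + ρ c)))
  have h6 := rk_mul_le_left N (ρ b * ρ c)
  have h7 := rk_mul_le_right (ρ a) (N * (ρ b + ρ c))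
  have h8 := rk_mul_le_left N (ρ b + ρ c)
  have h9 := rk_mul_le_right (ρ a * ρ a) N
  have h10 := rk_add_ker ((ρ a - ρ b) * (ρ a - ρ c))
  have h11 := ker_mul_le (ρ a - ρ b) (ρ a - ρ c)
  rw [ker_sub, ker_sub] at h11
  rw [← key] at h4
  omega

end Cfsg.Agent.FG.Fix6
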