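import Mathlib
import Cfsg.Agent.FG.Fix6Rank
import Cfsg.Agent.Ch.Basic

/-! Capelli identities: a bound for the rank of `g - 1` in all complex irreducible representations
holds in all absolutely irreducible representations over any field. -/

set_option autoImplicit false

namespace Cfsg.Agent.FG.Fix6

open Module

/-- The Capelli expression. -/
def cap {R : Type*} [Ring R] {N : ℕ} (x a b : Fin N → R) : R :=
  ∑ σ : Equiv.Perm (Fin N), Equiv.Perm.sign σ • (List.ofFn fun i => a i * x (σ i) * b i).prod

theorem map_cap {R S F : Type*} [Ring R] [Ring S] [FunLike F R S] [RingHomClass F R S] (f : F)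
    {N : ℕ} (x a b : Fin N → R) :
    f (cap x a b) = cap (fun i => f (x i)) (fun i => f (a i)) (fun i => f (b i)) := by
  unfold cap
  rw [map_sum]
  refine Finset.sum_congr rfl fun σ _ => ?_
  rw [Units.smul_def, Units.smul_def, map_zsmul, map_list_prod, List.map_ofFn]
  simp only [Function.comp_def, map_mul]

theorem cap_eq_zero {k R : Type*} [Field k] [Ring R] [Algebra k R] {N : ℕ} {x : Fin N → R}
    (hx : ¬ LinearIndependent k x) (a b : Fin N → R) : cap x a b = 0 := by
  have := (MultilinearMap.alternatization ((MultilinearMap.mkPiAlgebraFin k N R).compLinearMap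
    fun i => LinearMap.mulLeftRight k (a i, b i))).map_linearDependent x hx
  rw [MultilinearMap.alternatization_apply] at this
  simpa [cap] using this

theorem multilinear_eq_zero {k M P : Type*} [Field k] [AddCommGroup M] [Module k M]
    [AddCommGroup P] [Module k P] {N : ℕ} (f : MultilinearMap k (fun _ : Fin N => M) P) {S : Set M}
    (hS : Submodule.span k S = ⊤) (h : ∀ v : Fin N → M, (∀ i, v i ∈ S) → f v = 0) : f = 0 := by
  obtain ⟨b, hb, hsp, hli⟩ := exists_linearIndependent k S
  let B : Basis b k M := Basis.mk hli (by rw [Subtype.range_coe, hsp, hS])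
  refine Basis.ext_multilinear (fun _ => B) fun v => ?_
  rw [zero_apply]
  exact h _ fun i => by rw [Basis.mk_apply]; exact hb (v i).2

theorem span_mulLeftRight {k W : Type*} [Field k] [AddCommGroup W] [Module k W]
    [FiniteDimensional k W] [Nontrivial W] {S : Set (End k W)} (hS : Submodule.span k S = ⊤) :
    Submodule.span k {T | ∃ a ∈ S, ∃ b ∈ S, T = LinearMap.mulLeftRight k (a, b)} = ⊤ := by
  set U := Submodule.span k {T | ∃ a ∈ S, ∃ b ∈ S, T = LinearMap.mulLeftRight k (a, b)} with hU
  have h1 : ∀ p q : End k W, LinearMap.mulLeftRight k (p, q) ∈ U := by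
    intro p q
    have hp : p ∈ Submodule.span k S := hS ▸ Submodule.mem_top
    have hq : q ∈ Submodule.span k S := hS ▸ Submodule.mem_top
    induction hp, hq using Submodule.span_induction₂ with
    | mem_mem a b ha hb => exact Submodule.subset_span ⟨a, ha, b, hb, rfl⟩
    | zero_left y _ => convert U.zero_mem; ext : 1; simp
    | zero_right y _ => convert U.zero_mem; ext : 1; simp
    | add_left x y z _ _ _ h1 h2 => convert U.add_mem h1 h2; ext : 1; simp [add_mul]
    | add_right x y z _ _ _ h1 h2 => convert U.add_mem h1 h2; ext : 1; simp [mul_add]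
    | smul_left r x y _ _ h1 => convert U.smul_mem r h1; ext : 1; simp
    | smul_right r x y _ _ h1 => convert U.smul_mem r h1; ext : 1; simp
  have : Nonempty (Fin (finrank k W)) := ⟨⟨0, finrank_pos⟩⟩
  have := IsAzumaya.matrix k (Fin (finrank k W))
  have := IsAzumaya.of_AlgEquiv k _ _ (LinearMap.toMatrixAlgEquiv (finBasis k W)).symm
  rw [eq_top_iff]
  rintro T -
  obtain ⟨t, rfl⟩ := (IsAzumaya.AlgHom.mulLeftRight_bij k (End k W)).2 T
  induction t using TensorProduct.induction_on with
  | zero => rw [map_zero]; exact U.zero_mem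
  | tmul a b => convert h1 a b.unop; ext : 1; simp
  | add x y hx hy => rw [map_add]; exact U.add_mem hx hy

theorem exists_cap_ne_zero {k W : Type*} [Field k] [AddCommGroup W] [Module k W]
    [FiniteDimensional k W] [Nontrivial W] {S : Set (End k W)} (hS : Submodule.span k S = ⊤)
    {N : ℕ} {x : Fin N → End k W} (hx : LinearIndependent k x) :
    ∃ a b : Fin N → End k W, (∀ i, a i ∈ S) ∧ (∀ i, b i ∈ S) ∧ cap x a b ≠ 0 := by
  by_contra hne
  push Not at hne
  let Φ : MultilinearMap k (fun _ : Fin N => End k (End k W)) (End k W) :=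
    ∑ σ : Equiv.Perm (Fin N), ((Equiv.Perm.sign σ : ℤ) : k) •
      (MultilinearMap.mkPiAlgebraFin k N (End k W)).compLinearMap fun i => LinearMap.applyₗ (x (σ i))
  have hΦ : ∀ T, Φ T = ∑ σ : Equiv.Perm (Fin N),
      Equiv.Perm.sign σ • (List.ofFn fun i => T i (x (σ i))).prod := by
    intro T
    simp [Φ, Units.smul_def, Int.cast_smul_eq_zsmul]
  have h0 : Φ = 0 := multilinear_eq_zero Φ (span_mulLeftRight hS) fun T hT => by
    choose a ha b hb e using hT
    rw [hΦ, ← hne a b ha hb]
    simp [cap, e]
  obtain ⟨g, hg⟩ := LinearMap.exists_leftInverse_of_injective (Finsupp.linearCombination k x)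
    (LinearMap.ker_eq_bot.2 hx)
  have hg' : ∀ i j, g (x j) i = if i = j then 1 else 0 := fun i j => by
    have := LinearMap.congr_fun hg (Finsupp.single j 1)
    simp only [LinearMap.comp_apply, Finsupp.linearCombination_single, one_smul,
      LinearMap.id_apply] at this
    rw [this, Finsupp.single_apply]
    simp only [eq_comm]
  have h1 := hΦ fun i => ((Finsupp.lapply i).comp g).smulRight 1
  rw [h0, zero_apply, Finset.sum_eq_single 1] at h1
  · simp [hg'] at h1
  · intro σ _ hσ
    obtain ⟨i, hi⟩ : ∃ i, σ i ≠ i := by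
      by_contra h
      push Not at h
      exact hσ (Equiv.ext h)
    rw [List.prod_eq_zero, smul_zero]
    rw [List.mem_ofFn]
    exact ⟨i, by simp [hg', hi.symm]⟩
  · simp

/-- Sandwiching by `ε`, seen on the range of `ε`. -/
noncomputable def sand {k W : Type*} [Field k] [AddCommGroup W] [Module k W] (ε : End k W) :
    End k (LinearMap.range ε) →ₗ[k] End k W where
  toFun c := (LinearMap.range ε).subtype ∘ₗ c ∘ₗ ε.rangeRestrict
  map_add' _ _ := by ext; simp
  map_smul' _ _ := by ext; simp

theorem range_sand {k W : Type*} [Field k] [AddCommGroup W] [Module k W] (ε : End k W) :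
    LinearMap.range (sand ε) = LinearMap.range (LinearMap.mulLeftRight k (ε, ε)) := by
  apply le_antisymm
  · rintro _ ⟨c, rfl⟩
    obtain ⟨s, hs⟩ := ε.rangeRestrict.exists_rightInverse_of_surjective ε.range_rangeRestrict
    obtain ⟨p, hp⟩ := (LinearMap.range ε).subtype.exists_leftInverse_of_injective
      (Submodule.ker_subtype _)
    refine ⟨s ∘ₗ c ∘ₗ p, ?_⟩
    ext w
    have h1 : p (ε w) = ε.rangeRestrict w := LinearMap.congr_fun hp (ε.rangeRestrict w)
    have h2 : ∀ y, ε (s y) = y := fun y => congrArg Subtype.val (LinearMap.congr_fun hs y)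
    simp [sand, h1, h2]
  · rintro _ ⟨a, rfl⟩
    exact ⟨ε.rangeRestrict ∘ₗ a ∘ₗ (LinearMap.range ε).subtype, by ext; simp [sand]⟩

theorem finrank_sand {k W : Type*} [Field k] [AddCommGroup W] [Module k W] [FiniteDimensional k W]
    (ε : End k W) :
    finrank k (LinearMap.range (LinearMap.mulLeftRight k (ε, ε))) = rk ε * rk ε := by
  have : Function.Injective (sand ε) := by
    intro c d h
    ext ⟨_, w, rfl⟩
    exact LinearMap.congr_fun h w
  rw [← range_sand, LinearMap.finrank_range_of_inj this, Module.finrank_linearMap]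
  rfl

theorem span_range_eq_top {K G W : Type*} [Field K] [IsAlgClosed K] [Group G] [AddCommGroup W]
    [Module K W] [FiniteDimensional K W] (ρ : Representation K G W) [ρ.IsIrreducible] :
    Submodule.span K (Set.range ρ) = ⊤ := by
  rw [eq_top_iff]
  rintro f -
  have hb : Function.Bijective (algebraMap K (End (MonoidAlgebra K G) ρ.asModule)) :=
    IsSimpleModule.algebraMap_end_bijective_of_isAlgClosed K
  let f' : End (End (MonoidAlgebra K G) ρ.asModule) ρ.asModule :=
    { toFun := f
      map_add' := f.map_add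
      map_smul' := fun φ m => by
        obtain ⟨c, rfl⟩ := hb.2 φ
        exact f.map_smul c m }
  classical
  obtain ⟨r, hr⟩ := jacobson_density f' (Finset.univ.image (finBasis K W))
  have : f = ρ.asAlgebraHom r := (finBasis K W).ext fun i =>
    hr _ (Finset.mem_image_of_mem _ (Finset.mem_univ i))
  rw [this]
  clear hr this
  induction r using MonoidAlgebra.induction_on with
  | of g => exact Submodule.subset_span ⟨g, by simp⟩
  | add x y hx hy => rw [map_add]; exact Submodule.add_mem _ hx hy
  | smul r x hx => rw [map_smul]; exact Submodule.smul_mem _ r hx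

theorem smul_eq_zero_of_irr {G : Type} [Group G] [Finite G] (c : MonoidAlgebra ℂ G)
    (h : ∀ (V : Type) [AddCommGroup V] [Module ℂ V] [FiniteDimensional ℂ V]
      (σ : Representation ℂ G V), σ.IsIrreducible → σ.asAlgebraHom c = 0)
    (M : Type) [AddCommGroup M] [Module (MonoidAlgebra ℂ G) M] [Module ℂ M]
    [IsScalarTower ℂ (MonoidAlgebra ℂ G) M] [FiniteDimensional ℂ M]
    (hM : IsSimpleModule (MonoidAlgebra ℂ G) M) (x : M) : c • x = 0 := by
  have e : (Representation.ofModule' (k := ℂ) (G := G) M).asAlgebraHom = Algebra.lsmul ℂ ℂ M :=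
    (MonoidAlgebra.lift ℂ (M →ₗ[ℂ] M) G).apply_symm_apply _
  have := h _ (Representation.ofModule' M) ((Ch.isIrreducible_iff _).2
    ⟨IsSimpleModule.nontrivial (MonoidAlgebra ℂ G) M, fun U hU => by
      let U' : Submodule (MonoidAlgebra ℂ G) M :=
        { U.toAddSubmonoid with
          smul_mem' := fun r v hv => by
            induction r using MonoidAlgebra.induction_on with
            | of g => exact hU g v hv
            | add x y hx hy => rw [add_smul]; exact U.add_mem hx hy
            | smul r x hx => rw [smul_assoc]; exact U.smul_mem r hx }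
      rcases eq_bot_or_eq_top U' with h1 | h1
      · exact Or.inl (eq_bot_iff.2 fun v hv => h1.le (show v ∈ U' from hv))
      · exact Or.inr (eq_top_iff.2 fun v hv => show v ∈ U' from h1.ge hv)⟩)
  rw [e] at this
  exact LinearMap.congr_fun this x

theorem eq_zero_of_irr {G : Type} [Group G] [Finite G] (c : MonoidAlgebra ℂ G)
    (h : ∀ (V : Type) [AddCommGroup V] [Module ℂ V] [FiniteDimensional ℂ V]
      (σ : Representation ℂ G V), σ.IsIrreducible → σ.asAlgebraHom c = 0) : c = 0 := by
  have h1 := IsSemisimpleModule.sSup_simples_eq_top (MonoidAlgebra ℂ G) (MonoidAlgebra ℂ G)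
  have h2 : (1 : MonoidAlgebra ℂ G) ∈ sSup {m : Submodule (MonoidAlgebra ℂ G) (MonoidAlgebra ℂ G) |
      IsSimpleModule (MonoidAlgebra ℂ G) m} := h1 ▸ Submodule.mem_top
  have h3 : ∀ x ∈ sSup {m : Submodule (MonoidAlgebra ℂ G) (MonoidAlgebra ℂ G) |
      IsSimpleModule (MonoidAlgebra ℂ G) m}, c * x = 0 := by
    intro x hx
    rw [sSup_eq_iSup'] at hx
    induction hx using Submodule.iSup_induction' with
    | mem m x hx => exact congrArg Subtype.val (smul_eq_zero_of_irr c h m.1 m.2 ⟨x, hx⟩)
    | zero => simp
    | add x y _ _ hx hy => rw [mul_add, hx, hy, add_zero]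
  simpa using h3 1 h2

theorem rk_le_of_complex {G : Type} [Group G] [Finite G] (y : G) {D : ℕ}
    (h : ∀ (V : Type) [AddCommGroup V] [Module ℂ V] [FiniteDimensional ℂ V]
      (σ : Representation ℂ G V), σ.IsIrreducible → rk (σ y - 1) ≤ D)
    {K W : Type*} [Field K] [IsAlgClosed K] [AddCommGroup W] [Module K W] [FiniteDimensional K W]
    (ρ : Representation K G W) [ρ.IsIrreducible] : rk (ρ y - 1) ≤ D := by
  by_contra hlt
  push Not at hlt
  have hW : Nontrivial W := by
    by_contra hn
    rw [not_nontrivial_iff_subsingleton] at hn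
    have := rk_add_ker (ρ y - 1)
    rw [finrank_zero_of_subsingleton (M := W)] at this
    omega
  have hS := span_range_eq_top ρ
  set ε := ρ y - 1 with hε
  obtain ⟨b, hb, hsp, hli⟩ := exists_linearIndependent K (LinearMap.mulLeftRight K (ε, ε) '' Set.range ρ)
  rw [← Submodule.map_span, hS, Submodule.map_top] at hsp
  have hfin : b.Finite := hli.setFinite
  have := hfin.fintype
  have hcard : D * D + 1 ≤ Fintype.card b := by
    rw [linearIndependent_iff_card_eq_finrank_span.1 hli, Set.finrank, Subtype.range_coe, hsp,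
      finrank_sand]
    nlinarith
  obtain ⟨ι⟩ : Nonempty (Fin (D * D + 1) ↪ b) :=
    Function.Embedding.nonempty_of_card_le (by rwa [Fintype.card_fin])
  have hx := hli.comp ι ι.injective
  obtain ⟨a, c, ha, hc, hne⟩ := exists_cap_ne_zero hS hx
  choose g hg using fun i => hb (ι i).2
  choose g' hg' using fun i => (hg i).1
  choose a' ha' using ha
  choose c' hc' using hc
  let o := MonoidAlgebra.of ℤ G
  let z : MonoidAlgebra ℤ G := cap (fun i => (o y - 1) * o (g' i) * (o y - 1)) (fun i => o (a' i))
    (fun i => o (c' i))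
  have hz : z = 0 := by
    apply MonoidAlgebra.map_injective (M := G) (Int.castAddHom ℂ) Int.cast_injective
    rw [MonoidAlgebra.map_zero]
    change MonoidAlgebra.mapRingHom G (Int.castRingHom ℂ) z = 0
    refine eq_zero_of_irr _ fun V _ _ _ σ hσ => ?_
    rw [map_cap, map_cap]
    refine cap_eq_zero (k := ℂ) (fun hl => ?_) _ _
    have h1 := finrank_sand (σ y - 1)
    have h2 := h V σ hσ
    have h3 : LinearIndependent ℂ fun i => (⟨_, ⟨σ (g' i), rfl⟩⟩ :
        LinearMap.range (LinearMap.mulLeftRight ℂ (σ y - 1, σ y - 1))) := by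
      refine LinearIndependent.of_comp (Submodule.subtype _) ?_
      have e : (fun i => σ.asAlgebraHom ((MonoidAlgebra.mapRingHom G (Int.castRingHom ℂ))
          ((o y - 1) * o (g' i) * (o y - 1)))) = fun i => (σ y - 1) * σ (g' i) * (σ y - 1) := by
        funext i; simp [o]
      rw [e] at hl
      exact hl
    have h4 := h3.fintype_card_le_finrank
    rw [Fintype.card_fin, h1] at h4
    nlinarith
  have := congrArg (MonoidAlgebra.lift ℤ (End K W) G ρ) hz
  rw [map_zero, map_cap] at this
  refine hne ?_
  rw [← this]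
  congr 1
  · funext i
    have := (hg i).2
    rw [← hg' i] at this
    simp [o, ← this, hε]
  · funext i; simp [o, ha']
  · funext i; simp [o, hc']

end Cfsg.Agent.FG.Fix6
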