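import Mathlib
import Cfsg.Agent.FG.Fix6Rank
import Cfsg.Agent.Ch.Basic
import Cfsg.Agent.Cl.ClassMat

/-! Additivity of eigenvalue multiplicities, induction on composition series, base change and
induction along a cocycle. -/

set_option autoImplicit false

namespace Cfsg.Agent.FG.Fix6

open Module

universe v

section Eig

variable {K V : Type*} [Field K] [AddCommGroup V] [Module K V] [FiniteDimensional K V]

/-- The multiplicity of an eigenvalue. -/
noncomputable def ml (f : End K V) (μ : K) : ℕ := finrank K (f.eigenspace μ)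

omit [FiniteDimensional K V] in
theorem fx_eq_ml {H : Type*} [Group H] (ρ : Representation K H V) (h : H) : fx ρ h = ml (ρ h) 1 := by
  have : LinearMap.ker (ρ h - 1) = End.eigenspace (ρ h) 1 := by
    ext x
    simp [sub_eq_zero]
  unfold fx ml
  rw [this]

theorem ml_add (f : End K V) (W : Submodule K V) (hW : W ≤ W.comap f) {N : ℕ} (hN : (N : K) ≠ 0)
    (hf : f ^ N = 1) {μ : K} (hμ : μ ^ N = 1) :
    ml f μ = ml (f.restrict hW : End K W) μ + ml (W.mapQ W f hW : End K (V ⧸ W)) μ := by
  let φ : f.eigenspace μ →ₗ[K] End.eigenspace (W.mapQ W f hW : End K (V ⧸ W)) μ :=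
    LinearMap.codRestrict _ (W.mkQ ∘ₗ (f.eigenspace μ).subtype) fun x => by
      have := End.mem_eigenspace_iff.1 x.2
      rw [End.mem_eigenspace_iff]
      simp [this]
  have h1 := φ.finrank_range_add_finrank_ker
  have hμ0 : μ ≠ 0 := by
    rintro rfl
    rw [zero_pow (by rintro rfl; simp at hN)] at hμ
    exact zero_ne_one hμ
  have h2 : LinearMap.range φ = ⊤ := by
    rw [eq_top_iff]
    rintro ⟨q, hq⟩ -
    obtain ⟨x, rfl⟩ := W.mkQ_surjective q
    have hx : W.mkQ (f x) = μ • W.mkQ x := End.mem_eigenspace_iff.1 hq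
    set g : End K V := μ⁻¹ • f with hg
    have hgN : g ^ N = 1 := by rw [hg, smul_pow, hf, inv_pow, hμ, inv_one, one_smul]
    have h3 : ∀ j : ℕ, W.mkQ ((g ^ j) x) = W.mkQ x := by
      intro j
      induction j with
      | zero => rfl
      | succ j ih =>
        have e : ∀ y, W.mkQ (g y) = μ⁻¹ • W.mapQ W f hW (W.mkQ y) := fun y => by simp [hg]
        rw [pow_succ', End.mul_apply, e, ih, ← e, hg, LinearMap.smul_apply, map_smul, hx,
          inv_smul_smul₀ hμ0]
    have h4 : (g - 1) * ∑ j ∈ Finset.range N, g ^ j = 0 := by rw [mul_geom_sum, hgN, sub_self]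
    refine ⟨⟨(N : K)⁻¹ • (∑ j ∈ Finset.range N, g ^ j) x, Submodule.smul_mem _ _ ?_⟩,
      Subtype.ext ?_⟩
    · have := LinearMap.congr_fun h4 x
      rw [End.mul_apply, LinearMap.sub_apply, LinearMap.zero_apply, sub_eq_zero, End.one_apply,
        hg, LinearMap.smul_apply, inv_smul_eq_iff₀ hμ0] at this
      exact End.mem_eigenspace_iff.2 this
    · change W.mkQ ((N : K)⁻¹ • (∑ j ∈ Finset.range N, g ^ j) x) = W.mkQ x
      rw [map_smul, LinearMap.sum_apply, map_sum, Finset.sum_congr rfl fun j _ => h3 j,
        Finset.sum_const, Finset.card_range, ← Nat.cast_smul_eq_nsmul K, inv_smul_smul₀ hN]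
  have h3 : (LinearMap.ker φ).map (f.eigenspace μ).subtype =
      (End.eigenspace (f.restrict hW : End K W) μ).map W.subtype := by
    ext x
    constructor
    · rintro ⟨y, hy, rfl⟩
      have hyW : (y : V) ∈ W := (Submodule.Quotient.mk_eq_zero W).1 (congrArg Subtype.val hy)
      exact ⟨⟨y, hyW⟩, End.mem_eigenspace_iff.2 (Subtype.ext (End.mem_eigenspace_iff.1 y.2)), rfl⟩
    · rintro ⟨y, hy, rfl⟩
      refine ⟨⟨y, End.mem_eigenspace_iff.2 (congrArg Subtype.val (End.mem_eigenspace_iff.1 hy))⟩,
        Subtype.ext ((Submodule.Quotient.mk_eq_zero W).2 y.2), rfl⟩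
  have h4 := congrArg (fun U : Submodule K V => finrank K U) h3
  simp only [Submodule.finrank_map_subtype_eq] at h4
  rw [h2, finrank_top, h4] at h1
  unfold ml
  omega

omit [FiniteDimensional K V] in
theorem ml_of_basis {ι : Type*} [Fintype ι] (b : Basis ι K V) (f : End K V) (l : ι → K)
    (h : ∀ i, f (b i) = l i • b i) (μ : K) [DecidablePred fun i => l i = μ] :
    ml f μ = (Finset.univ.filter fun i => l i = μ).card := by
  have e : f.eigenspace μ = Submodule.span K (Set.range fun i : {i // l i = μ} => b i) := by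
    apply le_antisymm
    · intro x hx
      rw [End.mem_eigenspace_iff] at hx
      rw [← b.sum_repr x]
      refine Submodule.sum_mem _ fun i _ => ?_
      by_cases hi : l i = μ
      · exact Submodule.smul_mem _ _ (Submodule.subset_span ⟨⟨i, hi⟩, rfl⟩)
      · have h1 : b.repr (f x) i = l i * b.repr x i := by
          conv_lhs => rw [← b.sum_repr x]
          simp only [map_sum, map_smul, h, Basis.repr_self, Finsupp.coe_finsetSum, Finset.sum_apply,
            Finsupp.smul_apply, smul_eq_mul]
          classical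
          rw [Finset.sum_eq_single i (fun j _ hj => by simp [hj]) (by simp)]
          simp [mul_comm]
        rw [hx, map_smul, Finsupp.smul_apply, smul_eq_mul] at h1
        rcases mul_eq_mul_right_iff.1 h1 with h2 | h2
        · exact absurd h2.symm hi
        · rw [h2, zero_smul]; exact Submodule.zero_mem _
    · rw [Submodule.span_le]
      rintro _ ⟨i, rfl⟩
      exact End.mem_eigenspace_iff.2 (by rw [h, i.2])
  unfold ml
  rw [e, finrank_span_eq_card (b := fun i : {i // l i = μ} => b i)
    (b.linearIndependent.comp _ Subtype.val_injective), Fintype.card_subtype]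

end Eig

theorem rep_induct {K G : Type*} [Field K] [Group G]
    (P : ∀ (V : Type v) [AddCommGroup V] [Module K V], Representation K G V → Prop)
    (h0 : ∀ (V : Type v) [AddCommGroup V] [Module K V] (ρ : Representation K G V),
      Subsingleton V → P V ρ)
    (hs : ∀ (V : Type v) [AddCommGroup V] [Module K V] [FiniteDimensional K V]
      (ρ : Representation K G V), ρ.IsIrreducible → P V ρ)
    (hext : ∀ (V : Type v) [AddCommGroup V] [Module K V] [FiniteDimensional K V]
      (ρ : Representation K G V) (W : Submodule K V) (hW : ∀ g, W ≤ W.comap (ρ g)),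
      P W (ρ.subrepresentation W hW) → P (V ⧸ W) (ρ.quotient W hW) → P V ρ)
    (V : Type v) [AddCommGroup V] [Module K V] [FiniteDimensional K V] (ρ : Representation K G V) :
    P V ρ := by
  induction hn : finrank K V using Nat.strong_induction_on generalizing V with
  | _ n ih =>
    rcases subsingleton_or_nontrivial V with hV | hV
    · exact h0 V ρ hV
    by_cases hi : ρ.IsIrreducible
    · exact hs V ρ hi
    rw [Ch.isIrreducible_iff] at hi
    push Not at hi
    obtain ⟨W, hW, h1, h2⟩ := hi hV
    have h3 := Submodule.finrank_lt h2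
    have h4 := W.finrank_quotient_add_finrank
    have h5 : finrank K W ≠ 0 := fun e => h1 (Submodule.finrank_eq_zero.1 e)
    exact hext V ρ W (fun g v hv => hW g v hv) (ih _ (by omega) _ _ rfl) (ih _ (by omega) _ _ rfl)

theorem exists_baseChange {K V G : Type*} [Field K] [AddCommGroup V] [Module K V]
    [FiniteDimensional K V] [Group G] (ρ : Representation K G V) {L : Type*} [Field L] (φ : K →+* L) :
    ∃ ρ' : Representation L G (Fin (finrank K V) → L), ∀ g, fx ρ' g = fx ρ g := by
  let b := finBasis K V
  let ψ : End K V →+* End L (Fin (finrank K V) → L) :=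
    (Matrix.toLinAlgEquiv' (R := L)).toRingEquiv.toRingHom.comp
      (φ.mapMatrix.comp (LinearMap.toMatrixAlgEquiv b).toRingEquiv.toRingHom)
  refine ⟨ψ.toMonoidHom.comp ρ, fun g => ?_⟩
  have h1 : ∀ f : End K V, rk (ψ f) = rk f := fun f => by
    have e1 := Matrix.rank_eq_finrank_range_toLin (LinearMap.toMatrix b b f) b b
    rw [Matrix.toLin_toMatrix] at e1
    exact (Cl.Cls.rank_map φ (LinearMap.toMatrix b b f)).trans e1
  have h2 := rk_add_ker (ρ g - 1)
  have h3 := rk_add_ker (ψ (ρ g - 1))
  rw [h1, finrank_fin_fun, map_sub, map_one] at h3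
  change finrank L (LinearMap.ker (ψ (ρ g) - 1)) = finrank K (LinearMap.ker (ρ g - 1))
  omega

section Cocycle

variable {K V G Γ A : Type*} [Field K] [AddCommGroup V] [Module K V] [Group G] [Group Γ] [Group A]

/-- The representation induced along a cocycle. -/
def indRep (ρ : Representation K G V) (δ : Γ →* A) (c : A → Γ → G) (h1 : ∀ d, c d 1 = 1)
    (hc : ∀ d g g', c d (g * g') = c d g * c (d * δ g) g') : Representation K Γ (A → V) where
  toFun g := LinearMap.pi fun d => ρ (c d g) ∘ₗ LinearMap.proj (d * δ g)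
  map_one' := by ext f d; simp [h1]
  map_mul' g g' := by ext f d; simp [hc, mul_assoc]

theorem fx_indRep_le [Fintype A] [FiniteDimensional K V] (ρ : Representation K G V) (δ : Γ →* A)
    (c : A → Γ → G) (h1 : ∀ d, c d 1 = 1) (hc : ∀ d g g', c d (g * g') = c d g * c (d * δ g) g')
    {g : Γ} (hg : δ g = 1) {M : ℕ} (hM : ∀ d, fx ρ (c d g) ≤ M) :
    fx (indRep ρ δ c h1 hc) g ≤ Fintype.card A * M := by
  let φ : LinearMap.ker (indRep ρ δ c h1 hc g - 1) →ₗ[K] ∀ d, LinearMap.ker (ρ (c d g) - 1) :=
    LinearMap.pi fun d => LinearMap.codRestrict _ (LinearMap.proj d ∘ₗ Submodule.subtype _) fun f => by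
      have := congrFun (LinearMap.mem_ker.1 f.2) d
      change ρ (c d g) (f.1 (d * δ g)) - f.1 d = 0 at this
      rw [hg, mul_one] at this
      exact this
  have hφ : Function.Injective φ := fun f f' h =>
    Subtype.ext (funext fun d => congrArg Subtype.val (congrFun h d))
  refine (LinearMap.finrank_le_finrank_of_injective hφ).trans ?_
  rw [finrank_pi_fintype, ← Finset.card_univ, ← smul_eq_mul]
  exact Finset.sum_le_card_nsmul _ _ _ fun d _ => hM d

end Cocycle

end Cfsg.Agent.FG.Fix6
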