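import Mathlib
import Cfsg.Agent.FG.Fix6Cap
import Cfsg.Agent.FG.Fix6Ind
import Cfsg.Agent.Cl.CharGL2Table
import Cfsg.Agent.Cl.LinearBlock
import Cfsg.Agent.GT.Quasisimple
import Cfsg.Agent.GT.QuadSL2

/-! Fixed spaces of elements of order three of `SL₂(r)` in cross characteristic. -/

set_option autoImplicit false

namespace Cfsg.Agent.FG.Fix6

open Module Cl.GL2
open Matrix (SpecialLinearGroup GeneralLinearGroup)
open scoped MatrixGroups

universe v

/-- An element of order three. -/
def y3 (R : Type*) [CommRing R] : SL(2, R) := ⟨!![0, -1; 1, -1], by simp [Matrix.det_fin_two]⟩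

theorem y3_pow (R : Type*) [CommRing R] : y3 R ^ 3 = 1 := by
  rw [pow_three]
  ext i j
  change (!![0, -1; 1, -1] * (!![0, -1; 1, -1] * !![0, -1; 1, -1]) : Matrix (Fin 2) (Fin 2) R) i j =
    (1 : Matrix (Fin 2) (Fin 2) R) i j
  fin_cases i <;> fin_cases j <;> simp

theorem y3_ne_one (R : Type*) [CommRing R] [Nontrivial R] : y3 R ≠ 1 := fun h => by
  have := congrArg (fun A : SL(2, R) => A 1 0) h
  simp [y3] at this

theorem trace_three {V : Type*} [AddCommGroup V] [Module ℂ V] [FiniteDimensional ℂ V] {f : End ℂ V}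
    (hf : f ^ 3 = 1) : (3 * rk (f - 1) : ℂ) =
      2 * finrank ℂ V - LinearMap.trace ℂ V f - LinearMap.trace ℂ V (f ^ 2) := by
  have h0 : (f - 1) * (1 + f + f ^ 2) = 0 := by
    have := mul_geom_sum f 3
    rw [hf, sub_self] at this
    simpa [Finset.sum_range_succ] using this
  have hp : LinearMap.IsProj (LinearMap.ker (f - 1)) ((3 : ℂ)⁻¹ • (1 + f + f ^ 2)) := by
    constructor
    · intro x
      exact Submodule.smul_mem _ _ (LinearMap.congr_fun h0 x)
    · intro x hx
      have hx' : f x = x := by simpa [sub_eq_zero] using hx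
      simp only [LinearMap.smul_apply, LinearMap.add_apply, End.one_apply, pow_two, End.mul_apply, hx']
      module
  have h1 := hp.trace
  rw [map_smul, map_add, map_add, LinearMap.trace_one, smul_eq_mul] at h1
  have h2 : ((rk (f - 1) + finrank ℂ (LinearMap.ker (f - 1)) : ℕ) : ℂ) = finrank ℂ V := by
    rw [rk_add_ker]
  push_cast at h2
  linear_combination 3 * h2 + 3 * h1

variable {r : ℕ} [hr : Fact r.Prime]

theorem isEll_y3 (h3 : r % 3 = 2) : IsEll ((SpecialLinearGroup.toGL (y3 (ZMod r)) : GL (Fin 2) (ZMod r)) :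
    Mat (ZMod r)) := by
  rw [isEll_iff]
  intro c hc
  have h1 : c ^ 2 + c + 1 = 0 := by
    change cp (!![0, -1; 1, -1] : Mat (ZMod r)) c = 0 at hc
    simpa [cp, Matrix.trace_fin_two, Matrix.det_fin_two] using hc
  have h2 : c ^ 3 = 1 := by linear_combination (c - 1) * h1
  have hc0 : c ≠ 0 := by rintro rfl; simp at h1
  have h4 : c ^ (r - 1) = 1 := ZMod.pow_card_sub_one_eq_one hc0
  obtain ⟨k, hk⟩ : ∃ k, r - 1 = 3 * k + 1 := ⟨r / 3, by omega⟩
  rw [hk, pow_succ, pow_mul, h2, one_pow, one_mul] at h4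
  rw [h4] at h1
  have h5 : ((3 : ℕ) : ZMod r) = 0 := by push_cast; linear_combination h1
  rw [ZMod.natCast_eq_zero_iff] at h5
  have := (Nat.prime_dvd_prime_iff_eq hr.1 Nat.prime_three).1 h5
  omega

theorem rk_complex (h3 : r % 3 = 2) (V : Type) [AddCommGroup V] [Module ℂ V] [FiniteDimensional ℂ V]
    (σ : Representation ℂ (GL (Fin 2) (ZMod r)) V) (hσ : σ.IsIrreducible) :
    rk (σ (SpecialLinearGroup.toGL (y3 (ZMod r))) - 1) ≤ 2 * (r / 3 + 1) := by
  set y : GL (Fin 2) (ZMod r) := SpecialLinearGroup.toGL (y3 (ZMod r)) with hy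
  have he : IsEll (y : Mat (ZMod r)) := isEll_y3 h3
  have hy3 : y ^ 3 = 1 := by rw [hy, ← map_pow, y3_pow, map_one]
  have hy2 : y ^ 2 = bar y := by
    rw [hy, bar_toGL, ← map_pow]
    congr 1
    exact eq_inv_of_mul_eq_one_left (by rw [← pow_succ, y3_pow])
  have hconj : σ.character (y ^ 2) = σ.character y := by
    obtain ⟨c, hc⟩ := isConj_iff.1 (isConj_bar y)
    rw [hy2, ← hc, Representation.char_conj]
  have h1 := trace_three (f := σ y) (by rw [← map_pow, hy3, map_one])
  rw [← map_pow] at h1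
  change _ = _ - σ.character y - σ.character (y ^ 2) at h1
  rw [hconj, ← Representation.char_one σ] at h1
  have hlin : ∀ α, lin α y = 1 := fun α => by simp [lin, hy]
  have hcard : (Fintype.card (ZMod r) : ℂ) = r := by rw [ZMod.card]
  have key : ‖(3 * rk (σ y - 1) : ℂ)‖ ≤ 2 * r + 2 := by
    rw [h1]
    rcases irr_cases he (Ch.isIrrCharacter_character σ) with ⟨α, h⟩ | ⟨α, h⟩ | ⟨α, β, -, h⟩ | ⟨φ, -, h⟩
    · rw [h, lin_one, hlin]; norm_num; positivity
    · rw [h, stb_one, stb_ell α he, hlin, hcard]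
      have : (2 * r - -1 - -1 : ℂ) = ((2 * r + 2 : ℝ) : ℂ) := by push_cast; ring
      rw [this, Complex.norm_real, Real.norm_of_nonneg (by positivity)]
    · rw [h, princ_one, princ_ell α β he, hcard]
      have : (2 * (r + 1) - 0 - 0 : ℂ) = ((2 * r + 2 : ℝ) : ℂ) := by push_cast; ring
      rw [this, Complex.norm_real, Real.norm_of_nonneg (by positivity)]
    · have hn : ∀ x : torus y, ‖(φ x : ℂ)‖ = 1 := fun x =>
        Ch.norm_eq_one_of_pow_eq_one' (n := Nat.card (torus y)) Nat.card_pos.ne'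
          (by rw [← Units.val_pow_eq_pow_val, ← map_pow, pow_card_eq_one', map_one, Units.val_one])
      have h2 := cusp_torus he φ ⟨y, self_mem_torus⟩ he.not_isScal
      rw [h, cusp_one he, h2, hcard]
      set a := (φ ⟨y, self_mem_torus⟩ : ℂ)
      set b := (φ (barHom he.not_isScal ⟨y, self_mem_torus⟩) : ℂ)
      have ha : ‖a‖ = 1 := hn _
      have hb : ‖b‖ = 1 := hn _
      have h1r : (1 : ℝ) ≤ r := by exact_mod_cast hr.1.one_le
      have : (2 * (r - 1) - -(a + b) - -(a + b) : ℂ) = ((2 * r - 2 : ℝ) : ℂ) + 2 * (a + b) := by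
        push_cast; ring
      rw [this]
      have h4 := norm_add_le (((2 * r - 2 : ℝ) : ℂ)) (2 * (a + b))
      have h5 := norm_add_le a b
      rw [Complex.norm_real, Real.norm_of_nonneg (by linarith), norm_mul, Complex.norm_two] at h4
      linarith
  have h6 : (3 * rk (σ y - 1) : ℂ) = ((3 * rk (σ y - 1) : ℕ) : ℂ) := by push_cast; ring
  rw [h6, Complex.norm_natCast] at key
  have h7 : 3 * rk (σ y - 1) ≤ 2 * r + 2 := by exact_mod_cast key
  omega

/-- The diagonal matrix `diag(d, 1)`. -/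
def dg {F : Type*} [Field F] (d : Fˣ) : GL (Fin 2) F := upp d 1 0

theorem det_dg {F : Type*} [Field F] (d : Fˣ) : GeneralLinearGroup.det (dg d) = d := by
  ext
  simp [dg, Matrix.det_fin_two]

theorem dg_conj {F : Type*} [Field F] (d : Fˣ) (t : F) :
    dg d * SpecialLinearGroup.toGL (GT.slUp t) = SpecialLinearGroup.toGL (GT.slUp (d * t)) * dg d := by
  rw [gl_ext_iff]
  simp [dg, mul00, mul01, mul10, mul11]

theorem card_le_finrank {K V : Type*} [Field K] [IsAlgClosed K] [AddCommGroup V] [Module K V]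
    [FiniteDimensional K V] (hK : (r : K) ≠ 0) (ρ : Representation K (GL (Fin 2) (ZMod r)) V)
    (hu : ρ (SpecialLinearGroup.toGL (GT.slUp 1)) ≠ 1) : r - 1 ≤ finrank K V := by
  set u : GL (Fin 2) (ZMod r) := SpecialLinearGroup.toGL (GT.slUp 1) with hu'
  have hur : u ^ r = 1 := by
    rw [hu', ← map_pow, GT.slUp_pow, CharP.cast_eq_zero, zero_mul, GT.slUp_zero, map_one]
  set N : End K V := ∑ j ∈ Finset.range r, ρ u ^ j with hN
  have hNu : N * (ρ u - 1) = 0 := by rw [hN, geom_sum_mul, ← map_pow, hur, map_one, sub_self]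
  have hc : Commute N (ρ u) := Commute.sum_left _ _ _ fun j _ => (Commute.refl _).pow_left j
  have hinv : ∀ x ∈ LinearMap.ker N, ρ u x ∈ LinearMap.ker N := fun x hx => by
    rw [LinearMap.mem_ker, ← End.mul_apply, hc.eq, End.mul_apply, LinearMap.mem_ker.1 hx, map_zero]
  have hnt : Nontrivial (LinearMap.ker N) := by
    rw [Submodule.nontrivial_iff_ne_bot]
    intro h
    apply hu
    ext x
    have : (ρ u - 1) x ∈ LinearMap.ker N := LinearMap.congr_fun hNu x
    rw [h, Submodule.mem_bot] at this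
    simpa [sub_eq_zero] using this
  obtain ⟨η, hη⟩ := End.exists_eigenvalue ((ρ u).restrict hinv : End K (LinearMap.ker N))
  obtain ⟨⟨v, hvN⟩, hv⟩ := hη.exists_hasEigenvector
  have hv0 : v ≠ 0 := fun e => hv.2 (Subtype.ext e)
  have hv1 : End.HasEigenvector (ρ u) η v :=
    ⟨End.mem_eigenspace_iff.2 (congrArg Subtype.val hv.apply_eq_smul), hv0⟩
  have hsum : ∑ j ∈ Finset.range r, η ^ j = 0 := by
    have := LinearMap.mem_ker.1 hvN
    rw [hN, LinearMap.sum_apply, Finset.sum_congr rfl fun j _ => hv1.pow_apply j,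
      ← Finset.sum_smul] at this
    exact (smul_eq_zero.1 this).resolve_right hv0
  have hη1 : η ≠ 1 := by
    rintro rfl
    simp [hK] at hsum
  have hηr : η ^ r = 1 := by
    have := mul_geom_sum η r
    rw [hsum, mul_zero] at this
    exact (sub_eq_zero.1 this.symm)
  have ho : orderOf η = r := orderOf_eq_prime hηr hη1
  have hli := End.eigenvectors_linearIndependent' (ρ u) (fun d : (ZMod r)ˣ => η ^ (d : ZMod r).val)
    (fun d e h => by
      have := pow_injOn_Iio_orderOf (x := η) (by rw [ho]; exact ZMod.val_lt _)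
        (by rw [ho]; exact ZMod.val_lt _) h
      exact Units.ext (ZMod.val_injective r this))
    (fun d => ρ (dg d)⁻¹ v) (fun d => by
      refine ⟨End.mem_eigenspace_iff.2 ?_, fun e => hv0 ?_⟩
      · have h1 : u * (dg d)⁻¹ = (dg d)⁻¹ * u ^ (d : ZMod r).val := by
          rw [hu', ← map_pow, GT.slUp_pow, ZMod.natCast_zmod_val, eq_inv_mul_iff_mul_eq,
            ← mul_assoc, dg_conj, mul_inv_cancel_right]
        rw [← End.mul_apply, ← map_mul, h1, map_mul, End.mul_apply, map_pow, hv1.pow_apply, map_smul]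
      · have := congrArg (ρ (dg d)) e
        rwa [← End.mul_apply, ← map_mul, mul_inv_cancel, map_one, map_zero] at this)
  have := hli.fintype_card_le_finrank
  rwa [ZMod.card_units] at this

theorem cross_gl (h11 : 11 ≤ r) (h3 : r % 3 = 2) {K : Type*} [Field K] [IsAlgClosed K]
    (hK : (r : K) ≠ 0) (hK3 : ((3 : ℕ) : K) ≠ 0) (V : Type v) [AddCommGroup V] [Module K V]
    [FiniteDimensional K V] (ρ : Representation K (GL (Fin 2) (ZMod r)) V) :
    finrank K V ≤ 6 * fx ρ (SpecialLinearGroup.toGL (y3 (ZMod r))) := by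
  set y : GL (Fin 2) (ZMod r) := SpecialLinearGroup.toGL (y3 (ZMod r)) with hy
  have hy3 : y ^ 3 = 1 := by rw [hy, ← map_pow, y3_pow, map_one]
  refine rep_induct (fun V _ _ ρ => finrank K V ≤ 6 * fx ρ y) ?_ ?_ ?_ V ρ
  · intro V _ _ ρ _
    simp [finrank_zero_of_subsingleton]
  · intro V _ _ _ ρ hρ
    have h1 := rk_add_ker (ρ y - 1)
    change _ + fx ρ y = _ at h1
    by_cases hu : ρ (SpecialLinearGroup.toGL (GT.slUp 1)) = 1
    · have hq := Cl.sl_isQuasisimple (ι := Fin 2) (F := ZMod r) (Or.inr ⟨2, ?_, ?_⟩)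
      · rcases hq.normal_eq_top_or_le_center
          (ρ.asGroupHom.comp SpecialLinearGroup.toGL).ker with h | h
        · have h2 : y3 (ZMod r) ∈ (ρ.asGroupHom.comp SpecialLinearGroup.toGL).ker :=
            h ▸ Subgroup.mem_top _
          have h4 : ρ y = 1 := congrArg Units.val (MonoidHom.mem_ker.1 h2)
          unfold rk at h1
          rw [h4, sub_self, LinearMap.range_zero, finrank_bot] at h1
          omega
        · have := mem_center_sl_iff.1 (h (show GT.slUp 1 ∈ _ from Units.ext hu))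
          simp [IsScal] at this
      · intro h
        have := (ZMod.natCast_eq_zero_iff 2 r).1 (by exact_mod_cast h)
        have := Nat.le_of_dvd (by norm_num) this
        omega
      · intro h
        have := (ZMod.natCast_eq_zero_iff 3 r).1 (by push_cast; linear_combination h)
        have := Nat.le_of_dvd (by norm_num) this
        omega
    · have h2 := card_le_finrank hK ρ hu
      have h4 := rk_le_of_complex y (rk_complex h3) ρ
      omega
  · intro V _ _ _ ρ W hW h1 h2
    have h4 := W.finrank_quotient_add_finrank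
    have h5 := ml_add (ρ y) W (hW y) hK3 (by rw [← map_pow, hy3, map_one]) (one_pow 3)
    rw [fx_eq_ml] at h1 h2 ⊢
    change _ ≤ 6 * ml ((ρ y).restrict (hW y) : End K W) 1 at h1
    change _ ≤ 6 * ml (W.mapQ W (ρ y) (hW y) : End K (V ⧸ W)) 1 at h2
    omega

theorem cross_sl (h11 : 11 ≤ r) (h3 : r % 3 = 2) {K : Type*} [Field K] [IsAlgClosed K]
    (hK : (r : K) ≠ 0) (hK3 : ((3 : ℕ) : K) ≠ 0) {V : Type*} [AddCommGroup V] [Module K V]
    [FiniteDimensional K V] (ρ : Representation K SL(2, ZMod r) V) {M : ℕ}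
    (hM : ∀ h, h ≠ 1 → fx ρ h ≤ M) : finrank K V ≤ 6 * M := by
  let c : (ZMod r)ˣ → GL (Fin 2) (ZMod r) → SL(2, ZMod r) := fun d g =>
    ⟨(dg d * g * (dg (d * GeneralLinearGroup.det g))⁻¹ : GL (Fin 2) (ZMod r)), by
      rw [← GeneralLinearGroup.val_det_apply, map_mul, map_mul, map_inv, det_dg, det_dg,
        mul_inv_cancel, Units.val_one]⟩
  have hc : ∀ d g, SpecialLinearGroup.toGL (c d g) =
      dg d * g * (dg (d * GeneralLinearGroup.det g))⁻¹ := fun d g => Units.ext rfl
  have h1 : ∀ d, c d 1 = 1 := fun d => SpecialLinearGroup.toGL_injective (by simp [hc])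
  have h2 : ∀ d g g', c d (g * g') = c d g * c (d * GeneralLinearGroup.det g) g' := fun d g g' =>
    SpecialLinearGroup.toGL_injective (by simp [hc, mul_assoc])
  have hy : GeneralLinearGroup.det (SpecialLinearGroup.toGL (y3 (ZMod r))) = 1 := by
    ext; simp
  have h4 := cross_gl h11 h3 hK hK3 _ (indRep ρ GeneralLinearGroup.det c h1 h2)
  have h5 := fx_indRep_le ρ GeneralLinearGroup.det c h1 h2 hy (M := M) fun d => hM _ fun e => by
    have := hc d (SpecialLinearGroup.toGL (y3 (ZMod r)))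
    rw [e, map_one, hy, mul_one, eq_comm, mul_inv_eq_one, mul_eq_left, ← map_one SpecialLinearGroup.toGL]
      at this
    exact y3_ne_one _ (SpecialLinearGroup.toGL_injective this)
  rw [finrank_pi_fintype, Finset.sum_const, Finset.card_univ, smul_eq_mul] at h4
  have h6 : 0 < Fintype.card (ZMod r)ˣ := Fintype.card_pos
  nlinarith

end Cfsg.Agent.FG.Fix6
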