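import Mathlib
import Cfsg.Agent.FG.Fix6Cross
import Cfsg.Agent.Ch.MultSL2

/-! Simple modules of `SL₂(r)` in characteristic `r` are spaces of homogeneous polynomials. -/

set_option autoImplicit false

namespace Cfsg.Agent.FG.Fix6

open Module Cl.GL2
open scoped MatrixGroups

theorem span_pair_pow {K A : Type*} [Field K] [CommRing A] [Algebra K A] (p q : A) (k : ℕ) :
    Submodule.span K {p, q} ^ k =
      Submodule.span K (Set.range fun i : Fin (k + 1) => p ^ (i : ℕ) * q ^ (k - i)) := by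
  have hp : p ∈ Submodule.span K ({p, q} : Set A) := Submodule.subset_span (by simp)
  have hq : q ∈ Submodule.span K ({p, q} : Set A) := Submodule.subset_span (by simp)
  apply le_antisymm
  · induction k with
    | zero =>
      rw [pow_zero, Submodule.one_le]
      exact Submodule.subset_span ⟨0, by simp⟩
    | succ k ih =>
      rw [pow_succ]
      refine (mul_le_mul_left ih _).trans ?_
      rw [Submodule.span_mul_span, Submodule.span_le]
      rintro _ ⟨_, ⟨i, rfl⟩, x, hx, rfl⟩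
      have hi := i.2
      rcases hx with rfl | rfl
      · refine Submodule.subset_span ⟨i.succ, ?_⟩
        simp only [Fin.val_succ, Nat.add_sub_add_right]; ring
      · refine Submodule.subset_span ⟨i.castSucc, ?_⟩
        simp only [Fin.val_castSucc]
        rw [show k + 1 - i = k - i + 1 by omega]; ring
  · rw [Submodule.span_le]
    rintro _ ⟨i, rfl⟩
    have := Submodule.mul_mem_mul (Submodule.pow_mem_pow _ hp i) (Submodule.pow_mem_pow _ hq (k - i))
    rwa [← pow_add, show (i : ℕ) + (k - i) = k by have := i.2; omega] at this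

theorem exists_basis_of_range {K W A ι : Type*} [Field K] [AddCommGroup W] [Module K W]
    [AddCommGroup A] [Module K A] (φ : W →ₗ[K] A) (hφ : Function.Injective φ) {m : ι → A}
    (hm : LinearIndependent K m) (h : LinearMap.range φ = Submodule.span K (Set.range m)) :
    ∃ b : Basis ι K W, ∀ i, φ (b i) = m i := by
  let e := (LinearEquiv.ofInjective φ hφ).trans (LinearEquiv.ofEq _ _ h)
  refine ⟨(Basis.span hm).map e.symm, fun i => ?_⟩
  have : ∀ w, φ w = e w := fun w => rfl
  rw [this, Basis.map_apply, e.apply_symm_apply, Basis.span_apply]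

/-- The Weyl element. -/
def wy (R : Type*) [CommRing R] : SL(2, R) := ⟨!![0, -1; 1, 0], by simp [Matrix.det_fin_two]⟩

theorem coe_wy (R : Type*) [CommRing R] : (wy R : Mat R) = !![0, -1; 1, 0] := rfl

theorem coe_y3 (R : Type*) [CommRing R] : (y3 R : Mat R) = !![0, -1; 1, -1] := rfl

theorem coe_mul' {R : Type*} [CommRing R] (g h : SL(2, R)) :
    ((g * h : SL(2, R)) : Mat R) = (g : Mat R) * (h : Mat R) := rfl

variable {r : ℕ} [hr : Fact r.Prime] {K : Type*} [Field K] [CharP K r]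

variable (r K) in
/-- The embedding of the prime field. -/
abbrev io : ZMod r →+* K := ZMod.castHom (dvd_refl r) K

theorem vandermonde {M : Type*} [AddCommGroup M] [Module K M] {k : ℕ} (hk : k < r)
    (v : Fin (k + 1) → M) (h : ∀ b : ZMod r, ∑ j : Fin (k + 1), io r K b ^ (j : ℕ) • v j = 0) (j : Fin (k + 1)) :
    v j = 0 := by
  rw [← forall_dual_apply_eq_zero_iff K]
  intro ψ
  have := Matrix.eq_zero_of_forall_index_sum_pow_mul_eq_zero
    (f := fun i : Fin (k + 1) => io r K ((i : ℕ) : ZMod r)) (v := fun i => ψ (v i))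
    (fun a b e => by
      have e' := (io r K).injective e
      rw [ZMod.natCast_eq_natCast_iff', Nat.mod_eq_of_lt (by omega), Nat.mod_eq_of_lt (by omega)] at e'
      exact Fin.ext e')
    (fun i => by simpa using congrArg ψ (h ((i : ℕ) : ZMod r)))
  exact congrFun this j

theorem sum_io_lt {i : ℕ} (hi : i < r - 1) : ∑ x : ZMod r, io r K x ^ i = 0 := by
  have := congrArg (io r K) (FiniteField.sum_pow_lt_card_sub_one (ZMod r) i (by rwa [ZMod.card]))
  simpa only [map_sum, map_pow, map_zero] using this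

theorem sum_io_top : ∑ x : ZMod r, io r K x ^ (r - 1) = -1 := by
  have h1 : ∀ x : ZMod r, io r K x ^ (r - 1) = 1 - if x = 0 then 1 else 0 := fun x => by
    split_ifs with h
    · rw [h, map_zero, zero_pow (by have := hr.1.two_le; omega), sub_self]
    · rw [← map_pow, ZMod.pow_card_sub_one_eq_one h, map_one, sub_zero]
  rw [Finset.sum_congr rfl fun x _ => h1 x, Finset.sum_sub_distrib]
  simp

variable (r K) in
/-- Right translation of functions. -/
def rt (h : SL(2, ZMod r)) : (SL(2, ZMod r) → K) →ₐ[K] (SL(2, ZMod r) → K) :=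
  AlgHom.pi fun g => Pi.evalAlgHom K _ (g * h)

omit [CharP K r] hr in
theorem rt_apply (h : SL(2, ZMod r)) (f : SL(2, ZMod r) → K) (g : SL(2, ZMod r)) :
    rt r K h f g = f (g * h) := rfl

variable (r K) in
/-- First coordinate of the bottom row. -/
def cX : SL(2, ZMod r) → K := fun g => io r K ((g : Mat (ZMod r)) 1 0)

variable (r K) in
/-- Second coordinate of the bottom row. -/
def cY : SL(2, ZMod r) → K := fun g => io r K ((g : Mat (ZMod r)) 1 1)

theorem rt_cX (h : SL(2, ZMod r)) : rt r K h (cX r K) =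
    io r K ((h : Mat (ZMod r)) 0 0) • cX r K + io r K ((h : Mat (ZMod r)) 1 0) • cY r K := by
  funext g
  simp only [rt_apply, cX, cY, Matrix.SpecialLinearGroup.coe_mul, mul10, map_add, map_mul,
    Pi.add_apply, Pi.smul_apply, smul_eq_mul]
  ring

theorem rt_cY (h : SL(2, ZMod r)) : rt r K h (cY r K) =
    io r K ((h : Mat (ZMod r)) 0 1) • cX r K + io r K ((h : Mat (ZMod r)) 1 1) • cY r K := by
  funext g
  simp only [rt_apply, cX, cY, Matrix.SpecialLinearGroup.coe_mul, mul11, map_add, map_mul,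
    Pi.add_apply, Pi.smul_apply, smul_eq_mul]
  ring

theorem rt_mem (h : SL(2, ZMod r)) (k : ℕ) {f : SL(2, ZMod r) → K}
    (hf : f ∈ Submodule.span K {cX r K, cY r K} ^ k) :
    rt r K h f ∈ Submodule.span K {cX r K, cY r K} ^ k := by
  have h1 : (Submodule.span K {cX r K, cY r K}).map (rt r K h).toLinearMap ≤
      Submodule.span K {cX r K, cY r K} := by
    rw [Submodule.map_span_le]
    rintro _ (rfl | rfl)
    · exact Submodule.mem_span_pair.2 ⟨_, _, (rt_cX h).symm⟩
    · exact Submodule.mem_span_pair.2 ⟨_, _, (rt_cY h).symm⟩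
  have h2 := Submodule.mem_map_of_mem (f := (rt r K h).toLinearMap) hf
  rw [Submodule.map_pow] at h2
  exact pow_le_pow_left' h1 k h2

theorem li_monomial {k : ℕ} (hk : k < r) :
    LinearIndependent K fun i : Fin (k + 1) => cX r K ^ (i : ℕ) * cY r K ^ (k - i) := by
  rw [Fintype.linearIndependent_iff]
  intro c hc
  refine vandermonde (K := K) hk c fun b => ?_
  have := congrFun hc (GT.slLo b)
  simpa [cX, cY, mul_comm] using this

section Simple

variable {W : Type*} [AddCommGroup W] [Module K W] [FiniteDimensional K W]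
  (ρ : Representation K SL(2, ZMod r) W)

omit [FiniteDimensional K W] in
theorem nil_up [Nontrivial W] : (ρ (GT.slUp 1) - 1) ^ r = 0 := by
  have : CharP (End K W) r := charP_of_injective_algebraMap (algebraMap K (End K W)).injective r
  rw [sub_pow_char_of_commute r (Commute.one_right _), ← map_pow, GT.slUp_pow, CharP.cast_eq_zero,
    zero_mul, GT.slUp_zero, map_one, one_pow, sub_self]

omit [CharP K r] in
theorem slUp_eq_pow (t : ZMod r) : GT.slUp t = GT.slUp 1 ^ t.val := by
  rw [GT.slUp_pow, ZMod.natCast_zmod_val, mul_one]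

omit [CharP K r] in
theorem slDiag_mul {F : Type*} [Field F] {a b : F} (ha : a ≠ 0) (hb : b ≠ 0) :
    Ch.slDiag ha * Ch.slDiag hb = Ch.slDiag (mul_ne_zero ha hb) := by
  rw [sl_ext_iff]
  simp [Ch.coe_slDiag, mul_comm]

omit [CharP K r] in
theorem slDiag_pow {F : Type*} [Field F] (a : Fˣ) (n : ℕ) :
    Ch.slDiag a.ne_zero ^ n = Ch.slDiag (a ^ n).ne_zero := by
  induction n with
  | zero => rw [sl_ext_iff]; simp [Ch.coe_slDiag]
  | succ n ih => rw [pow_succ, ih, slDiag_mul]; simp only [pow_succ, Units.val_mul]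

theorem exists_functional [IsAlgClosed K] [Nontrivial W] :
    ∃ l : Dual K W, l ≠ 0 ∧ ∃ k, 1 ≤ k ∧ k ≤ r - 1 ∧ (∀ t w, l (ρ (GT.slUp t) w) = l w) ∧
      ∀ (a : (ZMod r)ˣ) w, l (ρ (Ch.slDiag a.ne_zero) w) = io r K (a⁻¹ : (ZMod r)ˣ) ^ k * l w := by
  obtain ⟨ζ, hζ⟩ := IsCyclic.exists_generator (α := (ZMod r)ˣ)
  let S : Submodule K (Dual K W) := LinearMap.ker (ρ (GT.slUp 1) - 1).dualMap
  have hS : ∀ l ∈ S, ∀ t w, l (ρ (GT.slUp t) w) = l w := by
    intro l hl t w
    have h1 : ∀ w, l (ρ (GT.slUp 1) w) = l w := fun w => by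
      have := LinearMap.congr_fun (LinearMap.mem_ker.1 hl) w
      simpa [sub_eq_zero] using this
    rw [slUp_eq_pow, map_pow]
    induction t.val with
    | zero => rfl
    | succ n ih => rw [pow_succ', End.mul_apply, h1, ih]
  have hnt : Nontrivial S := by
    have hlt : LinearMap.range (ρ (GT.slUp 1) - 1) < ⊤ := by
      refine lt_top_iff_ne_top.2 fun h => ?_
      have h1 := (LinearMap.range_eq_top.1 h).iterate r
      rw [← End.coe_pow, nil_up] at h1
      obtain ⟨x, hx⟩ := exists_ne (0 : W)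
      obtain ⟨y, rfl⟩ := h1 x
      exact hx rfl
    obtain ⟨l, hl, h⟩ := Submodule.exists_dual_map_eq_bot_of_lt_top hlt inferInstance
    refine ⟨⟨l, ?_⟩, 0, fun e => hl (congrArg Subtype.val e)⟩
    ext w
    exact (Submodule.mem_bot K).1 (h ▸ Submodule.mem_map_of_mem (LinearMap.mem_range_self _ w))
  have hinv : ∀ l ∈ S, (ρ (Ch.slDiag ζ.ne_zero)).dualMap l ∈ S := by
    intro l hl
    ext w
    have h1 : Ch.slDiag ζ.ne_zero * GT.slUp 1 = GT.slUp ((ζ : ZMod r) ^ 2 * 1) * Ch.slDiag ζ.ne_zero := by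
      rw [← Ch.slDiag_conj ζ.ne_zero, inv_mul_cancel_right]
    simp only [LinearMap.dualMap_apply, LinearMap.sub_apply, map_sub, End.one_apply,
      LinearMap.zero_apply]
    rw [← End.mul_apply, ← map_mul, h1, map_mul, End.mul_apply, hS l hl, sub_self]
  obtain ⟨μ, hμ⟩ := End.exists_eigenvalue (K := K) (V := S)
    (((ρ (Ch.slDiag ζ.ne_zero)).dualMap).restrict hinv)
  obtain ⟨⟨l, hlS⟩, hl⟩ := hμ.exists_hasEigenvector
  have hl0 : l ≠ 0 := fun e => hl.2 (Subtype.ext e)
  have h1 : ∀ w, l (ρ (Ch.slDiag ζ.ne_zero) w) = μ * l w := fun w =>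
    LinearMap.congr_fun (congrArg Subtype.val hl.apply_eq_smul) w
  have h2 : ∀ (n : ℕ) w, l (ρ (Ch.slDiag (ζ ^ n).ne_zero) w) = μ ^ n * l w := by
    intro n w
    rw [← slDiag_pow, map_pow]
    induction n with
    | zero => simp
    | succ n ih => rw [pow_succ', End.mul_apply, h1, ih, pow_succ', mul_assoc]
  have ho : orderOf ζ = r - 1 := by
    rw [orderOf_eq_card_of_forall_mem_zpowers hζ, Nat.card_eq_fintype_card, ZMod.card_units]
  have h2r := hr.1.two_le
  have hμ1 : μ ^ (r - 1) = 1 := by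
    obtain ⟨w, hw⟩ := DFunLike.ne_iff.1 hl0
    have := h2 (r - 1) w
    rw [← slDiag_pow, ← ho, slDiag_pow, pow_orderOf_eq_one] at this
    have e : Ch.slDiag (1 : (ZMod r)ˣ).ne_zero = 1 := by rw [sl_ext_iff]; simp [Ch.coe_slDiag]
    rw [e, map_one, End.one_apply, ho] at this
    exact (mul_eq_right₀ hw).1 this.symm
  have hprim : IsPrimitiveRoot (io r K (ζ⁻¹ : (ZMod r)ˣ)) (r - 1) := by
    have : IsPrimitiveRoot ζ⁻¹ (r - 1) := by
      rw [← ho]; exact (IsPrimitiveRoot.orderOf ζ).inv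
    exact (IsPrimitiveRoot.coe_units_iff.2 this).map_of_injective (io r K).injective
  have : NeZero (r - 1) := ⟨by omega⟩
  obtain ⟨j, hj, hjμ⟩ := hprim.eq_pow_of_pow_eq_one hμ1
  obtain ⟨k, hk1, hk2, hk⟩ : ∃ k, 1 ≤ k ∧ k ≤ r - 1 ∧ io r K (ζ⁻¹ : (ZMod r)ˣ) ^ k = μ := by
    rcases Nat.eq_zero_or_pos j with rfl | h
    · exact ⟨r - 1, by omega, le_rfl, by rw [hprim.pow_eq_one, ← hjμ, pow_zero]⟩
    · exact ⟨j, h, hj.le, hjμ⟩
  refine ⟨l, hl0, k, hk1, hk2, hS l hlS, fun a w => ?_⟩
  obtain ⟨n, rfl⟩ := (mem_powers_iff_mem_zpowers.2 (hζ a) : a ∈ Submonoid.powers ζ)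
  rw [h2, ← hk, ← pow_mul, mul_comm k, pow_mul, ← map_pow, ← Units.val_pow_eq_pow_val, inv_pow]

theorem formula {f : SL(2, ZMod r) → K} {k : ℕ} (hk : 1 ≤ k) (h1 : ∀ t g, f (GT.slUp t * g) = f g)
    (h2 : ∀ (a : (ZMod r)ˣ) g, f (Ch.slDiag a.ne_zero * g) = io r K (a⁻¹ : (ZMod r)ˣ) ^ k * f g)
    (h3 : ∀ t g, f (g * GT.slUp t) = f g) (g : SL(2, ZMod r)) :
    f g = f (wy _) * cX r K g ^ k + if (g : Mat (ZMod r)) 1 0 = 0 then f 1 * cY r K g ^ k else 0 := by
  have hd := det_entries_sl g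
  split_ifs with hc
  · rw [hc, mul_zero, sub_zero] at hd
    obtain ⟨a, ha1, ha2⟩ : ∃ a : (ZMod r)ˣ, (a : ZMod r) = (g : Mat (ZMod r)) 0 0 ∧
        ((a⁻¹ : (ZMod r)ˣ) : ZMod r) = (g : Mat (ZMod r)) 1 1 := ⟨Units.mkOfMulEqOne _ _ hd, rfl, rfl⟩
    have ha : (a : ZMod r) ≠ 0 := a.ne_zero
    have e : g = Ch.slDiag a.ne_zero * 1 * GT.slUp ((g : Mat (ZMod r)) 0 1 / a) := by
      rw [sl_ext_iff, mul_one, hc, ← ha1, ← ha2]
      simp only [coe_mul', mul00, mul01, mul10, mul11, Ch.coe_slDiag, GT.coe_slUp, Matrix.of_apply,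
        Matrix.cons_val', Matrix.cons_val_zero, Matrix.cons_val_one, Matrix.cons_val_fin_one,
        Units.val_inv_eq_inv_val]
      refine ⟨?_, ?_, ?_, ?_⟩ <;> field_simp <;> ring
    have e2 : f g = io r K (a⁻¹ : (ZMod r)ˣ) ^ k * f 1 := by
      conv_lhs => rw [e]
      rw [h3, h2]
    rw [e2, cX, cY, hc, map_zero, zero_pow (by omega), ha2]
    ring
  · let a : (ZMod r)ˣ := (Units.mk0 _ hc)⁻¹
    have e : g = GT.slUp ((g : Mat (ZMod r)) 0 0 / (g : Mat (ZMod r)) 1 0) *
        (Ch.slDiag a.ne_zero * wy _) * GT.slUp ((g : Mat (ZMod r)) 1 1 / (g : Mat (ZMod r)) 1 0) := by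
      rw [sl_ext_iff]
      simp only [coe_mul', mul00, mul01, mul10, mul11, Ch.coe_slDiag, coe_wy, a]
      simp
      refine ⟨?_, ?_, ?_⟩ <;> field_simp
      linear_combination -hd
    have e2 : f g = io r K (a⁻¹ : (ZMod r)ˣ) ^ k * f (wy _) := by
      conv_lhs => rw [e]
      rw [h3, h1, h2]
    rw [e2, cX]
    simp [a, mul_comm]

theorem sum_formula {f : SL(2, ZMod r) → K} {k : ℕ} (hk : 1 ≤ k) {α β : K}
    (hf : ∀ g, f g = α * cX r K g ^ k + if (g : Mat (ZMod r)) 1 0 = 0 then β * cY r K g ^ k else 0)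
    {s : K} (hs : ∑ x : ZMod r, io r K x ^ k = s) (hs' : k < r - 1 ∨ k = r - 1) :
    ∑ b : ZMod r, rt r K (GT.slUp b * wy _) f = (α * s + β * (-1) ^ k) • cX r K ^ k := by
  funext g
  rw [Finset.sum_apply]
  have e0 : ∀ b, ((g * (GT.slUp b * wy _) : SL(2, ZMod r)) : Mat (ZMod r)) 1 0 =
      (g : Mat (ZMod r)) 1 0 * b + (g : Mat (ZMod r)) 1 1 := fun b => by
    simp [mul10, coe_wy]
  have e1 : ∀ b, ((g * (GT.slUp b * wy _) : SL(2, ZMod r)) : Mat (ZMod r)) 1 1 =
      -(g : Mat (ZMod r)) 1 0 := fun b => by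
    simp [mul11, coe_wy]
  simp only [rt_apply, hf, cX, cY, e0, e1, Pi.smul_apply, Pi.pow_apply, smul_eq_mul]
  by_cases hc : (g : Mat (ZMod r)) 1 0 = 0
  · simp [hc, zero_pow (show k ≠ 0 by omega)]
  · rw [Finset.sum_add_distrib, ← Finset.mul_sum]
    let e : ZMod r ≃ ZMod r := (Equiv.mulLeft₀ _ hc).trans (Equiv.addRight ((g : Mat (ZMod r)) 1 1))
    have h1 := e.sum_comp fun x => io r K x ^ k
    have h2 := e.sum_comp fun x => if x = 0 then β * io r K (-(g : Mat (ZMod r)) 1 0) ^ k else 0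
    simp only [e, Equiv.trans_apply, Equiv.mulLeft₀_apply, Equiv.coe_addRight] at h1 h2
    rw [h1, h2, hs, Finset.sum_ite_eq' Finset.univ (0 : ZMod r), if_pos (Finset.mem_univ _), map_neg,
      neg_pow]
    rcases hs' with h | h
    · rw [← hs, sum_io_lt h]; ring
    · rw [h, ← map_pow, ZMod.pow_card_sub_one_eq_one hc, map_one]; ring

theorem exists_model [IsAlgClosed K] [ρ.IsIrreducible] (h2 : r ≠ 2) :
    ∃ k < r, ∃ φ : W →ₗ[K] (SL(2, ZMod r) → K), Function.Injective φ ∧
      (∀ h w, φ (ρ h w) = rt r K h (φ w)) ∧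
      LinearMap.range φ = Submodule.span K {cX r K, cY r K} ^ k := by
  obtain ⟨hW, hirr⟩ := (Ch.isIrreducible_iff ρ).1 inferInstance
  obtain ⟨l, hl, k, hk1, hk2, hU, hT⟩ := exists_functional ρ
  let φ : W →ₗ[K] (SL(2, ZMod r) → K) := LinearMap.pi fun g => l ∘ₗ ρ g
  have hφ : ∀ w g, φ w g = l (ρ g w) := fun _ _ => rfl
  have heq : ∀ h w, φ (ρ h w) = rt r K h (φ w) := fun h w => by
    funext g; rw [rt_apply, hφ, hφ, map_mul, End.mul_apply]
  have hinj : Function.Injective φ := by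
    rw [← LinearMap.ker_eq_bot]
    refine (hirr _ fun g v hv => ?_).resolve_right fun h => hl ?_
    · rw [LinearMap.mem_ker, heq, LinearMap.mem_ker.1 hv, map_zero]
    · ext w
      have h1 : φ w = 0 := (h ▸ Submodule.mem_top : w ∈ LinearMap.ker φ)
      have := congrFun h1 1
      simpa [hφ] using this
  have hinv : ∀ h, ∀ f ∈ LinearMap.range φ, rt r K h f ∈ LinearMap.range φ := by
    rintro h _ ⟨w, rfl⟩; exact ⟨_, heq h w⟩
  obtain ⟨w, hw0, hw⟩ : ∃ w, w ≠ 0 ∧ ρ (GT.slUp 1) w = w := by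
    by_contra hn
    push Not at hn
    have h1 : Function.Injective (ρ (GT.slUp 1) - 1 : End K W) := by
      rw [← LinearMap.ker_eq_bot, eq_bot_iff]
      intro w hw
      by_contra h
      exact hn w h (by simpa [sub_eq_zero] using hw)
    have h3 := h1.iterate r
    rw [← End.coe_pow, nil_up] at h3
    obtain ⟨x, hx⟩ := exists_ne (0 : W)
    exact hx (h3 rfl)
  have hf := formula (f := φ w) hk1 (fun t g => by rw [hφ, hφ, map_mul, End.mul_apply, hU])
    (fun a g => by rw [hφ, hφ, map_mul, End.mul_apply, hT]) (fun t g => by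
      rw [hφ, hφ, map_mul, End.mul_apply, slUp_eq_pow, map_pow, End.pow_apply,
        Function.iterate_fixed hw])
  set α := φ w (wy _)
  set β := φ w 1
  have hf0 : φ w ≠ 0 := fun e => hw0 (hinj (by rw [e, map_zero]))
  have hsm : ∀ (c : K) (f : SL(2, ZMod r) → K), c ≠ 0 → c • f ∈ LinearMap.range φ →
      f ∈ LinearMap.range φ := fun c f hc h => (Submodule.smul_mem_iff _ hc).1 h
  have h2r := hr.1.two_le
  obtain ⟨m, hm, hX⟩ : ∃ m < r, cX r K ^ m ∈ LinearMap.range φ := by
    have hs := sum_formula hk1 hf rfl (by omega)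
    have hs' : ∑ b : ZMod r, rt r K (GT.slUp b * wy _) (φ w) ∈ LinearMap.range φ :=
      Submodule.sum_mem _ fun b _ => hinv _ _ ⟨w, rfl⟩
    rw [hs] at hs'
    by_cases hγ : α * ∑ x : ZMod r, io r K x ^ k + β * (-1) ^ k = 0
    swap
    · exact ⟨k, by omega, hsm _ _ hγ hs'⟩
    rcases hk2.lt_or_eq with h | h
    · rw [sum_io_lt h, mul_zero, zero_add, mul_eq_zero_iff_right (by simp)] at hγ
      have e : φ w = α • cX r K ^ k := by funext g; rw [hf]; simp [hγ]
      refine ⟨k, by omega, hsm α _ (fun h0 => hf0 (by rw [e, h0, zero_smul])) (e ▸ ⟨w, rfl⟩)⟩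
    · have hev : Even k := by
        rw [h]; exact hr.1.even_sub_one h2
      rw [hev.neg_one_pow, h, sum_io_top] at hγ
      have e : φ w = α • cX r K ^ 0 := by
        funext g
        have hβ : β = α := by linear_combination hγ
        rw [hf, h, hβ, cX, cY, ← map_pow, ← map_pow]
        split_ifs with hc
        · have hd : (g : Mat (ZMod r)) 1 1 ≠ 0 := fun e => by
            have := det_entries_sl g
            rw [hc, e] at this
            simp at this
          rw [hc, ZMod.pow_card_sub_one_eq_one hd, zero_pow (by omega)]; simp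
        · rw [ZMod.pow_card_sub_one_eq_one hc]; simp
      exact ⟨0, by omega, hsm α _ (fun h0 => hf0 (by rw [e, h0, zero_smul])) (e ▸ ⟨w, rfl⟩)⟩
  refine ⟨m, hm, φ, hinj, heq, le_antisymm ?_ ?_⟩
  · have := (hirr ((Submodule.span K {cX r K, cY r K} ^ m).comap φ) fun g v hv => by
      rw [Submodule.mem_comap, heq]; exact rt_mem g m hv).resolve_left fun h => by
        obtain ⟨v, hv⟩ := hX
        have : v ∈ (Submodule.span K {cX r K, cY r K} ^ m).comap φ := by
          rw [Submodule.mem_comap, hv]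
          exact Submodule.pow_mem_pow _ (Submodule.subset_span (by simp)) m
        rw [h, Submodule.mem_bot] at this
        have h1 := congrFun hv (wy _)
        rw [this, map_zero] at h1
        simp [cX, coe_wy] at h1
    rintro _ ⟨v, rfl⟩
    exact (this ▸ Submodule.mem_top : v ∈ (Submodule.span K {cX r K, cY r K} ^ m).comap φ)
  · rw [Set.pair_comm, span_pair_pow, Submodule.span_le]
    rintro _ ⟨j, rfl⟩
    have h1 := vandermonde (K := K) hm (fun j => (LinearMap.range φ).mkQ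
      ((m.choose j : K) • (cY r K ^ (j : ℕ) * cX r K ^ (m - j)))) (fun b => by
        have h3 := hinv (GT.slLo b) _ hX
        rw [map_pow, rt_cX, add_comm, add_pow, Finset.sum_range] at h3
        rw [← (Submodule.Quotient.mk_eq_zero _).2 h3, ← Submodule.mkQ_apply, map_sum]
        refine Finset.sum_congr rfl fun i _ => ?_
        rw [← map_smul]
        congr 1
        funext g
        simp
        ring) j
    refine hsm (m.choose j : K) _ ?_ ((Submodule.Quotient.mk_eq_zero _).1 h1)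
    rw [Ne, CharP.cast_eq_zero_iff K r]
    exact (Nat.Prime.coprime_iff_not_dvd hr.1).1
      (hr.1.coprime_choose_of_lt hm (by have := j.2; omega))

end Simple

end Cfsg.Agent.FG.Fix6
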