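import Mathlib
import Cfsg.Agent.FG.Fix6Poly

/-! Fixed spaces for `SL₂(r)` in characteristic `r ≥ 17`. -/

set_option autoImplicit false

namespace Cfsg.Agent.FG.Fix6

open Module Cl.GL2
open scoped MatrixGroups

universe v

open Classical in
/-- The number of `i ≤ k` with `z ^ (2 i - k) = z ^ j`. -/
noncomputable def cnt {K : Type*} [Field K] (z : Kˣ) (k : ℕ) (j : ℤ) : ℕ :=
  ∑ i ∈ Finset.range (k + 1), if z ^ (2 * (i : ℤ) - k) = z ^ j then 1 else 0

open Classical in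
theorem cnt_step {K : Type*} [Field K] (z : Kˣ) (k : ℕ) (j : ℤ) :
    cnt z k (j + 2) + (if z ^ (k : ℤ) = z ^ j then 1 else 0) =
      cnt z k j + (if z ^ (-k : ℤ) = z ^ (j + 2) then 1 else 0) := by
  unfold cnt
  rw [Finset.sum_range_succ', Finset.sum_range_succ _ k]
  have : ∀ i : ℕ, z ^ (2 * ((i + 1 : ℕ) : ℤ) - k) = z ^ (j + 2) ↔ z ^ (2 * (i : ℤ) - k) = z ^ j := by
    intro i
    rw [show 2 * ((i + 1 : ℕ) : ℤ) - k = 2 * (i : ℤ) - k + 2 by push_cast; ring, zpow_add, zpow_add,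
      mul_left_inj]
  simp only [this, show 2 * (k : ℤ) - k = k by ring, Nat.cast_zero, mul_zero, zero_sub]
  ring

variable {r : ℕ} [hr : Fact r.Prime] {K : Type*} [Field K] [CharP K r]

theorem simple_bound [IsAlgClosed K] (h17 : 17 ≤ r) (h3 : r % 3 = 2) (ζ : (ZMod r)ˣ) (z : Kˣ)
    (hz : (z : K) = io r K ζ) (ho : orderOf z = r - 1) {W : Type*} [AddCommGroup W] [Module K W]
    [FiniteDimensional K W] (ρ : Representation K SL(2, ZMod r) W) [ρ.IsIrreducible] :
    finrank K W + 2 * ml (ρ (Ch.slDiag ζ.ne_zero)) (z ^ 3) + ml (ρ (Ch.slDiag ζ.ne_zero)) (z ^ 6) ≤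
      2 * ml (ρ (Ch.slDiag ζ.ne_zero)) z + ml (ρ (Ch.slDiag ζ.ne_zero)) (z ^ 4) +
        4 * ml (ρ (y3 _)) 1 := by
  classical
  obtain ⟨k, hk, φ, hinj, heq, hrange⟩ := exists_model ρ (by omega)
  have hli := li_monomial (K := K) hk
  obtain ⟨b, hb⟩ := exists_basis_of_range φ hinj hli (by rw [hrange, span_pair_pow])
  have hdim : finrank K W = k + 1 := by rw [finrank_eq_card_basis b, Fintype.card_fin]
  have hml : ∀ j : ℕ, ml (ρ (Ch.slDiag ζ.ne_zero)) (z ^ j) = cnt z k j := by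
    intro j
    rw [ml_of_basis b _ (fun i => ((z ^ (2 * ((i : ℕ) : ℤ) - k) : Kˣ) : K)) (fun i => hinj (by
      rw [heq, map_smul, hb, map_mul, map_pow, map_pow, rt_cX, rt_cY]
      have hi := i.2
      have e : (2 * ((i : ℕ) : ℤ) - k) = (i : ℕ) + -((k - i : ℕ) : ℤ) := by omega
      simp only [Ch.coe_slDiag, Matrix.of_apply, Matrix.cons_val', Matrix.cons_val_zero,
        Matrix.cons_val_one, Matrix.cons_val_fin_one, map_zero, zero_smul, add_zero, zero_add, map_inv₀,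
        ← hz, e, zpow_add, zpow_neg, zpow_natCast, Units.val_mul, Units.val_inv_eq_inv_val,
        Units.val_pow_eq_pow_val, smul_pow, smul_mul_smul_comm, inv_pow])),
      Finset.card_filter, cnt, Finset.sum_range]
    refine Finset.sum_congr rfl fun i _ => if_congr ?_ rfl rfl
    rw [← Units.val_pow_eq_pow_val, Units.val_inj, zpow_natCast]
  have hK3 : (3 : K) ≠ 0 := by
    intro h
    have := (CharP.cast_eq_zero_iff K r 3).1 (by exact_mod_cast h)
    have := Nat.le_of_dvd (by norm_num) this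
    omega
  obtain ⟨ω, hω⟩ : ∃ ω : K, ω ^ 2 + ω + 1 = 0 := by
    obtain ⟨ω, h⟩ := IsAlgClosed.exists_root (Polynomial.X ^ 2 + Polynomial.X + 1 : Polynomial K)
      (by rw [show (Polynomial.X ^ 2 + Polynomial.X + 1 : Polynomial K).degree = 2 by compute_degree!]
          decide)
    exact ⟨ω, by simpa using h⟩
  have hω3 : ω ^ 3 = 1 := by linear_combination (ω - 1) * hω
  have hne : ω ^ 2 - ω ≠ 0 := fun h => hK3 (by
    linear_combination (-(2 : K) * ω + 3) * hω + (2 * ω + 1) * h + 0 * hω3 + 0 * hω)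
  set l₁ := cX r K - ω • cY r K with hl₁
  set l₂ := cX r K - ω ^ 2 • cY r K with hl₂
  have hδ := inv_mul_cancel₀ hne
  have hsp : Submodule.span K {cX r K, cY r K} = Submodule.span K {l₁, l₂} := by
    apply le_antisymm <;> rw [Submodule.span_le] <;> rintro _ (rfl | rfl) <;>
      refine Submodule.mem_span_pair.2 ?_
    · refine ⟨(ω ^ 2 - ω)⁻¹ * ω ^ 2, -((ω ^ 2 - ω)⁻¹ * ω), ?_⟩
      funext g
      simp only [hl₁, hl₂, Pi.add_apply, Pi.smul_apply, Pi.sub_apply, smul_eq_mul]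
      linear_combination (cX r K g) * hδ
    · refine ⟨(ω ^ 2 - ω)⁻¹, -(ω ^ 2 - ω)⁻¹, ?_⟩
      funext g
      simp only [hl₁, hl₂, Pi.add_apply, Pi.smul_apply, Pi.sub_apply, smul_eq_mul]
      linear_combination (cY r K g) * hδ
    · exact ⟨1, -ω, by rw [hl₁]; module⟩
    · exact ⟨1, -ω ^ 2, by rw [hl₂]; module⟩
  have hli' : LinearIndependent K fun i : Fin (k + 1) => l₁ ^ (i : ℕ) * l₂ ^ (k - i) := by
    rw [linearIndependent_iff_card_eq_finrank_span, Set.finrank, ← span_pair_pow, ← hsp, span_pair_pow]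
    exact linearIndependent_iff_card_eq_finrank_span.1 hli
  obtain ⟨b', hb'⟩ := exists_basis_of_range φ hinj hli' (by rw [hrange, hsp, span_pair_pow])
  have e₁ : rt r K (y3 _) l₁ = ω • l₁ := by
    rw [hl₁, map_sub, map_smul, rt_cX, rt_cY]
    funext g
    simp [coe_y3]
    linear_combination (cY r K g) * hω
  have e₂ : rt r K (y3 _) l₂ = ω ^ 2 • l₂ := by
    rw [hl₂, map_sub, map_smul, rt_cX, rt_cY]
    funext g
    simp [coe_y3]
    linear_combination (cY r K g) * hω + (cY r K g * ω) * hω3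
  have hy := ml_of_basis b' (ρ (y3 _)) (fun i => ω ^ (i : ℕ) * (ω ^ 2) ^ (k - i)) (fun i => hinj (by
    rw [heq, map_smul, hb', map_mul, map_pow, map_pow, e₁, e₂, smul_pow, smul_pow,
      smul_mul_smul_comm])) 1
  have hy' : (k + 3 - 2 * k % 3) / 3 ≤ ml (ρ (y3 _)) 1 := by
    rw [hy, ← Finset.card_range ((k + 3 - 2 * k % 3) / 3)]
    refine Finset.card_le_card_of_injOn (fun j => Fin.ofNat (k + 1) (3 * j + 2 * k % 3)) ?_ ?_
    · intro j hj
      have hj' : j < (k + 3 - 2 * k % 3) / 3 := Finset.mem_range.1 hj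
      refine Finset.mem_filter.2 ⟨Finset.mem_univ _, ?_⟩
      rw [Fin.val_ofNat, Nat.mod_eq_of_lt (by omega), ← pow_mul, ← pow_add]
      obtain ⟨m, hm⟩ : 3 ∣ 3 * j + 2 * k % 3 + 2 * (k - (3 * j + 2 * k % 3)) := by omega
      rw [hm, pow_mul, hω3, one_pow]
    · intro i hi j hj e
      have hi' : i < (k + 3 - 2 * k % 3) / 3 := Finset.mem_range.1 hi
      have hj' : j < (k + 3 - 2 * k % 3) / 3 := Finset.mem_range.1 hj
      have := congrArg Fin.val e
      simp only [Fin.val_ofNat] at this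
      rw [Nat.mod_eq_of_lt (a := 3 * i + _) (by omega),
        Nat.mod_eq_of_lt (a := 3 * j + _) (by omega)] at this
      omega
  have hneg : ∀ j : ℕ, 0 < j → j < r - 1 → z ^ (-k : ℤ) = z ^ (j : ℤ) → k + j = r - 1 := by
    intro j h0 hj h
    have h1 : z ^ (k + j) = 1 := by
      rw [pow_add, ← zpow_natCast z j, ← h, zpow_neg, zpow_natCast, mul_inv_cancel]
    obtain ⟨c, hc⟩ := ho ▸ orderOf_dvd_of_pow_eq_one h1
    rcases c with _ | _ | c
    · omega
    · omega
    · have : (r - 1) * (c + 1 + 1) = (r - 1) * c + 2 * (r - 1) := by ring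
      omega
  have hs : ∀ j : ℕ, j + 2 < r - 1 → cnt z k (j + 2 : ℕ) ≤ cnt z k j + 1 ∧
      (cnt z k (j + 2 : ℕ) ≤ cnt z k j ∨ k + (j + 2) = r - 1) ∧
      (k ≠ j ∨ cnt z k (j + 2 : ℕ) + 1 ≤ cnt z k j ∨ k + (j + 2) = r - 1) := by
    intro j hj
    have s := cnt_step z k j
    have n := hneg (j + 2) (by omega) hj
    have p : k = j → z ^ (k : ℤ) = z ^ (j : ℤ) := by rintro rfl; rfl
    push_cast at n ⊢
    split_ifs at s with c1 c2 c2
    · have := n c2; omega
    · omega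
    · have := n c2; omega
    · have := mt p c1; omega
  have s1 := hs 1 (by omega)
  have s4 := hs 4 (by omega)
  have m1 := hml 1
  rw [pow_one] at m1
  rw [hdim, m1, hml 3, hml 4, hml 6]
  simp only [Nat.reduceAdd] at s1 s4
  obtain ⟨m, rfl | rfl | rfl⟩ : ∃ m, k = 3 * m ∨ k = 3 * m + 1 ∨ k = 3 * m + 2 := ⟨k / 3, by omega⟩ <;>
    omega

theorem one_add_pow_eq {R : Type*} [Ring R] (n : R) (m : ℕ) :
    ∃ q, Commute n q ∧ (1 + n) ^ m = 1 + m * n + n * n * q := by
  induction m with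
  | zero => exact ⟨0, Commute.zero_right _, by simp⟩
  | succ m ih =>
    obtain ⟨q, hq, e⟩ := ih
    refine ⟨m + q * (1 + n), (Nat.commute_cast n m).add_right
      (hq.mul_right ((Commute.one_right n).add_right (Commute.refl n))), ?_⟩
    rw [pow_succ, e]
    have := (Nat.commute_cast (n * n) m).eq
    push_cast
    simp only [add_mul, mul_add, one_mul, mul_one, this, mul_assoc]
    abel

variable {V : Type v} [AddCommGroup V] [Module K V] [FiniteDimensional K V]

theorem ml_le (ρ : Representation K SL(2, ZMod r) V) (ζ : (ZMod r)ˣ) (μ : K) :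
    ml (ρ (Ch.slDiag ζ.ne_zero)) μ ≤ ml (ρ (Ch.slDiag ζ.ne_zero)) (io r K ζ ^ 2 * μ) +
      finrank K ↥(End.eigenspace (ρ (Ch.slDiag ζ.ne_zero)) μ ⊓ LinearMap.ker (ρ (GT.slUp 1) - 1)) := by
  rcases subsingleton_or_nontrivial V with hV | hV
  · simp [ml, finrank_zero_of_subsingleton]
  have h2r := hr.1.two_le
  set t := ρ (Ch.slDiag ζ.ne_zero) with ht
  set n := ρ (GT.slUp 1) - 1 with hn
  set ξ : End K V := ∑ a : ZMod r, io r K a ^ (r - 2) • ρ (GT.slUp a) with hξ
  have h1 : t * ξ = io r K ζ ^ 2 • (ξ * t) := by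
    have hζ2 : (ζ : ZMod r) ^ 2 ≠ 0 := pow_ne_zero _ ζ.ne_zero
    conv_rhs => rw [hξ, ← Equiv.sum_comp (Equiv.mulLeft₀ _ hζ2)]
    rw [hξ, Finset.mul_sum, Finset.sum_mul, Finset.smul_sum]
    refine Finset.sum_congr rfl fun a _ => ?_
    have e : io r K ζ ^ 2 * io r K (ζ ^ 2 * a) ^ (r - 2) = io r K a ^ (r - 2) := by
      rw [map_mul, mul_pow, ← mul_assoc, map_pow, ← pow_succ', show r - 2 + 1 = r - 1 by omega,
        ← map_pow, ← map_pow, ZMod.pow_card_sub_one_eq_one hζ2, map_one, one_mul]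
    rw [Equiv.mulLeft₀_apply, mul_smul_comm, smul_mul_assoc, smul_smul, e, ht, ← map_mul, ← map_mul,
      ← Ch.slDiag_conj ζ.ne_zero, inv_mul_cancel_right]
  have h3 : ∀ x, ξ x = 0 → n x = 0 := by
    choose q hq using fun a : ZMod r => one_add_pow_eq n a.val
    set Q : End K V := ∑ a : ZMod r, io r K a ^ (r - 2) • q a with hQ
    have hc : Commute n Q := Commute.sum_right _ _ _ fun a _ => (hq a).1.smul_right _
    have e : ξ = (n * Q - 1) * n := by
      have e1 : ∀ a : ZMod r, io r K a ^ (r - 2) • ρ (GT.slUp a) = io r K a ^ (r - 2) • (1 : End K V) +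
          io r K a ^ (r - 1) • n + n * n * (io r K a ^ (r - 2) • q a) := fun a => by
        rw [slUp_eq_pow, map_pow, show ρ (GT.slUp 1) = 1 + n by rw [hn]; abel, (hq a).2, smul_add,
          smul_add, mul_smul_comm, show r - 1 = r - 2 + 1 by omega, pow_succ, mul_smul,
          ← nsmul_eq_mul, ← Nat.cast_smul_eq_nsmul K, ZMod.castHom_apply, ZMod.cast_eq_val]
      rw [hξ, Finset.sum_congr rfl fun a _ => e1 a, Finset.sum_add_distrib, Finset.sum_add_distrib,
        ← Finset.sum_smul, ← Finset.sum_smul, ← Finset.mul_sum, ← hQ, sum_io_lt (by omega),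
        sum_io_top, sub_mul (n * Q), mul_assoc n Q, ← hc.eq, zero_smul, zero_add, neg_smul, one_smul, one_mul,
        mul_assoc, neg_add_eq_sub]
    have hu : IsUnit (n * Q - 1) := (hc.isNilpotent_mul_right ⟨r, nil_up ρ⟩).isUnit_sub_one
    intro x hx
    rw [e] at hx
    exact LinearMap.mem_ker.1 (ker_unit_mul hu n ▸ LinearMap.mem_ker.2 hx)
  let ψ : End.eigenspace t μ →ₗ[K] End.eigenspace t (io r K ζ ^ 2 * μ) :=
    LinearMap.codRestrict _ (ξ ∘ₗ Submodule.subtype _) fun x => by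
      rw [End.mem_eigenspace_iff]
      have := LinearMap.congr_fun h1 x
      simp only [End.mul_apply, LinearMap.smul_apply, End.mem_eigenspace_iff.1 x.2, map_smul,
        smul_smul] at this
      exact this
  have h4 := ψ.finrank_range_add_finrank_ker
  have h5 : finrank K (LinearMap.range ψ) ≤ ml t (io r K ζ ^ 2 * μ) := Submodule.finrank_le _
  have h6 : finrank K (LinearMap.ker ψ) ≤ finrank K ↥(End.eigenspace t μ ⊓ LinearMap.ker n) := by
    rw [← Submodule.finrank_map_subtype_eq]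
    refine Submodule.finrank_mono ?_
    rintro _ ⟨x, hx, rfl⟩
    exact ⟨x.2, h3 _ (congrArg Subtype.val hx)⟩
  unfold ml at *
  omega

theorem def_bound [IsAlgClosed K] (h17 : 17 ≤ r) (h3 : r % 3 = 2)
    (ρ : Representation K SL(2, ZMod r) V) :
    finrank K V ≤ 2 * fx ρ (GT.slUp 1) + 4 * fx ρ (y3 _) := by
  obtain ⟨ζ, hζ⟩ := IsCyclic.exists_generator (α := (ZMod r)ˣ)
  have hoζ : orderOf ζ = r - 1 := by
    rw [orderOf_eq_card_of_forall_mem_zpowers hζ, Nat.card_eq_fintype_card, ZMod.card_units]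
  let z : Kˣ := Units.map (io r K : ZMod r →* K) ζ
  have hz : (z : K) = io r K ζ := rfl
  have ho : orderOf z = r - 1 := by
    rw [← hoζ]; exact orderOf_injective _ (Units.map_injective (io r K).injective) ζ
  have hK3 : ((3 : ℕ) : K) ≠ 0 := by
    intro h
    have := Nat.le_of_dvd (by norm_num) ((CharP.cast_eq_zero_iff K r 3).1 h)
    omega
  have hKr : ((r - 1 : ℕ) : K) ≠ 0 := by
    intro h
    have := Nat.le_of_dvd (by omega) ((CharP.cast_eq_zero_iff K r _).1 h)
    omega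
  have ht : Ch.slDiag ζ.ne_zero ^ (r - 1) = 1 := by
    rw [← hoζ, slDiag_pow, pow_orderOf_eq_one, sl_ext_iff]; simp [Ch.coe_slDiag]
  have hzr : ∀ j : ℕ, ((z : K) ^ j) ^ (r - 1) = 1 := fun j => by
    rw [← pow_mul, mul_comm, pow_mul, ← Units.val_pow_eq_pow_val, ← ho, pow_orderOf_eq_one,
      Units.val_one, one_pow]
  have key := rep_induct (fun V _ _ (ρ : Representation K SL(2, ZMod r) V) =>
    finrank K V + 2 * ml (ρ (Ch.slDiag ζ.ne_zero)) (z ^ 3) + ml (ρ (Ch.slDiag ζ.ne_zero)) (z ^ 6) ≤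
      2 * ml (ρ (Ch.slDiag ζ.ne_zero)) z + ml (ρ (Ch.slDiag ζ.ne_zero)) (z ^ 4) +
        4 * ml (ρ (y3 _)) 1)
    (fun V _ _ ρ _ => by simp [ml, finrank_zero_of_subsingleton])
    (fun V _ _ _ ρ _ => simple_bound h17 h3 ζ z hz ho ρ)
    (fun V _ _ _ ρ W hW h1 h2 => by
      have h4 := W.finrank_quotient_add_finrank
      have h5 := ml_add (ρ (y3 _)) W (hW _) hK3 (by rw [← map_pow, y3_pow, map_one]) (one_pow 3)
      have h6 := fun j => ml_add (ρ (Ch.slDiag ζ.ne_zero)) W (hW _) hKr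
        (by rw [← map_pow, ht, map_one]) (hzr j)
      have a1 := h6 1
      rw [pow_one] at a1
      have a3 := h6 3
      have a4 := h6 4
      have a6 := h6 6
      simp only [Representation.subrepresentation_apply, Representation.quotient_apply] at h1 h2
      omega) V ρ
  have b1 := ml_le ρ ζ z
  have b4 := ml_le ρ ζ (z ^ 4)
  rw [← hz, ← pow_succ] at b1
  rw [← hz, ← pow_add] at b4
  have hne : (z : K) ≠ z ^ 4 := by
    intro h
    have h1 : z ^ 3 = 1 := by
      have : z ^ 3 * z = 1 * z := by rw [← pow_succ, one_mul]; exact Units.ext h.symm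
      exact mul_right_cancel this
    have := Nat.le_of_dvd (by norm_num) (ho ▸ orderOf_dvd_of_pow_eq_one h1)
    omega
  have hd := (End.eigenspaces_iSupIndep (ρ (Ch.slDiag ζ.ne_zero))).pairwiseDisjoint hne
  have c := Submodule.finrank_sup_add_finrank_inf_eq
    (End.eigenspace (ρ (Ch.slDiag ζ.ne_zero)) z ⊓ LinearMap.ker (ρ (GT.slUp 1) - 1))
    (End.eigenspace (ρ (Ch.slDiag ζ.ne_zero)) (z ^ 4) ⊓ LinearMap.ker (ρ (GT.slUp 1) - 1))
  rw [(hd.mono inf_le_left inf_le_left).eq_bot, finrank_bot] at c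
  have d := Submodule.finrank_mono (sup_le inf_le_right inf_le_right :
    (End.eigenspace (ρ (Ch.slDiag ζ.ne_zero)) z ⊓ LinearMap.ker (ρ (GT.slUp 1) - 1)) ⊔
    (End.eigenspace (ρ (Ch.slDiag ζ.ne_zero)) (z ^ 4) ⊓ LinearMap.ker (ρ (GT.slUp 1) - 1)) ≤ _)
  rw [fx_eq_ml ρ (y3 _)]
  unfold fx
  norm_num only at b1 b4
  omega

end Cfsg.Agent.FG.Fix6
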