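import Mathlib
import Cfsg.Agent.FG.Fix6Poly
import Cfsg.Agent.FG.Fix6Cert

/-! Fixed spaces for `SL₂(11)` in characteristic `11`. -/

set_option autoImplicit false

namespace Cfsg.Agent.FG.Fix6.E

open Module Cl.GL2
open scoped MatrixGroups

instance fact11 : Fact (Nat.Prime 11) := ⟨by norm_num⟩

theorem dot_eq (p a q c : ℕ) : dot p a q c = ((p : ZMod 11) * a + q * c).val := by
  rw [← Nat.cast_mul, ← Nat.cast_mul, ← Nat.cast_add, ZMod.val_natCast]; rfl

theorem det1_iff (a b c d : ℕ) : det1 a b c d = true ↔ (a : ZMod 11) * d - b * c = 1 := by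
  rw [det1, Nat.beq_eq, dot_eq, ← ZMod.val_one 11, (ZMod.val_injective 11).eq_iff, Nat.mul_eq,
    Nat.cast_mul, show ((10 : ℕ) : ZMod 11) = -1 from rfl]
  constructor <;> intro h <;> linear_combination h

theorem all11_iff {f : ℕ → Bool} (h : all11 f = true) {a : ℕ} (ha : a < 11) : f a = true := by
  simp only [all11, Bool.and_eq_true] at h
  interval_cases a <;> simp only [h]

theorem sumL_nil (a b c d : ℕ) : sumL a b c d [] = 0 := rfl

theorem sumL_cons (a b c d T k p q r s : ℕ) (l : List (ℕ × ℕ × ℕ × ℕ × ℕ × ℕ)) :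
    sumL a b c d ((T, k, p, q, r, s) :: l) =
      k * look T (dot p a q c) (dot p b q d) (dot r a s c) (dot r b s d) + sumL a b c d l := rfl

/-- The matrix with given entries. -/
def mk (p q r s : ℕ) : SL(2, ZMod 11) :=
  if h : det1 p q r s = true then mkSL p q r s ((det1_iff p q r s).1 h) else 1

/-- The function described by a table. -/
def tab (T : ℕ) (g : SL(2, ZMod 11)) : ℕ :=
  look T ((g : Mat (ZMod 11)) 0 0).val ((g : Mat (ZMod 11)) 0 1).val ((g : Mat (ZMod 11)) 1 0).val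
    ((g : Mat (ZMod 11)) 1 1).val

theorem of_all {f : ℕ → ℕ → ℕ → ℕ → Bool} (h : (all11 fun a => all11 fun b => all11 fun c =>
    all11 fun d => cond (det1 a b c d) (f a b c d) true) = true) (g : SL(2, ZMod 11)) :
    f ((g : Mat (ZMod 11)) 0 0).val ((g : Mat (ZMod 11)) 0 1).val ((g : Mat (ZMod 11)) 1 0).val
      ((g : Mat (ZMod 11)) 1 1).val = true := by
  have := all11_iff (all11_iff (all11_iff (all11_iff h (ZMod.val_lt ((g : Mat (ZMod 11)) 0 0)))
    (ZMod.val_lt ((g : Mat (ZMod 11)) 0 1))) (ZMod.val_lt ((g : Mat (ZMod 11)) 1 0)))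
    (ZMod.val_lt ((g : Mat (ZMod 11)) 1 1))
  rwa [(det1_iff _ _ _ _).2 (by simpa only [ZMod.natCast_zmod_val] using det_entries_sl g),
    cond_true] at this

theorem tab_left {p q r s : ℕ} (h : det1 p q r s = true) (T : ℕ) (g : SL(2, ZMod 11)) :
    tab T (mk p q r s * g) = look T
      (dot p ((g : Mat (ZMod 11)) 0 0).val q ((g : Mat (ZMod 11)) 1 0).val)
      (dot p ((g : Mat (ZMod 11)) 0 1).val q ((g : Mat (ZMod 11)) 1 1).val)
      (dot r ((g : Mat (ZMod 11)) 0 0).val s ((g : Mat (ZMod 11)) 1 0).val)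
      (dot r ((g : Mat (ZMod 11)) 0 1).val s ((g : Mat (ZMod 11)) 1 1).val) := by
  simp only [tab, mk, dif_pos h, coe_mul', mul00, mul01, mul10, mul11, mkSL00, mkSL01, mkSL10, mkSL11,
    dot_eq, ZMod.natCast_zmod_val]

theorem look3_eq (T : ℕ) (g : SL(2, ZMod 11)) :
    look3 T ((g : Mat (ZMod 11)) 0 0).val ((g : Mat (ZMod 11)) 0 1).val ((g : Mat (ZMod 11)) 1 0).val
      ((g : Mat (ZMod 11)) 1 1).val = tab T g + tab T (g * y3 _) + tab T (g * (y3 _ * y3 _)) := by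
  have e : ((10 : ℕ) : ZMod 11) = -1 := rfl
  simp only [look3, Nat.add_eq, tab, coe_mul', mul00, mul01, mul10, mul11, coe_y3, dot_eq,
    ZMod.natCast_zmod_val, e]
  simp

theorem nt_eq {p q r s : ℕ} (h : det1 p q r s = true) (T : ℕ) (g : SL(2, ZMod 11)) :
    nt T p q r s ((g : Mat (ZMod 11)) 0 0).val ((g : Mat (ZMod 11)) 0 1).val
      ((g : Mat (ZMod 11)) 1 0).val ((g : Mat (ZMod 11)) 1 1).val =
      tab T (g * mk p q r s) + tab T (g * mk p q r s * y3 _) + tab T (g * mk p q r s * (y3 _ * y3 _)) := by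
  rw [← look3_eq, nt]
  simp only [mk, dif_pos h, coe_mul', mul00, mul01, mul10, mul11, mkSL00, mkSL01, mkSL10, mkSL11,
    dot_eq, ZMod.natCast_zmod_val]

variable {K V : Type*} [Field K] [CharP K 11] [AddCommGroup V] [Module K V]
  [hG : Fintype SL(2, ZMod 11)] (ρ : Representation K SL(2, ZMod 11) V)

/-- The operator described by a table. -/
noncomputable def ev (T : ℕ) : End K V := ∑ g, (tab T g : K) • ρ g

omit [CharP K 11] in
theorem ev_left (T : ℕ) (h : SL(2, ZMod 11)) : ρ h⁻¹ * ev ρ T = ∑ g, (tab T (h * g) : K) • ρ g := by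
  rw [ev, ← Equiv.sum_comp (Equiv.mulLeft h), Finset.mul_sum]
  refine Finset.sum_congr rfl fun g _ => ?_
  rw [Equiv.coe_mulLeft, mul_smul_comm, ← map_mul, inv_mul_cancel_left]

omit [CharP K 11] in
theorem ev_right (T : ℕ) (h : SL(2, ZMod 11)) : ev ρ T * ρ h⁻¹ = ∑ g, (tab T (g * h) : K) • ρ g := by
  rw [ev, ← Equiv.sum_comp (Equiv.mulRight h), Finset.sum_mul]
  refine Finset.sum_congr rfl fun g _ => ?_
  rw [Equiv.coe_mulRight, smul_mul_assoc, ← map_mul, mul_inv_cancel_right]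

/-- The norm of the element of order three, followed by a translation. -/
noncomputable def nrm (h : SL(2, ZMod 11)) : End K V := (1 + ρ (y3 _) + ρ (y3 _) ^ 2) * ρ h⁻¹

omit [CharP K 11] in
theorem ev_nrm {p q r s : ℕ} (h : det1 p q r s = true) (T : ℕ) :
    ev ρ T * nrm ρ (mk p q r s) = ∑ g : SL(2, ZMod 11), (nt T p q r s ((g : Mat (ZMod 11)) 0 0).val
      ((g : Mat (ZMod 11)) 0 1).val ((g : Mat (ZMod 11)) 1 0).val ((g : Mat (ZMod 11)) 1 1).val : K) •
        ρ g := by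
  have e1 : (y3 (ZMod 11))⁻¹ = y3 _ ^ 2 := inv_eq_of_mul_eq_one_right (by rw [← pow_succ', y3_pow])
  have e2 : (y3 (ZMod 11) * y3 _)⁻¹ = y3 _ :=
    inv_eq_of_mul_eq_one_right (by rw [← pow_two, ← pow_succ, y3_pow])
  have e : nrm ρ (mk p q r s) = ρ (mk p q r s)⁻¹ + ρ (mk p q r s * y3 _)⁻¹ +
      ρ (mk p q r s * (y3 _ * y3 _))⁻¹ := by
    rw [mul_inv_rev _ (y3 _), mul_inv_rev _ (y3 _ * y3 _), e1, e2, map_mul, map_mul, map_pow, nrm,
      add_mul, add_mul, one_mul]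
    abel
  rw [e, mul_add, mul_add, ev_right, ev_right, ev_right, ← Finset.sum_add_distrib,
    ← Finset.sum_add_distrib]
  refine Finset.sum_congr rfl fun g _ => ?_
  rw [nt_eq h, ← add_smul, ← add_smul]
  simp only [mul_assoc, Nat.cast_add]

/-- The operator of a left term. -/
noncomputable def opL (x : ℕ × ℕ × ℕ × ℕ × ℕ × ℕ) : End K V :=
  (x.2.1 : K) • (ρ (mk x.2.2.1 x.2.2.2.1 x.2.2.2.2.1 x.2.2.2.2.2)⁻¹ * ev ρ x.1)

omit [CharP K 11] in
theorem sum_opL (L : List (ℕ × ℕ × ℕ × ℕ × ℕ × ℕ))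
    (hL : (L.all fun x => det1 x.2.2.1 x.2.2.2.1 x.2.2.2.2.1 x.2.2.2.2.2) = true) :
    (L.map (opL ρ)).sum = ∑ g : SL(2, ZMod 11), (sumL ((g : Mat (ZMod 11)) 0 0).val
      ((g : Mat (ZMod 11)) 0 1).val ((g : Mat (ZMod 11)) 1 0).val ((g : Mat (ZMod 11)) 1 1).val L : K) •
        ρ g := by
  induction L with
  | nil => exact (Finset.sum_eq_zero fun g _ => by rw [sumL_nil, Nat.cast_zero, zero_smul]).symm
  | cons x l ih =>
    obtain ⟨T, k, p, q, r, s⟩ := x
    rw [List.all_cons, Bool.and_eq_true] at hL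
    rw [List.map_cons, List.sum_cons, ih hL.2, opL, ev_left, Finset.smul_sum,
      ← Finset.sum_add_distrib]
    refine Finset.sum_congr rfl fun g _ => ?_
    rw [tab_left hL.1, smul_smul, ← add_smul, sumL_cons, Nat.cast_add, Nat.cast_mul]

/-- The vectors killed by the four norm operators. -/
noncomputable def V0 : Submodule K V :=
  ⊤ ⊓ LinearMap.ker (nrm ρ (mk 2 2 8 3)) ⊓ LinearMap.ker (nrm ρ (mk 9 0 10 5)) ⊓
    LinearMap.ker (nrm ρ (mk 0 7 3 8)) ⊓ LinearMap.ker (nrm ρ (mk 8 9 9 2))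

theorem cert {L₁ L₂ : List (ℕ × ℕ × ℕ × ℕ × ℕ × ℕ)} {T0 T1 T2 T3 : ℕ}
    (h : check (L₁ ++ L₂) T0 T1 T2 T3 = true) {v : V} (hv : v ∈ V0 ρ)
    (h2 : ∀ x ∈ L₂, ev ρ x.1 v = 0) : (L₁.map (opL ρ)).sum v = 0 := by
  rw [check, Bool.and_eq_true] at h
  have h0 : ((L₁ ++ L₂).map (opL ρ)).sum + ev ρ T0 * nrm ρ (mk 2 2 8 3) +
      ev ρ T1 * nrm ρ (mk 9 0 10 5) + ev ρ T2 * nrm ρ (mk 0 7 3 8) + ev ρ T3 * nrm ρ (mk 8 9 9 2) = 0 := by
    rw [sum_opL ρ _ h.1, ev_nrm ρ (by decide), ev_nrm ρ (by decide), ev_nrm ρ (by decide),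
      ev_nrm ρ (by decide)]
    simp only [← Finset.sum_add_distrib, ← add_smul, ← Nat.cast_add]
    refine Finset.sum_eq_zero fun g _ => ?_
    have := Nat.eq_of_beq_eq_true (of_all h.2 g)
    simp only [Nat.add_eq] at this
    rw [(CharP.cast_eq_zero_iff K 11 _).2 (Nat.dvd_of_mod_eq_zero this), zero_smul]
  have h1 := LinearMap.congr_fun h0 v
  obtain ⟨⟨⟨⟨-, a1⟩, a2⟩, a3⟩, a4⟩ := hv
  simp only [LinearMap.add_apply, End.mul_apply, LinearMap.mem_ker.1 a1, LinearMap.mem_ker.1 a2,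
    LinearMap.mem_ker.1 a3, LinearMap.mem_ker.1 a4, map_zero, add_zero, List.map_append,
    List.sum_append, LinearMap.zero_apply] at h1
  have h3 : (L₂.map (opL ρ)).sum v = 0 := by
    clear h h0 h1
    induction L₂ with
    | nil => simp
    | cons x l ih =>
      rw [List.map_cons, List.sum_cons, LinearMap.add_apply,
        ih fun y hy => h2 y (List.mem_cons_of_mem _ hy), opL, LinearMap.smul_apply, End.mul_apply,
        h2 x List.mem_cons_self, map_zero, smul_zero, add_zero]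
  rwa [h3, add_zero] at h1

theorem cert0 {L₁ : List (ℕ × ℕ × ℕ × ℕ × ℕ × ℕ)} {T0 T1 T2 T3 : ℕ}
    (h : check L₁ T0 T1 T2 T3 = true) {v : V} (hv : v ∈ V0 ρ) : (L₁.map (opL ρ)).sum v = 0 :=
  cert ρ (L₂ := []) (by rwa [List.append_nil]) hv (by simp)

theorem cert1 {L₁ : List (ℕ × ℕ × ℕ × ℕ × ℕ × ℕ)} {A : List (ℕ × ℕ × ℕ × ℕ × ℕ)} {TA T0 T1 T2 T3 : ℕ}
    (h : check (L₁ ++ A.map fun x => (TA, x)) T0 T1 T2 T3 = true) {v : V} (hv : v ∈ V0 ρ)
    (hA : ev ρ TA v = 0) : (L₁.map (opL ρ)).sum v = 0 :=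
  cert ρ h hv fun x hx => by
    obtain ⟨y, -, rfl⟩ := List.mem_map.1 hx
    exact hA

theorem cert2 {L₁ : List (ℕ × ℕ × ℕ × ℕ × ℕ × ℕ)} {A B : List (ℕ × ℕ × ℕ × ℕ × ℕ)}
    {TA TB T0 T1 T2 T3 : ℕ}
    (h : check (L₁ ++ ((A.map fun x => (TA, x)) ++ B.map fun x => (TB, x))) T0 T1 T2 T3 = true) {v : V}
    (hv : v ∈ V0 ρ) (hA : ev ρ TA v = 0) (hB : ev ρ TB v = 0) : (L₁.map (opL ρ)).sum v = 0 :=
  cert ρ h hv fun x hx => by
    rcases List.mem_append.1 hx with hx | hx <;> obtain ⟨y, -, rfl⟩ := List.mem_map.1 hx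
    · exact hA
    · exact hB

omit [CharP K 11] in
theorem ev_tI : ev ρ tI = 1 := by
  have h : ∀ g : SL(2, ZMod 11), tab tI g = if g = 1 then 1 else 0 := fun g => by
    have := Nat.eq_of_beq_eq_true (of_all chkI g)
    rw [tab, this]
    split_ifs with hg
    · subst hg; rfl
    · rw [Bool.cond_eq_ite, if_neg]
      intro e
      simp only [Bool.and_eq_true, Nat.beq_eq, ZMod.val_eq_zero] at e
      refine hg (sl_ext_iff.2 ⟨?_, e.1.1.2, e.1.2, ?_⟩)
      · exact ZMod.val_injective 11 e.1.1.1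
      · exact ZMod.val_injective 11 e.2
  simp [ev, h]

omit [CharP K 11] hG in
theorem step [FiniteDimensional K V] (W : Submodule K V) (f : End K V) :
    finrank K W = finrank K ↥(W ⊓ LinearMap.ker f) + finrank K (W.map f) := by
  have := (f.domRestrict W).finrank_range_add_finrank_ker
  rw [LinearMap.range_domRestrict, LinearMap.ker_domRestrict, ← Submodule.finrank_map_subtype_eq W,
    Submodule.map_comap_subtype] at this
  omega

include hG in
theorem eleven [FiniteDimensional K V] : finrank K V ≤ 2 * fx ρ (GT.slUp 1) + 4 * fx ρ (y3 _) := by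
  have hn : ∀ (W : Submodule K V) (h : SL(2, ZMod 11)),
      finrank K W ≤ finrank K ↥(W ⊓ LinearMap.ker (nrm ρ h)) + fx ρ (y3 _) := fun W h => by
    rw [step W (nrm ρ h)]
    refine Nat.add_le_add_left (Submodule.finrank_mono ?_) _
    rintro _ ⟨x, -, rfl⟩
    have := LinearMap.congr_fun (sub_one_mul_geom ρ (y3_pow (ZMod 11))) (ρ h⁻¹ x)
    simpa [Finset.sum_range_succ, nrm] using this
  have h0 : finrank K V ≤ finrank K (V0 ρ) + 4 * fx ρ (y3 _) := by
    have a1 := hn ⊤ (mk 2 2 8 3)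
    have a2 := hn (⊤ ⊓ LinearMap.ker (nrm ρ (mk 2 2 8 3))) (mk 9 0 10 5)
    have a3 := hn (⊤ ⊓ LinearMap.ker (nrm ρ (mk 2 2 8 3)) ⊓ LinearMap.ker (nrm ρ (mk 9 0 10 5)))
      (mk 0 7 3 8)
    have a4 := hn (⊤ ⊓ LinearMap.ker (nrm ρ (mk 2 2 8 3)) ⊓ LinearMap.ker (nrm ρ (mk 9 0 10 5)) ⊓
      LinearMap.ker (nrm ρ (mk 0 7 3 8))) (mk 8 9 9 2)
    rw [finrank_top] at a1
    unfold V0
    omega
  have m1 : mk 1 0 0 1 = 1 := by decide
  have mu : (mk 1 10 0 1)⁻¹ = GT.slUp 1 := by decide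
  have k10 : (10 : K) = -1 := by
    have := CharP.cast_eq_zero K 11
    push_cast at this
    linear_combination this
  have k9 : (9 : K) = -2 := by
    have := CharP.cast_eq_zero K 11
    push_cast at this
    linear_combination this
  set t : End K V := ρ (mk 6 0 0 2)⁻¹ - (2 : K) • 1 with ht
  set U := LinearMap.ker (ρ (GT.slUp 1) - 1) with hU
  have hu : ∀ (T : ℕ) (v : V), ([(T, 1, 1, 10, 0, 1), (T, 10, 1, 0, 0, 1)].map (opL ρ)).sum v = 0 →
      ev ρ T v ∈ U := fun T v h => by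
    simpa [opL, m1, mu, k10, hU, sub_eq_add_neg] using h
  have s1 := step (V0 ρ) (ev ρ tA')
  have s2 := step (V0 ρ ⊓ LinearMap.ker (ev ρ tA')) (ev ρ tB)
  have s3 := step U t
  have b1 : (V0 ρ).map (ev ρ tA') ≤ U.map t := by
    rintro _ ⟨v, hv, rfl⟩
    refine ⟨ev ρ tA v, hu _ _ (cert0 ρ chk1 hv), ?_⟩
    have := cert0 ρ chk0 hv
    simp only [List.map_cons, List.map_nil, List.sum_cons, List.sum_nil, opL, m1, inv_one, map_one,
      one_mul, Nat.cast_one, one_smul, add_zero, LinearMap.add_apply, LinearMap.smul_apply,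
      End.mul_apply, Nat.cast_ofNat, k10] at this
    rw [ht, LinearMap.sub_apply, LinearMap.smul_apply, End.one_apply]
    linear_combination (norm := module) -this
  have b2 : (V0 ρ ⊓ LinearMap.ker (ev ρ tA')).map (ev ρ tB) ≤ U := by
    rintro _ ⟨v, hv, rfl⟩
    exact hu _ _ (cert1 ρ chk2 hv.1 (LinearMap.mem_ker.1 hv.2))
  have b3 : V0 ρ ⊓ LinearMap.ker (ev ρ tA') ⊓ LinearMap.ker (ev ρ tB) ≤ U ⊓ LinearMap.ker t := by
    intro v hv
    have a1 := hu _ _ (cert2 ρ chk3 hv.1.1 (LinearMap.mem_ker.1 hv.1.2) (LinearMap.mem_ker.1 hv.2))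
    have a2 := cert2 ρ chk4 hv.1.1 (LinearMap.mem_ker.1 hv.1.2) (LinearMap.mem_ker.1 hv.2)
    rw [ev_tI] at a1
    refine ⟨a1, ?_⟩
    simpa [opL, m1, k9, ht, ev_tI, sub_eq_add_neg] using a2
  have c1 := Submodule.finrank_mono b1
  have c2 := Submodule.finrank_mono b2
  have c3 := Submodule.finrank_mono b3
  change _ ≤ 2 * finrank K U + _
  omega

end Cfsg.Agent.FG.Fix6.E
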