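import Mathlib
import Cfsg.Agent.S0205
import Cfsg.Agent.GT.PGroupCyclicNormal
import Cfsg.Agent.FG.H93Cyc

/-! Groups without small configurations forcing a large fixed space: basic facts. -/

set_option autoImplicit false

namespace Cfsg.Agent.FG.Fix6

open Subgroup
open scoped commutatorElement

/-- No elementary abelian subgroup of order `4, 9, 25`, no dihedral configuration, and elements of
order `3` centralise the abelian groups spanned by an orbit. -/
structure Good (H : Type*) [Group H] : Prop where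
  p1 : ∀ s : ℕ, s = 2 ∨ s = 3 ∨ s = 5 → ∀ a b : H, orderOf a = s → b ^ s = 1 → Commute a b →
    b ∈ zpowers a
  p2 : ∀ z a : H, z ≠ 1 → z ^ 2 = 1 → z * a * z⁻¹ = a⁻¹ → a ^ 2 = 1
  p3 : ∀ x a : H, x ^ 3 = 1 → Commute a (x * a * x⁻¹) → x * a * x⁻¹ = a

variable {H : Type*} [Group H]

theorem Good.of_injective {G : Type*} [Group G] (h : Good H) (f : G →* H)
    (hf : Function.Injective f) : Good G where
  p1 s hs a b ha hb hab := by
    have := h.p1 s hs (f a) (f b) (by rw [orderOf_injective f hf, ha])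
      (by rw [← map_pow, hb, map_one]) (hab.map f)
    obtain ⟨n, hn⟩ := mem_zpowers_iff.1 this
    exact mem_zpowers_iff.2 ⟨n, hf (by rw [map_zpow, hn])⟩
  p2 z a hz hz2 hza := hf (by
    rw [map_pow, map_one]
    exact h.p2 (f z) (f a) (fun e => hz (hf (by rw [e, map_one]))) (by rw [← map_pow, hz2, map_one])
      (by rw [← map_inv, ← map_mul, ← map_mul, hza, map_inv]))
  p3 x a hx hc := hf (by
    have := h.p3 (f x) (f a) (by rw [← map_pow, hx, map_one]) (by simpa using hc.map f)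
    simpa using this)

theorem Good.central (h : Good H) {z : H} (hz : z ^ 2 = 1) (g : H) : g * z * g⁻¹ = z := by
  by_cases hz1 : z = 1
  · simp [hz1]
  set w := g * z * g⁻¹ with hw
  have hw2 : w ^ 2 = 1 := by rw [hw, conj_pow, hz]; simp
  have hzi : z⁻¹ = z := inv_eq_of_mul_eq_one_right (by rw [← pow_two, hz])
  have hwi : w⁻¹ = w := inv_eq_of_mul_eq_one_right (by rw [← pow_two, hw2])
  have h1 := h.p2 z (z * w) hz1 hz (by
    rw [mul_inv_rev, hwi, ← mul_assoc, ← pow_two, hz, one_mul])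
  have h2 : Commute z w := by
    have : (z * w)⁻¹ = z * w := inv_eq_of_mul_eq_one_right (by rw [← pow_two, h1])
    rw [mul_inv_rev, hzi, hwi] at this
    exact this.symm
  have ho : orderOf z = 2 := orderOf_eq_prime hz hz1
  have h3 := h.p1 2 (Or.inl rfl) z w ho hw2 h2
  obtain ⟨n, hn⟩ := mem_zpowers_iff.1 h3
  have hz' : z ^ (2 : ℤ) = 1 := by exact_mod_cast hz
  rcases Int.even_or_odd' n with ⟨k, rfl | rfl⟩
  · rw [zpow_mul, hz', one_zpow, hw, eq_mul_inv_iff_mul_eq, one_mul, eq_comm, mul_eq_left] at hn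
    exact absurd hn hz1
  · rw [zpow_add, zpow_mul, hz', one_zpow, one_mul, zpow_one] at hn
    exact hn.symm

theorem Good.pRank [Finite H] (h : Good H) {s : ℕ} (hs : s = 2 ∨ s = 3 ∨ s = 5) : PRankLE s 1 H := by
  have hp : Fact s.Prime := ⟨by rcases hs with rfl | rfl | rfl <;> norm_num⟩
  intro A hA hpow
  rcases A.bot_or_exists_ne_one with rfl | ⟨a, ha, ha1⟩
  · simp [Nat.one_le_iff_ne_zero, hp.1.ne_zero]
  have ho : orderOf a = s := orderOf_eq_prime (hpow a ha) ha1
  have hle : A ≤ zpowers a := fun b hb =>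
    h.p1 s hs a b ho (hpow b hb) (setLike_mul_comm ha hb)
  have := card_le_of_le hle
  rwa [Nat.card_zpowers, ho, ← pow_one s] at this

theorem Good.isCyclic [Finite H] (h : Good H) {s : ℕ} (hs : s = 3 ∨ s = 5) {P : Subgroup H}
    (hP : IsPGroup s P) : IsCyclic P := by
  have hp : Fact s.Prime := ⟨by rcases hs with rfl | rfl <;> norm_num⟩
  exact GT.PG.isCyclic_of_pRankLE_one_of_odd (by omega) hP
    ((h.of_injective P.subtype P.subtype_injective).pRank (Or.inr hs))

/-- Commuting elements of order `s` of a quotient generate a cyclic group. -/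
theorem Good.quot [Finite H] (h : Good H) {Q : Type*} [Group Q] (π : H →* Q)
    (hπ : Function.Surjective π) {s : ℕ} (hs : s = 3 ∨ s = 5) {a b : Q} (ha : orderOf a = s)
    (hb : b ^ s = 1) (hab : Commute a b) : b ∈ zpowers a := by
  have hp : Fact s.Prime := ⟨by rcases hs with rfl | rfl <;> norm_num⟩
  have : Finite Q := Finite.of_surjective π hπ
  have has : a ^ s = 1 := ha ▸ pow_orderOf_eq_one a
  have h1 : IsPGroup s (zpowers a) := IsPGroup.of_card (n := 1) (by rw [Nat.card_zpowers, ha, pow_one])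
  have h2 : IsPGroup s (zpowers b) := by
    rcases (Nat.dvd_prime hp.1).1 (orderOf_dvd_of_pow_eq_one hb) with e | e
    · exact IsPGroup.of_card (n := 0) (by rw [Nat.card_zpowers, e, pow_zero])
    · exact IsPGroup.of_card (n := 1) (by rw [Nat.card_zpowers, e, pow_one])
  have h3 : IsPGroup s ↥(zpowers a ⊔ zpowers b) := by
    refine IsPGroup.to_sup_of_normal_right' h1 h2 ?_
    rw [zpowers_le]
    refine centralizer_le_normalizer _ ?_
    rintro _ ⟨n, rfl⟩
    exact (hab.zpow_right n).eq.symm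
  obtain ⟨P, hP⟩ := h3.exists_le_sylow
  obtain ⟨P', rfl⟩ := Sylow.mapSurjective_surjective hπ s P
  have hc := h.isCyclic hs P'.isPGroup'
  have hc' : IsCyclic (P'.mapSurjective hπ : Subgroup Q) :=
    isCyclic_of_surjective (π.subgroupMap P') (π.subgroupMap_surjective P')
  have ha' : a ∈ (P'.mapSurjective hπ : Subgroup Q) := hP (mem_sup_left (mem_zpowers a))
  have hb' : b ∈ (P'.mapSurjective hπ : Subgroup Q) := hP (mem_sup_right (mem_zpowers b))
  exact H93.mem_zpowers_of_orderOf_dvd_of_mem hb' ha' (ha ▸ orderOf_dvd_of_pow_eq_one hb)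

section V4

variable {N : Subgroup H}

theorem exists_inverted {σ τ : MulAut H} (hσ : ∀ g, σ (σ g) = g) (hτ : ∀ g, τ (τ g) = g)
    (hc : ∀ g, σ (τ g) = τ (σ g)) (hσN : ∀ n ∈ N, σ n ∈ N) (hτN : ∀ n ∈ N, τ n ∈ N)
    (hτ' : ∀ a ∈ N, ∀ b ∈ N, τ ⁅a, b⁆ = ⁅a, b⁆) (hodd : ∀ n ∈ N, n ^ 2 = 1 → n = 1)
    {m : H} (hm : m ∈ N) (hσm : σ m ≠ m) :
    ∃ a ∈ N, a ≠ 1 ∧ σ a = a⁻¹ ∧ (τ a = a ∨ τ a = a⁻¹) := by
  set b := m * (σ m)⁻¹ with hb
  have hbN : b ∈ N := mul_mem hm (inv_mem (hσN m hm))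
  have hb1 : b ≠ 1 := fun e => hσm (mul_inv_eq_one.1 e).symm
  have hσb : σ b = b⁻¹ := by rw [hb, map_mul, map_inv, hσ, mul_inv_rev, inv_inv]
  have hcomm : Commute b (τ b) := by
    have h1 := hτ' b hbN (τ b) (hτN b hbN)
    rw [map_commutatorElement, hτ, ← commutatorElement_inv] at h1
    refine commutatorElement_eq_one_iff_commute.1 (hodd _ ?_ ?_)
    · rw [commutatorElement_def]
      exact mul_mem (mul_mem (mul_mem hbN (hτN b hbN)) (inv_mem hbN)) (inv_mem (hτN b hbN))
    · rw [pow_two]; nth_rewrite 1 [← h1]; exact inv_mul_cancel _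
  by_cases h1 : b * τ b = 1
  · refine ⟨b, hbN, hb1, hσb, Or.inr (eq_inv_of_mul_eq_one_right h1)⟩
  · refine ⟨b * τ b, mul_mem hbN (hτN b hbN), h1, ?_, Or.inl ?_⟩
    · rw [map_mul, hc, hσb, map_inv, ← mul_inv_rev, hcomm.eq]
    · rw [map_mul, hτ, hcomm.eq]

theorem commute_of_aut {q : MulAut H} {a b : H} (ha : q a = a⁻¹) (hb : q b = b)
    (hab : q ⁅a, b⁆ = ⁅a, b⁆) (ho : Odd (orderOf a)) : Commute a b := by
  rw [map_commutatorElement, ha, hb, commutatorElement_def, commutatorElement_def, inv_inv,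
    mul_left_inj] at hab
  have h2 : Commute (a ^ 2) b := by
    have : a * (a⁻¹ * b * a) * a = a * (a * b * a⁻¹) * a := by rw [hab]
    simp only [mul_assoc, mul_inv_cancel_left, inv_mul_cancel, mul_one] at this
    rw [Commute, SemiconjBy, pow_two, mul_assoc, ← this]
  obtain ⟨k, hk⟩ := ho
  have : a = (a ^ 2) ^ (k + 1) := by
    rw [← pow_mul, show 2 * (k + 1) = (2 * k + 1) + 1 by ring, ← hk, pow_succ, pow_orderOf_eq_one,
      one_mul]
  rw [this]
  exact h2.pow_left _

theorem Good.cent_step (h : Good H) [hN : N.Normal] (hodd : ∀ n ∈ N, Odd (orderOf n)) {i j x : H}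
    (hx : x ^ 3 = 1) (hi : i ^ 4 = 1) (hij : x * i * x⁻¹ = j) (hjk : x * j * x⁻¹ = i * j)
    (hc : ∀ n ∈ ⁅N, N⁆, i * n * i⁻¹ = n) : ∀ n ∈ N, i * n * i⁻¹ = n := by
  by_contra hne
  push Not at hne
  obtain ⟨m, hm, hm'⟩ := hne
  have hz : ∀ g, g * i ^ 2 * g⁻¹ = i ^ 2 := h.central (by rw [← pow_mul, hi])
  have hz' : ∀ g, i ^ 2 * g * (i ^ 2)⁻¹ = g := fun g => by
    have := hz g
    rw [mul_inv_eq_iff_eq_mul] at this ⊢
    exact this.symm
  have hj2 : j ^ 2 = i ^ 2 := by rw [← hij, conj_pow, hz]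
  have hk2 : (i * j) ^ 2 = i ^ 2 := by rw [← hjk, conj_pow, hj2, hz]
  have hki : x * (i * j) * x⁻¹ = i := by
    have : x * (i * j) * x⁻¹ = x ^ 3 * i * (x ^ 3)⁻¹ := by
      rw [← hjk, ← hij, pow_three]; simp only [mul_inv_rev, mul_assoc]
    rw [this, hx]; simp
  have hji : i * j = j * i * i ^ 2 := by
    have h1 : j * i * j = i := by
      have : i * (j * i * j) = i * i := by rw [← pow_two, ← hk2, pow_two]; simp only [mul_assoc]
      exact mul_left_cancel this
    nth_rewrite 1 [← h1]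
    rw [← hj2, pow_two, mul_assoc]
  have hcj : ∀ g : H, (∀ n ∈ ⁅N, N⁆, g * n * g⁻¹ = n) →
      ∀ n ∈ ⁅N, N⁆, (x * g * x⁻¹) * n * (x * g * x⁻¹)⁻¹ = n := fun g hg n hn => by
    have := hg (x⁻¹ * n * x) (by
      have : (⁅N, N⁆ : Subgroup H).Normal := inferInstance
      simpa using this.conj_mem n hn x⁻¹)
    calc _ = x * (g * (x⁻¹ * n * x) * g⁻¹) * x⁻¹ := by group
      _ = n := by rw [this]; group
  have hcj1 := hcj i hc
  have hcj2 := hcj _ hcj1
  rw [hij] at hcj1 hcj2
  rw [hjk] at hcj2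
  have hsq : ∀ n ∈ N, n ^ 2 = 1 → n = 1 := fun n hn e => by
    have h1 := orderOf_dvd_of_pow_eq_one e
    have h2 := hodd n hn
    rcases (Nat.dvd_prime Nat.prime_two).1 h1 with e | e
    · exact orderOf_eq_one_iff.1 e
    · rw [e] at h2; exact absurd h2 (by decide)
  obtain ⟨a, haN, ha1, hia, hja⟩ := exists_inverted (N := N) (σ := MulAut.conj i) (τ := MulAut.conj j)
    (fun g => by
      refine Eq.trans ?_ (hz' g)
      simp only [MulAut.conj_apply, pow_two, mul_inv_rev, mul_assoc])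
    (fun g => by
      refine Eq.trans ?_ (hz' g)
      simp only [MulAut.conj_apply, ← hj2, pow_two j, mul_inv_rev, mul_assoc])
    (fun g => by
      simp only [MulAut.conj_apply]
      calc _ = (i * j) * g * (i * j)⁻¹ := by group
        _ = j * (i * (i ^ 2 * g * (i ^ 2)⁻¹) * i⁻¹) * j⁻¹ := by rw [hji]; group
        _ = _ := by rw [hz'])
    (fun n hn => hN.conj_mem n hn i) (fun n hn => hN.conj_mem n hn j)
    (fun a ha b hb => hcj1 _ (commutator_mem_commutator ha hb)) hsq hm hm'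
  simp only [MulAut.conj_apply] at hia hja
  have key : ∀ p : H, p * a * p⁻¹ = a → (x * p * x⁻¹) * a * (x * p * x⁻¹)⁻¹ = a⁻¹ →
      (∀ n ∈ ⁅N, N⁆, (x * p * x⁻¹) * n * (x * p * x⁻¹)⁻¹ = n) → False := by
    intro p h1 h2 h3
    have hb : (x * p * x⁻¹) * (x * a * x⁻¹) * (x * p * x⁻¹)⁻¹ = x * a * x⁻¹ := by
      calc _ = x * (p * a * p⁻¹) * x⁻¹ := by group
        _ = _ := by rw [h1]
    have h4 := commute_of_aut (q := MulAut.conj (x * p * x⁻¹)) (a := a) (b := x * a * x⁻¹) h2 hb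
      (h3 _ (commutator_mem_commutator haN (hN.conj_mem a haN x))) (hodd a haN)
    have h5 := h.p3 x a hx h4
    rw [h5, h2] at hb
    exact ha1 (hsq a haN (by rw [pow_two]; nth_rewrite 1 [← hb]; exact inv_mul_cancel a))
  rcases hja with hja | hja
  · refine key j hja ?_ (by rw [hjk]; exact hcj2)
    rw [hjk]
    calc _ = i * (j * a * j⁻¹) * i⁻¹ := by group
      _ = _ := by rw [hja, hia]
  · refine key (i * j) ?_ (by rw [hki]; exact hia) (by rw [hki]; exact hc)
    calc _ = i * (j * a * j⁻¹) * i⁻¹ := by group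
      _ = (i * a * i⁻¹)⁻¹ := by rw [hja]; group
      _ = a := by rw [hia, inv_inv]

theorem Good.cent [Finite H] (h : Good H) {i j x : H}
    (hx : x ^ 3 = 1) (hi : i ^ 4 = 1) (hij : x * i * x⁻¹ = j) (hjk : x * j * x⁻¹ = i * j)
    (N : Subgroup H) : N.Normal → Odd (Nat.card N) → ∀ n ∈ N, i * n * i⁻¹ = n := by
  induction N using (wellFounded_lt (α := Subgroup H)).induction with
  | h N ih =>
    intro hN hodd
    rcases eq_or_ne N ⊥ with rfl | hne
    · intro n hn
      rw [mem_bot.1 hn]; simp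
    have hlt : ⁅N, N⁆ < N := by
      refine lt_of_le_of_ne (commutator_le_right N N) fun e => ?_
      have : Group.IsPerfect N := Subgroup.isPerfect_iff.2 e
      have : Nontrivial N := (nontrivial_iff_ne_bot N).2 hne
      exact Group.IsPerfect.not_isSolvable (G := N) (S0205.result hodd)
    refine h.cent_step (fun n hn => ?_) hx hi hij hjk
      (ih _ hlt inferInstance (hodd.of_dvd_nat (card_dvd_of_le hlt.le)))
    exact hodd.of_dvd_nat (orderOf_dvd_natCard N hn)

end V4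

end Cfsg.Agent.FG.Fix6
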