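import Mathlib

/-!
# Orbits of `Aut G` on `G`, and extending automorphisms over a cyclic complement
-/

set_option autoImplicit false

namespace Cfsg.Agent.FG.H93

variable {G : Type*} [Group G]

/-- The element order on an `Aut G`-orbit. -/
noncomputable def orbOrd : MulAction.orbitRel.Quotient (MulAut G) G → ℕ :=
  Quotient.lift orderOf fun a b h => by
    obtain ⟨α, rfl⟩ := MulAction.orbitRel_apply.mp h
    exact α.orderOf_eq b

theorem range_orbOrd : Set.range (orbOrd (G := G)) = Set.range (orderOf : G → ℕ) := by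
  ext m
  exact ⟨fun ⟨a, h⟩ => Quotient.inductionOn a (fun g h => ⟨g, h⟩) h, fun ⟨g, h⟩ => ⟨⟦g⟧, h⟩⟩

theorem orbit_spec [Finite G] {s : Finset ℕ} (hs : ∀ m ∈ s, ∃ g : G, orderOf g = m)
    (hc : Nat.card (MulAction.orbitRel.Quotient (MulAut G) G) ≤ s.card) :
    (∀ g : G, orderOf g ∈ s) ∧ ∀ g h : G, orderOf g = orderOf h → ∃ α : MulAut G, α g = h := by
  have h1 : (s : Set ℕ) ⊆ Set.range (orbOrd (G := G)) := by rw [range_orbOrd]; exact hs
  have h2 : (Set.range (orbOrd (G := G))).ncard ≤
      Nat.card (MulAction.orbitRel.Quotient (MulAut G) G) := by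
    rw [← Set.image_univ, ← Set.ncard_univ]
    exact Set.ncard_image_le
  have h3 := Set.eq_of_subset_of_ncard_le h1 (by rw [Set.ncard_coe_finset]; omega)
  refine ⟨fun g => by rw [← Finset.mem_coe, h3]; exact ⟨⟦g⟧, rfl⟩, fun g h hgh => ?_⟩
  have h4 : Set.InjOn (orbOrd (G := G)) Set.univ := Set.injOn_of_ncard_image_eq (by
    rw [Set.image_univ, Set.ncard_univ]
    exact le_antisymm h2 (by rwa [← h3, Set.ncard_coe_finset]))
  exact MulAction.orbitRel_apply.mp (Quotient.exact (h4 (Set.mem_univ ⟦h⟧) (Set.mem_univ ⟦g⟧)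
    hgh.symm))

theorem card_orbits_eq (h : ∀ g h : G, orderOf g = orderOf h → ∃ α : MulAut G, α g = h) :
    Nat.card (MulAction.orbitRel.Quotient (MulAut G) G) = (Set.range (orderOf : G → ℕ)).ncard := by
  rw [← range_orbOrd, Set.ncard_range_of_injective]
  intro a b
  exact Quotient.inductionOn₂ a b fun g k hgk =>
    Quotient.sound (MulAction.orbitRel_apply.mpr (h k g hgk.symm))

/-- Extending an automorphism of a normal subgroup with cyclic complements. -/
theorem exists_mulAut_extend {P : Subgroup G} [P.Normal] {y y' : G}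
    (hy : P.IsComplement' (Subgroup.zpowers y)) (hy' : P.IsComplement' (Subgroup.zpowers y'))
    (ho : orderOf y = orderOf y') {s : MulAut P}
    (hs : s * MulAut.conjNormal y = MulAut.conjNormal y' * s) :
    ∃ α : MulAut G, α y = y' ∧ ∀ u : P, α u = s u := by
  have gen : ∀ (z : G) (x : Subgroup.zpowers z),
      x ∈ Subgroup.zpowers (⟨z, Subgroup.mem_zpowers z⟩ : Subgroup.zpowers z) :=
    fun z ⟨_, k, hk⟩ => ⟨k, Subtype.ext hk⟩
  let f := mulEquivOfOrderOfEq (gen y) (gen y') (by
    rw [← Subgroup.orderOf_coe, ← Subgroup.orderOf_coe (⟨y', _⟩ : Subgroup.zpowers y')]; exact ho)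
  have hf : f ⟨y, Subgroup.mem_zpowers y⟩ = ⟨y', Subgroup.mem_zpowers y'⟩ :=
    mulEquivOfOrderOfEq_apply_gen _ _ _
  let c := SemidirectProduct.congr
    (φ₁ := (P.normalizerMonoidHom).comp (Subgroup.inclusion (K := Subgroup.normalizer (P : Set G))
      (H := Subgroup.zpowers y) (P.normalizer_eq_top ▸ le_top)))
    (φ₂ := (P.normalizerMonoidHom).comp (Subgroup.inclusion (K := Subgroup.normalizer (P : Set G))
      (H := Subgroup.zpowers y') (P.normalizer_eq_top ▸ le_top))) s f (by
      intro g
      obtain ⟨k, rfl⟩ := gen y g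
      simp only [map_zpow, hf]
      exact (SemiconjBy.zpow_right hs k).eq)
  refine ⟨((SemidirectProduct.mulEquivSubgroup hy).symm.trans c).trans
    (SemidirectProduct.mulEquivSubgroup hy'), ?_, fun u => ?_⟩
  · have h1 : (SemidirectProduct.mulEquivSubgroup hy).symm y =
        SemidirectProduct.inr ⟨y, Subgroup.mem_zpowers y⟩ := by
      rw [MulEquiv.symm_apply_eq]; simp
    rw [MulEquiv.trans_apply, MulEquiv.trans_apply, h1]
    simp [c, hf]
  · have h1 : (SemidirectProduct.mulEquivSubgroup hy).symm u = SemidirectProduct.inl u := by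
      rw [MulEquiv.symm_apply_eq]; simp
    rw [MulEquiv.trans_apply, MulEquiv.trans_apply, h1]
    simp [c]

/-- Restriction of an automorphism to a characteristic subgroup intertwines conjugations. -/
theorem characteristic_mul_conjNormal {P : Subgroup G} [P.Characteristic] (α : MulAut G) (x : G) :
    MulAut.characteristic P α * MulAut.conjNormal x =
      MulAut.conjNormal (α x) * MulAut.characteristic P α := by
  ext u
  simp

end Cfsg.Agent.FG.H93
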