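import Mathlib
import Cfsg.Agent.Inv.DegGraph
import Cfsg.Agent.GT.CoprimeProd
import Cfsg.Agent.GT.PGroupFrattini
import Cfsg.Agent.Ch.PComplRank
import Cfsg.Prelude.Def_DegreeGraph

/-!
Character degrees divisible by a prime `p ∥ |G|` and by a prime `r` give a quasisimple normal
subgroup, when only the full `r`-part of `|G|` is `1 mod p`.
-/

set_option autoImplicit false

namespace Cfsg.Agent.FG.H93.DQ

open Cfsg.Agent.Inv Cfsg.Agent.Inv.PB Subgroup

variable {G : Type*} [Group G] [Finite G]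

/-- Only the full `r`-part of `n` can be a non-trivial prime power divisor that is `1 mod p`. -/
def OnePow (p r n : ℕ) : Prop :=
  ∀ q j : ℕ, q.Prime → q ^ j ∣ n → p ∣ q ^ j - 1 → j = 0 ∨ q = r ∧ ¬ r ^ (j + 1) ∣ n

theorem onePow_of_list {p r n : ℕ} (hr : r.Prime) (hn : 0 < n) (L : List ℕ)
    (hL : ∀ a ∈ L, a.Prime)
    (h : ∀ d ∈ Sieve.divs n, p ∣ d - 1 → d = 1 ∨ (r ∣ d ∧ ¬ d * r ∣ n) ∨
      ∃ a ∈ L, ∃ b ∈ L, a ≠ b ∧ a ∣ d ∧ b ∣ d) : OnePow p r n := by
  intro q j hq h1 h2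
  rcases h _ (Sieve.mem_divs hn h1) h2 with h3 | ⟨h3, h4⟩ | ⟨a, ha, b, hb, hab, h3, h4⟩
  · exact Or.inl ((Nat.pow_eq_one.1 h3).resolve_left hq.one_lt.ne')
  · obtain rfl := (Nat.prime_dvd_prime_iff_eq hr hq).1 (hr.dvd_of_dvd_pow h3)
    exact Or.inr ⟨rfl, h4⟩
  · exact absurd (((Nat.prime_dvd_prime_iff_eq (hL a ha) hq).1 ((hL a ha).dvd_of_dvd_pow h3)).trans
      ((Nat.prime_dvd_prime_iff_eq (hL b hb) hq).1 ((hL b hb).dvd_of_dvd_pow h4)).symm) hab

theorem mem_normalizer_closure {s : Set G} {g : G} (h : ∀ y ∈ s, g * y * g⁻¹ ∈ closure s) :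
    g ∈ normalizer (closure s : Set G) := by
  refine mem_normalizer_fintype fun y hy => ?_
  induction hy using closure_induction with
  | mem y hy => exact h y hy
  | one => simp
  | mul y z _ _ hy hz => simpa [mul_assoc] using mul_mem hy hz
  | inv y _ hy => simpa [mul_assoc] using inv_mem hy

theorem normalizer_le_of_sylow {r j : ℕ} (hr : r.Prime) {Q K : Subgroup G}
    (hQ : Nat.card Q = r ^ j) (h : ¬ r ^ (j + 1) ∣ Nat.card G) (hQK : Q ≤ K)
    (hKQ : K ≤ normalizer (Q : Set G)) : normalizer (K : Set G) ≤ normalizer (Q : Set G) := by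
  have := Fact.mk hr
  intro g hg
  refine mem_normalizer_fintype fun y hy => ?_
  have h1 : g * y * g⁻¹ ∈ K := (mem_normalizer_iff.1 hg y).1 (hQK hy)
  have hQ' : IsPGroup r Q := IsPGroup.of_card hQ
  have h2 : IsPGroup r (zpowers (g * y * g⁻¹)) := by
    obtain ⟨k, hk⟩ := hQ' ⟨y, hy⟩
    exact ST.isPGroup_zpowers_of_pow (k := k) (by
      rw [conj_pow, show y ^ r ^ k = 1 from congrArg Subtype.val hk]; simp)
  obtain ⟨i, hi⟩ := (hQ'.to_sup_of_normal_left' h2 (zpowers_le.2 (hKQ h1))).exists_card_eq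
  have h3 : i ≤ j := by
    by_contra! h3
    exact h ((pow_dvd_pow r h3).trans (hi ▸ card_subgroup_dvd_card _))
  refine (eq_of_le_of_card_ge (le_sup_left : Q ≤ Q ⊔ zpowers (g * y * g⁻¹)) ?_).ge
    (le_sup_right (a := Q) (mem_zpowers _))
  rw [hi, hQ]
  exact Nat.pow_le_pow_right hr.pos h3

theorem cent_or {p r : ℕ} (hp : p.Prime) (hr : r.Prime) (hq : OnePow p r (Nat.card G)) {x : G}
    (hx : orderOf x = p) {K : Subgroup G} (hxK : x ∈ normalizer (K : Set G))
    (hK : ¬ p ∣ Nat.card K) : K ≤ C x ∨ ∃ (R : Subgroup G) (j : ℕ), R ≤ K ∧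
      K ≤ normalizer (R : Set G) ∧ IsMulCommutative R ∧ Nat.card R = r ^ j ∧
        ¬ r ^ (j + 1) ∣ Nat.card G := by
  have := Fact.mk hp
  have := Fact.mk hr
  refine or_iff_not_imp_left.2 fun hc => ?_
  have hx1 : x ^ p ^ 1 = 1 := by rw [pow_one, ← hx, pow_orderOf_eq_one]
  obtain ⟨Q, hQK, hQ, hQ1, hQ2⟩ := GT.CopAct.exists_invariant_sylowIn (A := zpowers x)
    (zpowers_le.2 hxK) (by rw [Nat.card_zpowers, hx]; exact hp.coprime_iff_not_dvd.2 hK)
    (Or.inl inferInstance) r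
  have hxQ : x ∈ normalizer (Q : Set G) := hQ2 (mem_zpowers x)
  have hcop : (Q.relIndex K).Coprime ((K ⊓ C x).relIndex K) := by
    refine Nat.Coprime.symm (Nat.coprime_of_dvd fun q hq' h1 h2 => ?_)
    have := Fact.mk hq'
    have hqr : q ≠ r := by rintro rfl; exact hQ1 h2
    obtain ⟨T, h3, h4, h5⟩ := SN.exists_sylow_centralized hp hx1 hxK hK (q := q) fun j h3 h4 =>
      (hq q j hq' (h3.trans (card_subgroup_dvd_card K)) h4).resolve_right fun h => hqr h.1
    have h6 := card_dvd_of_le (le_inf h3 fun y hy => mem_C.2 (h5 y hy) : T ≤ K ⊓ C x)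
    have h7 := Nat.mul_dvd_mul h1 h6
    rw [M11.relIndex_mul_card inf_le_left, h4, ← pow_succ'] at h7
    exact Nat.pow_succ_factorization_not_dvd Nat.card_pos.ne' hq' h7
  set s : Set G := {y | ∃ k ∈ K, y = k * x * k⁻¹ * x⁻¹} with hs
  have hRQ : closure s ≤ Q := by
    rw [closure_le]
    rintro _ ⟨k, hk, rfl⟩
    obtain ⟨u, hu, c, hc, rfl⟩ := GT.CopAct.exists_mul_of_coprime_relIndex hQK inf_le_left hcop k hk
    have h1 : u * c * x * (u * c)⁻¹ * x⁻¹ = u * (x * u⁻¹ * x⁻¹) := by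
      rw [mul_assoc u c x, mem_C.1 hc.2]; group
    rw [SetLike.mem_coe, h1]
    exact mul_mem hu ((mem_normalizer_iff.1 hxQ _).1 (inv_mem hu))
  have hKR : K ≤ normalizer (closure s : Set G) := fun m hm => mem_normalizer_closure (by
    rintro _ ⟨k, hk, rfl⟩
    have h1 : m * (k * x * k⁻¹ * x⁻¹) * m⁻¹ =
      (m * k * x * (m * k)⁻¹ * x⁻¹) * (m * x * m⁻¹ * x⁻¹)⁻¹ := by group
    rw [h1]
    exact mul_mem (subset_closure ⟨_, mul_mem hm hk, rfl⟩) (inv_mem (subset_closure ⟨_, hm, rfl⟩)))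
  have hxR : x ∈ normalizer (closure s : Set G) := mem_normalizer_closure (by
    rintro _ ⟨k, hk, rfl⟩
    exact subset_closure ⟨x * k * x⁻¹, (mem_normalizer_iff.1 hxK k).1 hk, by group⟩)
  have hxC : x ∉ centralizer (closure s : Set G) := fun h => hc fun k hk => by
    have h1 : k * x * k⁻¹ * x⁻¹ ∈ closure s := subset_closure ⟨k, hk, rfl⟩
    have h2 : Commute (k * x * k⁻¹ * x⁻¹) x := h _ h1
    have h3 : (k * x * k⁻¹ * x⁻¹) ^ p = 1 := by
      have h4 := h2.mul_pow p
      rw [inv_mul_cancel_right, conj_pow, ← hx, pow_orderOf_eq_one, mul_one, mul_one,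
        mul_inv_cancel, hx] at h4
      exact h4.symm
    have h4 : k * x * k⁻¹ * x⁻¹ = 1 := orderOf_eq_one_iff.1 (Nat.eq_one_of_dvd_coprimes
      (hp.coprime_iff_not_dvd.2 hK) (orderOf_dvd_of_pow_eq_one h3)
      (K.orderOf_dvd_natCard (hQK (hRQ h1))))
    rw [mem_C, ← mul_inv_eq_iff_eq_mul, ← mul_inv_eq_one, h4]
  have hR : IsPGroup r (closure s) := hQ.to_le hRQ
  obtain ⟨i, hi⟩ := hR.exists_card_eq
  obtain ⟨d, hd, hd'⟩ := (Nat.dvd_prime_pow hr).1 (hi ▸ (frattini (closure s)).index_dvd_card)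
  have hpr : p ≠ r := by
    rintro rfl
    obtain rfl : i = 0 := by
      by_contra h
      exact hK (((dvd_pow_self p h).trans hi.symm.dvd).trans (card_dvd_of_le (hRQ.trans hQK)))
    rw [pow_zero, card_eq_one] at hi
    exact hxC (by simp [hi, mem_centralizer_iff])
  obtain ⟨j, hj1, hj2, hj3, hj4⟩ := Ch.exists_dvd_pow_sub_one_of_index_frattini hR hd'.le hp hpr hxR
    (k := 1) (by rw [pow_one, hx]) hxC
  have h1 := ((hq r j hr (hj3.trans (card_subgroup_dvd_card _)) hj4).resolve_left (by omega)).2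
  have h2 : i ≤ j := by
    by_contra! h2
    exact h1 ((pow_dvd_pow r h2).trans (hi ▸ card_subgroup_dvd_card _))
  obtain rfl : i = j := by omega
  obtain rfl : d = i := by omega
  refine ⟨_, d, hRQ.trans hQK, hKR, ((GT.PG.frattini_eq_bot_iff hR).1 ?_).1, hi, h1⟩
  have h3 := (frattini (closure s)).index_mul_card
  rw [hd', hi, Nat.mul_eq_left (pow_pos hr.pos _).ne'] at h3
  exact card_eq_one.1 h3

theorem exists_quasi {p r : ℕ} (h2 : ¬ p ^ 2 ∣ Nat.card G) (hq : OnePow p r (Nat.card G))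
    (hpG : p ∈ degreePrimes G) (hrG : r ∈ degreePrimes G) :
    ∃ E : Subgroup G, E.Normal ∧ commutator E = ⊤ ∧ IsSimpleGroup (E ⧸ center E) ∧
      ¬ (Nat.card (E ⧸ center E)).Prime ∧ p ∣ Nat.card (E ⧸ center E) ∧
        ∀ M : Subgroup E, M.Normal → M = ⊤ ∨ M ≤ center E := by
  obtain ⟨hp, _, ⟨χ, rfl⟩, hχ⟩ := hpG
  obtain ⟨hr, _, ⟨ψ, rfl⟩, hψ⟩ := hrG
  have := Fact.mk hp
  obtain ⟨x, hx⟩ := exists_prime_orderOf_dvd_card' (G := G) p (hχ.trans χ.2.charDegree_dvd_card)
  have hs : Setup p x := ⟨hp, hx, h2⟩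
  set E := closure {y : G | orderOf y = p} with hE
  have hconj : ∀ g y : G, orderOf (g * y * g⁻¹) = orderOf y := fun g y =>
    (CT.orderOf_eq_of_isConj (isConj_iff.2 ⟨g, rfl⟩)).symm
  have hN : E.Normal := normalizer_eq_top_iff.1 (eq_top_iff.2 fun g _ =>
    mem_normalizer_closure fun y hy => subset_closure ((hconj g y).trans hy))
  have hxE : x ∈ E := subset_closure hx
  have key : ∀ M : Subgroup E, M.Normal → M = ⊤ ∨ M ≤ center E := fun M hM => by
    by_cases h1 : p ∣ Nat.card M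
    · obtain ⟨y, hy, hy'⟩ := exists_mem_orderOf hp h1
      refine Or.inl (eq_top_iff.2 fun ⟨z, hz⟩ _ => ?_)
      induction hz using closure_induction with
      | mem z hz =>
        have h3 : Setup p (⟨z, subset_closure hz⟩ : E) := ⟨hp, (orderOf_mk _ _).trans hz,
          mt (·.trans (card_subgroup_dvd_card E)) h2⟩
        obtain ⟨k, hk, hk1, hc⟩ := h3.exists_isConj hy'
        obtain ⟨c, rfl⟩ := isConj_iff.1 hc.symm
        exact zpowers_le.2 (hM.conj_mem y hy c) ((h3.zpowers_eq hk hk1).ge (mem_zpowers _))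
      | one => exact M.one_mem
      | mul y z _ _ hy hz => exact M.mul_mem (hy trivial) (hz trivial)
      | inv y _ hy => exact M.inv_mem (hy trivial)
    · have hEM : E ≤ normalizer ((M.map E.subtype : Subgroup G) : Set G) := fun g hg =>
        mem_normalizer_fintype (by
          rintro _ ⟨m, hm, rfl⟩
          exact ⟨_, hM.conj_mem m hm ⟨g, hg⟩, rfl⟩)
      refine Or.inr fun m hm => mem_center_iff.2 fun ⟨z, hz⟩ => ?_
      induction hz using closure_induction with
      | mem z hz =>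
        rcases cent_or hp hr hq hz (hEM (subset_closure hz)) (by
          rwa [card_map_of_injective E.subtype_injective]) with h | ⟨R, j, h3, h4, h5, h6, h7⟩
        · exact Subtype.ext (mem_C.1 (h ⟨m, hm, rfl⟩)).symm
        · have h8 := hEM.trans (normalizer_le_of_sylow hr h6 h7 h3 h4)
          have h9 := normalizer_le_of_sylow hr h6 h7 (h3.trans (map_subtype_le M)) h8
          rw [normalizer_eq_top, top_le_iff, normalizer_eq_top_iff] at h9
          have h10 := hψ.trans (ψ.2.charDegree_dvd_index_of_comm R fun a ha b hb =>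
            congrArg Subtype.val (h5.is_comm.comm (⟨a, ha⟩ : R) ⟨b, hb⟩))
          refine absurd ?_ h7
          rw [← R.card_mul_index, h6, pow_succ]
          exact Nat.mul_dvd_mul_left _ h10
      | one => exact Commute.one_left m
      | mul y z hy' hz' hy hz => exact Commute.mul_left (a := (⟨y, hy'⟩ : E)) (b := ⟨z, hz'⟩) hy hz
      | inv y hy' hy => exact Commute.inv_left (a := (⟨y, hy'⟩ : E)) hy
  have hpE : p ∣ Nat.card E := hx ▸ E.orderOf_dvd_natCard hxE
  have hZ : center E ≠ ⊤ := fun h => by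
    have h3 := hχ.trans (χ.2.charDegree_dvd_index_of_comm E fun a ha b hb => congrArg Subtype.val
      (mem_center_iff.1 (h ▸ mem_top _ : (⟨b, hb⟩ : E) ∈ center E) ⟨a, ha⟩))
    exact h2 (by rw [← E.index_mul_card, pow_two]; exact mul_dvd_mul h3 hpE)
  have hnt : Nontrivial (E ⧸ center E) := QuotientGroup.nontrivial_iff.2 hZ
  have hS : IsSimpleGroup (E ⧸ center E) := ⟨fun M hM => by
    rcases key _ (hM.comap (QuotientGroup.mk' _)) with h | h
    · exact Or.inr (comap_injective (QuotientGroup.mk'_surjective _) (h.trans (comap_top _).symm))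
    · refine Or.inl (eq_bot_iff.2 fun m hm => ?_)
      obtain ⟨m, rfl⟩ := QuotientGroup.mk_surjective m
      exact (QuotientGroup.eq_one_iff m).2 (h hm)⟩
  have hP : ¬ (Nat.card (E ⧸ center E)).Prime := fun h => by
    have := Fact.mk h
    have : IsCyclic (E ⧸ center E) := isCyclic_of_prime_card rfl
    exact hZ (eq_top_iff.2 fun a _ => mem_center_iff.2 fun b =>
      commutative_of_cyclic_center_quotient (QuotientGroup.mk' (center E)) (by simp) b a)
  refine ⟨E, hN, (key _ inferInstance).resolve_right fun h => ?_, hS, hP, ?_, key⟩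
  · have h3 := CT.commutator_eq_top hP
    rw [commutator_def, ← map_top_of_surjective _ (QuotientGroup.mk'_surjective (center E)),
      ← map_commutator, ← commutator_def, (Subgroup.map_eq_bot_iff _).2 (by simpa using h)] at h3
    exact bot_ne_top (h3.trans (map_top_of_surjective _ (QuotientGroup.mk'_surjective _)))
  · rw [← (center E).index_mul_card] at hpE
    refine (hp.dvd_mul.1 hpE).resolve_right fun h => ?_
    obtain ⟨y, hy, hy'⟩ := exists_mem_orderOf hp h
    refine hZ (eq_top_iff.2 fun ⟨z, hz⟩ _ => ?_)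
    induction hz using closure_induction with
    | mem z hz =>
      have h3 : Setup p (⟨z, subset_closure hz⟩ : E) := ⟨hp, (orderOf_mk _ _).trans hz,
        mt (·.trans (card_subgroup_dvd_card E)) h2⟩
      obtain ⟨k, hk, hk1, hc⟩ := h3.exists_isConj hy'
      obtain ⟨c, rfl⟩ := isConj_iff.1 hc.symm
      exact zpowers_le.2 (Normal.conj_mem inferInstance y hy c)
        ((h3.zpowers_eq hk hk1).ge (mem_zpowers _))
    | one => exact one_mem _
    | mul y z _ _ hy hz => exact mul_mem (hy trivial) (hz trivial)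
    | inv y _ hy => exact inv_mem (hy trivial)

end Cfsg.Agent.FG.H93.DQ
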