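import Mathlib
import Cfsg.Agent.FG.ShGr
import Cfsg.Agent.Loc.Higman

/-!
A `2`-group acted on by the Frobenius group `13 : 3`, the kernel acting without fixed points and
the fixed points of the complement having exponent `2`, has exponent `4`.
-/

set_option autoImplicit false

namespace Cfsg.Agent.FG.H93.L13

open Cfsg.Agent.Loc.H78.Lie Cfsg.Agent.FG.Sh Cfsg.Agent.GT
open scoped TensorProduct commutatorElement

universe u

/-- the weights that may have a nonzero bracket -/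
def Rel (a b : ZMod 13) : Prop := b = 3 * a ∨ b = 9 * a

instance (a b : ZMod 13) : Decidable (Rel a b) := inferInstanceAs (Decidable (_ ∨ _))

theorem rel_jac (a b c : ZMod 13) (ha : a ≠ 0) (h1 : Rel a b) (h2 : Rel (a + b) c) :
    ¬ Rel b c ∧ ¬ Rel a c := by
  rcases h1 with rfl | rfl <;> rcases h2 with rfl | rfl <;> revert a <;> decide

theorem rel_nine : ∀ a b : ZMod 13, a ≠ 0 → b ≠ 0 → a + b ≠ 0 → ¬ Rel a b →
    a + 3 * b ≠ a + b ∧ a + 3 * (3 * b) ≠ a + b ∧ 3 * a + b ≠ a + b ∧ 3 * a + 3 * b ≠ a + b ∧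
    3 * a + 3 * (3 * b) ≠ a + b ∧ 3 * (3 * a) + b ≠ a + b ∧ 3 * (3 * a) + 3 * b ≠ a + b ∧
    3 * (3 * a) + 3 * (3 * b) ≠ a + b := by decide +kernel

theorem three_ne : ∀ a : ZMod 13, a ≠ 0 → 3 * a ≠ a ∧ 3 * (3 * a) ≠ a := by decide

theorem alg {A : Type} [CommRing A] [IsDomain A] {ζ : A} (hζ : IsPrimitiveRoot ζ 13)
    {𝔤 : Type u} [LieRing 𝔤] [LieAlgebra A 𝔤] (B H : Module.End A 𝔤)
    (hBlie : ∀ x y : 𝔤, B ⁅x, y⁆ = ⁅B x, B y⁆) (hB13 : B ^ 13 = 1) (hBH : B * H = H * B ^ 3)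
    (hsum : ∀ x, ∑ j ∈ Finset.range 13, (B ^ j) x = 0) (h13 : ∀ x : 𝔤, 13 • x = 0 → x = 0)
    (hN : ∀ x y : 𝔤, ⁅x + H x + H (H x), y + H y + H (H y)⁆ = 0)
    (h2 : ∀ x : 𝔤, 2 • (x + H x + H (H x)) = 0) :
    (∀ x y z : 𝔤, ⁅⁅x, y⁆, z⁆ = 0) ∧ ∀ x : 𝔤, 2 • x = 0 := by
  let χ : AddChar (ZMod 13) A := AddChar.zmodChar 13 hζ.pow_eq_one
  have hχ : χ.IsPrimitive := AddChar.zmodChar_primitive_of_primitive_root 13 hζ
  let E : ZMod 13 → 𝔤 → Prop := fun i x => B x = χ i • x
  have hEpow : ∀ i x, E i x → ∀ j : ℕ, (B ^ j) x = χ ((j : ZMod 13) * i) • x := by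
    intro i x hx j
    induction j with
    | zero => simp
    | succ j ih =>
      rw [pow_succ', Module.End.mul_apply, ih, map_smul, hx, smul_smul, ← AddChar.map_add_eq_mul]
      congr 2; push_cast; ring
  have hEg : ∀ u v x y, E u x → E v y → E (u + v) ⁅x, y⁆ := by
    intro u v x y hx hy
    show B _ = _
    rw [hBlie, hx, hy, smul_lie, lie_smul, smul_smul, AddChar.map_add_eq_mul]
  have hEH : ∀ u x, E u x → E (3 * u) (H x) := by
    intro u x hx
    show B _ = _
    rw [← Module.End.mul_apply, hBH, Module.End.mul_apply, hEpow u x hx, map_smul]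
    rfl
  let P : ZMod 13 → Module.End A 𝔤 := fun i =>
    ∑ j ∈ Finset.range 13, χ (-((j : ZMod 13) * i)) • B ^ j
  have hPE : ∀ i u x, E u x → P i x = if u = i then 13 • x else 0 := by
    intro i u x hx
    have e : P i x = (∑ j : ZMod 13, χ (j * (u - i))) • x := by
      simp only [P, LinearMap.sum_apply, LinearMap.smul_apply, hEpow u x hx, smul_smul,
        ← AddChar.map_add_eq_mul]
      rw [← Finset.sum_smul]
      congr 1
      rw [Finset.sum_range]
      refine Finset.sum_congr rfl fun (j : ZMod 13) _ => ?_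
      congr 1
      have : ((ZMod.val j : ℕ) : ZMod 13) = j := ZMod.natCast_zmod_val (n := 13) j
      show -(((ZMod.val j : ℕ) : ZMod 13) * i) + ((ZMod.val j : ℕ) : ZMod 13) * u = j * (u - i)
      rw [this]; ring
    rw [e, AddChar.sum_mulShift _ hχ, ZMod.card]
    by_cases h : u = i
    · simp [h, Nat.cast_smul_eq_nsmul, ← Nat.cast_smul_eq_nsmul A]
    · simp [h, sub_eq_zero]
  have hPmem : ∀ i x, E i (P i x) := by
    intro i x
    show B _ = _
    have h1 : ∀ j : ℕ, B ((χ (-((j : ZMod 13) * i)) • B ^ j) x) =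
        χ i • (χ (-(((j + 1 : ℕ) : ZMod 13) * i)) • B ^ (j + 1)) x := by
      intro j
      simp only [LinearMap.smul_apply, map_smul, smul_smul, ← AddChar.map_add_eq_mul]
      rw [pow_succ', Module.End.mul_apply]
      congr 2; push_cast; ring
    simp only [P, LinearMap.sum_apply, map_sum, h1]
    rw [← Finset.smul_sum]
    congr 1
    have h3 := Finset.sum_range_succ' (fun j : ℕ => (χ (-((j : ZMod 13) * i)) • B ^ j) x) 13
    rw [Finset.sum_range_succ] at h3
    have h4 : (χ (-(((13 : ℕ) : ZMod 13) * i)) • B ^ 13) x =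
        (χ (-(((0 : ℕ) : ZMod 13) * i)) • B ^ 0) x := by
      rw [hB13, ZMod.natCast_self]; simp
    rw [h4] at h3
    exact (add_right_cancel h3).symm
  have hPsum : ∀ x, ∑ i, P i x = 13 • x := by
    intro x
    simp only [P, LinearMap.sum_apply, LinearMap.smul_apply]
    rw [Finset.sum_comm]
    simp only [← Finset.sum_smul]
    have : ∀ j : ℕ, ∑ i : ZMod 13, χ (-((j : ZMod 13) * i)) =
        if (-(j : ZMod 13)) = 0 then ((13 : ℕ) : A) else 0 := by
      intro j
      have := AddChar.sum_mulShift (-(j : ZMod 13)) hχ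
      rw [ZMod.card] at this
      rw [← show ((if (-(j : ZMod 13)) = 0 then 13 else 0 : ℕ) : A) =
        if (-(j : ZMod 13)) = 0 then ((13 : ℕ) : A) else 0 by split_ifs <;> simp, ← this]
      exact Finset.sum_congr rfl fun i _ => by congr 1; ring
    simp only [this]
    rw [Finset.sum_eq_single 0]
    · simp [← Nat.cast_smul_eq_nsmul A]
    · intro j hj hj0
      rw [if_neg, zero_smul]
      rw [neg_eq_zero, ZMod.natCast_eq_zero_iff]
      exact Nat.not_dvd_of_pos_of_lt (Nat.pos_of_ne_zero hj0) (Finset.mem_range.mp hj)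
    · intro h0; exact absurd (Finset.mem_range.mpr (by norm_num)) h0
  have hE0 : ∀ x, E 0 x → x = 0 := by
    intro x hx
    apply h13
    have := hsum x
    simp only [hEpow 0 x hx, mul_zero, AddChar.map_zero_eq_one, one_smul, Finset.sum_const,
      Finset.card_range] at this
    exact this
  have hz : ∀ a b x y, E a x → E b y → ¬ Rel a b → ⁅x, y⁆ = 0 := by
    intro a b x y hx hy hr
    by_cases ha : a = 0
    · subst ha; rw [hE0 x hx, zero_lie]
    by_cases hb : b = 0
    · subst hb; rw [hE0 y hy, lie_zero]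
    by_cases hab : a + b = 0
    · exact hE0 _ (hab ▸ hEg a b x y hx hy)
    obtain ⟨c1, c2, c3, c4, c5, c6, c7, c8⟩ := rel_nine a b ha hb hab hr
    have hx1 := hEH _ _ hx
    have hx2 := hEH _ _ hx1
    have hy1 := hEH _ _ hy
    have hy2 := hEH _ _ hy1
    have h := congrArg (P (a + b)) (hN x y)
    simp only [lie_add, add_lie, map_add, map_zero] at h
    rw [hPE _ _ _ (hEg _ _ _ _ hx hy), hPE _ _ _ (hEg _ _ _ _ hx hy1),
      hPE _ _ _ (hEg _ _ _ _ hx hy2), hPE _ _ _ (hEg _ _ _ _ hx1 hy),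
      hPE _ _ _ (hEg _ _ _ _ hx1 hy1), hPE _ _ _ (hEg _ _ _ _ hx1 hy2),
      hPE _ _ _ (hEg _ _ _ _ hx2 hy), hPE _ _ _ (hEg _ _ _ _ hx2 hy1),
      hPE _ _ _ (hEg _ _ _ _ hx2 hy2), if_pos rfl, if_neg c1, if_neg c2, if_neg c3, if_neg c4,
      if_neg c5, if_neg c6, if_neg c7, if_neg c8] at h
    exact h13 _ (by simpa using h)
  have hj : ∀ a b c x y z, E a x → E b y → E c z → ⁅⁅x, y⁆, z⁆ = 0 := by
    intro a b c x y z hx hy hz'
    by_cases ha : a = 0
    · subst ha; rw [hE0 x hx, zero_lie, zero_lie]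
    by_cases h1 : Rel a b
    · by_cases h3 : Rel (a + b) c
      · obtain ⟨h4, h5⟩ := rel_jac a b c ha h1 h3
        rw [lie_lie, hz _ _ _ _ hy hz' h4, hz _ _ _ _ hx hz' h5, lie_zero, lie_zero, sub_zero]
      · exact hz _ _ _ _ (hEg _ _ _ _ hx hy) hz' h3
    · rw [hz _ _ _ _ hx hy h1, zero_lie]
  refine ⟨fun x y z => ?_, fun x => ?_⟩
  · apply h13; apply h13; apply h13
    rw [← nsmul_lie, ← nsmul_lie, ← lie_nsmul, ← nsmul_lie, ← lie_nsmul, ← hPsum x, ← hPsum y,
      ← hPsum z]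
    simp only [sum_lie, lie_sum]
    exact Finset.sum_eq_zero fun _ _ => Finset.sum_eq_zero fun _ _ => Finset.sum_eq_zero
      fun _ _ => hj _ _ _ _ _ _ (hPmem _ _) (hPmem _ _) (hPmem _ _)
  · apply h13
    rw [smul_comm, ← hPsum x, Finset.smul_sum]
    refine Finset.sum_eq_zero fun a _ => ?_
    have hx := hPmem a x
    by_cases ha : a = 0
    · subst ha; rw [hE0 _ hx, smul_zero]
    obtain ⟨c1, c2⟩ := three_ne a ha
    have h := congrArg (P a) (h2 (P a x))
    rw [map_nsmul, map_add, map_add, map_zero, hPE _ _ _ hx, hPE _ _ _ (hEH _ _ hx),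
      hPE _ _ _ (hEH _ _ (hEH _ _ hx)), if_pos rfl, if_neg c1, if_neg c2, add_zero, add_zero,
      smul_comm] at h
    exact h13 _ h

theorem aux {A : Type} [CommRing A] [IsDomain A] {ι : Type} [DecidableEq ι]
    (b : Module.Basis ι ℤ A) (i0 : ι) (hb : b i0 = 1) {ζ : A} (hζ : IsPrimitiveRoot ζ 13)
    {L : Type u} [LieRing L] (β η : L →+ L) (hβ : ∀ x y, β ⁅x, y⁆ = ⁅β x, β y⁆)
    (hβp : ∀ x, β^[13] x = x) (hβη : ∀ x, β (η x) = η (β^[3] x))
    (hsum : ∀ x, ∑ j ∈ Finset.range 13, β^[j] x = 0) (r : ℕ) (hr : ∀ x : L, r • 13 • x = x)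
    (hN : ∀ x y : L, ⁅x + η x + η (η x), y + η y + η (η y)⁆ = 0)
    (h2 : ∀ x : L, 2 • (x + η x + η (η x)) = 0) :
    (∀ x y z : L, ⁅⁅x, y⁆, z⁆ = 0) ∧ ∀ x : L, 2 • x = 0 := by
  let B : Module.End A (A ⊗[ℤ] L) := LinearMap.baseChange A β.toIntLinearMap
  let H : Module.End A (A ⊗[ℤ] L) := LinearMap.baseChange A η.toIntLinearMap
  have hB : ∀ (a : A) (x : L), B (a ⊗ₜ x) = a ⊗ₜ β x := fun _ _ => rfl
  have hH : ∀ (a : A) (x : L), H (a ⊗ₜ x) = a ⊗ₜ η x := fun _ _ => rfl
  have e0 : ∀ z : A ⊗[ℤ] L, ⁅z, (0 : A ⊗[ℤ] L)⁆ = 0 := fun z => lie_zero z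
  have hBlie : ∀ x y : A ⊗[ℤ] L, B ⁅x, y⁆ = ⁅B x, B y⁆ := by
    intro x y
    induction x using TensorProduct.induction_on with
    | zero => simp
    | add x x' h1 h2 => rw [add_lie, map_add, map_add, add_lie, h1, h2]
    | tmul a x =>
      induction y using TensorProduct.induction_on with
      | zero => rw [e0, map_zero, e0]
      | add y y' h1 h2 => rw [LieRing.lie_add, map_add, map_add, LieRing.lie_add, h1, h2]
      | tmul c y =>
        rw [hB, hB, LieAlgebra.ExtendScalars.bracket_tmul, LieAlgebra.ExtendScalars.bracket_tmul,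
          hB, hβ]
  have hBk : ∀ (k : ℕ) (a : A) (x : L), (B ^ k) (a ⊗ₜ x) = a ⊗ₜ β^[k] x := by
    intro k
    induction k with
    | zero => intro a x; rfl
    | succ k ih => intro a x; rw [pow_succ, Module.End.mul_apply, hB, ih]; rfl
  have hBp : B ^ 13 = 1 := by
    apply LinearMap.ext
    intro x
    induction x using TensorProduct.induction_on with
    | zero => simp
    | add x x' h1 h2 => rw [map_add, map_add, h1, h2]
    | tmul a x => rw [hBk, hβp]; rfl
  have hBH : B * H = H * B ^ 3 := by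
    apply LinearMap.ext
    intro x
    induction x using TensorProduct.induction_on with
    | zero => simp
    | add x x' h1 h2 => rw [map_add, map_add, h1, h2]
    | tmul a x => rw [Module.End.mul_apply, Module.End.mul_apply, hBk, hH, hH, hB, hβη]
  have hs : ∀ x, ∑ j ∈ Finset.range 13, (B ^ j) x = 0 := by
    intro x
    induction x using TensorProduct.induction_on with
    | zero => simp
    | add x x' h1 h2 => simp only [map_add, Finset.sum_add_distrib, h1, h2, add_zero]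
    | tmul a x => simp only [hBk]; rw [← TensorProduct.tmul_sum, hsum, TensorProduct.tmul_zero]
  have h13 : ∀ x : A ⊗[ℤ] L, 13 • x = 0 → x = 0 := by
    have : ∀ x : A ⊗[ℤ] L, r • 13 • x = x := by
      intro x
      induction x using TensorProduct.induction_on with
      | zero => simp
      | add x x' h1 h2 => rw [smul_add, smul_add, h1, h2]
      | tmul a x =>
        rw [← TensorProduct.tmul_smul, ← TensorProduct.tmul_smul, hr]
    intro x hx
    rw [← this x, hx, smul_zero]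
  let Nm : A ⊗[ℤ] L →+ A ⊗[ℤ] L := (1 + H + H * H : Module.End A _).toAddMonoidHom
  have hNm : ∀ x, Nm x = x + H x + H (H x) := fun _ => rfl
  have hNt : ∀ (a : A) (x : L), Nm (a ⊗ₜ x) = a ⊗ₜ (x + η x + η (η x)) := by
    intro a x
    rw [hNm, hH, hH, TensorProduct.tmul_add, TensorProduct.tmul_add]
  have hN' : ∀ x y : A ⊗[ℤ] L, ⁅Nm x, Nm y⁆ = 0 := by
    intro x y
    induction x using TensorProduct.induction_on with
    | zero => simp
    | add x x' h1 h2 => rw [map_add, add_lie, h1, h2, add_zero]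
    | tmul a x =>
      induction y using TensorProduct.induction_on with
      | zero => rw [map_zero, e0]
      | add y y' h1 h2 => rw [map_add, LieRing.lie_add, h1, h2, add_zero]
      | tmul c y =>
        rw [hNt, hNt, LieAlgebra.ExtendScalars.bracket_tmul, hN, TensorProduct.tmul_zero]
  have h2' : ∀ x : A ⊗[ℤ] L, 2 • Nm x = 0 := by
    intro x
    induction x using TensorProduct.induction_on with
    | zero => simp
    | add x x' h1 h2 => rw [map_add, smul_add, h1, h2, add_zero]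
    | tmul a x => rw [hNt, ← TensorProduct.tmul_smul, h2, TensorProduct.tmul_zero]
  obtain ⟨r1, r2⟩ := alg hζ B H hBlie hBp hBH hs h13 hN' h2'
  let e := TensorProduct.equivFinsuppOfBasisLeft (N := L) b
  have hinj : ∀ x : L, (1 : A) ⊗ₜ[ℤ] x = 0 → x = 0 := by
    intro x h1
    rw [← hb] at h1
    have h2 := congrArg (fun z => e z i0) h1
    simp only [map_zero, Finsupp.zero_apply] at h2
    rw [TensorProduct.equivFinsuppOfBasisLeft_apply_tmul_apply] at h2
    simpa using h2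
  refine ⟨fun x y z => hinj _ ?_, fun x => hinj _ ?_⟩
  · have := r1 ((1 : A) ⊗ₜ[ℤ] x) ((1 : A) ⊗ₜ[ℤ] y) ((1 : A) ⊗ₜ[ℤ] z)
    rwa [LieAlgebra.ExtendScalars.bracket_tmul, LieAlgebra.ExtendScalars.bracket_tmul, one_mul,
      one_mul] at this
  · rw [TensorProduct.tmul_smul]; exact r2 _

theorem ring {L : Type u} [LieRing L] (β η : L →+ L) (hβ : ∀ x y, β ⁅x, y⁆ = ⁅β x, β y⁆)
    (hβp : ∀ x, β^[13] x = x) (hβη : ∀ x, β (η x) = η (β^[3] x))
    (hsum : ∀ x, ∑ j ∈ Finset.range 13, β^[j] x = 0) (r : ℕ) (hr : ∀ x : L, r • 13 • x = x)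
    (hN : ∀ x y : L, ⁅x + η x + η (η x), y + η y + η (η y)⁆ = 0)
    (h2 : ∀ x : L, 2 • (x + η x + η (η x)) = 0) :
    (∀ x y z : L, ⁅⁅x, y⁆, z⁆ = 0) ∧ ∀ x : L, 2 • x = 0 := by
  have hζ := Complex.isPrimitiveRoot_exp 13 (by norm_num)
  set ζ := Complex.exp (2 * Real.pi * Complex.I / (13 : ℕ))
  have hint : IsIntegral ℤ ζ := hζ.isIntegral (by norm_num)
  let pb := Algebra.adjoin.powerBasis' hint
  have hpos : 0 < pb.dim := pb.dim_pos
  have hζ' : IsPrimitiveRoot
      (⟨ζ, Algebra.subset_adjoin rfl⟩ : Algebra.adjoin ℤ ({ζ} : Set ℂ)) 13 :=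
    IsPrimitiveRoot.of_map_of_injective (f := (Algebra.adjoin ℤ ({ζ} : Set ℂ)).val) hζ
      Subtype.val_injective
  exact aux pb.basis ⟨0, hpos⟩ (by rw [pb.basis_eq_pow]; exact pow_zero _) hζ' β η hβ hβp hβη
    hsum r hr hN h2

/-- The group version. -/
theorem pow_four {N : Type u} [Group N] [Finite N] (hN : IsPGroup 2 N) (α β : MulAut N)
    (hα : α ^ 13 = 1) (hβ : β ^ 3 = 1) (hαβ : α * β = β * α ^ 3)
    (hfpf : ∀ g : N, α g = g → g = 1) (hC : ∀ g : N, β g = g → g ^ 2 = 1) (g : N) :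
    g ^ 4 = 1 := by
  have hnil : Group.IsNilpotent N := hN.isNilpotent
  obtain ⟨n, hn⟩ := Subgroup.nilpotent_iff_lowerCentralSeries.mp hnil
  obtain ⟨k, hk⟩ := IsPGroup.iff_card.mp hN
  have hfix : ∀ v : Gr N, autGr α v = v → v = 0 := by
    intro v hv
    refine eq_zero_of_pr fun i => ?_
    obtain ⟨y, hy, e⟩ := exists_pr_eq i v
    have h1 := pr_autGr α i v
    rw [hv, e, autGr_ι _ hy] at h1
    have hy' := aut_mem_γ α hy
    rw [e]
    refine ι_eq_zero (Frob.mem_of_fpf_of_inv_mul_mem (φ := α.toMonoidHom) hfpf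
        (fun n hn => aut_mem_γ α hn) ?_)
    show (α y)⁻¹ * y ∈ γ N (i + 1)
    rw [← ι_eq_zero_iff (Subgroup.mul_mem _ (Subgroup.inv_mem _ hy') hy),
      ι_mul (Subgroup.inv_mem _ hy') hy, ι_inv hy', ← h1, neg_add_cancel]
  have hα13 : ∀ v : Gr N, (autGr α)^[13] v = v := fun v => by
    rw [autGr_iterate, hα, autGr_one]
  obtain ⟨r, hr⟩ : ∃ r, ∀ x : Gr N, r • 13 • x = x := by
    have hpN : (13 : ℕ).Coprime (Nat.card N) := by
      rw [hk]; exact Nat.Coprime.pow_right _ (by norm_num)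
    obtain ⟨r, hr⟩ := Nat.exists_mul_mod_eq_of_coprime 1 hpN Nat.card_pos.ne'
    refine ⟨r, fun x => ?_⟩
    have h1 : ∀ k : ℕ, k • x = (k % Nat.card N) • x := fun k => by
      conv_lhs => rw [← Nat.mod_add_div k (Nat.card N), add_smul, mul_comm, mul_smul,
        card_smul_Gr, smul_zero, add_zero]
    rw [smul_smul, h1, mul_comm, hr.2, ← h1, one_smul]
  let Z := Subgroup.zpowers β
  let φ : Z →* MulAut N := Z.subtype
  have hZ : IsMulCommutative Z := inferInstance
  have hcop : (Nat.card Z).Coprime (Nat.card N) := by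
    rw [hk, Nat.card_zpowers]
    exact Nat.Coprime.pow_right _ (Nat.Coprime.coprime_dvd_left (orderOf_dvd_of_pow_eq_one hβ)
      (by norm_num))
  set C := Fx φ ⊤ with hCdef
  have hCm : ∀ x ∈ C, β x = x := fun x hx => hx ⟨⟨β, Subgroup.mem_zpowers β⟩, Subgroup.mem_top _⟩
  have hNm : ∀ v : Gr N, v + autGr β v + autGr β (autGr β v) ∈ LJ C := by
    intro v
    have h0 : autGr β (v + autGr β v + autGr β (autGr β v)) =
        v + autGr β v + autGr β (autGr β v) := by
      have : autGr β (autGr β (autGr β v)) = v := by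
        have := autGr_iterate β 3 v
        rw [hβ, autGr_one] at this
        exact this
      rw [map_add, map_add, this]; abel
    refine LJ_mono inf_le_right (mem_LJ_Fx hn hZ hcop (CopAct.actInv_top φ) ⊤
      (LJ_top.ge trivial) ?_)
    rintro ⟨b, hb⟩ -
    obtain ⟨k, rfl⟩ := mem_powers_iff_mem_zpowers.2 hb
    show autGr (β ^ k) _ = _
    rw [← autGr_iterate]
    exact Function.iterate_fixed h0 k
  have hCC : ⁅C, C⁆ = ⊥ := by
    rw [Subgroup.commutator_eq_bot_iff_le_centralizer]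
    intro x hx y hy
    have h1 := hC x (hCm x hx)
    have h2 := hC y (hCm y hy)
    have h3 := hC _ (hCm _ (C.mul_mem hy hx))
    rw [sq] at h1 h2 h3
    have e1 := eq_inv_of_mul_eq_one_left h1
    have e2 := eq_inv_of_mul_eq_one_left h2
    have e3 := eq_inv_of_mul_eq_one_left h3
    rw [e3, mul_inv_rev, ← e1, ← e2]
  obtain ⟨r1, r2⟩ := ring (autGr α) (autGr β) (autGr_lie α) hα13
    (fun x => by rw [autGr_iterate, ← autGr_mul, ← autGr_mul, hαβ])
    (fun x => hfix _ (by
      rw [map_sum]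
      have h3 := Finset.sum_range_succ' (fun j : ℕ => (autGr α)^[j] x) 13
      rw [Finset.sum_range_succ, hα13] at h3
      simp only [Function.iterate_succ_apply', Function.iterate_zero_apply] at h3
      exact (add_right_cancel h3).symm)) r hr
    (fun x y => by
      have := br_LJ C C (lie_mem_br (hNm x) (hNm y))
      rwa [hCC, LJ_bot, AddSubgroup.mem_bot] at this)
    (fun x => by
      have : LJ C ≤ (nsmulAddMonoidHom 2).ker := LJ_le fun i y hy hi => by
        show 2 • ι i y = 0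
        rw [← ι_pow hi, hC y (hCm y hy), ι_one]
      exact this (hNm x))
  have h1 : γ N 2 ≤ γ N 3 := by
    intro x hx
    rw [← ι_eq_zero_iff hx]
    have h := ι_mem_lcs 2 x hx
    have : lcs (⊤ : AddSubgroup (Gr N)) 2 ≤ ⊥ := by
      rw [lcs_succ, br_le]
      intro a _ b hb
      have : lcs (⊤ : AddSubgroup (Gr N)) 1 ≤ preR a ⊥ := by
        rw [lcs_succ, br_le]
        intro c _ d _
        show ⁅a, ⁅c, d⁆⁆ ∈ (⊥ : AddSubgroup (Gr N))
        rw [← lie_skew, r1, neg_zero]; exact AddSubgroup.zero_mem _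
      exact this hb
    exact this h
  have h4 : ∀ k, γ N 2 ≤ γ N (2 + k) := by
    intro k
    induction k with
    | zero => exact le_rfl
    | succ k ih => exact h1.trans (Subgroup.commutator_mono ih le_rfl)
  have h5 : γ N 2 = ⊥ := by
    rw [eq_bot_iff, ← hn]
    exact (h4 n).trans (Subgroup.lowerCentralSeries_antitone _ (Nat.le_add_left n 2))
  have h6 : g ^ 2 ∈ γ N 1 := by
    rw [← ι_eq_zero_iff (Subgroup.mem_top _), ι_pow (Subgroup.mem_top _), r2]
  have h7 : (g ^ 2) ^ 2 ∈ γ N 2 := by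
    rw [← ι_eq_zero_iff (Subgroup.pow_mem _ h6 _), ι_pow h6, r2]
  rwa [h5, ← pow_mul, Subgroup.mem_bot] at h7

end Cfsg.Agent.FG.H93.L13
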