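import Mathlib
import Cfsg.Agent.FG.H93CycAb
import Cfsg.Agent.GT.PGroupIso

/-! `p`-by-cyclic subgroups. -/

set_option autoImplicit false
set_option linter.unusedSectionVars false

namespace Cfsg.Agent.FG.H93

open Subgroup Cfsg Cfsg.Agent.GT
open scoped Pointwise commutatorElement

variable {G : Type*} [Group G] [Finite G] {p : ℕ} [hp : Fact p.Prime]

theorem pby_of_sup_eq_top {K : Subgroup G} [K.Normal] (hK : IsPGroup p K) {x : G}
    (h : K ⊔ zpowers x = ⊤) :
    (∀ S : Sylow p G, (S : Subgroup G).Normal) ∧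
      ∀ (S : Sylow p G) [(S : Subgroup G).Normal], IsCyclic (G ⧸ (S : Subgroup G)) := by
  have key : ∀ (N : Subgroup G) [N.Normal], K ≤ N → IsCyclic (G ⧸ N) := fun N _ hN => by
    refine ⟨⟨(x : G ⧸ N), fun y => ?_⟩⟩
    obtain ⟨y, rfl⟩ := QuotientGroup.mk_surjective y
    have hy : y ∈ K ⊔ zpowers x := h ▸ mem_top y
    obtain ⟨k, hk, _, ⟨i, rfl⟩, rfl⟩ := mem_sup_of_normal_left.mp hy
    exact ⟨i, by simp [(QuotientGroup.eq_one_iff k).mpr (hN hk)]⟩
  have hle : ∀ S : Sylow p G, K ≤ S := fun S => hK.le_sylow_of_normal S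
  refine ⟨fun S => ?_, fun S _ => key S (hle S)⟩
  have := key K le_rfl
  have h1 : commutator G ≤ K := Normal.quotient_commutative_iff_commutator_le.mp inferInstance
  exact PG.normal_of_commutator_le (h1.trans (hle S))

theorem pby_sup {K : Subgroup G} (hK : IsPGroup p K) {x : G}
    (hx : x ∈ normalizer (K : Set G)) :
    (∀ S : Sylow p ↥(K ⊔ zpowers x), (S : Subgroup ↥(K ⊔ zpowers x)).Normal) ∧
      ∀ (S : Sylow p ↥(K ⊔ zpowers x)) [(S : Subgroup ↥(K ⊔ zpowers x)).Normal],
        IsCyclic (↥(K ⊔ zpowers x) ⧸ (S : Subgroup ↥(K ⊔ zpowers x))) := by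
  have : (K.subgroupOf (K ⊔ zpowers x)).Normal :=
    (normal_subgroupOf_iff_le_normalizer le_sup_left).mpr (sup_le le_normalizer (zpowers_le.mpr hx))
  refine pby_of_sup_eq_top (K := K.subgroupOf (K ⊔ zpowers x)) (hK.comap_of_injective _
    (subtype_injective _)) (x := ⟨x, mem_sup_right (mem_zpowers x)⟩) ?_
  apply map_injective (subtype_injective _)
  rw [Subgroup.map_sup, map_subgroupOf_eq_of_le le_sup_left, MonoidHom.map_zpowers,
    ← MonoidHom.range_eq_map, range_subtype]
  rfl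

theorem isCyclic_of_sylow_le_center (S : Sylow p G) [(S : Subgroup G).Normal] [IsCyclic S]
    [IsCyclic (G ⧸ (S : Subgroup G))] (h : (S : Subgroup G) ≤ center G) : IsCyclic G := by
  obtain ⟨y, hy⟩ := isCyclic_iff_exists_orderOf_eq_natCard.mp (inferInstance : IsCyclic (G ⧸ (S : Subgroup G)))
  obtain ⟨y, rfl⟩ := QuotientGroup.mk_surjective y
  obtain ⟨s, hs⟩ := isCyclic_iff_exists_orderOf_eq_natCard.mp (inferInstance : IsCyclic S)
  obtain ⟨z, -, hz⟩ := (show Commute y s from mem_center_iff.mp (h s.2) y).exists_orderOf_eq_lcm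
  refine isCyclic_iff_exists_orderOf_eq_natCard.mpr ⟨z, Nat.dvd_antisymm (orderOf_dvd_natCard z) ?_⟩
  rw [hz, ← (S : Subgroup G).card_mul_index]
  refine S.card_coprime_index.mul_dvd_of_dvd_of_dvd ?_ ?_
  · rw [← hs, ← orderOf_coe]; exact Nat.dvd_lcm_right _ _
  · rw [index, ← hy]
    exact (orderOf_map_dvd (QuotientGroup.mk' (S : Subgroup G)) y).trans (Nat.dvd_lcm_left _ _)

theorem sylow_le_center (S : Sylow p G) [(S : Subgroup G).Normal] [IsMulCommutative S]
    (h : ∀ g : G, ¬ p ∣ orderOf g → g ∈ centralizer ((S : Subgroup G) : Set G)) :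
    (S : Subgroup G) ≤ center G := fun s hs => mem_center_iff.mpr fun g => by
  refine (mem_of_forall_primePow (H := centralizer ((S : Subgroup G) : Set G))
    (fun y _ q hq ⟨k, hk⟩ => ?_) s hs).symm
  by_cases hqp : q = p
  · subst hqp
    exact PG.isMulCommutative_iff_le_centralizer.mp inferInstance (le_sylow_of_le_normalizer S
      (IsPGroup.of_card (by rw [Nat.card_zpowers, hk]))
      (by rw [normalizer_eq_top]; exact le_top) (mem_zpowers y))
  · exact h y fun h1 =>
      hqp ((Nat.prime_dvd_prime_iff_eq hp.out hq).mp (hp.out.dvd_of_dvd_pow (hk ▸ h1))).symm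

theorem isCyclic_of_isPGroup (P : Sylow p G) [IsCyclic P] {Q : Subgroup G} (hQ : IsPGroup p Q) :
    IsCyclic Q := by
  obtain ⟨g, -, hg⟩ := HT.exists_conj_le_of_isPGroup (L := ⊤) le_top hQ P.isPGroup'
    (by rw [relIndex_top_right]; exact P.not_dvd_index)
  have h1 := Subgroup.isCyclic_of_le hg
  rw [HT.conj_smul_eq_map] at h1
  exact @isCyclic_of_surjective _ _ _ _ _ h1 _ _ _
    ((MulAut.conj g).subgroupMap Q).symm.surjective

theorem isCyclic_sylow_subgroup (P : Sylow p G) [IsCyclic P] {H : Subgroup G} (S : Sylow p H) :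
    IsCyclic S := by
  have h1 := isCyclic_of_isPGroup P (S.isPGroup'.map H.subtype)
  exact @isCyclic_of_surjective _ _ _ _ _ h1 _ _ _
    (equivMapOfInjective _ _ H.subtype_injective).symm.surjective

theorem isCyclic_of_npc (h : HasNormalPComplement p G) (S : Sylow p G) [(S : Subgroup G).Normal]
    [IsCyclic S] [IsCyclic (G ⧸ (S : Subgroup G))] : IsCyclic G :=
  isCyclic_of_sylow_le_center S (sylow_le_center S fun g hg => h.mem_centralizer S.isPGroup'
    (by rw [normalizer_eq_top]; exact mem_top g) ((Nat.Prime.coprime_iff_not_dvd hp.out).mpr hg).symm)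

end Cfsg.Agent.FG.H93
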