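import Mathlib
import Cfsg.Agent.GT.PiGroups
import Cfsg.Agent.GT.PGroupChain
import Cfsg.Agent.FG.ClassIdx

/-! Normal subgroups on which every element fixes a subgroup of index dividing `p` (Knoche). -/

set_option autoImplicit false

namespace Cfsg.Agent.FG.Breadth

open Subgroup Cfsg.Agent.GT Cfsg.Agent.FG.CI
open scoped commutatorElement

variable {G : Type*} [Group G] {p : ℕ}

theorem eq_zpowers_of_card_dvd [Finite G] (hp : p.Prime) {A : Subgroup G} (hA : Nat.card A ∣ p)
    {w : G} (hw : w ∈ A) (h1 : w ≠ 1) : A = zpowers w := by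
  refine (eq_of_le_of_card_ge (zpowers_le.2 hw) ?_).symm
  have h2 := (card_dvd_of_le (zpowers_le.2 hw)).trans hA
  rcases (Nat.dvd_prime hp).1 h2 with h | h
  · exact absurd (zpowers_eq_bot.1 (card_eq_one.1 h)) h1
  · exact h ▸ Nat.le_of_dvd hp.pos hA

/-- A subgroup of index dividing `p` in `P` is maximal or everything. -/
theorem eq_of_relIndex_dvd (hp : p.Prime) {A B P : Subgroup G} (hA : A.relIndex P ∣ p)
    (hAB : A ≤ B) (hB : ¬ P ≤ B) : P ⊓ B ≤ A := by
  have h1 := relIndex_mul_relIndex (A ⊓ P) (B ⊓ P) P (inf_le_inf_right _ hAB) inf_le_right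
  rw [inf_relIndex_right, inf_relIndex_right] at h1
  have h2 : B.relIndex P = p :=
    ((Nat.dvd_prime hp).1 ((Dvd.intro_left _ h1).trans hA)).resolve_left
      fun h => hB (relIndex_eq_one.1 h)
  have h3 : A.relIndex P = p := Nat.dvd_antisymm hA (h2 ▸ Dvd.intro_left _ h1)
  rw [h2, h3] at h1
  have h4 := relIndex_eq_one.1 (Nat.eq_of_mul_eq_mul_right hp.pos (h1.trans (one_mul p).symm))
  rw [inf_comm]
  exact h4.trans inf_le_left

/-- The commutator map `g ↦ ⁅g, x⁆` on `P`. -/
def commHom (P : Subgroup G) [hP : P.Normal] (hc : ⁅P, ⊤⁆ ≤ centralizer (P : Set G)) (x : G) :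
    P →* G := MonoidHom.mk' (fun g => ⁅(g : G), x⁆) fun g h => by
  have h1 := mem_centralizer_iff.1 (hc (commutator_mem_commutator h.2 (mem_top x)))
  have h2 : ⁅(g : G), x⁆ ∈ P := by
    rw [commutatorElement_def, mul_assoc, mul_assoc, ← mul_assoc x]
    exact mul_mem g.2 (hP.conj_mem _ (inv_mem g.2) x)
  calc ⁅((g * h : P) : G), x⁆ = g * ⁅(h : G), x⁆ * ((g : G)⁻¹ * ⁅(g : G), x⁆) := by
        simp only [coe_mul, commutatorElement_def]; group
    _ = _ := by rw [mul_assoc, ← h1 _ (mul_mem (inv_mem g.2) h2), ← mul_assoc, mul_inv_cancel_left]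

theorem card_range_commHom (P : Subgroup G) [P.Normal] (hc : ⁅P, ⊤⁆ ≤ centralizer (P : Set G))
    (x : G) : Nat.card (commHom P hc x).range = (centralizer {x}).relIndex P := by
  rw [← index_ker]
  congr 1
  ext g
  exact commutatorElement_eq_one_iff_mul_comm.trans mem_cent.symm

theorem relIndex_or_card [Finite G] (hp : p.Prime) (P : Subgroup G) [hP : P.Normal]
    (hc : ⁅P, ⊤⁆ ≤ centralizer (P : Set G)) (h : ∀ x : G, (centralizer {x}).relIndex P ∣ p) :
    (center G).relIndex P ∣ p ∨ Nat.card (⁅P, ⊤⁆ : Subgroup G) ∣ p := by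
  have hb : ∀ x, Nat.card (commHom P hc x).range ∣ p := fun x => card_range_commHom P hc x ▸ h x
  have pair : ∀ x y : G, ¬ P ⊓ centralizer {x} ≤ centralizer {y} →
      ¬ P ⊓ centralizer {y} ≤ centralizer {x} → (commHom P hc x).range = (commHom P hc y).range := by
    intro x y hxy hyx
    obtain ⟨g, ⟨hgP, hgy⟩, hgx⟩ := SetLike.not_le_iff_exists.1 hyx
    obtain ⟨k, ⟨hkP, hkx⟩, hky⟩ := SetLike.not_le_iff_exists.1 hxy
    have h1 : ⁅g, x * y⁆ = ⁅g, x⁆ := by
      have := mem_cent'.1 hgy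
      calc ⁅g, x * y⁆ = ⁅g, x⁆ * x * (g * y * g⁻¹) * y⁻¹ * x⁻¹ := by
            simp only [commutatorElement_def]; group
        _ = _ := by rw [this]; group
    have h2 : ⁅y⁻¹ * k * y, x * y⁆ = ⁅y⁻¹ * k * y, y⁆ := by
      have := mem_cent'.1 (mem_cent_symm.1 (inv_mem hkx))
      calc ⁅y⁻¹ * k * y, x * y⁆ = y⁻¹ * k * y * (x * k⁻¹ * x⁻¹) := by
            simp only [commutatorElement_def]; group
        _ = _ := by rw [this]; simp only [commutatorElement_def]; group
    have h3 : ⁅g, x⁆ ≠ 1 := fun e => hgx (mem_cent.2 (commutatorElement_eq_one_iff_mul_comm.1 e))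
    have h4 : ⁅y⁻¹ * k * y, y⁆ ≠ 1 := fun e => hky (by
      have := commutatorElement_eq_one_iff_mul_comm.1 e
      rw [mem_cent]
      calc k * y = y * (y⁻¹ * k * y * y) * y⁻¹ := by group
        _ = _ := by rw [this]; group)
    have h5 : y⁻¹ * k * y ∈ P := hP.conj_mem' _ hkP y
    rw [eq_zpowers_of_card_dvd hp (hb x) ⟨⟨g, hgP⟩, rfl⟩ h3,
      eq_zpowers_of_card_dvd hp (hb y) ⟨⟨_, h5⟩, rfl⟩ h4]
    exact (eq_zpowers_of_card_dvd hp (hb (x * y)) ⟨⟨g, hgP⟩, h1⟩ h3).symm.trans
      (eq_zpowers_of_card_dvd hp (hb (x * y)) ⟨⟨_, h5⟩, h2⟩ h4)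
  have symm : ∀ x y : G, ¬ P ≤ centralizer {y} → P ⊓ centralizer {x} ≤ centralizer {y} →
      P ⊓ centralizer {y} ≤ centralizer {x} := fun x y hy hxy => by
    have h1 := eq_of_relIndex_dvd hp (A := P ⊓ centralizer {x}) (B := centralizer {y}) (P := P)
      (by rw [inf_relIndex_left]; exact h x) hxy hy
    exact h1.trans inf_le_right
  by_cases h0 : P ≤ center G
  · exact Or.inl (relIndex_eq_one.2 h0 ▸ one_dvd p)
  obtain ⟨x, hx⟩ : ∃ x : G, ¬ P ≤ centralizer {x} := by
    by_contra! h1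
    exact h0 fun g hg => Subgroup.mem_center_iff.2 fun x => (mem_cent.1 (h1 x hg)).symm
  by_cases h1 : ∀ y : G, P ⊓ centralizer {x} ≤ centralizer {y}
  · left
    have : center G ⊓ P = centralizer {x} ⊓ P := le_antisymm (inf_le_inf_right _ (center_le_cent x))
      fun g hg => ⟨Subgroup.mem_center_iff.2 fun y => (mem_cent.1 (h1 y ⟨hg.2, hg.1⟩)).symm, hg.2⟩
    rw [← inf_relIndex_right, this, inf_relIndex_right]
    exact h x
  right
  push Not at h1
  obtain ⟨y, hxy⟩ := h1
  have hy : ¬ P ≤ centralizer {y} := fun e => hxy (inf_le_left.trans e)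
  have hyx : ¬ P ⊓ centralizer {y} ≤ centralizer {x} := fun e => hxy (symm y x hx e)
  refine (card_dvd_of_le (commutator_le.2 fun g hg l _ => ?_)).trans (hb x)
  by_cases hl : P ≤ centralizer {l}
  · rw [commutatorElement_eq_one_iff_mul_comm.2 (mem_cent.1 (hl hg))]
    exact one_mem _
  have hgl : ⁅g, l⁆ ∈ (commHom P hc l).range := ⟨⟨g, hg⟩, rfl⟩
  by_cases h2 : P ⊓ centralizer {l} ≤ centralizer {x}
  · have h3 : ¬ P ⊓ centralizer {l} ≤ centralizer {y} := fun e =>
      hxy ((le_inf inf_le_left (symm l x hx h2)).trans e)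
    rw [pair x y hxy hyx, ← pair l y h3 fun e => h3 (symm y l hl e)]
    exact hgl
  · rw [← pair l x h2 fun e => h2 (symm x l hl e)]
    exact hgl

/-- Knoche: a `p`-group of breadth at most one has derived subgroup of order dividing `p`. -/
theorem knoche [Finite G] [hp : Fact p.Prime] (hG : IsPGroup p G) (h : ∀ x : G, cidx x ∣ p) :
    Nat.card (commutator G) ∣ p := by
  have hc : commutator G ≤ center G := fun g hg => Subgroup.mem_center_iff.2 fun x => by
    rcases (Nat.dvd_prime hp.out).1 (h x) with h1 | h1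
    · exact (Subgroup.mem_center_iff.1 (cidx_eq_one_iff.1 h1) g).symm
    · exact (mem_cent.1 (PG.commutator_le_of_index_prime hG h1 hg)).symm
  rcases relIndex_or_card hp.out (⊤ : Subgroup G) (by rw [coe_top, centralizer_univ]; exact hc)
    (fun x => by rw [relIndex_top_right]; exact h x) with h1 | h1
  · rw [relIndex_top_right] at h1
    have : IsCyclic (G ⧸ center G) := isCyclic_of_card_dvd_prime h1
    have h2 := ((QuotientGroup.mk' (center G)).isMulCommutative_of_isCyclic_of_ker_le_center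
      (by rw [QuotientGroup.ker_mk'])).is_comm.comm
    have h3 : commutator G = ⊥ := by
      rw [commutator_eq_bot_iff_center_eq_top, eq_top_iff]
      exact fun g _ => Subgroup.mem_center_iff.2 fun x => h2 x g
    rw [h3, card_bot]
    exact one_dvd p
  · exact h1

end Cfsg.Agent.FG.Breadth
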