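import Mathlib

/-! Euler characteristic of a finite family in a partial order, and an orbit counting lemma. -/

set_option autoImplicit false

namespace Cfsg.Agent.FG.Eul

open Finset

variable {α : Type*} [PartialOrder α]

open Classical in
/-- The Euler characteristic of the order complex of the finite family `X`. -/
noncomputable def chi (X : Finset α) : ℤ :=
  ∑ x ∈ X.attach, (1 - chi (X.filter (x.1 < ·)))
termination_by X.card
decreasing_by
  exact card_lt_card (filter_ssubset.2 ⟨x.1, x.2, lt_irrefl _⟩)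

open Classical in
theorem chi_eq (X : Finset α) : chi X = ∑ x ∈ X, (1 - chi (X.filter (x < ·))) := by
  rw [chi, sum_attach X fun x => (1 - chi (X.filter (x < ·)))]

theorem chi_empty : chi (∅ : Finset α) = 0 := by rw [chi_eq, sum_empty]

open Classical in
theorem chi_filter_lt (X : Finset α) (m : α) :
    chi (X.filter (m < ·)) = ∑ x ∈ X.filter (m < ·), (1 - chi (X.filter (x < ·))) := by
  rw [chi_eq]
  refine sum_congr rfl fun x hx => ?_
  rw [filter_filter]
  congr 2
  exact filter_congr fun y _ => ⟨fun h => h.2, fun h => ⟨(mem_filter.1 hx).2.trans h, h⟩⟩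

open Classical in
theorem sum_filter_le {X : Finset α} {m : α} (hm : m ∈ X) :
    ∑ x ∈ X.filter (m ≤ ·), (1 - chi (X.filter (x < ·))) = 1 := by
  have : X.filter (m ≤ ·) = insert m (X.filter (m < ·)) := by
    ext y
    simp only [mem_filter, mem_insert]
    constructor
    · exact fun h => h.2.eq_or_lt.imp Eq.symm fun h' => ⟨h.1, h'⟩
    · rintro (rfl | h)
      exacts [⟨hm, le_rfl⟩, ⟨h.1, h.2.le⟩]
  rw [this, sum_insert (by simp), ← chi_filter_lt]
  ring

theorem chi_of_min {X : Finset α} {m : α} (hm : m ∈ X) (h : ∀ x ∈ X, m ≤ x) : chi X = 1 := by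
  classical
  have := sum_filter_le hm
  rw [filter_true_of_mem h] at this
  rw [chi_eq]
  convert this

open Classical in
theorem eq_of_sum_filter_le {X : Finset α} (ν : α → ℤ)
    (h : ∀ m ∈ X, ∑ x ∈ X.filter (m ≤ ·), ν x = 1) {m : α} (hm : m ∈ X) :
    ν m = 1 - chi (X.filter (m < ·)) := by
  induction hn : (X.filter (m < ·)).card using Nat.strong_induction_on generalizing m with
  | _ n ih =>
  have h1 : X.filter (m ≤ ·) = insert m (X.filter (m < ·)) := by
    ext y
    simp only [mem_filter, mem_insert]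
    constructor
    · exact fun h => h.2.eq_or_lt.imp Eq.symm fun h' => ⟨h.1, h'⟩
    · rintro (rfl | h)
      exacts [⟨hm, le_rfl⟩, ⟨h.1, h.2.le⟩]
  have h2 := h m hm
  rw [h1, sum_insert (by simp)] at h2
  rw [chi_filter_lt, eq_sub_iff_add_eq]
  refine Eq.trans ?_ h2
  congr 1
  refine sum_congr rfl fun x hx => Eq.symm ?_
  · refine ih _ (hn ▸ card_lt_card ?_) (mem_filter.1 hx).1 rfl
    refine ssubset_iff_of_subset (fun y hy => ?_) |>.2 ⟨x, hx, by simp⟩
    exact mem_filter.2 ⟨(mem_filter.1 hy).1, (mem_filter.1 hx).2.trans (mem_filter.1 hy).2⟩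

/-- A deflating retraction does not change the Euler characteristic. -/
theorem chi_eq_of_retract {X Y : Finset α} (f : α → α) (hf : ∀ x ∈ X, f x ∈ Y) (hY : Y ⊆ X)
    (h : ∀ x ∈ X, ∀ y ∈ Y, y ≤ f x ↔ y ≤ x) : chi X = chi Y := by
  classical
  let ν : α → ℤ := fun y => ∑ x ∈ X.filter (f · = y), (1 - chi (X.filter (x < ·)))
  have h1 : ∀ m ∈ Y, ∑ y ∈ Y.filter (m ≤ ·), ν y = 1 := by
    intro m hm
    rw [← sum_filter_le (hY hm), ← sum_fiberwise_of_maps_to (s := X.filter (m ≤ ·))
      (t := Y.filter (m ≤ ·)) (g := f) fun x hx => mem_filter.2 ⟨hf x (mem_filter.1 hx).1,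
        (h x (mem_filter.1 hx).1 m hm).2 (mem_filter.1 hx).2⟩]
    refine sum_congr rfl fun y hy => ?_
    rw [filter_filter]
    refine sum_congr (filter_congr fun x hx => ⟨fun e => ⟨?_, e⟩, fun e => e.2⟩) fun _ _ => rfl
    exact (h x hx m hm).1 (e ▸ (mem_filter.1 hy).2)
  rw [chi_eq Y, ← sum_congr rfl fun y hy => eq_of_sum_filter_le ν h1 hy, chi_eq X,
    ← sum_fiberwise_of_maps_to hf]

/-- Counting group elements by the point to which they move `x`. -/
theorem card_smul_pred {G X : Type*} [Group G] [MulAction G X] (x : X) (p : X → Prop) :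
    Nat.card {g : G // p (g • x)} =
      Nat.card {y : X // y ∈ MulAction.orbit G x ∧ p y} * Nat.card (MulAction.stabilizer G x) := by
  rw [← Nat.card_prod]
  have hc : ∀ y : {y : X // y ∈ MulAction.orbit G x ∧ p y}, ∃ g : G, g • x = y := fun y => y.2.1
  choose c hc using hc
  refine (Nat.card_congr (Equiv.ofBijective (fun a : _ × MulAction.stabilizer G x =>
    (⟨c a.1 * a.2, by rw [mul_smul, a.2.2, hc]; exact a.1.2.2⟩ : {g : G // p (g • x)}))
    ⟨?_, ?_⟩)).symm
  · rintro ⟨y, s⟩ ⟨z, t⟩ h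
    have h1 : c y * s = c z * t := congrArg Subtype.val h
    have h2 : y = z := Subtype.ext (by
      have := congrArg (· • x) h1
      simpa only [mul_smul, show (s : G) • x = x from s.2, show (t : G) • x = x from t.2, hc]
        using this)
    subst h2
    rw [Subtype.ext (mul_left_cancel h1)]
  · rintro ⟨g, hg⟩
    refine ⟨⟨⟨g • x, ⟨g, rfl⟩, hg⟩, ⟨(c ⟨g • x, ⟨g, rfl⟩, hg⟩)⁻¹ * g, ?_⟩⟩, by simp⟩
    rw [MulAction.mem_stabilizer_iff, mul_smul, inv_smul_eq_iff, hc]

end Cfsg.Agent.FG.Eul
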