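import Mathlib
import Cfsg.Agent.Cl.LinearSylow
import Cfsg.Agent.GT.PGroupFrattini
import Cfsg.Agent.GT.PGroupElemAb
import Cfsg.Agent.GT.MinNormal
import Cfsg.Agent.GT.ThompsonComm
import Cfsg.Agent.GT.HallTools

/-!
Patterson's bound: a `p`-subgroup of `GL(n, p)` is generated by `n ^ 2 / 4` elements
(weight filtration and Mantel's theorem), and the generator bound for `p`-central groups.
-/

set_option autoImplicit false

namespace Cfsg.Agent.FG.H94Patt

open Cfsg Subgroup Cfsg.Agent.GT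
open scoped commutatorElement

section fil

variable {n : ℕ} {R : Type*} [CommRing R]

/-- Matrices whose non-zero entries have weight at least `s`. -/
def Fil (s : ℕ) (M : Matrix (Fin n) (Fin n) R) : Prop :=
  ∀ i j, M i j ≠ 0 → 2 ^ (i : ℕ) + s ≤ 2 ^ (j : ℕ)

variable {s t : ℕ} {M N : Matrix (Fin n) (Fin n) R}

theorem Fil.mono (h : Fil s M) (hts : t ≤ s) : Fil t M := fun i j e => by
  have := h i j e
  omega

theorem exists_mul_ne {i k : Fin n} (h : (M * N) i k ≠ 0) : ∃ j, M i j ≠ 0 ∧ N j k ≠ 0 := by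
  rw [Matrix.mul_apply] at h
  obtain ⟨j, -, hj⟩ := Finset.exists_ne_zero_of_sum_ne_zero h
  exact ⟨j, left_ne_zero_of_mul hj, right_ne_zero_of_mul hj⟩

theorem Fil.mul (h : Fil s M) (h' : Fil t N) : Fil (s + t) (M * N) := fun i k e => by
  obtain ⟨j, h1, h2⟩ := exists_mul_ne e
  have := h i j h1
  have := h' j k h2
  omega

theorem Fil.add (h : Fil s M) (h' : Fil s N) : Fil s (M + N) := fun i j e => by
  by_cases h1 : M i j = 0
  · exact h' i j fun h2 => e (by rw [Matrix.add_apply, h1, h2, add_zero])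
  · exact h i j h1

theorem Fil.neg (h : Fil s M) : Fil s (-M) := fun i j e =>
  h i j fun h1 => e (by rw [Matrix.neg_apply, h1, neg_zero])

theorem Fil.sub (h : Fil s M) (h' : Fil s N) : Fil s (M - N) := by
  rw [sub_eq_add_neg]
  exact h.add h'.neg

theorem Fil.zero : Fil s (0 : Matrix (Fin n) (Fin n) R) := fun _ _ e => absurd rfl e

theorem Fil.eq_zero (h : Fil s M) {i j : Fin n} (hij : 2 ^ (j : ℕ) < 2 ^ (i : ℕ) + s) :
    M i j = 0 := by_contra fun e => by
  have := h i j e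
  omega

theorem wt_aux {i j k l s : ℕ} (h1 : 2 ^ i + s = 2 ^ j) (h2 : 2 ^ k + s = 2 ^ l) (hs : 0 < s) :
    l ≤ j := by
  by_contra h
  have hk : k < l := (Nat.pow_lt_pow_iff_right (a := 2) (by norm_num)).1 (by omega)
  obtain ⟨m, rfl⟩ : ∃ m, l = m + 1 := ⟨l - 1, by omega⟩
  have h3 : 2 ^ j ≤ 2 ^ m := Nat.pow_le_pow_right (by norm_num) (by omega)
  have h4 : 2 ^ k ≤ 2 ^ m := Nat.pow_le_pow_right (by norm_num) (by omega)
  have h5 : 0 < 2 ^ i := by positivity
  rw [pow_succ] at h2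
  omega

theorem wt_unique {i j k l : Fin n} {s : ℕ} (h1 : 2 ^ (i : ℕ) + s = 2 ^ (j : ℕ))
    (h2 : 2 ^ (k : ℕ) + s = 2 ^ (l : ℕ)) (hs : 0 < s) : i = k ∧ j = l := by
  have h3 : (j : ℕ) = l := le_antisymm (wt_aux h2 h1 hs) (wt_aux h1 h2 hs)
  refine ⟨Fin.ext (Nat.pow_right_injective (le_refl 2) ?_), Fin.ext h3⟩
  change 2 ^ (i : ℕ) = 2 ^ (k : ℕ)
  rw [h3] at h1
  omega

end fil

section patt

variable {n p : ℕ} [hp : Fact p.Prime] {Q : Type*} [Group Q]
  (φ : Q →* Matrix (Fin n) (Fin n) (ZMod p))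

/-- Level of a group element. -/
def Lv (s : ℕ) (g : Q) : Prop := Fil s (φ g - 1)

/-- Leading positions of elements of `K`. -/
def Ld (K : Subgroup Q) (i j : Fin n) : Prop :=
  ∃ s, 0 < s ∧ 2 ^ (i : ℕ) + s = 2 ^ (j : ℕ) ∧ ∃ g ∈ K, Lv φ s g ∧ (φ g - 1) i j ≠ 0

variable {φ}

theorem mul_sub (g h : Q) : φ (g * h) - 1 = (φ g - 1) + (φ h - 1) + (φ g - 1) * (φ h - 1) := by
  rw [map_mul]
  noncomm_ring

theorem Lv.mul {s : ℕ} {g h : Q} (hg : Lv φ s g) (hh : Lv φ s h) : Lv φ s (g * h) := by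
  unfold Lv
  rw [mul_sub]
  exact (Fil.add hg hh).add ((Fil.mul hg hh).mono (by omega))

theorem Lv.mul_apply {s : ℕ} {g h : Q} (hg : Lv φ s g) (hh : Lv φ s h) {i j : Fin n} (hs : 0 < s)
    (hij : 2 ^ (i : ℕ) + s = 2 ^ (j : ℕ)) :
    (φ (g * h) - 1) i j = (φ g - 1) i j + (φ h - 1) i j := by
  rw [mul_sub, Matrix.add_apply, Matrix.add_apply, (Fil.mul hg hh).eq_zero (by omega), add_zero]

theorem Lv.pow {s : ℕ} {g : Q} (hg : Lv φ s g) {i j : Fin n} (hs : 0 < s)
    (hij : 2 ^ (i : ℕ) + s = 2 ^ (j : ℕ)) (m : ℕ) :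
    Lv φ s (g ^ m) ∧ (φ (g ^ m) - 1) i j = m * (φ g - 1) i j := by
  induction m with
  | zero => exact ⟨by unfold Lv; simpa using Fil.zero, by simp⟩
  | succ m ih =>
    rw [pow_succ]
    exact ⟨ih.1.mul hg, by rw [ih.1.mul_apply hg hs hij, ih.2]; push_cast; ring⟩

theorem Ld.lt {K : Subgroup Q} {i j : Fin n} (h : Ld φ K i j) : i < j := by
  obtain ⟨s, hs, h, -⟩ := h
  exact (Nat.pow_lt_pow_iff_right (a := 2) (by norm_num)).1 (by omega)

theorem Ld.mono {K L : Subgroup Q} {i j : Fin n} (h : Ld φ K i j) (hKL : K ≤ L) : Ld φ L i j :=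
  let ⟨s, hs, h, g, hg, h'⟩ := h
  ⟨s, hs, h, g, hKL hg, h'⟩

variable (h1 : ∀ g, Lv φ 1 g)
include h1

theorem Ld.comm {i j k : Fin n} (hij : Ld φ ⊤ i j) (hjk : Ld φ ⊤ j k) :
    Ld φ (commutator Q) i k := by
  have hlt := hij.lt
  obtain ⟨s, hs, hij, g, -, hg, hg'⟩ := hij
  obtain ⟨t, ht, hjk, h, -, hh, hh'⟩ := hjk
  have e : φ ⁅g, h⁆ - 1 = ((φ g - 1) * (φ h - 1) - (φ h - 1) * (φ g - 1)) +
      ((φ g - 1) * (φ h - 1) - (φ h - 1) * (φ g - 1)) * (φ (g⁻¹ * h⁻¹) - 1) := by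
    have e1 : φ h * φ g * φ (g⁻¹ * h⁻¹) = 1 := by
      rw [← map_mul, ← map_mul, ← map_one φ]
      congr 1
      group
    have e2 : φ ⁅g, h⁆ = φ g * φ h * φ (g⁻¹ * h⁻¹) := by
      rw [← map_mul, ← map_mul, commutatorElement_def, mul_assoc]
    rw [e2]
    conv_lhs => rw [← e1]
    noncomm_ring
  have hA : Fil (s + t) ((φ g - 1) * (φ h - 1) - (φ h - 1) * (φ g - 1)) :=
    (Fil.mul hg hh).sub ((Fil.mul hh hg).mono (by omega))
  have hB := hA.mul (h1 (g⁻¹ * h⁻¹))
  refine ⟨s + t, by omega, by omega, ⁅g, h⁆, commutator_mem_commutator (mem_top g) (mem_top h),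
    ?_, ?_⟩
  · unfold Lv
    rw [e]
    exact hA.add (hB.mono (by omega))
  · have e3 : ((φ h - 1) * (φ g - 1)) i k = 0 := by_contra fun e => by
      obtain ⟨m, h2, h3⟩ := exists_mul_ne e
      have h4 := hh i m h2
      have h5 := hg m k h3
      exact hlt.ne (wt_unique (show 2 ^ (i : ℕ) + t = 2 ^ (m : ℕ) by omega) hjk ht).1
    have e4 : ((φ g - 1) * (φ h - 1)) i k = (φ g - 1) i j * (φ h - 1) j k := by
      rw [Matrix.mul_apply]
      refine Finset.sum_eq_single j (fun m _ hm => by_contra fun e => ?_) (by simp)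
      have h4 := hg i m (left_ne_zero_of_mul e)
      have h5 := hh m k (right_ne_zero_of_mul e)
      exact hm (wt_unique (show 2 ^ (i : ℕ) + s = 2 ^ (m : ℕ) by omega) hij hs).2
    rw [e, Matrix.add_apply, hB.eq_zero (by omega), add_zero, Matrix.sub_apply, e3, e4, sub_zero]
    exact mul_ne_zero hg' hh'

theorem eq_top_of_ld {K : Subgroup Q} (hK : ∀ g, φ g = 1 → g ∈ K)
    (h : ∀ i j, Ld φ ⊤ i j → Ld φ K i j) : K = ⊤ := by
  have key : ∀ d s, 0 < s → 2 ^ n ≤ s + d → ∀ g, Lv φ s g → g ∈ K := by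
    intro d
    induction d with
    | zero =>
      intro s hs hn g hg
      refine hK g (sub_eq_zero.1 (Matrix.ext fun i j => hg.eq_zero ?_))
      have : 2 ^ (j : ℕ) < 2 ^ n := Nat.pow_lt_pow_right (by norm_num) j.2
      have : 0 < 2 ^ (i : ℕ) := by positivity
      omega
    | succ d ih =>
      intro s hs hn g hg
      by_cases h2 : Lv φ (s + 1) g
      · exact ih (s + 1) (by omega) (by omega) g h2
      obtain ⟨i, j, h3, h4⟩ : ∃ i j, (φ g - 1) i j ≠ 0 ∧ 2 ^ (i : ℕ) + s = 2 ^ (j : ℕ) := by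
        by_contra hc
        refine h2 fun i j e => ?_
        have h5 := hg i j e
        have h6 : 2 ^ (i : ℕ) + s ≠ 2 ^ (j : ℕ) := fun e' => hc ⟨i, j, e, e'⟩
        omega
      obtain ⟨s', -, h5, k, hk, hk1, hk2⟩ := h i j ⟨s, hs, h4, g, mem_top g, hg, h3⟩
      obtain rfl : s = s' := by omega
      obtain ⟨h6, h7⟩ := hk1.pow hs h4 (-(φ g - 1) i j / (φ k - 1) i j).val
      have h8 := hg.mul_apply h6 hs h4
      rw [h7, ZMod.natCast_zmod_val, div_mul_cancel₀ _ hk2, add_neg_cancel] at h8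
      have h9 := ih (s + 1) (by omega) (by omega) _ (show Lv φ (s + 1) (g * k ^ _) from
        fun a b e => by
          have h10 := hg.mul h6 a b e
          have h11 : 2 ^ (a : ℕ) + s ≠ 2 ^ (b : ℕ) := fun e' => by
            obtain ⟨rfl, rfl⟩ := wt_unique e' h4 hs
            exact e h8
          omega)
      exact (K.mul_mem_cancel_right (K.pow_mem hk _)).1 h9
  exact top_unique fun g _ => key (2 ^ n) 1 one_pos (by omega) g (h1 g)

omit h1 in
theorem mantel (E : Finset (Fin n × Fin n)) (hlt : ∀ e ∈ E, e.1 < e.2)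
    (h3 : ∀ i j k, (i, j) ∈ E → (j, k) ∈ E → (i, k) ∉ E) : E.card ≤ n ^ 2 / 4 := by
  classical
  let Γ : SimpleGraph (Fin n) :=
    { Adj := fun i j => (i, j) ∈ E ∨ (j, i) ∈ E
      symm := ⟨fun _ _ h => h.symm⟩
      loopless := ⟨fun i h => by simpa using h.elim (hlt _) (hlt _)⟩ }
  have hΓ : Γ.CliqueFree 3 := fun s hs => by
    obtain ⟨a, b, c, hab, hac, hbc, -⟩ := SimpleGraph.is3Clique_iff.1 hs
    rcases hab with hab | hab <;> rcases hac with hac | hac <;> rcases hbc with hbc | hbc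
    · exact h3 _ _ _ hab hbc hac
    · exact h3 _ _ _ hac hbc hab
    · exact lt_irrefl _ (((hlt _ hab).trans (hlt _ hbc)).trans (hlt _ hac))
    · exact h3 _ _ _ hac hab hbc
    · exact h3 _ _ _ hab hac hbc
    · exact lt_irrefl _ (((hlt _ hac).trans (hlt _ hbc)).trans (hlt _ hab))
    · exact h3 _ _ _ hbc hac hab
    · exact h3 _ _ _ hbc hab hac
  have h4 := hΓ.card_edgeFinset_le (r := 2)
  simp only [Fintype.card_fin] at h4
  have h5 : E.card ≤ Γ.edgeFinset.card := by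
    refine Finset.card_le_card_of_injOn (fun e => s(e.1, e.2)) (fun e he => ?_) fun a ha b hb e => ?_
    · simp only [Finset.mem_coe, SimpleGraph.mem_edgeFinset, SimpleGraph.mem_edgeSet]
      exact Or.inl he
    · rcases Sym2.eq_iff.1 e with h | h
      · exact Prod.ext h.1 h.2
      · have h6 := hlt _ ha
        have h7 := hlt _ hb
        rw [h.1, h.2] at h6
        exact absurd h6 h7.not_gt
  have h6 : (n % 2).choose 2 = 0 := Nat.choose_eq_zero_of_lt (Nat.mod_lt _ two_pos)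
  rw [h6] at h4
  refine h5.trans (h4.trans ?_)
  simp only [Nat.add_one_sub_one, mul_one, add_zero, Nat.reduceMul]
  exact Nat.div_le_div_right (Nat.sub_le _ _)

theorem patterson_aux : ∃ T : Finset Q, T.card ≤ n ^ 2 / 4 ∧ ∀ K : Subgroup Q,
    (T : Set Q) ⊆ K → commutator Q ≤ K → (∀ g, φ g = 1 → g ∈ K) → K = ⊤ := by
  classical
  let E : Finset (Fin n × Fin n) :=
    Finset.univ.filter fun e => Ld φ ⊤ e.1 e.2 ∧ ¬ Ld φ (commutator Q) e.1 e.2
  have hE : ∀ e, e ∈ E ↔ Ld φ ⊤ e.1 e.2 ∧ ¬ Ld φ (commutator Q) e.1 e.2 := fun e => by simp [E]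
  have hc := mantel E (fun e he => ((hE e).1 he).1.lt) fun i j k hij hjk hik =>
    ((hE _).1 hik).2 (Ld.comm h1 ((hE _).1 hij).1 ((hE _).1 hjk).1)
  have hch : ∀ e : Fin n × Fin n, ∃ g : Q, e ∈ E → Ld φ (zpowers g) e.1 e.2 := fun e => by
    by_cases he : e ∈ E
    · obtain ⟨s, hs, h, g, -, h'⟩ := ((hE e).1 he).1
      exact ⟨g, fun _ => ⟨s, hs, h, g, mem_zpowers g, h'⟩⟩
    · exact ⟨1, fun h => absurd h he⟩
  choose f hf using hch
  refine ⟨E.image f, Finset.card_image_le.trans hc, fun K hT hC hK =>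
    eq_top_of_ld h1 hK fun i j hij => ?_⟩
  by_cases h : Ld φ (commutator Q) i j
  · exact h.mono hC
  · have he := (hE (i, j)).2 ⟨hij, h⟩
    exact (hf _ he).mono (zpowers_le.2 (hT (Finset.mem_coe.2 (Finset.mem_image_of_mem f he))))

omit h1 in
/-- Patterson's bound, relative form. -/
theorem patterson [Finite Q] (hQ : IsPGroup p Q) {V : Type*} [AddCommGroup V] [Module (ZMod p) V]
    [Module.Finite (ZMod p) V] (ρ : Q →* Module.End (ZMod p) V) :
    ∃ T : Finset Q, T.card ≤ Module.finrank (ZMod p) V ^ 2 / 4 ∧ ∀ K : Subgroup Q,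
      (T : Set Q) ⊆ K → (∀ g, ρ g = 1 → g ∈ K) → K = ⊤ := by
  classical
  let b := Module.finBasis (ZMod p) V
  let ψ : Q →* GL (Fin (Module.finrank (ZMod p) V)) (ZMod p) :=
    ((LinearMap.toMatrixAlgEquiv b).toMulEquiv.toMonoidHom.comp ρ).toHomUnits
  obtain ⟨u, hu⟩ := Cl.exists_conj_le_unipRad p (b := id) Function.injective_id
    (P := ψ.range) (hQ.of_surjective _ ψ.rangeRestrict_surjective)
  let φ : Q →* Matrix _ _ (ZMod p) :=
    (Units.coeHom _).comp ((MulAut.conj u).toMonoidHom.comp ψ)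
  obtain ⟨T, hT, h⟩ := patterson_aux (φ := φ) fun g i j e => by
    have h2 : ¬ j ≤ i := fun h => e (sub_eq_zero.2 (Cl.mem_unipRad.1 (hu _ ⟨g, rfl⟩) i j h))
    have : 2 ^ (i : ℕ) < 2 ^ (j : ℕ) := Nat.pow_lt_pow_right (by norm_num) (not_le.1 h2)
    omega
  refine ⟨T, hT, fun K hTK hK => frattini_nongenerating (h _ (fun x hx => mem_sup_left (hTK hx))
    ((PG.commutator_le_frattini hQ).trans le_sup_right) fun g hg => mem_sup_left (hK g ?_))⟩
  have h2 : u * ψ g * u⁻¹ = 1 := Units.ext hg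
  have h3 : ψ g = 1 := conj_eq_one_iff.1 h2
  exact (LinearMap.toMatrixAlgEquiv b).injective ((congrArg Units.val h3).trans (map_one _).symm)

end patt

section pcentral

variable {p : ℕ} [hp : Fact p.Prime]

theorem comm_pow (h2 : p ≠ 2) (G : Type*) [Group G] [Finite G] : IsPGroup p G →
    (∀ x : G, x ^ p = 1 → x ∈ center G) → ∀ x h : G, (x ^ p) ^ p = 1 → ⁅h, x⁆ ^ p = 1 := by
  refine card_induction (P := fun G _ _ => IsPGroup p G →
    (∀ x : G, x ^ p = 1 → x ∈ center G) → ∀ x h : G, (x ^ p) ^ p = 1 → ⁅h, x⁆ ^ p = 1) ?_ G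
  intro G _ _ ih hG hc x h hx
  by_cases hN : normalClosure ({x} : Set G) = ⊤
  · have := PG.normal_of_frattini_le hG (N := zpowers x ⊔ frattini G) le_sup_right
    have := PG.isCyclic_of_sup_frattini (x := x) (top_unique (hN.ge.trans
      (normalClosure_le_normal (by simpa using mem_sup_left (mem_zpowers x)))))
    rw [commutatorElement_eq_one_iff_mul_comm.2 (mul_comm' h x), one_pow]
  set N := normalClosure ({x} : Set G)
  have hxN : x ∈ N := subset_normalClosure rfl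
  have hy : h * x * h⁻¹ ∈ N := (inferInstance : N.Normal).conj_mem x hxN h
  have h3 := ih N (HT.card_lt_of_ne_top hN) (hG.to_subgroup N)
    (fun a ha => mem_center_iff.2 fun b => Subtype.ext
      (mem_center_iff.1 (hc a (congrArg Subtype.val ha)) b))
    ⟨_, hy⟩ ⟨x⁻¹, inv_mem hxN⟩ (Subtype.ext (by simp [conj_pow, hx]))
  have h4 := mem_center_iff.1 (hc ⁅x⁻¹, h * x * h⁻¹⁆ (congrArg Subtype.val h3))
  have h5 := mem_center_iff.1 (hc _ hx)
  rw [commutatorElement_def, th_mul_pow_odd (hp.out.odd_of_ne_two h2) (h4 _).symm (h4 _).symm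
    (by rw [inv_pow]; exact (show Commute (x ^ p) _ from (h5 _).symm).inv_left), conj_pow, h5,
    inv_pow]
  group

theorem index_frattini_le (h2 : p ≠ 2) (G : Type*) [Group G] [Finite G] : IsPGroup p G →
    (∀ x : G, x ^ p = 1 → x ∈ center G) → (frattini G).index ≤ Nat.card {x : G // x ^ p = 1} := by
  refine card_induction (P := fun G _ _ => IsPGroup p G →
    (∀ x : G, x ^ p = 1 → x ∈ center G) → (frattini G).index ≤ Nat.card {x : G // x ^ p = 1}) ?_ G
  intro G _ _ ih hG hc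
  let W := PG.torsionOf p (center G) inferInstance
  have hW : ∀ x, x ∈ W ↔ x ^ p = 1 := fun x => ⟨fun h => h.2, fun h => ⟨hc x h, h⟩⟩
  have hWc : Nat.card W = Nat.card {x : G // x ^ p = 1} :=
    Nat.card_congr (Equiv.subtypeEquivRight hW)
  have hWn : W.Normal := ⟨fun a ha g => by
    rw [mem_center_iff.1 ha.1 g, mul_inv_cancel_right]; exact ha⟩
  rw [← hWc]
  by_cases h0 : W = ⊥
  · have : Subsingleton G := by
      by_contra hn
      rw [not_subsingleton_iff_nontrivial] at hn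
      obtain ⟨k, hk0, hk⟩ := hG.nontrivial_iff_card.1 hn
      obtain ⟨x, hx⟩ := exists_prime_orderOf_dvd_card' (G := G) p (hk ▸ dvd_pow_self p hk0.ne')
      have h3 : x = 1 := mem_bot.1 (h0 ▸ (hW x).2 (hx ▸ pow_orderOf_eq_one x))
      rw [h3, orderOf_one] at hx
      exact hp.out.one_lt.ne hx
    rw [Subsingleton.elim (frattini G) ⊤, index_top]
    exact Nat.card_pos
  have hq : ∀ x : G, ((x : G ⧸ W) ^ p = 1) ↔ (x ^ p) ^ p = 1 := fun x => by
    rw [← QuotientGroup.mk_pow, QuotientGroup.eq_one_iff, hW]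
  have h3 := ih (G ⧸ W) (HT.card_quotient_lt W h0) (hG.to_quotient W) fun x hx => by
    obtain ⟨x, rfl⟩ := QuotientGroup.mk_surjective x
    refine mem_center_iff.2 fun g => ?_
    obtain ⟨g, rfl⟩ := QuotientGroup.mk_surjective g
    rw [← commutatorElement_eq_one_iff_mul_comm]
    exact (QuotientGroup.eq_one_iff ⁅g, x⁆).2 ((hW _).2 (comm_pow h2 G hG hc x g ((hq x).1 hx)))
  have h4 : Nat.card {x : G ⧸ W // x ^ p = 1} ≤ Nat.card ↥(frattini G ⊓ W) := by
    have aux : ∀ x : {x : G ⧸ W // x ^ p = 1}, (x.1.out ^ p) ^ p = 1 := fun x =>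
      (hq _).1 (by rw [QuotientGroup.out_eq']; exact x.2)
    refine Nat.card_le_card_of_injective (fun x => ⟨x.1.out ^ p,
      PG.pow_mem_frattini hG _, (hW _).2 (aux x)⟩) fun a b hab => Subtype.ext ?_
    have h5 : a.1.out ^ p = b.1.out ^ p := congrArg Subtype.val hab
    rw [← QuotientGroup.out_eq' a.1, ← QuotientGroup.out_eq' b.1, QuotientGroup.eq, hW]
    have h6 := mem_center_iff.1 (hc _ (comm_pow h2 G hG hc (a.1.out)⁻¹ b.1.out
      (by rw [inv_pow, inv_pow, aux a, inv_one])))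
    rw [th_mul_pow_odd (hp.out.odd_of_ne_two h2) (h6 _).symm (h6 _).symm
      (mem_center_iff.1 (hc _ (aux b)) _).symm, inv_pow, h5, inv_mul_cancel]
  rw [PG.frattini_quotient hG, index_map, QuotientGroup.ker_mk',
    MonoidHom.range_eq_top_of_surjective _ (QuotientGroup.mk'_surjective W), index_top,
    mul_one] at h3
  rw [← relIndex_mul_index (le_sup_left : frattini G ≤ frattini G ⊔ W), relIndex_sup_left,
    ← HT.card_inf_mul_relIndex (frattini G) W, mul_comm]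
  exact Nat.mul_le_mul_right _ (h3.trans h4)

end pcentral

end Cfsg.Agent.FG.H94Patt
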