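import Mathlib
import Cfsg.Agent.GT.PiGroups
import Cfsg.Agent.GT.Conj
import Cfsg.Agent.FG.ClassCount
import Cfsg.Agent.FG.ClassIdx
import Cfsg.Agent.Ch.PiPart

/-! Counting conjugacy classes of `π`-elements. -/

set_option autoImplicit false

namespace Cfsg.Agent.FG.PiCl

open Subgroup Cfsg.Agent.GT Cfsg.Agent.FG.CI

variable {G : Type*} [Group G]

/-- The conjugacy classes of `π`-elements. -/
abbrev PiClass (π : Set ℕ) (G : Type*) [Group G] :=
  {C : ConjClasses G // ∀ q : ℕ, q.Prime → (∃ g : G, ConjClasses.mk g = C ∧ q ∣ orderOf g) → q ∈ π}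

theorem mk_pi_iff {π : Set ℕ} {x : G} :
    (∀ q : ℕ, q.Prime → (∃ g : G, ConjClasses.mk g = ConjClasses.mk x ∧ q ∣ orderOf g) → q ∈ π) ↔
      IsPiNum π (orderOf x) := by
  constructor
  · exact fun h q hq hd => h q hq ⟨x, rfl, hd⟩
  · rintro h q hq ⟨g, hg, hd⟩
    obtain ⟨c, rfl⟩ := isConj_iff.1 (ConjClasses.mk_eq_mk_iff_isConj.1 hg)
    rw [orderOf_conj] at h
    exact h q hq hd

/-- The sum of the centralizer orders over a set of classes. -/
theorem sum_card_centralizer_filter [Fintype G] (S : ConjClasses G → Prop)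
    [DecidablePred fun g : G => S (ConjClasses.mk g)] :
    ∑ g ∈ Finset.univ.filter (fun g : G => S (ConjClasses.mk g)),
      Nat.card (centralizer ({g} : Set G)) = Nat.card {C // S C} * Nat.card G := by
  classical
  have := Fintype.ofFinite (ConjClasses G)
  rw [← Finset.sum_fiberwise_of_maps_to (t := Finset.univ.filter S) (g := ConjClasses.mk)
    (fun g hg => by simpa using hg), Nat.card_eq_fintype_card (α := {C // S C}),
    Fintype.card_subtype, ← smul_eq_mul, ← Finset.sum_const]
  refine Finset.sum_congr rfl fun C hC => ?_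
  obtain ⟨x, rfl⟩ := ConjClasses.mk_surjective C
  have hx : S (ConjClasses.mk x) := by simpa using hC
  rw [Finset.sum_congr rfl (g := fun _ => Nat.card (centralizer ({x} : Set G))), Finset.sum_const,
    smul_eq_mul, ← card_cent_mul_cidx x, mul_comm]
  · congr 1
    rw [cidx, ← ncard_isConj_eq_index, ← Set.ncard_coe_finset]
    congr 1
    ext g
    simp only [Finset.coe_filter, Finset.mem_filter, Finset.mem_univ, true_and, Set.mem_ofPred_eq,
      ConjClasses.mk_eq_mk_iff_isConj]
    exact ⟨fun h => h.2.symm, fun h => ⟨by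
      rwa [← ConjClasses.mk_eq_mk_iff_isConj.2 h], h.symm⟩⟩
  · intro g hg
    simp only [Finset.mem_filter, ConjClasses.mk_eq_mk_iff_isConj] at hg
    obtain ⟨c, rfl⟩ := isConj_iff.1 hg.2
    exact (card_cent_conj g c).symm

theorem sum_card_centralizer_pi [Fintype G] (π : Set ℕ)
    [DecidablePred fun g : G => IsPiNum π (orderOf g)] :
    ∑ g ∈ Finset.univ.filter (fun g : G => IsPiNum π (orderOf g)),
      Nat.card (centralizer ({g} : Set G)) = Nat.card (PiClass π G) * Nat.card G := by
  classical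
  rw [← sum_card_centralizer_filter]
  refine Finset.sum_congr ?_ fun _ _ => rfl
  ext g
  simp only [Finset.mem_filter, Finset.mem_univ, true_and]
  exact mk_pi_iff.symm

theorem pi_parts_unique {π : Set ℕ} {u v u' v' : G} (h : Commute u v) (h' : Commute u' v')
    (hu : IsPiNum π (orderOf u)) (hv : IsPiNum πᶜ (orderOf v)) (hu' : IsPiNum π (orderOf u'))
    (hv' : IsPiNum πᶜ (orderOf v')) (e : u * v = u' * v') : u = u' ∧ v = v' :=
  Ch.coprime_parts_unique_orderOf h h' (hu.coprime hv) (hu.coprime hv') (hu'.coprime hv)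
    (hu'.coprime hv') e

/-- In a coset of `N`, commuting pairs of a `π`-element of the coset and an element of `N`. -/
theorem sum_coset_le [Fintype G] (π : Set ℕ) (N : Subgroup G) [N.Normal] (a : G ⧸ N)
    [DecidablePred fun g : G => IsPiNum π (orderOf g) ∧ (g : G ⧸ N) = a] :
    ∑ w ∈ Finset.univ.filter (fun g : G => IsPiNum π (orderOf g) ∧ (g : G ⧸ N) = a),
      Nat.card ↥(N ⊓ centralizer ({w} : Set G)) ≤ Nat.card (PiClass π N) * Nat.card N := by
  classical
  rw [← sum_card_centralizer_pi]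
  let B := Σ w : {g : G // IsPiNum π (orderOf g) ∧ (g : G ⧸ N) = a},
    ↥(N ⊓ centralizer ({(w : G)} : Set G))
  let A := Σ x : {x : N // IsPiNum π (orderOf x)},
    {y : G // (y : G ⧸ N) = a ∧ y ∈ centralizer ({((x : N) : G)} : Set G)}
  have hB : Nat.card B = ∑ w ∈ Finset.univ.filter
      (fun g : G => IsPiNum π (orderOf g) ∧ (g : G ⧸ N) = a),
      Nat.card ↥(N ⊓ centralizer ({w} : Set G)) := by
    rw [Nat.card_sigma]
    exact (Finset.sum_subtype (p := fun g : G => IsPiNum π (orderOf g) ∧ (g : G ⧸ N) = a) _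
      (by simp) fun w => Nat.card ↥(N ⊓ centralizer ({w} : Set G))).symm
  have hA : Nat.card A ≤ ∑ g ∈ Finset.univ.filter (fun g : N => IsPiNum π (orderOf g)),
      Nat.card (centralizer ({g} : Set N)) := by
    rw [Nat.card_sigma, Finset.sum_subtype (p := fun g : N => IsPiNum π (orderOf g)) _ (by simp)]
    refine Finset.sum_le_sum fun x _ => ?_
    rcases isEmpty_or_nonempty {y : G // (y : G ⧸ N) = a ∧
      y ∈ centralizer ({((x : N) : G)} : Set G)} with h | ⟨⟨y, hy⟩⟩
    · simp
    · rw [card_centralizer_coe]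
      refine Nat.card_le_card_of_injective (fun z => ⟨y⁻¹ * z, QuotientGroup.eq.1
        (hy.1.trans z.2.1.symm), Subgroup.mul_mem _ (Subgroup.inv_mem _ hy.2) z.2.2⟩) fun z z' h => ?_
      exact Subtype.ext (mul_left_cancel (congrArg Subtype.val h))
  rw [← hB]
  refine le_trans ?_ hA
  choose u v hu hv hu1 hv1 huv he using fun n : G => exists_piPart_elem π n
  have hN : ∀ b : B, ∀ y ∈ zpowers (b.2 : G), y ∈ N ∧ Commute y b.1 := fun b y hy =>
    ⟨zpowers_le.2 b.2.2.1 hy, mem_cent_commute.1 (zpowers_le.2 b.2.2.2 hy)⟩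
  refine Nat.card_le_card_of_injective (fun b : B => (⟨⟨⟨u b.2, (hN b _ (hu _)).1⟩, by
    rw [Subgroup.orderOf_mk]; exact hu1 _⟩, ⟨b.1 * v b.2, by
      rw [QuotientGroup.mk_mul, (QuotientGroup.eq_one_iff _).2 (hN b _ (hv _)).1, mul_one]
      exact b.1.2.2, mul_mem (mem_cent_commute.2 (hN b _ (hu _)).2.symm)
        (mem_cent_commute.2 (huv _).symm)⟩⟩ : A)) ?_
  intro b b' h
  have h1 : u b.2 = u b'.2 := congrArg (fun a : A => ((a.1 : N) : G)) h
  have h2 : b.1 * v b.2 = b'.1 * v b'.2 := congrArg (fun a : A => (a.2 : G)) h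
  obtain ⟨h3, h4⟩ := pi_parts_unique (hN b _ (hv _)).2.symm (hN b' _ (hv _)).2.symm b.1.2.1
    (hv1 _) b'.1.2.1 (hv1 _) h2
  have h5 : (b.2 : G) = b'.2 := by rw [he b.2, he b'.2, h1, h4]
  obtain ⟨w, n⟩ := b
  obtain ⟨w', n'⟩ := b'
  have h6 : w = w' := Subtype.ext h3
  subst h6
  exact congrArg _ (Subtype.ext h5)

theorem card_piClass_le_mul [Finite G] (N : Subgroup G) [N.Normal] (π : Set ℕ) :
    Nat.card (PiClass π G) ≤ Nat.card (PiClass π N) * Nat.card (PiClass π (G ⧸ N)) := by
  classical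
  have := Fintype.ofFinite G
  have := Fintype.ofFinite (G ⧸ N)
  refine Nat.le_of_mul_le_mul_right ?_ (Nat.card_pos (α := G))
  rw [← sum_card_centralizer_pi, ← Finset.sum_fiberwise_of_maps_to
    (t := Finset.univ.filter fun a : G ⧸ N => IsPiNum π (orderOf a))
    (g := fun g : G => (g : G ⧸ N)) (fun g hg => by
      simp only [Finset.mem_filter, Finset.mem_univ, true_and] at hg ⊢
      exact hg.of_dvd (orderOf_map_dvd (QuotientGroup.mk' N) g))]
  calc _ ≤ ∑ a ∈ Finset.univ.filter fun a : G ⧸ N => IsPiNum π (orderOf a),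
        Nat.card (centralizer ({a} : Set (G ⧸ N))) * (Nat.card (PiClass π N) * Nat.card N) := by
        refine Finset.sum_le_sum fun a _ => ?_
        refine le_trans ?_ (Nat.mul_le_mul_left _ (sum_coset_le π N a))
        rw [Finset.filter_filter, Finset.mul_sum]
        refine Finset.sum_le_sum fun w hw => ?_
        simp only [Finset.mem_filter, Finset.mem_univ, true_and] at hw
        rw [← hw.2]
        exact card_centralizer_le_quotient_mul N w
    _ = _ := by
        rw [← Finset.sum_mul, sum_card_centralizer_pi, card_eq_card_quotient_mul_card_subgroup N]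
        ring

universe u

/-- `k_π(G) ≤ |G|_π`. -/
theorem card_piClass_le (s : Finset ℕ) : ∀ (G : Type u) [Group G] [Finite G] (π : Set ℕ) (m : ℕ),
    m ≠ 0 → (∀ q ∈ π, q.Prime → q ∣ Nat.card G → q ∈ s) →
    (∀ d, IsPiNum π d → d ∣ Nat.card G → d ∣ m) → Nat.card (PiClass π G) ≤ m := by
  classical
  induction s using Finset.induction_on with
  | empty =>
    intro G _ _ π m hm hs _
    refine le_trans ?_ (Nat.pos_of_ne_zero hm)
    rw [Finite.card_le_one_iff_subsingleton]
    have key : ∀ C : PiClass π G, C.1 = ConjClasses.mk 1 := by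
      rintro ⟨C, hC⟩
      obtain ⟨x, rfl⟩ := ConjClasses.mk_surjective C
      have h1 := mk_pi_iff.1 hC
      have : orderOf x = 1 := by
        by_contra h
        obtain ⟨q, hq, hd⟩ := Nat.exists_prime_and_dvd h
        simpa using hs q (h1 q hq hd) hq (hd.trans (orderOf_dvd_natCard x))
      exact congrArg ConjClasses.mk (orderOf_eq_one_iff.1 this)
    exact ⟨fun a b => Subtype.ext ((key a).trans (key b).symm)⟩
  | insert p s hps ih =>
    intro G _ _ π m hm hs hd
    by_cases hp : p ∈ π ∧ p.Prime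
    swap
    · refine ih G π m hm (fun q hq hq' hqd => ?_) hd
      rcases Finset.mem_insert.1 (hs q hq hq' hqd) with rfl | h
      · exact absurd ⟨hq, hq'⟩ hp
      · exact h
    obtain ⟨hpπ, hp⟩ := hp
    have := Fact.mk hp
    obtain ⟨P⟩ : Nonempty (Sylow p G) := inferInstance
    have := Fintype.ofFinite (P : Subgroup G)
    have hPπ : IsPiNum π (Nat.card (P : Subgroup G)) := isPiNum_of_isPGroup hp P.isPGroup' hpπ
    obtain ⟨m', rfl⟩ := hd _ hPπ (card_subgroup_dvd_card _)
    let f : (Σ y : (P : Subgroup G), PiClass (π \ {p}) (centralizer ({(y : G)} : Set G))) →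
        ConjClasses G := fun a => ConjClasses.mk (a.1 * (a.2.1.out : G))
    have hf : ∀ C : PiClass π G, ∃ a, f a = C := by
      rintro ⟨C, hC⟩
      obtain ⟨x, rfl⟩ := ConjClasses.mk_surjective C
      have h1 := mk_pi_iff.1 hC
      obtain ⟨u, hu, v, hv, hu1, hv1, he⟩ : ∃ a ∈ zpowers x, ∃ b ∈ zpowers x,
          (∃ k, orderOf a = p ^ k) ∧ ¬ p ∣ orderOf b ∧ x = a * b := by
        obtain ⟨u, v, hu, hv, he, -, h1, h2⟩ := Ch.exists_p_parts hp x
        exact ⟨u, hu, v, hv, h1, h2, he⟩
      obtain ⟨g, hg⟩ := exists_conj_mem_sylow P hu1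
      have hc : g * v * g⁻¹ ∈ centralizer ({g * u * g⁻¹} : Set G) :=
        mem_cent_conj.2 (by
          simpa [mul_assoc] using mem_cent_commute.2 (commute_of_mem_zpowers hv hu))
      refine ⟨⟨⟨_, hg⟩, ConjClasses.mk ⟨_, hc⟩, mk_pi_iff.2 ?_⟩, ?_⟩
      · rw [Subgroup.orderOf_mk, orderOf_conj]
        intro q hq hqd
        refine ⟨h1 q hq (hqd.trans (orderOf_dvd_of_mem_zpowers hv)), ?_⟩
        rintro rfl
        exact hv1 hqd
      · simp only [f]
        obtain ⟨c, hc'⟩ := isConj_iff.1 (ConjClasses.mk_eq_mk_iff_isConj.1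
          (Quotient.out_eq (ConjClasses.mk (⟨_, hc⟩ : centralizer ({g * u * g⁻¹} : Set G)))))
        rw [ConjClasses.mk_eq_mk_iff_isConj, isConj_iff]
        refine ⟨g⁻¹ * c, ?_⟩
        have h2 := congrArg Subtype.val hc'
        have h3 := mem_cent'.1 c.2
        simp only [coe_mul, coe_inv] at h2
        generalize ((Quotient.out (ConjClasses.mk
          (⟨_, hc⟩ : centralizer ({g * u * g⁻¹} : Set G))) : centralizer _) : G) = w at h2 ⊢
        calc _ = g⁻¹ * ((c * (g * u * g⁻¹) * (c : G)⁻¹) * (c * w * (c : G)⁻¹)) * g := by group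
          _ = _ := by rw [h2, h3, he]; group
    have h1 : Nat.card (PiClass π G) ≤ Nat.card (Σ y : (P : Subgroup G),
        PiClass (π \ {p}) (centralizer ({(y : G)} : Set G))) := by
      choose s hs using hf
      exact Nat.card_le_card_of_injective s fun a b h => Subtype.ext (by rw [← hs, ← hs, h])
    refine h1.trans ?_
    rw [Nat.card_sigma, Nat.card_eq_fintype_card (α := (P : Subgroup G)), ← Finset.card_univ,
      ← smul_eq_mul, ← Finset.sum_const]
    refine Finset.sum_le_sum fun y _ => ih _ _ _ (right_ne_zero_of_mul hm) ?_ ?_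
    · intro q hq hq' hqd
      exact (Finset.mem_insert.1 (hs q hq.1 hq' (hqd.trans (card_subgroup_dvd_card _)))).resolve_left
        hq.2
    · intro d hd1 hd2
      have hco : (Nat.card (P : Subgroup G)).Coprime d :=
        ((isPGroup_iff_isPiNum hp).1 P.isPGroup').coprime (hd1.mono fun q hq => hq.2)
      exact hco.symm.dvd_of_dvd_mul_left (hd _ (hd1.mono fun q hq => hq.1)
        (hd2.trans (card_subgroup_dvd_card _)))

end Cfsg.Agent.FG.PiCl
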