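import Mathlib
import Cfsg.Agent.GT.Cores
import Cfsg.Agent.GT.Subnormal
import Cfsg.Agent.GT.TransferSylow
import Cfsg.Agent.Inv.FzBasic
import Cfsg.Agent.FG.H94Euler

/-! The subnormalizer of a `p`-subgroup (Casolo). -/

set_option autoImplicit false

namespace Cfsg.Agent.FG.SubN

open Subgroup Cfsg.Agent.GT Cfsg.Agent.FG.Eul Cfsg.Agent.Inv.Fz

variable {G : Type*} [Group G] [Finite G] {p : ℕ} [Fact p.Prime]

theorem isSubnormal_iff {H : Subgroup G} (hH : IsPGroup p H) (g : G) :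
    (H.subgroupOf (H ⊔ zpowers g)).IsSubnormal ↔
      ∃ R : Subgroup G, IsPGroup p R ∧ H ≤ R ∧ g ∈ normalizer (R : Set G) := by
  constructor
  · intro h
    refine ⟨pCoreOf p (H ⊔ zpowers g), isPGroup_pCoreOf p _, ?_,
      le_normalizer_pCoreOf _ (mem_sup_right (mem_zpowers g))⟩
    exact le_map_subtype_of_subgroupOf_le le_sup_left (le_pCore_of_isSubnormal h hH.comap_subtype)
  · rintro ⟨R, hR, hHR, hg⟩
    have h1 : SubnormalIn H (normalizer (R : Set G)) :=
      (subnormalIn_of_isPGroup hR hHR).trans (SubnormalIn.of_le_normalizer le_normalizer le_rfl)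
    exact (h1.mono le_sup_left (sup_le h1.le (zpowers_le.2 hg))).subgroupOf

omit [Fact p.Prime] in
theorem exists_radical {R : Subgroup G} (hR : IsPGroup p R) {g : G}
    (hg : g ∈ normalizer (R : Set G)) : ∃ S : Subgroup G, R ≤ S ∧
      pCoreOf p (normalizer (S : Set G)) = S ∧ g ∈ normalizer (S : Set G) := by
  obtain ⟨S, hRS, hS⟩ := Finite.exists_le_maximal
    (p := fun S : Subgroup G => IsPGroup p S ∧ g ∈ normalizer (S : Set G)) ⟨hR, hg⟩
  have h1 : S ≤ pCoreOf p (normalizer (S : Set G)) := le_pCoreOf le_normalizer le_rfl hS.1.1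
  exact ⟨S, hRS, le_antisymm (hS.2 ⟨isPGroup_pCoreOf p _, le_normalizer_pCoreOf _ hS.1.2⟩ h1) h1,
    hS.1.2⟩

/-- A radical `p`-subgroup is the intersection of the Sylow subgroups containing it. -/
theorem le_of_radical {R D : Subgroup G} (hR : pCoreOf p (normalizer (R : Set G)) = R)
    (hD : ∀ Q : Sylow p G, R ≤ Q → D ≤ Q) : D ≤ R := by
  have hRp : IsPGroup p R := hR ▸ isPGroup_pCoreOf p _
  obtain ⟨Q, hQ⟩ := hRp.exists_le_sylow
  by_contra h
  have h1 : R < R ⊔ D := left_lt_sup.2 h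
  have h2 := Tr.lt_inf_normalizer (Q.isPGroup'.to_le (sup_le hQ (hD Q hQ))) h1
  refine h2.not_ge ?_
  conv_rhs => rw [← hR]
  refine le_map_subtype_of_subgroupOf_le inf_le_right ?_
  rw [pCore_eq_iInf_sylow, le_iInf_iff]
  intro S
  obtain ⟨T, hT⟩ := S.exists_comap_subtype_eq
  have h3 : R ≤ T := by
    rw [← hR]
    exact (pCoreOf_le_sylow S).trans (map_le_iff_le_comap.2 hT.ge)
  rw [← hT]
  exact comap_mono (inf_le_left.trans (sup_le h3 (hD T h3)))

open Classical in
/-- The `g`-invariant `p`-subgroups of `L` above `K`. -/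
noncomputable def fam (p : ℕ) (L K : Subgroup G) (g : G) : Finset (Subgroup G) :=
  (Set.toFinite {R : Subgroup G | IsPGroup p R ∧ K ≤ R ∧ R ≤ L ∧
    g ∈ normalizer (R : Set G)}).toFinset

omit [Fact p.Prime] in
theorem mem_fam {L K R : Subgroup G} {g : G} :
    R ∈ fam p L K g ↔ IsPGroup p R ∧ K ≤ R ∧ R ≤ L ∧ g ∈ normalizer (R : Set G) := by
  simp [fam]

open Classical in
/-- The weight of `K` in `L`. -/
noncomputable def wt (p : ℕ) (L K : Subgroup G) : ℤ :=
  ∑ g ∈ (Set.toFinite ((L ⊓ normalizer (K : Set G) : Subgroup G) : Set G)).toFinset,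
    (1 - chi ((fam p L K g).filter (K < ·)))

omit [Fact p.Prime] in
theorem chi_fam {L K : Subgroup G} {g : G} (h : (fam p L K g).Nonempty) :
    chi (fam p L K g) = 1 := by
  obtain ⟨R, hR⟩ := Finset.exists_minimal h
  refine chi_of_min hR.1 fun S hS => ?_
  obtain ⟨h1, h2, h3, h4⟩ := mem_fam.1 hR.1
  obtain ⟨-, h6, -, h8⟩ := mem_fam.1 hS
  exact (hR.2 (mem_fam.2 ⟨h1.to_le inf_le_left, le_inf h2 h6, inf_le_left.trans h3,
    inf_normalizer_le_normalizer_inf ⟨h4, h8⟩⟩) inf_le_left).trans inf_le_right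

open Classical in
omit [Fact p.Prime] in
theorem card_eq_sum_wt (L H : Subgroup G) :
    (Nat.card {g : G // g ∈ L ∧ (fam p L H g).Nonempty} : ℤ) =
      ∑ K ∈ fam p L H 1, wt p L K := by
  have := Fintype.ofFinite G
  have h1 : (Nat.card {g : G // g ∈ L ∧ (fam p L H g).Nonempty} : ℤ) =
      ∑ g ∈ Finset.univ.filter (· ∈ L), chi (fam p L H g) := by
    rw [Nat.card_eq_fintype_card, Fintype.card_subtype, ← Finset.filter_filter, Finset.card_filter,
      Nat.cast_sum]
    refine Finset.sum_congr rfl fun g _ => ?_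
    split_ifs with h
    · rw [chi_fam h, Nat.cast_one]
    · rw [Finset.not_nonempty_iff_eq_empty.1 h, chi_empty, Nat.cast_zero]
  rw [h1]
  simp only [chi_eq (fam p L H _), wt]
  rw [Finset.sum_comm' (t' := fam p L H 1) (s' := fun K =>
    (Set.toFinite ((L ⊓ normalizer (K : Set G) : Subgroup G) : Set G)).toFinset)]
  · refine Finset.sum_congr rfl fun K hK => Finset.sum_congr rfl fun g _ => ?_
    congr 2
    ext R
    simp only [Finset.mem_filter, mem_fam]
    exact ⟨fun h => ⟨⟨h.1.1, h.2.le, h.1.2.2⟩, h.2⟩,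
      fun h => ⟨⟨h.1.1, (mem_fam.1 hK).2.1.trans h.2.le, h.1.2.2⟩, h.2⟩⟩
  · intro g K
    simp only [Finset.mem_filter, mem_fam, Finset.mem_univ, true_and, Set.Finite.mem_toFinset,
      SetLike.mem_coe, mem_inf, one_mem]
    tauto

theorem wt_eq_inf (L K : Subgroup G) :
    wt p L K = wt p (L ⊓ normalizer (K : Set G)) K := by
  classical
  unfold wt
  simp only [inf_assoc, inf_idem]
  refine Finset.sum_congr rfl fun g hg => ?_
  have hg' : g ∈ normalizer (K : Set G) := ((Set.Finite.mem_toFinset _).1 hg).2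
  congr 1
  refine chi_eq_of_retract (· ⊓ normalizer (K : Set G)) (fun R hR => ?_) (fun R hR => ?_)
    fun R _ S hS => ?_
  · obtain ⟨hR, hKR⟩ := Finset.mem_filter.1 hR
    obtain ⟨h1, h2, h3, h4⟩ := mem_fam.1 hR
    have h5 := Tr.lt_inf_normalizer h1 hKR
    exact Finset.mem_filter.2 ⟨mem_fam.2 ⟨h1.to_le inf_le_left, h5.le, inf_le_inf_right _ h3,
      inf_normalizer_le_normalizer_inf ⟨h4, le_normalizer hg'⟩⟩, h5⟩
  · obtain ⟨hR, hKR⟩ := Finset.mem_filter.1 hR
    obtain ⟨h1, h2, h3, h4⟩ := mem_fam.1 hR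
    exact Finset.mem_filter.2 ⟨mem_fam.2 ⟨h1, h2, h3.trans inf_le_left, h4⟩, hKR⟩
  · have h3 := (mem_fam.1 (Finset.mem_filter.1 hS).1).2.2.1
    exact ⟨fun h => h.trans inf_le_left, fun h => le_inf h (h3.trans inf_le_right)⟩

omit [Fact p.Prime] in
theorem wt_of_isSylIn {L K : Subgroup G} (h : IsSylIn p K L) :
    wt p L K = Nat.card (L ⊓ normalizer (K : Set G) : Subgroup G) := by
  classical
  unfold wt
  rw [Finset.sum_congr rfl (g := fun _ => 1), Finset.sum_const, nsmul_eq_mul, mul_one,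
    ← Set.ncard_eq_toFinset_card, ← Nat.card_coe_set_eq]
  · rfl
  · intro g _
    rw [Finset.filter_false_of_mem, chi_empty, sub_zero]
    intro R hR hKR
    obtain ⟨h1, h2, h3, -⟩ := mem_fam.1 hR
    exact hKR.ne' (h.eq_of_le h1 h3 h2)

theorem card_normalizer_mul {L K : Subgroup G} (hK : IsSylIn p K L) :
    Nat.card (L ⊓ normalizer (K : Set G) : Subgroup G) * Nat.card (Sylow p L) = Nat.card L := by
  rw [Sylow.card_eq_index_normalizer hK.toSylow]
  change _ * (normalizer ((K.subgroupOf L : Subgroup L) : Set L)).index = _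
  rw [← subgroupOf_normalizer_eq hK.le,
    ← ((normalizer (K : Set G)).subgroupOf L).card_mul_index, ← inf_subgroupOf_left,
    Nat.card_congr (subgroupOfEquivOfLe inf_le_left).toEquiv]

open Classical in
theorem sum_isSylIn (L H : Subgroup G) {S : Subgroup G} (hS : IsSylIn p S L) :
    ∑ K ∈ (fam p L H 1).filter (IsSylIn p · L),
      Nat.card (L ⊓ normalizer (K : Set G) : Subgroup G) =
      Nat.card {Q : Subgroup G // IsSylIn p Q L ∧ H ≤ Q} *
        Nat.card (L ⊓ normalizer (S : Set G) : Subgroup G) := by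
  rw [Finset.sum_congr rfl (g := fun _ => Nat.card (L ⊓ normalizer (S : Set G) : Subgroup G))
    fun K hK => Nat.eq_of_mul_eq_mul_right Nat.card_pos ((card_normalizer_mul
      (Finset.mem_filter.1 hK).2).trans (card_normalizer_mul hS).symm), Finset.sum_const,
    smul_eq_mul, ← Nat.card_eq_finsetCard]
  congr 1
  refine Nat.card_congr (Equiv.subtypeEquivRight fun K => ?_)
  rw [Finset.mem_filter, mem_fam]
  exact ⟨fun h => ⟨h.2, h.1.2.1⟩, fun h => ⟨⟨h.1.isPGroup, h.2, h.1.le, one_mem _⟩, h.1⟩⟩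

open Classical in
theorem wt_eq {L K : Subgroup G} (hK : IsPGroup p K) (hKL : K ≤ L) : wt p L K =
    if IsSylIn p K L then (Nat.card (L ⊓ normalizer (K : Set G) : Subgroup G) : ℤ) else 0 := by
  induction K using WellFoundedGT.induction generalizing L with
  | _ K ih =>
  split_ifs with h
  · exact wt_of_isSylIn h
  rw [wt_eq_inf]
  set M := L ⊓ normalizer (K : Set G) with hM
  have hKM : K ≤ M := le_inf hKL le_normalizer
  have h' : ¬ IsSylIn p K M := fun h' => h ⟨hKL, hK, fun Q hQ hQL hKQ => by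
    by_contra hne
    have h1 := Tr.lt_inf_normalizer hQ (lt_of_le_of_ne hKQ (Ne.symm hne))
    exact h1.ne' (h'.eq_of_le (hQ.to_le inf_le_left) (inf_le_inf_right _ hQL) h1.le)⟩
  have h1 := card_eq_sum_wt (p := p) M K
  have hmem : K ∈ fam p M K 1 := mem_fam.2 ⟨hK, le_rfl, hKM, one_mem _⟩
  obtain ⟨S, hS, -⟩ := exists_isSylIn hK hKM
  have h2 : ∑ R ∈ (fam p M K 1).erase K, wt p M R =
      ∑ R ∈ (fam p M K 1).filter (IsSylIn p · M),
        (Nat.card (M ⊓ normalizer (R : Set G) : Subgroup G) : ℤ) := by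
    rw [Finset.sum_filter, ← Finset.sum_erase_add _ _ hmem, if_neg h', add_zero]
    refine Finset.sum_congr rfl fun R hR => ?_
    obtain ⟨h3, h4⟩ := Finset.mem_erase.1 hR
    obtain ⟨h5, h6, h7, -⟩ := mem_fam.1 h4
    exact ih R (lt_of_le_of_ne h6 h3.symm) h5 h7
  have h3 : Nat.card {Q : Subgroup G // IsSylIn p Q M ∧ K ≤ Q} = Nat.card (Sylow p M) := by
    refine Nat.card_congr ⟨fun Q => Q.2.1.toSylow, fun Q => ⟨_, isSylIn_map_subtype Q, ?_⟩,
      fun Q => Subtype.ext (map_subgroupOf_eq_of_le Q.2.1.le), fun Q => Sylow.ext ?_⟩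
    · exact (le_pCoreOf hKM inf_le_right hK).trans (pCoreOf_le_sylow Q)
    · exact subgroupOf_map_subtype_self _ _
  have h4 : Nat.card {g : G // g ∈ M ∧ (fam p M K g).Nonempty} = Nat.card M :=
    Nat.card_congr (Equiv.subtypeEquivRight fun g =>
      ⟨fun h => h.1, fun h => ⟨h, K, mem_fam.2 ⟨hK, le_rfl, hKM, h.2⟩⟩⟩)
  rw [← Finset.add_sum_erase _ _ hmem, h2, ← Nat.cast_sum, sum_isSylIn M K hS, h3, h4, mul_comm,
    card_normalizer_mul hS] at h1
  linarith

/-- Casolo's theorem. -/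
theorem card_subnormalizer (H : Subgroup G) (P : Sylow p G) :
    Nat.card {g : G // ∃ R : Subgroup G, IsPGroup p R ∧ H ≤ R ∧ g ∈ normalizer (R : Set G)} =
      Nat.card {Q : Sylow p G // H ≤ Q} * Nat.card (normalizer ((P : Subgroup G) : Set G)) := by
  classical
  have h1 := card_eq_sum_wt (p := p) ⊤ H
  rw [Finset.sum_congr rfl fun K hK => wt_eq (mem_fam.1 hK).1 le_top, ← Finset.sum_filter,
    ← Nat.cast_sum, sum_isSylIn ⊤ H (isSylIn_top P), top_inf_eq, Nat.cast_inj] at h1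
  convert h1 using 1
  · refine Nat.card_congr (Equiv.subtypeEquivRight fun g => ?_)
    simp [Finset.Nonempty, mem_fam]
  · congr 1
    exact Nat.card_congr ⟨fun Q => ⟨Q.1, isSylIn_top _, Q.2⟩, fun Q => ⟨Q.2.1.toSylowTop, Q.2.2⟩,
      fun _ => rfl, fun _ => rfl⟩

/-- The elements conjugating `H` into `P`, counted through Sylow subgroups. -/
theorem card_conj_le_sylow (H : Subgroup G) (P : Sylow p G) :
    Nat.card {g : G // H.map (MulAut.conj g).toMonoidHom ≤ P} =
      Nat.card {Q : Sylow p G // H ≤ Q} * Nat.card (normalizer ((P : Subgroup G) : Set G)) := by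
  have h1 := card_smul_pred (G := G) P fun Q : Sylow p G => H ≤ Q
  rw [Sylow.stabilizer_eq_normalizer] at h1
  refine Eq.trans ?_ (h1.trans ?_)
  · refine Nat.card_congr (Equiv.subtypeEquiv (Equiv.inv G) fun g => ?_)
    rw [Tr.map_conj_le_iff]
    refine forall₂_congr fun a _ => ?_
    rw [Tr.mem_smul_sylow]
    simp
  · congr 1
    exact Nat.card_congr (Equiv.subtypeEquivRight fun Q => by simp [Sylow.orbit_eq_top])

end Cfsg.Agent.FG.SubN
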