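import Mathlib
import Cfsg.Agent.GT.HallTools
import Cfsg.Agent.GT.PiGroups
import Cfsg.Agent.FG.H94Subnorm

/-! Counting the conjugates of a `p`-subgroup in a Sylow subgroup along a `p`-solvable series. -/

set_option autoImplicit false

namespace Cfsg.Agent.FG.SubN

open Subgroup Cfsg.Agent.GT

variable {G : Type*} [Group G]

/-- The preimage of the centralizer of `H` in the section `N / M`. -/
def cenSec (H M N : Subgroup G) [hM : M.Normal] : Subgroup G where
  carrier := {u | u ∈ N ∧ ∀ h ∈ H, h * u * h⁻¹ * u⁻¹ ∈ M}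
  one_mem' := ⟨one_mem _, fun h _ => by simp⟩
  mul_mem' := fun {a b} ha hb => ⟨mul_mem ha.1 hb.1, fun h hh => by
    have := mul_mem (ha.2 h hh) (hM.conj_mem _ (hb.2 h hh) a)
    convert this using 1; group⟩
  inv_mem' := fun {a} ha => ⟨inv_mem ha.1, fun h hh => by
    have := hM.conj_mem _ (inv_mem (ha.2 h hh)) a⁻¹
    convert this using 1; group⟩

theorem mem_cenSec {H M N : Subgroup G} [M.Normal] {u : G} :
    u ∈ cenSec H M N ↔ u ∈ N ∧ ∀ h ∈ H, h * u * h⁻¹ * u⁻¹ ∈ M := Iff.rfl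

theorem le_cenSec (H : Subgroup G) {M N : Subgroup G} [hM : M.Normal] (h : M ≤ N) :
    M ≤ cenSec H M N := fun _ hu =>
  ⟨h hu, fun x _ => mul_mem (hM.conj_mem _ hu x) (inv_mem hu)⟩

/-- The number of elements conjugating `H` into `K`. -/
noncomputable def cnt (H K : Subgroup G) : ℕ :=
  Nat.card {g : G // H.map (MulAut.conj g).toMonoidHom ≤ K}

theorem card_sigma_const {β : Type*} [Finite β] (P : β → Type*) [∀ b, Finite (P b)] {c : ℕ}
    (h : ∀ b, Nat.card (P b) = c) : Nat.card (Σ b, P b) = Nat.card β * c := by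
  have := Fintype.ofFinite β
  rw [Nat.card_sigma, Finset.sum_congr rfl fun b _ => h b, Finset.sum_const, smul_eq_mul,
    Nat.card_eq_fintype_card, Finset.card_univ]

variable [Finite G] {p : ℕ} [hp : Fact p.Prime]

theorem sylow_sup_eq {M N : Subgroup G} [M.Normal] [N.Normal] (P : Sylow p G) (hMN : M ≤ N) {m : ℕ}
    (h : M.relIndex N = p ^ m) : (P : Subgroup G) ⊔ M = (P : Subgroup G) ⊔ N := by
  refine le_antisymm (sup_le_sup_left hMN _) (sup_le le_sup_left fun x hx => ?_)
  obtain ⟨a, ha, s, hs, rfl⟩ := Tr.exists_mul_of_sylowIn (S := (P : Subgroup G) ⊓ N) inf_le_right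
    (Tr.not_dvd_relIndex_sylow_inf_normal P N) (M := M) (by rw [normalizer_eq_top]; exact le_top)
    h hx
  exact mul_mem (mem_sup_right ha) (mem_sup_left hs.1)

omit [Finite G] hp in
theorem sylow_inf_le {M N : Subgroup G} [M.Normal] (P : Sylow p G)
    (h : (M.relIndex N).Coprime p) : (P : Subgroup G) ⊓ N ≤ M := by
  intro x hx
  obtain ⟨k, hk⟩ := P.isPGroup' ⟨x, hx.1⟩
  have h1 : x ^ p ^ k = 1 := congrArg Subtype.val hk
  have h2 : x ^ M.relIndex N ∈ M := pow_relIndex_mem M hx.2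
  obtain ⟨j, hj⟩ := exists_pow_eq_self_of_coprime (x := x) (n := M.relIndex N)
    ((h.pow_right k).coprime_dvd_right (orderOf_dvd_of_pow_eq_one h1))
  exact hj ▸ pow_mem h2 j

theorem cnt_step {H M N : Subgroup G} [hM : M.Normal] [hN : N.Normal] (hH : IsPGroup p H)
    (P : Sylow p G) (hMN : M ≤ N) (h : (M.relIndex N).Coprime p) :
    cnt H (P ⊔ M) * Nat.card N = cnt H (P ⊔ N) * Nat.card (cenSec H M N) := by
  unfold cnt
  rw [← card_sigma_const (fun g : {g : G // H.map (MulAut.conj g).toMonoidHom ≤ (P : Subgroup G) ⊔ N} =>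
    {v : N // H.map (MulAut.conj (v * g : G)).toMonoidHom ≤ (P : Subgroup G) ⊔ M}), ← Nat.card_prod]
  · refine Nat.card_congr ⟨fun a => ⟨⟨(a.2 : G)⁻¹ * a.1, ?_⟩, a.2, by simpa using a.1.2⟩,
      fun a => (⟨a.2.1 * a.1, a.2.2⟩, a.2.1), fun a => Prod.ext (by simp) rfl, fun a => ?_⟩
    · rw [← Tr.map_conj_map_conj, Tr.map_conj_le_iff]
      intro x hx
      have h1 : (a.2 : G)⁻¹ ∈ (P : Subgroup G) ⊔ N := mem_sup_right (inv_mem a.2.2)
      exact mul_mem (mul_mem h1 (sup_le_sup_left hMN _ (a.1.2 hx))) (inv_mem h1)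
    · obtain ⟨⟨g, hg⟩, v, hv⟩ := a
      refine Sigma.ext (by simp) ((Subtype.heq_iff_coe_eq (by simp)).2 rfl)
  · rintro ⟨g, hg⟩
    obtain ⟨x, hx, hxP⟩ := Tr.exists_conj_le_sylowIn (H := (P : Subgroup G) ⊔ N) P.isPGroup'
      (fun h => P.not_dvd_index (h.trans (relIndex_dvd_index_of_le le_sup_left)))
      (Tr.isPGroup_map_conj hH g) hg
    obtain ⟨s, hs, v, hv, rfl⟩ := mem_sup_of_normal_right.1 hx
    have hvP : ∀ t ∈ H, v * g * t * (v * g)⁻¹ ∈ (P : Subgroup G) := fun t ht => by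
      have := mul_mem (mul_mem (inv_mem hs) (hxP _ (Tr.conj_mem_map_conj.2 ht))) hs
      convert this using 1; group
    have key : ∀ w ∈ N, H.map (MulAut.conj (w * v * g : G)).toMonoidHom ≤ (P : Subgroup G) ⊔ M ↔
        (v * g)⁻¹ * w * (v * g) ∈ cenSec H M N := by
      intro w hw
      rw [Tr.map_conj_le_iff, mem_cenSec, and_iff_right (hN.conj_mem' _ hw _)]
      refine forall₂_congr fun t ht => ⟨fun h1 => ?_, fun h1 => ?_⟩
      · have h2 : (v * g * t * (v * g)⁻¹) * w * (v * g * t * (v * g)⁻¹)⁻¹ * w⁻¹ ∈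
            ((P : Subgroup G) ⊔ M) ⊓ N := by
          refine mem_inf.2 ⟨?_, mul_mem (hN.conj_mem _ hw _) (inv_mem hw)⟩
          have := mul_mem (mem_sup_left (T := M) (hvP t ht)) (inv_mem h1)
          convert this using 1; group
        replace h2 : (v * g * t * (v * g)⁻¹) * w * (v * g * t * (v * g)⁻¹)⁻¹ * w⁻¹ ∈ M := by
          obtain ⟨a, ha, b, hb, hab⟩ := mem_sup_of_normal_right.1 h2.1
          have h3 : a ∈ N := by
            have := mul_mem (mem_inf.1 h2).2 (inv_mem (hMN hb))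
            rwa [← hab, mul_inv_cancel_right] at this
          exact hab ▸ mul_mem (sylow_inf_le P h ⟨ha, h3⟩) hb
        have := hM.conj_mem' _ h2 (v * g)
        convert this using 1; group
      · have := mul_mem (mem_sup_right (S := (P : Subgroup G)) (inv_mem (hM.conj_mem _ h1 (v * g))))
          (mem_sup_left (T := M) (hvP t ht))
        convert this using 1; group
    refine Nat.card_congr ⟨fun a => ⟨(v * g)⁻¹ * (a.1 * v⁻¹) * (v * g),
        (key _ (mul_mem a.1.2 (inv_mem hv))).1 (by simpa using a.2)⟩,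
      fun u => ⟨⟨(v * g) * u * (v * g)⁻¹ * v, mul_mem (hN.conj_mem _ u.2.1 _) hv⟩,
        (key _ (hN.conj_mem _ u.2.1 _)).2 (by simp [mul_assoc])⟩,
      fun a => Subtype.ext (Subtype.ext (by simp [mul_assoc])),
      fun u => Subtype.ext (by simp [mul_assoc])⟩

open Classical in
/-- The factor contributed by the section `N / M`. -/
noncomputable def fac (p : ℕ) (H M N : Subgroup G) [M.Normal] : ℕ :=
  if (M.relIndex N).Coprime p then M.relIndex (cenSec H M N) else 1

theorem cnt_step' {H M N : Subgroup G} [hM : M.Normal] [hN : N.Normal] (hH : IsPGroup p H)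
    (P : Sylow p G) (hMN : M ≤ N) (h : (∃ m : ℕ, M.relIndex N = p ^ m) ∨ (M.relIndex N).Coprime p) :
    cnt H (P ⊔ M) * Nat.card ((P : Subgroup G) ⊔ N : Subgroup G) =
      cnt H (P ⊔ N) * Nat.card ((P : Subgroup G) ⊔ M : Subgroup G) * fac p H M N := by
  unfold fac
  split_ifs with hc
  · have h1 := cnt_step hH P hMN hc
    have h2 := card_sup_mul_card_inf (P : Subgroup G) N
    have h3 := card_sup_mul_card_inf (P : Subgroup G) M
    rw [← card_mul_relIndex (le_cenSec H hMN)] at h1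
    rw [show (P : Subgroup G) ⊓ N = (P : Subgroup G) ⊓ M from
      le_antisymm (le_inf inf_le_left (sylow_inf_le P hc)) (inf_le_inf_left _ hMN)] at h2
    refine Nat.eq_of_mul_eq_mul_right
      (Nat.card_pos (α := ((P : Subgroup G) ⊓ M : Subgroup G))) ?_
    rw [mul_assoc, h2, mul_right_comm, mul_assoc _ _ (Nat.card _), h3, mul_left_comm, h1]
    ring
  · obtain ⟨m, hm⟩ := h.resolve_right hc
    rw [sylow_sup_eq P hMN hm, mul_one]

theorem cnt_chain {H : Subgroup G} (hH : IsPGroup p H) (P : Sylow p G) (n : ℕ)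
    (M : Fin (n + 1) → Subgroup G) (hmono : Monotone M) [∀ i, (M i).Normal]
    (hfac : ∀ i : Fin n, (∃ m : ℕ, (M i.castSucc).relIndex (M i.succ) = p ^ m) ∨
      ((M i.castSucc).relIndex (M i.succ)).Coprime p) :
    cnt H (P ⊔ M 0) * Nat.card ((P : Subgroup G) ⊔ M (Fin.last n) : Subgroup G) =
      cnt H (P ⊔ M (Fin.last n)) * Nat.card ((P : Subgroup G) ⊔ M 0 : Subgroup G) *
        ∏ i : Fin n, fac p H (M i.castSucc) (M i.succ) := by
  induction n with
  | zero => simp
  | succ n ih =>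
    have h1 := ih (fun i => M i.succ) (fun i j h => hmono (Fin.succ_le_succ_iff.2 h))
      fun i => hfac i.succ
    have h2 := cnt_step' hH P (hmono (Fin.zero_le (Fin.succ 0))) (hfac 0)
    rw [Fin.prod_univ_succ]
    refine Nat.eq_of_mul_eq_mul_right
      (Nat.card_pos (α := ((P : Subgroup G) ⊔ M (Fin.succ 0) : Subgroup G))) ?_
    rw [mul_right_comm, h2, mul_right_comm, mul_right_comm _ _ (Nat.card _)]
    erw [h1]
    simp only [Fin.succ_last, Fin.castSucc_zero, Fin.succ_castSucc]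
    ring

/-- The number of elements conjugating `H` into a Sylow subgroup of a `p`-solvable group. -/
theorem cnt_sylow {H : Subgroup G} (hH : IsPGroup p H) (P : Sylow p G) (n : ℕ)
    (M : Fin (n + 1) → Subgroup G) (h0 : M 0 = ⊥) (hn : M (Fin.last n) = ⊤) (hmono : Monotone M)
    [∀ i, (M i).Normal]
    (hfac : ∀ i : Fin n, (∃ m : ℕ, (M i.castSucc).relIndex (M i.succ) = p ^ m) ∨
      ((M i.castSucc).relIndex (M i.succ)).Coprime p) :
    cnt H P = Nat.card (P : Subgroup G) * ∏ i : Fin n, fac p H (M i.castSucc) (M i.succ) := by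
  have h1 := cnt_chain hH P n M hmono hfac
  have h2 : cnt H ⊤ = Nat.card (⊤ : Subgroup G) := by
    unfold cnt
    exact Nat.card_congr (Equiv.subtypeEquivRight fun g => by simp)
  rw [h0, hn, sup_bot_eq, sup_top_eq, h2, mul_assoc, mul_comm] at h1
  exact Nat.eq_of_mul_eq_mul_left Nat.card_pos h1

end Cfsg.Agent.FG.SubN
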