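import Mathlib
import Cfsg.Agent.GT.CoprimeActThms
import Cfsg.Agent.GT.ZGroupPres
import Cfsg.Agent.GT.Conj
import Cfsg.Agent.GT.PGroupBasic
import Cfsg.Agent.FG.ClassIdx
import Cfsg.Agent.FG.H93Cyc

/-! Coprime action on a group all of whose Sylow subgroups are cyclic. -/

set_option autoImplicit false

namespace Cfsg.Agent.FG.ZAct

open Subgroup Cfsg.Agent.GT Cfsg.Agent.GT.CopAct Cfsg.Agent.FG.CI

variable {A K : Type*} [Group A] [Group K]

/-- `[K, A]` centralizes every normal invariant cyclic subgroup. -/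
theorem actComm_le_centralizer (φ : A →* MulAut K) {y : K} [hn : (zpowers y).Normal]
    (hi : ActInv φ (zpowers y)) : actComm φ ⊤ ≤ centralizer {y} := by
  refine actComm_le_iff.2 fun g _ a => ?_
  obtain ⟨r, hr⟩ := mem_zpowers_iff.1 (hn.conj_mem y (mem_zpowers y) g)
  obtain ⟨t, ht⟩ := mem_zpowers_iff.1 (hi a⁻¹ y (mem_zpowers y))
  have h1 : φ a g * y * (φ a g)⁻¹ = g * y * g⁻¹ := by
    have h2 : φ a (φ a⁻¹ y) = y := by simp
    have h3 : g * φ a⁻¹ y * g⁻¹ = (φ a⁻¹ y) ^ r := by
      rw [← ht, ← conj_zpow, ← hr, ← zpow_mul, ← zpow_mul, mul_comm]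
    calc φ a g * y * (φ a g)⁻¹ = φ a (g * φ a⁻¹ y * g⁻¹) := by rw [map_mul, map_mul, h2, map_inv]
      _ = _ := by rw [h3, map_zpow, h2, hr]
  rw [mem_centralizer_singleton_iff]
  calc g⁻¹ * φ a g * y = g⁻¹ * (φ a g * y * (φ a g)⁻¹) * φ a g := by group
    _ = _ := by rw [h1]; group

variable [Finite K] [IsZGroup K]

theorem isMulCommutative_centralizer_commutator :
    IsMulCommutative (centralizer (commutator K : Set K)) := by
  obtain ⟨x, y, r, hy, hc, -⟩ := Frob.exists_generators_of_isZGroup (G := K)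
  have key : ∀ g ∈ centralizer (commutator K : Set K), ∃ i j : ℤ, g = y ^ i * x ^ j ∧
      Commute y (x ^ j) := by
    intro g hg
    obtain ⟨⟨⟨_, i, rfl⟩, ⟨_, j, rfl⟩⟩, h⟩ := hc.2 g
    refine ⟨i, j, h.symm, ?_⟩
    have h1 : Commute y g := mem_centralizer_iff.1 hg y (hy ▸ mem_zpowers y)
    have h2 : x ^ j = (y ^ i)⁻¹ * g := by rw [← h]; simp
    rw [h2]
    exact ((Commute.refl y).zpow_right i).inv_right.mul_right h1
  refine ⟨⟨fun a b => Subtype.ext ?_⟩⟩
  obtain ⟨i, j, ha, h1⟩ := key a a.2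
  obtain ⟨k, l, hb, h2⟩ := key b b.2
  change (a : K) * b = b * a
  rw [ha, hb]
  exact Commute.mul_left (((Commute.refl y).zpow_zpow i k).mul_right (h2.zpow_left i))
    ((h1.symm.zpow_right k).mul_right ((Commute.refl x).zpow_zpow j l))

theorem actComm_le_centralizer_commutator (φ : A →* MulAut K) :
    actComm φ ⊤ ≤ centralizer (commutator K : Set K) := by
  obtain ⟨x, y, r, hy, -⟩ := Frob.exists_generators_of_isZGroup (G := K)
  have : (zpowers y).Normal := hy ▸ inferInstance
  rw [← hy, zpowers_eq_closure, centralizer_closure]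
  exact actComm_le_centralizer φ (hy ▸ actInv_of_characteristic φ _)

theorem isCyclic_actComm (φ : A →* MulAut K) : IsCyclic (actComm φ ⊤) := by
  have := isMulCommutative_centralizer_commutator (K := K)
  have := PG.isMulCommutative_of_le (actComm_le_centralizer_commutator φ) this
  have : Group.IsNilpotent (actComm φ ⊤) := by
    open scoped IsMulCommutative in exact CommGroup.isNilpotent
  infer_instance

variable [Finite A] {φ : A →* MulAut K}

theorem actComm_inf_actFixed (hcop : (Nat.card A).Coprime (Nat.card K)) :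
    actComm φ ⊤ ⊓ actFixed φ = ⊥ := by
  have := isCyclic_actComm φ
  have h := hcop.coprime_dvd_right (card_subgroup_dvd_card (actComm φ ⊤))
  rw [← actComm_actComm (actInv_top φ) (by simpa using hcop)]
  exact actComm_inf_actFixed_eq_bot inferInstance (actInv_actComm φ ⊤) h

theorem isComplement'_actComm (hcop : (Nat.card A).Coprime (Nat.card K)) :
    IsComplement' (actComm φ ⊤) (actFixed φ) := by
  have := actComm_normal φ
  refine isComplement'_of_disjoint_and_mul_eq_univ (disjoint_iff.2 (actComm_inf_actFixed hcop)) ?_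
  rw [← normal_mul, actComm_top_sup_actFixed hcop (Or.inr inferInstance), coe_top]

omit [IsZGroup K] in
/-- In a group with cyclic Sylow `p`-subgroups, a normal subgroup of order divisible by `p`
contains every element of order `p`. -/
theorem mem_of_orderOf_eq {p : ℕ} [Fact p.Prime] (hc : ∀ P : Sylow p K, IsCyclic P)
    {N : Subgroup K} [hN : N.Normal] (h : p ∣ Nat.card N) {v : K} (hv : orderOf v = p) : v ∈ N := by
  obtain ⟨u, hu⟩ := exists_prime_orderOf_dvd_card' p h
  obtain ⟨P, hP⟩ := (isPGroup_zpowers (x := v) ⟨1, by rw [hv, pow_one]⟩).exists_le_sylow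
  obtain ⟨g, hg⟩ := exists_conj_mem_sylow P (x := (u : K)) ⟨1, by rw [orderOf_coe, hu, pow_one]⟩
  have := hc P
  have h1 := H93.mem_zpowers_of_orderOf_dvd_of_mem (hP (mem_zpowers v)) hg
    (by rw [hv, orderOf_conj, orderOf_coe, hu])
  exact zpowers_le.2 (hN.conj_mem _ u.2 g) h1

theorem coprime_actFixed (hcop : (Nat.card A).Coprime (Nat.card K)) :
    (Nat.card (actFixed φ)).Coprime (Nat.card (actComm φ ⊤)) := by
  refine Nat.coprime_of_dvd fun p hp h1 h2 => ?_
  have := Fact.mk hp
  have := actComm_normal φ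
  obtain ⟨v, hv⟩ := exists_prime_orderOf_dvd_card' p h1
  have h3 : (v : K) ∈ actComm φ ⊤ ⊓ actFixed φ :=
    ⟨mem_of_orderOf_eq (fun _ => inferInstance) h2 (by rw [orderOf_coe, hv]), v.2⟩
  rw [actComm_inf_actFixed hcop, mem_bot, OneMemClass.coe_eq_one] at h3
  rw [h3, orderOf_one] at hv
  exact hp.one_lt.ne hv

theorem coprime_actFixed_index (hcop : (Nat.card A).Coprime (Nat.card K)) :
    (Nat.card (actFixed φ)).Coprime (actFixed φ).index := by
  rw [(isComplement'_actComm hcop).index_eq_card]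
  exact coprime_actFixed hcop

end Cfsg.Agent.FG.ZAct
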