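import Mathlib
import Cfsg.Agent.FG.HKInd
import Cfsg.Agent.GT.PGroupCyclicNormal
import Cfsg.Agent.GT.FrobeniusComplement
import Cfsg.Agent.Cl.FormRep

/-! Real vectors for coprime nilpotent linear groups. -/

set_option autoImplicit false

namespace Cfsg.Agent.FG.HK

open Subgroup Module Cfsg.Agent.FG.BS

universe u v

variable {K : Type*} [Field K]

section

variable {G : Type u} [Group G] {V : Type*} [AddCommGroup V] [Module K V]

/-- the stabiliser of some vector acts monomially and faithfully on an independent family -/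
def Mon (ρ : G →* End K V) : Prop :=
  ∃ (v : V) (ι : Type u) (_ : Fintype ι) (_ : Nonempty ι) (b : ι → V), LinearIndependent K b ∧
    ∀ h, ρ h v = v → (∀ i, ∃ j, ρ h (b i) = b j ∨ ρ h (b i) = -b j) ∧
      ((∀ i, ρ h (b i) = b i) → ρ h = 1)

theorem eq_of_li {ι : Type*} {b : ι → V} (hb : LinearIndependent K b) {i j : ι}
    (h : b i = b j ∨ b i = -b j) : i = j :=
  h.elim (fun h => hb.injective h) fun h =>
    hb.eq_of_smul_apply_eq_smul_apply 1 (-1) i j one_ne_zero (by simpa using h)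

theorem app_inj (ρ : G →* End K V) (g : G) : Function.Injective (ρ g) :=
  (injective_iff_map_eq_zero _).2 fun _ h => by_contra fun h' => app_ne h' h

theorem Mon.form {ρ : G →* End K V} (h : Mon ρ) : ∃ (v : V) (U : Submodule K V)
    (B : LinearMap.BilinForm K V), (∀ h, ρ h v = v → (∀ u ∈ U, ρ h u ∈ U) ∧
      ((∀ u ∈ U, ρ h u = u) → ρ h = 1) ∧ ∀ u ∈ U, ∀ w ∈ U, B (ρ h u) (ρ h w) = B u w) ∧
      ∀ u ∈ U, (∀ w ∈ U, B u w = 0) → u = 0 := by
  classical
  obtain ⟨v, ι, _, -, b, hb, h⟩ := h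
  choose f hf using fun i => LinearMap.exists_extend ((Basis.span hb).coord i)
  have hm : ∀ i, b i ∈ Submodule.span K (Set.range b) := fun i => Submodule.subset_span ⟨i, rfl⟩
  have h1 : ∀ i j, f i (b j) = if j = i then 1 else 0 := fun i j => by
    have := LinearMap.congr_fun (hf i) (Basis.span hb j)
    rwa [Basis.coord_apply, Basis.repr_self, Finsupp.single_apply, LinearMap.comp_apply,
      Submodule.subtype_apply, Basis.span_apply] at this
  have h2 : ∀ x j, (∑ i, LinearMap.BilinForm.linMulLin (f i) (f i)) x (b j) = f j x := fun x j => by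
    simp [LinearMap.sum_apply, h1]
  refine ⟨v, _, ∑ i, LinearMap.BilinForm.linMulLin (f i) (f i), fun g hg => ⟨?_,
    fun h3 => (h g hg).2 fun i => h3 _ (hm i), fun u hu w hw => ?_⟩, fun u hu h3 => ?_⟩
  · refine fun u hu => Submodule.mem_comap.1 (Submodule.span_le.2 ?_ hu)
    rintro _ ⟨i, rfl⟩
    obtain ⟨j, h3 | h3⟩ := (h g hg).1 i
    · exact (h3 ▸ hm j : ρ g (b i) ∈ _)
    · exact (h3 ▸ neg_mem (hm j) : ρ g (b i) ∈ _)
  · generalize (∑ i, LinearMap.BilinForm.linMulLin (f i) (f i)) = B at h2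
    refine LinearMap.eqOn_span' (f := B (ρ g u) ∘ₗ ρ g) (g := B u) ?_ hw
    rintro _ ⟨j, rfl⟩
    refine LinearMap.eqOn_span' (f := B.flip (ρ g (b j)) ∘ₗ ρ g) (g := B.flip (b j)) ?_ hu
    rintro _ ⟨i, rfl⟩
    show B (ρ g (b i)) (ρ g (b j)) = B (b i) (b j)
    by_cases hij : i = j
    · subst hij
      obtain ⟨k, h3 | h3⟩ := (h g hg).1 i <;> simp [h3, h2, h1]
    · obtain ⟨k, h3⟩ := (h g hg).1 i
      obtain ⟨l, h4⟩ := (h g hg).1 j
      have h5 : k ≠ l := by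
        rintro rfl
        refine hij (eq_of_li hb ?_)
        rcases h3 with h3 | h3 <;> rcases h4 with h4 | h4
        · exact Or.inl (app_inj ρ g (h3.trans h4.symm))
        · exact Or.inr (app_inj ρ g (by rw [map_neg, h3, h4, neg_neg]))
        · exact Or.inr (app_inj ρ g (by rw [map_neg, h3, h4]))
        · exact Or.inl (app_inj ρ g (h3.trans h4.symm))
      rcases h3 with h3 | h3 <;> rcases h4 with h4 | h4 <;> simp [h3, h4, h2, h1, h5, hij]
  · obtain ⟨c, rfl⟩ := (Submodule.mem_span_range_iff_exists_fun K).1 hu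
    refine Finset.sum_eq_zero fun j _ => ?_
    have := h3 _ (hm j)
    rw [h2] at this
    simp only [map_sum, map_smul, h1, smul_eq_mul, mul_ite, mul_one, mul_zero,
      Finset.sum_ite_eq', Finset.mem_univ, if_true] at this
    rw [this, zero_smul]

theorem Mon.sum {ρ : G →* End K V} {U W : Submodule K V} (hc : IsCompl U W)
    (hU : ∀ g, ∀ v ∈ U, ρ g v ∈ U) (hW : ∀ g, ∀ v ∈ W, ρ g v ∈ W)
    (h1 : Mon (Representation.subrepresentation ρ U hU))
    (h2 : Mon (Representation.subrepresentation ρ W hW)) : Mon ρ := by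
  obtain ⟨v, ι, _, _, b, hb, h⟩ := h1
  obtain ⟨v', ι', _, _, b', hb', h'⟩ := h2
  refine ⟨v + v', ι ⊕ ι', inferInstance, inferInstance, Sum.elim (U.subtype ∘ b) (W.subtype ∘ b'),
    (hb.map' _ U.ker_subtype).sum_type (hb'.map' _ W.ker_subtype) (hc.disjoint.mono
      (Submodule.span_le.2 (by rintro _ ⟨i, rfl⟩; exact (b i).2))
      (Submodule.span_le.2 (by rintro _ ⟨i, rfl⟩; exact (b' i).2))), fun g hg => ?_⟩
  have h4 : ρ g v - v = v' - ρ g v' := by rw [sub_eq_sub_iff_add_eq_add, ← map_add, hg, add_comm]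
  have h5 : ρ g v - v = 0 := Submodule.disjoint_def.1 hc.disjoint _
    (U.sub_mem (hU g _ v.2) v.2) (h4 ▸ W.sub_mem v'.2 (hW g _ v'.2))
  obtain ⟨a1, a2⟩ := h g (Subtype.ext (sub_eq_zero.1 h5))
  obtain ⟨a3, a4⟩ := h' g (Subtype.ext (sub_eq_zero.1 (h4 ▸ h5)).symm)
  refine ⟨?_, fun h6 => LinearMap.ext fun x => ?_⟩
  · rintro (i | i)
    · exact (a1 i).elim fun j hj => ⟨.inl j, hj.imp (congrArg Subtype.val) (congrArg Subtype.val)⟩
    · exact (a3 i).elim fun j hj => ⟨.inr j, hj.imp (congrArg Subtype.val) (congrArg Subtype.val)⟩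
  · obtain ⟨y, hy, z, hz, rfl⟩ := Submodule.mem_sup.1 (hc.sup_eq_top.ge (Submodule.mem_top (x := x)))
    rw [map_add, map_add]
    exact congrArg₂ _
      (congrArg Subtype.val (LinearMap.congr_fun (a2 fun i => Subtype.ext (h6 (.inl i))) ⟨y, hy⟩))
      (congrArg Subtype.val (LinearMap.congr_fun (a4 fun i => Subtype.ext (h6 (.inr i))) ⟨z, hz⟩))

theorem Mon.ind [Finite G] {ρ : G →* End K V} (hG : (Nat.card G : K) ≠ 0) (hi : IrrR ρ)
    {S : Subgroup G} [Fintype (G ⧸ S)] {W : Submodule K V} (hW : W ≠ ⊥)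
    (hSW : ∀ g ∈ S, ∀ v ∈ W, ρ g v ∈ W)
    (hind : Indep fun x : G ⧸ S => (W.map (ρ x.out)).toAddSubgroup)
    (h : Mon (Representation.subrepresentation (ρ.comp S.subtype) W fun g => hSW g g.2)) :
    Mon ρ := by
  obtain ⟨w, ι, _, ⟨i0⟩, b, hb, h⟩ := h
  have hs : ∀ (g : G) (x : G ⧸ S), (g • x).out⁻¹ * (g * x.out) ∈ S := fun g x =>
    QuotientGroup.eq.1 ((QuotientGroup.out_eq' _).trans (MulAction.Quotient.mk_smul_out S g x).symm)
  have hk : ∀ (g : G) (x : G ⧸ S) (y : V), ρ g (ρ x.out y) =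
      ρ (g • x).out (ρ ((g • x).out⁻¹ * (g * x.out)) y) := fun g x y => by
    rw [← app_mul, ← app_mul, mul_inv_cancel_left]
  have hli : LinearIndependent K fun p : (G ⧸ S) × ι => ρ p.1.out (b p.2) := by
    refine Fintype.linearIndependent_iff.2 fun c hc ⟨x, i⟩ => ?_
    rw [Fintype.sum_prod_type] at hc
    have h1 := hind (fun x => ∑ i, c (x, i) • ρ x.out (b i)) (fun x => Submodule.sum_mem _ fun i _ =>
      Submodule.smul_mem _ _ ⟨_, (b i).2, rfl⟩) hc x
    refine Fintype.linearIndependent_iff.1 hb (fun i => c (x, i))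
      (Subtype.ext (app_inj ρ x.out ?_)) i
    simpa using h1
  refine ⟨∑ x : G ⧸ S, ρ x.out w, (G ⧸ S) × ι, inferInstance, ⟨((1 : G), i0)⟩, _, hli,
    fun g hg => ?_⟩
  have h1 : ∀ x : G ⧸ S, ρ ((g • x).out⁻¹ * (g * x.out)) w = w := fun x => by
    have := hind.eq (w := fun y => ρ g (ρ (g⁻¹ • y).out w)) (w' := fun y => ρ y.out w)
      (fun y => ⟨_, hSW _ (hs g (g⁻¹ • y)) _ w.2, by rw [hk, smul_inv_smul]⟩)
      (fun y => ⟨_, w.2, rfl⟩) (by
        rw [← map_sum]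
        exact (congrArg _ (Equiv.sum_comp (MulAction.toPerm g⁻¹)
          fun y : G ⧸ S => ρ y.out w)).trans hg) (g • x)
    simp only [inv_smul_smul] at this
    rw [hk] at this
    exact app_inj ρ _ this
  have h2 : ∀ (x : G ⧸ S) (i : ι), ∃ j, ρ g (ρ x.out (b i)) = ρ (g • x).out (b j) ∨
      ρ g (ρ x.out (b i)) = -ρ (g • x).out (b j) := fun x i =>
    ((h ⟨_, hs g x⟩ (Subtype.ext (h1 x))).1 i).imp fun j hj => by
      rw [hk, ← map_neg]
      exact hj.imp (fun e => congrArg _ (congrArg Subtype.val e))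
        fun e => congrArg _ (congrArg Subtype.val e)
  refine ⟨fun p => (h2 p.1 p.2).elim fun j hj => ⟨(g • p.1, j), hj⟩, fun h3 => ?_⟩
  have h4 : ∀ x : G ⧸ S, g • x = x := fun x => by
    obtain ⟨j, hj⟩ := h2 x i0
    rw [h3 (x, i0)] at hj
    exact (congrArg Prod.fst (eq_of_li hli (i := (x, i0)) (j := (g • x, j)) hj)).symm
  refine (uni_of_span hi hW fun t y hy => ⟨1, ?_⟩).eq_one hG
    (by rw [← map_pow, pow_card_eq_one', map_one])
  have h5 : (t : G ⧸ S).out⁻¹ * t ∈ S := QuotientGroup.eq.1 (QuotientGroup.out_eq' _)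
  have h6 := congrArg Subtype.val (LinearMap.congr_fun
    ((h ⟨_, hs g t⟩ (Subtype.ext (h1 t))).2 fun i => Subtype.ext (app_inj ρ (g • (t : G ⧸ S)).out
      (((hk g t _).symm.trans (h3 (t, i))).trans (by rw [h4])))) ⟨_, hSW _ h5 y hy⟩)
  rw [pow_one, LinearMap.sub_apply, sub_eq_zero, End.one_apply]
  refine app_inj ρ ((t : G ⧸ S).out⁻¹ * t) (Eq.trans ?_ h6)
  show _ = ρ ((g • (t : G ⧸ S)).out⁻¹ * (g * (t : G ⧸ S).out)) (ρ ((t : G ⧸ S).out⁻¹ * t) y)
  rw [h4, ← app_mul, ← app_mul]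
  congr 2
  group

theorem eq_of_fpf [Finite G] [Group.IsNilpotent G] [Finite V] {ρ : G →* End K V}
    (hf : ∀ U : Subgroup G, U.Normal → (∀ x ∈ U, ∀ y ∈ U, x * y = y * x) →
      ∀ u ∈ U, u ≠ 1 → ∀ v : V, ρ u v = v → v = 0) {v : V} (hv : v ≠ 0) {a b : G}
    (ha : ρ a v = v) (hb : ρ b v = v) (ha1 : a ≠ 1) (hb1 : b ≠ 1) : a = b := by
  have : Nontrivial V := ⟨⟨v, 0, hv⟩⟩
  have h1 : ∀ r : ℕ, r.Prime → ∀ A : Subgroup (pCore r G), A.Normal → IsMulCommutative A →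
      ∀ x ∈ A, x ≠ 1 → ∀ v : V, ρ x v = v → v = 0 := fun r hr A hA hc x hx hx1 => by
    refine hf (A.map (pCore r G).subtype) (GT.normal_of_top_le_normalizer
      ((GT.pCore_sup_pPrimeCore r).ge.trans (sup_le ?_ ?_))) ?_ x ⟨x, hx, rfl⟩
      fun e => hx1 (Subtype.ext e)
    · exact (range_subtype _).ge.trans ((MonoidHom.range_eq_map _).le.trans
        ((map_mono (normalizer_eq_top A).ge).trans (le_normalizer_map _)))
    · exact (GT.pPrimeCore_le_centralizer_pCore.trans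
        (centralizer_le (map_subtype_le A))).trans (centralizer_le_normalizer _)
    · rintro _ ⟨x, hx, rfl⟩ _ ⟨y, hy, rfl⟩
      exact congrArg (fun z : A => (z.1 : G)) (hc.1.1 ⟨x, hx⟩ ⟨y, hy⟩)
  have h2 : ∀ r : ℕ, r.Prime → ∃ A : Subgroup (pCore r G),
      (∀ x ∈ A, x ≠ 1 → ∀ v : V, ρ x v = v → v = 0) ∧ (A = ⊤ ∨ r = 2 ∧ A.index = 2) := by
    intro r hr
    have := Fact.mk hr
    rcases GT.PG.isCyclic_or_maxTwo_of_normal_abelian_isCyclic (GT.isPGroup_pCore (G := G) r)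
      (fun A hA hc => by
        let _ : MulDistribMulAction A (Multiplicative V) :=
          { smul g x := Multiplicative.ofAdd (ρ g x.toAdd)
            one_smul x := LinearMap.congr_fun (map_one ρ) x.toAdd
            mul_smul a b x := app_mul (σ := ρ) a b x.toAdd
            smul_one g := map_zero (ρ g)
            smul_mul g := map_add (ρ g) }
        exact (GT.Frob.hasFpfAction_of_mulDistribMulAction (A := A) (Multiplicative V)
          fun a ha x hx =>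
          h1 r hr A hA hc a a.2 (fun e => ha (Subtype.ext e)) _ hx).isCyclic_of_comm)
      with h | ⟨h, m, a, b, h', -⟩
    · exact ⟨⊤, h1 r hr ⊤ inferInstance inferInstance, Or.inl rfl⟩
    · exact ⟨_, h1 r hr _ h'.normal inferInstance, Or.inr ⟨h, h'.index_eq⟩⟩
  let T : Subgroup G :=
    { carrier := {g | ρ g v = v}
      one_mem' := by simp
      mul_mem' := fun ha hb => (app_mul _ _ _).trans (by rw [hb, ha])
      inv_mem' := fun {a} ha => app_inj ρ a (by rw [← app_mul, mul_inv_cancel, ha, map_one]; rfl) }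
  have h3 : T ≤ pCore 2 G := by
    refine GT.le_pCore_of_isNilpotent (IsPGroup.of_card
      (Nat.eq_prime_pow_of_unique_prime_dvd Nat.card_pos.ne' fun {r} hr hd => ?_))
    have := Fact.mk hr
    obtain ⟨⟨x, hx⟩, hx'⟩ := exists_prime_orderOf_dvd_card' r hd
    replace hx' : orderOf x = r := (orderOf_coe _).trans hx'
    obtain ⟨A, h4, rfl | h5⟩ := h2 r hr
    · refine absurd (h4 ⟨x, GT.le_pCore_of_isNilpotent (IsPGroup.of_card (n := 1)
        (by rw [Nat.card_zpowers, hx', pow_one])) (mem_zpowers x)⟩ trivial (fun e => ?_) v hx) hv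
      rw [show x = 1 from congrArg Subtype.val e, orderOf_one] at hx'
      exact hr.one_lt.ne hx'
    · exact h5.1
  obtain ⟨A, h4, h5⟩ := h2 2 Nat.prime_two
  have h6 : ∀ x (hx : x ∈ T), x ≠ 1 → (⟨x, h3 hx⟩ : pCore 2 G) ∉ A := fun x hx hx1 h =>
    hv (h4 _ h (fun e => hx1 (congrArg Subtype.val e)) v hx)
  by_contra hab
  refine h6 _ (T.mul_mem (T.inv_mem ha) hb) (mt inv_mul_eq_one.1 hab) ?_
  rcases h5 with rfl | ⟨-, h5⟩
  · trivial
  · exact (mul_mem_iff_of_index_two h5 (a := ⟨_, h3 (T.inv_mem ha)⟩) (b := ⟨b, h3 hb⟩)).2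
      (iff_of_false (h6 _ (T.inv_mem ha) (inv_ne_one.2 ha1)) (h6 _ hb hb1))

theorem mon_of_fpf [Finite G] [Group.IsNilpotent G] [Finite V] [Nontrivial V] {ρ : G →* End K V}
    (hG : (Nat.card G : K) ≠ 0) (hρ : Function.Injective ρ)
    (hf : ∀ U : Subgroup G, U.Normal → (∀ x ∈ U, ∀ y ∈ U, x * y = y * x) →
      ∀ u ∈ U, u ≠ 1 → ∀ v : V, ρ u v = v → v = 0) : Mon ρ := by
  obtain ⟨v, hv⟩ := exists_ne (0 : V)
  suffices ∃ w, w ≠ 0 ∧ ∀ h, ρ h v = v → h ≠ 1 → ρ h w = -w ∧ ρ h w ≠ w by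
    obtain ⟨w, hw, h⟩ := this
    refine ⟨v, PUnit, inferInstance, inferInstance, fun _ => w,
      linearIndependent_unique_iff.2 hw, fun g hg => ?_⟩
    by_cases h1 : g = 1
    · simp [h1]
    · exact ⟨fun _ => ⟨⟨⟩, Or.inr (h g hg h1).1⟩, fun h2 => absurd (h2 ⟨⟩) (h g hg h1).2⟩
  by_cases h : ∃ s, ρ s v = v ∧ s ≠ 1
  swap
  · exact ⟨v, hv, fun g h1 h2 => absurd ⟨g, h1, h2⟩ h⟩
  obtain ⟨s, hs, hs1⟩ := h
  have h1 : s * s = 1 := by
    by_contra h1
    exact hs1 (mul_eq_left.1 (eq_of_fpf hf hv (by rw [app_mul, hs, hs]) hs h1 hs1))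
  have h2 : (2 : K) ≠ 0 := fun e => hG (by
    obtain ⟨c, hc⟩ := orderOf_dvd_natCard s
    rw [hc, orderOf_eq_prime (p := 2) (by rwa [sq]) hs1, Nat.cast_mul, Nat.cast_two, e, zero_mul])
  obtain ⟨u, hu⟩ : ∃ u, u - ρ s u ≠ 0 := by
    by_contra h3
    push Not at h3
    exact hs1 (hρ (LinearMap.ext fun u => by rw [map_one]; exact (sub_eq_zero.1 (h3 u)).symm))
  refine ⟨_, hu, fun g hg hg1 => ?_⟩
  have h3 : ρ g (u - ρ s u) = -(u - ρ s u) := by
    rw [eq_of_fpf hf hv hg hs hg1 hs1, map_sub, ← app_mul, h1, map_one, neg_sub]; rfl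
  refine ⟨h3, fun e => hu ((smul_eq_zero.1 ?_).resolve_left h2)⟩
  rw [two_smul, ← eq_neg_iff_add_eq_zero, ← h3, e]

end

theorem mon_of_nil (m : ℕ) : ∀ (G : Type u) [Group G] [Finite G] [Group.IsNilpotent G] (V : Type v)
    [AddCommGroup V] [Module K V] [Finite V] (ρ : G →* End K V), (Nat.card G : K) ≠ 0 →
    finrank K V = m → 1 ≤ m → Mon ρ := by
  induction m using Nat.strong_induction_on with
  | _ m ih =>
  intro G0 _ _ _ V _ _ _ ρ0 hG0 hm h1
  have : Nontrivial V := (finrank_pos_iff (R := K)).1 (hm ▸ h1)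
  by_cases hi0 : IrrR ρ0
  swap
  · unfold IrrR at hi0
    push Not at hi0
    obtain ⟨W, hW, hb, ht⟩ := hi0
    obtain ⟨W', hW', hc⟩ := Cl.RepInv.exists_isCompl (ρ := ρ0) hG0 hW
    have ha : 1 ≤ finrank K W := Submodule.one_le_finrank_iff.2 hb
    have hlt := Submodule.finrank_lt ht
    have hab := Submodule.finrank_add_eq_of_isCompl hc
    exact Mon.sum hc hW hW' (ih _ (by omega) G0 W _ hG0 rfl ha)
      (ih _ (by omega) G0 W' _ hG0 rfl (by omega))
  let G := G0 ⧸ ρ0.ker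
  let ρ : G →* End K V := QuotientGroup.lift _ ρ0 le_rfl
  have hρ : Function.Injective ρ := (injective_iff_map_eq_one ρ).2 fun x hx => by
    obtain ⟨g, rfl⟩ := QuotientGroup.mk_surjective x
    exact (QuotientGroup.eq_one_iff g).2 hx
  have hi : IrrR ρ := fun W hW => hi0 W fun g => hW (g : G)
  have hd : ∀ {a b : ℕ}, a ∣ b → (b : K) ≠ 0 → (a : K) ≠ 0 := by
    rintro a _ ⟨c, rfl⟩ h e
    exact h (by rw [Nat.cast_mul, e, zero_mul])
  have hG : (Nat.card G : K) ≠ 0 := hd (card_quotient_dvd_card _) hG0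
  suffices Mon ρ by
    obtain ⟨v, ι, a, b, c, h2, h3⟩ := this
    exact ⟨v, ι, a, b, c, h2, fun g => h3 (g : G)⟩
  by_cases hf : ∀ U : Subgroup G, U.Normal → (∀ x ∈ U, ∀ y ∈ U, x * y = y * x) →
      ∀ u ∈ U, u ≠ 1 → ∀ v : V, ρ u v = v → v = 0
  · exact mon_of_fpf hG hρ hf
  simp only [not_forall] at hf
  obtain ⟨U, hUn, hUc, hf⟩ := hf
  obtain ⟨S, W, hS, hW, hSW, hind⟩ := (fpf_or_ind hρ hi U hUn hUc).resolve_left
    (by simpa only [not_forall] using hf)
  have := Fintype.ofFinite (G ⧸ S)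
  have h2 := card_mul_finrank_le _ W hind
  rw [← Nat.card_eq_fintype_card, ← index_eq_card] at h2
  have h3 : 1 < S.index := one_lt_index_of_ne_top hS
  have hs : 1 ≤ finrank K W := Submodule.one_le_finrank_iff.2 hW
  exact Mon.ind hG hi hW hSW hind
    (ih _ (by nlinarith) S W _ (hd (card_subgroup_dvd_card _) hG) rfl hs)

end Cfsg.Agent.FG.HK
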