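import Mathlib
import Cfsg.Agent.FG.HKMon
import Cfsg.Agent.FG.HKSq
import Cfsg.Agent.GT.Frattini
import Cfsg.Agent.GT.PGroupFrattini
import Cfsg.Agent.Blk.Fong
import Cfsg.Agent.S4959

/-! The `k(GV)` bound for nilpotent `G`; class numbers of solvable groups with `O_{p'} = 1` and
the number of characters in a block of a solvable group. -/

set_option autoImplicit false

namespace Cfsg.Agent.FG.HK

open Subgroup Module Cfsg.Agent.Ch Cfsg.Agent.Blk.Om

universe u

theorem kgv_nil {X : Type*} [Group X] [Finite X] {p : ℕ} [hp : Fact p.Prime] (V : Subgroup X)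
    [V.Normal] (hV : ∀ v ∈ V, v ^ p = 1) (hidx : ¬ p ∣ V.index)
    (hC : centralizer (V : Set X) = V) (hne : V ≠ ⊥) (G : Subgroup X) (hG : V.IsComplement' G)
    [Group.IsNilpotent G] : kk X ≤ Nat.card V := by
  classical
  have hE : IsElementaryAbelian p V := ⟨⟨⟨fun a b => Subtype.ext (hC.ge b.2 a a.2)⟩⟩, hV⟩
  let ρ := GT.eaRep hE (H := G) le_normalizer_of_normal
  have : Nontrivial (GT.EAV hE) := (nontrivial_iff_ne_bot V).2 hne
  obtain ⟨v, U, B, h1, h2⟩ := (mon_of_nil _ G _ ρ (mt (ZMod.natCast_eq_zero_iff _ p).1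
    (hG.symm.index_eq_card ▸ hidx)) rfl finrank_pos).form
  let pr : X → GT.EAV hE := fun x => if h : x ∈ V then GT.EAV.mk hE x h else 0
  have h3 : ∀ x : GT.EAV hE, pr x.val = x := fun x => dif_pos x.val_mem
  refine S4959.result p V hV hidx hC G hG v.val v.val_mem (GT.EAV.grp U) (GT.EAV.grp_le U) ?_ ?_
    (fun x y => B (pr x) (pr y)) ?_ ?_ ?_ ?_
  · rintro h hh e _ ⟨u, hu, rfl⟩
    exact ⟨_, (h1 ⟨h, hh⟩ (GT.EAV.ext e)).1 u hu, rfl⟩
  · intro h hh e h4
    have h5 := (h1 ⟨h, hh⟩ (GT.EAV.ext e)).2.1 fun u hu => GT.EAV.ext (h4 _ ⟨u, hu, rfl⟩)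
    refine disjoint_def.1 hG.disjoint (hC.le fun x hx => ?_) hh
    exact (mul_inv_eq_iff_eq_mul.1
      (congrArg GT.EAV.val (LinearMap.congr_fun h5 (GT.EAV.mk hE x hx)))).symm
  · rintro _ ⟨u, -, rfl⟩ _ ⟨u', -, rfl⟩ w -
    rw [← GT.EAV.val_add, h3, h3, h3, map_add, LinearMap.add_apply]
  · rintro u - _ ⟨w, -, rfl⟩ _ ⟨w', -, rfl⟩
    rw [← GT.EAV.val_add, h3, h3, h3, map_add]
  · rintro h hh e _ ⟨u, hu, rfl⟩ _ ⟨w, hw, rfl⟩
    have := (h1 ⟨h, hh⟩ (GT.EAV.ext e)).2.2 u hu w hw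
    rw [← h3 (ρ _ u), ← h3 (ρ _ w)] at this
    rw [h3, h3]
    exact this
  · rintro _ ⟨u, hu, rfl⟩ h4
    refine GT.EAV.val_eq_one_iff.2 (h2 u hu fun w hw => ?_)
    simpa only [h3] using h4 _ ⟨w, hw, rfl⟩

theorem kk_le_of_frattini {G : Type u} [Group G] [Finite G] [Group.IsSolvable G] [Nontrivial G]
    {p : ℕ} [hp : Fact p.Prime] (hΦ : frattini G = ⊥) (hF : IsPGroup p (fittingSubgroup G)) :
    ∃ r, p ^ r ≤ Nat.card (pCore p G) ∧ kk G ≤ Nat.card (pCore p G) * 3 ^ (r - 1) := by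
  have hV : fittingSubgroup G = pCore p G := le_antisymm (GT.le_pCore hF) (GT.pCore_le_fitting hp.out)
  have hC : centralizer (pCore p G : Set G) ≤ pCore p G := hV ▸ GT.centralizer_fitting_le
  have hc : ∀ x ∈ pCore p G, ∀ y ∈ pCore p G, x * y = y * x := fun x hx y hy => Subtype.mk.inj
    ((GT.isMulCommutative_fitting_of_frattini_eq_bot hΦ).1.1 ⟨x, hV.ge hx⟩ ⟨y, hV.ge hy⟩)
  have hne : pCore p G ≠ ⊥ := hV ▸ GT.fitting_ne_bot
  obtain ⟨M, _, _, _, ρ, h1, hr, hu⟩ := exists_faithful hC hc hne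
  obtain ⟨Q, _, π, h3, h4, h5⟩ := fk_lin _ _ M ρ rfl h1
  have := Finite.of_surjective π h3
  replace h5 := h5.of_inj π ((MonoidHom.ker_eq_bot_iff π).1 (hu _ inferInstance h4))
  have hP := GT.isPGroup_pCore (G := G) p
  set V := pCore p G
  let f := (QuotientGroup.mk' (fittingSubgroup (G ⧸ V))).comp (QuotientGroup.mk' V)
  refine ⟨_, hr, (card_conjClasses_le_ker_mul_range f).trans (Nat.mul_le_mul ?_ (h5 _))⟩
  have hY : ∀ x, x ∈ f.ker ↔ (x : G ⧸ V) ∈ fittingSubgroup (G ⧸ V) := fun x =>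
    QuotientGroup.eq_one_iff _
  have hVY : V ≤ f.ker := fun x hx => (hY x).2 (by
    rw [(QuotientGroup.eq_one_iff x).2 hx]; exact one_mem _)
  let σ : f.ker →* fittingSubgroup (G ⧸ V) :=
    ((QuotientGroup.mk' V).comp f.ker.subtype).codRestrict _ fun x => (hY x).1 x.2
  have hσ : σ.ker = V.subgroupOf f.ker := by
    ext x
    exact Subtype.ext_iff.trans (QuotientGroup.eq_one_iff _)
  have hidx : ¬ p ∣ (V.subgroupOf f.ker).index := fun h => by
    rw [← hσ, index_ker] at h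
    refine GT.not_dvd_card_pPrimeCore hp.out (G := G ⧸ V)
      ((h.trans (card_subgroup_dvd_card _)).trans (card_dvd_of_le ?_))
    simpa only [V, GT.pCore_quotient_pCore, bot_sup_eq] using GT.fitting_le_pCore_sup (G := G ⧸ V) p
  have hcard := Nat.card_congr (subgroupOfEquivOfLe hVY).toEquiv
  obtain ⟨a, ha⟩ := IsPGroup.iff_card.1 hP
  obtain ⟨K, hK⟩ := exists_right_complement'_of_coprime (N := V.subgroupOf f.ker) (by
    rw [hcard, ha]; exact (hp.out.coprime_iff_not_dvd.2 hidx).pow_left a)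
  have : Group.IsNilpotent K := nil_of_inj (σ.comp K.subtype) ((injective_iff_map_eq_one _).2
    fun x hx => Subtype.ext (disjoint_def.1 hK.disjoint (hσ.le hx) x.2))
  rw [← hcard]
  refine kgv_nil _ (fun v hv => Subtype.ext ?_) hidx (le_antisymm (fun x hx => hC fun y hy =>
    Subtype.mk.inj (hx ⟨y, hVY hy⟩ hy)) fun x hx y hy => Subtype.ext (hc _ hy _ hx))
    (fun e => hne (eq_bot_iff.2 fun x hx => Subtype.mk.inj (mem_bot.1 (e.le (show
      (⟨x, hVY hx⟩ : f.ker) ∈ V.subgroupOf _ from hx))))) K hK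
  exact mem_bot.1 (hΦ.le (GT.map_frattini_le_frattini V
    ⟨_, GT.PG.pow_mem_frattini hP ⟨v, hv⟩, rfl⟩))

theorem kk_le_of_core {G : Type u} [Group G] [Finite G] [Group.IsSolvable G] {p : ℕ}
    [hp : Fact p.Prime] (h : pPrimeCore p G = ⊥) (hd : p ∣ Nat.card G) :
    kk G ≤ 3 ^ ((Nat.card G).factorization p - 1) * p ^ (Nat.card G).factorization p := by
  have hF : IsPGroup p (fittingSubgroup G) := GT.fitting_eq_pCore hp.out h ▸ GT.isPGroup_pCore p
  have : Nontrivial (G ⧸ frattini G) := Finite.one_lt_card_iff_nontrivial.1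
    (hp.out.one_lt.trans_le (Nat.le_of_dvd Nat.card_pos (GT.prime_dvd_index_frattini hp.out hd)))
  obtain ⟨r, h1, h2⟩ := kk_le_of_frattini (p := p) (GT.frattini_quotient_frattini (G := G))
    (GT.fitting_quotient_of_le_frattini (le_refl (frattini G)) ▸ hF.map _)
  obtain ⟨a, ha⟩ := IsPGroup.iff_card.1 (hF.to_le GT.frattini_le_fitting)
  obtain ⟨b, hb⟩ := IsPGroup.iff_card.1 (GT.isPGroup_pCore (G := G ⧸ frattini G) p)
  have h3 : a + b ≤ (Nat.card G).factorization p :=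
    (hp.out.pow_dvd_iff_le_factorization Nat.card_pos.ne').1 (by
      rw [pow_add, ← ha, ← hb, ← (frattini G).card_mul_index]
      exact Nat.mul_dvd_mul_left _ (card_subgroup_dvd_card _))
  rw [hb] at h1 h2
  have h4 := (Nat.pow_le_pow_iff_right hp.out.one_lt).1 h1
  refine (card_conjClasses_le_normal_mul_quotient (frattini G)).trans
    ((Nat.mul_le_mul (card_conjClasses_le_card.trans ha.le) h2).trans ?_)
  rw [← mul_assoc, ← pow_add, mul_comm]
  exact Nat.mul_le_mul (Nat.pow_le_pow_right (by norm_num) (by omega))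
    (Nat.pow_le_pow_right hp.out.pos h3)

/-- the number of characters over an invariant character -/
theorem ncard_over_le {G : Type u} [Group G] [Finite G] {N : Subgroup G} [hN : N.Normal]
    (θ : IrrCharacter N) (h : inertia N (θ : N → ℂ) = ⊤) :
    (overSet N {θ}).ncard ≤ kk (G ⧸ N) := by
  classical
  have := Fintype.ofFinite N
  obtain ⟨T⟩ := nonempty_tripleCover θ.2 fun g => mem_inertia.1 (h.ge (mem_top g))
  have h1 := fun χ : overSet N {θ} => T.exists_eq_mul θ.2 χ.1.2 (by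
    obtain ⟨_, rfl, h⟩ := χ.2
    exact over_subtype_iff.1 h)
  choose β h2 h3 h4 using h1
  have hs : Function.Surjective ((QuotientGroup.mk' N).comp T.π) :=
    (QuotientGroup.mk'_surjective N).comp T.surj
  choose t ht using fun C : ConjClasses (G ⧸ N) => hs C.out
  have h5 : ∀ q : T.Γ ⧸ T.s.range, ∃ (C : ConjClasses (G ⧸ N)) (c : ℂ),
      ∀ χ, β χ q = c * β χ (t C) := fun q => by
    obtain ⟨x, rfl⟩ := QuotientGroup.mk_surjective q
    let C := ConjClasses.mk ((T.π x : G) : G ⧸ N)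
    obtain ⟨y, hy⟩ := isConj_iff.1 (ConjClasses.mk_eq_mk_iff_isConj.1 (Quotient.out_eq C))
    obtain ⟨y, rfl⟩ := hs y
    rw [← ht, ← map_inv, ← map_mul, ← map_mul] at hy
    have h6 : (y * t C * y⁻¹)⁻¹ * x ∈ T.π.ker ⊔ T.s.range := by
      rw [sup_comm, ← T.comap_eq, mem_comap, map_mul, map_inv]
      exact QuotientGroup.eq.1 hy
    obtain ⟨z, hz, n, hn, e⟩ := mem_sup_of_normal_right.1 h6
    refine ⟨C, (T.lam ⟨z, hz⟩ : ℂ)⁻¹, fun χ => ?_⟩
    have h7 : (x : T.Γ ⧸ T.s.range) = (z * (y * t C * y⁻¹) : T.Γ) := by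
      rw [← mem_center_iff.1 (T.ker_le hz), eq_comm, QuotientGroup.eq, mul_inv_rev, mul_assoc, ← e,
        inv_mul_cancel_left]
      exact hn
    rw [h7, h4 χ ⟨z, hz⟩, QuotientGroup.mk_mul, QuotientGroup.mk_mul, QuotientGroup.mk_inv,
      (h2 χ).isClassFunction]
  choose C c h5 using h5
  have h6 : LinearIndependent ℂ fun χ (C : ConjClasses (G ⧸ N)) => β χ (t C) := by
    refine LinearIndependent.of_comp (LinearMap.pi fun q => c q • LinearMap.proj (C q)) ?_
    have h7 := linearIndependent_irr.comp (fun χ => (⟨β χ, h2 χ⟩ : IrrCharacter _)) fun a b e => by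
      refine Subtype.ext (Subtype.ext (funext fun g => ?_))
      obtain ⟨x, rfl⟩ := T.surj g
      rw [h3, h3, Subtype.mk.inj e]
    have h8 : (LinearMap.pi fun q => c q • LinearMap.proj (R := ℂ) (φ := fun _ => ℂ) (C q)) ∘
        (fun χ (C : ConjClasses (G ⧸ N)) => β χ (t C)) = β :=
      funext fun χ => funext fun q => (h5 q χ).symm
    rw [h8]
    exact h7
  have := Fintype.ofFinite (ConjClasses (G ⧸ N))
  have := Fintype.ofFinite (overSet N {θ})
  have h7 := h6.fintype_card_le_finrank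
  rwa [finrank_fintype_fun_eq_card, ← Nat.card_eq_fintype_card, ← Nat.card_eq_fintype_card] at h7

theorem ncard_block_le {p : ℕ} [hp : Fact p.Prime] {M : Ideal AlgInt} (hM : IsPModular p M) (n : ℕ) :
    ∀ (G : Type u) [Group G] [Finite G] [Group.IsSolvable G], Nat.card G = n →
      ∀ {B : Set (IrrCharacter G)}, IsPBlock M B → 0 < blockDefect p B →
      B.ncard ≤ 3 ^ (blockDefect p B - 1) * p ^ blockDefect p B := by
  have := hM.isMaximal
  induction n using Nat.strong_induction_on with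
  | _ n ih =>
  intro G _ _ hG hn B hB hd
  have := Fintype.ofFinite G
  obtain ⟨χ, hχ⟩ := hB.nonempty
  obtain ⟨θ, hθ⟩ := exists_over_under (pPrimeCore p G).subtype χ
  have hN := GT.not_dvd_card_pPrimeCore (G := G) hp.out
  have hb := isPBlock_singleton_of_not_dvd hM hN θ
  have hc : Covers _ B {θ} := ⟨χ, hχ, θ, rfl, hθ⟩
  by_cases hT : inertia _ θ.1 = ⊤
  · obtain ⟨h1, h2⟩ := isPBlock_overSet_of_invariant hM
      (GT.isPSolvable_of_isSolvable hG).isPConstrained rfl hT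
    obtain rfl := hB.eq_of_mem h1 hχ ⟨θ, rfl, hθ⟩
    have h3 : (Nat.card G).factorization p = (Nat.card (G ⧸ pPrimeCore p G)).factorization p := by
      rw [card_eq_card_quotient_mul_card_subgroup (pPrimeCore p G),
        Nat.factorization_mul Nat.card_pos.ne' Nat.card_pos.ne', Finsupp.add_apply,
        Nat.factorization_eq_zero_of_not_dvd hN, add_zero]
    rw [h2, h3] at hd ⊢
    exact (ncard_over_le θ hT).trans (kk_le_of_core GT.pPrimeCore_quotient_pPrimeCore
      (Nat.dvd_of_factorization_pos hd.ne'))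
  · obtain ⟨B', hB', hc', rfl⟩ := FR.exists_eq_indSet hb (hNT := le_inertia θ.isClassFunction)
      (blkStab_singleton θ).le hB hc
    have h1 := fun ψ h => FR.isIrr hb (blkStab_singleton θ).le hB' hc' (ψ := ψ) h
    rw [blockDefect_indSet hB'.nonempty h1] at hd ⊢
    refine le_trans ?_ (ih _ ?_ _ rfl hB' hd)
    · choose f hf using fun χ : indSet _ B' => χ.2
      exact Nat.card_le_card_of_injective (fun χ => (⟨f χ, (hf χ).1⟩ : B')) fun a b e =>
        Subtype.ext (Subtype.ext (by rw [(hf a).2, (hf b).2, Subtype.mk.inj e]))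
    · rw [← hn, ← card_top (G := G)]
      exact GT.PG.card_lt_of_lt (lt_top_iff_ne_top.2 hT)

end Cfsg.Agent.FG.HK
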