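import Mathlib
import Cfsg.Agent.FG.ClassIdx
import Cfsg.Agent.Perm.PermChar
import Cfsg.Agent.Ch.Linear
import Cfsg.Agent.Ch.Kernel

/-!
# A simple group with a regular abelian subgroup that contains the centralizers of its elements

If `B` is abelian, equal to the centralizer of each of its non-identity elements, regular on a
transitive `G`-set and has a proper non-trivial subgroup normalized by `N(B)`, then the action is
doubly transitive.
-/

set_option autoImplicit false

namespace Cfsg.Agent.FG.Ito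

open Subgroup Cfsg Cfsg.Agent.Ch Cfsg.Agent.FG.CI
open scoped ComplexConjugate

variable {G : Type*} [Group G]

theorem relIndex_mul_card {A B : Subgroup G} (h : A ≤ B) :
    A.relIndex B * Nat.card A = Nat.card B := by
  rw [← (A.subgroupOf B).index_mul_card, Nat.card_congr (subgroupOfEquivOfLe h).toEquiv]
  rfl

/-- `B` is the centralizer of each of its non-identity elements. -/
def CC (B : Subgroup G) : Prop := ∀ u ∈ B, u ≠ 1 → centralizer ({u} : Set G) = B

theorem CC.comm {B : Subgroup G} (h : CC B) {a b : G} (ha : a ∈ B) (hb : b ∈ B) :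
    a * b = b * a := by
  by_cases e : b = 1
  · simp [e]
  · exact mem_cent.1 ((h b hb e).ge ha)

theorem CC.mem_normalizer {B : Subgroup G} (h : CC B) {u g : G} (hu : u ∈ B) (h1 : u ≠ 1)
    (hg : g * u * g⁻¹ ∈ B) : g ∈ normalizer (B : Set G) := by
  have h2 : g * u * g⁻¹ ≠ 1 := fun e => h1 (by simpa [mul_inv_eq_one] using e)
  refine mem_normalizer_iff.2 fun y => ?_
  conv_rhs => rw [← h _ hg h2, mem_cent_conj]
  rw [h u hu h1]
  simp [mul_assoc]

theorem CC.conj {B : Subgroup G} (h : CC B) (g : G) : CC (B.map (MulAut.conj g).toMonoidHom) := by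
  rintro _ ⟨u, hu, rfl⟩ h1
  have h2 : u ≠ 1 := fun e => h1 (by simp [e])
  have := cent_conj u g
  rw [h u hu h2] at this
  exact this

theorem CC.count [Fintype G] {B : Subgroup G} [Fintype B] (h : CC B) {F : G → ℝ}
    (h0 : ∀ g, 0 ≤ F g) (h1 : F 1 = 0) (hc : ∀ g x, F (x * g * x⁻¹) = F g) :
    Nat.card G * ∑ u : B, F u ≤ Nat.card (normalizer (B : Set G)) * ∑ g, F g := by
  classical
  have e1 : ∑ p : G × B, F (p.1 * p.2 * p.1⁻¹) = Nat.card G * ∑ u : B, F u := by
    rw [Fintype.sum_prod_type]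
    simp only [hc, Finset.sum_const, Finset.card_univ, nsmul_eq_mul, Nat.card_eq_fintype_card]
  rw [← e1, ← Finset.sum_fiberwise (s := Finset.univ) (g := fun p : G × B => p.1 * p.2 * p.1⁻¹),
    Finset.mul_sum]
  refine Finset.sum_le_sum fun g _ => ?_
  rw [Finset.sum_congr rfl (g := fun _ => F g) fun p hp => by rw [(Finset.mem_filter.1 hp).2],
    Finset.sum_const, nsmul_eq_mul]
  by_cases hg : g = 1
  · simp [hg, h1]
  refine mul_le_mul_of_nonneg_right (Nat.cast_le.2 ?_) (h0 g)
  rcases (Finset.univ.filter fun p : G × B => p.1 * p.2 * p.1⁻¹ = g).eq_empty_or_nonempty with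
    e | ⟨p, hp⟩
  · simp [e]
  have hp' := (Finset.mem_filter.1 hp).2
  rw [← Nat.card_eq_finsetCard]
  refine Nat.card_le_card_of_injective (fun q => ⟨p.1⁻¹ * q.1.1, h.mem_normalizer q.1.2.2
    (fun e => hg (by rw [← (Finset.mem_filter.1 q.2).2, e]; simp)) ?_⟩) fun q r e => ?_
  · have := (Finset.mem_filter.1 q.2).2
    rw [show p.1⁻¹ * q.1.1 * q.1.2 * (p.1⁻¹ * q.1.1)⁻¹ =
      p.1⁻¹ * (q.1.1 * q.1.2 * q.1.1⁻¹) * p.1 by group, this, ← hp']
    simp [mul_assoc]
  · have e1 : q.1.1 = r.1.1 := by simpa using e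
    have e2 := (Finset.mem_filter.1 q.2).2.trans (Finset.mem_filter.1 r.2).2.symm
    rw [e1] at e2
    exact Subtype.ext (Prod.ext e1 (Subtype.ext (by simpa using e2)))

/-- The conjugate of a linear character of `B` by an element of `N(B)`. -/
def cj {B : Subgroup G} (f : B →* ℂˣ) (n : normalizer (B : Set G)) : B →* ℂˣ :=
  f.comp (B.normalizerMonoidHom n).toMonoidHom

theorem cj_apply {B : Subgroup G} (f : B →* ℂˣ) (n : normalizer (B : Set G)) (u : B) :
    cj f n u = f ⟨n * u * (n : G)⁻¹, (mem_normalizer_iff.1 n.2 u).1 u.2⟩ := rfl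

theorem CC.cj_inj [Finite G] {B : Subgroup G} (h : CC B) {f : B →* ℂˣ} (hf : f ≠ 1)
    {n m : normalizer (B : Set G)} (e : cj f n = cj f m) : (n : G)⁻¹ * m ∈ B := by
  by_contra hn
  have hk : (m : G) * (n : G)⁻¹ ∉ B := fun hk => hn (by
    simpa [mul_assoc] using (mem_normalizer_iff.1 (inv_mem n.2) _).1 hk)
  set k : normalizer (B : Set G) := m * n⁻¹ with hkd
  have e1 : ∀ u : B, f (B.normalizerMonoidHom k u) = f u := fun u => by
    have := DFunLike.congr_fun e (B.normalizerMonoidHom n⁻¹ u)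
    simp only [cj, MonoidHom.comp_apply, MulEquiv.coe_toMonoidHom] at this
    rw [← MulAut.mul_apply, ← map_mul, mul_inv_cancel, map_one, MulAut.one_apply,
      ← MulAut.mul_apply, ← map_mul] at this
    exact this.symm
  have e2 : Function.Injective fun u : B => u⁻¹ * B.normalizerMonoidHom k u := fun u v huv => by
    have h1 : (u : G)⁻¹ * (k * u * (k : G)⁻¹) = (v : G)⁻¹ * (k * v * (k : G)⁻¹) :=
      congrArg Subtype.val huv
    by_contra hne
    have h2 : (u : G) * (v : G)⁻¹ ≠ 1 := fun e => hne (Subtype.ext (mul_inv_eq_one.1 e))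
    refine hk ((h _ (mul_mem u.2 (inv_mem v.2)) h2).le (mem_cent'.2 ?_))
    change (k : G) * _ * (k : G)⁻¹ = _
    have h3 : (k : G) * u * (k : G)⁻¹ = u * ((v : G)⁻¹ * (k * v * (k : G)⁻¹)) := by
      rw [← h1]; group
    calc (k : G) * (u * (v : G)⁻¹) * (k : G)⁻¹
        = ((k : G) * u * (k : G)⁻¹) * ((k : G) * v * (k : G)⁻¹)⁻¹ := by group
      _ = _ := by rw [h3]; group
  refine hf (MonoidHom.ext fun u => ?_)
  obtain ⟨v, rfl⟩ := Finite.surjective_of_injective e2 u
  simp [e1]

theorem CC.degree [Fintype G] {B : Subgroup G} [Fintype B] (h : CC B) {χ : G → ℂ}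
    (hχ : IsCharacter G χ) {f : B →* ℂˣ} (hf : f ≠ 1)
    (hm : classInner (fun u : B => χ u) (fun u => (f u : ℂ)) ≠ 0) :
    B.relIndex (normalizer (B : Set G)) ≤ charDegree χ ∧
      (charDegree χ = B.relIndex (normalizer (B : Set G)) → ∀ Q : Subgroup G,
        normalizer (B : Set G) ≤ normalizer (Q : Set G) → (∀ u : B, (u : G) ∈ Q → f u = 1) →
        ∀ u : B, (u : G) ∈ Q → χ u = χ 1) := by
  classical
  set N := normalizer (B : Set G)
  have := Fintype.ofFinite (N ⧸ B.subgroupOf N)
  let F : N ⧸ B.subgroupOf N → IrrCharacter B := fun q => linIrr (cj f q.out)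
  have hF : Function.Injective F := fun q r e => by
    rw [← q.out_eq, ← r.out_eq]
    exact QuotientGroup.eq.2 (h.cj_inj hf (linIrr_injective e))
  have hr := hχ.restrict B
  have h1 : ∀ q, classInner (fun u : B => χ u) (F q) ≠ 0 := fun q => by
    rw [← classInner_comp_mulEquiv (B.normalizerMonoidHom q.out)] at hm
    convert hm using 2
    · funext u
      exact (hχ.isClassFunction _ _).symm
    · rfl
  let θ : B → ℂ := ∑ q, (F q : B → ℂ)
  have hθ : IsCharacter B θ := IsCharacter.sum fun q _ => (F q).isCharacter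
  have h2 : IsCharacter B ((fun u : B => χ u) - θ) := by
    refine IsCharacter.of_classInner (hr.isClassFunction.sub hθ.isClassFunction) fun φ => ?_
    obtain ⟨n, hn⟩ := hr.exists_nat_classInner φ.isCharacter
    rw [classInner_sub_left, hn, classInner_sum_left]
    by_cases e : ∃ q, F q = φ
    · obtain ⟨q, rfl⟩ := e
      have h3 : n ≠ 0 := fun e => h1 q (by rw [hn, e, Nat.cast_zero])
      refine ⟨n - 1, ?_⟩
      rw [Finset.sum_eq_single q (fun r _ hrq => (F r).2.classInner_eq_zero (F q).2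
        fun e => hrq (hF (Subtype.ext e))) (by simp), (F q).2.classInner_self,
        Nat.cast_sub (by omega), Nat.cast_one]
    · refine ⟨n, ?_⟩
      rw [Finset.sum_eq_zero fun r _ => (F r).2.classInner_eq_zero φ.2
        fun e' => e ⟨r, Subtype.ext e'⟩, sub_zero]
  have h3 : θ 1 = (B.relIndex N : ℕ) := by
    simp only [θ, F, Finset.sum_apply, linIrr_apply, map_one, Units.val_one, Finset.sum_const,
      Finset.card_univ, nsmul_eq_mul, mul_one]
    rw [← Nat.card_eq_fintype_card]
    rfl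
  have h4 : charDegree θ = B.relIndex N := by simp [charDegree, h3]
  have h5 : charDegree (fun u : B => χ u) = charDegree χ := rfl
  refine ⟨h4 ▸ h5 ▸ hθ.charDegree_le_of_sub h2, fun e Q hQ hfQ u hu => ?_⟩
  have h6 := h2.eq_of_sub_of_apply_one (by
    rw [h3, ← e]; exact hχ.coe_charDegree.symm)
  have h7 := congrFun h6 u
  have h8 := congrFun h6 1
  simp only [OneMemClass.coe_one] at h7 h8
  rw [h7, h8]
  simp only [θ, F, Finset.sum_apply, linIrr_apply, map_one]
  refine Finset.sum_congr rfl fun q _ => ?_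
  rw [cj_apply, hfQ _ ((mem_normalizer_iff.1 (hQ q.out.2) _).1 hu)]

theorem inner_of_add_eq_reg {B : Type*} [Group B] [Fintype B] (hB : ∀ a b : B, a * b = b * a)
    {a b c : B → ℂ} (ha : IsCharacter B a) (hb : IsCharacter B b) (hc : IsCharacter B c)
    (h : a + b + c = regChar B) : classInner a a = charDegree a ∧ classInner a b = 0 := by
  obtain ⟨m, -, h1, h2⟩ := ha.exists_nat_classInner_self
  obtain ⟨k, hk⟩ := ha.exists_nat_classInner hb
  obtain ⟨l, hl⟩ := ha.exists_nat_classInner hc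
  have h3 := classInner_regChar_right a
  rw [← h, classInner_add_right, classInner_add_right, h1, hk, hl, ← ha.coe_charDegree] at h3
  have h4 : ∑ φ, m φ ^ 2 + k + l = charDegree a := by exact_mod_cast h3
  have h5 : charDegree a ≤ ∑ φ, m φ ^ 2 := by
    rw [h2]
    refine Finset.sum_le_sum fun φ _ => ?_
    rw [φ.isCharacter.charDegree_eq_one_iff.2 (φ.2.apply_one_eq_one_of_comm hB), mul_one]
    exact Nat.le_self_pow two_ne_zero _
  refine ⟨?_, ?_⟩
  · rw [h1]; congr 1; omega
  · rw [hk, show k = 0 by omega, Nat.cast_zero]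

theorem exists_irr_of_restrict [Fintype G] {B : Subgroup G} [Fintype B] {ψ : G → ℂ}
    (hψ : IsCharacter G ψ) {f : B → ℂ} (h : classInner (fun u : B => ψ u) f ≠ 0) :
    ∃ χ, IsIrrCharacter G χ ∧ classInner ψ χ ≠ 0 ∧ classInner (fun u : B => χ u) f ≠ 0 := by
  obtain ⟨m, h1, h2⟩ := hψ.exists_mult
  by_contra hc
  push Not at hc
  refine h ?_
  have : (fun u : B => ψ u) = ∑ φ : IrrCharacter G, m φ • fun u : B => (φ : G → ℂ) u := by
    funext u
    conv_lhs => rw [h2]
    simp [Finset.sum_apply]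
  rw [this, classInner_sum_left]
  refine Finset.sum_eq_zero fun φ _ => ?_
  rw [classInner_nsmul_left]
  by_cases e : m φ = 0
  · simp [e]
  · rw [hc φ φ.2 (by rw [h1]; exact_mod_cast e), mul_zero]

theorem CC.ineq [Fintype G] {B : Subgroup G} [Fintype B] (h : CC B) {χ ψ : G → ℂ}
    (hχ : IsIrrCharacter G χ) (hψ : IsIrrCharacter G ψ)
    (h1 : classInner (fun u : B => χ u) (fun u : B => χ u) = charDegree χ)
    (h2 : classInner (fun u : B => ψ u) (fun u : B => ψ u) = charDegree ψ)
    (h3 : classInner (fun u : B => χ u) (fun u : B => ψ u) = 0) :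
    charDegree ψ ^ 2 * charDegree χ + charDegree χ ^ 2 * charDegree ψ ≤
      B.relIndex (normalizer (B : Set G)) * (charDegree χ ^ 2 + charDegree ψ ^ 2) := by
  have hne : χ ≠ ψ := fun e => by
    rw [← e, h1] at h3
    exact hχ.charDegree_pos.ne' (by exact_mod_cast h3)
  set s := charDegree χ
  set t := charDegree ψ
  let φ : G → ℂ := t • χ - s • ψ
  have hφ : IsClassFunction G φ :=
    (hχ.isCharacter.isClassFunction.smul t).sub (hψ.isCharacter.isClassFunction.smul s)
  have e1 : classInner φ φ = (s ^ 2 + t ^ 2 : ℕ) := by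
    simp only [φ, classInner_sub_sub_self, classInner_nsmul_left, classInner_nsmul_right,
      hχ.classInner_self, hψ.classInner_self, hχ.classInner_eq_zero hψ hne,
      hψ.classInner_eq_zero hχ hne.symm]
    push_cast; ring
  have e2 : classInner (fun u : B => φ u) (fun u : B => φ u) = (t ^ 2 * s + s ^ 2 * t : ℕ) := by
    rw [show (fun u : B => φ u) = t • (fun u : B => χ u) - s • (fun u : B => ψ u) from rfl]
    simp only [classInner_sub_sub_self, classInner_nsmul_left, classInner_nsmul_right,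
      h1, h2, h3, classInner_eq_zero_comm.1 h3]
    push_cast; ring
  have e3 := h.count (F := fun g => ‖φ g‖ ^ 2) (fun g => by positivity) (by
    change ‖t • χ 1 - s • ψ 1‖ ^ 2 = 0
    rw [← hχ.isCharacter.coe_charDegree, ← hψ.isCharacter.coe_charDegree, nsmul_eq_mul,
      nsmul_eq_mul, mul_comm, sub_self]; simp) (fun g x => by rw [hφ g x])
  have e4 := congrArg Complex.re e1
  have e5 := congrArg Complex.re e2
  rw [re_classInner_self, Complex.natCast_re, inv_mul_eq_iff_eq_mul₀
    (Nat.cast_ne_zero.2 Nat.card_pos.ne')] at e4 e5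
  rw [e4, e5, ← relIndex_mul_card (le_normalizer (H := B))] at e3
  have e6 : Nat.card G * (Nat.card B * (t ^ 2 * s + s ^ 2 * t)) ≤
      B.relIndex (normalizer (B : Set G)) * Nat.card B * (Nat.card G * (s ^ 2 + t ^ 2)) := by
    exact_mod_cast e3
  refine Nat.le_of_mul_le_mul_left (c := Nat.card G * Nat.card B) ?_
    (Nat.mul_pos (Nat.card_pos (α := G)) (Nat.card_pos (α := B)))
  convert e6 using 1 <;> ring

theorem CC.inner_eq_two [Fintype G] [IsSimpleGroup G] {B : Subgroup G} (h : CC B) {π : G → ℂ}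
    (hπ : IsCharacter G π) (h1 : classInner π (fun _ => 1) = 1)
    (hr : ∀ u : B, π u = regChar B u) {Q : Subgroup G} (hQ : Q ≠ ⊥) (hQB : Q < B)
    (hN : normalizer (B : Set G) ≤ normalizer (Q : Set G)) : classInner π π = 2 := by
  classical
  have := Fintype.ofFinite B
  have hB : ∀ a b : B, a * b = b * a := fun a b => Subtype.ext (h.comm a.2 b.2)
  have hr' : (fun u : B => π u) = regChar B := funext hr
  obtain ⟨f, hf, hfQ⟩ : ∃ f : B →* ℂˣ, f ≠ 1 ∧ ∀ u : B, (u : G) ∈ Q → f u = 1 := by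
    have : (Q.subgroupOf B).Normal := ⟨fun a ha g => by rwa [hB g a, mul_inv_cancel_right]⟩
    obtain ⟨u, hu, huQ⟩ := SetLike.exists_of_lt hQB
    obtain ⟨f, hf⟩ := exists_monoidHom_units_ne_one_of_comm (G := B ⧸ Q.subgroupOf B)
      (fun a b => by
        obtain ⟨a, rfl⟩ := QuotientGroup.mk_surjective a
        obtain ⟨b, rfl⟩ := QuotientGroup.mk_surjective b
        rw [← QuotientGroup.mk_mul, hB, QuotientGroup.mk_mul])
      (g := ((⟨u, hu⟩ : B) : B ⧸ Q.subgroupOf B)) fun e =>
        huQ ((QuotientGroup.eq_one_iff (N := Q.subgroupOf B) ⟨u, hu⟩).1 e)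
    refine ⟨f.comp (QuotientGroup.mk' _), fun e => hf (DFunLike.congr_fun e _), fun v hv => ?_⟩
    rw [MonoidHom.comp_apply, QuotientGroup.mk'_apply, (QuotientGroup.eq_one_iff v).2 hv, map_one]
  obtain ⟨χ, hχ, h2, h3⟩ := exists_irr_of_restrict hπ (B := B) (f := fun u => (f u : ℂ)) (by
    rw [hr', classInner_regChar_left]; simp)
  have hχ1 : χ ≠ fun _ => 1 := fun e => h3 (by
    have := classInner_monoidHom_units (1 : B →* ℂˣ) f
    rw [if_neg hf.symm] at this
    rw [e]; exact this)
  have h4 : IsCharacter G (π - fun _ => 1) := hπ.sub_irr IsIrrCharacter.one (by rw [h1]; simp)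
  have h5 : IsCharacter G (π - (fun _ => 1) - χ) := h4.sub_irr hχ (by
    rwa [classInner_sub_left, IsIrrCharacter.one.classInner_eq_zero hχ hχ1.symm, sub_zero])
  by_cases e : π - (fun _ => 1) - χ = 0
  · rw [show π = (fun _ => 1) + χ by rw [← sub_eq_iff_eq_add', ← sub_eq_zero, e],
      classInner_add_self_of_orthogonal (IsIrrCharacter.one.classInner_eq_zero hχ hχ1.symm),
      IsIrrCharacter.one.classInner_self, hχ.classInner_self]
    norm_num
  exfalso
  obtain ⟨φ, hφ, h6⟩ := (h5.restrict B).exists_irr_constituent fun e' =>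
    e (h5.eq_zero_of_apply_one (congrFun e' 1))
  obtain ⟨f', rfl⟩ := hφ.exists_monoidHom_of_comm hB
  obtain ⟨ψ, hψ, h7, h8⟩ := exists_irr_of_restrict h5 h6
  have h9 := (h5.sub_irr hψ h7).restrict B
  have ha := hχ.isCharacter.restrict B
  have hb := hψ.isCharacter.restrict B
  have h0 : IsCharacter B fun _ => 1 := IsCharacter.one
  have i1 := inner_of_add_eq_reg hB ha hb (h0.add h9) (by rw [← hr']; funext u; simp; ring)
  have i2 := inner_of_add_eq_reg hB hb ha (h0.add h9) (by rw [← hr']; funext u; simp; ring)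
  have i3 := inner_of_add_eq_reg hB hb h0 (ha.add h9) (by rw [← hr']; funext u; simp; ring)
  have hf' : f' ≠ 1 := fun e => h8 (by rw [e]; exact i3.2)
  have i4 := h.ineq hχ hψ i1.1 i2.1 i1.2
  obtain ⟨i5, i6⟩ := h.degree hχ.isCharacter hf h3
  have i7 := (h.degree hψ.isCharacter hf' h8).1
  have i8 := hχ.charDegree_pos
  have i9 := hψ.charDegree_pos
  have i10 : charDegree χ = B.relIndex (normalizer (B : Set G)) := by
    by_contra hne
    have := Nat.mul_lt_mul_of_pos_left (lt_of_le_of_ne i5 (Ne.symm hne)) (pow_pos i9 2)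
    have := Nat.mul_le_mul_left (charDegree χ ^ 2) i7
    nlinarith
  refine hQ (le_bot_iff.1 ?_)
  rw [← hχ.charKer_eq_bot_of_simple hχ1]
  exact fun u hu => hχ.mem_charKer.2 (i6 i10 Q hN hfQ ⟨u, hQB.le hu⟩ hu)

theorem two_trans_of_rank [Fintype G] {Ω : Type*} [MulAction G Ω] [Finite Ω]
    (h : classInner (Perm.permChar G Ω) (Perm.permChar G Ω) = 2) {a b c d : Ω} (hab : a ≠ b)
    (hcd : c ≠ d) : ∃ g : G, g • a = c ∧ g • b = d := by
  rw [Perm.classInner_permChar_self] at h
  have key : ∀ x y : Ω, x ≠ y → (Quotient.mk _ (x, y) : MulAction.orbitRel.Quotient G (Ω × Ω)) ≠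
      Quotient.mk _ (a, a) := fun x y hxy e => by
    obtain ⟨g, hg⟩ := Quotient.exact e
    exact hxy ((congrArg Prod.fst hg).symm.trans (congrArg Prod.snd hg))
  obtain ⟨g, hg⟩ := Quotient.exact (((Nat.card_eq_two_iff' _).1 (by exact_mod_cast h)).unique
    (key c d hcd) (key a b hab))
  exact ⟨g, congrArg Prod.fst hg, congrArg Prod.snd hg⟩

end Cfsg.Agent.FG.Ito
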