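import Mathlib
import Cfsg.Agent.FG.ItoA
import Cfsg.Agent.FG.ConjTypeB
import Cfsg.Agent.FG.H94Wielandt

/-!
# A simple group is not the product of an element centralizer and an abelian Hall subgroup
that contains the centralizers of its elements
-/

set_option autoImplicit false

namespace Cfsg.Agent.FG.Ito

open Subgroup Cfsg Cfsg.Agent.Ch Cfsg.Agent.FG.CI Cfsg.Agent.FG.CT

variable {G : Type*} [Group G]

theorem eq_top_of_conj_mem [IsSimpleGroup G] {x : G} (hx : x ≠ 1) {H : Subgroup G}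
    (h : ∀ g, g * x * g⁻¹ ∈ H) : H = ⊤ :=
  top_le_iff.1 (((normalCore_normal H).eq_bot_or_eq_top.resolve_left fun e =>
    hx (mem_bot.1 (e ▸ h))).ge.trans H.normalCore_le)

theorem index_eq_relIndex [Finite G] {T M : Subgroup G} [M.Normal] (h : T ⊔ M = ⊤) :
    T.index = T.relIndex M := by
  have h1 := relIndex_mul_index (inf_le_left : T ⊓ M ≤ T)
  have h2 := relIndex_mul_index (inf_le_right : T ⊓ M ≤ M)
  rw [inf_relIndex_left, ← relIndex_sup_right, h, relIndex_top_right] at h1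
  rw [inf_relIndex_right, ← h1, mul_comm] at h2
  exact (Nat.eq_of_mul_eq_mul_left (Nat.pos_of_ne_zero index_ne_zero_of_finite) h2).symm

theorem not_dvd_cidx_of_isolated [Finite G] {x : G} {p : ℕ} (hp : p.Prime) (hx : orderOf x = p)
    (h : ∀ g, Commute (g * x * g⁻¹) x → g * x * g⁻¹ = x) : ¬ p ∣ cidx x := by
  have := Fact.mk hp
  have h1 := (isPGroup_zpowers (p := p) (x := x) ⟨1, by rw [hx, pow_one]⟩).card_modEq_card_fixedPoints
    (G ⧸ centralizer ({x} : Set G))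
  have h2 : Nat.card (MulAction.fixedPoints (zpowers x) (G ⧸ centralizer ({x} : Set G))) = 1 := by
    refine Nat.card_eq_one_iff_exists.2 ⟨⟨((1 : G) : G ⧸ centralizer ({x} : Set G)), fun y => ?_⟩,
      fun y => Subtype.ext ?_⟩
    · change ((y.1 * 1 : G) : G ⧸ centralizer ({x} : Set G)) = _
      rw [QuotientGroup.eq, mul_one, mul_one]
      exact inv_mem (zpowers_le.2 (self_mem_cent x) y.2)
    · obtain ⟨y, hy⟩ := y
      obtain ⟨g, rfl⟩ := QuotientGroup.mk_surjective y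
      have h3 : ((x⁻¹ * g : G) : G ⧸ centralizer ({x} : Set G)) = g := hy ⟨x⁻¹, inv_mem (mem_zpowers x)⟩
      rw [QuotientGroup.eq] at h3 ⊢
      have h4 := h g⁻¹ (by simpa [mul_assoc] using mem_cent_commute.1 h3)
      rw [mul_one]
      exact mem_cent'.2 h4
  rw [h2] at h1
  exact fun e => hp.one_lt.ne' (Nat.dvd_one.1 ((Nat.ModEq.dvd_iff h1 dvd_rfl).1 e))

theorem mem_center_of_frob [Finite G] {x : G} {p : ℕ} (hp : p.Prime) (hx : orderOf x = p)
    (h : ∀ g, Commute (g * x * g⁻¹) x → g * x * g⁻¹ = x)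
    (h1 : ∀ g, ¬ Commute g x → ∀ y, Commute y x → Commute (g * y * g⁻¹) x → y ∈ center G)
    (h2 : ∀ r : ℕ, r.Prime → r ≠ p → ∀ R : Subgroup G, IsPGroup r R → ∀ g,
      g * x * g⁻¹ ∈ normalizer (R : Set G) → R ≤ centralizer {g * x * g⁻¹}) : x ∈ center G := by
  have := Fact.mk hp
  set N := centralizer ({x} : Set G)
  obtain ⟨M, hM, h3, h4⟩ := Wiel.frobenius_wielandt (N := N) ((center G).subgroupOf N)
    fun g hg y hy => h1 g (fun e => hg (mem_cent_commute.2 e)) y (mem_cent_commute.1 y.2)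
      (mem_cent_commute.1 hy)
  have h5 : ∀ y ∈ M, y ∈ N → y ∈ center G := fun y hy hy' =>
    (h3.le : _ ≤ _) (show (⟨y, hy'⟩ : N) ∈ M.subgroupOf N from hy)
  have h6 := index_eq_relIndex ((sup_comm _ _).trans h4)
  rw [← cidx_eq_one_iff]
  by_contra hne
  obtain ⟨r, hr, hrd⟩ := Nat.exists_prime_and_dvd hne
  have := Fact.mk hr
  have h7 := not_dvd_cidx_of_isolated hp hx h
  let R : Sylow r M := default
  have h8 : (normalizer (((R : Subgroup M).map M.subtype : Subgroup G) : Set G)).index ∣ N.index := by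
    rw [index_eq_relIndex R.normalizer_sup_eq_top, h6, ← inf_relIndex_right N M]
    exact relIndex_dvd_of_le_left _ fun y hy => center_le_normalizer _ (h5 y hy.2 hy.1)
  obtain ⟨Q, hQ⟩ := (not_dvd_index_iff _).1 fun e => h7 (e.trans h8)
  obtain ⟨g, hg⟩ := exists_conj_mem_sylow Q (x := x) ⟨1, by rw [hx, pow_one]⟩
  have h9 := h2 r hr (fun e => h7 (e ▸ hrd)) _ (R.isPGroup'.map _) g (hQ hg)
  refine (not_dvd_index_iff (N.subgroupOf M)).2 ⟨R, fun y hy => ?_⟩ (by
    change r ∣ N.relIndex M; rwa [← h6])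
  have h10 := h5 _ (hM.conj_mem' _ y.2 g) (mem_cent_conj.1 (h9 ⟨y, hy, rfl⟩))
  have h11 := (inferInstance : (center G).Normal).conj_mem _ h10 g
  exact center_le_cent x (by simpa [mul_assoc] using h11)

theorem CC.not_mem_normalizer [Finite G] [IsSimpleGroup G] {B : Subgroup G} (h : CC B)
    (hG : ¬ IsMulCommutative G) (h0 : B ≠ ⊥) {x : G} (hx : x ≠ 1)
    (hc : B.index.Coprime (cidx x)) : x ∉ normalizer (B : Set G) := fun hn => by
  have h1 : normalizer (B : Set G) = ⊤ := eq_top_of_conj_mem hx fun g => by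
    obtain ⟨a, ha, b, hb, rfl⟩ := exists_mul_of_coprime_index hc g
    rw [show a * b * x * (a * b)⁻¹ = a * (b * x * b⁻¹) * a⁻¹ by group, mem_cent'.1 hb]
    exact mul_mem (mul_mem (le_normalizer ha) hn) (inv_mem (le_normalizer ha))
  have h2 := (normalizer_eq_top_iff.1 h1).eq_bot_or_eq_top.resolve_left h0
  exact hG ⟨⟨fun a b => h.comm (h2 ▸ mem_top a) (h2 ▸ mem_top b)⟩⟩

theorem le_cent_of_two_trans [Finite G] [IsSimpleGroup G] {B : Subgroup G} (h : CC B)
    (hG : ¬ IsMulCommutative G) {x : G} {p : ℕ} (hp : p.Prime) (hx : orderOf x = p)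
    (hc : B.index.Coprime (cidx x))
    (hT : ∀ y z, IsConj x y → IsConj x z → y ≠ x → z ≠ x → ∃ a, Commute a x ∧ a * y * a⁻¹ = z)
    {r : ℕ} (hr : r.Prime) (hrp : r ≠ p) {R : Subgroup G} (hR : IsPGroup r R)
    (hn : x ∈ normalizer (R : Set G)) : R ≤ centralizer {x} := by
  have := Fact.mk hr
  have hx1 := ne_one_of_prime hp hx
  intro g hg
  by_contra hgx
  obtain ⟨P, hP⟩ := hR.exists_le_sylow
  by_cases e : r ∣ cidx x
  · obtain ⟨k, hk⟩ := (not_dvd_index_iff_conj P B).1 fun e' =>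
      hr.one_lt.ne' (Nat.eq_one_of_dvd_coprimes hc e' e)
    have hg1 : k * g * k⁻¹ ≠ 1 := fun e => hgx (by
      rw [show g = 1 by simpa [mul_inv_eq_one] using e]; exact one_mem _)
    refine h.not_mem_normalizer hG (fun e => hg1 (mem_bot.1 (e ▸ hk g (hP hg))))
      (x := k * x * k⁻¹) (fun e => hx1 (by simpa [mul_inv_eq_one] using e)) (by rwa [cidx_conj])
      (h.mem_normalizer (hk g (hP hg)) hg1 ?_)
    have := hk _ (hP ((mem_normalizer_iff.1 hn g).1 hg))
    simpa [mul_assoc] using this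
  obtain ⟨k, hk⟩ := (not_dvd_cidx_iff_conj P x).1 e
  have h1 : ∀ u ∈ R, Commute (k * x * k⁻¹) u := fun u hu => (mem_centralizer_iff.1 hk u (hP hu)).symm
  obtain ⟨a, ha, h2⟩ := hT (g * x * g⁻¹) (k * x * k⁻¹) (isConj_iff.2 ⟨g, rfl⟩)
    (isConj_iff.2 ⟨k, rfl⟩) (fun e => hgx (mem_cent'.2 e))
    fun e => hgx (mem_cent_commute.2 (e ▸ h1 g hg).symm)
  obtain ⟨j, hj⟩ := orderOf_of_mem hR (mul_mem hg ((mem_normalizer_iff.1 hn _).1 (inv_mem hg)))
  have h3 : (k * x * k⁻¹ * x⁻¹) ^ r ^ j = 1 := by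
    rw [← h2, show a * (g * x * g⁻¹) * a⁻¹ * x⁻¹ = a * (g * x * g⁻¹ * (a⁻¹ * x⁻¹ * a)) * a⁻¹ by group,
      ha.inv_inv.eq, conj_pow, show g * x * g⁻¹ * (x⁻¹ * a⁻¹ * a) = g * (x * g⁻¹ * x⁻¹) by group,
      ← hj, pow_orderOf_eq_one]
    simp
  have h4 : ∀ n : ℕ, ∀ u ∈ R, (k * x * k⁻¹ * x⁻¹) ^ n * u * ((k * x * k⁻¹ * x⁻¹) ^ n)⁻¹ =
      (x ^ n)⁻¹ * u * x ^ n := fun n => by
    induction n with
    | zero => simp
    | succ n ih =>
      intro u hu
      have h5 : x⁻¹ * u * x⁻¹⁻¹ ∈ R := (mem_normalizer_iff.1 (inv_mem hn) u).1 hu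
      have h6 := ih _ h5
      calc _ = (k * x * k⁻¹ * x⁻¹) ^ n * (k * x * k⁻¹ * (x⁻¹ * u * x⁻¹⁻¹) * (k * x * k⁻¹)⁻¹) *
            ((k * x * k⁻¹ * x⁻¹) ^ n)⁻¹ := by rw [pow_succ]; group
        _ = _ := by rw [(h1 _ h5).eq, mul_inv_cancel_right, h6, pow_succ']; group
  have h5 := h4 (r ^ j) g hg
  rw [h3, one_mul, inv_one, mul_one] at h5
  have h6 : x ^ r ^ j ∈ centralizer ({g} : Set G) := mem_cent.2 (by
    conv_lhs => rw [h5]
    group)
  refine hgx (mem_cent_symm.1 (zpowers_le.2 h6 (mem_zpowers_pow_iff.2 ?_)))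
  rw [hx]
  exact ((Nat.coprime_primes hr hp).2 hrp).pow_left j

theorem CC.not_factor [Finite G] [IsSimpleGroup G] {B : Subgroup G} (h : CC B)
    (hG : ¬ IsMulCommutative G) {x : G} {p : ℕ} (hp : p.Prime) (hx : orderOf x = p)
    (hc : B.index.Coprime (cidx x)) (hB : Nat.card B = cidx x) : False := by
  classical
  have := Fintype.ofFinite G
  have hx1 := ne_one_of_prime hp hx
  have hZ : center G = ⊥ := (Subgroup.Normal.eq_bot_or_eq_top inferInstance).resolve_right fun e =>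
    hG ⟨⟨fun a b => mem_center_iff.1 (e ▸ mem_top b) a⟩⟩
  have hi : 1 < cidx x := one_lt_cidx_iff.2 (by rwa [hZ, mem_bot])
  obtain ⟨q, hq, hqd⟩ := Nat.exists_prime_and_dvd hi.ne'
  have := Fact.mk hq
  set A := centralizer ({x} : Set G) with hA
  have hAB : Nat.card A = B.index := by
    have := (card_cent_mul_cidx x).trans B.index_mul_card.symm
    rw [hB] at this
    exact Nat.eq_of_mul_eq_mul_right (cidx_pos x) this
  let Q : Sylow q B := default
  have hQn : (Q : Subgroup B).Normal := ⟨fun a ha g => by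
    rwa [show g * a = a * g from Subtype.ext (h.comm g.2 a.2), mul_inv_cancel_right]⟩
  have hQ := Q.characteristic_of_normal hQn
  have h2 := h.inner_eq_two (π := Perm.permChar G (G ⧸ A)) (isCharacter_permChar _)
    Perm.classInner_permChar_one (fun u => by
      by_cases e : u = 1
      · rw [e, regChar_one, OneMemClass.coe_one, Perm.permChar_apply_one, hB]; rfl
      rw [regChar_of_ne e, Perm.permChar, Nat.cast_eq_zero, Nat.card_eq_zero]
      refine Or.inl ⟨fun ⟨y, hy⟩ => e ?_⟩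
      obtain ⟨g, rfl⟩ := QuotientGroup.mk_surjective y
      have h3 : (((u : G) * g : G) : G ⧸ A) = g := hy
      have h4 := orderOf_dvd_natCard _ (inv_mem (QuotientGroup.eq.1 h3))
      rw [show (((u : G) * g)⁻¹ * g)⁻¹ = g⁻¹ * u * g⁻¹⁻¹ by group, ← MulAut.conj_apply,
        MulEquiv.orderOf_eq, Subgroup.orderOf_coe, hAB] at h4
      exact orderOf_eq_one_iff.1 (Nat.eq_one_of_dvd_coprimes hc h4
        (hB ▸ orderOf_dvd_natCard u)))
    (Q := (Q : Subgroup B).map B.subtype) (by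
      rw [Ne, map_eq_bot_iff_of_injective _ B.subtype_injective]
      exact Q.ne_bot_of_dvd_card (hB ▸ hqd))
    (lt_of_le_of_ne (map_subtype_le _) fun e => by
      obtain ⟨k, hk⟩ := IsPGroup.iff_card.1 (e ▸ Q.isPGroup'.map B.subtype : IsPGroup q B)
      have := Fact.mk (burnside_prime_card_of_class hq hx1 (hB.symm.trans hk))
      have := isCyclic_of_prime_card (α := G) rfl
      exact hG inferInstance)
    (GT.normalizer_le_normalizer_map_subtype B _)
  have hT : ∀ y z y' z', IsConj x y → IsConj x z → IsConj x y' → IsConj x z' → y ≠ z → y' ≠ z' →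
      ∃ a, a * y * a⁻¹ = y' ∧ a * z * a⁻¹ = z' := fun y z y' z' hy hz hy' hz' e e' => by
    obtain ⟨b, rfl⟩ := isConj_iff.1 hy
    obtain ⟨c, rfl⟩ := isConj_iff.1 hz
    obtain ⟨b', rfl⟩ := isConj_iff.1 hy'
    obtain ⟨c', rfl⟩ := isConj_iff.1 hz'
    have key : ∀ u v : G, (u : G ⧸ A) = v → u * x * u⁻¹ = v * x * v⁻¹ := fun u v e => by
      conv_lhs => rw [← mem_cent'.1 (QuotientGroup.eq.1 e)]
      group
    obtain ⟨a, h3, h4⟩ := two_trans_of_rank h2 (a := (b : G ⧸ A)) (b := c) (c := b') (d := c')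
      (fun e1 => e (key _ _ e1)) fun e1 => e' (key _ _ e1)
    exact ⟨a, by rw [← key (a * b) _ h3]; group, by rw [← key (a * c) _ h4]; group⟩
  have hI : ∀ g, Commute (g * x * g⁻¹) x → g * x * g⁻¹ = x := fun g hg => by
    by_contra e
    refine hi.ne' (index_eq_one.2 (eq_top_of_conj_mem hx1 fun k => ?_))
    by_cases e' : k * x * k⁻¹ = x
    · rw [e']; exact self_mem_cent x
    obtain ⟨a, h3, h4⟩ := hT x _ x _ (IsConj.refl x) (isConj_iff.2 ⟨g, rfl⟩) (IsConj.refl x)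
      (isConj_iff.2 ⟨k, rfl⟩) (Ne.symm e) (Ne.symm e')
    have h5 := mem_cent'.2 h3
    exact h4 ▸ mul_mem (mul_mem h5 (mem_cent_commute.2 hg)) (inv_mem h5)
  obtain ⟨k, hk⟩ : ∃ k, k ∉ A := by
    by_contra e
    push Not at e
    exact hi.ne' (index_eq_one.2 (eq_top_iff.2 fun a _ => e a))
  have hk1 : k * x * k⁻¹ ≠ x := fun e => hk (mem_cent'.2 e)
  set E := A ⊓ centralizer {k * x * k⁻¹} with hE
  set H := centralizer (E : Set G) with hH
  have hxH : x ∈ H := le_cent_iff.1 inf_le_left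
  have hyH : k * x * k⁻¹ ∈ H := le_cent_iff.1 inf_le_right
  have h3 := mem_center_of_frob (x := (⟨x, hxH⟩ : H)) hp (by rwa [Subgroup.orderOf_mk])
    (fun g hg => Subtype.ext (hI g (congrArg Subtype.val hg)))
    (fun g hg y hy hy' => ?_) fun r hr hrp R hR g hn y hy => ?_
  · exact hk1 (hI k (congrArg Subtype.val (mem_center_iff.1 h3 ⟨_, hyH⟩)))
  · have h4 : (g : G)⁻¹ * x * (g : G)⁻¹⁻¹ ≠ x := fun e => hg (Subtype.ext
      (mem_cent.1 (inv_mem_iff.1 (mem_cent'.2 e))))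
    obtain ⟨a, h5, h6⟩ := hT x _ x _ (IsConj.refl x) (isConj_iff.2 ⟨k, rfl⟩) (IsConj.refl x)
      (isConj_iff.2 ⟨(g : G)⁻¹, rfl⟩) hk1.symm h4.symm
    have h7 : E ≤ A ⊓ centralizer {(g : G)⁻¹ * x * (g : G)⁻¹⁻¹} :=
      le_inf inf_le_left (le_cent_iff.2 (mul_mem (mul_mem (inv_mem g.2) hxH) (inv_mem (inv_mem g.2))))
    have h8 : E.map (MulAut.conj a).toMonoidHom = A ⊓ centralizer {(g : G)⁻¹ * x * (g : G)⁻¹⁻¹} := by
      rw [hE, map_inf _ _ _ (MulAut.conj a).injective, hA, ← cent_conj, ← cent_conj, h5, h6]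
    have h9 : E = A ⊓ centralizer {(g : G)⁻¹ * x * (g : G)⁻¹⁻¹} := eq_of_le_of_card_ge h7 (by
      rw [← h8, card_map_of_injective (MulAut.conj a).injective])
    have h10 : (y : G) ∈ E := h9 ▸ ⟨mem_cent.2 (congrArg Subtype.val hy), mem_cent_conj.2 (by
      simpa using mem_cent.2 (congrArg Subtype.val hy'))⟩
    exact mem_center_iff.2 fun z => Subtype.ext (mem_centralizer_iff.1 z.2 _ h10).symm
  · have h4 := le_cent_of_two_trans h hG hp (x := g * x * (g : G)⁻¹) (by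
      rwa [← MulAut.conj_apply, MulEquiv.orderOf_eq]) (by rwa [cidx_conj])
      (fun u v hu hv e e' => by
        have hg : IsConj x (g * x * (g : G)⁻¹) := isConj_iff.2 ⟨g, rfl⟩
        obtain ⟨a, h5, h6⟩ := hT _ u _ v hg (hg.trans hu) hg (hg.trans hv) e.symm e'.symm
        exact ⟨a, mem_cent_commute.1 (mem_cent'.2 h5), h6⟩) hr hrp (hR.map H.subtype)
      (le_normalizer_map H.subtype ⟨_, hn, rfl⟩) ⟨y, hy, rfl⟩
    exact mem_cent.2 (Subtype.ext (mem_cent.1 h4))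

end Cfsg.Agent.FG.Ito
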