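import Mathlib

/-!
Laws in groups. A non-trivial word is not a law in `SL₂(F)` once `F` is large enough.
-/

set_option autoImplicit false

namespace Cfsg.Agent.FG.Law

open Polynomial Matrix

/-- `w` is a law in `G`. -/
def IsLaw (w : FreeGroup ℕ) (G : Type*) [Group G] : Prop := ∀ f : ℕ → G, FreeGroup.lift f w = 1

theorem map_lift {G H : Type*} [Group G] [Group H] (φ : G →* H) (f : ℕ → G) (w : FreeGroup ℕ) :
    φ (FreeGroup.lift f w) = FreeGroup.lift (fun i => φ (f i)) w :=
  FreeGroup.lift_unique (φ.comp (FreeGroup.lift f)) (fun x => by simp)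

theorem IsLaw.of_injective {w : FreeGroup ℕ} {G H : Type*} [Group G] [Group H] (h : IsLaw w H)
    (φ : G →* H) (hφ : Function.Injective φ) : IsLaw w G := fun f =>
  hφ (by rw [map_lift, h, map_one])

/-- The word `[w(x₁, x₂, …), x₀]`. -/
def comm (w : FreeGroup ℕ) : FreeGroup ℕ :=
  FreeGroup.map Nat.succ w * FreeGroup.of 0 * (FreeGroup.map Nat.succ w)⁻¹ * (FreeGroup.of 0)⁻¹

theorem lift_comm {G : Type*} [Group G] (f : ℕ → G) (w : FreeGroup ℕ) :
    FreeGroup.lift f (comm w) = FreeGroup.lift (fun i => f (i + 1)) w * f 0 *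
      (FreeGroup.lift (fun i => f (i + 1)) w)⁻¹ * (f 0)⁻¹ := by
  have : FreeGroup.lift f (FreeGroup.map Nat.succ w) = FreeGroup.lift (fun i => f (i + 1)) w :=
    FreeGroup.lift_unique ((FreeGroup.lift f).comp (FreeGroup.map Nat.succ)) (fun x => by simp)
  simp [comm, this]

theorem IsLaw.comm_of_quotient_center {w : FreeGroup ℕ} {G : Type*} [Group G]
    (h : IsLaw w (G ⧸ Subgroup.center G)) : IsLaw (comm w) G := by
  intro f
  rw [lift_comm]
  have h1 : FreeGroup.lift (fun i => f (i + 1)) w ∈ Subgroup.center G := by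
    rw [← QuotientGroup.eq_one_iff]
    exact (map_lift (QuotientGroup.mk' (Subgroup.center G)) _ w).trans (h _)
  rw [← Subgroup.mem_center_iff.1 h1 (f 0)]; group

theorem IsLaw.comm {w : FreeGroup ℕ} {G : Type*} [Group G] (h : IsLaw w G) : IsLaw (comm w) G := by
  intro f
  rw [lift_comm, h]; group

theorem comm_ne_one {w : FreeGroup ℕ} (hw : w ≠ 1) : comm w ≠ 1 := by
  classical
  intro h
  let c : FreeGroup ℕ →* Equiv.Perm (FreeGroup ℕ) := MulAction.toPermHom _ _
  let f : ℕ → Equiv.Perm (FreeGroup ℕ) := fun i =>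
    Nat.casesOn i (Equiv.swap 1 (w * w)) fun j => c (FreeGroup.of j)
  have h1 := lift_comm f w
  have h2 : FreeGroup.lift (fun i => f (i + 1)) w = c w :=
    (FreeGroup.lift_unique c (fun x => rfl)).symm
  rw [h, map_one, h2, eq_comm, mul_inv_eq_one, mul_inv_eq_iff_eq_mul] at h1
  have h3 := congrArg (fun σ : Equiv.Perm (FreeGroup ℕ) => σ 1) h1
  have hww : w ≠ w * w := by simpa using hw
  change w * Equiv.swap 1 (w * w) 1 = Equiv.swap 1 (w * w) (w * 1) at h3
  rw [mul_one, Equiv.swap_apply_left, Equiv.swap_apply_of_ne_of_ne hw hww] at h3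
  have h4 : w * w = 1 := by simpa using h3
  exact hw (IsMulTorsionFree.pow_left_injective two_ne_zero (by simpa [pow_two] using h4))

variable {F : Type*} [Field F]

/-- The matrix with eigenvectors `(1, a)`, `(1, b)` and eigenvalues `t`, `t⁻¹`. -/
def gmat (a b t : F) : Matrix (Fin 2) (Fin 2) F :=
  (a - b)⁻¹ • !![-b * t + a * t⁻¹, t - t⁻¹; a * b * (t⁻¹ - t), a * t - b * t⁻¹]

theorem det_gmat {a b t : F} (h : a ≠ b) (ht : t ≠ 0) : (gmat a b t).det = 1 := by
  have : a - b ≠ 0 := sub_ne_zero.2 h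
  simp only [gmat, det_smul, det_fin_two_of, Fintype.card_fin]
  field_simp
  ring

theorem gmat_mul {a b t : F} (h : a ≠ b) (ht : t ≠ 0) : gmat a b t * gmat b a t = 1 := by
  have h1 : a - b ≠ 0 := sub_ne_zero.2 h
  have h2 : b - a ≠ 0 := sub_ne_zero.2 h.symm
  ext i j
  fin_cases i <;> fin_cases j <;> simp [gmat, Matrix.mul_apply, Fin.sum_univ_two] <;> field_simp <;>
    ring

/-- `gmat` as an element of `SL₂`. -/
def gsl {a b t : F} (h : a ≠ b) (ht : t ≠ 0) : SpecialLinearGroup (Fin 2) F :=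
  ⟨gmat a b t, det_gmat h ht⟩

theorem gsl_inv {a b t : F} (h : a ≠ b) (ht : t ≠ 0) : (gsl h ht)⁻¹ = gsl h.symm ht := by
  rw [inv_eq_iff_mul_eq_one]
  exact Subtype.ext (gmat_mul h ht)

/-- One step of the polynomial recursion. -/
noncomputable def pstep (a b : F) (v : F[X] × F[X]) : F[X] × F[X] :=
  (X ^ 2 * (C (a - b)⁻¹ * (v.2 - C b * v.1)) + C (b - a)⁻¹ * (v.2 - C a * v.1),
   C a * (X ^ 2 * (C (a - b)⁻¹ * (v.2 - C b * v.1))) + C b * (C (b - a)⁻¹ * (v.2 - C a * v.1)))

theorem gmat_mulVec {a b t : F} (h : a ≠ b) (ht : t ≠ 0) (v : F[X] × F[X]) :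
    t • (gmat a b t *ᵥ ![v.1.eval t, v.2.eval t]) =
      ![(pstep a b v).1.eval t, (pstep a b v).2.eval t] := by
  have h1 : a - b ≠ 0 := sub_ne_zero.2 h
  have h2 : b - a ≠ 0 := sub_ne_zero.2 h.symm
  have h3 : (b - a)⁻¹ = -(a - b)⁻¹ := by rw [← neg_sub, inv_neg]
  ext i
  fin_cases i <;> simp [gmat, pstep, h3] <;>
    field_simp <;> ring

theorem pstep_deg (a b : F) (v : F[X] × F[X]) (n : ℕ) (h1 : v.1.natDegree ≤ n)
    (h2 : v.2.natDegree ≤ n) :
    (pstep a b v).1.natDegree ≤ n + 2 ∧ (pstep a b v).2.natDegree ≤ n + 2 ∧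
    (pstep a b v).1.coeff (n + 2) = (a - b)⁻¹ * (v.2.coeff n - b * v.1.coeff n) ∧
    (pstep a b v).2.coeff (n + 2) = a * ((a - b)⁻¹ * (v.2.coeff n - b * v.1.coeff n)) := by
  have key : ∀ c d : F, (C c * (v.2 - C d * v.1)).natDegree ≤ n := fun c d =>
    (natDegree_C_mul_le _ _).trans ((natDegree_sub_le _ _).trans
      (max_le h2 ((natDegree_C_mul_le _ _).trans h1)))
  have key2 : ∀ c d : F, (X ^ 2 * (C c * (v.2 - C d * v.1))).natDegree ≤ n + 2 := fun c d =>
    natDegree_mul_le.trans (by have := key c d; rw [natDegree_X_pow]; omega)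
  have key3 : ∀ c d : F, (C c * (v.2 - C d * v.1)).coeff (n + 2) = 0 := fun c d =>
    coeff_eq_zero_of_natDegree_lt (by have := key c d; omega)
  refine ⟨?_, ?_, ?_, ?_⟩
  · exact (natDegree_add_le _ _).trans (max_le (key2 _ _) ((key _ _).trans (by omega)))
  · exact (natDegree_add_le _ _).trans (max_le ((natDegree_C_mul_le _ _).trans (key2 _ _))
      ((natDegree_C_mul_le _ _).trans ((key _ _).trans (by omega))))
  · simp only [pstep]
    rw [coeff_add, key3, coeff_X_pow_mul]
    simp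
  · simp only [pstep]
    rw [coeff_add, coeff_C_mul, coeff_C_mul, key3, coeff_X_pow_mul]
    simp

/-- The polynomial vector attached to a word. -/
noncomputable def pvec (c : ℕ × Bool → F) (z : ℕ × Bool) (L : List (ℕ × Bool)) : F[X] × F[X] :=
  L.foldr (fun y v => pstep (c y) (c (y.1, !y.2)) v) (1, C (c z))

theorem pvec_top (c : ℕ × Bool → F) (k : ℕ) (hc : Set.InjOn c {y | y.1 < k}) (z : ℕ × Bool)
    (hz : z.1 < k) (L : List (ℕ × Bool)) (hL : ∀ y ∈ L, y.1 < k)
    (hr : FreeGroup.IsReduced (L ++ [z])) :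
    (pvec c z L).1.natDegree ≤ 2 * L.length ∧ (pvec c z L).2.natDegree ≤ 2 * L.length ∧
    ∃ l : F, l ≠ 0 ∧ (pvec c z L).1.coeff (2 * L.length) = l ∧
      (pvec c z L).2.coeff (2 * L.length) = c ((L ++ [z]).head (by simp)) * l := by
  induction L with
  | nil => simp [pvec]
  | cons y L ih =>
    have hr' : FreeGroup.IsReduced (L ++ [z]) := hr.infix ⟨[y], [], by simp⟩
    obtain ⟨h1, h2, l, hl, h3, h4⟩ := ih (fun x hx => hL x (List.mem_cons_of_mem _ hx)) hr'
    obtain ⟨k1, k2, k3, k4⟩ := pstep_deg (c y) (c (y.1, !y.2)) _ _ h1 h2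
    have e : pvec c z (y :: L) = pstep (c y) (c (y.1, !y.2)) (pvec c z L) := rfl
    have e2 : 2 * (y :: L).length = 2 * L.length + 2 := by simp; ring
    rw [e, e2]
    have hy := hL y List.mem_cons_self
    refine ⟨k1, k2, _, ?_, k3, k4⟩
    set h := (L ++ [z]).head (by simp) with hh
    have hhk : h.1 < k := by
      have : h ∈ L ++ [z] := List.head_mem _
      rcases List.mem_append.1 this with h' | h'
      · exact hL _ (List.mem_cons_of_mem _ h')
      · rw [List.mem_singleton.1 h']; exact hz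
    have hne : h ≠ (y.1, !y.2) := by
      have h5 : y :: L ++ [z] = y :: h :: (L ++ [z]).tail := by simp [hh]
      rw [h5, FreeGroup.isReduced_cons_cons] at hr
      intro e
      have := hr.1 (by rw [e])
      rw [e] at this
      simp at this
    have hne2 : y ≠ (y.1, !y.2) := fun e => by simpa using congrArg Prod.snd e
    rw [h3, h4, ← sub_mul]
    exact mul_ne_zero (inv_ne_zero (sub_ne_zero.2 fun e => hne2 (hc hy hy e)))
      (mul_ne_zero (sub_ne_zero.2 fun e => hne (hc hhk hy e)) hl)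

theorem exists_not_isLaw_sl2 {w : FreeGroup ℕ} (hw : w ≠ 1) :
    ∃ M : ℕ, ∀ (F : Type) [Field F] [Fintype F], M ≤ Fintype.card F →
      ¬ IsLaw w (SpecialLinearGroup (Fin 2) F) := by
  classical
  set L := w.toWord with hLdef
  have hL0 : L ≠ [] := fun e => hw (FreeGroup.toWord_eq_nil_iff.1 e)
  obtain ⟨k, hk⟩ : ∃ k, ∀ y ∈ L, y.1 < k := by
    refine ⟨(L.map Prod.fst).sum + 1, fun y hy => Nat.lt_succ_of_le ?_⟩
    exact List.single_le_sum (fun _ _ => Nat.zero_le _) _ (List.mem_map_of_mem hy)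
  refine ⟨2 * k + 2 * L.length + 2, fun F _ _ hF hlaw => ?_⟩
  obtain ⟨c0⟩ : Nonempty (Fin k × Bool ↪ F) :=
    Function.Embedding.nonempty_of_card_le (by simp; omega)
  let c : ℕ × Bool → F := fun y => if h : y.1 < k then c0 (⟨y.1, h⟩, y.2) else 0
  have hc : Set.InjOn c {y | y.1 < k} := by
    intro a ha b hb hab
    simp only [c, dif_pos (show a.1 < k from ha), dif_pos (show b.1 < k from hb)] at hab
    have := c0.injective hab
    simp only [Prod.mk.injEq, Fin.mk.injEq] at this
    exact Prod.ext this.1 this.2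
  have hcne : ∀ y : ℕ × Bool, y.1 < k → c y ≠ c (y.1, !y.2) := fun y hy e => by
    simpa using congrArg Prod.snd (hc hy (show (y.1, !y.2) ∈ {y : ℕ × Bool | y.1 < k} from hy) e)
  set z := L.getLast hL0 with hz
  have hzk : z.1 < k := hk z (List.getLast_mem hL0)
  have hred : FreeGroup.IsReduced (L ++ [z]) := by
    have h1 : FreeGroup.IsReduced L := FreeGroup.isReduced_toWord
    unfold FreeGroup.IsReduced at h1 ⊢
    rw [List.isChain_append]
    refine ⟨h1, List.isChain_singleton _, ?_⟩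
    intro a ha b hb
    rw [List.getLast?_eq_some_getLast hL0] at ha
    simp only [Option.mem_def, Option.some.injEq, List.head?_cons] at ha hb
    rw [← ha, ← hb]
    exact fun _ => rfl
  obtain ⟨h1, -, l, hl, h3, -⟩ := pvec_top c k hc z hzk L hk hred
  have hev : ∀ t : F, t ≠ 0 → ((pvec c z L).1 - X ^ L.length).eval t = 0 := by
    intro t ht
    let f : ℕ → SpecialLinearGroup (Fin 2) F := fun i =>
      if h : i < k then gsl (hcne (i, true) h) ht else 1
    let ρ : SpecialLinearGroup (Fin 2) F →* Matrix (Fin 2) (Fin 2) F :=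
      SpecialLinearGroup.coeMonoidHom
    have hf : ∀ y : ℕ × Bool, y.1 < k →
        ρ (cond y.2 (f y.1) (f y.1)⁻¹) = gmat (c y) (c (y.1, !y.2)) t := by
      rintro ⟨i, b⟩ hi
      have e : f i = gsl (hcne (i, true) hi) ht := dif_pos hi
      cases b
      · change ρ (f i)⁻¹ = _
        rw [e, gsl_inv]; rfl
      · change ρ (f i) = _
        rw [e]; rfl
    have key : ∀ L' : List (ℕ × Bool), (∀ y ∈ L', y.1 < k) →
        t ^ L'.length • ρ (L'.map fun y => cond y.2 (f y.1) (f y.1)⁻¹).prod *ᵥ ![1, c z] =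
          ![(pvec c z L').1.eval t, (pvec c z L').2.eval t] := by
      intro L' hL'
      induction L' with
      | nil => simp [pvec]
      | cons y L' ih =>
        have e : pvec c z (y :: L') = pstep (c y) (c (y.1, !y.2)) (pvec c z L') := rfl
        have hy := hL' y List.mem_cons_self
        rw [e, ← gmat_mulVec (hcne y hy) ht, ← ih fun x hx => hL' x (List.mem_cons_of_mem _ hx),
          List.map_cons, List.prod_cons, map_mul, hf y hy, ← mulVec_mulVec,
          mulVec_smul, List.length_cons, pow_succ', mul_smul]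
    have h5 := key L hk
    have h6 := hlaw f
    rw [← FreeGroup.mk_toWord (x := w), FreeGroup.lift_mk] at h6
    rw [h6] at h5
    have h7 := congrFun h5 0
    simp at h7
    simp [← h7]
  have hzero : (pvec c z L).1 - X ^ L.length = 0 := by
    apply eq_zero_of_natDegree_lt_card_of_eval_eq_zero' _ (Finset.univ.erase 0)
    · intro t ht
      exact hev t (Finset.ne_of_mem_erase ht)
    · rw [Finset.card_erase_of_mem (Finset.mem_univ _), Finset.card_univ]
      have := natDegree_sub_le (pvec c z L).1 (X ^ L.length)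
      rw [natDegree_X_pow] at this
      omega
  have hlen : 0 < L.length := List.length_pos_iff.2 hL0
  have := congrArg (fun p : F[X] => p.coeff (2 * L.length)) hzero
  simp only [coeff_sub, h3, coeff_X_pow, coeff_zero] at this
  rw [if_neg (by omega), sub_zero] at this
  exact hl this

end Cfsg.Agent.FG.Law
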