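import Mathlib
import Cfsg.Agent.FG.BaseZero

/-! Derived series of subgroups, kernels of actions, many inequivalent vectors whose stabilisers
have bounded derived length: the reduction steps. -/

set_option autoImplicit false

namespace Cfsg.Agent.FG.MW

open Cfsg.Agent.FG.BS MulAction
open scoped commutatorElement

section ds
variable {G : Type*} [Group G]

/-- the derived series of a subgroup, inside the ambient group -/
def ds (S : Subgroup G) : ℕ → Subgroup G
  | 0 => S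
  | n + 1 => ⁅ds S n, ds S n⁆

theorem ds_succ (S : Subgroup G) (n : ℕ) : ds S (n + 1) = ⁅ds S n, ds S n⁆ := rfl

theorem ds_mono {S T : Subgroup G} (h : S ≤ T) (n : ℕ) : ds S n ≤ ds T n := by
  induction n with
  | zero => exact h
  | succ n ih => exact Subgroup.commutator_mono ih ih

theorem ds_add (S : Subgroup G) (m n : ℕ) : ds S (m + n) = ds (ds S m) n := by
  induction n with
  | zero => rfl
  | succ n ih => rw [← add_assoc, ds_succ, ih, ds_succ]

theorem comm_self_le (S : Subgroup G) : ⁅S, S⁆ ≤ S := Subgroup.commutator_le.mpr fun _ ha _ hb =>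
  S.mul_mem (S.mul_mem (S.mul_mem ha hb) (S.inv_mem ha)) (S.inv_mem hb)

theorem ds_le (S : Subgroup G) (n : ℕ) : ds S n ≤ S := by
  induction n with
  | zero => exact le_rfl
  | succ n ih => exact (comm_self_le _).trans ih

theorem ds_anti (S : Subgroup G) {m n : ℕ} (h : m ≤ n) : ds S n ≤ ds S m := by
  obtain ⟨k, rfl⟩ := Nat.exists_eq_add_of_le h
  rw [ds_add]; exact ds_le _ _

theorem map_ds {H : Type*} [Group H] (f : G →* H) (S : Subgroup G) (n : ℕ) :
    (ds S n).map f = ds (S.map f) n := by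
  induction n with
  | zero => rfl
  | succ n ih => rw [ds_succ, Subgroup.map_commutator, ih, ds_succ]

theorem mem_ds_map {H : Type*} [Group H] (f : G →* H) {S : Subgroup G} {T : Subgroup H}
    (h : ∀ g ∈ S, f g ∈ T) {n : ℕ} {g : G} (hg : g ∈ ds S n) : f g ∈ ds T n :=
  ds_mono (Subgroup.map_le_iff_le_comap.mpr h) n (map_ds f S n ▸ Subgroup.mem_map_of_mem f hg)

theorem exists_of_mem_ds {H : Type*} [Group H] (f : G →* H) {S : Subgroup G} {T : Subgroup H}
    (h : ∀ t ∈ T, ∃ g ∈ S, f g = t) {n : ℕ} {t : H} (ht : t ∈ ds T n) : ∃ g ∈ ds S n, f g = t := by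
  have := ds_mono (show T ≤ S.map f from h) n ht
  rwa [← map_ds] at this

theorem ds_top (n : ℕ) : ds (⊤ : Subgroup G) n = derivedSeries G n := by
  induction n with
  | zero => rfl
  | succ n ih => rw [ds_succ, ih, derivedSeries_succ]

theorem derivedSeries_eq_bot {S : Subgroup G} {n : ℕ} (h : ds S n = ⊥) : derivedSeries S n = ⊥ := by
  rw [← ds_top, eq_bot_iff]
  intro g hg
  have := mem_ds_map S.subtype (T := S) (fun g _ => g.2) hg
  rw [h, Subgroup.mem_bot] at this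
  exact Subgroup.mem_bot.mpr (Subtype.ext this)

/-- the kernel of an action -/
def ker (G X : Type*) [Group G] [MulAction G X] : Subgroup G where
  carrier := {g | ∀ x : X, g • x = x}
  one_mem' := fun x => one_smul G x
  mul_mem' := fun ha hb x => by rw [mul_smul, hb, ha]
  inv_mem' := fun ha x => inv_smul_eq_iff.mpr (ha x).symm

theorem mem_ker {X : Type*} [MulAction G X] {g : G} : g ∈ ker G X ↔ ∀ x : X, g • x = x := Iff.rfl

instance ker_normal {X : Type*} [MulAction G X] : (ker G X).Normal :=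
  ⟨fun n hn g x => by rw [mul_smul, mul_smul, hn, smul_inv_smul]⟩

theorem index_le_card {H : Subgroup G} {X : Type*} [Finite X] (φ : G → X)
    (h : ∀ g g', φ g = φ g' → g⁻¹ * g' ∈ H) : H.index ≤ Nat.card X :=
  Nat.card_le_card_of_injective (fun q : G ⧸ H => φ q.out) fun a b hab => by
    rw [← QuotientGroup.out_eq' a, ← QuotientGroup.out_eq' b]
    exact QuotientGroup.eq.mpr (h _ _ hab)

theorem comm_le_centralizer {X S : Subgroup G} [IsCyclic X]
    (h : ∀ g ∈ S, ∀ x ∈ X, g * x * g⁻¹ ∈ X) : ⁅S, S⁆ ≤ Subgroup.centralizer (X : Set G) := by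
  obtain ⟨θ, hθ⟩ := IsCyclic.exists_generator (α := X)
  have key : ∀ g ∈ S, ∃ k : ℤ, g * θ * g⁻¹ = (θ : G) ^ k := fun g hg => by
    obtain ⟨k, hk⟩ := hθ ⟨_, h g hg θ θ.2⟩
    exact ⟨k, (congrArg Subtype.val hk).symm⟩
  refine Subgroup.commutator_le.mpr fun a ha b hb x hx => ?_
  obtain ⟨k, hk⟩ := key _ (S.inv_mem ha)
  obtain ⟨l, hl⟩ := key _ (S.inv_mem hb)
  have h1 : a⁻¹ * (b⁻¹ * θ * b⁻¹⁻¹) * a⁻¹⁻¹ = b⁻¹ * (a⁻¹ * θ * a⁻¹⁻¹) * b⁻¹⁻¹ := by
    rw [hl, ← conj_zpow, hk, ← conj_zpow, hl, ← zpow_mul, ← zpow_mul, mul_comm k l]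
  have h2 : Commute (θ : G) ⁅a, b⁆ := by
    rw [Commute, SemiconjBy, commutatorElement_def]
    calc (θ : G) * (a * b * a⁻¹ * b⁻¹)
        = a * b * (b⁻¹ * (a⁻¹ * θ * a⁻¹⁻¹) * b⁻¹⁻¹) * a⁻¹ * b⁻¹ := by group
      _ = _ := by rw [← h1]; group
  obtain ⟨n, hn⟩ := hθ ⟨x, hx⟩
  have h3 : (θ : G) ^ n = x := congrArg Subtype.val hn
  rw [← h3]
  exact (h2.zpow_left n).eq

end ds

variable {G V : Type*} [Group G] [AddCommGroup V] [DistribMulAction G V]

theorem comm_le_ker_of_cyclic [IsAddCyclic V] : ds (⊤ : Subgroup G) 1 ≤ ker G V := by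
  obtain ⟨θ, hθ⟩ := IsAddCyclic.exists_generator (α := V)
  have key : ∀ g : G, ∃ k : ℤ, ∀ x : V, g • x = k • x := fun g => by
    obtain ⟨k, hk⟩ := hθ (g • θ)
    refine ⟨k, fun x => ?_⟩
    obtain ⟨n, rfl⟩ := hθ x
    have hk' : k • θ = g • θ := hk
    show g • n • θ = k • n • θ
    rw [smul_comm g n θ, ← hk', smul_comm]
  refine Subgroup.commutator_le.mpr fun a _ b _ x => ?_
  obtain ⟨k, hk⟩ := key a
  rw [commutatorElement_def, mul_smul, mul_smul, mul_smul, hk, ← smul_comm b k, ← hk, smul_inv_smul,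
    smul_inv_smul]

/-- `k` inequivalent vectors whose stabilisers have derived length at most `d` -/
def Many (G V : Type*) [Group G] [AddCommGroup V] [DistribMulAction G V] (k d : ℕ) : Prop :=
  ∃ T : Fin k → V, (∀ c, ds (stabilizer G (T c)) d ≤ ker G V) ∧
    ∀ c c' (g : G), g • T c = T c' → c = c'

theorem le_ker_of_im {S : Subgroup G} {S' : Subgroup (Im G V)} (h : ∀ g ∈ S, toIm G V g ∈ S')
    {d : ℕ} (hd : ds S' d ≤ ker (Im G V) V) : ds S d ≤ ker G V :=
  fun _ hg => hd (mem_ds_map (toIm G V) h hg)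

theorem Many.of_im {k d : ℕ} (h : Many (Im G V) V k d) : Many G V k d := by
  obtain ⟨T, h1, h2⟩ := h
  exact ⟨T, fun c => le_ker_of_im (fun _ hg => hg) (h1 c), fun c c' g => h2 c c' (toIm G V g)⟩

theorem Many.mono {k d d' : ℕ} (h : Many G V k d) (hd : d ≤ d') : Many G V k d' := by
  obtain ⟨T, h1, h2⟩ := h
  exact ⟨T, fun c => (ds_anti _ hd).trans (h1 c), h2⟩

/-- the action on an invariant subgroup -/
@[reducible] def invAct {W : AddSubgroup V} (hW : Invt G W) : DistribMulAction G W where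
  smul g w := ⟨g • (w : V), hW g w w.2⟩
  one_smul w := Subtype.ext (one_smul G (w : V))
  mul_smul a b w := Subtype.ext (mul_smul a b (w : V))
  smul_zero a := Subtype.ext (smul_zero a)
  smul_add a x y := Subtype.ext (smul_add a (x : V) (y : V))

/-- complete reducibility -/
def CR (G V : Type*) [Group G] [AddCommGroup V] [DistribMulAction G V] : Prop :=
  ∀ U : AddSubgroup V, Invt G U → ∃ W : AddSubgroup V, Invt G W ∧ U ⊓ W = ⊥ ∧ U ⊔ W = ⊤

/-- reduction of completely reducible modules to irreducible ones -/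
theorem exists_of_cr [Finite V] (hcr : CR G V) (Φ : Subgroup G → Subgroup G) (hΦ : Monotone Φ)
    (h : ∀ (Y : AddSubgroup V) (hY : Invt G Y), Y ≠ ⊥ → @Irr G Y _ _ (invAct hY) →
      ∃ w ∈ Y, ∀ g ∈ Φ (stabilizer G w), ∀ x ∈ Y, g • x = x) :
    ∃ v : V, Φ (stabilizer G v) ≤ ker G V := by
  have key : ∀ U : AddSubgroup V, Invt G U → ∃ v ∈ U, ∀ g ∈ Φ (stabilizer G v), ∀ x ∈ U, g • x = x := by
    intro U
    induction U using WellFoundedLT.induction with
    | _ U ih =>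
    intro hU
    by_cases hUb : U = ⊥
    · subst hUb
      exact ⟨0, by simp, fun g _ x hx => by rw [AddSubgroup.mem_bot.mp hx, smul_zero]⟩
    obtain ⟨Y, ⟨hYU, hY, hY0⟩, hmin⟩ :=
      (Set.toFinite {Y : AddSubgroup V | Y ≤ U ∧ Invt G Y ∧ Y ≠ ⊥}).exists_minimal ⟨U, le_rfl, hU, hUb⟩
    obtain ⟨Y', hY', hd, hc⟩ := hcr Y hY
    obtain ⟨w, hw, hw'⟩ := h Y hY hY0 (by
      intro Z hZ
      by_cases hZb : Z = ⊥
      · exact Or.inl hZb
      right
      have h1 := hmin (y := Z.map Y.subtype) ⟨(AddSubgroup.map_subtype_le Z).trans hYU, by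
        rintro g _ ⟨z, hz, rfl⟩
        exact ⟨_, hZ g z hz, rfl⟩, fun e => hZb ((AddSubgroup.map_eq_bot_iff_of_injective _
          Subtype.val_injective).mp e)⟩ (AddSubgroup.map_subtype_le Z)
      rw [eq_top_iff]
      intro y _
      obtain ⟨z, hz, hzy⟩ := h1 y.2
      exact (Subtype.ext hzy : z = y) ▸ hz)
    have hlt : Y' ⊓ U < U := lt_of_le_of_ne inf_le_right fun e => hY0 (by
      rw [eq_bot_iff, ← hd]; exact le_inf le_rfl (hYU.trans (e.ge.trans inf_le_left)))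
    obtain ⟨v, hv, hv'⟩ := ih _ hlt fun g x hx => ⟨hY' g x hx.1, hU g x hx.2⟩
    have hst : ∀ g ∈ stabilizer G (w + v), g • w = w ∧ g • v = v := fun g hg => by
      have h1 : g • w + g • v = w + v := by rw [← smul_add]; exact hg
      have h2 : g • w - w ∈ Y ⊓ Y' := ⟨Y.sub_mem (hY g w hw) hw, by
        rw [show g • w - w = v - g • v by rw [sub_eq_sub_iff_add_eq_add, h1, add_comm]]
        exact Y'.sub_mem hv.1 (hY' g v hv.1)⟩
      rw [hd, AddSubgroup.mem_bot, sub_eq_zero] at h2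
      exact ⟨h2, by rwa [h2, add_right_inj] at h1⟩
    refine ⟨w + v, U.add_mem (hYU hw) hv.2, fun g hg x hx => ?_⟩
    obtain ⟨a, ha, b, hb, rfl⟩ := AddSubgroup.mem_sup.mp (hc ▸ AddSubgroup.mem_top x : x ∈ Y ⊔ Y')
    have hbU : b ∈ U := by simpa using U.sub_mem hx (hYU ha)
    rw [smul_add, hw' g (hΦ (fun g hg => (hst g hg).1) hg) a ha,
      hv' g (hΦ (fun g hg => (hst g hg).2) hg) b ⟨hb, hbU⟩]
  obtain ⟨v, -, hv⟩ := key ⊤ fun _ _ _ => trivial
  exact ⟨v, fun g hg x => hv g hg x trivial⟩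

theorem le_ker_of_cr [Finite V] (hcr : CR G V) (S : Subgroup G)
    (h : ∀ (Y : AddSubgroup V) (hY : Invt G Y), Y ≠ ⊥ → @Irr G Y _ _ (invAct hY) →
      S ≤ @ker G Y _ (invAct hY).toMulAction) : S ≤ ker G V :=
  (exists_of_cr hcr (fun _ => S) (fun _ _ _ => le_rfl) fun Y hY h0 hi =>
    ⟨0, Y.zero_mem, fun _ hg x hx => congrArg Subtype.val (h Y hY h0 hi hg ⟨x, hx⟩)⟩).choose_spec

/-- derived length of an affine group -/
theorem aff_ker {M : Subgroup G} {A : Type*} [AddCommGroup A] [DistribMulAction M A]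
    {e : A ≃ G ⧸ M} (h0 : e 0 = ((1 : G) : G ⧸ M))
    (hm : ∀ (m : M) (a : A), e (m • a) = (m : G) • e a)
    (hn : ∀ a, ∃ n : G, ∀ b, e (a + b) = n • e b) {d : ℕ} (hd : ds (⊤ : Subgroup M) d ≤ ker M A) :
    ds (⊤ : Subgroup G) (d + 1) ≤ ker G (G ⧸ M) := by
  let P : Subgroup (G × M) :=
    { carrier := {x | ∃ a, ∀ b, x.1 • e b = e (a + x.2 • b)}
      one_mem' := ⟨0, fun b => by simp⟩
      mul_mem' := by
        rintro x y ⟨a, ha⟩ ⟨a', ha'⟩
        exact ⟨a + x.2 • a', fun b => by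
          rw [Prod.fst_mul, Prod.snd_mul, mul_smul, ha', ha, smul_add, mul_smul, add_assoc]⟩
      inv_mem' := by
        rintro x ⟨a, ha⟩
        exact ⟨-(x.2⁻¹ • a), fun b => by
          rw [Prod.fst_inv, Prod.snd_inv, inv_smul_eq_iff, ha, smul_add, smul_neg, smul_inv_smul,
            smul_inv_smul, add_neg_cancel_left]⟩ }
  have hP : ∀ g ∈ (⊤ : Subgroup G), ∃ x ∈ P, MonoidHom.fst G M x = g := fun g _ => by
    obtain ⟨a, ha⟩ := e.surjective (g • e 0)
    obtain ⟨n, hn⟩ := hn a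
    have h1 : (n⁻¹ * g) • e 0 = e 0 := by rw [mul_smul, ← ha, inv_smul_eq_iff, ← hn, add_zero]
    have hgM : n⁻¹ * g ∈ M := by
      rw [h0] at h1
      have : ((n⁻¹ * g * 1 : G) : G ⧸ M) = ((1 : G) : G ⧸ M) := h1
      rw [QuotientGroup.eq] at this
      simpa using M.inv_mem this
    exact ⟨(g, ⟨_, hgM⟩), ⟨a, fun b => by rw [hn, hm, mul_smul, smul_inv_smul]⟩, rfl⟩
  have htr : ∀ g ∈ ds (⊤ : Subgroup G) d, ∃ a, ∀ b, g • e b = e (a + b) := fun g hg => by
    obtain ⟨x, hx, rfl⟩ := exists_of_mem_ds _ hP hg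
    obtain ⟨a, ha⟩ := ds_le _ _ hx
    have := hd (mem_ds_map (MonoidHom.snd G M) (T := ⊤) (fun _ _ => trivial) hx)
    exact ⟨a, fun b => (ha b).trans (by rw [show x.2 • b = b from this b])⟩
  refine Subgroup.commutator_le.mpr fun g hg g' hg' ω => ?_
  obtain ⟨a, ha⟩ := htr g hg
  obtain ⟨a', ha'⟩ := htr g' hg'
  have hc : ∀ ω : G ⧸ M, g • g' • ω = g' • g • ω := fun ω => by
    obtain ⟨b, rfl⟩ := e.surjective ω
    rw [ha', ha, ha, ha', add_left_comm]
  rw [commutatorElement_def, mul_smul, mul_smul, mul_smul, hc, smul_inv_smul, smul_inv_smul]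

/-- the stabiliser of a colouring -/
def stabC (G : Type*) {Ω γ : Type*} [Group G] [MulAction G Ω] (χ : Ω → γ) : Subgroup G where
  carrier := {g | ∀ ω, χ (g • ω) = χ ω}
  one_mem' := fun ω => by rw [one_smul]
  mul_mem' := fun ha hb ω => by rw [mul_smul, ha, hb]
  inv_mem' := fun {a} ha ω => by rw [← ha, smul_inv_smul]

/-- `k` inequivalent colourings with `j` colours whose stabilisers have derived length at most `c` -/
def Cols (G Ω : Type*) [Group G] [MulAction G Ω] (j k c : ℕ) : Prop :=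
  ∃ χ : Fin k → Ω → Fin j, (∀ i, ds (stabC G (χ i)) c ≤ ker G Ω) ∧
    ∀ i i' (g : G), (∀ ω, χ i' (g • ω) = χ i ω) → i = i'

section imprim
variable {Ω : Type*} [Fintype Ω] [MulAction G Ω] {W : Ω → AddSubgroup V}

theorem wreath_ker (h : Imprim G W) (ω0 : Ω) {S : Subgroup G} {d : ℕ}
    (hS : ∀ ω, ∃ s : G, s • ω0 = ω ∧ ∃ R : Subgroup (stabilizer G ω0),
      (∀ g ∈ S, ∃ r ∈ R, (r : G) = s⁻¹ * g * s) ∧
      ds R d ≤ @ker _ (W ω0) _ (subAct _ _ (h.stab_inv ω0)).toMulAction) : ds S d ≤ ker G V := by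
  intro g hg x
  obtain ⟨w, hw, rfl⟩ := h.span x
  rw [Finset.smul_sum]
  refine Finset.sum_congr rfl fun ω _ => ?_
  obtain ⟨s, hs, R, hR, hd⟩ := hS ω
  have h1 := mem_ds_map (MulAut.conj s⁻¹).toMonoidHom (T := R.map (stabilizer G ω0).subtype)
    (fun g hg => by
      obtain ⟨r, hr, e⟩ := hR g hg
      exact ⟨r, hr, by simpa using e⟩) hg
  rw [← map_ds] at h1
  obtain ⟨r, hr, e⟩ := h1
  have h2 : (r : G) = s⁻¹ * g * s := by simpa using e
  have h3 : (r : G) • s⁻¹ • w ω = s⁻¹ • w ω := congrArg Subtype.val (hd hr ⟨s⁻¹ • w ω, by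
    have := h.equiv s⁻¹ ω _ (hw ω)
    rwa [inv_smul_eq_iff.mpr hs.symm] at this⟩)
  rw [h2, mul_smul, mul_smul, smul_inv_smul] at h3
  exact MulAction.injective _ h3

/-- the wreath step -/
theorem wreath (h : Imprim G W) (ω0 : Ω) {j k c d : ℕ}
    (hT : @Many (stabilizer G ω0) (W ω0) _ _ (subAct _ _ (h.stab_inv ω0)) j d)
    (hχ : Cols G Ω j k c) : Many G V k (c + d) := by
  obtain ⟨T, hT, hT'⟩ := hT
  obtain ⟨χ, hχ, hχ'⟩ := hχ
  choose s hs using h.trans ω0
  have hmem : ∀ i ω, s ω • (T (χ i ω) : V) ∈ W ω := fun i ω => by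
    have := h.equiv (s ω) ω0 _ (T (χ i ω)).2; rwa [hs] at this
  have h0 : ∀ (g : G) ω, (s (g • ω))⁻¹ * g * s ω ∈ stabilizer G ω0 := fun g ω => by
    rw [mem_stabilizer_iff, mul_smul, mul_smul, hs, inv_smul_eq_iff, hs]
  have h1 : ∀ i i' (g : G), g • ∑ ω, s ω • (T (χ i ω) : V) = ∑ ω, s ω • (T (χ i' ω) : V) →
      ∀ ω, ((s (g • ω))⁻¹ * g * s ω) • (T (χ i ω) : V) = T (χ i' (g • ω)) := fun i i' g hg ω => by
    rw [mul_smul, mul_smul, h.comp g (hmem i) (hmem i') hg ω, inv_smul_smul]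
  have h2 : ∀ i i' (g : G), g • ∑ ω, s ω • (T (χ i ω) : V) = ∑ ω, s ω • (T (χ i' ω) : V) →
      ∀ ω, χ i' (g • ω) = χ i ω := fun i i' g hg ω =>
    (hT' _ _ ⟨_, h0 g ω⟩ (Subtype.ext (h1 i i' g hg ω))).symm
  refine ⟨fun i => ∑ ω, s ω • (T (χ i ω) : V), fun i => ?_, fun i i' g hg => hχ' i i' g (h2 i i' g hg)⟩
  rw [ds_add]
  refine wreath_ker h ω0 fun ω => ⟨s ω, hs ω, _, fun g hg => ?_, hT (χ i ω)⟩
  have h3 : g • ω = ω := hχ i (ds_mono (T := stabC G (χ i)) (fun g hg => h2 i i g hg) c hg) ω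
  refine ⟨⟨_, h0 g ω⟩, Subtype.ext ?_, by simp only [h3]⟩
  have := h1 i i g (ds_le _ _ hg) ω
  rw [h2 i i g (ds_le _ _ hg) ω] at this
  exact this

theorem wreath_top (h : Imprim G W) (ω0 : Ω) {c d : ℕ} (hc : ds (⊤ : Subgroup G) c ≤ ker G Ω)
    (hd : ds (⊤ : Subgroup (stabilizer G ω0)) d ≤
      @ker _ (W ω0) _ (subAct _ _ (h.stab_inv ω0)).toMulAction) :
    ds (⊤ : Subgroup G) (c + d) ≤ ker G V := by
  rw [ds_add]
  refine wreath_ker h ω0 fun ω => ?_
  obtain ⟨s, hs⟩ := h.trans ω0 ω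
  refine ⟨s, hs, ⊤, fun g hg => ⟨⟨s⁻¹ * g * s, ?_⟩, trivial, rfl⟩, hd⟩
  rw [mem_stabilizer_iff, mul_smul, mul_smul, hc hg, inv_smul_smul]

theorem indep_inj {ι : Type*} [Fintype ι] {X : ι → AddSubgroup V} (h : Indep X) :
    Function.Injective fun w : ∀ i, X i => ∑ i, (w i : V) := fun w w' e =>
  funext fun i => Subtype.ext (h.eq (fun i => (w i).2) (fun i => (w' i).2) e i)

theorem indep_card [Finite V] {ι : Type*} [Fintype ι] {X : ι → AddSubgroup V} (h : Indep X) {n : ℕ}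
    (hn : ∀ i, n ≤ Nat.card (X i)) : n ^ Nat.card ι ≤ Nat.card V := by
  have h1 := Nat.card_le_card_of_injective _ (indep_inj h)
  rw [Nat.card_pi] at h1
  refine le_trans ?_ h1
  rw [Nat.card_eq_fintype_card, ← Finset.card_univ, ← Finset.prod_const]
  exact Finset.prod_le_prod' fun i _ => hn i

theorem card_le_of_smul [Finite V] (g : G) {X Y : AddSubgroup V} (h : ∀ x ∈ X, g • x ∈ Y) :
    Nat.card X ≤ Nat.card Y :=
  Nat.card_le_card_of_injective (fun x : X => (⟨g • (x : V), h x x.2⟩ : Y)) fun _ _ e =>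
    Subtype.ext (MulAction.injective g (congrArg Subtype.val e))

theorem imprim_card [Finite V] (h : Imprim G W) (ω0 : Ω) :
    Nat.card V = Nat.card (W ω0) ^ Nat.card Ω := by
  have h1 : ∀ ω ω', Nat.card (W ω) ≤ Nat.card (W ω') := fun ω ω' => by
    obtain ⟨g, rfl⟩ := h.trans ω ω'
    exact card_le_of_smul g (h.equiv g ω)
  rw [← Nat.card_eq_of_bijective _ ⟨indep_inj h.indep, fun v => by
    obtain ⟨w, hw, rfl⟩ := h.span v
    exact ⟨fun ω => ⟨w ω, hw ω⟩, rfl⟩⟩, Nat.card_pi, Nat.card_eq_fintype_card (α := Ω),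
    ← Finset.card_univ, ← Finset.prod_const]
  exact Finset.prod_congr rfl fun ω _ => le_antisymm (h1 _ _) (h1 _ _)

end imprim

theorem exists_many {X : Type*} [MulAction G X] [Finite G] [Finite X] (Z : Set X) (k : ℕ)
    (h : k * Nat.card G < Z.ncard) :
    ∃ T : Fin (k + 1) → X, (∀ c, T c ∈ Z) ∧ ∀ c c' (g : G), g • T c = T c' → c = c' := by
  classical
  let q : X → orbitRel.Quotient G X := Quotient.mk _
  have h1 : (Set.toFinite Z).toFinset.card ≤ Nat.card G * ((Set.toFinite Z).toFinset.image q).card := by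
    refine Finset.card_le_mul_card_image _ _ fun a _ => ?_
    obtain ⟨x, rfl⟩ := Quotient.exists_rep a
    have := Fintype.ofFinite G
    rw [Nat.card_eq_fintype_card, ← Finset.card_univ]
    refine le_trans (Finset.card_le_card fun y hy => ?_) (Finset.card_image_le (f := fun g : G => g • x))
    obtain ⟨g, hg⟩ := Quotient.exact (Finset.mem_filter.mp hy).2
    exact Finset.mem_image.mpr ⟨g, Finset.mem_univ _, hg⟩
  rw [← Set.ncard_eq_toFinset_card Z] at h1
  have h2 : k + 1 ≤ ((Set.toFinite Z).toFinset.image q).card := by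
    by_contra hc
    have := Nat.mul_le_mul_left (Nat.card G) (Nat.lt_succ_iff.mp (not_le.mp hc))
    rw [mul_comm] at h
    omega
  obtain ⟨f⟩ : Nonempty (Fin (k + 1) ↪ ((Set.toFinite Z).toFinset.image q)) :=
    Function.Embedding.nonempty_of_card_le (by simpa using h2)
  choose T hT hTq using fun c => Finset.mem_image.mp (f c).2
  refine ⟨T, fun c => by simpa using hT c, fun c c' g hg => f.injective (Subtype.ext ?_)⟩
  rw [← hTq, ← hTq]
  exact (Quotient.sound (show (orbitRel G X).r _ _ from ⟨g, hg⟩)).symm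

theorem card_mul_le [Finite V] (X Y : AddSubgroup V) :
    Nat.card X * Nat.card Y ≤ Nat.card V * Nat.card (X ⊓ Y : AddSubgroup V) := by
  have h1 := X.card_mul_index
  have h2 := Y.card_mul_index
  have h3 := (X ⊓ Y).card_mul_index
  have h4 := AddSubgroup.index_inf_le (H := X) (K := Y)
  have h5 : 0 < X.index * Y.index := Nat.pos_of_ne_zero
    (mul_ne_zero AddSubgroup.index_ne_zero_of_finite AddSubgroup.index_ne_zero_of_finite)
  refine Nat.le_of_mul_le_mul_right ?_ h5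
  calc Nat.card X * Nat.card Y * (X.index * Y.index)
      = (Nat.card X * X.index) * (Nat.card Y * Y.index) := by ring
    _ = Nat.card V * (Nat.card (X ⊓ Y : AddSubgroup V) * (X ⊓ Y).index) := by rw [h1, h2, h3]
    _ ≤ _ := by rw [mul_assoc]; gcongr

/-- the fixed points of an element -/
def fix (V : Type*) [AddCommGroup V] [DistribMulAction G V] (g : G) : AddSubgroup V where
  carrier := {v | g • v = v}
  zero_mem' := smul_zero g
  add_mem' := fun {a b} (ha : g • a = a) (hb : g • b = b) => by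
    show g • (a + b) = a + b
    rw [smul_add, ha, hb]
  neg_mem' := fun {a} (ha : g • a = a) => by
    show g • (-a) = -a
    rw [smul_neg, ha]

theorem mem_fix {g : G} {v : V} : v ∈ fix V g ↔ g • v = v := Iff.rfl

theorem fix_comm [Finite V] (g f : G) :
    Nat.card (fix V g) ^ 2 ≤ Nat.card V * Nat.card (fix V (g⁻¹ * f * g * f⁻¹)) := by
  have h1 := card_mul_le (fix V g) (fix V (f * g * f⁻¹))
  have h2 : Nat.card (fix V g) ≤ Nat.card (fix V (f * g * f⁻¹)) := card_le_of_smul f fun x hx => by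
    rw [mem_fix, mul_smul, mul_smul, inv_smul_smul, mem_fix.mp hx]
  have h3 : Nat.card (fix V g ⊓ fix V (f * g * f⁻¹) : AddSubgroup V) ≤
      Nat.card (fix V (g⁻¹ * f * g * f⁻¹)) := AddSubgroup.card_le_of_le fun x hx => by
    rw [mem_fix, mul_assoc, mul_assoc, mul_smul, ← mul_assoc, mem_fix.mp hx.2, inv_smul_eq_iff,
      mem_fix.mp hx.1]
  calc _ ≤ Nat.card (fix V g) * Nat.card (fix V (f * g * f⁻¹)) := by rw [sq]; gcongr
    _ ≤ _ := h1.trans (by gcongr)

/-- counting the vectors fixed by some element of a set -/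
theorem ncard_nonreg [Finite G] [Finite V] (R : Set G) (N : ℕ) (h : ∀ g ∈ R, Nat.card (fix V g) ≤ N) :
    {x : V | ∃ g ∈ R, g • x = x}.ncard ≤ R.ncard * N := by
  classical
  have h1 : {x : V | ∃ g ∈ R, g • x = x} =
      ((Set.toFinite R).toFinset.biUnion fun g => (Set.toFinite (fix V g : Set V)).toFinset : Finset V) := by
    ext x; simp [mem_fix]
  rw [h1, Set.ncard_coe_finset, Set.ncard_eq_toFinset_card R]
  refine Finset.card_biUnion_le_card_mul _ _ _ fun g hg => ?_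
  rw [← Set.ncard_eq_toFinset_card]
  exact h g (by simpa using hg)

end Cfsg.Agent.FG.MW
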