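import Mathlib
import Cfsg.Agent.FG.MWDs

/-! The quasi-primitive case: the symplectic module `F/U`, orders, vectors with prescribed
stabiliser in `F`. -/

set_option autoImplicit false

namespace Cfsg.Agent.FG.MW

open Cfsg.Agent.FG.BS Cfsg.Agent.FG.BS.Pre MulAction
open scoped commutatorElement

variable {G V : Type*} [Group G] [AddCommGroup V] [DistribMulAction G V] (P : Pre G V)

instance U_normal : (P.U.subgroupOf P.F).Normal := P.Un.subgroupOf P.F

/-- the quotient `F/U` -/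
def Q : Type _ := P.F ⧸ P.U.subgroupOf P.F

instance : CommGroup (Q P) :=
  { (inferInstance : Group (P.F ⧸ P.U.subgroupOf P.F)) with
    mul_comm := by
      intro a b
      obtain ⟨f, rfl⟩ := QuotientGroup.mk_surjective a
      obtain ⟨f', rfl⟩ := QuotientGroup.mk_surjective b
      apply QuotientGroup.eq.mpr
      have : ⁅(f' : G)⁻¹, (f : G)⁻¹⁆ ∈ P.U := P.comm _ (P.F.inv_mem f'.2) _ (P.F.inv_mem f.2)
      rw [Subgroup.mem_subgroupOf]
      convert this using 1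
      simp [commutatorElement_def, mul_assoc] }

/-- the module `F/U` -/
def Wm : Type _ := Additive (Q P)

instance : AddCommGroup (Wm P) := inferInstanceAs (AddCommGroup (Additive (Q P)))

instance [Finite G] : Finite (Wm P) := inferInstanceAs (Finite (P.F ⧸ P.U.subgroupOf P.F))

/-- the projection `F → F/U` -/
def pr (f : P.F) : Wm P := Additive.ofMul (QuotientGroup.mk f : P.F ⧸ P.U.subgroupOf P.F)

/-- conjugation inside `F` -/
def cj (g : G) (f : P.F) : P.F := ⟨g * f * g⁻¹, P.Fn.conj_mem _ f.2 g⟩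

variable {P}

theorem pr_surj (w : Wm P) : ∃ f, pr P f = w := QuotientGroup.mk_surjective (s := P.U.subgroupOf P.F) w

theorem pr_mul (f f' : P.F) : pr P (f * f') = pr P f + pr P f' := rfl

theorem pr_inv (f : P.F) : pr P f⁻¹ = -pr P f := rfl

theorem pr_one : pr P 1 = 0 := rfl

theorem pr_eq_iff {f f' : P.F} : pr P f = pr P f' ↔ (f : G)⁻¹ * f' ∈ P.U :=
  QuotientGroup.eq (s := P.U.subgroupOf P.F)

theorem pr_eq_zero {f : P.F} : pr P f = 0 ↔ (f : G) ∈ P.U :=
  QuotientGroup.eq_one_iff (N := P.U.subgroupOf P.F) f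

theorem pr_pow (f : P.F) (n : ℕ) : pr P (f ^ n) = n • pr P f := by
  induction n with
  | zero => rw [pow_zero, zero_smul, pr_one]
  | succ n ih => rw [pow_succ, pr_mul, ih, succ_nsmul]

instance : SMul G (Wm P) := ⟨fun g w => Quotient.map' (s₁ := QuotientGroup.leftRel (P.U.subgroupOf P.F))
  (s₂ := QuotientGroup.leftRel (P.U.subgroupOf P.F)) (cj P g) (fun a b h => by
    rw [QuotientGroup.leftRel_apply, Subgroup.mem_subgroupOf] at h ⊢
    have := P.Un.conj_mem _ h g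
    convert this using 1
    simp [cj, mul_assoc]) w⟩

theorem smul_pr (g : G) (f : P.F) : g • pr P f = pr P (cj P g f) := rfl

instance : DistribMulAction G (Wm P) where
  one_smul w := by
    obtain ⟨f, rfl⟩ := pr_surj w
    rw [smul_pr]; congr 1; exact Subtype.ext (by simp [cj])
  mul_smul a b w := by
    obtain ⟨f, rfl⟩ := pr_surj w
    rw [smul_pr, smul_pr, smul_pr]; congr 1; exact Subtype.ext (by simp [cj, mul_assoc])
  smul_zero a := by rw [← pr_one, smul_pr]; congr 1; exact Subtype.ext (by simp [cj])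
  smul_add a x y := by
    obtain ⟨f, rfl⟩ := pr_surj x
    obtain ⟨f', rfl⟩ := pr_surj y
    rw [← pr_mul, smul_pr, smul_pr, smul_pr, ← pr_mul]; congr 1
    exact Subtype.ext (by simp [cj, mul_assoc])

theorem card_Wm : Nat.card (Wm P) = P.U.relIndex P.F := rfl

/-- double centraliser -/
theorem dc' [Finite G] [Finite V] {S : Subgroup G} (hS : S ≤ P.F) {z : G}
    (hz : ∀ f ∈ P.F, ⁅f, z⁆ ∈ P.U)
    (h : ∀ c ∈ P.F, (∀ s ∈ S, s * c = c * s) → c * z = z * c) : ∃ s ∈ S, s⁻¹ * z ∈ P.U := by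
  obtain ⟨b, hb, hbz⟩ := exists_comm S hS
    { toFun := fun f => ⟨⁅(f : G), z⁆, hz _ f.2⟩
      map_one' := by simp
      map_mul' := fun a b => Subtype.ext (by
        have h1 := P.cen _ (hz _ b.2) _ a.2
        show ⁅(a : G) * b, z⁆ = ⁅(a : G), z⁆ * ⁅(b : G), z⁆
        calc ⁅(a : G) * b, z⁆ = (a * ⁅(b : G), z⁆) * (z * (a : G)⁻¹ * z⁻¹) := by
              simp only [commutatorElement_def]; group
          _ = ⁅(b : G), z⁆ * ⁅(a : G), z⁆ := by rw [← h1]; simp only [commutatorElement_def]; group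
          _ = _ := U_comm (hz _ b.2) (hz _ a.2)) }
    fun f hf => Subtype.ext (commutatorElement_eq_one_iff_mul_comm.mpr (h f f.2 hf))
  exact ⟨b, hb, P.cF _ fun f hf => comm_of_comm_eq (hbz ⟨f, hf⟩)⟩

theorem mem_F [Finite G] [Finite V] {g : G} (hU : g ∈ Subgroup.centralizer (P.U : Set G))
    (hW : g ∈ ker G (Wm P)) : g ∈ P.F := by
  obtain ⟨s, hs, h⟩ := dc' (P := P) (z := g) le_rfl (fun f hf => by
    have := P.U.inv_mem (pr_eq_iff.mp (hW (pr P ⟨f⁻¹, P.F.inv_mem hf⟩)).symm)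
    have h2 := P.U.inv_mem this
    simpa [cj, commutatorElement_def, mul_assoc] using h2)
    fun c _ hc => hU c (P.cF c fun f hf => (hc f hf).symm)
  simpa using P.F.mul_mem hs (P.UF h)

theorem F_le_ker : P.F ≤ ker G (Wm P) := fun g hg w => by
  obtain ⟨f, rfl⟩ := pr_surj w
  rw [smul_pr, eq_comm, pr_eq_iff]
  simpa [cj, commutatorElement_def, mul_assoc] using P.comm _ (P.F.inv_mem f.2) _ hg

/-- the preimage of a subgroup of `F/U` -/
def hat (Y : AddSubgroup (Wm P)) : Subgroup G where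
  carrier := {g | ∃ h : g ∈ P.F, pr P ⟨g, h⟩ ∈ Y}
  one_mem' := ⟨P.F.one_mem, Y.zero_mem⟩
  mul_mem' := fun ⟨ha, ha'⟩ ⟨hb, hb'⟩ => ⟨P.F.mul_mem ha hb, Y.add_mem ha' hb'⟩
  inv_mem' := fun ⟨ha, ha'⟩ => ⟨P.F.inv_mem ha, Y.neg_mem ha'⟩

theorem hat_normal {Y : AddSubgroup (Wm P)} (hY : Invt G Y) : (hat Y).Normal :=
  ⟨fun _ ⟨h, h'⟩ g => ⟨P.Fn.conj_mem _ h g, hY g _ h'⟩⟩

theorem U_le_hat (Y : AddSubgroup (Wm P)) : P.U ≤ hat Y := fun u hu =>
  ⟨P.UF hu, by rw [pr_eq_zero.mpr hu]; exact Y.zero_mem⟩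

theorem cr_Wm [Finite G] [Finite V] : CR G (Wm P) := by
  intro Y hY
  have := hat_normal hY
  let C : Subgroup G := P.F ⊓ Subgroup.centralizer (hat Y : Set G)
  have hUC : P.U ≤ C := fun u hu => ⟨P.UF hu, fun y hy => (P.cen u hu y hy.1).symm⟩
  have := P.Fn
  have hYC : hat Y ⊓ C ≤ P.U := P.umax _ inferInstance (fun x hx y hy => hy.2.2 x hx.1)
    (le_inf (U_le_hat Y) hUC)
  let Y' : AddSubgroup (Wm P) :=
    { carrier := {w | ∃ f : P.F, (f : G) ∈ C ∧ pr P f = w}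
      zero_mem' := ⟨1, C.one_mem, rfl⟩
      add_mem' := by
        rintro _ _ ⟨a, ha, rfl⟩ ⟨b, hb, rfl⟩
        exact ⟨a * b, C.mul_mem ha hb, rfl⟩
      neg_mem' := by
        rintro _ ⟨a, ha, rfl⟩
        exact ⟨a⁻¹, C.inv_mem ha, rfl⟩ }
  refine ⟨Y', ?_, ?_, ?_⟩
  · rintro g _ ⟨a, ha, rfl⟩
    exact ⟨cj P g a, (inferInstance : C.Normal).conj_mem _ ha g, rfl⟩
  · rw [eq_bot_iff]
    rintro _ ⟨h1, a, ha, rfl⟩
    exact pr_eq_zero.mpr (hYC ⟨⟨a.2, h1⟩, ha⟩)
  · rw [eq_top_iff]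
    intro w _
    obtain ⟨z, rfl⟩ := pr_surj w
    obtain ⟨s, hs, h⟩ := dc' (P := P) (S := hat (Y ⊔ Y')) (fun _ h => h.1)
      (fun f hf => P.comm f hf z z.2) fun c hc hcs => by
        have h1 : c ∈ C := ⟨hc, fun y hy => hcs y ⟨hy.1, AddSubgroup.mem_sup_left hy.2⟩⟩
        obtain ⟨y, hy, h2⟩ := dc' (P := P) (S := hat Y) (fun _ h => h.1)
          (fun f hf => P.comm f hf c hc) fun c' hc' h' =>
            hcs c' ⟨hc', AddSubgroup.mem_sup_right ⟨⟨c', hc'⟩, ⟨hc', h'⟩, rfl⟩⟩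
        have h3 : c ∈ hat Y := by simpa using (hat Y).mul_mem hy (U_le_hat Y h2)
        exact P.cen c (hYC ⟨h3, h1⟩) z z.2
    rw [← pr_eq_iff.mpr (show ((⟨s, hs.1⟩ : P.F) : G)⁻¹ * z ∈ P.U from h)]
    exact hs.2

theorem eq_bot_of_cyclic {Y : AddSubgroup (Wm P)} (hY : Invt G Y) [IsAddCyclic Y] : Y = ⊥ := by
  obtain ⟨⟨w, hw⟩, hθ⟩ := IsAddCyclic.exists_generator (α := Y)
  obtain ⟨z, rfl⟩ := pr_surj w
  have key : ∀ x ∈ hat Y, ∃ n : ℤ, ∃ u ∈ P.U, x = z ^ n * u := by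
    rintro x ⟨h, h'⟩
    obtain ⟨n, hn⟩ := hθ ⟨_, h'⟩
    have h1 : pr P (z ^ n) = pr P ⟨x, h⟩ := congrArg Subtype.val hn
    exact ⟨n, _, pr_eq_iff.mp h1, by simp⟩
  have := P.umax _ (hat_normal hY) (fun x hx y hy => by
    obtain ⟨n, u, hu, rfl⟩ := key x hx
    obtain ⟨m, u', hu', rfl⟩ := key y hy
    have c1 : Commute u z := P.cen u hu z z.2
    have c2 : Commute u' z := P.cen u' hu' z z.2
    have c3 : Commute u u' := U_comm hu hu'
    exact ((((Commute.refl (z : G)).zpow_zpow n m).mul_right (c2.symm.zpow_left n)).mul_left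
      ((c1.zpow_right m).mul_right c3)).eq) (U_le_hat Y)
  rw [eq_bot_iff]
  intro y hy
  obtain ⟨f, rfl⟩ := pr_surj y
  exact pr_eq_zero.mpr (this ⟨f.2, hy⟩)

theorem ds_one_le [Finite V] : ds (⊤ : Subgroup G) 1 ≤ Subgroup.centralizer (P.U : Set G) :=
  have := isCyclic_U (P := P)
  comm_le_centralizer fun g _ x hx => P.Un.conj_mem x hx g

theorem ds_le_F [Finite G] [Finite V] {j : ℕ} (hj : 1 ≤ j)
    (h : ds (⊤ : Subgroup G) j ≤ ker G (Wm P)) : ds (⊤ : Subgroup G) j ≤ P.F :=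
  fun _ hg => mem_F (ds_one_le (ds_anti _ hj hg)) (h hg)

theorem ds_F_one : ds P.F 1 ≤ P.U := Subgroup.commutator_le.mpr P.comm

theorem ds_top_bot {j : ℕ} (h : ds (⊤ : Subgroup G) j ≤ P.F) :
    ds (⊤ : Subgroup G) (j + 2) ≤ ker G V := by
  have h1 : ds (⊤ : Subgroup G) (j + 1) ≤ P.U := by rw [ds_add]; exact (ds_mono h 1).trans ds_F_one
  refine Subgroup.commutator_le.mpr fun a ha b hb x => ?_
  rw [commutatorElement_eq_one_iff_mul_comm.mpr (U_comm (h1 ha) (h1 hb)), one_smul]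

theorem ds_stab {j : ℕ} (h : ds (⊤ : Subgroup G) j ≤ P.F) {x : V} (hx : x ≠ 0) :
    ds (stabilizer G x) (j + 1) ≤ ker G V := fun g hg y => by
  have h1 : ds (⊤ : Subgroup G) (j + 1) ≤ P.U := by rw [ds_add]; exact (ds_mono h 1).trans ds_F_one
  by_cases h2 : g = 1
  · rw [h2, one_smul]
  · exact absurd (P.fpf g (h1 (ds_mono le_top _ hg)) h2 x (ds_le _ _ hg)) hx

theorem ds_reg {j : ℕ} (h : ds (⊤ : Subgroup G) j ≤ P.F) {x : V}
    (hx : P.F ⊓ stabilizer G x = ⊥) : ds (stabilizer G x) j ≤ ker G V := fun g hg y => by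
  rw [Subgroup.mem_bot.mp (hx.le ⟨h (ds_mono le_top _ hg), ds_le _ _ hg⟩), one_smul]

theorem index_F_le [Finite G] [Finite V] [Group.IsSolvable G] :
    P.F.index ≤ Nat.card P.U * Nat.card (Wm P) ^ 3 := by
  obtain ⟨t, ht⟩ := base_three_of_cr (cr_Wm (P := P))
  obtain ⟨θ, hθ, hgen⟩ := exists_θ P
  have := index_le_card (H := P.F) (X := P.U × (Fin 3 → Wm P))
    (fun g => (⟨g * θ * g⁻¹, P.Un.conj_mem θ hθ g⟩, fun i => g • t i)) fun g g' h => by
      have h1 : g * θ * g⁻¹ = g' * θ * g'⁻¹ := congrArg (fun x => (x.1 : G)) h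
      refine mem_F (fun u hu => ?_) (ht _ fun i => ?_)
      · obtain ⟨n, rfl⟩ := hgen u hu
        have : Commute θ (g⁻¹ * g') := by
          rw [Commute, SemiconjBy]
          calc θ * (g⁻¹ * g') = g⁻¹ * (g * θ * g⁻¹) * g' := by group
            _ = _ := by rw [h1]; group
        exact (this.zpow_left n).eq
      · rw [mul_smul, inv_smul_eq_iff]
        exact (congrFun (congrArg Prod.snd h) i).symm
  simpa [Nat.card_fun] using this

theorem card_B [Finite G] [Finite V] : Nat.card P.B = Nat.card P.A := by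
  have := isCyclic_U (P := P)
  obtain ⟨j, hj⟩ := exists_inj_units P.U
  have hj1 : ∀ {x y : G} {hx hy}, j ⟨x, hx⟩ = j ⟨y, hy⟩ → x = y := fun h => congrArg Subtype.val (hj h)
  apply le_antisymm
  · have := finite_hom P.A
    refine le_trans (Nat.card_le_card_of_injective (fun b : P.B => (QuotientGroup.lift
      (P.D.subgroupOf P.F)
      { toFun := fun f => j ⟨⁅(f : G), (b : G)⁆, P.comm _ f.2 _ b.2.1⟩
        map_one' := by rw [← map_one j]; congr 1; exact Subtype.ext (by simp)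
        map_mul' := fun a c => by
          rw [← map_mul]; congr 1; exact Subtype.ext (comm_mul_left a.2 c.2 b.2.1) }
      (fun d hd => by
        show j _ = 1
        rw [← map_one j]; congr 1
        exact Subtype.ext (commutatorElement_eq_one_iff_mul_comm.mpr (hd.2 b b.2).symm)) :
        P.A →* ℂˣ)) fun b b' h => ?_) (card_hom_le _)
    have h1 := eq_one_of_U (P.cF _ fun f hf => comm_of_comm_eq
      (hj1 (DFunLike.congr_fun h (P.π ⟨f, hf⟩)))) (P.B.mul_mem (P.B.inv_mem b'.2) b.2).2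
    exact Subtype.ext (inv_mul_eq_one.mp h1).symm
  · have := finite_hom P.B
    refine le_trans (Nat.card_le_card_of_injective (fun a : P.A =>
      ({ toFun := fun b => j ⟨⁅(P.rep a : G), (b : G)⁆, P.comm _ (P.rep a).2 _ b.2.1⟩
         map_one' := by rw [← map_one j]; congr 1; exact Subtype.ext (by simp)
         map_mul' := fun b c => by
          rw [← map_mul]; congr 1
          exact Subtype.ext (comm_mul_right (P.rep a).2 b.2.1 c.2.1) } : P.B →* ℂˣ))
      fun a a' h => ?_) (card_hom_le _)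
    rw [← π_rep a, ← π_rep a', π_eq_iff]
    refine ⟨P.F.mul_mem (P.F.inv_mem (P.rep a).2) (P.rep a').2, fun b hb => ?_⟩
    have h1 : ⁅(P.rep a : G), b⁆ = ⁅(P.rep a' : G), b⁆ := hj1 (DFunLike.congr_fun h ⟨b, hb⟩)
    refine (commutatorElement_eq_one_iff_mul_comm.mp ?_).symm
    rw [comm_mul_left (P.F.inv_mem (P.rep a).2) (P.rep a').2 hb.1, ← h1,
      ← comm_mul_left (P.F.inv_mem (P.rep a).2) (P.rep a).2 hb.1]
    simp

variable (P) in
/-- the centre of `D` -/
def Z : Subgroup G := P.B ⊔ P.U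

theorem Z_le_D : Z P ≤ P.D := sup_le B_le_D U_le_D

theorem Z_comm {z d : G} (hz : z ∈ Z P) (hd : d ∈ P.D) : d * z = z * d :=
  (sup_le (fun b hb _ hd => (hd.2 b hb).symm) (fun u hu d hd => (P.cen u hu d hd.1).symm) :
    Z P ≤ Subgroup.centralizer (P.D : Set G)) hz d hd

theorem mem_Z_of_smul {d u : G} (hd : d ∈ P.F) (hu : u ∈ P.U) (h : d • P.v = u • P.v) : d ∈ Z P := by
  have h1 : u⁻¹ * d ∈ P.B := ⟨P.F.mul_mem (P.UF (P.U.inv_mem hu)) hd, by
    show (u⁻¹ * d) • P.v = P.v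
    rw [mul_smul, h, inv_smul_smul]⟩
  simpa using (Z P).mul_mem (Subgroup.mem_sup_right hu) (Subgroup.mem_sup_left h1)

theorem s_le [Finite G] [Finite V] (hP : P.IsMax) : (Z P).relIndex P.D ≤ 4 := by
  rcases quat_or hP with h | ⟨i, j, q⟩
  · rw [Subgroup.relIndex_eq_one.mpr fun d hd => by
      obtain ⟨u, hu, e⟩ := h d hd
      exact mem_Z_of_smul hd.1 hu (e _ v_mem)]
    norm_num
  have hc : ⁅j, i⁆ • P.v = -P.v := by
    have h1 := D_smul (P.D.inv_mem q.hj) (D_smul (P.D.inv_mem q.hi) (v_mem (P := P)))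
    rw [commutatorElement_def, mul_smul, mul_smul, mul_smul, q.ji _ h1, smul_inv_smul, smul_inv_smul]
  have hU := P.comm _ q.hj.1 _ q.hi.1
  have hi : i ^ 2 ∈ Z P := mem_Z_of_smul (P.F.pow_mem q.hi.1 2) hU
    (by rw [hc, sq, mul_smul, q.ii _ v_mem])
  have hj : j ^ 2 ∈ Z P := mem_Z_of_smul (P.F.pow_mem q.hj.1 2) hU
    (by rw [hc, sq, mul_smul, q.jj _ v_mem])
  have key : ∀ d : P.D, ∃ x : Fin 2 × Fin 2, (i ^ x.1.val * j ^ x.2.val)⁻¹ * d ∈ Z P := fun d => by
    obtain ⟨u, hu, s, t, e⟩ := q.gen d d.2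
    have hm : i ^ s * j ^ t ∈ P.D := P.D.mul_mem (P.D.pow_mem q.hi s) (P.D.pow_mem q.hj t)
    have h1 : (i ^ s * j ^ t)⁻¹ * d ∈ Z P := mem_Z_of_smul (P.D.mul_mem (P.D.inv_mem hm) d.2).1 hu (by
      rw [mul_smul, e _ v_mem, ← mul_smul (i ^ s), ← mul_smul u, P.cen u hu _ hm.1, mul_smul,
        inv_smul_smul])
    refine ⟨(⟨s % 2, Nat.mod_lt _ two_pos⟩, ⟨t % 2, Nat.mod_lt _ two_pos⟩), ?_⟩
    have h2 := (Z P).mul_mem ((Z P).mul_mem ((Z P).pow_mem hi (s / 2)) ((Z P).pow_mem hj (t / 2))) h1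
    have h3 : i ^ s * j ^ t = i ^ (s % 2) * j ^ (t % 2) * ((i ^ 2) ^ (s / 2) * (j ^ 2) ^ (t / 2)) := by
      rw [mul_assoc, ← mul_assoc (j ^ (t % 2)), Z_comm ((Z P).pow_mem hi _) (P.D.pow_mem q.hj _),
        mul_assoc, ← mul_assoc, ← pow_mul, ← pow_mul, ← pow_add, ← pow_add, Nat.mod_add_div,
        Nat.mod_add_div]
    rw [h3] at h2
    simpa [mul_assoc] using h2
  choose φ hφ using key
  have := index_le_card (H := (Z P).subgroupOf P.D) φ fun d d' h => by
    have h1 := (Z P).mul_mem ((Z P).inv_mem (hφ d)) (hφ d')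
    rw [h] at h1
    simpa [Subgroup.mem_subgroupOf, mul_assoc] using h1
  simpa [Subgroup.relIndex] using this

theorem s_cases [Finite G] [Finite V] (hP : P.IsMax) :
    (Z P).relIndex P.D = 1 ∨ (Z P).relIndex P.D = 4 := by
  have h1 := s_le hP
  have h0 : (Z P).relIndex P.D ≠ 0 := Subgroup.index_ne_zero_of_finite
  by_contra hc
  have hp : ((Z P).relIndex P.D).Prime := by
    have : (Z P).relIndex P.D = 2 ∨ (Z P).relIndex P.D = 3 := by omega
    rcases this with h | h <;> rw [h] <;> norm_num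
  have hle : (Z P).subgroupOf P.D ≤ Subgroup.center P.D := fun z hz =>
    Subgroup.mem_center_iff.mpr fun d => Subtype.ext (Z_comm hz d.2)
  have : ((Z P).subgroupOf P.D).Normal := ⟨fun z hz d => by
    rw [Subgroup.mem_center_iff.mp (hle hz) d, mul_inv_cancel_right]; exact hz⟩
  have := Fact.mk hp
  have : IsCyclic (P.D ⧸ (Z P).subgroupOf P.D) := isCyclic_of_prime_card (p := (Z P).relIndex P.D) rfl
  have hcm := (MonoidHom.isMulCommutative_of_isCyclic_of_ker_le_center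
    (QuotientGroup.mk' ((Z P).subgroupOf P.D)) (by rw [QuotientGroup.ker_mk']; exact hle)).is_comm.comm
  refine hc (Or.inl (Subgroup.relIndex_eq_one.mpr fun d hd => ?_))
  obtain ⟨b, hb, u, hu, rfl⟩ := dc hd.1 fun d' hd' => congrArg Subtype.val (hcm ⟨d, hd⟩ ⟨d', hd'⟩)
  exact Subgroup.mul_mem_sup hb hu

theorem relIndex_UZ : P.U.relIndex (Z P) = Nat.card P.B := by
  have := P.Un
  rw [Z, Subgroup.relIndex_sup_right, ← Subgroup.inf_relIndex_right,
    show P.U ⊓ P.B = ⊥ from eq_bot_iff.mpr fun u hu => eq_one_of_U hu.1 hu.2.2,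
    Subgroup.relIndex_bot_left]

theorem card_Wm_eq [Finite G] [Finite V] :
    Nat.card (Wm P) = Nat.card P.A ^ 2 * (Z P).relIndex P.D := by
  rw [card_Wm, ← Subgroup.relIndex_mul_relIndex P.U P.D P.F U_le_D inf_le_left,
    ← Subgroup.relIndex_mul_relIndex P.U (Z P) P.D le_sup_right Z_le_D, relIndex_UZ, card_B]
  rw [show P.D.relIndex P.F = Nat.card P.A from rfl]
  ring

theorem pow_le_card [Finite G] [Finite V] {n : ℕ} (h : n ≤ Nat.card (fixS V P.B)) :
    n ^ Nat.card P.A ≤ Nat.card V :=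
  indep_card indep_W fun a => h.trans (card_le_of_smul (P.rep a : G) fun _ hx => rep_mem_W a hx)

theorem card_fix_B [Finite G] [Finite V] :
    Nat.card P.U * (Z P).relIndex P.D + 1 ≤ Nat.card (fixS V P.B) := by
  classical
  have h1 : P.B.relIndex P.D = Nat.card P.U * (Z P).relIndex P.D := by
    have e1 := Subgroup.relIndex_mul_relIndex ⊥ P.B P.D bot_le B_le_D
    have e2 := Subgroup.relIndex_mul_relIndex ⊥ P.U P.D bot_le U_le_D
    rw [← Subgroup.relIndex_mul_relIndex P.U (Z P) P.D le_sup_right Z_le_D, relIndex_UZ, ← e1] at e2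
    simp only [Subgroup.relIndex_bot_left] at e2
    exact Nat.eq_of_mul_eq_mul_left (Nat.card_pos (α := P.B)) (by rw [← e2]; ring)
  have h2 := index_le_card (H := P.B.subgroupOf P.D) (X := {x : fixS V P.B // x ≠ 0})
    (fun d => ⟨⟨(d : G) • P.v, D_smul d.2 v_mem⟩, fun e =>
      P.v0 ((smul_eq_zero_iff_eq _).mp (congrArg Subtype.val e))⟩) fun d d' h => by
      have h3 : (d : G) • P.v = (d' : G) • P.v := congrArg (fun x => (x.1 : V)) h
      refine ⟨(d⁻¹ * d').2.1, ?_⟩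
      show ((d : G)⁻¹ * d') • P.v = P.v
      rw [mul_smul, ← h3, inv_smul_smul]
  rw [← h1, ← Finite.card_option.symm.trans (Nat.card_congr (Equiv.optionSubtypeNe (0 : fixS V P.B)))]
  exact Nat.succ_le_succ h2

theorem dvd_card_U [Finite G] {r : ℕ} (hr : r.Prime) (h : r ∣ Nat.card (Wm P)) :
    r ∣ Nat.card P.U := by
  have := Fact.mk hr
  obtain ⟨w, hw⟩ := exists_prime_addOrderOf_dvd_card' r h
  obtain ⟨f, rfl⟩ := pr_surj w
  have h1 : (f : G) ∉ P.U := fun e => by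
    rw [pr_eq_zero.mpr e, addOrderOf_zero] at hw; exact hr.one_lt.ne hw
  have h2 : (f : G) ^ r ∈ P.U := (pr_eq_zero (f := f ^ r)).mp (by
    rw [pr_pow, ← hw, addOrderOf_nsmul_eq_zero])
  obtain ⟨f', hf', hne⟩ : ∃ f' ∈ P.F, ⁅(f : G), f'⁆ ≠ 1 := by
    by_contra hc
    push Not at hc
    exact h1 (P.cF _ fun x hx => commutatorElement_eq_one_iff_mul_comm.mp (hc x hx))
  rw [← orderOf_eq_prime (p := r) (by rw [← comm_pow_left f.2 hf', comm_U_left h2 hf']) hne]
  exact Subgroup.orderOf_dvd_natCard _ (P.comm _ f.2 _ hf')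

/-- a vector whose stabiliser in `F` is the centraliser in `B` of a translation-free set -/
theorem exists_vec [Finite G] (hP : P.IsMax) (S : Set P.A) (h1 : 1 ∈ S)
    (hS : ∀ a, (∀ x ∈ S, a * x ∈ S) → a = 1) : ∃ w : V, w ≠ 0 ∧ ∀ f ∈ P.F,
      (f • w = w ↔ f ∈ P.B ∧ ∀ x ∈ S, f * P.rep x = P.rep x * f) := by
  classical
  let c : P.A → V := fun a => if a ∈ S then (P.rep a : G) • P.v else 0
  have hc : ∀ a, c a ∈ P.W a := fun a => by
    simp only [c]
    split_ifs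
    · exact rep_mem_W a v_mem
    · exact AddSubgroup.zero_mem _
  have hc0 : ∀ a, a ∈ S ↔ c a ≠ 0 := fun a => by
    simp only [c]
    split_ifs with h
    · simp [h, smul_eq_zero_iff_eq, P.v0]
    · simp [h]
  refine ⟨∑ a, c a, fun e => (hc0 1).mp h1 (indep_W c hc e 1), fun f hf => ⟨fun h => ?_, fun h => ?_⟩⟩
  · have h2 : ∀ a, f • c a = c (P.π ⟨f, hf⟩ * a) := fun a => by
      have e1 : ∑ a, f • c ((P.π ⟨f, hf⟩)⁻¹ * a) = ∑ a, c a := by
        rw [← h, Finset.smul_sum]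
        exact Fintype.sum_equiv (Equiv.mulLeft (P.π ⟨f, hf⟩)⁻¹) _ _ (fun _ => rfl)
      have e2 := indep_W.eq (w := fun a => f • c ((P.π ⟨f, hf⟩)⁻¹ * a)) (fun a => by
        obtain ⟨f', rfl⟩ := π_surj a
        have := hc ((P.π ⟨f, hf⟩)⁻¹ * P.π f')
        rw [← map_inv, ← map_mul, mem_W] at this
        rw [mem_W, ← map_inv, ← map_mul]
        simpa [mul_smul] using this) hc e1 (P.π ⟨f, hf⟩ * a)
      simpa using e2
    have h3 := hS (P.π ⟨f, hf⟩) fun x hx => by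
      rw [hc0, ← h2, Ne, smul_eq_zero_iff_eq]; exact (hc0 x).mp hx
    simp only [h3, one_mul] at h2
    have h4 : f ∈ P.B := mem_B_of_fix hP hf (by
      have := (mem_W (f := 1)).mp (by rw [map_one]; exact hc 1)
      simpa using this) ((hc0 1).mp h1) (h2 1)
    refine ⟨h4, fun x hx => comm_of_conj_mem h4 (P.rep x).2 ⟨P.F.mul_mem (P.F.mul_mem
      (P.F.inv_mem (P.rep x).2) hf) (P.rep x).2, ?_⟩⟩
    have := h2 x
    simp only [c, if_pos hx] at this
    show (_ * _ * _) • P.v = P.v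
    rw [mul_smul, mul_smul, this, inv_smul_smul]
  · rw [Finset.smul_sum]
    refine Finset.sum_congr rfl fun a _ => ?_
    simp only [c]
    split_ifs with ha
    · rw [← mul_smul, h.2 a ha, mul_smul, h.1.2]
    · exact smul_zero f

theorem exists_free_gen (A : Type*) [CommGroup A] [Finite A] (h : Nat.card A ≠ 2) :
    ∃ S : Set A, 1 ∈ S ∧ (∀ a, (∀ x ∈ S, a * x ∈ S) → a = 1) ∧ Subgroup.closure S = ⊤ := by
  obtain ⟨T, hT, hmin⟩ := (Set.toFinite {T : Set A | Subgroup.closure T = ⊤}).exists_minimal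
    ⟨Set.univ, Subgroup.closure_univ⟩
  have hx : ∀ x ∈ T, x ∉ Subgroup.closure (T \ {x}) := fun x hx hc => by
    have := hmin (y := T \ {x}) (by
      show _ = ⊤
      rw [eq_top_iff, ← show Subgroup.closure T = ⊤ from hT, Subgroup.closure_le]
      intro y hy
      by_cases e : y = x
      · exact e ▸ hc
      · exact Subgroup.subset_closure ⟨hy, e⟩) Set.sdiff_subset hx
    exact this.2 rfl
  refine ⟨insert 1 T, Set.mem_insert _ _, fun a ha => ?_,
    eq_top_iff.mpr (hT.ge.trans (Subgroup.closure_mono (Set.subset_insert _ _)))⟩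
  by_contra h1
  have haT : a ∈ T := by simpa [h1] using ha 1 (Set.mem_insert _ _)
  by_cases hT1 : T ⊆ {a}
  · have h2 : a * a = 1 := by
      rcases ha a (Or.inr haT) with e | e
      · exact e
      · exact absurd (by simpa using hT1 e) h1
    have h3 : Subgroup.zpowers a = ⊤ := by
      rw [eq_top_iff, ← show Subgroup.closure T = ⊤ from hT, Subgroup.zpowers_eq_closure]
      exact Subgroup.closure_mono hT1
    have := Fact.mk Nat.prime_two
    apply h
    rw [← Subgroup.card_top, ← h3, Nat.card_zpowers, orderOf_eq_prime (by rw [sq, h2]) h1]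
  · obtain ⟨x, hxT, hxa⟩ := Set.not_subset.mp hT1
    have h2 : a ∈ Subgroup.closure (T \ {x}) := Subgroup.subset_closure ⟨haT, fun e => hxa e.symm⟩
    refine hx x hxT ?_
    refine (Subgroup.mul_mem_cancel_left _ h2).mp ?_
    rcases ha x (Or.inr hxT) with e | e
    · rw [e]; exact Subgroup.one_mem _
    · exact Subgroup.subset_closure ⟨e, fun e' => h1 (by simpa using e')⟩

/-- a vector with trivial stabiliser in `F` -/
theorem exists_reg [Finite G] (hP : P.IsMax) (h : Nat.card P.A ≠ 2) :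
    ∃ w : V, w ≠ 0 ∧ P.F ⊓ stabilizer G w = ⊥ := by
  obtain ⟨S, h1, hS, hgen⟩ := exists_free_gen P.A h
  obtain ⟨w, hw, hw'⟩ := exists_vec hP S h1 hS
  refine ⟨w, hw, eq_bot_iff.mpr fun b hb => ?_⟩
  obtain ⟨hB, hc⟩ := (hw' b hb.1).mp hb.2
  refine eq_one_of_U (P.cF b fun f hf => ?_) hB.2
  let H : Subgroup P.A := ((Subgroup.centralizer {b}).subgroupOf P.F).map P.π
  obtain ⟨c, hc, hcf⟩ : P.π ⟨f, hf⟩ ∈ H := (show ⊤ ≤ H by
    rw [← hgen, Subgroup.closure_le]
    exact fun x hx => ⟨P.rep x, Subgroup.mem_centralizer_singleton_iff.mpr (hc x hx).symm, π_rep x⟩)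
    trivial
  have h2 := (π_eq_iff.mp hcf).2 b hB
  have h3 : (c : G) * b = b * c := Subgroup.mem_centralizer_singleton_iff.mp hc
  calc b * f = b * c * ((c : G)⁻¹ * f) := by group
    _ = c * (b * ((c : G)⁻¹ * f)) := by rw [← h3, mul_assoc]
    _ = f * b := by rw [h2]; group

end Cfsg.Agent.FG.MW
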