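import Mathlib
import Cfsg.Agent.FG.MWPre

/-! A table of derived lengths of small solvable linear groups and permutation groups. -/

set_option autoImplicit false

namespace Cfsg.Agent.FG.MW

open Cfsg.Agent.FG.BS Cfsg.Agent.FG.BS.Pre MulAction

universe u

/-- bound for the derived length of an irreducible solvable group on a module of order `q` -/
def tf (q : ℕ) : ℕ :=
  if q ≤ 2 then 0 else if q ≤ 3 then 1 else if q ≤ 8 then 2 else if q ≤ 26 then 4
    else if q ≤ 728 then 6 else 8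

theorem tf_mono {a b : ℕ} (h : a ≤ b) : tf a ≤ tf b := by
  unfold tf
  split_ifs <;> omega

theorem tf_range {w : ℕ} (hw : 2 ≤ w) (h1 : w < 729) :
    ∃ a ∈ [2, 3, 4, 9, 27], a ≤ w ∧ tf w = tf a := by
  by_cases c1 : w ≤ 2
  · exact ⟨2, by simp, hw, by rw [tf, if_pos c1]; rfl⟩
  by_cases c2 : w ≤ 3
  · exact ⟨3, by simp, by omega, by rw [tf, if_neg c1, if_pos c2]; rfl⟩
  by_cases c3 : w ≤ 8
  · exact ⟨4, by simp, by omega, by rw [tf, if_neg c1, if_neg c2, if_pos c3]; rfl⟩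
  by_cases c4 : w ≤ 26
  · exact ⟨9, by simp, by omega, by rw [tf, if_neg c1, if_neg c2, if_neg c3, if_pos c4]; rfl⟩
  · exact ⟨27, by simp, by omega, by
      rw [tf, if_neg c1, if_neg c2, if_neg c3, if_neg c4, if_pos (by omega)]; rfl⟩

theorem tf_key : ∀ a ∈ [2, 3, 4, 9, 27], ∀ m < 20, 2 ≤ m → a ^ m < 531441 →
    tf m + 1 + tf a ≤ tf (a ^ m) := by decide +kernel

theorem tf_imp {w m : ℕ} (hw : 2 ≤ w) (hm : 2 ≤ m) (h : w ^ m < 531441) :
    tf m + 1 + tf w ≤ tf (w ^ m) := by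
  have h1 : w < 729 := by
    by_contra hc
    have h3 : 729 ^ 2 ≤ w ^ m :=
      (Nat.pow_le_pow_left (not_lt.mp hc) 2).trans (Nat.pow_le_pow_right (by omega) hm)
    exact absurd (h3.trans_lt h) (by norm_num)
  have h2 : m < 20 := by
    by_contra hc
    have h3 : 2 ^ 20 ≤ w ^ m :=
      (Nat.pow_le_pow_right (by omega) (not_lt.mp hc)).trans (Nat.pow_le_pow_left hw m)
    exact absurd (h3.trans_lt h) (by norm_num)
  obtain ⟨a, ha, haw, e⟩ := tf_range hw h1
  have h3 := Nat.pow_le_pow_left haw m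
  rw [e]
  exact (tf_key a ha m h2 hm (h3.trans_lt h)).trans (tf_mono h3)

theorem tf_qp {b s u n : ℕ} (hs : s = 1 ∨ s = 4) (h1 : 1 < b ^ 2 * s) (hu : 2 ≤ u)
    (h : (u * s + 1) ^ b ≤ n) (hn : n < 531441) :
    b ^ 2 * s < n ∧ 1 ≤ tf (b ^ 2 * s) ∧ tf (b ^ 2 * s) + 2 ≤ tf n := by
  have h2 : (2 * s + 1) ^ b ≤ n := le_trans (by gcongr) h
  have h3 : b < 12 := by
    by_contra hc
    have := (Nat.pow_le_pow_right (by omega) (not_lt.mp hc)).trans
      (Nat.pow_le_pow_left (show 3 ≤ 2 * s + 1 by omega) b)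
    omega
  have key : ∀ s ∈ [1, 4], ∀ b < 12, 1 < b ^ 2 * s → b ^ 2 * s < (2 * s + 1) ^ b ∧
      1 ≤ tf (b ^ 2 * s) ∧ ((2 * s + 1) ^ b < 531441 →
        tf (b ^ 2 * s) + 2 ≤ tf ((2 * s + 1) ^ b)) := by decide
  obtain ⟨k1, k2, k3⟩ := key s (by simpa using hs) b h3 h1
  exact ⟨by omega, k2, (k3 (by omega)).trans (tf_mono h2)⟩

section
variable {G V : Type*} [Group G] [AddCommGroup V] [DistribMulAction G V]

theorem ker_of_card_le_two [Finite V] (h : Nat.card V ≤ 2) : ker G V = ⊤ := by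
  refine eq_top_iff.mpr fun g _ x => ?_
  by_contra hc
  have hx : x ≠ 0 := fun e => hc (by rw [e, smul_zero])
  have hgx : g • x ≠ 0 := fun e => hx ((smul_eq_zero_iff_eq g).mp e)
  have := Nat.card_le_card_of_injective (![0, x, g • x] : Fin 3 → V) (by
    intro i j hij
    fin_cases i <;> fin_cases j <;> simp_all [eq_comm])
  simp at this
  omega

theorem two_le_card_U [Finite G] (P : Pre G V) (h : 1 < Nat.card (Wm P)) : 2 ≤ Nat.card P.U := by
  obtain ⟨r, hr, hd⟩ := Nat.exists_prime_and_dvd h.ne'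
  exact hr.two_le.trans (Nat.le_of_dvd Nat.card_pos (dvd_card_U hr hd))

theorem ds_two_of_trivial [Finite G] [Finite V] (P : Pre G V) (h : Nat.card (Wm P) ≤ 1) :
    ds (⊤ : Subgroup G) 2 ≤ ker G V := by
  have h1 : P.F ≤ P.U := Subgroup.relIndex_eq_one.mp (le_antisymm h (Nat.card_pos (α := Wm P)))
  have h2 := (ds_le_F (P := P) le_rfl (by rw [ker_of_card_le_two (by omega)]; exact le_top)).trans h1
  refine Subgroup.commutator_le.mpr fun a ha b hb x => ?_
  rw [commutatorElement_eq_one_iff_mul_comm.mpr (U_comm (h2 ha) (h2 hb)), one_smul]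

theorem sizes [Finite G] [Finite V] {P : Pre G V} (hP : P.IsMax) : ∃ s : ℕ, (s = 1 ∨ s = 4) ∧
    (Z P).relIndex P.D = s ∧ Nat.card (Wm P) = Nat.card P.A ^ 2 * s ∧
    (Nat.card P.U * s + 1) ^ Nat.card P.A ≤ Nat.card V :=
  ⟨_, s_cases hP, rfl, card_Wm_eq, pow_le_card card_fix_B⟩

end

theorem table_aux (n : ℕ) : ∀ (G V : Type u) [Group G] [AddCommGroup V] [DistribMulAction G V]
    [Finite V] [Group.IsSolvable G], Nat.card V = n → n < 531441 → Irr G V →
    ds (⊤ : Subgroup G) (tf n) ≤ ker G V := by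
  induction n using Nat.strong_induction_on with
  | _ n ih =>
  intro G0 V _ _ _ _ _ hn hlt hirr0
  by_cases h2 : n ≤ 2
  · rw [ker_of_card_le_two (by omega)]; exact le_top
  by_cases h3 : n = 3
  · have := Fact.mk Nat.prime_three
    have := isAddCyclic_of_prime_card (hn.trans h3)
    rw [h3]; exact comm_le_ker_of_cyclic
  have hV : Nontrivial V := Finite.one_lt_card_iff_nontrivial.mp (by omega)
  have hirr := hirr0.im
  have := solvable_im (G := G0) (V := V)
  refine le_ker_of_im (S' := ⊤) (fun _ _ => trivial) ?_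
  obtain ⟨U, hUn, hUc, hmax⟩ := exists_max_abelian (G := Im G0 V)
  rcases fpf_or_imprim hirr U hUc with hf | ⟨M, _, W, hM, hW, hW0⟩
  · obtain ⟨P0⟩ := exists_prim U hUn hUc hmax hf
    let P := P0.toPre
    by_cases hE : Nat.card (Wm P) ≤ 1
    · exact (ds_anti _ (tf_mono (show 4 ≤ n by omega))).trans (ds_two_of_trivial P hE)
    obtain ⟨s, hs, -, e, hle⟩ := sizes (P := P) P0.vmax
    obtain ⟨k1, k2, k3⟩ := tf_qp hs (by omega) (two_le_card_U P (by omega)) (hn ▸ hle) hlt
    rw [← e] at k1 k2 k3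
    refine (ds_anti _ k3).trans (ds_top_bot (P := P) (ds_le_F k2
      (le_ker_of_cr cr_Wm _ fun Y hY _ hi => ?_)))
    have h4 := AddSubgroup.card_le_card_addGroup Y
    exact (ds_anti _ (tf_mono h4)).trans
      (@ih _ (by omega) _ Y _ _ (invAct hY) _ _ rfl (by omega) hi)
  · have : Nontrivial (Im G0 V ⧸ M) := QuotientGroup.nontrivial_iff.mpr hM.1
    obtain ⟨A, _, _, e, hA, h0, hm, hn'⟩ := exists_affine M hM
    have : Finite A := Finite.of_equiv _ e.symm
    have h4 := hn ▸ (Nat.card_congr e).trans_lt (hW.card_index_lt _ hW0)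
    have h5 := aff_ker h0 hm hn' (ih _ h4 M A rfl (by omega) hA)
    let _ := subAct _ _ (hW.stab_inv ((1 : Im G0 V) : Im G0 V ⧸ M))
    have h6 := hn ▸ hW.card_block_lt _ hW0
    have h7 := wreath_top hW _ h5 (ih _ h6 _ _ rfl (by omega) (hW.irr_block hirr _))
    have h8 := imprim_card hW ((1 : Im G0 V) : Im G0 V ⧸ M)
    rw [hn, ← Nat.card_congr e] at h8
    have := (AddSubgroup.nontrivial_iff_ne_bot _).mpr hW0
    have : Nontrivial A := e.nontrivial
    refine (ds_anti _ ?_).trans h7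
    rw [h8]
    exact tf_imp Finite.one_lt_card Finite.one_lt_card (h8 ▸ hlt)

theorem table {G V : Type*} [Group G] [AddCommGroup V] [DistribMulAction G V] [Finite V]
    [Group.IsSolvable G] (hcr : CR G V) (h : Nat.card V < 531441) :
    ds (⊤ : Subgroup G) (tf (Nat.card V)) ≤ ker G V :=
  le_ker_of_cr hcr _ fun Y hY _ hi => by
    let _ := invAct hY
    have h4 := AddSubgroup.card_le_card_addGroup Y
    have := solvable_im (G := G) (V := Y)
    exact (ds_anti _ (tf_mono h4)).trans (le_ker_of_im (S' := ⊤) (fun _ _ => trivial)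
      (table_aux _ (Im G Y) Y rfl (by omega) hi.im))

/-- bound for the derived length of a solvable permutation group of degree at most seven -/
def tau (m : ℕ) : ℕ := if m ≤ 1 then 0 else if m ≤ 2 then 1 else if m ≤ 3 then 2 else 3

theorem tau_aux (m : ℕ) : ∀ (G : Type u) [Group G] [Finite G] [Group.IsSolvable G]
    (H : Subgroup G), H.index ≤ m → m ≤ 7 → ds (⊤ : Subgroup G) (tau m) ≤ H := by
  induction m using Nat.strong_induction_on with
  | _ m ih =>
  intro G _ _ _ H hH hm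
  rcases eq_top_or_exists_le_coatom H with rfl | ⟨M, hM, hle⟩
  · exact le_top
  obtain ⟨A, _, _, e, hA, h0, hm', hn'⟩ := exists_affine M hM
  have : Finite A := Finite.of_equiv _ e.symm
  have h1 := Subgroup.relIndex_mul_index hle
  have h2 : 1 < M.index := Subgroup.one_lt_index_of_ne_top hM.1
  have h3 : 0 < H.relIndex M := Nat.pos_of_ne_zero Subgroup.index_ne_zero_of_finite
  have h4 : Nat.card A = M.index := Nat.card_congr e
  have h5 := aff_ker h0 hm' hn' (table_aux _ M A h4 (by nlinarith) hA)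
  have h6 : ds (⊤ : Subgroup G) (tf M.index + 1) ≤ M := fun g hg => by
    have : ((g * 1 : G) : G ⧸ M) = ((1 : G) : G ⧸ M) := h5 hg ((1 : G) : G ⧸ M)
    rw [QuotientGroup.eq] at this
    simpa using this
  have h7 := ih (H.relIndex M) (by nlinarith) M (H.subgroupOf M) le_rfl (by nlinarith)
  have key : ∀ a < 8, ∀ b < 8, ∀ m < 8, 1 < a → 0 < b → b * a ≤ m → tf a + 1 + tau b ≤ tau m := by
    intro a ha b hb
    interval_cases a <;> interval_cases b <;> decide
  refine (ds_anti _ (key M.index (by nlinarith) _ (by nlinarith) m (by omega) h2 h3 (by omega))).trans ?_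
  rw [ds_add]
  intro g hg
  obtain ⟨x, hx, rfl⟩ := exists_of_mem_ds M.subtype (S := ⊤)
    (fun t ht => ⟨⟨t, h6 ht⟩, trivial, rfl⟩) hg
  exact h7 hx

theorem ds_le_of_card {G X : Type*} [Group G] [Finite G] [Group.IsSolvable G] [Finite X]
    {S H : Subgroup G} (φ : S → X) (h : ∀ g g', φ g = φ g' → (g : G)⁻¹ * g' ∈ H) {m : ℕ}
    (hX : Nat.card X ≤ m) (hm : m ≤ 7) : ds S (tau m) ≤ H := fun g hg => by
  obtain ⟨x, hx, rfl⟩ := exists_of_mem_ds S.subtype (S := ⊤)
    (fun t ht => ⟨⟨t, ht⟩, trivial, rfl⟩) hg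
  exact tau_aux m S (H.subgroupOf S) ((index_le_card φ h).trans hX) hm hx

end Cfsg.Agent.FG.MW
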