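import Mathlib
import Cfsg.Agent.FG.MWTab

/-! Many inequivalent colourings whose stabilisers have small derived length. -/

set_option autoImplicit false

namespace Cfsg.Agent.FG.MW

open MulAction

/-- size of a colour class of a pattern -/
def sz {j : ℕ} (l : List (Fin j)) (ρ : Fin j) (r : ℕ) (c : Fin j) : ℕ :=
  l.count c + if c = ρ then r else 0

theorem count_getD {j : ℕ} (l : List (Fin j)) (ρ c : Fin j) (r : ℕ) :
    Nat.count (fun i => l.getD i ρ = c) (l.length + r) = sz l ρ r c := by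
  induction r with
  | zero =>
    simp only [sz, add_zero, ite_self]
    induction l with
    | nil => simp
    | cons a l ih =>
      rw [List.length_cons, Nat.count_succ', List.count_cons]
      simp only [List.getD_cons_succ, List.getD_cons_zero, ih, beq_iff_eq]
  | succ r ih =>
    rw [← add_assoc, Nat.count_succ, ih, List.getD_eq_default _ _ (by omega), sz, sz]
    by_cases h : c = ρ
    · simp [h, add_assoc]
    · simp [h, Ne.symm h]

variable {G Ω : Type*} [Group G] [MulAction G Ω]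

/-- a base of size at most `b` -/
def HasBase (G Ω : Type*) [Group G] [MulAction G Ω] (b : ℕ) : Prop :=
  ∃ Δ : Finset Ω, Δ.card ≤ b ∧ ∀ g : G, (∀ δ ∈ Δ, g • δ = δ) → g ∈ ker G Ω

theorem hasBase_card [Finite Ω] : HasBase G Ω (Nat.card Ω) := by
  have := Fintype.ofFinite Ω
  exact ⟨Finset.univ, by simp, fun g hg x => hg x (Finset.mem_univ x)⟩

theorem cols_of_patterns [Finite G] [Group.IsSolvable G] [Finite Ω] {b j k m r : ℕ}
    (hb : HasBase G Ω b) (l : Fin k → List (Fin j) × Fin j)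
    (hl : ∀ i, (l i).1.length + r = Nat.card Ω) (hm : m ≤ 7)
    (hs : ∀ i, ∀ x < b, sz (l i).1 (l i).2 r ((l i).1.getD x (l i).2) ≤ m)
    (hinj : ∀ i i', (∀ c, sz (l i).1 (l i).2 r c = sz (l i').1 (l i').2 r c) → i = i') :
    Cols G Ω j k (tau m) := by
  classical
  obtain ⟨Δ, hΔ, hbase⟩ := hb
  have := Fintype.ofFinite Ω
  let e0 := Finite.equivFin Ω
  have hle : Δ.card ≤ Nat.card Ω := by rw [Nat.card_eq_fintype_card]; exact Δ.card_le_univ
  obtain ⟨σ, hσ⟩ := Equiv.Perm.exists_extending_pair (f := fun δ : Δ => e0 δ)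
    (g := fun δ => Fin.castLE hle (Δ.equivFin δ)) (e0.injective.comp Subtype.val_injective)
    ((Fin.castLE_injective hle).comp Δ.equivFin.injective)
  let e := e0.trans σ
  have he : ∀ δ ∈ Δ, (e δ).val < b := fun δ hδ => by
    have : e δ = Fin.castLE hle (Δ.equivFin ⟨δ, hδ⟩) := hσ ⟨δ, hδ⟩
    rw [this]
    exact (Δ.equivFin ⟨δ, hδ⟩).2.trans_le hΔ
  let χ : Fin k → Ω → Fin j := fun i ω => (l i).1.getD (e ω) (l i).2
  have hc : ∀ i c, Nat.card {ω // χ i ω = c} = sz (l i).1 (l i).2 r c := fun i c => by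
    rw [← count_getD, hl, Nat.count_eq_card_fintype]
    refine Eq.trans ?_ (@Nat.card_eq_fintype_card _ (_))
    exact Nat.card_congr
      { toFun := fun ω => ⟨e ω.1, (e ω.1).2, ω.2⟩
        invFun := fun x => ⟨e.symm ⟨x.1, x.2.1⟩, by simpa [χ] using x.2.2⟩
        left_inv := fun ω => by simp
        right_inv := fun x => by simp }
  refine ⟨χ, fun i g hg => hbase g fun δ hδ => ?_, fun i i' g hg => hinj i i' fun c => ?_⟩
  · refine ds_le_of_card (S := stabC G (χ i)) (H := stabilizer G δ) (X := {ω // χ i ω = χ i δ})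
      (fun g => ⟨(g : G) • δ, g.2 δ⟩) (fun g g' h => ?_) ((hc _ _).trans_le (hs i _ (he δ hδ))) hm hg
    have h1 : (g : G) • δ = (g' : G) • δ := congrArg Subtype.val h
    rw [mem_stabilizer_iff, mul_smul, ← h1, inv_smul_smul]
  · rw [← hc, ← hc]
    exact Nat.card_congr ((MulAction.toPerm g).subtypeEquiv fun ω => by
      rw [MulAction.toPerm_apply, hg])

variable [Finite G] [Group.IsSolvable G] [Finite Ω]

theorem cols_five (hn : 2 ≤ Nat.card Ω) (h4 : HasBase G Ω 4)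
    (h2 : (Nat.card Ω).Prime → HasBase G Ω 2) : Cols G Ω 5 5 0 := by
  have hb := hasBase_card (G := G) (Ω := Ω)
  by_cases c2 : Nat.card Ω = 2
  · exact cols_of_patterns (m := 1) (r := 0) (c2 ▸ hb)
      ![([0, 1], 0), ([0, 2], 0), ([0, 3], 0), ([0, 4], 0), ([1, 2], 0)]
      (by rw [c2]; decide) (by norm_num) (by decide) (by decide)
  by_cases c3 : Nat.card Ω = 3
  · exact cols_of_patterns (m := 1) (r := 0) (c3 ▸ hb)
      ![([0, 1, 2], 0), ([0, 1, 3], 0), ([0, 1, 4], 0), ([0, 2, 3], 0), ([0, 2, 4], 0)]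
      (by rw [c3]; decide) (by norm_num) (by decide) (by decide)
  by_cases c5 : Nat.card Ω = 5
  · exact cols_of_patterns (m := 1) (r := 3) (h2 (by rw [c5]; norm_num))
      ![([0, 1], 2), ([0, 1], 3), ([0, 1], 4), ([0, 2], 1), ([0, 3], 1)]
      (by rw [c5]; decide) (by norm_num) (by decide) (by decide)
  obtain ⟨r, hr⟩ := Nat.exists_eq_add_of_le (show 4 ≤ Nat.card Ω by omega)
  refine cols_of_patterns (m := 1) (r := r) h4
    ![([1, 2, 3, 4], 0), ([0, 2, 3, 4], 1), ([0, 1, 3, 4], 2), ([0, 1, 2, 4], 3), ([0, 1, 2, 3], 4)]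
    (fun i => by fin_cases i <;> exact hr.symm) (by norm_num) (fun i x hx => ?_) fun i i' h => ?_
  · fin_cases i <;> interval_cases x <;> simp [sz]
  · have := h 0; have := h 1; have := h 2; have := h 3; have := h 4
    fin_cases i <;> fin_cases i' <;> simp [sz] at * <;> omega

theorem cols_four (hn : 2 ≤ Nat.card Ω) (h4 : HasBase G Ω 4) : Cols G Ω 4 5 1 := by
  have hb := hasBase_card (G := G) (Ω := Ω)
  by_cases c2 : Nat.card Ω = 2
  · exact cols_of_patterns (m := 2) (r := 0) (c2 ▸ hb)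
      ![([0, 1], 0), ([0, 2], 0), ([0, 3], 0), ([1, 2], 0), ([1, 3], 0)]
      (by rw [c2]; decide) (by norm_num) (by decide) (by decide)
  by_cases c3 : Nat.card Ω = 3
  · exact cols_of_patterns (m := 2) (r := 0) (c3 ▸ hb)
      ![([0, 1, 2], 0), ([0, 1, 3], 0), ([0, 2, 3], 0), ([1, 2, 3], 0), ([0, 0, 1], 0)]
      (by rw [c3]; decide) (by norm_num) (by decide) (by decide)
  obtain ⟨r, hr⟩ := Nat.exists_eq_add_of_le (show 4 ≤ Nat.card Ω by omega)
  refine cols_of_patterns (m := 2) (r := r) h4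
    ![([0, 1, 2, 2], 3), ([0, 1, 1, 2], 3), ([0, 0, 1, 2], 3), ([0, 0, 1, 1], 3), ([0, 0, 2, 2], 3)]
    (fun i => by fin_cases i <;> exact hr.symm) (by norm_num) (fun i x hx => ?_) fun i i' h => ?_
  · fin_cases i <;> interval_cases x <;> simp [sz]
  · have := h 0; have := h 1; have := h 2
    fin_cases i <;> fin_cases i' <;> simp [sz] at *

theorem cols_three (hn : 2 ≤ Nat.card Ω) (h4 : HasBase G Ω 4) : Cols G Ω 3 5 2 := by
  have hb := hasBase_card (G := G) (Ω := Ω)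
  by_cases c2 : Nat.card Ω = 2
  · exact cols_of_patterns (m := 3) (r := 0) (c2 ▸ hb)
      ![([0, 0], 0), ([0, 1], 0), ([0, 2], 0), ([1, 1], 0), ([1, 2], 0)]
      (by rw [c2]; decide) (by norm_num) (by decide) (by decide)
  by_cases c3 : Nat.card Ω = 3
  · exact cols_of_patterns (m := 3) (r := 0) (c3 ▸ hb)
      ![([0, 0, 0], 0), ([0, 0, 1], 0), ([0, 1, 1], 0), ([1, 1, 1], 0), ([0, 1, 2], 0)]
      (by rw [c3]; decide) (by norm_num) (by decide) (by decide)
  by_cases c6 : Nat.card Ω = 6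
  · exact cols_of_patterns (m := 3) (r := 2) h4
      ![([0, 1, 1, 1], 2), ([0, 0, 1, 1], 2), ([0, 0, 0, 1], 2), ([1, 2, 2, 2], 0), ([1, 1, 1, 2], 0)]
      (by rw [c6]; decide) (by norm_num) (by decide) (by decide)
  obtain ⟨r, hr⟩ := Nat.exists_eq_add_of_le (show 4 ≤ Nat.card Ω by omega)
  refine cols_of_patterns (m := 3) (r := r) h4
    ![([0, 1, 1, 1], 2), ([0, 0, 1, 1], 2), ([0, 0, 0, 1], 2), ([1, 1, 2, 2], 0), ([0, 0, 2, 2], 1)]
    (fun i => by fin_cases i <;> exact hr.symm) (by norm_num) (fun i x hx => ?_) fun i i' h => ?_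
  · fin_cases i <;> interval_cases x <;> simp [sz]
  · have := h 0; have := h 1; have := h 2
    fin_cases i <;> fin_cases i' <;> simp [sz] at * <;> omega

theorem cols_two (hn : 2 ≤ Nat.card Ω) (h4 : HasBase G Ω 4)
    (h2 : (Nat.card Ω).Prime → HasBase G Ω 2) :
    Cols G Ω 2 3 1 ∨ Cols G Ω 2 4 2 ∨ Cols G Ω 2 5 3 := by
  have hb := hasBase_card (G := G) (Ω := Ω)
  by_cases c2 : Nat.card Ω = 2
  · exact Or.inl (cols_of_patterns (m := 2) (r := 0) (c2 ▸ hb)
      ![([0, 0], 0), ([0, 1], 0), ([1, 1], 0)]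
      (by rw [c2]; decide) (by norm_num) (by decide) (by decide))
  by_cases c3 : Nat.card Ω = 3
  · exact Or.inr (Or.inl (cols_of_patterns (m := 3) (r := 0) (c3 ▸ hb)
      ![([0, 0, 0], 0), ([0, 0, 1], 0), ([0, 1, 1], 0), ([1, 1, 1], 0)]
      (by rw [c3]; decide) (by norm_num) (by decide) (by decide)))
  refine Or.inr (Or.inr ?_)
  by_cases c7 : Nat.card Ω ≤ 7
  · obtain ⟨r, hr⟩ := Nat.exists_eq_add_of_le (show 4 ≤ Nat.card Ω by omega)
    have hr3 : r < 4 := by omega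
    refine cols_of_patterns (m := 7) (r := r) h4
      ![([1, 1, 1, 1], 1), ([0, 1, 1, 1], 1), ([0, 0, 1, 1], 1), ([0, 0, 0, 1], 1), ([0, 0, 0, 0], 1)]
      (fun i => by fin_cases i <;> exact hr.symm) le_rfl ?_ ?_ <;> interval_cases r <;> decide
  have key : ∀ (b r : ℕ) (x : List (Fin 2) × Fin 2), HasBase G Ω b → b ≤ 4 → 7 + r = Nat.card Ω →
      x.1.length = 7 → (∀ y < b, sz x.1 x.2 r (x.1.getD y x.2) ≤ 7) →
      (sz x.1 x.2 r 0 < 4 ∨ 7 < sz x.1 x.2 r 0) → Cols G Ω 2 5 3 := by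
    intro b r x hb hb4 hr hx h1 h3
    refine cols_of_patterns (m := 7) (r := r) hb
      ![([0, 0, 0, 0, 1, 1, 1], 1), ([0, 0, 0, 0, 0, 1, 1], 1), ([0, 0, 0, 0, 0, 0, 1], 1),
        ([0, 0, 0, 0, 0, 0, 0], 1), x] (fun i => ?_) le_rfl (fun i y hy => ?_) fun i i' h => ?_
    · fin_cases i
      exacts [hr, hr, hr, hr, by rw [← hr, ← hx]; rfl]
    · have hy4 : y < 4 := by omega
      fin_cases i
      rotate_right
      · exact h1 y hy
      all_goals interval_cases y <;> simp [sz]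
    · have h0 := h 0
      generalize hz : sz x.1 x.2 r 0 = z at h3
      fin_cases i <;> fin_cases i' <;> simp [hz] at h0 ⊢ <;> simp [sz] at h0 <;> omega
  by_cases c8 : Nat.card Ω = 8
  · exact key 4 1 ([1, 1, 1, 1, 1, 0, 0], 0) h4 le_rfl c8.symm rfl (by decide) (by decide)
  by_cases c9 : Nat.card Ω = 9
  · exact key 4 2 ([1, 1, 1, 1, 1, 1, 0], 0) h4 le_rfl c9.symm rfl (by decide) (by decide)
  by_cases c10 : Nat.card Ω = 10
  · exact key 4 3 ([1, 1, 1, 1, 1, 1, 1], 0) h4 le_rfl c10.symm rfl (by decide) (by decide)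
  by_cases c11 : Nat.card Ω = 11
  · exact key 2 4 ([0, 0, 0, 1, 1, 1, 1], 1) (h2 (by rw [c11]; norm_num)) (by norm_num) c11.symm rfl
      (by decide) (by decide)
  obtain ⟨r, hr⟩ := Nat.exists_eq_add_of_le (show 7 ≤ Nat.card Ω by omega)
  refine key 4 r ([1, 1, 1, 1, 0, 0, 0], 0) h4 le_rfl hr.symm rfl (fun y hy => ?_) (Or.inr ?_)
  · interval_cases y <;> simp [sz]
  · simp [sz]; omega

end Cfsg.Agent.FG.MW
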