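import Mathlib
import Cfsg.Agent.FG.MWCol

/-! A vector whose stabiliser has derived length at most nine. -/

set_option autoImplicit false

namespace Cfsg.Agent.FG.MW

open Cfsg.Agent.FG.BS Cfsg.Agent.FG.BS.Pre MulAction
open scoped commutatorElement

universe u

theorem pow_gt {C k a b0 : ℕ} (hb : 0 < b0) (h0 : C * b0 ^ k < a ^ b0)
    (h1 : (b0 + 1) ^ k ≤ a * b0 ^ k) {b : ℕ} (h : b0 ≤ b) : C * b ^ k < a ^ b := by
  induction b, h using Nat.le_induction with
  | base => exact h0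
  | succ b h ih =>
    have h2 : (b + 1) ^ k ≤ a * b ^ k := by
      refine Nat.le_of_mul_le_mul_right ?_ (pow_pos hb k)
      calc (b + 1) ^ k * b0 ^ k = ((b + 1) * b0) ^ k := (mul_pow _ _ _).symm
        _ ≤ ((b0 + 1) * b) ^ k := Nat.pow_le_pow_left (by nlinarith) k
        _ ≤ a * b0 ^ k * b ^ k := by rw [mul_pow]; gcongr
        _ = _ := by ring
    have ha : 0 < a := Nat.pos_of_ne_zero fun e => by
      have := pow_pos (Nat.succ_pos b0) k
      rw [e, zero_mul] at h1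
      exact absurd h1 this.not_ge
    calc C * (b + 1) ^ k ≤ a * (C * b ^ k) := by rw [mul_left_comm]; gcongr
      _ < _ := by rw [pow_succ']; gcongr

theorem num_one {b s u : ℕ} (hs : s = 1 ∨ s = 4) (hu : 2 ≤ u) (h : 729 ≤ b ^ 2 * s) :
    4 * (u * (b ^ 2 * s) * (u * (b ^ 2 * s) ^ 3)) + 1 < (u * s + 1) ^ b := by
  rcases hs with rfl | rfl
  · have hb : 27 ≤ b := by nlinarith
    have h1 := pow_gt (C := 17) (k := 8) (a := 3) (by norm_num) (by norm_num) (by norm_num) hb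
    obtain ⟨c, rfl⟩ := Nat.exists_eq_add_of_le' (show 3 ≤ b by omega)
    have h2 : 3 ^ c ≤ (u * 1 + 1) ^ c := Nat.pow_le_pow_left (by omega) c
    have h3 : 27 * u ^ 2 ≤ 4 * (u * 1 + 1) ^ 3 := by nlinarith [sq_nonneg (u - 2 : ℤ)]
    have h4 : 2 ≤ u ^ 2 * (c + 3) ^ 8 := by nlinarith [Nat.one_le_pow 8 (c + 3) (by omega)]
    have h5 : u ^ 2 * (17 * (c + 3) ^ 8) ≤ 4 * (u * 1 + 1) ^ (c + 3) :=
      calc _ ≤ u ^ 2 * 3 ^ (c + 3) := by gcongr
        _ = 3 ^ c * (27 * u ^ 2) := by ring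
        _ ≤ (u * 1 + 1) ^ c * (4 * (u * 1 + 1) ^ 3) := by gcongr
        _ = _ := by ring
    have h6 : u * ((c + 3) ^ 2 * 1) * (u * ((c + 3) ^ 2 * 1) ^ 3) = u ^ 2 * (c + 3) ^ 8 := by ring
    have h7 : 5 ≤ u ^ 2 * (c + 3) ^ 8 := by nlinarith [Nat.pow_le_pow_left (show 2 ≤ c + 3 by omega) 8]
    rw [h6]
    nlinarith
  · have hb : 14 ≤ b := by nlinarith
    have h1 := pow_gt (C := 81 * 65) (k := 8) (a := 9) (by norm_num) (by norm_num) (by norm_num) hb
    obtain ⟨c, rfl⟩ := Nat.exists_eq_add_of_le' (show 2 ≤ b by omega)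
    have h2 : 9 ^ c ≤ (u * 4 + 1) ^ c := Nat.pow_le_pow_left (by omega) c
    have h3 : 65 * (c + 2) ^ 8 ≤ 9 ^ c := by rw [pow_add] at h1; omega
    have h5 : 16 * u ^ 2 * (65 * (c + 2) ^ 8) ≤ (u * 4 + 1) ^ (c + 2) :=
      calc _ ≤ (u * 4 + 1) ^ 2 * (u * 4 + 1) ^ c := Nat.mul_le_mul (by nlinarith) (h3.trans h2)
        _ = _ := by ring
    have h6 : u * ((c + 2) ^ 2 * 4) * (u * ((c + 2) ^ 2 * 4) ^ 3) = 256 * (u ^ 2 * (c + 2) ^ 8) := by
      ring
    have h7 : 1 ≤ u ^ 2 * (c + 2) ^ 8 := Nat.succ_le_of_lt (by positivity)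
    rw [h6]
    nlinarith

theorem num_two {b s u : ℕ} (hs : s = 1 ∨ s = 4) (hu : 2 ≤ u) (h : 531441 ≤ b ^ 2 * s) :
    (5 * (u * (b ^ 2 * s) * (u * (b ^ 2 * s) ^ 3))) ^ 4 < (u * s + 1) ^ b := by
  have hs1 : 1 ≤ s := by omega
  have hs4 : s ≤ 4 := by omega
  have hb : 200 ≤ b := by nlinarith
  have h1 := pow_gt (C := 3 ^ 8 * (625 * 4 ^ 16)) (k := 32) (a := 3) (by norm_num) (by norm_num)
    (by norm_num) hb
  obtain ⟨c, rfl⟩ := Nat.exists_eq_add_of_le' (show 8 ≤ b by omega)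
  have h3 : 625 * 4 ^ 16 * (c + 8) ^ 32 < 3 ^ c := by
    rw [pow_add 3 c, mul_assoc, mul_comm (3 ^ c)] at h1
    exact Nat.lt_of_mul_lt_mul_left h1
  calc _ = u ^ 8 * (625 * s ^ 16 * (c + 8) ^ 32) := by ring
    _ ≤ u ^ 8 * (625 * 4 ^ 16 * (c + 8) ^ 32) := by gcongr
    _ < u ^ 8 * 3 ^ c := by gcongr
    _ ≤ (u * s + 1) ^ 8 * (u * s + 1) ^ c := by gcongr <;> nlinarith
    _ = _ := by ring

theorem three_sub {G : Type*} [Group G] {T X Y : Subgroup G} (h1 : ⁅T, X⁆ ≤ Y)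
    (h2 : T ≤ Subgroup.centralizer (Y : Set G)) : ⁅T, T⁆ ≤ Subgroup.centralizer (X : Set G) := by
  have h3 : ⁅⁅T, X⁆, T⁆ = ⊥ := by
    rw [Subgroup.commutator_comm, Subgroup.commutator_eq_bot_iff_le_centralizer]
    exact h2.trans (Subgroup.centralizer_le h1)
  rw [← Subgroup.commutator_eq_bot_iff_le_centralizer]
  exact Subgroup.commutator_commutator_eq_bot_of_rotate h3 (by rwa [Subgroup.commutator_comm X T])

theorem ds_two_of_four {G : Type*} [Group G] [Finite G] [Group.IsSolvable G] {S X Y : Subgroup G}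
    (hX : ∀ g ∈ S, ∀ x ∈ X, g * x * g⁻¹ ∈ X) (hY : ∀ g ∈ S, ∀ x ∈ Y, g * x * g⁻¹ ∈ Y)
    (h : Y.relIndex X ≤ 4) {g : G} (hg : g ∈ ds S 2) {x : G} (hx : x ∈ X) :
    x⁻¹ * (g * x * g⁻¹) ∈ Y := by
  classical
  by_cases hxY : x ∈ Y
  · exact Y.mul_mem (Y.inv_mem hxY) (hY g (ds_le _ _ hg) x hxY)
  let H : Subgroup G :=
    { carrier := {g | g ∈ S ∧ x⁻¹ * (g * x * g⁻¹) ∈ Y}
      one_mem' := ⟨S.one_mem, by simp⟩
      mul_mem' := fun {a b} ha hb => ⟨S.mul_mem ha.1 hb.1, by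
        simpa [mul_assoc] using Y.mul_mem ha.2 (hY a ha.1 _ hb.2)⟩
      inv_mem' := fun {a} ha => ⟨S.inv_mem ha.1, by
        simpa [mul_assoc] using hY a⁻¹ (S.inv_mem ha.1) _ (Y.inv_mem ha.2)⟩ }
  refine (ds_le_of_card (H := H) (m := 3) (X := {q : X ⧸ Y.subgroupOf X // q ≠ ((1 : X) : _)})
    (fun g => ⟨((⟨g * x * (g : G)⁻¹, hX g g.2 x hx⟩ : X) : X ⧸ Y.subgroupOf X), fun e => hxY ?_⟩)
    (fun g g' e => ⟨S.mul_mem (S.inv_mem g.2) g'.2, ?_⟩) ?_ (by norm_num) hg).2
  · have := hY _ (S.inv_mem g.2) _ ((QuotientGroup.eq (s := Y.subgroupOf X)).mp e.symm)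
    simpa [mul_assoc] using this
  · have := hY _ (S.inv_mem g.2) _ ((QuotientGroup.eq (s := Y.subgroupOf X)).mp (Subtype.mk.inj e))
    simpa [mul_assoc] using this
  · have := Finite.card_option.symm.trans
      (Nat.card_congr (Equiv.optionSubtypeNe ((1 : X) : X ⧸ Y.subgroupOf X)))
    have h2 : Nat.card (X ⧸ Y.subgroupOf X) ≤ 4 := h
    omega

variable {G V : Type*} [Group G] [AddCommGroup V] [DistribMulAction G V] {P : Pre G V}

theorem card_fix_U {u : G} (hu : u ∈ P.U) (h1 : u ≠ 1) : Nat.card (fix V u) = 1 := by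
  rw [show fix V u = ⊥ from eq_bot_iff.mpr fun x hx => P.fpf u hu h1 x hx, AddSubgroup.card_bot]

theorem exists_comm_ne {g : G} (hg : g ∉ P.U) : ∃ f ∈ P.F, g⁻¹ * f * g * f⁻¹ ≠ 1 := by
  by_contra hc
  push Not at hc
  refine hg (P.cF g fun f hf => ?_)
  have := hc f hf
  rw [mul_inv_eq_one, mul_assoc, inv_mul_eq_iff_eq_mul] at this
  exact this.symm

theorem card_fix_F [Finite V] {x : G} (hx : x ∈ P.F) (h1 : x ≠ 1) :
    Nat.card (fix V x) ^ 2 ≤ Nat.card V := by
  by_cases hU : x ∈ P.U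
  · rw [card_fix_U hU h1]; exact Nat.card_pos
  obtain ⟨f, hf, hne⟩ := exists_comm_ne hU
  have := fix_comm (V := V) x f
  rwa [card_fix_U (by simpa [commutatorElement_def] using P.comm _ (P.F.inv_mem hx) f hf) hne,
    mul_one] at this

theorem card_fix_le [Finite V] (P : Pre G V) {g : G} (h1 : g ≠ 1) :
    Nat.card (fix V g) ^ 4 ≤ Nat.card V ^ 3 := by
  by_cases hU : g ∈ P.U
  · rw [card_fix_U hU h1]; exact Nat.one_le_pow _ _ Nat.card_pos
  obtain ⟨f, hf, hne⟩ := exists_comm_ne hU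
  have h2 := card_fix_F (P := P) (P.F.mul_mem (by simpa using P.Fn.conj_mem f hf g⁻¹)
    (P.F.inv_mem hf)) hne
  calc _ = (Nat.card (fix V g) ^ 2) ^ 2 := by ring
    _ ≤ _ := Nat.pow_le_pow_left (fix_comm g f) 2
    _ ≤ Nat.card V ^ 2 * Nat.card V := by rw [mul_pow]; gcongr
    _ = _ := by ring

theorem card_G_le [Finite G] [Finite V] [Group.IsSolvable G] (P : Pre G V) : Nat.card G ≤
    Nat.card P.U * Nat.card (Wm P) * (Nat.card P.U * Nat.card (Wm P) ^ 3) := by
  have e := Subgroup.relIndex_mul_relIndex ⊥ P.U P.F bot_le P.UF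
  simp only [Subgroup.relIndex_bot_left] at e
  rw [← P.F.card_mul_index, card_Wm, e]
  exact Nat.mul_le_mul_left _ index_F_le

theorem card_stab_smul [Finite G] (g : G) (x : V) :
    Nat.card (P.F ⊓ stabilizer G (g • x) : Subgroup G) = Nat.card (P.F ⊓ stabilizer G x : Subgroup G) := by
  have key : ∀ (g : G) (x : V), Nat.card (P.F ⊓ stabilizer G x : Subgroup G) ≤
      Nat.card (P.F ⊓ stabilizer G (g • x) : Subgroup G) := fun g x =>
    Nat.card_le_card_of_injective (fun f => ⟨g * f * g⁻¹, P.Fn.conj_mem _ f.2.1 g, by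
      show (g * f * g⁻¹) • g • x = g • x
      rw [mul_smul, mul_smul, inv_smul_smul, f.2.2]⟩) fun a b h =>
        Subtype.ext (by simpa using congrArg Subtype.val h)
  refine le_antisymm ?_ (key g x)
  simpa using key g⁻¹ (g • x)

/-- the stabiliser of `v` when `B` is small -/
theorem ds_stab_v [Finite G] [Finite V] [Group.IsSolvable G] (hP : P.IsMax)
    (h : IsCyclic P.B ∨ Nat.card P.B ≤ 4) : ds (stabilizer G P.v) 4 ≤ ker G V := by
  have hB : ds (stabilizer G P.v) 2 ≤ Subgroup.centralizer (P.B : Set G) := by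
    rcases h with h | h
    · exact (ds_anti _ one_le_two).trans (comm_le_centralizer fun g hg x hx => conj_mem_B hg hx)
    · intro g hg x hx
      have := ds_two_of_four (X := P.B) (Y := ⊥) (fun g hg x hx => conj_mem_B hg hx)
        (fun g _ x hx => by simp [Subgroup.mem_bot.mp hx]) (by simpa using h) hg hx
      rw [Subgroup.mem_bot, inv_mul_eq_one, eq_mul_inv_iff_mul_eq] at this
      exact this
  have hU : ds (stabilizer G P.v) 2 ≤ Subgroup.centralizer (P.U : Set G) :=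
    (ds_anti _ one_le_two).trans ((ds_mono le_top 1).trans ds_one_le)
  have hZ : ds (stabilizer G P.v) 2 ≤ Subgroup.centralizer (Z P : Set G) := by
    rw [Subgroup.le_centralizer_iff] at hB hU ⊢
    exact sup_le hB hU
  have h1 : ⁅ds (stabilizer G P.v) 2, P.D⁆ ≤ Z P := Subgroup.commutator_le.mpr fun g hg d hd => by
    have := ds_two_of_four (X := P.D) (Y := Z P) (fun g hg x hx => conj_mem_D hg hx)
      (fun g hg x hx => by
        have := P.Un
        have hx' : x ∈ ((P.B ⊔ P.U : Subgroup G) : Set G) := hx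
        rw [Subgroup.mul_normal] at hx'
        obtain ⟨b, hb, u, hu, rfl⟩ := hx'
        simpa [mul_assoc, Z] using Subgroup.mul_mem_sup (conj_mem_B hg hb) (P.Un.conj_mem u hu g))
      (s_le hP) hg (P.D.inv_mem hd)
    simpa [commutatorElement_def, mul_assoc] using (Z P).inv_mem this
  have h2 : ⁅ds (stabilizer G P.v) 3, P.F⁆ ≤ P.D := Subgroup.commutator_le.mpr fun g hg f hf => by
    have hg' := ds_anti _ (show 2 ≤ 3 by norm_num) hg
    have hc := P.Fn.conj_mem f hf g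
    refine ⟨P.F.mul_mem hc (P.F.inv_mem hf), fun b hb => commutatorElement_eq_one_iff_mul_comm.mp ?_⟩
    have e1 : ⁅b, g * f * g⁻¹⁆ = ⁅b, f⁆ := by
      have e2 : g * b * g⁻¹ = b := by rw [← hB hg' b hb]; group
      have e3 := hU hg' _ (P.comm b hb.1 f hf)
      calc ⁅b, g * f * g⁻¹⁆ = ⁅g * b * g⁻¹, g * f * g⁻¹⁆ := by rw [e2]
        _ = g * ⁅b, f⁆ * g⁻¹ := (conjugate_commutatorElement _ _ _).symm
        _ = _ := by rw [← e3]; group
    rw [commutatorElement_def g, comm_mul_right hb.1 hc (P.F.inv_mem hf), e1,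
      ← comm_mul_right hb.1 hf (P.F.inv_mem hf)]
    simp
  intro g hg x
  have h3 := three_sub h2 (three_sub h1 hZ) hg
  rw [eq_one_of_U (P.cF g fun f hf => (h3 f hf).symm) (ds_le _ _ hg), one_smul]

theorem small_B [Finite G] [Finite V] (hP : P.IsMax) (h3 : 3 ≤ Nat.card P.A)
    (h : ∀ x : V, x ≠ 0 → Nat.card (P.F ⊓ stabilizer G x : Subgroup G) = 1 ∨
      Nat.card (P.F ⊓ stabilizer G x : Subgroup G) = Nat.card P.B) :
    IsCyclic P.B ∨ Nat.card P.B ≤ 4 := by
  classical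
  have key : ∀ S : Set P.A, 1 ∈ S → (∀ a, (∀ x ∈ S, a * x ∈ S) → a = 1) → ∀ a ∈ S, a ≠ 1 →
      ∀ b ∈ P.B, (∀ x ∈ S, x ≠ 1 → ⁅(P.rep x : G), b⁆ = 1) → b = 1 := by
    intro S h1 hS a ha ha1 b hb hc
    obtain ⟨w, hw, hw'⟩ := exists_vec hP S h1 hS
    rcases h w hw with e | e
    · refine Subgroup.mem_bot.mp ((Subgroup.card_eq_one.mp e).le
        ⟨hb.1, (hw' b hb.1).mpr ⟨hb, fun x hx => ?_⟩⟩)
      by_cases hx1 : x = 1
      · exact (π_eq_one_iff.mp ((π_rep x).trans hx1)).2 b hb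
      · exact (commutatorElement_eq_one_iff_mul_comm.mp (hc x hx hx1)).symm
    · have h2 := Subgroup.eq_of_le_of_card_ge (show P.F ⊓ stabilizer G w ≤ P.B from
        fun f hf => ((hw' f hf.1).mp hf.2).1) e.ge
      refine absurd ((π_rep a).symm.trans (π_eq_one_iff.mpr ⟨(P.rep a).2, fun c hc => ?_⟩)) ha1
      have h4 : c ∈ P.F ⊓ stabilizer G w := h2 ▸ hc
      exact ((hw' c h4.1).mp h4.2).2 a ha
  by_cases hsq : ∃ a : P.A, a * a ≠ 1
  · obtain ⟨a, ha⟩ := hsq
    have ha1 : a ≠ 1 := fun e => ha (by rw [e, one_mul])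
    have := isCyclic_U (P := P)
    refine Or.inl (isCyclic_of_injective (G' := P.U)
      { toFun := fun b => ⟨⁅(P.rep a : G), (b : G)⁆, P.comm _ (P.rep a).2 _ b.2.1⟩
        map_one' := by simp
        map_mul' := fun b c => Subtype.ext (comm_mul_right (P.rep a).2 b.2.1 c.2.1) }
      ((injective_iff_map_eq_one _).mpr fun b hb => Subtype.ext (key {1, a} (by simp) (fun x hx => ?_)
        a (by simp) ha1 b b.2 fun x hx hx1 => ?_)))
    · by_contra hx1
      have e1 : x = a := by simpa [hx1] using hx 1 (by simp)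
      simpa [e1, ha, ha1] using hx a (by simp)
    · rw [show x = a by simpa [hx1] using hx]
      exact congrArg Subtype.val hb
  push Not at hsq
  obtain ⟨a, a', ha, ha', hne⟩ : ∃ a a' : P.A, a ≠ 1 ∧ a' ≠ 1 ∧ a ≠ a' := by
    have := Fintype.exists_ne_of_one_lt_card (α := {a : P.A // a ≠ 1}) (by
      have := Finite.card_option.symm.trans (Nat.card_congr (Equiv.optionSubtypeNe (1 : P.A)))
      rw [← Nat.card_eq_fintype_card]; omega)
    have hA := Finite.one_lt_card_iff_nontrivial.mp (show 1 < Nat.card P.A by omega)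
    obtain ⟨a, ha⟩ := exists_ne (1 : P.A)
    obtain ⟨a', ha'⟩ := this ⟨a, ha⟩
    exact ⟨a, a', ha, a'.2, fun e => ha' (Subtype.ext e.symm)⟩
  have hneg : ∀ (x : P.A) (b : P.B), ⁅(P.rep x : G), (b : G)⁆ ≠ 1 →
      ⁅(P.rep x : G), (b : G)⁆ • P.v = -P.v := fun x b hb => by
    have e1 : ⁅(P.rep x : G), (b : G)⁆ * ⁅(P.rep x : G), (b : G)⁆ = 1 := by
      rw [← comm_mul_left (P.rep x).2 (P.rep x).2 b.2.1]
      exact commutatorElement_eq_one_iff_mul_comm.mpr ((π_eq_one_iff (f := P.rep x * P.rep x).mp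
        (by rw [map_mul, π_rep, hsq])).2 b b.2).symm
    refine eq_neg_of_add_eq_zero_left (P.fpf _ (P.comm _ (P.rep x).2 _ b.2.1) hb _ ?_)
    rw [smul_add, ← mul_smul, e1, one_smul, add_comm]
  have hco : ∀ (x : P.A) (b b' : P.B), (⁅(P.rep x : G), (b : G)⁆ = 1 ↔ ⁅(P.rep x : G), (b' : G)⁆ = 1) →
      ⁅(P.rep x : G), (b : G)⁻¹ * b'⁆ = 1 := fun x b b' hb => by
    have e1 : ⁅(P.rep x : G), (b' : G)⁆ = ⁅(P.rep x : G), (b : G)⁆ := by
      by_cases e : ⁅(P.rep x : G), (b : G)⁆ = 1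
      · rw [e, hb.mp e]
      · refine (inv_mul_eq_one.mp (eq_one_of_U (P.U.mul_mem (P.U.inv_mem
          (P.comm _ (P.rep x).2 _ b'.2.1)) (P.comm _ (P.rep x).2 _ b.2.1)) ?_))
        rw [mul_smul, hneg x b e, ← hneg x b' (fun e' => e (hb.mpr e')), inv_smul_smul]
    rw [comm_mul_right (P.rep x).2 (P.F.inv_mem b.2.1) b'.2.1, e1,
      ← comm_mul_right (P.rep x).2 (P.F.inv_mem b.2.1) b.2.1]
    simp
  right
  have := Nat.card_le_card_of_injective (fun b : P.B =>
    (decide (⁅(P.rep a : G), (b : G)⁆ = 1), decide (⁅(P.rep a' : G), (b : G)⁆ = 1))) fun b b' e => by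
      simp only [Prod.mk.injEq, decide_eq_decide] at e
      refine Subtype.ext (inv_mul_eq_one.mp (key {1, a, a'} (by simp) (fun x hx => ?_) a (by simp) ha _
        (P.B.mul_mem (P.B.inv_mem b.2) b'.2) fun x hx hx1 => ?_))
      · by_contra hx1
        have e0 : a * a' ≠ 1 := fun e => hne (mul_left_cancel ((hsq a).trans e.symm))
        rcases (show x = a ∨ x = a' by simpa [hx1] using hx 1 (by simp)) with rfl | rfl
        · simpa [e0, ha, ha'] using hx a' (by simp)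
        · simpa [mul_comm x a, e0, ha, ha'] using hx a (by simp)
      · rcases (show x = a ∨ x = a' by simpa [hx1] using hx) with rfl | rfl
        exacts [hco _ b b' e.1, hco _ b b' e.2]
  simpa using this

/-- the inductive invariant -/
def Inv (G V : Type*) [Group G] [AddCommGroup V] [DistribMulAction G V] : Prop :=
  Many G V 5 9 ∨ Many G V 4 8 ∨ Many G V 3 7 ∨ Many G V 2 6

theorem many_two {x y : V} {d : ℕ} (hx : ds (stabilizer G x) d ≤ ker G V)
    (hy : ds (stabilizer G y) d ≤ ker G V) (h : ∀ g : G, g • x ≠ y) : Many G V 2 d := by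
  refine ⟨![x, y], fun c => by fin_cases c <;> assumption, fun c c' g hg => ?_⟩
  fin_cases c <;> fin_cases c'
  · rfl
  · exact absurd hg (h g)
  · exact absurd (inv_smul_eq_iff.mpr (Eq.symm hg)) (h g⁻¹)
  · rfl

theorem prim_inv [Finite G] [Finite V] [Group.IsSolvable G] (hP : P.IsMax) : Inv G V := by
  obtain ⟨s, hs, -, e, hle⟩ := sizes hP
  have hF : ∀ j, 1 ≤ j → Nat.card (Wm P) < 531441 → tf (Nat.card (Wm P)) ≤ j →
      ds (⊤ : Subgroup G) j ≤ P.F := fun j hj h1 h2 =>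
    ds_le_F hj ((ds_anti _ h2).trans (table cr_Wm h1))
  by_cases c1 : Nat.card (Wm P) ≤ 26
  · have h1 := ds_top_bot (hF 4 (by norm_num) (by omega) (tf_mono c1))
    exact Or.inr (Or.inr (Or.inr (many_two (x := 0) ((ds_mono le_top _).trans h1)
      ((ds_mono le_top _).trans h1) fun g hg => P.v0 (hg.symm.trans (smul_zero g)))))
  have hu := two_le_card_U P (by omega)
  by_cases c2 : Nat.card (Wm P) ≤ 728
  · have h1 := hF 6 (by norm_num) (by omega) (tf_mono c2)
    have h3 : 3 ≤ Nat.card P.A := by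
      by_contra hc
      have : Nat.card P.A ^ 2 * s ≤ 2 ^ 2 * 4 := by gcongr <;> omega
      omega
    obtain ⟨w, hw, hw'⟩ := exists_reg hP (by omega)
    have hB : Nat.card P.B ≠ 1 := by rw [card_B]; omega
    by_cases h : ∀ x : V, x ≠ 0 → Nat.card (P.F ⊓ stabilizer G x : Subgroup G) = 1 ∨
        Nat.card (P.F ⊓ stabilizer G x : Subgroup G) = Nat.card P.B
    · refine Or.inr (Or.inr (Or.inr (many_two (ds_reg h1 hw') ((ds_anti _ (by norm_num)).trans
        (ds_stab_v hP (small_B hP h3 h))) fun g hg => hB ?_)))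
      have := card_stab_smul (P := P) g w
      rwa [hg, hw', Subgroup.card_bot] at this
    · push Not at h
      obtain ⟨x, hx, hx1, hx2⟩ := h
      refine Or.inr (Or.inr (Or.inl ⟨![w, x, P.v], fun c => ds_stab h1 (by
        fin_cases c; exacts [hw, hx, P.v0]), fun c c' g hg => ?_⟩))
      have h2 := card_stab_smul (P := P) g (![w, x, P.v] c)
      have h4 : Nat.card (P.F ⊓ stabilizer G w : Subgroup G) = 1 := by rw [hw', Subgroup.card_bot]
      rw [hg] at h2
      have h6 : Function.Injective fun c : Fin 3 =>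
          Nat.card (P.F ⊓ stabilizer G (![w, x, P.v] c) : Subgroup G) := by
        have h7 : (fun c : Fin 3 => Nat.card (P.F ⊓ stabilizer G (![w, x, P.v] c) : Subgroup G)) =
            ![1, Nat.card (P.F ⊓ stabilizer G x : Subgroup G), Nat.card P.B] := by
          funext c; fin_cases c; exacts [h4, rfl, rfl]
        rw [h7]
        generalize Nat.card (P.F ⊓ stabilizer G x : Subgroup G) = a at hx1 hx2
        generalize Nat.card P.B = b at hx2 hB
        intro i j hij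
        fin_cases i <;> fin_cases j <;> simp at hij ⊢ <;> omega
      exact h6 h2.symm
  have hG := card_G_le P
  left
  by_cases c3 : Nat.card (Wm P) < 531441
  · have h1 := hF 8 (by norm_num) c3 (by unfold tf; split_ifs <;> omega)
    have h2 := num_one hs hu (e ▸ show 729 ≤ Nat.card (Wm P) by omega)
    obtain ⟨T, hT, hT'⟩ := exists_many (G := G) ({0}ᶜ : Set V) 4 (by
      have := Set.ncard_add_ncard_compl ({0} : Set V)
      rw [Set.ncard_singleton] at this
      rw [← e] at h2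
      omega)
    exact ⟨T, fun c => ds_stab h1 (hT c), hT'⟩
  · have h2 := (num_two hs hu (e ▸ show 531441 ≤ Nat.card (Wm P) by omega)).trans_le hle
    rw [← e] at h2
    have h3 : (5 * Nat.card G) ^ 4 < Nat.card V := lt_of_le_of_lt (by gcongr) h2
    have h0 : 0 < Nat.card G := Nat.card_pos
    have h4 : ∀ g : G, g ≠ 1 → Nat.card (fix V g) ≤ Nat.card V / (5 * Nat.card G) := fun g hg => by
      rw [Nat.le_div_iff_mul_le (by omega)]
      refine (Nat.pow_le_pow_iff_left (show 4 ≠ 0 by norm_num)).mp ?_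
      rw [mul_pow, pow_succ _ 3]
      exact Nat.mul_le_mul (card_fix_le P hg) h3.le
    have h5 := ncard_nonreg ({1}ᶜ : Set G) _ h4
    have h6 : ({1}ᶜ : Set G).ncard ≤ Nat.card G := Set.ncard_le_card _
    have h7 := Nat.mul_div_le (Nat.card V) (5 * Nat.card G)
    have h8 : 5 * Nat.card G ≤ (5 * Nat.card G) ^ 4 := Nat.le_self_pow (by norm_num) _
    have h9 : 5 * (5 * Nat.card G) ≤ (5 * Nat.card G) ^ 4 :=
      le_trans (by nlinarith) (Nat.pow_le_pow_right (by omega) (show 2 ≤ 4 by norm_num))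
    obtain ⟨T, hT, hT'⟩ := exists_many (G := G) {x : V | ∃ g ∈ ({1}ᶜ : Set G), g • x = x}ᶜ 4 (by
      have := Set.ncard_add_ncard_compl {x : V | ∃ g ∈ ({1}ᶜ : Set G), g • x = x}
      have := Nat.mul_le_mul_right (Nat.card V / (5 * Nat.card G)) h6
      nlinarith)
    refine ⟨T, fun c g hg y => ?_, hT'⟩
    by_cases h : g = 1
    · rw [h, one_smul]
    · exact absurd ⟨g, h, ds_le _ _ hg⟩ (hT c)

section affine
variable {M : Subgroup G} {A : Type*} [AddCommGroup A] [DistribMulAction M A] {e : A ≃ G ⧸ M}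

theorem hasBase_of (h0 : e 0 = ((1 : G) : G ⧸ M))
    (hm : ∀ (m : M) (a : A), e (m • a) = (m : G) • e a) {k : ℕ} {t : Fin k → A} (ht : IsBase M t) :
    HasBase G (G ⧸ M) (k + 1) := by
  classical
  refine ⟨insert (e 0) (Finset.univ.image fun i => e (t i)), (Finset.card_insert_le _ _).trans
    (Nat.succ_le_succ (Finset.card_image_le.trans (by simp))), fun g hg =>
      affine_base h0 hm ht g (hg _ (by simp)) fun i => hg _ (by simp)⟩

theorem hasBase_two [Finite A] (h0 : e 0 = ((1 : G) : G ⧸ M))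
    (hm : ∀ (m : M) (a : A), e (m • a) = (m : G) • e a) (hp : (Nat.card (G ⧸ M)).Prime) :
    HasBase G (G ⧸ M) 2 := by
  have := Fact.mk hp
  have := isAddCyclic_of_prime_card (Nat.card_congr e)
  obtain ⟨θ, hθ⟩ := IsAddCyclic.exists_generator (α := A)
  refine hasBase_of h0 hm (t := fun _ : Fin 1 => θ) fun g hg x => ?_
  obtain ⟨n, rfl⟩ := hθ x
  show g • n • θ = n • θ
  rw [smul_comm g n θ, hg 0]

end affine

theorem irr_inv (n : ℕ) : ∀ (G V : Type u) [Group G] [AddCommGroup V] [DistribMulAction G V]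
    [Finite V] [Nontrivial V] [Group.IsSolvable G], Nat.card V = n → Irr G V → Inv G V := by
  induction n using Nat.strong_induction_on with
  | _ n ih =>
  intro G0 V _ _ _ _ _ _ hn hirr0
  have hirr := hirr0.im
  have := solvable_im (G := G0) (V := V)
  suffices h : Inv (Im G0 V) V from h.imp Many.of_im (Or.imp Many.of_im (Or.imp Many.of_im Many.of_im))
  obtain ⟨U, hUn, hUc, hmax⟩ := exists_max_abelian (G := Im G0 V)
  rcases fpf_or_imprim hirr U hUc with hf | ⟨M, _, W, hM, hW, hW0⟩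
  · obtain ⟨P0⟩ := exists_prim U hUn hUc hmax hf
    exact prim_inv (P := P0.toPre) P0.vmax
  · have : Nontrivial (Im G0 V ⧸ M) := QuotientGroup.nontrivial_iff.mpr hM.1
    obtain ⟨A, _, _, e, hA, h0, hm, -⟩ := exists_affine M hM
    have : Finite A := Finite.of_equiv _ e.symm
    obtain ⟨t, ht⟩ := base_three_of_irr hA
    have h4 := hasBase_of h0 hm ht
    have h2 := hasBase_two h0 hm
    have h1 : 2 ≤ Nat.card (Im G0 V ⧸ M) := Finite.one_lt_card
    let _ := subAct _ _ (hW.stab_inv ((1 : Im G0 V) : Im G0 V ⧸ M))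
    have := (AddSubgroup.nontrivial_iff_ne_bot _).mpr hW0
    rcases ih _ (hn ▸ hW.card_block_lt _ hW0) _ _ rfl (hW.irr_block hirr _) with h | h | h | h
    · exact Or.inl (wreath hW _ h (cols_five h1 h4 h2))
    · exact Or.inl (wreath hW _ h (cols_four h1 h4))
    · exact Or.inl (wreath hW _ h (cols_three h1 h4))
    · rcases cols_two h1 h4 h2 with c | c | c
      · exact Or.inr (Or.inr (Or.inl (wreath hW _ h c)))
      · exact Or.inr (Or.inl (wreath hW _ h c))
      · exact Or.inl (wreath hW _ h c)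

theorem exists_nine [Finite V] [Group.IsSolvable G] (hcr : CR G V) :
    ∃ v : V, ds (stabilizer G v) 9 ≤ ker G V :=
  exists_of_cr hcr (ds · 9) (fun _ _ h => ds_mono h 9) fun Y hY h0 hi => by
    let _ := invAct hY
    have := (AddSubgroup.nontrivial_iff_ne_bot _).mpr h0
    have := solvable_im (G := G) (V := Y)
    have key : ∀ k d, d ≤ 9 → Many (Im G Y) Y (k + 1) d →
        ∃ w ∈ Y, ∀ g ∈ ds (stabilizer G w) 9, ∀ x ∈ Y, g • x = x := fun k d hd h => by
      obtain ⟨T, hT, -⟩ := (h.mono hd).of_im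
      exact ⟨T 0, (T 0).2, fun g hg x hx => congrArg Subtype.val
        (hT 0 (ds_mono (fun g hg => Subtype.ext hg) 9 hg) ⟨x, hx⟩)⟩
    rcases irr_inv _ (Im G Y) Y rfl hi.im with h | h | h | h <;> exact key _ _ (by norm_num) h

end Cfsg.Agent.FG.MW
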