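import Mathlib
import Cfsg.Agent.FG.MWOne
import Cfsg.Agent.FG.BaseCop
import Cfsg.Agent.GT.FrobeniusBasic

/-! A vector with abelian stabiliser for a group of odd order in odd characteristic. -/

set_option autoImplicit false

namespace Cfsg.Agent.FG.MW

open Cfsg.Agent.FG.BS Cfsg.Agent.FG.BS.Pre MulAction
open scoped commutatorElement

universe u

variable {G V : Type*} [Group G] [AddCommGroup V] [DistribMulAction G V]

theorem card_eq_pow [Finite V] {r : ℕ} (hr : r.Prime) (h : ∀ x : V, r • x = 0) :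
    ∃ j, Nat.card V = r ^ j := by
  have := Fact.mk hr
  obtain ⟨_⟩ : Nonempty (Module (ZMod r) V) := ⟨AddCommGroup.zmodModule h⟩
  exact ⟨Module.finrank (ZMod r) V, by rw [Module.natCard_eq_pow_finrank (K := ZMod r), Nat.card_zmod]⟩

theorem exists_quad [Finite V] {r : ℕ} (hr : r.Prime) (h : ∀ x : V, r • x = 0)
    (hc : Nat.card V = r ^ 2) (θ : G) : ∃ a b : ℕ, ∀ y : V, θ • θ • y + a • θ • y + b • y = 0 := by
  have := Fact.mk hr
  obtain ⟨_⟩ : Nonempty (Module (ZMod r) V) := ⟨AddCommGroup.zmodModule h⟩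
  have h2 : Module.finrank (ZMod r) V = 2 := by
    rw [Module.natCard_eq_pow_finrank (K := ZMod r), Nat.card_zmod] at hc
    exact Nat.pow_right_injective hr.two_le hc
  let T : Module.End (ZMod r) V := (DistribSMul.toAddMonoidHom V θ).toZModLinearMap r
  have h3 := T.aeval_self_charpoly
  have h4 : T.charpoly.natDegree = 2 := by rw [LinearMap.charpoly_natDegree, h2]
  have h5 : T.charpoly.coeff 2 = 1 := by rw [← h4]; exact T.charpoly_monic
  rw [Polynomial.aeval_eq_sum_range, h4] at h3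
  refine ⟨(T.charpoly.coeff 1).val, (T.charpoly.coeff 0).val, fun y => ?_⟩
  have h6 := LinearMap.congr_fun h3 y
  simp only [Finset.sum_range_succ, Finset.range_zero, Finset.sum_empty, zero_add, h5, one_smul,
    pow_zero, pow_one, sq, LinearMap.add_apply, LinearMap.smul_apply, Module.End.one_apply,
    Module.End.mul_apply, LinearMap.zero_apply] at h6
  rw [← Nat.cast_smul_eq_nsmul (ZMod r), ← Nat.cast_smul_eq_nsmul (ZMod r), ZMod.natCast_zmod_val,
    ZMod.natCast_zmod_val, ← h6]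
  show T (T y) + _ • T y + _ = _
  abel

theorem conj_eq_of_quad [Finite G] (hodd : Odd (Nat.card G)) (P : Pre G V) {θ : G} (hθ : θ ∈ P.U)
    {a b : ℕ} (h : ∀ y : V, θ • θ • y + a • θ • y + b • y = 0) (g : G) : g * θ * g⁻¹ = θ := by
  have key : ∀ g : G, g * θ * g⁻¹ ≠ θ → (g * θ * g⁻¹) • P.v = -(θ • P.v) - a • P.v := fun g hg => by
    have hU := P.Un.conj_mem θ hθ g
    generalize hx : g * θ * g⁻¹ = x at hg hU
    have h1 : x • x • P.v + a • x • P.v + b • P.v = 0 := by
      have := congrArg (g • ·) (h (g⁻¹ • P.v))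
      simp only [smul_add, smul_zero, smul_comm g a, smul_comm g b, smul_inv_smul] at this
      simpa only [← hx, mul_smul, inv_smul_smul] using this
    have h2 : θ • x • P.v = x • θ • P.v := by rw [← mul_smul, U_comm hθ hU, mul_smul]
    have h3 := P.fpf (θ⁻¹ * x) (P.U.mul_mem (P.U.inv_mem hθ) hU)
      (fun e => hg (inv_mul_eq_one.mp e).symm) (θ • P.v + x • P.v + a • P.v) (by
        rw [mul_smul, inv_smul_eq_iff]
        simp only [smul_add, smul_comm x a, smul_comm θ a, h2]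
        linear_combination (norm := abel) h1 - h P.v)
    linear_combination (norm := abel) h3
  by_contra hc
  have : Finite (ConjAct G) := ‹Finite G›
  have h1 : g * g * θ * (g * g)⁻¹ ≠ θ := fun e => hc (smul_eq_of_odd (G := ConjAct G)
    (α := G) hodd (g := ConjAct.toConjAct g) (x := θ) (by
      simpa [ConjAct.smul_def, mul_assoc] using e))
  have h2 := eq_one_of_U (P.U.mul_mem (P.U.inv_mem (P.Un.conj_mem θ hθ g))
    (P.Un.conj_mem θ hθ (g * g))) (by rw [mul_smul, key _ h1, ← key _ hc, inv_smul_smul])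
  apply hc
  rw [inv_mul_eq_one] at h2
  calc g * θ * g⁻¹ = g⁻¹ * (g * g * θ * (g * g)⁻¹) * g := by group
    _ = _ := by rw [← h2]; group

theorem two_mul_le {X : AddSubgroup V} [Finite V] {O : Set V} (hO : O ⊆ X) (h0 : 0 ∉ O)
    (h : ∀ y ∈ O, -y ∉ O) : 2 * O.ncard + 1 ≤ Nat.card X := by
  have h1 : (insert 0 (O ∪ -O) : Set V) ⊆ X := by
    rintro y (rfl | hy | hy)
    exacts [X.zero_mem, hO hy, neg_mem_iff.mp (hO hy)]
  have h2 := Set.ncard_le_ncard h1
  rw [Set.ncard_insert_of_notMem (by simp [h0]), Set.ncard_union_eq (t := -O)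
    (Set.disjoint_left.mpr fun y hy hy' => h y hy hy'), Set.ncard_neg] at h2
  exact (by omega : _ ≤ O.ncard + O.ncard + 1).trans h2

theorem smul_ne_neg [Finite G] [Finite V] (hodd : Odd (Nat.card G)) (hV : Odd (Nat.card V)) (g : G)
    {x : V} (hx : x ≠ 0) : g • x ≠ -x := fun e => by
  have h1 := smul_eq_of_odd hodd (g := g) (x := x) (by rw [e, smul_neg, e, neg_neg])
  refine hx (nsmul_cancel (Nat.coprime_two_left.mpr hV) ?_)
  rw [two_nsmul, smul_zero, add_eq_zero_iff_eq_neg, ← e, h1]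

section
variable [Finite G] [Finite V] {P : Pre G V}

omit [Finite G] [Finite V] in
theorem card_Wm_dvd : Nat.card (Wm P) ∣ Nat.card G :=
  (Subgroup.card_quotient_dvd_card _).trans (Subgroup.card_subgroup_dvd_card P.F)

theorem sizes_odd (hodd : Odd (Nat.card G)) (hP : P.IsMax) :
    Nat.card (Wm P) = Nat.card P.A ^ 2 := by
  obtain ⟨s, hs | hs, -, e, -⟩ := sizes hP
  · rw [e, hs, mul_one]
  · have := hodd.of_dvd_nat ((Dvd.intro_left _ e.symm).trans card_Wm_dvd)
    rw [hs] at this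
    exact absurd this (by decide)

theorem card_fix_B_odd (hodd : Odd (Nat.card G)) (hV : Odd (Nat.card V)) :
    2 * Nat.card P.U + 1 ≤ Nat.card (fixS V P.B) := by
  have := two_mul_le (X := fixS V P.B) (O := Set.range fun u : P.U => (u : G) • P.v)
    (by rintro _ ⟨u, rfl⟩; exact D_smul (U_le_D u.2) v_mem)
    (by rintro ⟨u, hu⟩; exact P.v0 ((smul_eq_zero_iff_eq _).mp hu))
    (by
      rintro _ ⟨u, rfl⟩ ⟨u', hu⟩
      refine smul_ne_neg hodd hV ((u : G)⁻¹ * u') P.v0 ?_
      rw [mul_smul, show (u' : G) • P.v = -((u : G) • P.v) from hu, smul_neg, inv_smul_smul])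
  rwa [Set.ncard_range_of_injective fun u u' e => Subtype.ext (inv_mul_eq_one.mp (eq_one_of_U
    (P.U.mul_mem (P.U.inv_mem u.2) u'.2) (by
      rw [mul_smul, ← show (u : G) • P.v = (u' : G) • P.v from e, inv_smul_smul])))] at this

omit [Finite V] in
theorem three_le_card_U (hodd : Odd (Nat.card G)) (h : 1 < Nat.card (Wm P)) : 3 ≤ Nat.card P.U := by
  have h1 := two_le_card_U P h
  obtain ⟨k, hk⟩ := hodd.of_dvd_nat (Subgroup.card_subgroup_dvd_card P.U)
  omega

end

theorem ab_small [Finite G] [Finite V] (hodd0 : Odd (Nat.card G)) (hirr0 : Irr G V) {r : ℕ}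
    (hr : r.Prime) (hV : Odd (Nat.card V)) (h : Nat.card V = r ^ 2 ∨ Nat.card V = 81) :
    ds (⊤ : Subgroup G) 1 ≤ ker G V := by
  have hirr := hirr0.im
  have hodd : Odd (Nat.card (Im G V)) := hodd0.of_dvd_nat card_im_dvd
  have := S0205.result hodd
  have : Nontrivial V := Finite.one_lt_card_iff_nontrivial.mp (by
    rcases h with h | h <;> rw [h]
    · exact Nat.one_lt_pow two_ne_zero hr.one_lt
    · norm_num)
  have hsq : ∀ w m : ℕ, w ∣ r ^ 2 → 1 < w → w ^ m ≤ r ^ 2 → m ≤ 2 := fun w m h1 h2 h3 => by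
    obtain ⟨k, -, rfl⟩ := (Nat.dvd_prime_pow hr).mp h1
    rw [← pow_mul, Nat.pow_le_pow_iff_right hr.one_lt] at h3
    rcases k with _ | k
    · simp at h2
    · nlinarith
  refine le_ker_of_im (S' := ⊤) (fun _ _ => trivial) ?_
  obtain ⟨U, hUn, hUc, hmax⟩ := exists_max_abelian (G := Im G V)
  rcases fpf_or_imprim hirr U hUc with hf | ⟨M, _, W, hM, hW, hW0⟩
  · obtain ⟨P0⟩ := exists_prim U hUn hUc hmax hf
    let P := P0.toPre
    have e := sizes_odd (P := P) hodd P0.vmax
    have h1 := card_fix_B_odd (P := P) hodd hV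
    have h2 := pow_le_card (P := P) le_rfl
    obtain ⟨k, hk⟩ := hodd.of_dvd_nat (card_A_dvd (P := P))
    have hb : Nat.card P.A = 1 := by
      by_contra hc
      have h3 := three_le_card_U (P := P) hodd (by rw [e]; exact Nat.one_lt_pow two_ne_zero (by omega))
      rcases h with h | h
      · have := hsq _ _ (h ▸ AddSubgroup.card_addSubgroup_dvd_card _) (by omega) (h ▸ h2)
        omega
      · have : 7 ^ 3 ≤ Nat.card (fixS V P.B) ^ Nat.card P.A :=
          (Nat.pow_le_pow_left (by omega) 3).trans (Nat.pow_le_pow_right (by omega) (by omega))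
        omega
    have hFU : P.F ≤ P.U := Subgroup.relIndex_eq_one.mp (by rw [← card_Wm, e, hb, one_pow])
    have hc : ∀ g : Im G V, g ∈ P.U := fun g => P.cF g fun θ hθ => by
      rw [← mul_inv_eq_iff_eq_mul]
      rcases h with h | h
      · have hx := hirr.nsmul_eq_zero hr (h ▸ dvd_pow_self r two_ne_zero)
        obtain ⟨a, b, hab⟩ := exists_quad hr hx h θ
        exact conj_eq_of_quad hodd P (hFU hθ) hab g
      · have := P.Un
        have := isCyclic_U (P := P)
        have h3 := GT.Frob.card_dvd_card_sub_one_of_free (A := P.U) (0 : V) (fun a => smul_zero a)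
          fun a x hx ha => by
            by_contra h1
            exact hx (P.fpf a a.2 (fun e => h1 (Subtype.ext e)) x ha)
        have h4 := hodd.of_dvd_nat (Subgroup.card_subgroup_dvd_card P.U)
        have h5 : Nat.card P.U ∣ 5 := (Nat.Coprime.pow_right 4
          (Nat.coprime_two_right.mpr h4)).dvd_of_dvd_mul_left (by rw [h] at h3; exact h3)
        have h6 : Nat.card (MulAut P.U) ∣ 2 ^ 2 := by
          rw [IsCyclic.card_mulAut]
          rcases (Nat.dvd_prime Nat.prime_five).mp h5 with e | e <;> rw [e] <;> decide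
        have h7 : MulAut.conjNormal (H := P.U) g = 1 := orderOf_eq_one_iff.mp
          (Nat.eq_one_of_dvd_coprimes (Nat.Coprime.pow_left 2 (Nat.coprime_two_left.mpr hodd))
            ((orderOf_dvd_natCard _).trans h6) ((orderOf_map_dvd _ g).trans (orderOf_dvd_natCard g)))
        exact congrArg Subtype.val (DFunLike.congr_fun h7 ⟨θ, hFU hθ⟩)
    refine Subgroup.commutator_le.mpr fun a _ b _ x => ?_
    rw [commutatorElement_eq_one_iff_mul_comm.mpr (U_comm (hc a) (hc b)), one_smul]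
  · exfalso
    have : Nontrivial (Im G V ⧸ M) := QuotientGroup.nontrivial_iff.mpr hM.1
    have h8 := imprim_card hW ((1 : Im G V) : Im G V ⧸ M)
    obtain ⟨k, hk⟩ := hodd.of_dvd_nat (Subgroup.card_quotient_dvd_card M)
    have h1 : 1 < Nat.card (Im G V ⧸ M) := Finite.one_lt_card
    have := (AddSubgroup.nontrivial_iff_ne_bot _).mpr hW0
    have h2 : 1 < Nat.card (W ((1 : Im G V) : Im G V ⧸ M)) := Finite.one_lt_card
    have h3 := AddSubgroup.card_addSubgroup_dvd_card (W ((1 : Im G V) : Im G V ⧸ M))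
    generalize Nat.card (W ((1 : Im G V) : Im G V ⧸ M)) = w at h2 h3 h8
    generalize Nat.card (Im G V ⧸ M) = m at hk h1 h8
    rcases h with h | h
    · have := hsq w m (h ▸ h3) h2 (by omega)
      omega
    · obtain ⟨j, -, rfl⟩ := (Nat.dvd_prime_pow Nat.prime_three (m := 4) (i := w)).mp (by rw [h] at h3; exact h3)
      rw [← pow_mul, h] at h8
      have h4 : 4 = j * m := Nat.pow_right_injective (show 2 ≤ 3 by norm_num) h8
      have h5 : m ∣ 2 ^ 2 := Dvd.intro_left j h4.symm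
      have := Nat.eq_one_of_dvd_coprimes (Nat.Coprime.pow_left 2
        (Nat.coprime_two_left.mpr ⟨k, hk⟩)) h5 dvd_rfl
      omega

section
variable [Finite G] [Finite V] {P : Pre G V}

theorem big_of_not_ab (hodd : Odd (Nat.card G)) (hP : P.IsMax)
    (h : ¬ ds (⊤ : Subgroup G) 1 ≤ ker G (Wm P)) :
    27 ≤ Nat.card P.A ∨ (Nat.card P.A = 25 ∧ 5 ≤ Nat.card P.U) := by
  by_contra hc
  refine h (le_ker_of_cr cr_Wm _ fun Y hY h0 hi => ?_)
  let _ := invAct hY
  have e := sizes_odd hodd hP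
  have hd := AddSubgroup.card_addSubgroup_dvd_card Y
  have hYo := hodd.of_dvd_nat (hd.trans card_Wm_dvd)
  have := (AddSubgroup.nontrivial_iff_ne_bot _).mpr h0
  obtain ⟨r, hr, hrd⟩ := Nat.exists_prime_and_dvd (Finite.one_lt_card (α := Y)).ne'
  obtain ⟨j, hj⟩ := card_eq_pow hr (hi.nsmul_eq_zero hr hrd)
  by_cases h1 : j = 1
  · have := Fact.mk hr
    have := isAddCyclic_of_prime_card (hj.trans (by rw [h1, pow_one]))
    exact comm_le_ker_of_cyclic
  by_cases h2 : j = 2
  · exact ab_small hodd hi hr hYo (Or.inl (h2 ▸ hj))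
  have h3 : 3 ≤ j := by
    have : j ≠ 0 := fun e => by
      rw [e, pow_zero] at hj; exact (Finite.one_lt_card (α := Y)).ne' hj
    omega
  have h4 : r ^ 3 ∣ Nat.card P.A ^ 2 := (pow_dvd_pow r h3).trans (hj ▸ e ▸ hd)
  obtain ⟨c, hc1⟩ := hr.dvd_of_dvd_pow ((dvd_pow_self r (by norm_num)).trans h4)
  obtain ⟨d, rfl⟩ : r ∣ c := by
    rw [hc1, mul_pow, pow_succ' r 2, mul_comm r] at h4
    exact hr.dvd_of_dvd_pow (Nat.dvd_of_mul_dvd_mul_left (pow_pos hr.pos 2) h4)
  have hAo := hodd.of_dvd_nat (card_A_dvd (P := P))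
  have hr2 := hr.two_le
  have hd0 : 0 < d := Nat.pos_of_ne_zero fun e => by rw [hc1, e] at hAo; simp at hAo
  have hr6 : r < 6 := by
    have : r * (r * d) < 27 := by omega
    nlinarith [Nat.mul_le_mul_left (r * r) hd0]
  have hu := Nat.le_of_dvd Nat.card_pos (dvd_card_U hr (hrd.trans hd))
  rw [hc1] at hAo
  interval_cases r
  · exact absurd hAo (by simp [parity_simps])
  · have hd1 : d = 1 := by obtain ⟨k, hk⟩ := hAo; omega
    rw [hc1, hd1] at e
    have h5 : j ≤ 4 := (Nat.pow_dvd_pow_iff_le_right (by norm_num)).mp (hj ▸ e ▸ hd)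
    by_cases h6 : j = 4
    · exact ab_small hodd hi hr hYo (Or.inr (by rw [hj, h6]; norm_num))
    obtain ⟨Y', hY', hd1, hd2⟩ := cr_Wm Y hY
    have h7 := card_mul_le Y Y'
    rw [hd1, AddSubgroup.card_bot, hj, e, show j = 3 by omega] at h7
    have h8 := hodd.of_dvd_nat ((AddSubgroup.card_addSubgroup_dvd_card Y').trans card_Wm_dvd)
    have h9 : Y' = ⊥ := by
      by_contra h9
      have := (AddSubgroup.one_lt_card_iff_ne_bot Y').mpr h9
      obtain ⟨k, hk⟩ := h8
      have := Fact.mk Nat.prime_three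
      have := isAddCyclic_of_prime_card (show Nat.card Y' = 3 by omega)
      exact h9 (eq_bot_of_cyclic hY')
    rw [h9, sup_bot_eq] at hd2
    rw [hd2, AddSubgroup.card_top, e, show j = 3 by omega] at hj
    norm_num at hj
  · exact absurd hr (by norm_num)
  · obtain ⟨k, hk⟩ := hAo
    omega

omit [Finite G] [Finite V] in
theorem indep_fix {ι : Type*} [Fintype ι] (g : ι → G) (hc : ∀ i j, g i * g j = g j * g i)
    (h : ∀ i j, i ≠ j → ∀ x : V, g i • x = x → g j • x = x → x = 0) :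
    Indep fun i => fix V (g i) :=
  indep_of_sep _ fun i j hij => ⟨DistribSMul.toAddMonoidHom V (g j) - AddMonoidHom.id V,
    fun k x hx => AddSubgroup.sub_mem _ (by
      show g k • g j • x = g j • x
      rw [← mul_smul, hc, mul_smul, mem_fix.mp hx]) hx, fun x hx => sub_eq_zero.mpr hx,
    fun x hx h0 => h i j hij x hx (sub_eq_zero.mp h0)⟩

theorem card_fix_F_odd (hodd : Odd (Nat.card G)) {x : G} (hx : x ∈ P.F) (h1 : x ≠ 1) :
    Nat.card (fix V x) ^ 3 ≤ Nat.card V := by
  by_cases hU : x ∈ P.U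
  · rw [card_fix_U hU h1]; exact Nat.card_pos
  obtain ⟨f, hf, hne⟩ : ∃ f ∈ P.F, ⁅f, x⁆ ≠ 1 := by
    by_contra hc
    push Not at hc
    exact hU (P.cF _ fun f hf => (commutatorElement_eq_one_iff_mul_comm.mp (hc f hf)).symm)
  have hc := P.comm f hf x hx
  have h2 : 3 ≤ orderOf ⁅f, x⁆ := by
    obtain ⟨k, hk⟩ := hodd.of_dvd_nat (orderOf_dvd_natCard ⁅f, x⁆)
    have := orderOf_eq_one_iff.not.mpr hne
    omega
  have := indep_card (indep_fix (V := V) (fun i : Fin 3 => ⁅f, x⁆ ^ i.val * x) (fun i j => by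
    have c1 : Commute ⁅f, x⁆ x := P.cen _ hc x hx
    exact ((((Commute.refl _).pow_pow _ _).mul_right (c1.pow_left _)).mul_left
      ((c1.symm.pow_right _).mul_right (Commute.refl x))).eq) fun i j hij y hi hj => by
    refine P.fpf (⁅f, x⁆ ^ j.val * (⁅f, x⁆ ^ i.val)⁻¹) (P.U.mul_mem (P.U.pow_mem hc _)
      (P.U.inv_mem (P.U.pow_mem hc _))) (fun e => hij (Fin.ext (pow_injOn_Iio_orderOf
        (i.2.trans_le h2) (j.2.trans_le h2) (mul_inv_eq_one.mp e).symm))) y ?_
    rw [mul_smul] at hi hj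
    rw [mul_smul, inv_smul_eq_iff.mpr hi.symm, hj]) (n := Nat.card (fix V x)) fun i =>
      card_le_of_smul (f ^ i.val) fun y hy => by
        rw [mem_fix, ← comm_pow_left hf hx, commutatorElement_def, inv_mul_cancel_right, mul_smul,
          mul_smul, inv_smul_smul, mem_fix.mp hy]
  simpa using this

theorem card_fix_odd (hodd : Odd (Nat.card G)) (P : Pre G V) {g : G} (h1 : g ≠ 1) :
    Nat.card (fix V g) ^ 3 ≤ Nat.card V ^ 2 := by
  by_cases hU : g ∈ P.U
  · rw [card_fix_U hU h1]; exact Nat.one_le_pow _ _ Nat.card_pos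
  obtain ⟨f, hf, hne⟩ := exists_comm_ne hU
  have h2 := card_fix_F_odd (P := P) hodd (P.F.mul_mem (by simpa using P.Fn.conj_mem f hf g⁻¹)
    (P.F.inv_mem hf)) hne
  refine (Nat.pow_le_pow_iff_left two_ne_zero).mp ?_
  calc _ = (Nat.card (fix V g) ^ 2) ^ 3 := by ring
    _ ≤ _ := Nat.pow_le_pow_left (fix_comm g f) 3
    _ ≤ Nat.card V ^ 3 * Nat.card V := by rw [mul_pow]; gcongr
    _ = _ := by ring

theorem index_ker_le (hodd : Odd (Nat.card G)) (h1 : 1 < Nat.card (Wm P)) :
    4 * (ker G (Wm P)).index ≤ Nat.card (Wm P) ^ 2 := by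
  obtain ⟨t, ht⟩ := base_two_of_cr_odd hodd (cr_Wm (P := P))
  have hW := hodd.of_dvd_nat (card_Wm_dvd (P := P))
  have h2 : ∀ x : Wm P, 2 * Nat.card (orbit G x) ≤ Nat.card (Wm P) := fun x => by
    by_cases hx : x = 0
    · have : Subsingleton (orbit G x) := ⟨by
        rintro ⟨_, g, rfl⟩ ⟨_, g', rfl⟩
        exact Subtype.ext (by simp [hx])⟩
      have := Finite.card_le_one_iff_subsingleton.mpr this
      omega
    · have := two_mul_le (X := ⊤) (O := orbit G x) (Set.subset_univ _)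
        (by rintro ⟨g, hg⟩; exact hx ((smul_eq_zero_iff_eq _).mp hg))
        (by
          rintro _ ⟨g, rfl⟩ ⟨g', hg⟩
          refine smul_ne_neg hodd hW (g⁻¹ * g') hx ?_
          rw [mul_smul, show g' • x = -(g • x) from hg, smul_neg, inv_smul_smul])
      rw [AddSubgroup.card_top] at this
      exact (Nat.le_succ _).trans this
  have h3 := index_le_card (H := ker G (Wm P)) (X := orbit G (t 0) × orbit G (t 1))
    (fun g => (⟨g • t 0, g, rfl⟩, ⟨g • t 1, g, rfl⟩)) fun g g' h => ht _ fun i => by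
      rw [mul_smul, inv_smul_eq_iff]
      fin_cases i
      exacts [(congrArg (fun x => x.1.1) h).symm, (congrArg (fun x => x.2.1) h).symm]
  rw [Nat.card_prod] at h3
  nlinarith [h2 (t 0), h2 (t 1), Nat.mul_le_mul (h2 (t 0)) (h2 (t 1))]

theorem relIndex_C_le (hodd : Odd (Nat.card G)) (h : ¬ ds (⊤ : Subgroup G) 1 ≤ ker G (Wm P)) :
    12 * P.U.relIndex (ds (⊤ : Subgroup G) 1 ⊔ P.F) ≤ Nat.card (Wm P) ^ 3 := by
  have := S0205.result hodd
  have h1 : 1 < Nat.card (Wm P) := by
    by_contra hc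
    exact h (by rw [ker_of_card_le_two (by omega)]; exact le_top)
  have h2 := index_ker_le hodd h1
  let C := ds (⊤ : Subgroup G) 1 ⊔ P.F
  let K := ker G (Wm P)
  change 4 * K.index ≤ _ at h2
  have hC : C ≤ Subgroup.centralizer (P.U : Set G) := sup_le ds_one_le fun f hf u hu => P.cen u hu f hf
  have h3 : P.F.relIndex C = K.relIndex (C ⊔ K) := by
    rw [Subgroup.relIndex_sup_right C K, ← Subgroup.inf_relIndex_right K,
      show K ⊓ C = P.F from le_antisymm (fun g hg => mem_F (hC hg.2) hg.1) (le_inf F_le_ker le_sup_right)]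
  have h4 := Subgroup.relIndex_mul_index (show K ≤ C ⊔ K from le_sup_right)
  have h5 : (C ⊔ K).index ≠ 1 := fun e => by
    rw [Subgroup.index_eq_one] at e
    have : Nontrivial (G ⧸ K) := QuotientGroup.nontrivial_iff.mpr fun e => h (le_top.trans e.ge)
    refine (Group.IsSolvable.commutator_lt_top_of_nontrivial (G ⧸ K)).ne (eq_top_iff.mpr ?_)
    have h6 : ∀ X ≤ K, X.map (QuotientGroup.mk' K) = ⊥ := fun X hX =>
      (Subgroup.map_eq_bot_iff _).mpr (by rwa [QuotientGroup.ker_mk'])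
    have h7 := congrArg (Subgroup.map (QuotientGroup.mk' K)) e
    rw [Subgroup.map_sup, Subgroup.map_sup, h6 K le_rfl, h6 _ F_le_ker, sup_bot_eq, sup_bot_eq, map_ds,
      Subgroup.map_top_of_surjective _ (QuotientGroup.mk'_surjective K)] at h7
    exact h7.ge
  obtain ⟨k, hk⟩ := hodd.of_dvd_nat (C ⊔ K).index_dvd_card
  rw [← Subgroup.relIndex_mul_relIndex P.U P.F C P.UF le_sup_right, ← card_Wm, h3]
  have h6 : 3 * K.relIndex (C ⊔ K) ≤ K.index := by rw [← h4, mul_comm]; gcongr; omega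
  calc _ = Nat.card (Wm P) * (4 * (3 * K.relIndex (C ⊔ K))) := by ring
    _ ≤ Nat.card (Wm P) * Nat.card (Wm P) ^ 2 := by gcongr; omega
    _ = _ := by ring

end

theorem num_odd {b u h q : ℕ} (hu : 3 ≤ u) (hb : 27 ≤ b ∨ (b = 25 ∧ 5 ≤ u)) (hh : 12 * h ≤ b ^ 6)
    (hq : (2 * u + 1) ^ b ≤ q) : 1000 * h ^ 3 ≤ 729 * q ∧ (10 * (u * h)) ^ 2 < q := by
  constructor
  · have h1 : 1000 * b ^ 18 ≤ 729 * 1728 * q := by
      rcases hb with hb | ⟨rfl, hu⟩
      · obtain ⟨c, rfl⟩ := Nat.exists_eq_add_of_le hb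
        have h2 : ∀ c : ℕ, 1000 * (27 + c) ^ 18 ≤ 729 * 1728 * 7 ^ (27 + c) := fun c => by
          induction c with
          | zero => norm_num
          | succ c ih =>
            have h3 : (27 + (c + 1)) ^ 18 ≤ 7 * (27 + c) ^ 18 := by
              refine Nat.le_of_mul_le_mul_right ?_ (show 0 < 27 ^ 18 by norm_num)
              calc (27 + (c + 1)) ^ 18 * 27 ^ 18 = ((27 + (c + 1)) * 27) ^ 18 := (mul_pow _ _ _).symm
                _ ≤ (28 * (27 + c)) ^ 18 := Nat.pow_le_pow_left (by omega) 18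
                _ = 28 ^ 18 * (27 + c) ^ 18 := mul_pow _ _ _
                _ ≤ (7 * 27 ^ 18) * (27 + c) ^ 18 := Nat.mul_le_mul_right _ (by norm_num)
                _ = _ := by ring
            rw [← add_assoc 27 c 1, pow_succ 7, add_assoc]
            omega
        exact (h2 c).trans (Nat.mul_le_mul_left _ ((Nat.pow_le_pow_left (by omega) _).trans hq))
      · exact le_trans (by norm_num) (Nat.mul_le_mul_left _
          ((Nat.pow_le_pow_left (show 11 ≤ 2 * u + 1 by omega) _).trans hq))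
    have h2 := Nat.pow_le_pow_left hh 3
    rw [mul_pow, ← pow_mul] at h2
    norm_num at h2
    omega
  · have h1 := pow_gt (C := 9) (k := 12) (a := 7) (b0 := 25) (by norm_num) (by norm_num) (by norm_num)
      (show 25 ≤ b by omega)
    obtain ⟨c, rfl⟩ := Nat.exists_eq_add_of_le' (show 2 ≤ b by omega)
    have h2 := Nat.pow_le_pow_left hh 2
    rw [mul_pow, ← pow_mul] at h2
    have h3 : 4 * u ^ 2 * 7 ^ c ≤ q :=
      calc _ ≤ (2 * u + 1) ^ 2 * (2 * u + 1) ^ c :=
            Nat.mul_le_mul (by nlinarith) (Nat.pow_le_pow_left (by omega) _)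
        _ = (2 * u + 1) ^ (c + 2) := by ring
        _ ≤ _ := hq
    have h4 : 100 * h ^ 2 < 4 * 7 ^ c := by
      rw [pow_add] at h1
      norm_num at h1 h2
      omega
    calc _ = u ^ 2 * (100 * h ^ 2) := by ring
      _ < u ^ 2 * (4 * 7 ^ c) := by gcongr
      _ = 4 * u ^ 2 * 7 ^ c := by ring
      _ ≤ _ := h3

theorem prim_ab [Finite G] [Finite V] (hodd : Odd (Nat.card G)) (hV : Odd (Nat.card V))
    {P : Pre G V} (hP : P.IsMax) : ∃ v : V, v ≠ 0 ∧ ds (stabilizer G v) 1 ≤ ker G V := by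
  by_cases h : ds (⊤ : Subgroup G) 1 ≤ ker G (Wm P)
  · obtain ⟨w, hw, hw'⟩ := exists_reg hP (by
      obtain ⟨k, hk⟩ := hodd.of_dvd_nat (card_A_dvd (P := P))
      omega)
    exact ⟨w, hw, ds_reg (ds_le_F le_rfl h) hw'⟩
  have hb := big_of_not_ab hodd hP h
  have e := sizes_odd hodd hP
  have h1 := relIndex_C_le hodd h
  have hu := three_le_card_U (P := P) hodd (by rw [e]; rcases hb with hb | hb <;> nlinarith [hb])
  rw [e, ← pow_mul] at h1
  obtain ⟨n1, n2⟩ := num_odd hu hb h1 (pow_le_card (card_fix_B_odd hodd hV))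
  let C := ds (⊤ : Subgroup G) 1 ⊔ P.F
  have hUC : P.U ≤ C := P.UF.trans le_sup_right
  have hC : Nat.card C = Nat.card P.U * P.U.relIndex C := by
    have := Subgroup.relIndex_mul_relIndex ⊥ P.U C bot_le hUC
    simpa using this.symm
  have h0 : 0 < P.U.relIndex C := Nat.pos_of_ne_zero Subgroup.index_ne_zero_of_finite
  change 1000 * P.U.relIndex C ^ 3 ≤ _ at n1
  change (10 * (_ * P.U.relIndex C)) ^ 2 < _ at n2
  let R1 : Set G := {g | g ∈ C ∧ g ≠ 1 ∧ Nat.card V < Nat.card (fix V g) ^ 2}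
  let R2 : Set G := {g | g ∈ C ∧ Nat.card (fix V g) ^ 2 ≤ Nat.card V}
  have k1 : R1.ncard ≤ P.U.relIndex C :=
    Nat.card_le_card_of_injective (fun g : R1 => ((⟨g, g.2.1⟩ : C) : C ⧸ P.U.subgroupOf C))
      fun g g' hg => by
        by_contra hne
        have h2 : (g : G)⁻¹ * g' ∈ P.U := (QuotientGroup.eq (s := P.U.subgroupOf C)).mp hg
        have h3 := card_mul_le (fix V (g : G)) (fix V (g' : G))
        rw [show fix V (g : G) ⊓ fix V (g' : G) = ⊥ from eq_bot_iff.mpr fun x hx => P.fpf _ h2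
          (fun e => hne (Subtype.ext (inv_mul_eq_one.mp e))) x (by
            rw [mul_smul, mem_fix.mp hx.2, inv_smul_eq_iff, mem_fix.mp hx.1]),
          AddSubgroup.card_bot, mul_one] at h3
        have h4 := Nat.pow_le_pow_left h3 2
        have h5 := Nat.mul_lt_mul'' g.2.2.2 g'.2.2.2
        rw [mul_pow, sq (Nat.card V)] at h4
        omega
  have k2 : R2.ncard ≤ Nat.card P.U * P.U.relIndex C :=
    hC ▸ Set.ncard_le_ncard (t := (C : Set G)) fun g hg => hg.1
  generalize P.U.relIndex C = H at *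
  have k3 := ncard_nonreg (V := V) R1 (9 * Nat.card V / (10 * H)) fun g hg => by
    rw [Nat.le_div_iff_mul_le (by omega)]
    refine (Nat.pow_le_pow_iff_left three_ne_zero).mp ?_
    calc _ = Nat.card (fix V g) ^ 3 * (1000 * H ^ 3) := by ring
      _ ≤ Nat.card V ^ 2 * (729 * Nat.card V) := Nat.mul_le_mul (card_fix_odd hodd P hg.2.1) n1
      _ = _ := by ring
  have k4 := ncard_nonreg (V := V) R2 ((Nat.card V - 1) / (10 * (Nat.card P.U * H))) fun g hg => by
    rw [Nat.le_div_iff_mul_le (by positivity)]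
    refine Nat.le_sub_one_of_lt ((Nat.pow_lt_pow_iff_left two_ne_zero).mp ?_)
    rw [mul_pow, sq (Nat.card V)]
    exact lt_of_le_of_lt (Nat.mul_le_mul_right _ hg.2) (Nat.mul_lt_mul_of_pos_left n2 Nat.card_pos)
  have k5 := Nat.mul_div_le (9 * Nat.card V) (10 * H)
  have k6 := Nat.mul_div_le (Nat.card V - 1) (10 * (Nat.card P.U * H))
  have k7 := Nat.mul_le_mul_right (9 * Nat.card V / (10 * H)) k1
  have k8 := Nat.mul_le_mul_right ((Nat.card V - 1) / (10 * (Nat.card P.U * H))) k2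
  have k9 := Set.ncard_union_le {x : V | ∃ g ∈ R1, g • x = x} {x : V | ∃ g ∈ R2, g • x = x}
  have k0 : 0 < Nat.card V := Nat.card_pos
  obtain ⟨v, hv⟩ : ∃ v, v ∉ {x : V | ∃ g ∈ R1, g • x = x} ∪ {x : V | ∃ g ∈ R2, g • x = x} := by
    by_contra hc
    push Not at hc
    rw [Set.eq_univ_of_forall hc, Set.ncard_univ] at k9
    rw [mul_assoc] at k5 k6
    omega
  have key : ∀ g ∈ C, g • v = v → g = 1 := fun g hg hgv => by
    by_contra hg1
    by_cases h2 : Nat.card V < Nat.card (fix V g) ^ 2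
    · exact hv (Or.inl ⟨g, ⟨hg, hg1, h2⟩, hgv⟩)
    · exact hv (Or.inr ⟨g, ⟨hg, not_lt.mp h2⟩, hgv⟩)
  refine ⟨v, fun e => ?_, fun g hg x => ?_⟩
  · have : P.U = ⊥ := eq_bot_iff.mpr fun g hg => key g (hUC hg) (by rw [e, smul_zero])
    rw [this, Subgroup.card_bot] at hu
    omega
  · rw [key g (Subgroup.mem_sup_left (ds_mono le_top 1 hg)) (ds_le _ _ hg), one_smul]

theorem irr_ab (n : ℕ) : ∀ (G V : Type u) [Group G] [AddCommGroup V] [DistribMulAction G V]
    [Finite V] [Finite G] [Nontrivial V], Odd (Nat.card G) → Odd (Nat.card V) → Nat.card V = n →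
    Irr G V → Many G V 2 1 := by
  induction n using Nat.strong_induction_on with
  | _ n ih =>
  intro G0 V _ _ _ _ _ _ hodd0 hV hn hirr0
  have hirr := hirr0.im
  have hodd : Odd (Nat.card (Im G0 V)) := hodd0.of_dvd_nat card_im_dvd
  have := S0205.result hodd
  refine Many.of_im ?_
  obtain ⟨U, hUn, hUc, hmax⟩ := exists_max_abelian (G := Im G0 V)
  rcases fpf_or_imprim hirr U hUc with hf | ⟨M, _, W, hM, hW, hW0⟩
  · obtain ⟨P0⟩ := exists_prim U hUn hUc hmax hf
    obtain ⟨v, hv, h⟩ := prim_ab (P := P0.toPre) hodd hV P0.vmax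
    exact many_two h ((ds_mono (fun g hg => neg_injective ((smul_neg g v).symm.trans hg)) 1).trans h)
      fun g => smul_ne_neg hodd hV g hv
  · have : Nontrivial (Im G0 V ⧸ M) := QuotientGroup.nontrivial_iff.mpr hM.1
    obtain ⟨A, _, _, e, hA, h0, hm, hn'⟩ := exists_affine M hM
    have : Finite A := Finite.of_equiv _ e.symm
    obtain ⟨t, ht⟩ := base_two_of_irr_odd (hodd.of_dvd_nat (Subgroup.card_subgroup_dvd_card M)) hA
    obtain ⟨χ, hχ⟩ := colouring_odd hodd h0 hm hn' ht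
    let _ := subAct _ _ (hW.stab_inv ((1 : Im G0 V) : Im G0 V ⧸ M))
    have := (AddSubgroup.nontrivial_iff_ne_bot _).mpr hW0
    refine wreath (c := 0) hW _ (ih _ (hn ▸ hW.card_block_lt _ hW0) _ _
      (hodd.of_dvd_nat (Subgroup.card_subgroup_dvd_card _))
      (hV.of_dvd_nat (AddSubgroup.card_addSubgroup_dvd_card _)) rfl (hW.irr_block hirr _))
      ⟨fun i ω => i + finTwoEquiv.symm (χ ω), fun i g hg => hχ g fun ω =>
        finTwoEquiv.symm.injective (add_left_cancel (hg ω)), fun i i' g hg => ?_⟩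
    have h1 := smul_eq_of_odd hodd (hχ (g * g) (fun ω => finTwoEquiv.symm.injective (by
      have key : ∀ i i' a b c : Fin 2, i' + b = i + a → i' + c = i + b → c = a := by decide
      rw [mul_smul]
      exact key _ _ _ _ _ (hg ω) (hg (g • ω)))) ((1 : Im G0 V) : Im G0 V ⧸ M) |>.symm.trans (mul_smul _ _ _) |>.symm)
    have h2 := hg ((1 : Im G0 V) : Im G0 V ⧸ M)
    rw [h1] at h2
    exact (add_right_cancel h2).symm

theorem exists_ab [Finite G] [Finite V] (hodd : Odd (Nat.card G)) (hV : Odd (Nat.card V))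
    (hcr : CR G V) : ∃ v : V, ds (stabilizer G v) 1 ≤ ker G V :=
  exists_of_cr hcr (ds · 1) (fun _ _ h => ds_mono h 1) fun Y hY h0 hi => by
    let _ := invAct hY
    have := (AddSubgroup.nontrivial_iff_ne_bot _).mpr h0
    obtain ⟨T, hT, -⟩ := (irr_ab _ (Im G Y) Y (hodd.of_dvd_nat card_im_dvd)
      (hV.of_dvd_nat (AddSubgroup.card_addSubgroup_dvd_card _)) rfl hi.im).of_im
    exact ⟨T 0, (T 0).2, fun g hg x hx => congrArg Subtype.val
      (hT 0 (ds_mono (fun g hg => Subtype.ext hg) 1 hg) ⟨x, hx⟩)⟩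

end Cfsg.Agent.FG.MW
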