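import Mathlib
import Cfsg.Prelude.Def_OddOrderLocal

/-!
Metacyclic `p`-groups for odd `p`, part A: geometric sums, sublattices of `ℤ × ℤ`, and the
coordinate map `E : ℤ × ℤ → G` with `E u * E v = E (u + (1 + ρ u₂) • v)`.
-/

namespace Cfsg.Agent.FG.MC

open Subgroup

/-- `geo r k = 1 + r + ⋯ + r ^ (k - 1)`. -/
def geo (r : ℤ) (k : ℕ) : ℤ := ∑ i ∈ Finset.range k, r ^ i

theorem geo_zero (r : ℤ) : geo r 0 = 0 := by simp [geo]

theorem geo_succ (r : ℤ) (k : ℕ) : geo r (k + 1) = 1 + r * geo r k := by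
  simp only [geo]
  rw [Finset.sum_range_succ', Finset.mul_sum]
  simp [pow_succ', add_comm]

theorem geo_mul (r : ℤ) (k : ℕ) : (r - 1) * geo r k = r ^ k - 1 := by
  simp only [geo]; exact mul_geom_sum r k

theorem geo_add (r : ℤ) (j l : ℕ) : geo r (j + l) = geo r j + r ^ j * geo r l := by
  simp only [geo]
  rw [Finset.sum_range_add, Finset.mul_sum]
  simp [pow_add]

theorem pow_dvd_geo_iff {p : ℕ} (hp : p.Prime) (hp2 : p ≠ 2) {r : ℤ} (hr : (p : ℤ) ∣ r - 1)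
    (s k : ℕ) : (p : ℤ) ^ s ∣ geo r k ↔ p ^ s ∣ k := by
  by_cases h1 : r = 1
  · subst h1
    simp only [geo, one_pow, Finset.sum_const, Finset.card_range, nsmul_eq_mul, mul_one]
    exact_mod_cast Iff.rfl
  have hodd : Odd p := hp.odd_of_ne_two hp2
  have hx : ¬ (p : ℤ) ∣ r := by
    intro h
    have : (p : ℤ) ∣ 1 := by simpa using dvd_sub h hr
    exact hp.one_lt.ne' (by exact_mod_cast Int.eq_one_of_dvd_one (by positivity) this)
  have h := Int.emultiplicity_pow_sub_pow hp hodd hr hx k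
  rw [one_pow, ← geo_mul, emultiplicity_mul (Nat.prime_iff_prime_int.mp hp)] at h
  have hfin : emultiplicity (p : ℤ) (r - 1) ≠ ⊤ := by
    rw [← finiteMultiplicity_iff_emultiplicity_ne_top, Int.finiteMultiplicity_iff]
    exact ⟨by simpa using hp.one_lt.ne', sub_ne_zero.mpr h1⟩
  have h2 : emultiplicity (p : ℤ) (geo r k) = emultiplicity p k :=
    (WithTop.add_left_cancel hfin h)
  rw [pow_dvd_iff_le_emultiplicity, pow_dvd_iff_le_emultiplicity, h2]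

theorem coprime_of_dvd_sub_one {p : ℕ} {r : ℤ} (hr : (p : ℤ) ∣ r - 1) (M : ℕ) :
    IsCoprime r ((p : ℤ) ^ M) := by
  apply IsCoprime.pow_right
  obtain ⟨c, hc⟩ := hr
  exact ⟨1, -c, by linear_combination hc⟩

theorem geo_modEq_iff {p : ℕ} (hp : p.Prime) (hp2 : p ≠ 2) {r : ℤ} (hr : (p : ℤ) ∣ r - 1)
    (s j l : ℕ) : (p : ℤ) ^ s ∣ geo r l - geo r j ↔ j ≡ l [MOD p ^ s] := by
  wlog h : j ≤ l generalizing j l
  · rw [← neg_sub, dvd_neg, this l j (le_of_not_ge h)]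
    exact ⟨Nat.ModEq.symm, Nat.ModEq.symm⟩
  obtain ⟨d, rfl⟩ := Nat.exists_eq_add_of_le h
  rw [geo_add, add_sub_cancel_left, Nat.modEq_iff_dvd' h, Nat.add_sub_cancel_left,
    ← pow_dvd_geo_iff hp hp2 hr]
  refine ⟨fun h => ?_, fun h => h.mul_left _⟩
  exact ((coprime_of_dvd_sub_one hr s).pow_left (m := j)).symm.dvd_of_dvd_mul_left h

theorem exists_geo {p : ℕ} (hp : p.Prime) (hp2 : p ≠ 2) {r : ℤ} (hr : (p : ℤ) ∣ r - 1)
    (s : ℕ) (c : ℤ) : ∃ k : ℕ, (p : ℤ) ^ s ∣ geo r k - c := by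
  haveI : NeZero (p ^ s) := ⟨pow_ne_zero _ hp.ne_zero⟩
  let f : ZMod (p ^ s) → ZMod (p ^ s) := fun x => (geo r x.val : ℤ)
  have hf : Function.Injective f := by
    intro x y hxy
    have h1 : ((p ^ s : ℕ) : ℤ) ∣ geo r y.val - geo r x.val :=
      (ZMod.intCast_eq_intCast_iff_dvd_sub _ _ _).mp hxy
    push_cast at h1
    rw [geo_modEq_iff hp hp2 hr] at h1
    exact ZMod.val_injective _ (Nat.ModEq.eq_of_lt_of_lt h1 (ZMod.val_lt x) (ZMod.val_lt y))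
  obtain ⟨x, hx⟩ := (Finite.injective_iff_surjective.mp hf) (c : ZMod (p ^ s))
  refine ⟨x.val, ?_⟩
  have h1 : ((p ^ s : ℕ) : ℤ) ∣ geo r x.val - c :=
    (ZMod.intCast_eq_intCast_iff_dvd_sub _ _ _).mp hx.symm
  exact_mod_cast h1

/-! ### Sublattices of `ℤ × ℤ` -/

theorem mem_iff_index_dvd (V : AddSubgroup ℤ) (x : ℤ) : x ∈ V ↔ (V.index : ℤ) ∣ x := by
  obtain ⟨a, rfl⟩ := Int.subgroup_cyclic V
  rw [← AddSubgroup.zmultiples_eq_closure, Int.index_zmultiples, Int.mem_zmultiples_iff,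
    Int.natCast_natAbs, abs_dvd]

theorem index_eq_of_mem_iff {V : AddSubgroup ℤ} {d : ℕ} (h : ∀ x, x ∈ V ↔ (d : ℤ) ∣ x) :
    V.index = d := by
  apply Nat.dvd_antisymm
  · exact_mod_cast (mem_iff_index_dvd V d).mp ((h d).mpr dvd_rfl)
  · exact_mod_cast (h V.index).mp ((mem_iff_index_dvd V _).mpr dvd_rfl)

theorem index_eq_mul (U : AddSubgroup (ℤ × ℤ)) :
    U.index = (U.comap (AddMonoidHom.inl ℤ ℤ)).index * (U.map (AddMonoidHom.snd ℤ ℤ)).index := by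
  rw [AddSubgroup.index_map, AddSubgroup.index_comap,
    AddMonoidHom.range_eq_top.mpr (fun x => ⟨(0, x), rfl⟩), AddSubgroup.index_top, mul_one]
  have h : (AddMonoidHom.inl ℤ ℤ).range = (AddMonoidHom.snd ℤ ℤ).ker := by
    ext ⟨x, y⟩
    simp [eq_comm, AddSubgroup.mem_prod]
  rw [h, ← AddSubgroup.relIndex_sup_left, AddSubgroup.relIndex_mul_index le_sup_left]

theorem index_eq_of {U : AddSubgroup (ℤ × ℤ)} {d₁ d₂ : ℕ}
    (h₁ : ∀ x : ℤ, (x, (0 : ℤ)) ∈ U ↔ (d₁ : ℤ) ∣ x)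
    (h₂ : ∀ y : ℤ, (∃ x : ℤ, (x, y) ∈ U) ↔ (d₂ : ℤ) ∣ y) : U.index = d₁ * d₂ := by
  rw [index_eq_mul]
  congr 1
  · exact index_eq_of_mem_iff fun x => by simpa using h₁ x
  · refine index_eq_of_mem_iff fun y => ?_
    rw [← h₂]
    simp

/-- Hermite normal form of a sublattice. -/
theorem hermite (U : AddSubgroup (ℤ × ℤ)) : ∃ (d₁ d₂ : ℕ) (e : ℤ), U.index = d₁ * d₂ ∧
    ((d₁ : ℤ), (0 : ℤ)) ∈ U ∧ (e, (d₂ : ℤ)) ∈ U ∧
    ∀ w ∈ U, ∃ s t : ℤ, w = (s * d₁ + t * e, t * d₂) := by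
  have h2 : ((U.map (AddMonoidHom.snd ℤ ℤ)).index : ℤ) ∈ U.map (AddMonoidHom.snd ℤ ℤ) :=
    (mem_iff_index_dvd _ _).mpr dvd_rfl
  obtain ⟨⟨e, d⟩, he, hd⟩ := h2
  simp only [AddMonoidHom.coe_snd] at hd
  subst hd
  refine ⟨_, _, e, index_eq_mul U, ?_, he, ?_⟩
  · have := (mem_iff_index_dvd (U.comap (AddMonoidHom.inl ℤ ℤ)) _).mpr dvd_rfl
    simpa using this
  · rintro ⟨x, y⟩ hw
    obtain ⟨t, ht⟩ := (mem_iff_index_dvd (U.map (AddMonoidHom.snd ℤ ℤ)) y).mp ⟨_, hw, rfl⟩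
    have h3 : x - t * e ∈ U.comap (AddMonoidHom.inl ℤ ℤ) := by
      have := U.sub_mem hw (U.zsmul_mem he t)
      rw [AddSubgroup.mem_comap]
      convert this using 1
      ext
      · simp
      · simp [ht, mul_comm]
    obtain ⟨s, hs⟩ := (mem_iff_index_dvd _ _).mp h3
    refine ⟨s, t, ?_⟩
    ext
    · simp only; linear_combination hs
    · simp only; linear_combination ht

/-! ### Coordinates on a metacyclic `p`-group -/

/-- The determinant pairing on `ℤ × ℤ`. -/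
def det (u v : ℤ × ℤ) : ℤ := u.2 * v.1 - v.2 * u.1

/-- Coordinates on a metacyclic `p`-group, `p` odd. -/
structure Coord (p : ℕ) (G : Type*) [Group G] where
  /-- the coordinate map -/
  E : ℤ × ℤ → G
  /-- `r - 1` where `b a b⁻¹ = a ^ r` -/
  ρ : ℤ
  /-- `p ^ M` is a period of `E` -/
  M : ℕ
  dvd_ρ : (p : ℤ) ∣ ρ
  surj : Function.Surjective E
  mul : ∀ u v, E u * E v = E (u + (1 + ρ * u.2) • v)
  per : ∀ u w, E (u + ((p : ℤ) ^ M) • w) = E u
  comm : ∀ u v, E u * E v * (E v * E u)⁻¹ = E (ρ, 0) ^ det u v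

theorem exists_coord {G : Type*} [Group G] [Finite G] {p : ℕ} [hp : Fact p.Prime] (hp2 : p ≠ 2)
    (hG : IsPGroup p G) (hmc : Cfsg.IsMetacyclic G) : Nonempty (Coord p G) := by
  obtain ⟨N, hN, hNc, hQc⟩ := hmc
  obtain ⟨M, hM⟩ := IsPGroup.iff_card.mp hG
  obtain ⟨⟨a, haN⟩, ha⟩ := hNc.exists_generator
  obtain ⟨bq, hb⟩ := hQc.exists_monoid_generator
  obtain ⟨b, rfl⟩ := QuotientGroup.mk_surjective bq
  have ha' : ∀ x ∈ N, ∃ i : ℤ, a ^ i = x := by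
    intro x hx
    obtain ⟨i, hi⟩ := ha ⟨x, hx⟩
    exact ⟨i, by simpa using congrArg Subtype.val hi⟩
  have hpow : ∀ g : G, g ^ p ^ M = 1 := fun g => by rw [← hM]; exact pow_card_eq_one'
  have hzpow : ∀ (g : G) (i j : ℤ), (p : ℤ) ^ M ∣ j - i → g ^ i = g ^ j := by
    rintro g i j ⟨c, hc⟩
    have : j = i + (p ^ M : ℕ) * c := by push_cast; linear_combination hc
    rw [this, zpow_add, zpow_mul, zpow_natCast, hpow, one_zpow, mul_one]
  -- the exponent `r`, with `r ≡ 1 (mod p)`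
  obtain ⟨r, hr, hrp⟩ : ∃ r : ℤ, a ^ r = b * a * b⁻¹ ∧ (p : ℤ) ∣ r - 1 := by
    by_cases h1 : a = 1
    · exact ⟨1, by simp [h1], by simp⟩
    obtain ⟨r, hr⟩ := ha' _ (hN.conj_mem a haN b)
    refine ⟨r, hr, ?_⟩
    have hj : ∀ j : ℕ, a ^ (r ^ j) = b ^ j * a * (b ^ j)⁻¹ := by
      intro j
      induction j with
      | zero => simp
      | succ j ih =>
        rw [pow_succ' r, zpow_mul, hr, conj_zpow, ih, pow_succ' b]
        group
    have h2 : a ^ (r ^ p ^ M - 1) = 1 := by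
      rw [zpow_sub, hj, hpow]; simp
    have h3 : (p : ℤ) ∣ r ^ p ^ M - 1 := by
      have h4 := orderOf_dvd_iff_zpow_eq_one.mpr h2
      obtain ⟨k, hk⟩ := (IsPGroup.iff_orderOf.mp hG) a
      have hk0 : k ≠ 0 := by
        rintro rfl
        exact h1 (by simpa using hk)
      refine Dvd.dvd.trans ?_ h4
      rw [hk]; push_cast
      exact dvd_pow_self _ hk0
    have h5 : ((r : ZMod p)) ^ p ^ M = r := ZMod.pow_card_pow _
    rw [← ZMod.intCast_zmod_eq_zero_iff_dvd] at h3 ⊢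
    push_cast at h3 ⊢
    rwa [h5] at h3
  have hj : ∀ (j : ℕ) (k : ℤ), b ^ j * a ^ k = a ^ (k * r ^ j) * b ^ j := by
    intro j
    induction j with
    | zero => simp
    | succ j ih =>
      intro k
      have : b * a ^ (k * r ^ j) = a ^ (k * r ^ (j + 1)) * b := by
        rw [pow_succ r, ← mul_assoc k, mul_comm _ r, zpow_mul a r, hr, conj_zpow]
        group
      rw [pow_succ' b, mul_assoc, ih, ← mul_assoc, this, mul_assoc]
  choose σ hσ using exists_geo hp.out hp2 hrp M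
  have hbσ : ∀ (c : ℤ) (j : ℕ), (p : ℤ) ^ M ∣ geo r j - c → b ^ σ c = b ^ j := by
    intro c j h
    have h1 : σ c ≡ j [MOD p ^ M] := by
      rw [← geo_modEq_iff hp.out hp2 hrp]
      simpa using dvd_sub h (hσ c)
    rw [← zpow_natCast, ← zpow_natCast]
    apply hzpow
    exact_mod_cast h1.dvd
  have hrσ : ∀ c : ℤ, (p : ℤ) ^ M ∣ r ^ σ c - (1 + (r - 1) * c) := by
    intro c
    have := (hσ c).mul_left (r - 1)
    have h1 : r ^ σ c - (1 + (r - 1) * c) = (r - 1) * (geo r (σ c) - c) := by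
      linear_combination (-1 : ℤ) * geo_mul r (σ c)
    rwa [h1]
  have hmul : ∀ u v : ℤ × ℤ, a ^ u.1 * b ^ σ u.2 * (a ^ v.1 * b ^ σ v.2) =
      a ^ (u.1 + (1 + (r - 1) * u.2) * v.1) * b ^ σ (u.2 + (1 + (r - 1) * u.2) * v.2) := by
    rintro ⟨i, c⟩ ⟨k, d⟩
    simp only
    rw [mul_assoc, ← mul_assoc (b ^ σ c), hj, mul_assoc, ← mul_assoc, ← zpow_add, ← pow_add,
      hbσ (c + (1 + (r - 1) * c) * d) (σ c + σ d)]
    · congr 1
      apply hzpow
      have := (hrσ c).mul_left (-k)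
      exact this.trans (dvd_of_eq (by ring))
    · rw [geo_add]
      have := ((hσ c).add ((hσ d).mul_left (r ^ σ c))).add ((hrσ c).mul_left d)
      exact this.trans (dvd_of_eq (by ring))
  refine ⟨⟨fun u => a ^ u.1 * b ^ σ u.2, r - 1, M, hrp, ?_, ?_, ?_, ?_⟩⟩
  · intro g
    obtain ⟨j, hj'⟩ := hb (g : G ⧸ N)
    have h1 : g * (b ^ j)⁻¹ ∈ N := by
      have h2 : ((b ^ j : G) : G ⧸ N) = g := by simpa using hj'
      rw [← div_eq_mul_inv, ← QuotientGroup.eq_iff_div_mem]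
      exact h2.symm
    obtain ⟨i, hi⟩ := ha' _ h1
    refine ⟨(i, geo r j), ?_⟩
    simp only
    rw [hbσ _ j (by simp), hi]
    simp
  · intro u v
    simpa using hmul u v
  · rintro ⟨i, c⟩ ⟨k, d⟩
    simp only [Prod.smul_mk, smul_eq_mul, Prod.mk_add_mk]
    congr 1
    · apply hzpow
      simp
    · apply hbσ
      have := (hσ c).sub (dvd_mul_right ((p : ℤ) ^ M) d)
      exact this.trans (dvd_of_eq (by ring))
  · rintro ⟨i, c⟩ ⟨k, d⟩
    have h0 : b ^ σ 0 = 1 := by rw [hbσ 0 0 (by simp [geo_zero])]; simp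
    rw [hmul, hmul]
    simp only [det, h0, mul_one]
    have : c + (1 + (r - 1) * c) * d = d + (1 + (r - 1) * d) * c := by ring
    rw [this, mul_inv_rev, mul_assoc, mul_inv_cancel_left, ← zpow_neg, ← zpow_add, ← zpow_mul]
    congr 1
    ring

end Cfsg.Agent.FG.MC
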