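import Cfsg.Agent.FG.MetacyclicA

/-!
Metacyclic `p`-groups for odd `p`, part B: subgroups correspond to sublattices of `ℤ × ℤ`.
-/

namespace Cfsg.Agent.FG.MC

open Subgroup
open scoped commutatorElement

namespace Coord

variable {G : Type*} [Group G] {p : ℕ} (D : Coord p G)

theorem E_zero : D.E 0 = 1 := by
  have := D.mul 0 0
  simpa using this

theorem E_congr {u v : ℤ × ℤ} (w : ℤ × ℤ) (h : v = u + ((p : ℤ) ^ D.M) • w) : D.E v = D.E u := by
  rw [h, D.per]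

theorem dvd_chi (u : ℤ × ℤ) : (p : ℤ) ∣ (1 + D.ρ * u.2) - 1 := by
  simpa using D.dvd_ρ.mul_right _

theorem E_pow (u : ℤ × ℤ) (k : ℕ) : D.E u ^ k = D.E (geo (1 + D.ρ * u.2) k • u) := by
  induction k with
  | zero => simp [geo_zero, E_zero]
  | succ k ih => rw [pow_succ', ih, D.mul, geo_succ, add_smul 1 (_ * geo _ _), one_smul, mul_smul]

/-- Any `w` is `E u * E (c • (w - u))`. -/
theorem exists_unit (u : ℤ × ℤ) : ∃ c : ℤ, IsCoprime c ((p : ℤ) ^ D.M) ∧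
    ∀ v, D.E u * D.E (c • v) = D.E (u + v) := by
  obtain ⟨c, d, hcd⟩ := coprime_of_dvd_sub_one (D.dvd_chi u) D.M
  refine ⟨c, ⟨1 + D.ρ * u.2, d, by linear_combination hcd⟩, fun v => ?_⟩
  rw [D.mul]
  refine D.E_congr (-d • v) ?_
  rw [smul_smul, smul_smul, add_assoc]
  congr 1
  conv_rhs => rw [← one_smul ℤ v, smul_smul, ← add_smul]
  congr 1
  linear_combination hcd

variable [hp : Fact p.Prime]

theorem exists_pow_eq (hp2 : p ≠ 2) (u : ℤ × ℤ) (c : ℤ) :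
    ∃ k : ℕ, (p : ℤ) ^ D.M ∣ geo (1 + D.ρ * u.2) k - c ∧ D.E (c • u) = D.E u ^ k := by
  obtain ⟨k, hk⟩ := exists_geo hp.out hp2 (D.dvd_chi u) D.M c
  refine ⟨k, hk, ?_⟩
  obtain ⟨w, hw⟩ := hk
  rw [E_pow]
  symm
  refine D.E_congr (w • u) ?_
  rw [smul_smul, ← add_smul]
  congr 1
  linear_combination hw

theorem smul_mem (hp2 : p ≠ 2) {H : Subgroup G} {u : ℤ × ℤ} (hu : D.E u ∈ H) (c : ℤ) :
    D.E (c • u) ∈ H := by
  obtain ⟨k, -, hk⟩ := D.exists_pow_eq hp2 u c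
  rw [hk]
  exact H.pow_mem hu k

/-- The sublattice of `ℤ × ℤ` attached to a subgroup. -/
def lat (hp2 : p ≠ 2) (H : Subgroup G) : AddSubgroup (ℤ × ℤ) where
  carrier := {u | D.E u ∈ H}
  zero_mem' := by simp [E_zero]
  add_mem' := by
    intro u v hu hv
    obtain ⟨c, -, hc⟩ := D.exists_unit u
    have := H.mul_mem hu (D.smul_mem hp2 hv c)
    rwa [hc] at this
  neg_mem' := by
    intro u hu
    simpa using D.smul_mem hp2 hu (-1)

variable (hp2 : p ≠ 2)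

theorem mem_lat {H : Subgroup G} {u : ℤ × ℤ} : u ∈ D.lat hp2 H ↔ D.E u ∈ H := Iff.rfl

theorem lat_mono {H K : Subgroup G} (h : H ≤ K) : D.lat hp2 H ≤ D.lat hp2 K :=
  fun _ hu => h hu

theorem le_of_lat_le {H K : Subgroup G} (h : D.lat hp2 H ≤ D.lat hp2 K) : H ≤ K := by
  intro g hg
  obtain ⟨u, rfl⟩ := D.surj g
  exact h hg

theorem per_mem_lat (H : Subgroup G) (w : ℤ × ℤ) : ((p : ℤ) ^ D.M) • w ∈ D.lat hp2 H := by
  rw [mem_lat, D.E_congr w (zero_add _).symm, E_zero]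
  exact H.one_mem

theorem inv_mul_mem_iff {H : Subgroup G} (u v : ℤ × ℤ) :
    (D.E u)⁻¹ * D.E v ∈ H ↔ -u + v ∈ D.lat hp2 H := by
  obtain ⟨c, ⟨x, y, hxy⟩, hc⟩ := D.exists_unit u
  have h1 : D.E v = D.E u * D.E (c • (-u + v)) := by rw [hc]; simp
  rw [h1, inv_mul_cancel_left, ← D.mem_lat hp2]
  refine ⟨fun h => ?_, fun h => AddSubgroup.zsmul_mem _ h c⟩
  have h2 := (D.lat hp2 H).add_mem (AddSubgroup.zsmul_mem _ h x)
    (D.per_mem_lat hp2 H (y • (-u + v)))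
  rw [smul_smul, smul_smul, ← add_smul, mul_comm _ y, hxy, one_smul] at h2
  exact h2

theorem index_lat (H : Subgroup G) : (D.lat hp2 H).index = H.index := by
  let f : (ℤ × ℤ) ⧸ D.lat hp2 H → G ⧸ H :=
    Quotient.map' D.E (fun u v h => by
      rw [QuotientGroup.leftRel_apply, D.inv_mul_mem_iff hp2]
      exact QuotientAddGroup.leftRel_apply.mp h)
  refine Nat.card_congr (Equiv.ofBijective f ⟨?_, ?_⟩)
  · rintro ⟨u⟩ ⟨v⟩ h
    have h1 : (D.E u : G ⧸ H) = D.E v := h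
    rw [QuotientGroup.eq, D.inv_mul_mem_iff hp2] at h1
    exact QuotientAddGroup.eq.mpr h1
  · rintro ⟨g⟩
    obtain ⟨u, rfl⟩ := D.surj g
    exact ⟨(u : (ℤ × ℤ) ⧸ D.lat hp2 H), rfl⟩

theorem E_eq_iff (u v : ℤ × ℤ) : D.E u = D.E v ↔ -u + v ∈ D.lat hp2 ⊥ := by
  rw [← D.inv_mul_mem_iff hp2, mem_bot, inv_mul_eq_one]

/-- The subgroup attached to a sublattice. -/
def grp (U : AddSubgroup (ℤ × ℤ)) : Subgroup G where
  carrier := D.E '' U
  one_mem' := ⟨0, U.zero_mem, D.E_zero⟩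
  mul_mem' := by
    rintro _ _ ⟨u, hu, rfl⟩ ⟨v, hv, rfl⟩
    exact ⟨_, U.add_mem hu (U.zsmul_mem hv _), (D.mul u v).symm⟩
  inv_mem' := by
    rintro _ ⟨u, hu, rfl⟩
    obtain ⟨c, -, hc⟩ := D.exists_unit u
    refine ⟨c • (-u), U.zsmul_mem (U.neg_mem hu) c, ?_⟩
    rw [eq_inv_iff_mul_eq_one, mul_eq_one_comm, hc]
    simp [E_zero]

theorem mem_lat_grp {U : AddSubgroup (ℤ × ℤ)} (hU : D.lat hp2 ⊥ ≤ U) {w : ℤ × ℤ} :
    w ∈ D.lat hp2 (D.grp U) ↔ w ∈ U := by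
  refine ⟨?_, fun h => ⟨w, h, rfl⟩⟩
  rintro ⟨u, hu, h⟩
  have := U.add_mem hu (hU ((D.E_eq_iff hp2 u w).mp h))
  simpa using this

omit hp in
theorem commutator_eq : _root_.commutator G = zpowers (D.E (D.ρ, 0)) := by
  apply le_antisymm
  · rw [commutator_eq_closure, closure_le]
    rintro _ ⟨g, h, rfl⟩
    obtain ⟨u, rfl⟩ := D.surj g
    obtain ⟨v, rfl⟩ := D.surj h
    refine ⟨det u v, ?_⟩
    simp only
    rw [← D.comm, commutatorElement_def]
    group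
  · rw [zpowers_le]
    have := D.comm (0, 1) (1, 0)
    simp only [det, mul_one, mul_zero, sub_zero, zpow_one] at this
    rw [← this]
    have h2 := commutator_mem_commutator (mem_top (D.E (0, 1))) (mem_top (D.E (1, 0)))
    rw [commutatorElement_def] at h2
    rw [mul_inv_rev, ← mul_assoc]
    exact h2

omit hp in
theorem comm_iff (u v : ℤ × ℤ) : D.E u * D.E v = D.E v * D.E u ↔
    (Nat.card (_root_.commutator G) : ℤ) ∣ det u v := by
  rw [← mul_inv_eq_one, D.comm, D.commutator_eq, Nat.card_zpowers, orderOf_dvd_iff_zpow_eq_one]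

theorem mem_lat_centralizer {H : Subgroup G} {u : ℤ × ℤ} :
    u ∈ D.lat hp2 (centralizer (H : Set G)) ↔
      ∀ v ∈ D.lat hp2 H, (Nat.card (_root_.commutator G) : ℤ) ∣ det v u := by
  rw [mem_lat, mem_centralizer_iff]
  refine ⟨fun h v hv => (D.comm_iff v u).mp (h _ hv), fun h g hg => ?_⟩
  obtain ⟨v, rfl⟩ := D.surj g
  exact (D.comm_iff v u).mpr (h v hg)

theorem mem_lat_center {u : ℤ × ℤ} : u ∈ D.lat hp2 (center G) ↔
    (Nat.card (_root_.commutator G) : ℤ) ∣ u.1 ∧ (Nat.card (_root_.commutator G) : ℤ) ∣ u.2 := by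
  rw [mem_lat, mem_center_iff]
  constructor
  · intro h
    have h1 := (D.comm_iff (0, 1) u).mp (h _)
    have h2 := (D.comm_iff (1, 0) u).mp (h _)
    simp only [det] at h1 h2
    exact ⟨by simpa using h1, by simpa using h2⟩
  · rintro ⟨h1, h2⟩ g
    obtain ⟨v, rfl⟩ := D.surj g
    exact (D.comm_iff v u).mpr ((h1.mul_left _).sub (h2.mul_right _))

end Coord

theorem index_of_box {U : AddSubgroup (ℤ × ℤ)} {d : ℕ}
    (h : ∀ u : ℤ × ℤ, u ∈ U ↔ (d : ℤ) ∣ u.1 ∧ (d : ℤ) ∣ u.2) : U.index = d ^ 2 := by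
  rw [sq]
  refine index_eq_of (fun x => by simp [h]) (fun y => ?_)
  simp only [h]
  exact ⟨fun ⟨_, _, h⟩ => h, fun h => ⟨0, dvd_zero _, h⟩⟩

variable {G : Type*} [Group G] [Finite G] {p : ℕ} [hp : Fact p.Prime]

theorem index_center (hp2 : p ≠ 2) (hG : IsPGroup p G) (hmc : Cfsg.IsMetacyclic G) :
    (center G).index = Nat.card (_root_.commutator G) ^ 2 := by
  obtain ⟨D⟩ := exists_coord hp2 hG hmc
  rw [← D.index_lat hp2]
  exact index_of_box fun u => D.mem_lat_center hp2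

theorem isMulCommutative_iff_dvd_index (hp2 : p ≠ 2) (hG : IsPGroup p G)
    (hmc : Cfsg.IsMetacyclic G) (H : Subgroup G) :
    IsMulCommutative H ↔ Nat.card (_root_.commutator G) ∣ H.index := by
  obtain ⟨D⟩ := exists_coord hp2 hG hmc
  obtain ⟨d₁, d₂, e, hi, h1, h2, hw⟩ := hermite (D.lat hp2 H)
  rw [← D.index_lat hp2, hi, ← le_centralizer_iff_isMulCommutative]
  constructor
  · intro h
    have := (D.mem_lat_centralizer hp2).mp (D.lat_mono hp2 h h1) _ h2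
    simp only [det, zero_mul, sub_zero] at this
    rw [mul_comm]
    exact_mod_cast this
  · intro h
    refine D.le_of_lat_le hp2 fun u hu => (D.mem_lat_centralizer hp2).mpr fun v hv => ?_
    obtain ⟨s, t, rfl⟩ := hw u hu
    obtain ⟨s', t', rfl⟩ := hw v hv
    have h' : (Nat.card (_root_.commutator G) : ℤ) ∣ d₁ * d₂ := by exact_mod_cast h
    exact (h'.mul_left (t' * s - t * s')).trans (dvd_of_eq (by simp only [det]; ring))

theorem centralizer_le_of_index_dvd (hp2 : p ≠ 2) (hG : IsPGroup p G)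
    (hmc : Cfsg.IsMetacyclic G) {H : Subgroup G}
    (h : H.index ∣ Nat.card (_root_.commutator G)) : centralizer (H : Set G) ≤ H := by
  obtain ⟨D⟩ := exists_coord hp2 hG hmc
  obtain ⟨d₁, d₂, e, hi, h1, h2, hw⟩ := hermite (D.lat hp2 H)
  have hne : d₁ * d₂ ≠ 0 := by rw [← hi, D.index_lat hp2]; exact index_ne_zero_of_finite
  rw [← D.index_lat hp2, hi] at h
  have h' : (d₁ * d₂ : ℤ) ∣ Nat.card (_root_.commutator G) := by exact_mod_cast h
  have hd₁ : (d₁ : ℤ) ≠ 0 := by exact_mod_cast left_ne_zero_of_mul hne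
  have hd₂ : (d₂ : ℤ) ≠ 0 := by exact_mod_cast right_ne_zero_of_mul hne
  refine D.le_of_lat_le hp2 ?_
  rintro ⟨i, j⟩ hu
  have h3 := h'.trans ((D.mem_lat_centralizer hp2).mp hu _ h1)
  have h4 := h'.trans ((D.mem_lat_centralizer hp2).mp hu _ h2)
  simp only [det, zero_mul, zero_sub, dvd_neg] at h3 h4
  rw [mul_comm j, mul_dvd_mul_iff_left hd₁] at h3
  obtain ⟨t, rfl⟩ := h3
  rw [mul_assoc, ← mul_sub, mul_comm (d₁ : ℤ), mul_dvd_mul_iff_left hd₂] at h4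
  obtain ⟨s, hs⟩ := h4
  have := (D.lat hp2 H).add_mem (AddSubgroup.zsmul_mem _ h1 s) (AddSubgroup.zsmul_mem _ h2 t)
  convert this using 1
  ext
  · simp only [Prod.smul_mk, smul_eq_mul, Prod.mk_add_mk]; linear_combination hs
  · simp only [Prod.smul_mk, smul_eq_mul, Prod.mk_add_mk]; ring

theorem index_mul_index_centralizer (hp2 : p ≠ 2) (hG : IsPGroup p G)
    (hmc : Cfsg.IsMetacyclic G) {H : Subgroup G} (h : center G ≤ H) :
    H.index * (centralizer (H : Set G)).index = Nat.card (_root_.commutator G) ^ 2 := by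
  obtain ⟨D⟩ := exists_coord hp2 hG hmc
  obtain ⟨d₁, d₂, e, hi, h1, h2, hw⟩ := hermite (D.lat hp2 H)
  have hne : d₁ * d₂ ≠ 0 := by rw [← hi, D.index_lat hp2]; exact index_ne_zero_of_finite
  have hd₁ : (d₁ : ℤ) ≠ 0 := by exact_mod_cast left_ne_zero_of_mul hne
  have hd₂ : (d₂ : ℤ) ≠ 0 := by exact_mod_cast right_ne_zero_of_mul hne
  set q := Nat.card (_root_.commutator G) with hq
  obtain ⟨s, t, hst⟩ := hw ((q : ℤ), 0) (D.lat_mono hp2 h ((D.mem_lat_center hp2).mpr (by simp [hq])))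
  obtain ⟨s', t', hst'⟩ :=
    hw (0, (q : ℤ)) (D.lat_mono hp2 h ((D.mem_lat_center hp2).mpr (by simp [hq])))
  simp only [Prod.mk.injEq] at hst hst'
  have ht : t = 0 := (mul_eq_zero.mp hst.2.symm).resolve_right hd₂
  subst ht
  obtain ⟨c₁, hc₁⟩ : d₁ ∣ q := by
    have : (d₁ : ℤ) ∣ q := ⟨s, by linear_combination hst.1⟩
    exact_mod_cast this
  obtain ⟨c₂, hc₂⟩ : d₂ ∣ q := by
    have : (d₂ : ℤ) ∣ q := ⟨t', by linear_combination hst'.2⟩
    exact_mod_cast this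
  have hc₁' : (q : ℤ) = d₁ * c₁ := by exact_mod_cast hc₁
  have hc₂' : (q : ℤ) = d₂ * c₂ := by exact_mod_cast hc₂
  have ht' : t' = c₂ := mul_left_cancel₀ hd₂ (by linear_combination hc₂' - hst'.2)
  subst ht'
  have hc₂0 : (c₂ : ℤ) ≠ 0 := by
    intro h0
    rw [h0, mul_zero] at hc₂'
    exact Nat.card_pos.ne' (by exact_mod_cast hc₂' : q = 0)
  have hmem : ∀ u : ℤ × ℤ, u ∈ D.lat hp2 (centralizer (H : Set G)) ↔
      (c₁ : ℤ) ∣ u.2 ∧ (q : ℤ) ∣ d₂ * u.1 - u.2 * e := by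
    intro u
    rw [D.mem_lat_centralizer hp2]
    constructor
    · intro hu
      have h3 := hu _ h1
      have h4 := hu _ h2
      simp only [det, zero_mul, zero_sub, dvd_neg] at h3 h4
      rw [← hq, hc₁', mul_comm u.2, mul_dvd_mul_iff_left hd₁] at h3
      exact ⟨h3, h4⟩
    · rintro ⟨h3, h4⟩ v hv
      obtain ⟨a, b, rfl⟩ := hw v hv
      have h5 : (q : ℤ) ∣ d₁ * u.2 := by rw [hc₁']; exact mul_dvd_mul_left _ h3
      exact ((h4.mul_left b).sub (h5.mul_left a)).trans (dvd_of_eq (by simp only [det]; ring))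
  have hC : (D.lat hp2 (centralizer (H : Set G))).index = c₂ * c₁ := by
    refine index_eq_of (fun x => ?_) (fun y => ?_)
    · rw [hmem, hc₂']
      simp [mul_dvd_mul_iff_left hd₂]
    · simp only [hmem]
      refine ⟨fun ⟨_, h, _⟩ => h, ?_⟩
      rintro ⟨k, rfl⟩
      refine ⟨-s' * k, dvd_mul_right _ _, ?_⟩
      have : (d₂ : ℤ) * (-s' * k) - c₁ * k * e = 0 := by
        apply mul_left_cancel₀ (mul_ne_zero hd₁ hc₂0)
        linear_combination (k * d₁ * c₁) * hst'.1 + (s' * k * d₁) * (hc₂' - hc₁')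
      rw [this]
      exact dvd_zero _
  rw [← D.index_lat hp2 H, ← D.index_lat hp2, hi, hC, sq]
  nth_rewrite 1 [hc₁]
  rw [hc₂]
  ring

end Cfsg.Agent.FG.MC
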