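import Cfsg.Agent.FG.MetacyclicB
import Cfsg.Agent.GT.PGroupFrattini
import Cfsg.Agent.GT.PGroupChain

/-!
Metacyclic `p`-groups for odd `p`, part C: power subgroups, centralizers of elements, and the
factorization into two cyclic subgroups with trivial intersection.
-/

namespace Cfsg.Agent.FG.MC

open Subgroup

/-- The subgroup generated by the `p ^ s`-th powers. -/
abbrev mho (p s : ℕ) (G : Type*) [Group G] : Subgroup G := closure {x : G | ∃ y : G, y ^ p ^ s = x}

/-- The lattice `d ℤ × d ℤ`. -/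
def box (d : ℤ) : AddSubgroup (ℤ × ℤ) :=
  (AddSubgroup.zmultiples d).prod (AddSubgroup.zmultiples d)

theorem mem_box {d : ℤ} {u : ℤ × ℤ} : u ∈ box d ↔ d ∣ u.1 ∧ d ∣ u.2 := by
  simp [box, AddSubgroup.mem_prod, Int.mem_zmultiples_iff]

namespace Coord

variable {G : Type*} [Group G] {p : ℕ} (D : Coord p G) [hp : Fact p.Prime] (hp2 : p ≠ 2)

theorem mem_lat_mho {s : ℕ} (hs : p ^ s ∣ Nat.card (_root_.commutator G)) {u : ℤ × ℤ} :
    u ∈ D.lat hp2 (mho p s G) ↔ ((p ^ s : ℕ) : ℤ) ∣ u.1 ∧ ((p ^ s : ℕ) : ℤ) ∣ u.2 := by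
  have hs' : ((p : ℤ) ^ s) ∣ Nat.card (_root_.commutator G) := by exact_mod_cast hs
  push_cast
  have hL : D.lat hp2 ⊥ ≤ box ((p : ℤ) ^ s) := by
    intro w hw
    have := (D.mem_lat_center hp2).mp (D.lat_mono hp2 bot_le hw)
    exact mem_box.mpr ⟨hs'.trans this.1, hs'.trans this.2⟩
  constructor
  · intro hu
    have h1 : mho p s G ≤ D.grp (box ((p : ℤ) ^ s)) := by
      rw [closure_le]
      rintro _ ⟨y, rfl⟩
      obtain ⟨v, rfl⟩ := D.surj y
      have h2 := (pow_dvd_geo_iff hp.out hp2 (D.dvd_chi v) s (p ^ s)).mpr dvd_rfl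
      refine ⟨_, ?_, (D.E_pow v _).symm⟩
      exact mem_box.mpr ⟨h2.mul_right _, h2.mul_right _⟩
    exact mem_box.mp ((D.mem_lat_grp hp2 hL).mp (D.lat_mono hp2 h1 hu))
  · rintro ⟨⟨x, hx⟩, ⟨y, hy⟩⟩
    have hu : u = (p : ℤ) ^ s • (x, y) := by ext <;> simp [hx, hy]
    obtain ⟨k, hk, hk'⟩ := D.exists_pow_eq hp2 (x, y) ((p : ℤ) ^ s)
    have hM : (p : ℤ) ^ s ∣ (p : ℤ) ^ D.M := by
      have := (mem_box.mp (hL (D.per_mem_lat hp2 ⊥ (1, 0)))).1
      simpa using this
    have h3 : (p : ℤ) ^ s ∣ geo (1 + D.ρ * y) k := by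
      simpa using (hM.trans hk).add (dvd_refl ((p : ℤ) ^ s))
    obtain ⟨m, rfl⟩ := (pow_dvd_geo_iff hp.out hp2 (D.dvd_chi (x, y)) s k).mp h3
    rw [mem_lat, hu, hk', pow_mul']
    exact subset_closure ⟨_, rfl⟩

include hp2 in
theorem index_centralizer_dvd_iff [Finite G] (u : ℤ × ℤ) (m : ℕ) :
    (centralizer ({D.E u} : Set G)).index ∣ m ↔
      (Nat.card (_root_.commutator G) : ℤ) ∣ m * u.1 ∧
        (Nat.card (_root_.commutator G) : ℤ) ∣ m * u.2 := by
  set q := Nat.card (_root_.commutator G) with hq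
  haveI : NeZero q := ⟨Nat.card_pos.ne'⟩
  let f : ℤ × ℤ →+ ZMod q :=
    { toFun := fun v => (det v u : ℤ)
      map_zero' := by simp [det]
      map_add' := by intro v w; simp only [det, Prod.snd_add, Prod.fst_add]; push_cast; ring }
  have hker : D.lat hp2 (centralizer ({D.E u} : Set G)) = f.ker := by
    ext v
    rw [mem_lat, mem_centralizer_singleton_iff, D.comm_iff, AddMonoidHom.mem_ker]
    exact (ZMod.intCast_zmod_eq_zero_iff_dvd _ _).symm
  rw [← D.index_lat hp2, hker, AddSubgroup.index_ker, ← IsAddCyclic.exponent_eq_card,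
    AddMonoid.exponent_dvd_iff_forall_nsmul_eq_zero]
  have key : ∀ v : ℤ × ℤ, m • f v = 0 ↔ (q : ℤ) ∣ m * det v u := by
    intro v
    rw [← ZMod.intCast_zmod_eq_zero_iff_dvd, nsmul_eq_mul]
    push_cast
    rfl
  constructor
  · intro h
    have h1 := (key (0, 1)).mp (congrArg Subtype.val (h ⟨_, _, rfl⟩))
    have h2 := (key (1, 0)).mp (congrArg Subtype.val (h ⟨_, _, rfl⟩))
    simp only [det] at h1 h2
    exact ⟨by simpa using h1, by simpa using h2⟩
  · rintro ⟨h1, h2⟩ ⟨_, v, rfl⟩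
    apply Subtype.ext
    refine (key v).mpr ?_
    exact ((h1.mul_left v.2).sub (h2.mul_left v.1)).trans (dvd_of_eq (by simp only [det]; ring))

theorem mem_lat_zpowers {u w : ℤ × ℤ} (h : w ∈ D.lat hp2 (zpowers (D.E u))) [Finite G] :
    ∃ c : ℤ, -(c • u) + w ∈ D.lat hp2 ⊥ := by
  obtain ⟨k, hk⟩ := (mem_powers_iff_mem_zpowers).mpr h
  simp only at hk
  rw [D.E_pow, D.E_eq_iff hp2] at hk
  exact ⟨_, hk⟩

end Coord

variable {G : Type*} [Group G] [Finite G] {p : ℕ} [hp : Fact p.Prime]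

theorem index_mho (hp2 : p ≠ 2) (hG : IsPGroup p G) (hmc : Cfsg.IsMetacyclic G) {s : ℕ}
    (hs : p ^ s ∣ Nat.card (_root_.commutator G)) : (mho p s G).index = p ^ (2 * s) := by
  obtain ⟨D⟩ := exists_coord hp2 hG hmc
  rw [← D.index_lat hp2, pow_mul']
  exact index_of_box fun u => D.mem_lat_mho hp2 hs

theorem mho_eq_center (hp2 : p ≠ 2) (hG : IsPGroup p G) (hmc : Cfsg.IsMetacyclic G) {n : ℕ}
    (hn : Nat.card (_root_.commutator G) = p ^ n) : mho p n G = center G := by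
  obtain ⟨D⟩ := exists_coord hp2 hG hmc
  apply le_antisymm <;> refine D.le_of_lat_le hp2 fun u hu => ?_
  · rw [D.mem_lat_center hp2, hn]
    exact (D.mem_lat_mho hp2 (by rw [hn])).mp hu
  · rw [D.mem_lat_center hp2, hn] at hu
    exact (D.mem_lat_mho hp2 (by rw [hn])).mpr hu

theorem mem_mho_iff (hp2 : p ≠ 2) (hG : IsPGroup p G) (hmc : Cfsg.IsMetacyclic G) {n s : ℕ}
    (hn : Nat.card (_root_.commutator G) = p ^ n) (hs : s ≤ n) (g : G) :
    g ∈ mho p s G ↔ (centralizer ({g} : Set G)).index ≤ p ^ (n - s) := by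
  obtain ⟨D⟩ := exists_coord hp2 hG hmc
  obtain ⟨u, rfl⟩ := D.surj g
  obtain ⟨k, hk⟩ := hG.index (centralizer ({D.E u} : Set G))
  have h1 : (centralizer ({D.E u} : Set G)).index ≤ p ^ (n - s) ↔
      (centralizer ({D.E u} : Set G)).index ∣ p ^ (n - s) := by
    rw [hk, Nat.pow_le_pow_iff_right hp.out.one_lt, Nat.pow_dvd_pow_iff_le_right hp.out.one_lt]
  obtain ⟨t, rfl⟩ := Nat.exists_eq_add_of_le' hs
  have h0 : ((p ^ t : ℕ) : ℤ) ≠ 0 := by exact_mod_cast pow_ne_zero _ hp.out.ne_zero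
  rw [h1, D.index_centralizer_dvd_iff hp2, ← D.mem_lat hp2,
    D.mem_lat_mho hp2 (by rw [hn]; exact pow_dvd_pow _ hs), hn, Nat.add_sub_cancel, pow_add,
    Nat.cast_mul, mul_dvd_mul_iff_left h0, mul_dvd_mul_iff_left h0]

theorem frattini_eq_mho (hp2 : p ≠ 2) (hG : IsPGroup p G) (hmc : Cfsg.IsMetacyclic G)
    (hs : p ∣ Nat.card (_root_.commutator G)) : frattini G = mho p 1 G := by
  obtain ⟨D⟩ := exists_coord hp2 hG hmc
  apply le_antisymm
  · refine GT.PG.frattini_le hp.out ?_ fun y => subset_closure ⟨y, by simp⟩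
    rw [D.commutator_eq, zpowers_le, ← D.mem_lat hp2, D.mem_lat_mho hp2 (by simpa using hs)]
    simpa using D.dvd_ρ
  · rw [closure_le]
    rintro _ ⟨y, rfl⟩
    simpa using GT.PG.pow_mem_frattini hG y

theorem exists_cyclic_complement (hp2 : p ≠ 2) (hG : IsPGroup p G) (hmc : Cfsg.IsMetacyclic G) :
    ∃ x y : G, IsComplement' (zpowers x) (zpowers y) := by
  obtain ⟨D⟩ := exists_coord hp2 hG hmc
  haveI : (D.lat hp2 ⊥).FiniteIndex := ⟨by rw [D.index_lat hp2]; exact index_ne_zero_of_finite⟩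
  obtain ⟨b, a, ab, hab⟩ := Submodule.exists_smith_normal_form_of_rank_eq
    (N := (D.lat hp2 ⊥).toIntSubmodule) (Module.Basis.finTwoProd ℤ)
    (AddSubgroup.finrank_eq_of_finiteIndex (D.lat hp2 ⊥))
  refine ⟨D.E (b 0), D.E (b 1), isComplement'_of_disjoint_and_mul_eq_univ ?_ ?_⟩
  · rw [disjoint_iff_inf_le]
    rintro g ⟨h0, h1⟩
    obtain ⟨w, rfl⟩ := D.surj g
    obtain ⟨s, hs⟩ := D.mem_lat_zpowers hp2 h0
    obtain ⟨t, ht⟩ := D.mem_lat_zpowers hp2 h1
    have h2 : s • b 0 - t • b 1 ∈ D.lat hp2 ⊥ := by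
      have := (D.lat hp2 ⊥).sub_mem ht hs
      convert this using 1
      abel
    have h3 := congrArg Subtype.val (ab.sum_repr ⟨_, h2⟩)
    simp only [Fin.sum_univ_two, Submodule.coe_add, Submodule.coe_smul, hab] at h3
    have h4 := congrArg (fun v => b.repr v 0) h3
    simp only [map_add, map_smul, map_sub, Module.Basis.repr_self, Finsupp.coe_add,
      Finsupp.coe_smul, Finsupp.coe_sub, Pi.add_apply, Pi.smul_apply, Pi.sub_apply,
      Finsupp.single_eq_same, smul_eq_mul, mul_one, ne_eq, zero_ne_one, not_false_eq_true,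
      Finsupp.single_eq_of_ne, mul_zero, add_zero, sub_zero] at h4
    have h5 : s • b 0 ∈ D.lat hp2 ⊥ := by
      rw [← h4, mul_smul, ← hab]
      exact AddSubgroup.zsmul_mem _ (ab 0).2 _
    have h6 := (D.lat hp2 ⊥).add_mem h5 hs
    rw [add_neg_cancel_left] at h6
    exact h6
  · rw [Set.eq_univ_iff_forall]
    intro g
    obtain ⟨w, rfl⟩ := D.surj g
    have hw := b.sum_repr w
    rw [Fin.sum_univ_two] at hw
    obtain ⟨c, -, hc⟩ := D.exists_unit (b.repr w 0 • b 0)
    rw [← hw, ← hc]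
    exact Set.mul_mem_mul (D.smul_mem hp2 (mem_zpowers _) _)
      (D.smul_mem hp2 (D.smul_mem hp2 (mem_zpowers _) _) _)

theorem isMulCommutative_iff_card_le (hp2 : p ≠ 2) (hG : IsPGroup p G)
    (hmc : Cfsg.IsMetacyclic G) (H : Subgroup G) :
    IsMulCommutative H ↔ Nat.card H ≤ (_root_.commutator G).index := by
  rw [isMulCommutative_iff_dvd_index hp2 hG hmc]
  obtain ⟨k, hk⟩ := hG.index H
  obtain ⟨n, hn⟩ := IsPGroup.iff_card.mp (hG.to_subgroup (_root_.commutator G))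
  have h1 := H.card_mul_index
  have h2 := (_root_.commutator G).card_mul_index
  have h3 : 0 < Nat.card H := Nat.card_pos
  have h4 : 0 < (_root_.commutator G).index := Nat.pos_of_ne_zero index_ne_zero_of_finite
  have h5 : Nat.card (_root_.commutator G) ∣ H.index ↔ Nat.card (_root_.commutator G) ≤ H.index := by
    rw [hk, hn, Nat.pow_le_pow_iff_right hp.out.one_lt, Nat.pow_dvd_pow_iff_le_right hp.out.one_lt]
  have h6 : 0 < Nat.card (_root_.commutator G) := Nat.card_pos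
  rw [h5]
  constructor
  · intro h
    by_contra hlt
    push Not at hlt
    nlinarith
  · intro h
    by_contra hlt
    push Not at hlt
    nlinarith

theorem maximal_comm_iff_card_eq (hp2 : p ≠ 2) (hG : IsPGroup p G)
    (hmc : Cfsg.IsMetacyclic G) (L : Subgroup G) :
    Maximal (fun K : Subgroup G => IsMulCommutative K) L ↔
      Nat.card L = (_root_.commutator G).index := by
  constructor
  · intro h
    have h1 := (isMulCommutative_iff_card_le hp2 hG hmc L).mp h.1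
    obtain ⟨k, hk⟩ := hG.index (_root_.commutator G)
    rw [hk] at h1 ⊢
    obtain ⟨K, hLK, -, hK⟩ := GT.PG.exists_card_eq_pow_between (hG.to_subgroup ⊤) le_top h1
      (by rw [card_top, ← hk]; exact Nat.le_of_dvd Nat.card_pos (index_dvd_card _))
    have h2 := h.eq_of_le ((isMulCommutative_iff_card_le hp2 hG hmc K).mpr (by rw [hK, hk])) hLK
    rw [h2, hK]
  · intro h
    refine ⟨(isMulCommutative_iff_card_le hp2 hG hmc L).mpr h.le, fun K hK hLK => ?_⟩
    have h1 := (isMulCommutative_iff_card_le hp2 hG hmc K).mp hK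
    exact (eq_of_le_of_card_ge hLK (h ▸ h1)).ge

theorem card_mul_card_centralizer (hp2 : p ≠ 2) (hG : IsPGroup p G)
    (hmc : Cfsg.IsMetacyclic G) {H : Subgroup G} (h : center G ≤ H) :
    Nat.card H * Nat.card (centralizer (H : Set G)) = (_root_.commutator G).index ^ 2 := by
  have h1 := index_mul_index_centralizer hp2 hG hmc h
  have h2 := H.card_mul_index
  have h3 := (centralizer (H : Set G)).card_mul_index
  have h4 := (_root_.commutator G).card_mul_index
  have h6 : 0 < Nat.card (_root_.commutator G) := Nat.card_pos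
  apply Nat.eq_of_mul_eq_mul_left (pow_pos h6 2)
  rw [← mul_pow, h4, ← h1, sq]
  nth_rewrite 1 [← h2]
  rw [← h3]
  ring

end Cfsg.Agent.FG.MC
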