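import Mathlib
import Cfsg.Agent.Spor.Comp.Basic
import Cfsg.Agent.GT.MinNormal

/-!
Kernel-checked enumeration of small permutation groups (degree at most 32). A permutation is coded by
the number whose base-32 digits are its values; a group is listed coset by coset along a chain of
subgroups.
-/

set_option autoImplicit false

namespace Cfsg.Agent.FG.PE

open Cfsg.Agent.Spor
open scoped commutatorElement

/-- Digit `x` of `c` in base 32. -/
def dig (c x : ℕ) : ℕ := Nat.land (Nat.shiftRight c (Nat.mul 5 x)) 31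

theorem dig_eq (c x : ℕ) : dig c x = c / 32 ^ x % 32 := by
  unfold dig
  have e1 : Nat.shiftRight c (Nat.mul 5 x) = c / 2 ^ (5 * x) := Nat.shiftRight_eq_div_pow _ _
  have e2 : ∀ a : ℕ, Nat.land a 31 = a % 32 := fun a => Nat.and_two_pow_sub_one_eq_mod a 5
  rw [e1, e2, pow_mul]; norm_num

/-- The number with base-32 digits `f 0, …, f (k-1)`. -/
noncomputable def build (f : ℕ → ℕ) (k : ℕ) : ℕ :=
  Nat.rec 0 (fun x acc => Nat.add acc (Nat.shiftLeft (f x) (Nat.mul 5 x))) k

theorem build_succ (f : ℕ → ℕ) (k : ℕ) : build f (k + 1) = build f k + f k * 32 ^ k := by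
  have e : Nat.shiftLeft (f k) (Nat.mul 5 k) = f k * 2 ^ (5 * k) := Nat.shiftLeft_eq _ _
  have : build f (k + 1) = build f k + Nat.shiftLeft (f k) (Nat.mul 5 k) := rfl
  rw [this, e, pow_mul]; norm_num

theorem build_lt {f : ℕ → ℕ} {k : ℕ} (h : ∀ x < k, f x < 32) : build f k < 32 ^ k := by
  induction k with
  | zero => exact Nat.one_pos
  | succ k ih =>
    rw [build_succ, pow_succ]
    have h1 := ih fun x hx => h x (by omega)
    have h2 := h k (by omega)
    nlinarith

theorem dig_build {f : ℕ → ℕ} {k : ℕ} (h : ∀ x < k, f x < 32) {y : ℕ} (hy : y < k) :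
    dig (build f k) y = f y := by
  induction k with
  | zero => omega
  | succ k ih =>
    have h' : ∀ x < k, f x < 32 := fun x hx => h x (by omega)
    rw [build_succ, dig_eq]
    rcases Nat.lt_succ_iff_lt_or_eq.1 hy with hy | rfl
    · rw [← ih h' hy, dig_eq]
      obtain ⟨j, rfl⟩ := Nat.exists_eq_add_of_lt hy
      have : f (y + j + 1) * 32 ^ (y + j + 1) = 32 ^ y * (32 * (32 ^ j * f (y + j + 1))) := by ring
      rw [this, Nat.add_mul_div_left _ _ (by positivity), Nat.add_mul_mod_self_left]
    · rw [Nat.add_mul_div_right _ _ (by positivity), Nat.div_eq_of_lt (build_lt h'), zero_add,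
        Nat.mod_eq_of_lt (h y hy)]

theorem build_congr {f g : ℕ → ℕ} {k : ℕ} (h : ∀ x < k, f x = g x) : build f k = build g k := by
  induction k with
  | zero => rfl
  | succ k ih => rw [build_succ, build_succ, ih fun x hx => h x (by omega), h k (by omega)]

variable {n : ℕ}

/-- The code of a permutation. -/
noncomputable def enc (σ : Equiv.Perm (Fin n)) : ℕ :=
  build (fun x => if h : x < n then (σ ⟨x, h⟩ : ℕ) else 0) n

/-- Composition of codes. -/
noncomputable def comp (n a b : ℕ) : ℕ := build (fun x => dig a (dig b x)) n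

/-- The code of the identity. -/
noncomputable def idc (n : ℕ) : ℕ := build (fun x => x) n

theorem dig_enc (hn : n ≤ 32) (σ : Equiv.Perm (Fin n)) (x : Fin n) : dig (enc σ) x = σ x := by
  unfold enc
  rw [dig_build _ x.2, dif_pos x.2]
  intro y hy
  rw [dif_pos hy]
  exact lt_of_lt_of_le (σ _).2 hn

theorem enc_injective (hn : n ≤ 32) : Function.Injective (enc : Equiv.Perm (Fin n) → ℕ) := by
  intro σ τ h
  ext x
  rw [← dig_enc hn, ← dig_enc hn, h]

theorem enc_mul (hn : n ≤ 32) (σ τ : Equiv.Perm (Fin n)) :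
    enc (σ * τ) = comp n (enc σ) (enc τ) := by
  apply build_congr
  intro x hx
  rw [dif_pos hx, show dig (enc τ) x = τ ⟨x, hx⟩ from dig_enc hn τ ⟨x, hx⟩, dig_enc hn]
  rfl

theorem enc_one : enc (1 : Equiv.Perm (Fin n)) = idc n := by
  apply build_congr
  intro x hx
  rw [dif_pos hx]; rfl

/-- `c` is the code of a permutation of `Fin n`. -/
noncomputable def valid (n c : ℕ) : Bool :=
  band (allLt n fun x => blt (dig c x) n)
    (band (allLt n fun x => allLt x fun y => !(Nat.beq (dig c x) (dig c y)))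
      (Nat.beq (build (dig c) n) c))

theorem exists_enc_of_valid {c : ℕ} (h : valid n c = true) : ∃ σ : Equiv.Perm (Fin n), enc σ = c := by
  unfold valid at h
  simp only [band_iff, allLt_iff, blt_iff, nbeq_iff, Bool.not_eq_true'] at h
  obtain ⟨h1, h2, h3⟩ := h
  let f : Fin n → Fin n := fun x => ⟨dig c x, h1 x x.2⟩
  have hf : Function.Injective f := by
    intro x y hxy
    have e : dig c x = dig c y := congrArg Fin.val hxy
    by_contra hne
    rcases lt_or_gt_of_ne (Fin.val_ne_of_ne hne) with hl | hl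
    · have := h2 y y.2 x hl
      rw [← e, Nat.beq_refl] at this; exact absurd this (by simp)
    · have := h2 x x.2 y hl
      rw [e, Nat.beq_refl] at this; exact absurd this (by simp)
  refine ⟨Equiv.ofBijective f (Finite.injective_iff_bijective.1 hf), ?_⟩
  rw [← h3]
  apply build_congr
  intro x hx
  rw [dif_pos hx]; rfl

/-- The group generated by the permutations with codes in `S`. -/
def grp (n : ℕ) (S : List ℕ) : Subgroup (Equiv.Perm (Fin n)) := Subgroup.closure {σ | enc σ ∈ S}

/-- `C` lists the codes of the elements of `grp n S`, without repetition. -/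
def Enum (n : ℕ) (S C : List ℕ) : Prop :=
  C.Nodup ∧ (∀ c ∈ C, ∃ σ ∈ grp n S, enc σ = c) ∧ ∀ σ ∈ grp n S, enc σ ∈ C

theorem enum_nil : Enum n [] [idc n] := by
  have : grp n [] = ⊥ := by simp [grp]
  refine ⟨List.nodup_singleton _, ?_, ?_⟩
  · intro c hc
    exact ⟨1, Subgroup.one_mem _, by rw [List.mem_singleton.1 hc, enc_one]⟩
  · intro σ hσ
    rw [this, Subgroup.mem_bot] at hσ
    rw [hσ, enc_one]; exact List.mem_singleton_self _

/-- Membership of a number in a list. -/
noncomputable def memL (a : ℕ) (l : List ℕ) : Bool :=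
  force a fun a' => List.rec false (fun x _ ih => Bool.rec ih true (Nat.beq a' x)) l

theorem memL_iff (a : ℕ) (l : List ℕ) : memL a l = true ↔ a ∈ l := by
  unfold memL
  rw [force_eq]
  induction l with
  | nil => simp
  | cons x l ih =>
    change Bool.rec _ true (Nat.beq a x) = true ↔ _
    cases h : Nat.beq a x
    · have : a ≠ x := fun e => by rw [e, Nat.beq_refl] at h; exact absurd h (by simp)
      simp [this, ← ih]
    · simp [Nat.eq_of_beq_eq_true h]

/-- The code of a word. -/
noncomputable def wcode (n : ℕ) (w : List ℕ) : ℕ :=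
  List.rec (idc n) (fun x _ ih => force ih fun r => comp n x r) w

theorem exists_of_word (hn : n ≤ 32) {S w : List ℕ} (hS : allL S (valid n) = true)
    (hw : allL w (fun x => memL x S) = true) : ∃ σ ∈ grp n S, enc σ = wcode n w := by
  rw [allL_iff] at hS hw
  induction w with
  | nil => exact ⟨1, Subgroup.one_mem _, enc_one⟩
  | cons x w ih =>
    obtain ⟨σ, hσ, e⟩ := ih fun y hy => hw y (List.mem_cons_of_mem _ hy)
    have hx := (memL_iff _ _).1 (hw x List.mem_cons_self)
    obtain ⟨τ, rfl⟩ := exists_enc_of_valid (hS x hx)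
    exact ⟨τ * σ, Subgroup.mul_mem _ (Subgroup.subset_closure hx) hσ, by rw [enc_mul hn, e]; rfl⟩

/-- The list of codes after one step. -/
noncomputable def next (n : ℕ) (T : List (List ℕ × List ℕ)) (C : List ℕ) : List ℕ :=
  T.flatMap fun t => force (wcode n t.1) fun a => C.map (comp n a)

/-- Some member of a list satisfies `f`. -/
noncomputable def anyL {α : Type} (l : List α) (f : α → Bool) : Bool :=
  List.rec false (fun x _ ih => Bool.rec ih true (f x)) l

theorem anyL_iff {α : Type} (l : List α) (f : α → Bool) : anyL l f = true ↔ ∃ x ∈ l, f x = true := by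
  induction l with
  | nil => simp [anyL]
  | cons x l ih =>
    have h : anyL (x :: l) f = Bool.rec (anyL l f) true (f x) := rfl
    rw [h]
    cases hf : f x <;> simp [hf, ih]

/-- `f x y` holds whenever `x` comes before `y` in the list. -/
noncomputable def pairL {α : Type} (l : List α) (f : α → α → Bool) : Bool :=
  List.rec true (fun x l ih => band (allL l (f x)) ih) l

theorem pairL_iff {α : Type} (l : List α) (f : α → α → Bool) :
    pairL l f = true ↔ l.Pairwise fun x y => f x y = true := by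
  induction l with
  | nil => simp [pairL]
  | cons x l ih =>
    have h : pairL (x :: l) f = band (allL l (f x)) (pairL l f) := rfl
    rw [h, band_iff, allL_iff, ih, List.pairwise_cons]

/-- The checks for one step: `T` lists coset representatives (words with inverse words). -/
noncomputable def stepOK (n : ℕ) (S S' : List ℕ) (T : List (List ℕ × List ℕ)) (C : List ℕ) : Bool :=
  band (allL S' (valid n)) <| band (allL S fun x => memL x S') <|
  band (allL T fun t => band (allL t.1 fun x => memL x S') <| band (allL t.2 fun x => memL x S') <|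
    Nat.beq (comp n (wcode n t.2) (wcode n t.1)) (idc n)) <|
  band (anyL T fun t => memL (wcode n t.2) C) <|
  band (pairL T fun t u => !(memL (comp n (wcode n t.2) (wcode n u.1)) C)) <|
  allL S' fun s => allL T fun t => force (comp n s (wcode n t.1)) fun a =>
    anyL T fun u => memL (comp n (wcode n u.2) a) C

theorem grp_mono {S S' : List ℕ} (h : ∀ x ∈ S, x ∈ S') : grp n S ≤ grp n S' :=
  Subgroup.closure_mono fun _ hσ => h _ hσ

theorem Enum.mem_iff (hn : n ≤ 32) {S C : List ℕ} (h : Enum n S C) (σ : Equiv.Perm (Fin n)) :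
    enc σ ∈ C ↔ σ ∈ grp n S := by
  refine ⟨fun hσ => ?_, h.2.2 σ⟩
  obtain ⟨τ, hτ, e⟩ := h.2.1 _ hσ
  rwa [← enc_injective hn e]

theorem Enum.step (hn : n ≤ 32) {S S' C : List ℕ} {T : List (List ℕ × List ℕ)} (h : Enum n S C)
    (hs : stepOK n S S' T C = true) : Enum n S' (next n T C) := by
  unfold stepOK at hs
  simp only [band_iff, force_eq] at hs
  obtain ⟨hv, hSS, hT, h1, hp, hcl⟩ := hs
  have hle : grp n S ≤ grp n S' :=
    grp_mono fun x hx => (memL_iff _ _).1 ((allL_iff _ _).1 hSS x hx)
  have hT' : ∀ t ∈ T, ∃ τ ∈ grp n S', enc τ = wcode n t.1 ∧ enc τ⁻¹ = wcode n t.2 := by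
    intro t ht
    have := (allL_iff _ _).1 hT t ht
    simp only [band_iff, nbeq_iff] at this
    obtain ⟨τ, hτ, e⟩ := exists_of_word hn hv this.1
    obtain ⟨τ', -, e'⟩ := exists_of_word hn hv this.2.1
    have h2 := this.2.2
    rw [← e, ← e', ← enc_mul hn, ← enc_one] at h2
    exact ⟨τ, hτ, e, by rw [← e', ← eq_inv_of_mul_eq_one_left (enc_injective hn h2)]⟩
  have hmem : ∀ t ∈ T, ∀ τ : Equiv.Perm (Fin n), enc τ = wcode n t.1 → ∀ σ ∈ grp n S,
      enc (τ * σ) ∈ next n T C := by
    intro t ht τ e σ hσ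
    unfold next
    rw [List.mem_flatMap]
    exact ⟨t, ht, List.mem_map.2 ⟨enc σ, h.2.2 σ hσ, by rw [enc_mul hn, e]⟩⟩
  have hdec : ∀ c ∈ next n T C, ∃ t ∈ T, ∃ τ ∈ grp n S', enc τ = wcode n t.1 ∧
      ∃ σ ∈ grp n S, enc (τ * σ) = c := by
    intro c hc
    unfold next at hc
    rw [List.mem_flatMap] at hc
    obtain ⟨t, ht, hc⟩ := hc
    obtain ⟨d, hd, rfl⟩ := List.mem_map.1 hc
    obtain ⟨τ, hτ, e, -⟩ := hT' t ht
    obtain ⟨σ, hσ, rfl⟩ := h.2.1 d hd
    exact ⟨t, ht, τ, hτ, e, σ, hσ, by rw [enc_mul hn, e]⟩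
  refine ⟨?_, ?_, ?_⟩
  · unfold next
    rw [List.nodup_flatMap]
    constructor
    · intro t ht
      obtain ⟨τ, -, e, -⟩ := hT' t ht
      rw [force_eq]
      apply List.Nodup.map_on _ h.1
      intro a ha b hb hab
      obtain ⟨σ, -, rfl⟩ := h.2.1 a ha
      obtain ⟨ρ, -, rfl⟩ := h.2.1 b hb
      rw [← e, ← enc_mul hn, ← enc_mul hn] at hab
      rw [mul_left_cancel (enc_injective hn hab)]
    · rw [pairL_iff] at hp
      refine List.Pairwise.imp_of_mem ?_ hp
      intro t u ht hu htu
      obtain ⟨τ, -, e, e'⟩ := hT' t ht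
      obtain ⟨υ, -, f, -⟩ := hT' u hu
      simp only [Function.onFun, force_eq]
      rw [List.disjoint_left]
      intro c hc hc'
      obtain ⟨a, ha, rfl⟩ := List.mem_map.1 hc
      obtain ⟨b, hb, hab⟩ := List.mem_map.1 hc'
      obtain ⟨σ, hσ, rfl⟩ := h.2.1 a ha
      obtain ⟨ρ, hρ, rfl⟩ := h.2.1 b hb
      rw [← e, ← f, ← enc_mul hn, ← enc_mul hn] at hab
      have hab' := enc_injective hn hab
      have : τ⁻¹ * υ = σ * ρ⁻¹ := by
        calc τ⁻¹ * υ = τ⁻¹ * (υ * ρ) * ρ⁻¹ := by group
          _ = σ * ρ⁻¹ := by rw [hab']; group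
      rw [← e', ← f, ← enc_mul hn, this, Bool.not_eq_true', ← Bool.not_eq_true, memL_iff] at htu
      exact htu (h.2.2 _ (Subgroup.mul_mem _ hσ (Subgroup.inv_mem _ hρ)))
  · intro c hc
    obtain ⟨t, -, τ, hτ, -, σ, hσ, e⟩ := hdec c hc
    exact ⟨τ * σ, Subgroup.mul_mem _ hτ (hle hσ), e⟩
  · intro σ hσ
    have hσ' : σ ∈ Submonoid.closure {σ : Equiv.Perm (Fin n) | enc σ ∈ S'} := by
      rw [← Subgroup.closure_toSubmonoid_of_finite]; exact hσ
    clear hσ
    induction hσ' using Submonoid.closure_induction_left with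
    | one =>
      obtain ⟨t, ht, hc⟩ := (anyL_iff _ _).1 h1
      obtain ⟨τ, -, e, e'⟩ := hT' t ht
      rw [memL_iff, ← e', h.mem_iff hn] at hc
      simpa using hmem t ht τ e _ hc
    | mul_left s hs y _ ih =>
      obtain ⟨t, ht, τ, -, e, ρ, hρ, e2⟩ := hdec _ ih
      obtain rfl := enc_injective hn e2
      obtain ⟨u, hu, hc⟩ := (anyL_iff _ _).1 ((allL_iff _ _).1 ((allL_iff _ _).1 hcl _ hs) t ht)
      obtain ⟨υ, -, f, f'⟩ := hT' u hu
      rw [memL_iff, ← f', ← e, ← enc_mul hn, ← enc_mul hn, h.mem_iff hn] at hc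
      have := hmem u hu υ f _ (Subgroup.mul_mem _ hc hρ)
      simpa [mul_assoc] using this

/-- Search for the order of the permutation with code `c`; `e` is the code of the identity. -/
noncomputable def ordAux (n c e fuel : ℕ) : ℕ → ℕ → ℕ :=
  Nat.rec (fun _ _ => 0)
    (fun _ ih cur k => Bool.rec (force (comp n cur c) fun nx => ih nx (Nat.succ k)) k (Nat.beq cur e))
    fuel

theorem orderOf_eq_ordAux (hn : n ≤ 32) (σ : Equiv.Perm (Fin n)) (fuel k : ℕ) (hk : 0 < k)
    (hlt : ∀ j, 0 < j → j < k → σ ^ j ≠ 1)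
    (h0 : ordAux n (enc σ) (idc n) fuel (enc (σ ^ k)) k ≠ 0) :
    orderOf σ = ordAux n (enc σ) (idc n) fuel (enc (σ ^ k)) k := by
  induction fuel generalizing k with
  | zero => exact absurd rfl h0
  | succ f ih =>
    have e : ordAux n (enc σ) (idc n) (f + 1) (enc (σ ^ k)) k =
        Bool.rec (ordAux n (enc σ) (idc n) f (comp n (enc (σ ^ k)) (enc σ)) (k + 1)) k
          (Nat.beq (enc (σ ^ k)) (idc n)) := rfl
    rw [e] at h0 ⊢
    cases hb : Nat.beq (enc (σ ^ k)) (idc n)
    · rw [hb, ← enc_mul hn, ← pow_succ] at h0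
      rw [← enc_mul hn, ← pow_succ]
      refine ih (k + 1) (by omega) ?_ h0
      intro j hj hjk
      rcases Nat.lt_succ_iff_lt_or_eq.1 hjk with h | rfl
      · exact hlt j hj h
      · intro h
        rw [h, enc_one, Nat.beq_refl] at hb
        exact absurd hb (by simp)
    · have := Nat.eq_of_beq_eq_true hb
      rw [← enc_one] at this
      exact (orderOf_eq_iff hk).2 ⟨enc_injective hn this, fun m hm hm0 => hlt m hm0 hm⟩

/-- The orders of the permutations with codes in `C` (zero when the search fails). -/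
noncomputable def ords (n : ℕ) (C : List ℕ) : List ℕ :=
  force (idc n) fun e => C.map fun c => force c fun c' => ordAux n c' e 200 c' 1

theorem Enum.card_pow_eq_one (hn : n ≤ 32) {S C O : List ℕ} (h : Enum n S C) (hO : ords n C = O)
    (h0 : memL 0 O = false) (d : ℕ) :
    Nat.card {g : grp n S // g ^ d = 1} = O.countP fun m => decide (m ∣ d) := by
  have hord : ∀ σ ∈ grp n S, orderOf σ = ordAux n (enc σ) (idc n) 200 (enc σ) 1 := by
    intro σ hσ
    have := orderOf_eq_ordAux hn σ 200 1 Nat.one_pos (fun j _ _ => by omega)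
    rw [pow_one] at this
    apply this
    intro e
    rw [← Bool.not_eq_true, memL_iff, ← hO] at h0
    exact h0 (List.mem_map.2 ⟨enc σ, h.2.2 σ hσ, e⟩)
  rw [← hO]
  unfold ords
  simp only [force_eq]
  rw [List.countP_map, List.countP_eq_length_filter,
    ← List.toFinset_card_of_nodup (h.1.filter _), ← Nat.card_eq_finsetCard]
  apply Nat.card_congr
  refine Equiv.ofBijective (fun g => ⟨enc g.1.1, ?_⟩) ⟨?_, ?_⟩
  · rw [List.mem_toFinset, List.mem_filter]
    refine ⟨h.2.2 _ g.1.2, ?_⟩
    simp only [Function.comp, decide_eq_true_eq]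
    rw [← hord _ g.1.2, orderOf_dvd_iff_pow_eq_one]
    exact congrArg Subtype.val g.2
  · intro a b hab
    exact Subtype.ext (Subtype.ext (enc_injective hn (congrArg Subtype.val hab)))
  · rintro ⟨c, hc⟩
    rw [List.mem_toFinset, List.mem_filter] at hc
    obtain ⟨σ, hσ, rfl⟩ := h.2.1 c hc.1
    have h2 := hc.2
    simp only [Function.comp, decide_eq_true_eq] at h2
    rw [← hord _ hσ, orderOf_dvd_iff_pow_eq_one] at h2
    exact ⟨⟨⟨σ, hσ⟩, Subtype.ext h2⟩, rfl⟩

theorem isSolvable_nil : Group.IsSolvable (grp n []) := by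
  have : grp n [] = ⊥ := by simp [grp]
  rw [this]; infer_instance

/-- Adding a generator that normalizes a solvable group gives a solvable group. -/
theorem Enum.isSolvable_cons (hn : n ≤ 32) {S C : List ℕ} (h : Enum n S C)
    (hS : Group.IsSolvable (grp n S)) (g : ℕ) (hg : valid n g = true)
    (hc : allL S (fun s => force (comp n g s) fun a => anyL C fun c => Nat.beq (comp n c g) a) = true) :
    Group.IsSolvable (grp n (g :: S)) := by
  obtain ⟨γ, rfl⟩ := exists_enc_of_valid hg
  have e : grp n (enc γ :: S) = Subgroup.zpowers γ ⊔ grp n S := by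
    unfold grp
    rw [Subgroup.zpowers_eq_closure, ← Subgroup.closure_union]
    congr 1
    ext σ
    simp [(enc_injective hn).eq_iff]
  have hN : Subgroup.zpowers γ ≤ Subgroup.normalizer (grp n S : Set (Equiv.Perm (Fin n))) := by
    rw [Subgroup.zpowers_le]
    apply Subgroup.mem_normalizer_fintype
    intro σ hσ
    have : grp n S ≤ (grp n S).comap (MulAut.conj γ).toMonoidHom := by
      unfold grp
      rw [Subgroup.closure_le]
      intro s hs
      obtain ⟨c, hc1, hc2⟩ := (anyL_iff _ _).1 ((allL_iff _ _).1 hc _ hs)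
      obtain ⟨ρ, hρ, rfl⟩ := h.2.1 c hc1
      rw [nbeq_iff, ← enc_mul hn, ← enc_mul hn] at hc2
      have := enc_injective hn hc2
      change γ * s * γ⁻¹ ∈ grp n S
      rw [← this]; simpa using hρ
    exact this hσ
  rw [e]
  have : IsMulCommutative (Subgroup.zpowers γ) := inferInstance
  have : Group.IsSolvable (Subgroup.zpowers γ) := Group.isSolvable_of_comm this.is_comm.comm
  exact GT.isSolvable_sup_of_le_normalizer hN

/-- A group whose generators are commutators of words in them, one being nontrivial, is not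
solvable. -/
theorem not_isSolvable (hn : n ≤ 32) {S : List ℕ} (hS : allL S (valid n) = true)
    (W : List (List ℕ × List ℕ))
    (hW : allL S (fun s => anyL W fun w => band (allL w.1 fun x => memL x S) <|
      band (allL w.2 fun x => memL x S) <|
      Nat.beq (comp n s (comp n (wcode n w.2) (wcode n w.1))) (comp n (wcode n w.1) (wcode n w.2)))
      = true)
    (h1 : anyL S (fun s => !(Nat.beq s (idc n))) = true) : ¬ Group.IsSolvable (grp n S) := by
  have hp : grp n S ≤ ⁅grp n S, grp n S⁆ := by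
    unfold grp
    rw [Subgroup.closure_le]
    intro s hs
    obtain ⟨w, -, hw⟩ := (anyL_iff _ _).1 ((allL_iff _ _).1 hW _ hs)
    simp only [band_iff, nbeq_iff] at hw
    obtain ⟨a, ha, ea⟩ := exists_of_word hn hS hw.1
    obtain ⟨b, hb, eb⟩ := exists_of_word hn hS hw.2.1
    have h2 := hw.2.2
    rw [← ea, ← eb, ← enc_mul hn, ← enc_mul hn, ← enc_mul hn] at h2
    have h3 : s = ⁅a, b⁆ := by
      rw [commutatorElement_def, ← enc_injective hn h2]; group
    rw [h3]
    exact Subgroup.commutator_mem_commutator ha hb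
  obtain ⟨s, hs, hs1⟩ := (anyL_iff _ _).1 h1
  obtain ⟨σ, rfl⟩ := exists_enc_of_valid ((allL_iff _ _).1 hS s hs)
  have hσ : σ ∈ grp n S := Subgroup.subset_closure hs
  intro hsol
  have hne : grp n S ≠ ⊥ := by
    intro e
    rw [e, Subgroup.mem_bot] at hσ
    rw [hσ, enc_one, Nat.beq_refl] at hs1
    exact absurd hs1 (by simp)
  have hlt := Group.IsSolvable.commutator_lt_of_ne_bot (G := grp n S) (H := ⊤) (by
    intro e
    apply hne
    rw [eq_bot_iff]
    intro x hx
    have : (⟨x, hx⟩ : grp n S) ∈ (⊥ : Subgroup (grp n S)) := e ▸ Subgroup.mem_top _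
    exact congrArg Subtype.val (Subgroup.mem_bot.1 this))
  apply hlt.ne
  apply Subgroup.map_injective (grp n S).subtype_injective
  rw [Subgroup.map_commutator, ← MonoidHom.range_eq_map, Subgroup.range_subtype]
  exact le_antisymm (Subgroup.commutator_le_self _) hp

end Cfsg.Agent.FG.PE
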