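import Mathlib
import Cfsg.Agent.FG.PermEnum

/-! Element orders of one of the groups in the example of a solvable and a non-solvable group of the
same order type. -/

set_option autoImplicit false
set_option maxRecDepth 4000

namespace Cfsg.Agent.FG.OT

open Cfsg.Agent.FG.PE

/-! ### H1 -/


def H1g0 : ℕ := 206703681

def H1S0 : List ℕ := H1g0 :: []

def H1T0 : List (List ℕ × List ℕ) := [([], []), ([H1g0], [H1g0, H1g0, H1g0, H1g0, H1g0, H1g0]), ([H1g0, H1g0],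
    [H1g0, H1g0, H1g0, H1g0, H1g0, H1g0, H1g0, H1g0, H1g0, H1g0, H1g0, H1g0]), ([H1g0, H1g0, H1g0], [H1g0,
    H1g0, H1g0, H1g0, H1g0, H1g0, H1g0, H1g0, H1g0, H1g0, H1g0, H1g0, H1g0, H1g0, H1g0, H1g0, H1g0, H1g0]),
    ([H1g0, H1g0, H1g0, H1g0], [H1g0, H1g0, H1g0, H1g0, H1g0, H1g0, H1g0, H1g0, H1g0, H1g0, H1g0, H1g0, H1g0,
    H1g0, H1g0, H1g0, H1g0, H1g0, H1g0, H1g0, H1g0, H1g0, H1g0, H1g0]), ([H1g0, H1g0, H1g0, H1g0, H1g0],
    [H1g0, H1g0, H1g0, H1g0, H1g0, H1g0, H1g0, H1g0, H1g0, H1g0, H1g0, H1g0, H1g0, H1g0, H1g0, H1g0, H1g0,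
    H1g0, H1g0, H1g0, H1g0, H1g0, H1g0, H1g0, H1g0, H1g0, H1g0, H1g0, H1g0, H1g0]), ([H1g0, H1g0, H1g0, H1g0,
    H1g0, H1g0], [H1g0, H1g0, H1g0, H1g0, H1g0, H1g0, H1g0, H1g0, H1g0, H1g0, H1g0, H1g0, H1g0, H1g0, H1g0,
    H1g0, H1g0, H1g0, H1g0, H1g0, H1g0, H1g0, H1g0, H1g0, H1g0, H1g0, H1g0, H1g0, H1g0, H1g0, H1g0, H1g0,
    H1g0, H1g0, H1g0, H1g0])]

def H1C0 : List ℕ := [6614517792, 206703681, 1080201314, 2181239939, 3289389220, 4397760709, 5506139142]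

theorem H1E0 : Enum 7 H1S0 H1C0 := by
  have h : next 7 H1T0 [idc 7] = H1C0 := by decide +kernel
  exact h ▸ Enum.step (by norm_num) enum_nil (by decide +kernel)

def H1g1 : ℕ := 5470621760

def H1S1 : List ℕ := H1g1 :: H1S0

def H1T1 : List (List ℕ × List ℕ) := [([], []), ([H1g1], [H1g1, H1g1]), ([H1g1, H1g1], [H1g1, H1g1, H1g1,
    H1g1])]

theorem H1E1 : Enum 7 H1S1 (next 7 H1T1 H1C0) :=
  Enum.step (by norm_num) H1E0 (by decide +kernel)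

def H1O : List ℕ := [1, 7, 7, 7, 7, 7, 7, 3, 3, 3, 3, 3, 3, 3, 3, 3, 3, 3, 3, 3, 3]

theorem H1_card (d : ℕ) : Nat.card {g : grp 7 H1S1 // g ^ d = 1} = H1O.countP fun m => decide (m ∣ d) :=
  Enum.card_pow_eq_one (by norm_num) H1E1 (by decide +kernel) (by decide +kernel) d

end Cfsg.Agent.FG.OT
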