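import Mathlib
import Cfsg.Agent.FG.AvgFix
import Cfsg.Agent.Ch.CliffordRel

/-! The `p`-part of the degree of a primitive character of a solvable group divides a class
size. -/

set_option autoImplicit false

namespace Cfsg.Agent.FG.BS

open Cfsg Cfsg.Agent.Ch

variable {G : Type*} [Group G] [Fintype G]

theorem invariant_of_prim {χ : G → ℂ} (hχ : IsIrrCharacter G χ)
    (hprim : ¬ ∃ H : Subgroup G, H ≠ ⊤ ∧ ∃ θ : H → ℂ, IsCharacter H θ ∧ indFun H θ = χ)
    {N : Subgroup G} [N.Normal] [Fintype N] {θ : N → ℂ} (hθ : IsIrrCharacter N θ)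
    (h : classInner (fun n : N => χ n) θ ≠ 0) : inertia N θ = ⊤ := by
  by_contra hne
  have := Fintype.ofFinite (inertia N θ)
  obtain ⟨ψ, hψ, -, h1, -⟩ := clifford_corr_surj hθ rfl (le_inertia hθ.isClassFunction) hχ h
  exact hprim ⟨_, hne, ψ, hψ.isCharacter, h1⟩

/-- `c` centralises all abelian chief factors of order divisible by `p` -/
def CentChief (p : ℕ) (c : G) : Prop :=
  ∀ (K L : Subgroup G) [K.Normal] [L.Normal], L ≤ K →
    (∀ M : Subgroup G, M.Normal → L ≤ M → M ≤ K → M = L ∨ M = K) → ⁅K, K⁆ ≤ L →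
    p ∣ L.relIndex K → cmod K L c = K

theorem prim_aux [Group.IsSolvable G] {χ : G → ℂ} (hχ : IsIrrCharacter G χ)
    (hprim : ¬ ∃ H : Subgroup G, H ≠ ⊤ ∧ ∃ θ : H → ℂ, IsCharacter H θ ∧ indFun H θ = χ)
    {p : ℕ} (hp : p.Prime) (K : Subgroup G) : ∀ [K.Normal] [Fintype K] (θ : K → ℂ),
    IsIrrCharacter K θ → classInner (fun n : K => χ n) θ ≠ 0 → ∃ f : G → ℕ,
      (∀ g, f g ≤ ((Subgroup.centralizer {g}).relIndex K).factorization p) ∧
      Nat.card G * (charDegree θ).factorization p ≤ ∑ g, f g ∧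
      ∀ g c, CentChief p c → f (g * c) = f g := by
  induction K using WellFoundedLT.induction with
  | _ K ih =>
  intro _ _ θ hθ hu
  by_cases hK : K = ⊥
  · refine ⟨0, fun _ => Nat.zero_le _, ?_, fun _ _ _ => rfl⟩
    have : charDegree θ = 1 := hθ.isCharacter.charDegree_eq_one_iff.mpr
      (hθ.apply_one_eq_one_of_comm fun a b => by subst hK; exact Subsingleton.elim _ _)
    simp [this]
  obtain ⟨L, hab, ⟨hLn, hLK⟩, hmax⟩ := GT.exists_maximal_ge
    (P := fun L : Subgroup G => L.Normal ∧ L < K) (H := ⁅K, K⁆)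
    ⟨inferInstance, GT.commutator_lt_of_isSolvable hK⟩
  have hchief : ∀ M : Subgroup G, M.Normal → L ≤ M → M ≤ K → M = L ∨ M = K := fun M h1 h2 h3 =>
    h3.eq_or_lt.symm.imp_left fun h => hmax M ⟨h1, h⟩ h2
  have := Fintype.ofFinite L
  obtain ⟨φ, hφ, hφθ⟩ := exists_irr_under_of_le hLK.le hθ
  have hφχ := classInner_res_ne_zero_trans hLK.le hχ.isCharacter hθ hφ.isCharacter hu hφθ
  obtain ⟨f, hf1, hf2, hf3⟩ := ih L hLK φ hφ hφχ
  have hmono : ∀ g, f g ≤ ((Subgroup.centralizer {g}).relIndex K).factorization p := fun g =>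
    (hf1 g).trans (le_trans (Nat.le_add_right _ _) (cent_step hLK.le g p))
  rcases going_down hLK.le hchief hab hθ
    (inertia_eq_top_iff.mp (invariant_of_prim hχ hprim hθ hu)) hφ hφθ with h | ⟨e, h, he⟩ | h
  · refine ⟨f, hmono, ?_, hf3⟩
    rwa [charDegree_congr (congrFun h 1 : θ 1 = φ 1)]
  · have hd : charDegree θ = e * charDegree φ := charDegree_of_apply_one (by
      rw [Nat.cast_mul, hφ.coe_charDegree]; exact congrFun h 1)
    have he0 : e ≠ 0 := by
      rintro rfl
      exact rel_ne L K he.symm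
    rw [hd, Nat.factorization_mul he0 hφ.charDegree_pos.ne', Finsupp.add_apply]
    by_cases hpe : p ∣ e
    · have h2 := chief_avg hLK.le hchief hab
        (exists_noncentral hLK.le hchief hp (he ▸ pow_dvd_pow_of_dvd hpe 2)) p
      rw [← he, Nat.factorization_pow, Finsupp.smul_apply, smul_eq_mul, mul_left_comm] at h2
      refine ⟨fun g => f g + ((cmod K L g).relIndex K).factorization p,
        fun g => (Nat.add_le_add_right (hf1 g) _).trans (cent_step hLK.le g p), ?_, fun g c hc => ?_⟩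
      · rw [Finset.sum_add_distrib, mul_add]
        omega
      · simp only [hf3 g c hc, cmod_mul g (hc K L hLK.le hchief hab
          (he ▸ hpe.trans (dvd_pow_self e two_ne_zero)))]
    · refine ⟨f, hmono, ?_, hf3⟩
      rwa [Nat.factorization_eq_zero_of_not_dvd hpe, zero_add]
  · rw [invariant_of_prim hχ hprim hφ hφχ, top_inf_eq] at h
    exact absurd h.1 hLK.ne'

/-- some coset of the centraliser of the `p`-chief factors consists of elements with big classes -/
theorem prim_class [Group.IsSolvable G] {χ : G → ℂ} (hχ : IsIrrCharacter G χ)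
    (hprim : ¬ ∃ H : Subgroup G, H ≠ ⊤ ∧ ∃ θ : H → ℂ, IsCharacter H θ ∧ indFun H θ = χ)
    {p : ℕ} (hp : p.Prime) : ∃ g : G, ∀ c, (c = 1 ∨ CentChief p c) →
      (charDegree χ).factorization p ≤ (Subgroup.centralizer {g * c}).index.factorization p := by
  have := Fintype.ofFinite (⊤ : Subgroup G)
  have hθ : IsIrrCharacter (⊤ : Subgroup G) fun n => χ n := hχ.comp_mulEquiv Subgroup.topEquiv
  obtain ⟨f, hf1, hf2, hf3⟩ := prim_aux hχ hprim hp ⊤ _ hθ (by
    rw [hθ.classInner_self]; exact one_ne_zero)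
  rw [charDegree_restrict] at hf2
  obtain ⟨g, -, hg⟩ := Finset.exists_le_of_sum_le (s := Finset.univ) Finset.univ_nonempty
    (f := fun _ : G => (charDegree χ).factorization p) (g := f) (by
      rwa [Finset.sum_const, Finset.card_univ, ← Nat.card_eq_fintype_card, smul_eq_mul])
  refine ⟨g, fun c hc => ?_⟩
  rw [← Subgroup.relIndex_top_right]
  refine le_trans ?_ (hf1 _)
  rcases hc with rfl | hc
  · rwa [mul_one]
  · rwa [hf3 g c hc]

end Cfsg.Agent.FG.BS
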