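import Mathlib
import Cfsg.Agent.FG.ShGr
import Cfsg.Agent.Loc.SSFT

/-!
Special families of subgroups for a coprime elementary abelian operator group, and bounds for the
class of terms of the lower central and derived series.
-/

set_option autoImplicit false
set_option linter.style.haveILetI false

namespace Cfsg.Agent.FG.Sh

open Subgroup Cfsg.Agent.GT.CopAct SemidirectProduct
open scoped commutatorElement

universe u

variable {G : Type u} [Group G] {A : Type*} [Group A]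

theorem mem_Fx_zpowers {φ : A →* MulAut G} {a : A} {x : G} :
    x ∈ Fx φ (zpowers a) ↔ φ a x = x := by
  refine ⟨fun hx => mem_Fx.1 hx a (mem_zpowers a), fun hx => mem_Fx.2 fun b hb => ?_⟩
  exact (show zpowers a ≤ (MulAction.stabilizer (MulAut G) x).comap φ from zpowers_le.2 hx) hb

theorem map_iter_der {G' : Type*} [Group G'] (f : G →* G') (n : ℕ) (X : Subgroup G) :
    ((fun Y => ⁅Y, Y⁆)^[n] X).map f = (fun Y => ⁅Y, Y⁆)^[n] (X.map f) := by
  induction n with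
  | zero => rfl
  | succ n ih => rw [Function.iterate_succ_apply', Function.iterate_succ_apply', map_commutator, ih]

theorem iter_der_mono (n : ℕ) {X X' : Subgroup G} (h : X ≤ X') :
    (fun Y => ⁅Y, Y⁆)^[n] X ≤ (fun Y => ⁅Y, Y⁆)^[n] X' := by
  induction n with
  | zero => exact h
  | succ n ih =>
    rw [Function.iterate_succ_apply', Function.iterate_succ_apply']
    exact commutator_mono ih ih

theorem derivedSeries_eq_iter (n : ℕ) :
    derivedSeries G n = (fun Y => ⁅Y, Y⁆)^[n] (⊤ : Subgroup G) := by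
  induction n with
  | zero => rfl
  | succ n ih => rw [Function.iterate_succ_apply', derivedSeries_succ, ih]

theorem map_derivedSeries_subtype (H : Subgroup G) (n : ℕ) :
    (derivedSeries H n).map H.subtype = (fun Y => ⁅Y, Y⁆)^[n] H := by
  rw [derivedSeries_eq_iter, map_iter_der, ← MonoidHom.range_eq_map, range_subtype]

theorem iter_der_le_lcs (n : ℕ) (X : Subgroup G) :
    (fun Y => ⁅Y, Y⁆)^[n] X ≤ X.lowerCentralSeries n := by
  induction n with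
  | zero => exact le_rfl
  | succ n ih =>
    rw [Function.iterate_succ_apply']
    exact commutator_mono ih (ih.trans (X.lowerCentralSeries_antitone (Nat.zero_le n)))

theorem lcs_mono (n : ℕ) {X X' : Subgroup G} (h : X ≤ X') :
    X.lowerCentralSeries n ≤ X'.lowerCentralSeries n := by
  induction n with
  | zero => exact h
  | succ n ih => exact commutator_mono ih h

variable [Finite G] [Finite A]

theorem lcs_eq_bot_of_solvable (hG : Group.IsSolvable G) {p : ℕ} (hp : p.Prime)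
    (hA : IsMulCommutative A) {φ : A →* MulAut G} (hcop : (Nat.card A).Coprime (Nat.card G))
    (hpG : p.Coprime (Nat.card G)) (𝓕 : Set (Subgroup G)) {s m e : ℕ} (hs : 𝓕.ncard ≤ s)
    (hinv : ∀ J ∈ 𝓕, ActInv φ J)
    (had : ∀ J ∈ 𝓕, ∀ B, Coc B → (fun Y => ⁅J, Y⁆)^[m] (Fx φ B) = ⊥)
    (hcl : ∀ J ∈ 𝓕, ∀ K ∈ 𝓕, ∀ B, Coc B → ∃ X ∈ 𝓕, ⁅J, K⁆ ⊓ Fx φ B ≤ X)
    {a : A} (ha : a ^ p = 1) (hae : (fun Y => ⁅Y, Y⁆)^[e] (Fx φ (zpowers a)) = ⊥) :
    (sSup 𝓕).lowerCentralSeries (bnd p s m e) = ⊥ := by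
  set W := sSup 𝓕 with hWdef
  have hW : ActInv φ W := fun b x hx =>
    (show W ≤ W.comap (φ b).toMonoidHom from sSup_le fun J hJ y hy =>
      le_sSup (a := J) hJ (hinv J hJ b y hy)) hx
  have hmap : ∀ J ∈ 𝓕, (J.subgroupOf W).map W.subtype = J := fun J hJ =>
    map_subgroupOf_eq_of_le (le_sSup hJ)
  have hFx : ∀ B, (Fx (subHom φ W hW) B).map W.subtype ≤ Fx φ B := by
    rintro B _ ⟨x, hx, rfl⟩
    exact mem_Fx.2 fun b hb => congrArg Subtype.val (mem_Fx.1 hx b hb)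
  have hc : (Nat.card A).Coprime (Nat.card W) := hcop.coprime_dvd_right (card_subgroup_dvd_card W)
  have hsup : sSup ((fun J => J.subgroupOf W) '' 𝓕) = ⊤ := by
    refine map_injective W.subtype_injective ?_
    rw [sSup_image, ← MonoidHom.range_eq_map, range_subtype, (gc_map_comap W.subtype).l_iSup₂]
    conv_rhs => rw [hWdef, sSup_eq_iSup]
    exact iSup_congr fun J => iSup_congr fun hJ => hmap J hJ
  have had' : ∀ J ∈ (fun J => J.subgroupOf W) '' 𝓕, ∀ B, Coc B →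
      (fun Y => ⁅J, Y⁆)^[m] (Fx (subHom φ W hW) B) = ⊥ := by
    rintro _ ⟨J, hJ, rfl⟩ B hB
    rw [← map_eq_bot_iff_of_injective _ W.subtype_injective, map_iter_ad, hmap J hJ, eq_bot_iff,
      ← had J hJ B hB]
    exact iter_ad_mono le_rfl m (hFx B)
  haveI := nilpotent_of_family hA m _ W rfl inferInstance (subHom φ W hW) hc _ hsup had'
  have := lcs_eq_bot_of_nilpotent hp hA hc (hpG.coprime_dvd_right (card_subgroup_dvd_card W)) _
    ((Set.ncard_image_le (Set.toFinite 𝓕)).trans hs) ?_ hsup had' ?_ ha (e := e) ?_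
  · rw [← top_subtype_lowerCentralSeries, show (⊤ : Subgroup W).lowerCentralSeries _ = ⊥ from this,
      Subgroup.map_bot]
  · rintro _ ⟨J, hJ, rfl⟩ b x hx
    exact hinv J hJ b x hx
  · rintro _ ⟨J, hJ, rfl⟩ _ ⟨K, hK, rfl⟩ B hB
    obtain ⟨X, hX, hle⟩ := hcl J hJ K hK B hB
    refine ⟨_, ⟨X, hX, rfl⟩, fun x hx => hle ⟨?_, hFx B ⟨x, hx.2, rfl⟩⟩⟩
    rw [← hmap J hJ, ← hmap K hK, ← map_commutator]
    exact ⟨x, hx.1, rfl⟩
  · rw [← map_eq_bot_iff_of_injective _ W.subtype_injective, map_iter_der, eq_bot_iff, ← hae]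
    exact iter_der_mono e (hFx _)

theorem solvable_of_fixed {p : ℕ} (hp : p.Prime) (hA : IsMulCommutative A)
    (hAp : ∀ a : A, a ^ p = 1) (h3 : p ^ 3 ≤ Nat.card A) (φ : A →* MulAut G)
    (hcop : (Nat.card A).Coprime (Nat.card G)) (hpG : p.Coprime (Nat.card G))
    (h : ∀ a : A, a ≠ 1 → Group.IsSolvable (Fx φ (zpowers a))) : Group.IsSolvable G := by
  haveI := Fact.mk hp
  haveI : Finite (G ⋊[φ] A) := Finite.of_equiv _ SemidirectProduct.equivProd.symm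
  have hel : IsElementaryAbelian p (sdR φ ⊤) := by
    refine ⟨isMulCommutative_sdR φ ⟨⟨fun a b => Subtype.ext (hA.is_comm.comm _ _)⟩⟩, ?_⟩
    rintro _ ⟨a, -, rfl⟩
    rw [← map_pow, hAp, map_one]
  have hθ : ∀ a : A, sdL φ ⊤ ⊓ centralizer {(inr a : G ⋊[φ] A)} = sdL φ (Fx φ (zpowers a)) := by
    intro a
    refine le_antisymm ?_ ?_
    · rintro _ ⟨⟨k, -, rfl⟩, hk⟩
      exact ⟨k, mem_Fx_zpowers.2 ((inl_mem_centralizer_inr φ).1 hk), rfl⟩
    · rintro _ ⟨k, hk, rfl⟩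
      exact ⟨⟨k, mem_top k, rfl⟩, (inl_mem_centralizer_inr φ).2 (mem_Fx.1 hk a (mem_zpowers a))⟩
  have hsf : Loc.Sig.SF p (sdR φ ⊤) (fun x => sdL φ ⊤ ⊓ centralizer {x}) := by
    refine ⟨hel, fun _ _ _ => inf_le_right, ?_⟩
    rintro _ ⟨a, -, rfl⟩ h1
    refine ⟨?_, ?_, ?_, fun b _ _ => inf_le_inf_right _ inf_le_left⟩
    · rw [hθ, isSolvable_sdL_iff]
      exact h a fun e => h1 (by rw [e, map_one])
    · rw [hθ, card_sdL]
      exact fun hd => hp.one_lt.ne' (Nat.eq_one_of_dvd_coprimes hpG dvd_rfl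
        (hd.trans (card_subgroup_dvd_card _)))
    · rw [hθ]
      exact (actInv_Fx hA φ _).sdR_le_normalizer ⊤
  have h3' : p ^ 3 ≤ Nat.card (sdR φ ⊤) := by rwa [card_sdR_top]
  have f := Loc.Sig.fam_iff.mpr (Loc.ssft hel h3' hsf.isSolvableSignalizerFunctor)
  have hle : sdL φ ⊤ ≤ signalizerClosure (sdR φ ⊤) (fun x => sdL φ ⊤ ⊓ centralizer {x}) :=
    le_of_centralizer_elt_le hel.1 (not_isCyclic_of_isElementaryAbelian hel
      ((Nat.pow_le_pow_right hp.pos (by norm_num)).trans h3'))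
      (sdR_le_normalizer_top φ ⊤) (coprime_sd_top φ hcop) fun a ha h1 =>
        le_iSup (fun a : {a : G ⋊[φ] A // a ∈ sdR φ ⊤ ∧ a ≠ 1} =>
          sdL φ ⊤ ⊓ centralizer {(a : G ⋊[φ] A)}) ⟨a, ha, h1⟩
  haveI := f.solv
  haveI := (isSolvable_sdL_iff φ ⊤).1
    (Group.isSolvable_of_isSolvable_injective (inclusion_injective hle))
  exact Group.isSolvable_of_surjective (f := (⊤ : Subgroup G).subtype)
    fun x => ⟨⟨x, mem_top x⟩, rfl⟩

/-- Fixed points of cocyclic subgroups. -/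
def S0 (φ : A →* MulAut G) : Set (Subgroup G) := Fx φ '' {B | Coc B}

/-- Commutators of members of two families, cut with fixed points of cocyclic subgroups. -/
def Step (φ : A →* MulAut G) (𝓕 𝓖 : Set (Subgroup G)) : Set (Subgroup G) :=
  (fun x : (Subgroup G × Subgroup G) × Subgroup A => ⁅x.1.1, x.1.2⁆ ⊓ Fx φ x.2) ''
    ((𝓕 ×ˢ 𝓖) ×ˢ {B | Coc B})

/-- Refinement of families. -/
def Ref (𝓕 𝓖 : Set (Subgroup G)) : Prop := ∀ J ∈ 𝓕, ∃ K ∈ 𝓖, J ≤ K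

omit [Finite G] [Finite A] in
theorem mem_step {φ : A →* MulAut G} {𝓕 𝓖 : Set (Subgroup G)} {J K : Subgroup G} {B : Subgroup A}
    (hJ : J ∈ 𝓕) (hK : K ∈ 𝓖) (hB : Coc B) : ⁅J, K⁆ ⊓ Fx φ B ∈ Step φ 𝓕 𝓖 :=
  ⟨((J, K), B), ⟨⟨hJ, hK⟩, hB⟩, rfl⟩

omit [Finite G] [Finite A] in
theorem Ref.step {φ : A →* MulAut G} {𝓕 𝓖 𝓕' 𝓖' : Set (Subgroup G)} (h : Ref 𝓕 𝓕')
    (h' : Ref 𝓖 𝓖') : Ref (Step φ 𝓕 𝓖) (Step φ 𝓕' 𝓖') := by
  rintro _ ⟨⟨⟨J, K⟩, B⟩, ⟨⟨hJ, hK⟩, hB⟩, rfl⟩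
  obtain ⟨J', hJ', h1⟩ := h J hJ
  obtain ⟨K', hK', h2⟩ := h' K hK
  exact ⟨_, mem_step hJ' hK' hB, inf_le_inf_right _ (commutator_mono h1 h2)⟩

omit [Finite G] in
theorem Ref.trans {𝓕 𝓖 𝓗 : Set (Subgroup G)} (h : Ref 𝓕 𝓖) (h' : Ref 𝓖 𝓗) : Ref 𝓕 𝓗 := by
  intro J hJ
  obtain ⟨K, hK, h1⟩ := h J hJ
  obtain ⟨L, hL, h2⟩ := h' K hK
  exact ⟨L, hL, h1.trans h2⟩

omit [Finite G] in
theorem Ref.refl (𝓕 : Set (Subgroup G)) : Ref 𝓕 𝓕 := fun J hJ => ⟨J, hJ, le_rfl⟩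

omit [Finite G] [Finite A] in
theorem ref_step_S0 (φ : A →* MulAut G) (𝓕 𝓖 : Set (Subgroup G)) : Ref (Step φ 𝓕 𝓖) (S0 φ) := by
  rintro _ ⟨⟨⟨J, K⟩, B⟩, ⟨-, hB⟩, rfl⟩
  exact ⟨_, ⟨B, hB, rfl⟩, inf_le_right⟩

theorem ncard_coc : {B : Subgroup A | Coc B}.ncard ≤ 2 ^ Nat.card A := by
  classical
  haveI := Fintype.ofFinite A
  refine (Set.ncard_le_card _).trans ((Nat.card_le_card_of_injective
    (fun B : Subgroup A => (B : Set A)) SetLike.coe_injective).trans ?_)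
  rw [Nat.card_eq_fintype_card, Fintype.card_set, Nat.card_eq_fintype_card]

omit [Finite A] in
theorem Coc.index_le {p : ℕ} (hp : p.Prime) (hA : IsMulCommutative A) (hAp : ∀ a : A, a ^ p = 1)
    {B : Subgroup A} (h : Coc B) : B.index ≤ p := by
  obtain ⟨a, ha⟩ := h
  haveI : B.Normal := ⟨fun x hx g => by rwa [hA.is_comm.comm g x, mul_inv_cancel_right]⟩
  rw [← relIndex_top_right, ← ha, relIndex_sup_left]
  refine Nat.le_of_dvd hp.pos ((relIndex_dvd_card _ _).trans ?_)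
  rw [Nat.card_zpowers]
  exact orderOf_dvd_of_pow_eq_one (hAp a)

/-- A family generating `w ⊤` whose members lie in `w` of fixed points of large subgroups. -/
structure Good (φ : A →* MulAut G) (p s j : ℕ) (w : Subgroup G → Subgroup G)
    (𝓕 : Set (Subgroup G)) : Prop where
  card : 𝓕.ncard ≤ s
  inv : ∀ J ∈ 𝓕, ActInv φ J
  sup : sSup 𝓕 = w ⊤
  loc : ∀ J ∈ 𝓕, ∃ D : Subgroup A, D.index ≤ p ^ j ∧ J ≤ w (Fx φ D)
  ref : Ref 𝓕 (S0 φ)
  mono : Monotone w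

variable {φ : A →* MulAut G} {p : ℕ}

theorem good_zero (hp : p.Prime) (hA : IsMulCommutative A) (hAp : ∀ a : A, a ^ p = 1)
    (hcop : (Nat.card A).Coprime (Nat.card G)) : Good φ p (2 ^ Nat.card A) 1 id (S0 φ) where
  card := (Set.ncard_image_le (Set.toFinite _)).trans ncard_coc
  inv := by rintro _ ⟨B, -, rfl⟩; exact actInv_Fx hA φ B
  sup := eq_top_iff.2 ((le_iSup_Fx hA hcop (actInv_top φ)).trans
    (iSup_le fun B => inf_le_right.trans (le_sSup ⟨B, B.2, rfl⟩)))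
  loc := by
    rintro _ ⟨B, hB, rfl⟩
    exact ⟨B, by rw [pow_one]; exact Coc.index_le hp hA hAp hB, le_rfl⟩
  ref := Ref.refl _
  mono := monotone_id

theorem Good.step (hA : IsMulCommutative A) (hcop : (Nat.card A).Coprime (Nat.card G))
    {s j s' j' : ℕ} {w w' : Subgroup G → Subgroup G} {𝓕 𝓖 : Set (Subgroup G)}
    (h : Good φ p s j w 𝓕) (h' : Good φ p s' j' w' 𝓖) (hle : w ⊤ ≤ w' ⊤)
    (hr : Ref (Step φ 𝓕 𝓖) 𝓕) :
    Good φ p (s * s' * 2 ^ Nat.card A) (j + j') (fun X => ⁅w X, w' X⁆) (Step φ 𝓕 𝓖) where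
  card := by
    refine (Set.ncard_image_le (Set.toFinite _)).trans ?_
    rw [Set.ncard_prod, Set.ncard_prod]
    exact Nat.mul_le_mul (Nat.mul_le_mul h.card h'.card) ncard_coc
  inv := by
    rintro _ ⟨⟨⟨J, K⟩, B⟩, ⟨⟨hJ, hK⟩, -⟩, rfl⟩
    exact ((h.inv J hJ).commutator (h'.inv K hK)).inf (actInv_Fx hA φ B)
  sup := by
    rw [← h.sup, ← h'.sup] at hle
    show _ = ⁅w ⊤, w' ⊤⁆
    rw [← h.sup, ← h'.sup]
    refine le_antisymm (sSup_le ?_) ?_
    · rintro _ ⟨⟨⟨J, K⟩, B⟩, ⟨⟨hJ, hK⟩, -⟩, rfl⟩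
      exact inf_le_left.trans (commutator_mono (le_sSup hJ) (le_sSup hK))
    have h1 : ∀ J ∈ 𝓕, ∀ K ∈ 𝓖, ⁅J, K⁆ ≤ sSup (Step φ 𝓕 𝓖) := fun J hJ K hK =>
      (le_iSup_Fx hA hcop ((h.inv J hJ).commutator (h'.inv K hK))).trans
        (iSup_le fun B => le_sSup (mem_step hJ hK B.2))
    have h2 : sSup 𝓖 ≤ normalizer (sSup (Step φ 𝓕 𝓖) : Subgroup G) := by
      refine sSup_le fun K hK => Loc.Sig.le_normalizer_iff_forall.2 fun k hk x hx => ?_
      refine (show sSup (Step φ 𝓕 𝓖) ≤ (sSup (Step φ 𝓕 𝓖)).comap (MulAut.conj k).toMonoidHom from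
        sSup_le fun X hX y hy => ?_) hx
      obtain ⟨J, hJ, hXJ⟩ := hr X hX
      have e : k * y * k⁻¹ = y * ⁅y⁻¹, k⁆ := by rw [commutatorElement_def]; group
      show k * y * k⁻¹ ∈ sSup (Step φ 𝓕 𝓖)
      rw [e]
      exact mul_mem (le_sSup (a := X) hX hy)
        (h1 J hJ K hK (commutator_mem_commutator (inv_mem (hXJ hy)) hk))
    rw [commutator_comm]
    refine commutator_le_of_le_iSup (sSup_eq_iSup' 𝓖).le (fun K => (le_sSup K.2).trans h2)
      fun K => ?_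
    rw [commutator_comm]
    exact commutator_le_of_le_iSup (sSup_eq_iSup' 𝓕).le
      (fun J => (le_sSup J.2).trans (hle.trans h2)) fun J => h1 J J.2 K K.2
  loc := by
    rintro _ ⟨⟨⟨J, K⟩, B⟩, ⟨⟨hJ, hK⟩, -⟩, rfl⟩
    obtain ⟨D, h1, h2⟩ := h.loc J hJ
    obtain ⟨D', h3, h4⟩ := h'.loc K hK
    refine ⟨D ⊓ D', index_inf_le.trans (by rw [pow_add]; exact Nat.mul_le_mul h1 h3),
      inf_le_left.trans (commutator_mono (h2.trans (h.mono (Fx_anti φ inf_le_left)))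
        (h4.trans (h'.mono (Fx_anti φ inf_le_right))))⟩
  ref := ref_step_S0 φ _ _
  mono := fun _ _ hXY => commutator_mono (h.mono hXY) (h'.mono hXY)

theorem exists_good_lcs (hp : p.Prime) (hA : IsMulCommutative A) (hAp : ∀ a : A, a ^ p = 1)
    (hcop : (Nat.card A).Coprime (Nat.card G)) (t : ℕ) :
    ∃ 𝓕, Good φ p ((fun s => s * 2 ^ Nat.card A * 2 ^ Nat.card A)^[t] (2 ^ Nat.card A)) (t + 1)
      (fun X => X.lowerCentralSeries t) 𝓕 ∧ Ref (Step φ 𝓕 (S0 φ)) 𝓕 := by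
  induction t with
  | zero => exact ⟨_, good_zero hp hA hAp hcop, ref_step_S0 φ _ _⟩
  | succ t ih =>
    obtain ⟨𝓕, h, hr⟩ := ih
    rw [Function.iterate_succ_apply']
    exact ⟨_, h.step hA hcop (good_zero hp hA hAp hcop) le_top hr, hr.step (Ref.refl _)⟩

theorem exists_good_der (hp : p.Prime) (hA : IsMulCommutative A) (hAp : ∀ a : A, a ^ p = 1)
    (hcop : (Nat.card A).Coprime (Nat.card G)) (t : ℕ) :
    ∃ 𝓕, Good φ p ((fun s => s * s * 2 ^ Nat.card A)^[t] (2 ^ Nat.card A)) (2 ^ t)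
      (fun X => (fun Y => ⁅Y, Y⁆)^[t] X) 𝓕 ∧ Ref (Step φ 𝓕 𝓕) 𝓕 := by
  induction t with
  | zero => exact ⟨_, good_zero hp hA hAp hcop, ref_step_S0 φ _ _⟩
  | succ t ih =>
    obtain ⟨𝓕, h, hr⟩ := ih
    simp only [Function.iterate_succ_apply']
    rw [pow_succ, mul_two]
    exact ⟨_, h.step hA hcop h le_rfl hr, hr.step hr⟩

theorem Good.lcs_eq_bot (hp : p.Prime) (hA : IsMulCommutative A) (hAp : ∀ a : A, a ^ p = 1)
    {k : ℕ} (hk : Nat.card A = p ^ k) (hk3 : 3 ≤ k) (hpG : p.Coprime (Nat.card G))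
    {s j t c : ℕ} {w : Subgroup G → Subgroup G} {𝓕 : Set (Subgroup G)} (h : Good φ p s j w 𝓕)
    (hr : Ref (Step φ 𝓕 𝓕) 𝓕) (hj : j + 2 ≤ k) (hwn : ∀ H, ⁅w H, H⁆ ≤ w H)
    (hwd : ∀ H, (fun Y => ⁅Y, Y⁆)^[t] H ≤ w H)
    (hc : ∀ a : A, a ≠ 1 → (w (Fx φ (zpowers a))).lowerCentralSeries c = ⊥) :
    (w ⊤).lowerCentralSeries (bnd p s (c + 1) (c + t)) = ⊥ := by
  have hcop : (Nat.card A).Coprime (Nat.card G) := hk ▸ hpG.pow_left k
  have hder : ∀ a : A, a ≠ 1 → (fun Y => ⁅Y, Y⁆)^[c + t] (Fx φ (zpowers a)) = ⊥ := by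
    intro a ha
    rw [Function.iterate_add_apply, eq_bot_iff, ← hc a ha]
    exact (iter_der_mono c (hwd _)).trans (iter_der_le_lcs c _)
  have hG : Group.IsSolvable G := solvable_of_fixed hp hA hAp
    (hk ▸ Nat.pow_le_pow_right hp.pos hk3) φ hcop hpG fun a ha => ⟨⟨c + t, by
      rw [← map_eq_bot_iff_of_injective _ (Fx φ (zpowers a)).subtype_injective,
        map_derivedSeries_subtype, hder a ha]⟩⟩
  have hne : ∀ D : Subgroup A, D.index < p ^ k → ∃ a ∈ D, a ≠ 1 := by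
    intro D hD
    obtain ⟨a, ha⟩ := (ne_bot_iff_exists_ne_one (H := D)).1 fun e => by
      rw [e, index_bot, hk] at hD
      exact lt_irrefl _ hD
    exact ⟨a, a.2, fun e => ha (Subtype.ext e)⟩
  obtain ⟨a, -, ha⟩ := hne ⊤ (by rw [index_top]; exact Nat.one_lt_pow (by omega) hp.one_lt)
  rw [← h.sup]
  refine lcs_eq_bot_of_solvable hG hp hA hcop hpG 𝓕 h.card h.inv (fun J hJ B hB => ?_)
    (fun J hJ K hK B hB => hr _ (mem_step hJ hK hB)) (hAp a) (hder a ha)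
  obtain ⟨D, h1, h2⟩ := h.loc J hJ
  obtain ⟨b, hb, hb1⟩ := hne (D ⊓ B) (lt_of_le_of_lt (index_inf_le.trans
    (Nat.mul_le_mul h1 (hB.index_le hp hA hAp))) (by
      rw [← pow_succ]; exact Nat.pow_lt_pow_right hp.one_lt (by omega)))
  have h3 : J ≤ w (Fx φ (zpowers b)) := h2.trans (h.mono (Fx_anti φ (zpowers_le.2 hb.1)))
  have h4 : ∀ n, (fun Y => ⁅J, Y⁆)^[n + 1] (Fx φ B) ≤
      (w (Fx φ (zpowers b))).lowerCentralSeries n := by
    intro n
    induction n with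
    | zero => exact (commutator_mono h3 (Fx_anti φ (zpowers_le.2 hb.2))).trans (hwn _)
    | succ n ih =>
      rw [Function.iterate_succ_apply', commutator_comm]
      exact commutator_mono ih h3
  exact eq_bot_iff.2 (hc b hb1 ▸ h4 c)

omit [Finite G] in
theorem eqLocus_eq_Fx (A : Subgroup (MulAut G)) (a : A) :
    (a : MulAut G).toMonoidHom.eqLocus (MonoidHom.id G) = Fx A.subtype (zpowers a) :=
  Subgroup.ext fun _ => (mem_Fx_zpowers (φ := A.subtype)).symm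

end Cfsg.Agent.FG.Sh
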