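import Mathlib
import Cfsg.Prelude.Def_Transfer

/-! A model of the wreath product of the dihedral group of order `8` by a group of order `2`. -/

set_option autoImplicit false

namespace Cfsg.Agent.FG.WrD8

open Subgroup

/-- The dihedral group of order `8` as the Heisenberg group over the field with two elements. -/
structure D8 where
  u : Bool
  w : Bool
  z : Bool
  deriving DecidableEq

instance : Fintype D8 := Fintype.ofEquiv (Bool × Bool × Bool)
  ⟨fun p => ⟨p.1, p.2.1, p.2.2⟩, fun d => (d.u, d.w, d.z), fun _ => rfl, fun _ => rfl⟩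

instance (p : D8 → Prop) [DecidablePred p] : Decidable (∀ d, p d) :=
  decidable_of_iff (∀ u w z, p ⟨u, w, z⟩) ⟨fun h d => h d.u d.w d.z, fun h _ _ _ => h _⟩
instance (p : D8 → Prop) [DecidablePred p] : Decidable (∃ d, p d) :=
  decidable_of_iff (∃ u w z, p ⟨u, w, z⟩)
    ⟨fun ⟨_, _, _, h⟩ => ⟨_, h⟩, fun ⟨d, h⟩ => ⟨d.u, d.w, d.z, h⟩⟩

instance : Mul D8 := ⟨fun x y => ⟨xor x.u y.u, xor x.w y.w, xor (xor x.z y.z) (x.w && y.u)⟩⟩
instance : One D8 := ⟨⟨false, false, false⟩⟩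
instance : Inv D8 := ⟨fun x => ⟨x.u, x.w, xor x.z (x.u && x.w)⟩⟩
instance : Group D8 := Group.ofLeftAxioms (by decide +kernel) (by decide +kernel) (by decide +kernel)

/-- The wreath product. -/
structure M where
  a : D8
  b : D8
  s : Bool
  deriving DecidableEq

instance : Fintype M := Fintype.ofEquiv (D8 × D8 × Bool)
  ⟨fun p => ⟨p.1, p.2.1, p.2.2⟩, fun d => (d.a, d.b, d.s), fun _ => rfl, fun _ => rfl⟩

instance (p : M → Prop) [DecidablePred p] : Decidable (∀ d, p d) :=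
  decidable_of_iff (∀ s a b, p ⟨a, b, s⟩) ⟨fun h d => h d.s d.a d.b, fun h _ _ _ => h _⟩
instance (p : M → Prop) [DecidablePred p] : Decidable (∃ d, p d) :=
  decidable_of_iff (∃ s a b, p ⟨a, b, s⟩)
    ⟨fun ⟨_, _, _, h⟩ => ⟨_, h⟩, fun ⟨d, h⟩ => ⟨d.s, d.a, d.b, h⟩⟩

instance : Mul M := ⟨fun x y => ⟨x.a * cond x.s y.b y.a, x.b * cond x.s y.a y.b, xor x.s y.s⟩⟩
instance : One M := ⟨⟨1, 1, false⟩⟩
instance : Inv M := ⟨fun x => ⟨cond x.s x.b⁻¹ x.a⁻¹, cond x.s x.a⁻¹ x.b⁻¹, x.s⟩⟩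

theorem mul_def (x y : M) :
    x * y = ⟨x.a * cond x.s y.b y.a, x.b * cond x.s y.a y.b, xor x.s y.s⟩ := rfl

instance : Group M := Group.ofLeftAxioms (by
  rintro ⟨a, b, _ | _⟩ ⟨c, d, _ | _⟩ ⟨e, f, _ | _⟩ <;> simp [mul_def, mul_assoc])
  (by decide +kernel) (by decide +kernel)

def U : Subgroup M where
  carrier := {m | m.s = false ∧ m.a.w = false ∧ m.b.w = false}
  mul_mem' := by simp only [Set.mem_ofPred_eq]; decide +kernel
  one_mem' := ⟨rfl, rfl, rfl⟩
  inv_mem' := by simp only [Set.mem_ofPred_eq]; decide +kernel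

def W : Subgroup M where
  carrier := {m | m.s = false ∧ m.a.u = false ∧ m.b.u = false}
  mul_mem' := by simp only [Set.mem_ofPred_eq]; decide +kernel
  one_mem' := ⟨rfl, rfl, rfl⟩
  inv_mem' := by simp only [Set.mem_ofPred_eq]; decide +kernel

def D : Subgroup M where
  carrier := {m | m.s = false}
  mul_mem' := by simp only [Set.mem_ofPred_eq]; decide +kernel
  one_mem' := rfl
  inv_mem' := by simp only [Set.mem_ofPred_eq]; decide +kernel

def H : Subgroup M where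
  carrier := {m | m.s = false ∧ m.a.w = false ∧ m.a.z = false}
  mul_mem' := by simp only [Set.mem_ofPred_eq]; decide +kernel
  one_mem' := ⟨rfl, rfl, rfl⟩
  inv_mem' := by simp only [Set.mem_ofPred_eq]; decide +kernel

instance (m : M) : Decidable (m ∈ U) :=
  inferInstanceAs (Decidable (m.s = false ∧ m.a.w = false ∧ m.b.w = false))
instance (m : M) : Decidable (m ∈ W) :=
  inferInstanceAs (Decidable (m.s = false ∧ m.a.u = false ∧ m.b.u = false))
instance (m : M) : Decidable (m ∈ D) := inferInstanceAs (Decidable (m.s = false))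
instance (m : M) : Decidable (m ∈ H) :=
  inferInstanceAs (Decidable (m.s = false ∧ m.a.w = false ∧ m.a.z = false))
instance (m : M) : Decidable (m ∈ U ⊓ W) := inferInstanceAs (Decidable (m ∈ U ∧ m ∈ W))

def z1 : M := ⟨⟨false, false, true⟩, 1, false⟩
def z : M := ⟨⟨false, false, true⟩, ⟨false, false, true⟩, false⟩
def t : M := ⟨1, 1, true⟩
def uu : M := ⟨⟨true, false, false⟩, ⟨true, false, false⟩, false⟩

theorem card_M : Nat.card M = 128 := by rw [Nat.card_eq_fintype_card]; decide +kernel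
theorem card_U : Nat.card U = 16 := by rw [Nat.card_eq_fintype_card]; decide +kernel
theorem card_W : Nat.card W = 16 := by rw [Nat.card_eq_fintype_card]; decide +kernel
theorem card_D : Nat.card D = 64 := by rw [Nat.card_eq_fintype_card]; decide +kernel
theorem card_H : Nat.card H = 16 := by rw [Nat.card_eq_fintype_card]; decide +kernel
theorem card_UW : Nat.card ↥(U ⊓ W) = 4 := by rw [Nat.card_eq_fintype_card]; decide +kernel
theorem card_X : Nat.card {m : M // m ∉ D ∧ m * m = 1} = 8 := by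
  rw [Nat.card_eq_fintype_card]; decide +kernel

theorem core_H : ∀ m : M, (∀ g : M, g * m * g⁻¹ ∈ H) → m = 1 := by decide +kernel
theorem cen_iff : ∀ m : M, (∀ g : M, g * m = m * g) ↔ m = 1 ∨ m = z := by decide +kernel
theorem U_conj : ∀ m ∈ U, ∀ g : M, g * m * g⁻¹ ∈ U := by decide +kernel
theorem W_conj : ∀ m ∈ W, ∀ g : M, g * m * g⁻¹ ∈ W := by decide +kernel
theorem U_sq : ∀ m ∈ U, m * m = 1 := by decide +kernel
theorem W_sq : ∀ m ∈ W, m * m = 1 := by decide +kernel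
theorem mem_or : ∀ m : M, m ∉ U → m ∉ W → m * m = 1 →
    ∃ g : M, m * (g * m * g⁻¹) ≠ g * m * g⁻¹ * m := by decide +kernel
theorem D_eq (d : M) (h : d ∈ D) : ∃ u ∈ U, ∃ w ∈ W, d = u * w :=
  ⟨⟨⟨d.a.u, false, d.a.z⟩, ⟨d.b.u, false, d.b.z⟩, false⟩, ⟨rfl, rfl, rfl⟩,
    ⟨⟨false, d.a.w, false⟩, ⟨false, d.b.w, false⟩, false⟩, ⟨rfl, rfl, rfl⟩, by
      revert d; decide +kernel⟩
theorem UW_cases : ∀ m ∈ U ⊓ W, m = 1 ∨ m = z ∨ m = z1 ∨ m = z1 * z := by decide +kernel
theorem U_a : ∀ u ∈ U, (∃ w ∈ W, u * w = z1 * (w * u)) ↔ u.a.u = true := by decide +kernel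
theorem U_b : ∀ u ∈ U, (∃ w ∈ W, u * w = z1 * z * (w * u)) ↔ u.b.u = true := by decide +kernel
theorem W_a : ∀ u ∈ W, (∃ w ∈ U, u * w = z1 * (w * u)) ↔ u.a.w = true := by decide +kernel
theorem W_b : ∀ u ∈ W, (∃ w ∈ U, u * w = z1 * z * (w * u)) ↔ u.b.w = true := by decide +kernel
theorem U_det : ∀ u ∈ U, ∀ u' ∈ U, (u'.a.u = true ↔ u.a.u = true) →
    (u'.b.u = true ↔ u.b.u = true) → u⁻¹ * u' ∈ U ⊓ W := by decide +kernel
theorem W_det : ∀ u ∈ W, ∀ u' ∈ W, (u'.a.w = true ↔ u.a.w = true) →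
    (u'.b.w = true ↔ u.b.w = true) → u⁻¹ * u' ∈ U ⊓ W := by decide +kernel
theorem D_sq : ∀ d ∈ D, d * d ∈ U ⊓ W := by decide +kernel
theorem UW_cen : ∀ c ∈ U ⊓ W, ∀ d ∈ D, c * d = d * c := by decide +kernel
theorem cen_D : ∀ m : M, (∀ d ∈ D, m * d = d * m) → m ∈ U ⊓ W := by decide +kernel
theorem cen_X : ∀ m : M, (∀ x : M, x ∉ D → x * x = 1 → m * x = x * m) → m = 1 ∨ m = z := by
  decide +kernel

end Cfsg.Agent.FG.WrD8
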